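import Cfsg.Statements.S0955
import Cfsg.Agent.H7.Induce
import Cfsg.Agent.H1.Cores
import Cfsg.Agent.H3.Fusion
-- import your own Cfsg.Agent.* helpers here

set_option autoImplicit false
open Cfsg

namespace Cfsg.Agent.S0955

open MonoidAlgebra Cfsg.Agent.H3 Cfsg.Agent.H4 Cfsg.Agent.H7
open Cfsg.Agent.H6 (Res locRing redC redA eB fB intAlg classSum omega chiL)
open scoped Pointwise
set_option linter.style.haveILetI false


/-- Let D be a defect group of a block of the finite group G relative to a maximal ideal M of the algebraic integers containing the prime p. Then D is the largest normal p-subgroup of its own normalizer: O_p(N_G(D)) = D. -/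
theorem result {G : Type*} [Group G] [Finite G] (p : ℕ) [Fact p.Prime] (M : Ideal Cfsg.AlgInt) (hM : Cfsg.IsPModular p M) (B : Set (Cfsg.IrrCharacter G)) (hB : Cfsg.IsPBlock M B) (D : Subgroup G) (hD : Cfsg.IsDefectGroup p M B D) : (Cfsg.pCore p (Subgroup.normalizer (D : Set G))).map (Subgroup.normalizer (D : Set G)).subtype = D := by
  haveI := hM.2.1
  haveI := H6.charP_res hM
  have h := (isDefectGroup_iff hM hB).1 hD
  refine le_antisymm ?_ (H1.le_map_pCore Subgroup.le_normalizer le_rfl h.isPGroup)
  have h1 := h.br_isDef (eB_mem_Fix B)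
  refine h1.le_of_normal (CK_le_normalizer_inf le_rfl) (H1.isPGroup_map_pCore p _)
    (le_inf (Subgroup.map_subtype_le _) le_top) (inf_le_left.trans (le_normalizer_map_subtype _))
    (br_mem_Fix (eB_mem_Fix B)) (br_idem p h.isPGroup ((eB_mem_Fix B).2.mono le_top) (blk_eB hB).idem)

end Cfsg.Agent.S0955
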