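import Cfsg.Statements.S0102
import Cfsg.Agent.H3.Misc1

set_option autoImplicit false
open Cfsg

namespace Cfsg.Agent.S0102

open Cfsg.Agent.H3

/-- A finite perfect group with cyclic Sylow p-subgroups has no perfect central extension whose kernel has order divisible by p. -/
theorem result {G : Type*} {H : Type*} [Group G] [Group H] [Finite G] [Finite H] (hG : commutator G = ⊤) {p : ℕ} [Fact p.Prime] (hcyc : ∀ P : Sylow p G, IsCyclic P) (σ : H →* G) (hσ : Function.Surjective σ) (hz : σ.ker ≤ Subgroup.center H) (hH : commutator H = ⊤) : ¬ p ∣ Nat.card σ.ker := by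
  obtain ⟨P⟩ : Nonempty (Sylow p H) := inferInstance
  rw [← (sylowIn_inf_normal P σ.ker).eq_bot_iff, eq_bot_iff]
  have h1 : IsCyclic ((P : Subgroup H).map σ) := by
    have := hcyc (P.mapSurjective hσ)
    rwa [Sylow.coe_mapSurjective] at this
  have h2 : IsMulCommutative P := ⟨⟨commutative_of_cyclic_center_quotient
    (σ.subgroupMap (P : Subgroup H)) fun x hx => Subgroup.mem_center_iff.mpr fun y =>
      Subtype.ext (Subgroup.mem_center_iff.mp (hz (congrArg Subtype.val hx)) y)⟩⟩
  have h3 : ⁅(P : Subgroup H), (P : Subgroup H)⁆ = ⊥ :=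
    Subgroup.commutator_eq_bot_iff_le_centralizer.mpr (P : Subgroup H).le_centralizer
  exact fun z hz' => h3 ▸ mem_commutator_of_mem_center
    P.card_coprime_index hz'.1 (hH ▸ trivial) (hz hz'.2)

end Cfsg.Agent.S0102
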