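import Cfsg.Statements.S0247
import Cfsg.Agent.H13.PermMod

set_option autoImplicit false
open Cfsg

namespace Cfsg.Agent.S0247

/-- Sp_4(2) is isomorphic to the symmetric group S_6. -/
theorem result {F : Type*} [Field F] [Fintype F] (hF : Fintype.card F = 2) : Nonempty (Matrix.symplecticGroup (Fin 2) F ≃* Equiv.Perm (Fin 6)) := by
  let σ := (ZMod.ringEquivOfPrime F Nat.prime_two hF).symm
  have : CharP F 2 := charP_of_injective_ringHom (f := σ.symm.toRingHom) σ.symm.injective 2
  obtain ⟨e⟩ := H13.nonempty_sp_congr σ 2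
  obtain ⟨e'⟩ := H13.nonempty_sp4_two
  exact ⟨e.trans e'⟩

end Cfsg.Agent.S0247
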