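import Cfsg.Statements.S5945
import Cfsg.Agent.H18.Msc2
-- import your own Cfsg.Agent.* helpers here

set_option autoImplicit false
open Cfsg

namespace Cfsg.Agent.S5945

/-- The symmetric group S_6 has exactly 12 subgroups of index 6; each of them is isomorphic to S_5, and at least one of them is not the stabilizer of any point. -/
theorem result : Nat.card {H : Subgroup (Equiv.Perm (Fin 6)) // H.index = 6} = 12 ∧ (∀ H : Subgroup (Equiv.Perm (Fin 6)), H.index = 6 → Nonempty (H ≃* Equiv.Perm (Fin 5))) ∧ ∃ H : Subgroup (Equiv.Perm (Fin 6)), H.index = 6 ∧ ∀ a : Fin 6, H ≠ MulAction.stabilizer (Equiv.Perm (Fin 6)) a := by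
  obtain ⟨f, h1, h2⟩ := H18.exists_index_six (α := Fin 6) (by simp)
  have h3 := H18.stabilizer_perm_injective (α := Fin 6) (by simp)
  have h4 : ∀ x : Fin 6, Nonempty (MulAction.stabilizer (Equiv.Perm (Fin 6)) x ≃* Equiv.Perm (Fin 5)) :=
    fun x => ⟨((MulEquiv.subgroupCongr (H18.range_ofSubtype_ne x).symm).trans (MonoidHom.ofInjective
      Equiv.Perm.ofSubtype_injective).symm).trans (Fintype.equivFinOfCardEq (by simp)).permCongrHom⟩
  refine ⟨?_, fun H hH => ?_, _, H18.index_comap_stabilizer f 0, h1 0⟩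
  · rw [← Nat.card_eq_of_bijective (Sum.elim (fun x => ⟨_, H18.index_comap_stabilizer 1 x⟩)
      (fun x => ⟨_, H18.index_comap_stabilizer f x⟩) : Fin 6 ⊕ Fin 6 → _) ⟨?_, ?_⟩]
    · simp
    · rintro (x | x) (y | y) h <;> replace h := congrArg Subtype.val h
      · rw [h3 h]
      · exact absurd h.symm (h1 _ _)
      · exact absurd h (h1 _ _)
      · rw [h3 (Subgroup.comap_injective f.surjective h)]
    · rintro ⟨H, hH⟩
      obtain ⟨x, rfl | rfl⟩ := h2 H hH
      exacts [⟨.inl x, rfl⟩, ⟨.inr x, rfl⟩]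
  obtain ⟨x, rfl | rfl⟩ := h2 H hH
  · exact h4 x
  · exact (h4 x).map fun e => (MulEquiv.subgroupCongr (Subgroup.comap_equiv_eq_map_symm' _ _)).trans
      ((f.symm.subgroupMap _).symm.trans e)

end Cfsg.Agent.S5945
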