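import Cfsg.Statements.S0547
import Mathlib
import Cfsg.Agent.H2.Prim

set_option autoImplicit false
open Cfsg

namespace Cfsg.Agent.S0547

/-- Let a finite solvable group G act faithfully and primitively on a set, and let M be a minimal normal subgroup of G. Then M is transitive with trivial point stabilizers, and the number of points equals the order of M, which is a prime power p ^ d with d ≥ 1. -/
theorem result {G : Type*} [Group G] [Finite G] [Group.IsSolvable G] {Ω : Type*} [Nonempty Ω] [MulAction G Ω] [FaithfulSMul G Ω] (hprim : MulAction.IsPreprimitive G Ω) (M : Subgroup G) [M.Normal] (hM : M ≠ ⊥) (hmin : ∀ K : Subgroup G, K.Normal → K ≤ M → K = ⊥ ∨ K = M) : MulAction.IsPretransitive M Ω ∧ (∀ ω : Ω, MulAction.stabilizer M ω = ⊥) ∧ ∃ p d : ℕ, p.Prime ∧ 0 < d ∧ Nat.card Ω = p ^ d ∧ Nat.card M = p ^ d := by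
  have mM : H2.IsMinNormal M := ⟨‹_›, hM, hmin⟩
  obtain ⟨hcomm, p, hp, hpM⟩ := mM.exists_isPGroup inferInstance
  have key : ∀ ω : Ω, Subgroup.IsComplement' M (MulAction.stabilizer G ω) := fun ω =>
    H2.isComplement'_of_normal (H2.inf_eq_bot_of_core (H2.isCoatom_stabilizer_of_ne_bot hprim hM ω)
      (H2.normalCore_stabilizer_eq_bot ω) hM) (H2.sup_eq_top_of_core
      (H2.isCoatom_stabilizer_of_ne_bot hprim hM ω) (H2.normalCore_stabilizer_eq_bot ω) hM)
  refine ⟨⟨fun x y => ?_⟩, fun ω => ?_, ?_⟩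
  · obtain ⟨g, rfl⟩ := MulAction.exists_smul_eq G x y
    obtain ⟨m, hm, u, hu, rfl⟩ := (H2.fac_of_isComplement' (key x)).top g
    refine ⟨⟨m, hm⟩, ?_⟩
    rw [mul_smul, MulAction.mem_stabilizer_iff.1 hu]; rfl
  · rw [eq_bot_iff]
    intro x hx
    have : (x : G) ∈ M ⊓ MulAction.stabilizer G ω := ⟨x.2, hx⟩
    rw [disjoint_iff.1 (key ω).disjoint] at this
    exact Subgroup.mem_bot.2 (Subtype.ext this)
  · haveI := Fact.mk hp
    obtain ⟨d, hd⟩ := IsPGroup.iff_card.1 hpM
    obtain ⟨ω⟩ := ‹Nonempty Ω›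
    refine ⟨p, d, hp, ?_, ?_, hd⟩
    · refine Nat.pos_of_ne_zero fun h => hM ?_
      rw [h, pow_zero] at hd
      exact Subgroup.card_eq_one.1 hd
    · rw [← hd, ← MulAction.index_stabilizer_of_transitive G ω, (key ω).index_eq_card]

end Cfsg.Agent.S0547
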