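import Cfsg.Statements.S4550
import Cfsg.Agent.H8.Princ
import Cfsg.Agent.H4.Galois
import Cfsg.Agent.H6.PPart
-- import your own Cfsg.Agent.* helpers here

set_option autoImplicit false
open Cfsg

namespace Cfsg.Agent.S4550

open Cfsg.Agent.H4 Cfsg.Agent.H5


/-- Let G be a finite group of even order and M a maximal ideal of the algebraic integers containing 2. Let k be a natural number with g ^ k = g ^ 3 for every 2-element g and g ^ k = g for every element g of odd order (such k exist); an irreducible character χ is unchanged by g ↦ g ^ k exactly when it is fixed by the field automorphism that cubes the 2-power roots of unity and fixes the roots of unity of odd order. Then the number of members χ of the principal 2-block of odd degree with χ (g ^ k) = χ g for all g is even. -/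
theorem result {G : Type*} [Group G] [Finite G] (M : Ideal Cfsg.AlgInt) (hM : Cfsg.IsPModular 2 M) (hev : Even (Nat.card G)) (k : ℕ) (hk₁ : ∀ g : G, (∃ j : ℕ, orderOf g = 2 ^ j) → g ^ k = g ^ 3) (hk₂ : ∀ g : G, Odd (orderOf g) → g ^ k = g) : Even (Nat.card {χ : Cfsg.IrrCharacter G // χ ∈ Cfsg.principalBlock M G ∧ Odd (Cfsg.charDegree (χ : G → ℂ)) ∧ ∀ g : G, (χ : G → ℂ) (g ^ k) = (χ : G → ℂ) g}) := by
  classical
  haveI := Fintype.ofFinite G
  haveI := hM.2.1
  have hpow : ∀ g : G, g ^ k ^ 2 ^ Nat.card G = g := by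
    intro g
    obtain ⟨x, y, rfl, hc, ⟨j, hj⟩, hy⟩ := H6.exists_isPPart Nat.prime_two g
    have h1 : ∀ n, x ^ k ^ n = x ^ 3 ^ n := by
      intro n
      induction n with
      | zero => simp
      | succ n ih =>
        rw [pow_succ, pow_mul, ih, pow_succ, pow_mul]
        refine hk₁ _ ?_
        obtain ⟨i, -, hi⟩ := (Nat.dvd_prime_pow Nat.prime_two).1 (hj ▸ orderOf_pow_dvd (3 ^ n))
        exact ⟨i, hi⟩
    have h2 : ∀ n, y ^ k ^ n = y := by
      intro n
      induction n with
      | zero => simp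
      | succ n ih => rw [pow_succ, pow_mul, ih, hk₂ y (Nat.odd_iff.2 (by omega))]
    rw [Commute.mul_pow hc, h1, h2]
    congr 1
    have h3 : (2 : ℤ) ^ (Nat.card G + 1) ∣ 3 ^ 2 ^ Nat.card G - 1 ^ 2 ^ Nat.card G :=
      dvd_sub_pow_of_dvd_sub (R := ℤ) (p := 2) (by norm_num) _
    have h4 : j ≤ Nat.card G + 1 := by
      have := Nat.le_of_dvd Nat.card_pos (hj ▸ orderOf_dvd_natCard x)
      have := Nat.lt_two_pow_self (n := j)
      omega
    conv_rhs => rw [← pow_one x]
    rw [pow_eq_pow_iff_modEq, hj]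
    refine (Nat.modEq_iff_dvd.2 ?_).symm
    push_cast
    rw [one_pow] at h3
    exact (pow_dvd_pow 2 h4).trans h3
  have hcop : k.Coprime (Nat.card G) := by
    refine Nat.Coprime.symm (Nat.coprime_of_dvd fun r hr h1 h2 => ?_)
    haveI := Fact.mk hr
    obtain ⟨g, hg⟩ := exists_prime_orderOf_dvd_card' r h1
    have h3 := hpow g
    rw [orderOf_dvd_iff_pow_eq_one.1 (hg ▸ h2.trans (dvd_pow_self k (by positivity)))] at h3
    rw [← h3, orderOf_one] at hg
    exact hr.one_lt.ne hg
  set X := {χ : IrrCharacter G // χ ∈ principalBlock M G ∧ Odd (charDegree (χ : G → ℂ))}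
  have hmem : ∀ χ : X, (⟨_, χ.1.2.comp_pow hcop⟩ : IrrCharacter G) ∈ principalBlock M G ∧
      Odd (charDegree fun g => χ.1.1 (g ^ k)) := by
    intro χ
    constructor
    · have h1 := (H8.mem_principal_iff hM _).1 χ.2.1
      rw [H8.mem_principal_iff hM]
      refine fun h => h1 (Eq.trans (Finset.sum_congr rfl fun g _ => Eq.symm ?_) h)
      rw [H8.pReg_eq_ite, H8.pReg_eq_ite]
      split_ifs with h
      · rfl
      · change χ.1.1 (g ^ k) = _
        rw [hk₂ g (Nat.odd_iff.2 (by omega))]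
    · have := χ.2.2
      unfold charDegree at this ⊢
      simpa using this
  set f : Function.End X := fun χ => ⟨⟨_, χ.1.2.comp_pow hcop⟩, hmem χ⟩
  have hf : ∀ n (χ : X) g, ((f ^ n) χ).1.1 g = χ.1.1 (g ^ k ^ n) := by
    intro n
    induction n with
    | zero => intro χ g; simp; rfl
    | succ n ih =>
      intro χ g
      rw [pow_succ', pow_succ', pow_mul, ← ih]; rfl
  have h1 := Equiv.Perm.card_fixedPoints_modEq (f := f) (p := 2) (n := Nat.card G) (by
    funext χ
    apply Subtype.ext; apply Subtype.ext; funext g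
    rw [hf, hpow]; rfl)
  have h2 : Nat.card {χ : IrrCharacter G // χ ∈ principalBlock M G ∧
      Odd (charDegree (χ : G → ℂ)) ∧ ∀ g : G, (χ : G → ℂ) (g ^ k) = (χ : G → ℂ) g} =
      Fintype.card f.fixedPoints := by
    rw [← Nat.card_eq_fintype_card]
    refine Nat.card_congr ⟨fun χ => ⟨⟨χ.1, χ.2.1, χ.2.2.1⟩,
      Subtype.ext (Subtype.ext (funext χ.2.2.2))⟩, fun χ => ⟨χ.1.1, χ.1.2.1, χ.1.2.2,
      fun g => congrFun (congrArg (fun x : X => x.1.1) χ.2) g⟩, fun _ => rfl, fun _ => rfl⟩
  rw [h2, Nat.even_iff, ← h1]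
  have h3 := H8.pow_dvd_sum_rdeg_sq hM (H8.isPBlock_principal (G := G))
  have h4 : 2 ∣ ∑ ψ ∈ H8.bfin (principalBlock M G), charDegree (ψ : G → ℂ) ^ 2 := by
    simp only [H8.rdeg_principal hM] at h3
    refine (dvd_pow_self 2 ?_).trans h3
    rw [H8.defect_principal hM]
    exact (Nat.prime_two.factorization_pos_of_dvd Nat.card_pos.ne' hev.two_dvd).ne'
  have h5 := (Finset.even_sum_iff_even_card_odd _).1 (even_iff_two_dvd.2 h4)
  rw [← Nat.even_iff]
  convert h5
  rw [Fintype.card_subtype]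
  congr 1
  ext χ
  simp [H8.mem_bfin, Nat.odd_pow_iff]

end Cfsg.Agent.S4550
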