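import Cfsg.Statements.S0115
import Cfsg.Agent.H26.Taussky

set_option autoImplicit false
open Cfsg

namespace Cfsg.Agent.S0115


/-- A 2-group of order 2^n, n ≥ 3, is of maximal class exactly when its commutator quotient is a Klein four-group. -/
theorem result {X : Type*} [Group X] [Finite X] (n : ℕ) (hn : 3 ≤ n) (hX : Nat.card X = 2 ^ n) : Group.nilpotencyClass X = n - 1 ↔ IsKleinFour (X ⧸ commutator X) := by
  constructor
  · intro hc
    obtain ⟨e, f, A, B, h, -⟩ := H26.exists_MC_of_class hn hX hc
    have h4 := H26.MC_index_commutator h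
    have hsq : ∀ x : X ⧸ commutator X, x ^ 2 = 1 := by
      intro x
      obtain ⟨x, rfl⟩ := QuotientGroup.mk_surjective x
      rw [← QuotientGroup.mk_pow, QuotientGroup.eq_one_iff, H26.MC_commutator h, h.mem_zpowers_X, pow_two]
      obtain ⟨a, rfl | rfl⟩ := H26.MC_cases h x
      · exact ⟨a, by rw [h.XX, two_mul]⟩
      · obtain ⟨m, hm⟩ := h.sq_div_two a
        exact ⟨m, by rw [h.Y_sq, hm]⟩
    refine ⟨h4, ?_⟩
    haveI : Nontrivial (X ⧸ commutator X) := Finite.one_lt_card_iff_nontrivial.1 (by
      have : Nat.card (X ⧸ commutator X) = 4 := h4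
      omega)
    exact (Monoid.exponent_eq_prime_iff Nat.prime_two).2 fun g hg => orderOf_eq_prime (hsq g) hg
  · intro hk
    have h4 : (commutator X).index = 4 := hk.card_four
    have hna : commutator X ≠ ⊥ := by
      intro hb
      rw [hb, Subgroup.index_bot, hX] at h4
      have : 2 ^ 3 ≤ 2 ^ n := Nat.pow_le_pow_right (by norm_num) hn
      omega
    obtain ⟨m, e, f, A, B, h, -⟩ := H26.exists_MC_of_index_four (IsPGroup.of_card hX) h4 hna
    have := H26.MC_card h
    rw [hX] at this
    have := Nat.pow_right_injective le_rfl this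
    rw [H26.MC_class h]; omega

end Cfsg.Agent.S0115
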