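import Cfsg.Statements.S0231
import Cfsg.Agent.H11.StrEmb

set_option autoImplicit false
open scoped Pointwise
open Cfsg

namespace Cfsg.Agent.S0231

open Cfsg.Agent.H11



/-- Let T be a Sylow 2-subgroup of the finite group G which is not normal and which intersects every other Sylow 2-subgroup trivially. Then G has a single conjugacy class of involutions. -/
theorem result {G : Type*} [Group G] [Finite G] (T : Sylow 2 G) (hnn : ¬ (T : Subgroup G).Normal) (hTI : ∀ g : G, MulAut.conj g • (T : Subgroup G) ≠ T → MulAut.conj g • (T : Subgroup G) ⊓ T = ⊥) (s t : G) (hs : orderOf s = 2) (ht : orderOf t = 2) : IsConj s t := by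
  haveI : Fact (Nat.Prime 2) := ⟨Nat.prime_two⟩
  have hN : IsSylIn 2 (T : Subgroup G) (Subgroup.normalizer ((T : Subgroup G) : Set G)) :=
    isSylIn_of_sylow_le T Subgroup.le_normalizer
  have hmem : ∀ u ∈ Subgroup.normalizer ((T : Subgroup G) : Set G), orderOf u = 2 →
      u ∈ (T : Subgroup G) := fun u huN hu =>
    hN.mem_of_normalizes (k := 1) (by simpa using hu) huN huN
  refine SE.isConj_invol (H := Subgroup.normalizer ((T : Subgroup G) : Set G))
    (isStronglyEmbedded_iff.2 ⟨?_, ?_, fun u huN hu g hg => ?_⟩) hs ht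
  · rwa [Ne, Subgroup.normalizer_eq_top_iff]
  · obtain ⟨g, hg⟩ := exists_conj_invol_mem_sylow T hs
    exact even_card_of_invol (Subgroup.le_normalizer hg) (by rw [orderOf_conj, hs])
  · by_contra hgN
    have hu' : orderOf (g * u * g⁻¹) = 2 := by rw [orderOf_conj, hu]
    have h1 := hTI g (by rwa [conj_smul_eq_map, Ne, map_conj_eq_iff_mem_normalizer])
    have h2 : g * u * g⁻¹ ∈ MulAut.conj g • (T : Subgroup G) ⊓ T :=
      ⟨by rw [conj_smul_eq_map]; exact conj_mem_map_conj g (hmem u huN hu), hmem _ hg hu'⟩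
    rw [h1, Subgroup.mem_bot] at h2
    exact ne_one_of_orderOf_two hu' h2

end Cfsg.Agent.S0231
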