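import Cfsg.Statements.S0515
import Cfsg.Agent.H9.SG4

set_option autoImplicit false
open Cfsg

namespace Cfsg.Agent.S0515

/-- Inside a finite group, let A be an elementary abelian p-subgroup of order at least p^3 normalizing a subgroup K of
order prime to p. If the centralizer in K of every non-identity element of A is solvable, then K is solvable. -/
theorem result {X : Type*} [Group X] [Finite X]
    (p : ℕ) [Fact p.Prime] (A K : Subgroup X) (hA : IsMulCommutative A) (hAp : ∀ a ∈ A, a ^ p = 1)
    (hA3 : p ^ 3 ≤ Nat.card A) (hK : (Nat.card K).Coprime p) (hAK : A ≤ Subgroup.normalizer (K : Set X))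
    (hC : ∀ a ∈ A, a ≠ 1 → Group.IsSolvable ((K ⊓ Subgroup.centralizer ({a} : Set X) : Subgroup X))) :
    Group.IsSolvable K := by
  have hA' : IsElementaryAbelian p A := ⟨hA, hAp⟩
  have hθ : H10.SF p A fun a => K ⊓ Subgroup.centralizer {a} := ⟨hA', fun _ _ _ => inf_le_right,
    fun _ _ _ => H10.coprime_card_of_le inf_le_left hK, fun a ha _ => H10.le_normalizer_inf hAK
      (H10.le_normalizer_centralizer_singleton_of_ea hA' ha),
    fun _ _ _ _ _ _ => inf_le_inf_right _ inf_le_left, hC⟩
  obtain ⟨D, hD, h⟩ := H9S.sft hθ hA3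
  exact H10.isSolvable_of_le (H10.le_of_forall_point hA'
    ((Nat.pow_le_pow_right (Fact.out : p.Prime).pos (by norm_num)).trans hA3) hAK hK h) hD.solv

end Cfsg.Agent.S0515
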