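import Cfsg.Statements.S3909
import Cfsg.Agent.H25.Cyc
import Cfsg.Agent.H3.PGroup1
import Cfsg.Agent.H1.Cores

set_option autoImplicit false
open Cfsg

namespace Cfsg.Agent.S3909

open Subgroup

/-- Let G be a finite group in which any two abelian subgroups of the same order are conjugate. Let M be a normal subgroup of G. If M contains an element of the same order as a ∈ G, then a ∈ M; and if M is elementary abelian of order p^t with p prime and t ≥ 2, then M is the unique Sylow p-subgroup of G. -/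
theorem result {G : Type*} [Group G] [Finite G] (hB : ∀ A B : Subgroup G, IsMulCommutative ↥A → IsMulCommutative ↥B → Nat.card ↥A = Nat.card ↥B → ∃ g : G, B = A.map (MulAut.conj g).toMonoidHom) (M : Subgroup G) [M.Normal] :
    (∀ a : G, (∃ m ∈ M, orderOf m = orderOf a) → a ∈ M) ∧
    ∀ (p t : ℕ) [Fact p.Prime], 2 ≤ t → Nat.card ↥M = p ^ t → Cfsg.IsElementaryAbelian p M → ∀ P : Sylow p G, (P : Subgroup G) = M := by
  have hall : ∀ g : G, g ∈ normalizer (M : Set G) := fun g => by
    rw [normalizer_eq_top M]; trivial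
  have h1 : ∀ a : G, (∃ m ∈ M, orderOf m = orderOf a) → a ∈ M := by
    rintro a ⟨m, hm, h⟩
    obtain ⟨g, hg⟩ := hB (zpowers m) (zpowers a) inferInstance inferInstance
      (by rw [Nat.card_zpowers, Nat.card_zpowers, h])
    exact H10.conj_le_of_mem (zpowers_le.2 hm) (hall g) (hg ▸ mem_zpowers a)
  refine ⟨h1, fun p t _ ht hM hE P => ?_⟩
  have hp : p.Prime := Fact.out
  have hMp : IsPGroup p M := IsPGroup.of_card hM
  have hMP : M ≤ P := (H1.le_pCore hMp).trans (H1.pCore_le_sylow P)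
  refine le_antisymm (fun y hy => ?_) hMP
  by_contra hyM
  obtain ⟨k, hk⟩ := H25.pow_eq_one_of_mem_isPGroup P.isPGroup' hy
  obtain ⟨j, hj1, hj2⟩ := H3.exists_pow_not_mem_pow_mem (p := p) hyM ⟨k, hk ▸ one_mem M⟩
  set x := y ^ p ^ j with hx
  have hx2 : x ^ p ^ 2 = 1 := by rw [pow_two, pow_mul]; exact hE.2 _ hj2
  have hx1 : x ^ p ^ 1 ≠ 1 := by
    intro h
    rw [pow_one] at h
    obtain ⟨m, hm⟩ := exists_prime_orderOf_dvd_card' (G := M) p
      (hM ▸ dvd_pow_self p (by omega))
    refine hj1 (h1 x ⟨m, m.2, ?_⟩)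
    rw [orderOf_coe, hm, orderOf_eq_prime h (by rintro h0; exact hj1 (h0 ▸ one_mem M))]
  have hox : orderOf x = p ^ 2 := orderOf_eq_prime_pow hx1 hx2
  obtain ⟨K, hK⟩ := Sylow.exists_subgroup_card_pow_prime_of_le_card hp hMp
    (show p ^ 2 ≤ Nat.card M from hM ▸ Nat.pow_le_pow_right hp.pos ht)
  have hc := hE.1
  obtain ⟨g, hg⟩ := hB (K.map M.subtype) (zpowers x)
    (H3.isMulCommutative_iff_mem.2 fun a ha b hb =>
      H3.isMulCommutative_iff_mem.1 hc a (map_subtype_le K ha) b (map_subtype_le K hb))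
    inferInstance (by rw [Nat.card_zpowers, hox, card_subtype, hK])
  exact hj1 (H10.conj_le_of_mem (map_subtype_le K) (hall g) (hg ▸ mem_zpowers x))

end Cfsg.Agent.S3909
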