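import Cfsg.Statements.S4652
import Cfsg.Agent.H7.Bridge2
-- import your own Cfsg.Agent.* helpers here

set_option autoImplicit false
open Cfsg

namespace Cfsg.Agent.S4652

open MonoidAlgebra Cfsg.Agent.H3 Cfsg.Agent.H4 Cfsg.Agent.H7
open Cfsg.Agent.H6 (Res locRing redC redA eB fB intAlg classSum omega chiL)
open scoped Pointwise


/-- Fix a prime p and a maximal ideal M of the algebraic integers containing p. The defect groups of the principal p-block of a finite group G are exactly the Sylow p-subgroups of G: a subgroup D is a defect group of the principal block if and only if D is a Sylow p-subgroup. -/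
theorem result {G : Type*} [Group G] [Fintype G] (p : ℕ) [Fact p.Prime] (M : Ideal Cfsg.AlgInt) (hM : Cfsg.IsPModular p M) (D : Subgroup G) : Cfsg.IsDefectGroup p M (Cfsg.principalBlock M G) D ↔ ∃ S : Sylow p G, (S : Subgroup G) = D := by
  haveI := hM.2.1
  haveI := H6.charP_res hM
  have hB := H6.isPBlock_principal (M := M) (G := G)
  have h0 : ∀ Q : Subgroup G, IsPGroup p Q → br Q (eB M (principalBlock M G)) ≠ 0 := fun Q hQ h => by
    have := aug_br p hQ ((eB_mem_Fix (M := M) (principalBlock M G)).2.mono le_top)
    rw [h, aug_eB_principal, map_zero] at this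
    exact zero_ne_one this
  rw [isDefectGroup_iff hM hB]
  constructor
  · intro h
    obtain ⟨S, hS⟩ := h.isPGroup.exists_le_sylow
    exact ⟨S, h.eq_of_le le_top S.2 (h0 _ S.2) hS⟩
  · rintro ⟨S, rfl⟩
    exact ⟨le_top, S.2, h0 _ S.2, fun R hR hp _ => (sylowIn_top S).exists_conj_le hp hR⟩

end Cfsg.Agent.S4652
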