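import Cfsg.Statements.S0920
import Cfsg.Agent.H7.Induce
-- import your own Cfsg.Agent.* helpers here

set_option autoImplicit false
open Cfsg

namespace Cfsg.Agent.S0920

open MonoidAlgebra Cfsg.Agent.H3 Cfsg.Agent.H4 Cfsg.Agent.H7
open Cfsg.Agent.H6 (Res locRing redC redA eB fB intAlg classSum omega chiL)
open scoped Pointwise
set_option linter.style.haveILetI false


/-- Brauer's First Main Theorem. Let D be a p-subgroup of the finite group G with normalizer N, and fix a maximal ideal M of the algebraic integers containing p. Then (i) every block b of N having D as a defect group induces some block B of G having D as a defect group; (ii) every block of G with defect group D is induced by exactly one block of N with defect group D. -/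
theorem result {G : Type*} [Group G] [Finite G] (p : ℕ) [Fact p.Prime] (M : Ideal Cfsg.AlgInt) (hM : Cfsg.IsPModular p M) (D : Subgroup G) (hD : IsPGroup p D) : (∀ b : Set (Cfsg.IrrCharacter (Subgroup.normalizer (D : Set G))), Cfsg.IsPBlock M b → Cfsg.IsDefectGroup p M b (D.subgroupOf (Subgroup.normalizer (D : Set G))) → ∃ B : Set (Cfsg.IrrCharacter G), Cfsg.IsPBlock M B ∧ Cfsg.IsDefectGroup p M B D ∧ Cfsg.IsInducedBlock M (Subgroup.normalizer (D : Set G)) b B) ∧ (∀ B : Set (Cfsg.IrrCharacter G), Cfsg.IsPBlock M B → Cfsg.IsDefectGroup p M B D → ∃! b : Set (Cfsg.IrrCharacter (Subgroup.normalizer (D : Set G))), Cfsg.IsPBlock M b ∧ Cfsg.IsDefectGroup p M b (D.subgroupOf (Subgroup.normalizer (D : Set G))) ∧ Cfsg.IsInducedBlock M (Subgroup.normalizer (D : Set G)) b B) := by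
  haveI := hM.2.1
  haveI := H6.charP_res hM
  have hN : Subgroup.normalizer (D : Set G) ⊓ ⊤ ≤ Subgroup.normalizer (D : Set G) := inf_le_left
  constructor
  · intro b hb hbD
    have h1 := (isDefectGroup_subgroupOf_iff' hM hb Subgroup.le_normalizer).1 hbD
    obtain ⟨B, hB, hBD, hbr⟩ := first_main_up le_top hN (blk_eb hb) h1
    obtain ⟨B, hB', rfl⟩ := exists_eB_eq hB
    exact ⟨B, hB', (isDefectGroup_iff hM hB').2 hBD, isInducedBlock_iff_ind.2
      ⟨hb, hB', (ind_iff_br_eq le_top hN (blk_eb hb) h1 hB).2 hbr⟩⟩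
  · intro B hB hBD
    have h1 := (isDefectGroup_iff hM hB).1 hBD
    obtain ⟨c, hc, hcD, hbr⟩ := first_main_down le_top hN (blk_eB hB) h1
    obtain ⟨c, hc', rfl⟩ := exists_eb_eq hc
    refine ⟨c, ⟨hc', (isDefectGroup_subgroupOf_iff' hM hc' Subgroup.le_normalizer).2 hcD,
      isInducedBlock_iff_ind.2 ⟨hc', hB, (ind_iff_br_eq le_top hN hc hcD (blk_eB hB)).2 hbr.symm⟩⟩,
      ?_⟩
    rintro b ⟨hb, hbD, hi⟩
    have h2 := (isDefectGroup_subgroupOf_iff' hM hb Subgroup.le_normalizer).1 hbD
    have h3 := (ind_iff_br_eq le_top hN (blk_eb hb) h2 (blk_eB hB)).1 (IsInducedBlock.ind hi)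
    exact eb_injective hb hc' (Blk.eq_of_br_eq hD Subgroup.le_normalizer (blk_eb hb) hc h2.br_ne
      (h3.symm.trans hbr.symm))

end Cfsg.Agent.S0920
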