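import Cfsg.Statements.S0953
import Cfsg.Agent.H7.Count
import Cfsg.Agent.S0920
-- import your own Cfsg.Agent.* helpers here

set_option autoImplicit false
open Cfsg

namespace Cfsg.Agent.S0953

open MonoidAlgebra Cfsg.Agent.H3 Cfsg.Agent.H4 Cfsg.Agent.H7
open Cfsg.Agent.H6 (Res locRing redC redA eB fB intAlg classSum omega chiL)
open scoped Pointwise
set_option linter.style.haveILetI false


/-- Let P be a Sylow p-subgroup of the finite group G with normalizer N, and fix a maximal ideal M of the algebraic integers containing p. The number of blocks of G having P as a defect group equals the number of conjugacy classes of N consisting of elements of order prime to p that centralize P. -/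
theorem result {G : Type*} [Group G] [Finite G] (p : ℕ) [Fact p.Prime] (M : Ideal Cfsg.AlgInt) (hM : Cfsg.IsPModular p M) (P : Sylow p G) : Nat.card {B : Set (Cfsg.IrrCharacter G) // Cfsg.IsPBlock M B ∧ Cfsg.IsDefectGroup p M B (P : Subgroup G)} = Nat.card {C : ConjClasses (Subgroup.normalizer ((P : Subgroup G) : Set G)) // ∀ n : Subgroup.normalizer ((P : Subgroup G) : Set G), ConjClasses.mk n = C → ¬ p ∣ orderOf n ∧ (n : G) ∈ Subgroup.centralizer ((P : Subgroup G) : Set G)} := by
  classical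
  haveI := hM.2.1
  haveI := H6.charP_res hM
  obtain ⟨h1, h2⟩ := S0920.result p M hM (P : Subgroup G) P.isPGroup'
  have hPN : (P : Subgroup G) ≤ Subgroup.normalizer ((P : Subgroup G) : Set G) :=
    Subgroup.le_normalizer
  haveI : ((P : Subgroup G).subgroupOf (Subgroup.normalizer ((P : Subgroup G) : Set G))).Normal :=
    Subgroup.normal_in_normalizer
  generalize Subgroup.normalizer ((P : Subgroup G) : Set G) = N at *
  have e1 : Nat.card {B : Set (IrrCharacter G) // IsPBlock M B ∧
      IsDefectGroup p M B (P : Subgroup G)} = Nat.card {b : Set (IrrCharacter N) // IsPBlock M b ∧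
      IsDefectGroup p M b ((P : Subgroup G).subgroupOf N)} := by
    choose f hf using fun b : {b : Set (IrrCharacter N) // IsPBlock M b ∧
      IsDefectGroup p M b ((P : Subgroup G).subgroupOf N)} => h1 b.1 b.2.1 b.2.2
    symm
    refine Nat.card_congr (Equiv.ofBijective (fun b => ⟨f b, (hf b).1, (hf b).2.1⟩) ⟨?_, ?_⟩)
    · intro b b' h
      have h3 : f b = f b' := congrArg Subtype.val h
      exact Subtype.ext ((h2 (f b) (hf b).1 (hf b).2.1).unique ⟨b.2.1, b.2.2, (hf b).2.2⟩
        ⟨b'.2.1, b'.2.2, h3 ▸ (hf b').2.2⟩)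
    · rintro ⟨B, hB, hD⟩
      obtain ⟨b, hb, -⟩ := h2 B hB hD
      exact ⟨⟨b, hb.1, hb.2.1⟩, Subtype.ext (H6.induced_unique (hf _).2.2 hb.2.2)⟩
  rw [e1]
  obtain ⟨S, hS⟩ : ∃ S : Sylow p N, (S : Subgroup N) = (P : Subgroup G).subgroupOf N :=
    ⟨P.subtype hPN, rfl⟩
  haveI : (S : Subgroup N).Normal := hS ▸ this
  rw [← hS]
  have hC : ∀ n : N, (n : G) ∈ Subgroup.centralizer ((P : Subgroup G) : Set G) ↔
      n ∈ Subgroup.centralizer ((S : Subgroup N) : Set N) := by
    intro n
    rw [hS, Subgroup.mem_centralizer_iff, Subgroup.mem_centralizer_iff]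
    exact ⟨fun h s hs => Subtype.ext (h s hs), fun h s hs =>
      congrArg Subtype.val (h ⟨s, hPN hs⟩ hs)⟩
  simp only [hC]
  have hsyl : ∀ n : N, n ∈ Subgroup.centralizer ((S : Subgroup N) : Set N) ↔
      SylowIn p (S : Subgroup N) (Subgroup.centralizer {n}) := fun n =>
    ⟨fun h => sylowIn_of_le S fun s hs => Subgroup.mem_centralizer_singleton_iff.2
      (Subgroup.mem_centralizer_iff.1 h s hs), fun h => Subgroup.mem_centralizer_iff.2
        fun s hs => Subgroup.mem_centralizer_singleton_iff.1 (h.le hs)⟩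
  obtain ⟨ι, hι⟩ : ∃ ι, ι = {C : ConjClasses N | ∀ n : N, ConjClasses.mk n = C →
    ¬ p ∣ orderOf n ∧ n ∈ Subgroup.centralizer ((S : Subgroup N) : Set N)} := ⟨_, rfl⟩
  have e2 : Nat.card {C : ConjClasses N // ∀ n : N, ConjClasses.mk n = C →
    ¬ p ∣ orderOf n ∧ n ∈ Subgroup.centralizer ((S : Subgroup N) : Set N)} = Nat.card ι := by
    rw [hι]; rfl
  rw [e2]
  haveI := Fintype.ofFinite ι
  haveI := Fintype.ofFinite {b : Set (IrrCharacter N) // IsPBlock M b ∧
      IsDefectGroup p M b (S : Subgroup N)}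
  have hx : ∀ i : ι, ¬ p ∣ orderOf (H6.rep i.1) ∧
      H6.rep i.1 ∈ Subgroup.centralizer ((S : Subgroup N) : Set N) := fun i => by
    have := i.2
    simp only [hι] at this
    exact this _ (H6.mk_rep _)
  have hinj : ∀ i j : ι, IsConj (H6.rep i.1) (H6.rep j.1) → i = j := fun i j h => by
    rw [H6.isConj_rep_iff, H6.mk_rep] at h
    exact Subtype.ext h
  have h3 := param_mul_eq_one hM (D := (S : Subgroup N)) (fun i : ι => H6.rep i.1) hinj
    (fun y h3 h4 => ⟨⟨ConjClasses.mk y, by
      rw [hι]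
      intro n hn
      have hc := ConjClasses.mk_eq_mk_iff_isConj.1 hn
      exact ⟨by rwa [H6.orderOf_eq_of_isConj hc],
        (hsyl n).2 (SylowIn.of_isConj_of_normal hc.symm h4)⟩⟩, H6.isConj_rep_mk y⟩)
  rw [Nat.card_eq_fintype_card, Nat.card_eq_fintype_card]
  refine le_antisymm (card_le_of_mul_eq_one _ _ h3) (card_le_of_mul_eq_one (F := Res M)
    (Matrix.of fun i b => (eB M b.1).coeff (H6.rep i.1))
    (Matrix.of fun b i => lK M b.1 (H6.rep i.1)) ?_)
  ext i j
  rw [Matrix.mul_apply]
  simp only [Matrix.of_apply]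
  have h4 := redC_rr_classSum' hM S ((hsyl _).1 (hx j).2) (Commute.one_left (H6.rep i.1)) (k := 0)
    (one_pow _) (hx i).1 (hx i).2
  rw [← h4, one_mul, rr_eq_ite (S : Subgroup N) ?_, Matrix.one_apply]
  · by_cases hij : i = j
    · rw [if_pos hij, if_pos (by rw [hij]), H6.redC_one]
    · rw [if_neg hij, if_neg fun h => hij (hinj _ _ h), H6.redC_zero]
  · intro g h hg hh hgh
    have hg' := (hsyl g).2 (SylowIn.of_isConj_of_normal hg ((hsyl _).1 (hx i).2))
    have hc : Commute (h * g⁻¹) g := Subgroup.mem_centralizer_iff.1 hg' _ hgh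
    have h5 := H6.isPPart_mul hc (H6.exists_orderOf_eq_of_mem Fact.out S.isPGroup' hgh)
      (by rw [← H6.orderOf_eq_of_isConj hg]; exact (hx i).1)
    rw [inv_mul_cancel_right] at h5
    have h6 := (H6.IsPPart.eq_one_iff Fact.out h5).2
      (by rw [← H6.orderOf_eq_of_isConj hh]; exact (hx j).1)
    exact mul_inv_eq_one.1 h6

end Cfsg.Agent.S0953
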