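import Cfsg.Statements.S2402
import Cfsg.Agent.H28.SLGen
import Cfsg.Agent.H28.PSLAut1

set_option autoImplicit false
open Cfsg

namespace Cfsg.Agent.S2402

open Matrix SpecialLinearGroup

theorem diag_conj {ι K : Type*} [Fintype ι] [DecidableEq ι] [Field K] {d : SpecialLinearGroup ι K} {a : ι → K}
    (hd : d.1 = diagonal a) {i j : ι} (h : i ≠ j) {b c : K} (e : a i * c = b * a j) :
    d * SpecialLinearGroup.transvection h c = SpecialLinearGroup.transvection h b * d := Subtype.ext (by
  change d.1 * (1 + single i j _) = (1 + single _ _ _) * d.1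
  simp only [add_mul, mul_add, one_mul, mul_one, add_right_inj, hd]
  ext k l
  rw [diagonal_mul, mul_diagonal, single_apply, single_apply]
  split_ifs with a1
  · rw [← a1.1, ← a1.2, e]
  · simp)

/-- Explicit two-element generation of `PSL_{n+1}(K)` for a finite field `K` with more than three elements: let `k` generate the multiplicative group of `K`, `h = diag(k, k⁻¹, 1, …, 1)`, `x = 1 + E₁₂` (the elementary transvection) and `w` the monomial matrix with entries `1` in positions `(i, i+1)` and `(−1)^n` in position `(n+1, 1)`. Then `h` and `x·w` generate `SL_{n+1}(K)` modulo its centre: the subgroup they generate together with the centre is everything. -/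
theorem result {K : Type*} [Field K] [Fintype K] (hK : 3 < Fintype.card K) (n : ℕ) (hn : 1 ≤ n)
    (k : Kˣ) (hk : ∀ u : Kˣ, u ∈ Subgroup.zpowers k)
    (h x w : Matrix.SpecialLinearGroup (Fin (n + 1)) K)
    (hh : (h : Matrix (Fin (n + 1)) (Fin (n + 1)) K) =
      Matrix.diagonal (fun i => if i.val = 0 then (k : K) else if i.val = 1 then ((k⁻¹ : Kˣ) : K) else 1))
    (hx : (x : Matrix (Fin (n + 1)) (Fin (n + 1)) K) = Matrix.transvection (0 : Fin (n + 1)) (1 : Fin (n + 1)) 1)
    (hw : (w : Matrix (Fin (n + 1)) (Fin (n + 1)) K) =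
      Matrix.of (fun i j => if j.val = i.val + 1 then 1 else if i.val = n ∧ j.val = 0 then (-1) ^ n else 0)) :
    Subgroup.closure ({h, x * w} : Set (Matrix.SpecialLinearGroup (Fin (n + 1)) K)) ⊔
      Subgroup.center (Matrix.SpecialLinearGroup (Fin (n + 1)) K) = ⊤ := by
  have h01 : (0 : Fin (n + 1)) ≠ 1 := fun e => by have := Fin.one_eq_zero_iff.1 e.symm; omega
  have h1 : ((1 : Fin (n + 1)) : ℕ) = 1 := (Fin.val_one' _).trans (Nat.mod_eq_of_lt (by omega))
  obtain rfl : x = SpecialLinearGroup.transvection h01 1 := Subtype.ext hx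
  generalize hH : Subgroup.closure ({h, SpecialLinearGroup.transvection h01 1 * w} : Set _) = H
  have a1 : h ∈ H := hH ▸ Subgroup.subset_closure (by simp)
  have a2 : SpecialLinearGroup.transvection h01 1 * w ∈ H := hH ▸ Subgroup.subset_closure (by simp)
  have hk2 : (k : K) ^ 2 ≠ 1 := fun e => by
    have := Nat.le_of_dvd two_pos (orderOf_dvd_of_pow_eq_one (Units.ext e : k ^ 2 = 1))
    rw [orderOf_eq_card_of_forall_mem_zpowers hk, Nat.card_units, Nat.card_eq_fintype_card] at this
    omega
  have hc : ∀ c : K, h * SpecialLinearGroup.transvection h01 c * h⁻¹ = SpecialLinearGroup.transvection h01 (k ^ 2 * c) := fun c => by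
    rw [diag_conj hh h01 (b := k ^ 2 * c) (by simp only [h1, Fin.val_zero]; simp; field_simp), mul_inv_cancel_right]
  obtain ⟨a, ha⟩ : ∃ a : Fin (n + 1) → K, ∀ i, a i = if (i + 1).val = 0 then (k : K) else if (i + 1).val = 1 then ((k⁻¹ : Kˣ) : K) else 1 :=
    ⟨_, fun _ => rfl⟩
  have hd : (w * h * w⁻¹).1 = diagonal a := by
    have : w.1 * h.1 = diagonal a * w.1 := by
      ext i j
      rw [hh, mul_diagonal, diagonal_mul, hw, of_apply, ha, Fin.val_add_one]
      have := j.2
      simp only [Fin.ext_iff, Fin.val_last]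
      split_ifs <;> first | omega | contradiction | simp [mul_comm]
    change w.1 * h.1 * (w⁻¹).1 = _
    rw [this, mul_assoc, show w.1 * (w⁻¹).1 = 1 from congrArg Subtype.val (mul_inv_cancel w), mul_one]
  have a0 : a 0 = (k : K)⁻¹ := by rw [ha, zero_add, h1]; simp
  have a3 : a 1 = k ∨ a 1 = 1 := by
    rw [ha, Fin.val_add_one, h1]
    split_ifs <;> simp_all
  have a4 : a 1 ≠ 0 := by rcases a3 with e | e <;> simp [e]
  have a5 : 1 + -(a 0 / a 1) ≠ 0 := by
    rw [a0, add_neg_eq_zero.ne, ne_comm, Ne, div_eq_one_iff_eq a4, inv_eq_iff_eq_inv, eq_comm, inv_eq_iff_eq_inv]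
    rcases a3 with e | e <;> rw [e] <;> intro e
    · exact hk2 (by rw [pow_two]; nth_rw 1 [e]; simp)
    · exact hk2 (by rw [← inv_inv (k : K), ← e]; simp)
  have b1 := mul_mem (mul_mem a2 a1) (inv_mem a2)
  rw [show ∀ x, x * w * h * (x * w)⁻¹ = x * (w * h * w⁻¹ * x⁻¹) from fun x => by group, transvection_inv,
    diag_conj hd h01 (b := -(a 0 / a 1)) (by field_simp), ← mul_assoc, ← transvection_add] at b1
  have b2 : h * (w * h * w⁻¹) = w * h * w⁻¹ * h := Subtype.ext (by
    change h.1 * (w * h * w⁻¹).1 = (w * h * w⁻¹).1 * h.1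
    rw [hd, hh, diagonal_mul_diagonal, diagonal_mul_diagonal]; simp only [mul_comm])
  have b3 := mul_mem (mul_mem (mul_mem a1 b1) (inv_mem a1)) (inv_mem b1)
  rw [show ∀ x d, h * (x * d) * h⁻¹ * (x * d)⁻¹ = h * x * h⁻¹ * (h * d * h⁻¹ * d⁻¹) * x⁻¹ from fun x d => by group, b2, hc,
    mul_inv_cancel_right, mul_inv_cancel, mul_one, transvection_inv, ← transvection_add, ← sub_eq_add_neg, ← sub_one_mul] at b3
  have b4 := mul_ne_zero (sub_ne_zero.2 hk2) a5
  generalize ((k : K) ^ 2 - 1) * (1 + -(a 0 / a 1)) = s at b3 b4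
  have b5 : ∀ y : K, SpecialLinearGroup.transvection h01 (y ^ 2 * s) ∈ H := fun y => by
    by_cases h0 : y = 0
    · rw [h0, zero_pow two_ne_zero, zero_mul, transvection_coeff_zero]; exact one_mem _
    obtain ⟨m, hm⟩ := mem_powers_iff_mem_zpowers.2 (hk (Units.mk0 y h0))
    rw [show y = k ^ m from (congrArg Units.val hm).symm]
    clear hm
    induction m with
    | zero => simpa using b3
    | succ m ih => rw [pow_succ' (k : K), mul_pow, mul_assoc, ← hc]; exact mul_mem (mul_mem a1 ih) (inv_mem a1)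
  have b6 : ∀ c, SpecialLinearGroup.transvection h01 c ∈ H := fun c => by
    obtain ⟨y, z, e⟩ := H28.exists_sq_add_sq (c / s)
    rw [← div_mul_cancel₀ c b4, e, add_mul, transvection_add]
    exact mul_mem (b5 y) (b5 z)
  exact eq_top_iff.2 ((H28.SL_eq_top_of_cox hw ((H.mul_mem_cancel_left (b6 1)).1 a2) fun _ => b6).ge.trans le_sup_left)

end Cfsg.Agent.S2402
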