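import Cfsg.Statements.S4507
import Cfsg.Agent.H19.Gen8

set_option autoImplicit false
open Cfsg

namespace Cfsg.Agent.S4507

open Cfsg.Agent.H19 Cfsg.Agent.H4

/-- Let G be a finite group whose order g is divisible by the prime p exactly once, g′ = g/p, and fix a maximal ideal M of the algebraic integers containing p. Call two irreducible characters p-conjugate when a field automorphism of ℂ fixing the g′-th roots of unity carries one to the other. Let B be a p-block of positive defect (its defect group is a Sylow p-subgroup). Then B contains a subset Y (the exceptional family) such that: Y is a full p-conjugacy class (its members are pairwise p-conjugate and every p-conjugate of a member of Y lies in Y); every member of B outside Y is p-conjugate only to itself; the size t of Y divides p − 1 and B has exactly t + (p − 1)/t members; and there are signs δ_χ = ±1 (χ ∈ B) such that for every p-regular element x and every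 θ ∈ Y, Σ_{χ ∈ B ∖ Y} δ_χ χ(x) + δ_θ θ(x) = 0. -/
theorem result {G : Type*} [Group G] [Finite G] (p : ℕ) [Fact p.Prime] (M : Ideal Cfsg.AlgInt) (hM : Cfsg.IsPModular p M) (hdiv : p ∣ Nat.card G) (hsq : ¬ p ^ 2 ∣ Nat.card G) (B : Set (Cfsg.IrrCharacter G)) (hB : Cfsg.IsPBlock M B) (hd : 0 < Cfsg.blockDefect p B) : ∃ Y : Set (Cfsg.IrrCharacter G), Y ⊆ B ∧ Y.Nonempty ∧ (∀ θ ∈ Y, ∀ ψ : Cfsg.IrrCharacter G, (∃ σ : ℂ ≃+* ℂ, σ (Complex.exp (2 * Real.pi * Complex.I / ((Nat.card G / p ^ (Nat.card G).factorization p) : ℕ))) = Complex.exp (2 * Real.pi * Complex.I / ((Nat.card G / p ^ (Nat.card G).factorization p) : ℕ)) ∧ (ψ : G → ℂ) = fun g => σ ((θ : G → ℂ) g)) ↔ ψ ∈ Y) ∧ (∀ χ ∈ B, χ ∉ Y → ∀ ψ : Cfsg.IrrCharacter G, (∃ σ : ℂ ≃+* ℂ, σ (Complex.exp (2 * Real.pi * Complex.I / ((Nat.card G / p ^ (Nat.card G).factorization p) : ℕ))) = Complex.exp (2 * Real.pi * Complex.I / ((Nat.card G / p ^ (Nat.card G).factorization p) : ℕ)) ∧ (ψ :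 G → ℂ) = fun g => σ ((χ : G → ℂ) g)) → ψ = χ) ∧ Nat.card Y ∣ p - 1 ∧ Nat.card B = Nat.card Y + (p - 1) / Nat.card Y ∧ ∃ δ : Cfsg.IrrCharacter G → ℤ, (∀ χ ∈ B, δ χ = 1 ∨ δ χ = -1) ∧ ∀ x : G, ¬ p ∣ orderOf x → ∀ θ ∈ Y, (∑ᶠ χ ∈ B \ Y, (δ χ : ℂ) * (χ : G → ℂ) x) + (δ θ : ℂ) * (θ : G → ℂ) x = 0 := by
  classical
  haveI := Fintype.ofFinite G
  haveI := hM.2.1
  have hp : p.Prime := Fact.out
  obtain ⟨x, hx⟩ := exists_prime_orderOf_dvd_card' p hdiv
  obtain ⟨K, h⟩ := exists_PO hx hsq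
  haveI := Fintype.ofFinite K
  have hf : (Nat.card G).factorization p = 1 := by
    have h1 := (hp.dvd_iff_one_le_factorization Nat.card_pos.ne').mp hdiv
    have h2 := mt (hp.pow_dvd_iff_le_factorization Nat.card_pos.ne').mpr hsq
    omega
  obtain ⟨ξ, hξB, hξ⟩ : ∃ ξ ∈ B, ¬ p ∣ charDegree (ξ : G → ℂ) := by
    rw [blockDefect, hf] at hd
    obtain ⟨ξ, h1, h2⟩ := Nat.sInf_mem ((H6.block_nonempty hB).image
      fun χ : IrrCharacter G => (charDegree (χ : G → ℂ)).factorization p)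
    refine ⟨ξ, h1, fun h3 => ?_⟩
    have := (hp.dvd_iff_one_le_factorization ξ.2.charDegree_pos.ne').mp h3
    simp only at h2
    omega
  obtain ⟨θ, D, hD⟩ := h.exists_family_of_not_dvd hξ
  have hmem : ∀ χ, χ ∈ B ↔ D.Mem χ := fun χ => D.mem_iff_of_mem hM hB hξB hD
  have hm0 : Nat.card G / p ≠ 0 := fun e => h.not_dvd_div (e ▸ dvd_zero p)
  have hζ := Complex.isPrimitiveRoot_exp _ hm0
  rw [hf, pow_one]
  have hfix : ∀ σ : ℂ ≃+* ℂ, σ (Complex.exp (2 * Real.pi * Complex.I / (Nat.card G / p : ℕ))) =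
      Complex.exp (2 * Real.pi * Complex.I / (Nat.card G / p : ℕ)) →
      ∀ z : ℂ, z ^ (Nat.card G / p) = 1 → σ.toRingHom z = z := by
    intro σ hσ z hz
    haveI : NeZero (Nat.card G / p) := ⟨hm0⟩
    obtain ⟨i, -, rfl⟩ := hζ.eq_pow_of_pow_eq_one hz
    rw [map_pow]
    exact congrArg (· ^ i) hσ
  have cY : Nat.card (Set.range D.μ) = D.t := by rw [Nat.card_range_of_injective D.inj, GD.t]
  have hB' : B = Set.range D.μ ∪ (D.X : Set _) := by
    ext χ
    exact (hmem χ).trans or_comm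
  have hdis : Disjoint (Set.range D.μ) (D.X : Set _) :=
    Set.disjoint_left.mpr fun _ ⟨q, e⟩ => e ▸ D.notX q
  have hX : B \ Set.range D.μ = D.X := by
    rw [hB', Set.union_diff_left, hdis.symm.sdiff_eq_left]
  refine ⟨Set.range D.μ, hB' ▸ Set.subset_union_left, Set.range_nonempty _, ?_, ?_,
    cY ▸ Dvd.intro_left _ D.e_mul_t, ?_, fun χ => if χ ∈ D.X then D.a χ else -D.ε, ?_, ?_⟩
  · rintro _ ⟨q, rfl⟩ ψ
    refine ⟨fun ⟨σ, h1, h2⟩ => ?_, ?_⟩
    · obtain ⟨c, hc⟩ := exists_unit_of_ringHom (p := p) σ.toRingHom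
      exact ⟨_, (D.gal_μ (hfix σ h1) h2 hc rfl).symm⟩
    · rintro ⟨r, rfl⟩
      obtain ⟨σ, h1, h2⟩ := exists_ringEquiv_unit h.not_dvd_div (r * q⁻¹).out
      refine ⟨σ, h1 _ hζ.pow_eq_one, ?_⟩
      have := D.gal_μ (σ := σ.toRingHom) (ψ := ⟨_, (D.μ q).2.map_ringHom σ.toRingHom⟩) h1 rfl h2 rfl
      rw [QuotientGroup.out_eq', inv_mul_cancel_right] at this
      exact (congrArg Subtype.val this).symm
  · rintro χ h1 h2 ψ ⟨σ, h3, h4⟩
    exact D.gal_X (hfix σ h3) h4 (((hmem χ).mp h1).resolve_right h2)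
  · rw [cY, ← D.e_mul_t, Nat.mul_div_cancel _ D.t_pos, ← cY, GD.e, ← D.cardX, hB',
      Nat.card_coe_set_eq, Set.ncard_union_eq hdis, Set.ncard_coe_finset]; rfl
  · intro χ _
    have := D.hε
    dsimp only
    split_ifs with h1
    · exact D.ha χ h1
    · omega
  · rintro g hg _ ⟨q, rfl⟩
    dsimp only
    rw [hX, finsum_mem_coe_finset, if_neg (D.notX q),
      Finset.sum_congr rfl fun χ hχ => by rw [if_pos hχ], ← D.rel q g hg]
    simp

end Cfsg.Agent.S4507
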