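import Cfsg.Statements.S3055
import Cfsg.Agent.L0.XP

set_option autoImplicit false
open Cfsg

namespace Cfsg.Agent.S3055

open Subgroup Cfsg.Agent.H24 Cfsg.Agent.L0


/-- Let p be an odd prime and G a finite group with a Sylow p-subgroup P that is extraspecial of order p³ and exponent p. If all nonidentity elements of P are conjugate in G, then p ≤ 7. -/
theorem result {G : Type*} [Group G] [Finite G]
    {p : ℕ} [Fact p.Prime] (hp : p ≠ 2) (P : Sylow p G) (hE : Cfsg.IsExtraspecial p ↥P)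
    (hcard : Nat.card P = p ^ 3) (hexp : Monoid.exponent ↥P = p)
    (hconj : ∀ x y : ↥P, x ≠ 1 → y ≠ 1 → ∃ g : G, g * (x : G) * g⁻¹ = (y : G)) :
    p ≤ 7 := by
  classical
  have h := xp_of P hE hcard hexp
  obtain ⟨H, θ, a1, a2, a3, -, a4⟩ := h.exists_pgl
  have hp' : p.Prime := Fact.out
  obtain ⟨z, hz, z1⟩ := H23.LF.exists_ne_one_of_card h.cZ
  have k : ∀ x : H12.P1 (ZMod p), ∃ t ∈ H, t • x = x ∧ ∀ k, t ^ k = 1 → p - 1 ∣ 3 * k := fun x => by
    obtain ⟨w, w1, w2⟩ := a3 x.rep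
    have w3 : θ w ≠ 0 := w2 ▸ x.rep_nonzero
    have w4 : w ∉ _ := fun e => w3 ((a2 w w1).2 e)
    obtain ⟨g, hg⟩ := hconj ⟨w, w1⟩ ⟨z, h.le hz⟩ (fun e => w4 (by
      rw [show w = 1 from congrArg Subtype.val e]; exact one_mem _)) fun e => z1 (congrArg Subtype.val e)
    have := a4 w w1 w3 (h.mv_of_conj w1 w4 (by rw [show g * w * g⁻¹ = z from hg]; exact hz))
    simpa only [w2, Projectivization.mk_rep] using this
  choose t t1 t2 t3 using k
  by_contra! hlt
  have h10 : 10 ≤ p - 1 := by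
    by_contra h'
    have : p ≤ 10 := by omega
    interval_cases p <;> exact absurd hp' (by decide)
  have k2 : ∀ x, t x ^ 2 ≠ 1 := fun x h3 => by
    have := Nat.le_of_dvd (by omega) (t3 x 2 h3)
    omega
  obtain ⟨b1, a, b, c, b2⟩ := pgl_three p a1 (H12.inf_ne_aff 0) (H12.inf_ne_aff 1)
    (fun e => zero_ne_one (H12.aff_inj.1 e)) (t1 _) (t1 _) (t1 _) (t2 _) (t2 _) (t2 _) (k2 _) (k2 _) (k2 _)
  have k4 : ∀ x, t x ^ 4 = 1 := fun x => by
    rcases b1 _ (t1 x) with k | k | k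
    · have := Nat.le_of_dvd (by omega) (t3 x 3 k)
      omega
    · exact k
    · obtain ⟨m, hm⟩ := t3 x 5 k
      have := hp'.eq_two_or_odd
      have : m ≤ 1 := by nlinarith
      interval_cases m <;> omega
  have := Fintype.ofFinite (H12.P1 (ZMod p))
  obtain ⟨y, -, hy⟩ := Finset.exists_lt_card_fiber_of_mul_lt_card_of_maps_to (s := Finset.univ) (t := {a, b, c})
    (f := fun x => t x ^ 2) (n := 2) (fun x _ => by simpa [k2 x] using b2 _ (t1 x) (k4 x)) (by
      have := Finset.card_le_three (a := a) (b := b) (c := c)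
      rw [Finset.card_univ, ← Nat.card_eq_fintype_card, H12.card_P1, Nat.card_zmod]
      omega)
  obtain ⟨u, hu, v, hv, w, hw, h1, h2, h3⟩ := Finset.two_lt_card.1 hy
  have k5 : ∀ x ∈ Finset.univ.filter fun x => t x ^ 2 = y, y • x = x := fun x hx => by
    rw [← (Finset.mem_filter.1 hx).2, pow_two, mul_smul, t2, t2]
  exact k2 u ((Finset.mem_filter.1 hu).2.trans (H12.pgl_eq_one_of_fix h1 h2 h3 (k5 u hu) (k5 v hv) (k5 w hw)))

end Cfsg.Agent.S3055
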