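import Cfsg.Statements.S0414
import Mathlib
import Cfsg.Agent.H2.Gol2
import Cfsg.Agent.H16.M24f

set_option autoImplicit false
open Cfsg

namespace Cfsg.Agent.S0414

open H2.St H16 MulAction
open scoped Pointwise

/-- Aut of an S(3, 6, 22) has order 887040, is 3-transitive, and contains a simple subgroup of index 2. -/
theorem result {α : Type*} [Fintype α] [DecidableEq α] (hα : Fintype.card α = 22) {B : Set (Finset α)} (hB : Cfsg.IsSteinerSystem 3 6 B) : Nat.card (Cfsg.setSystemAut B) = 887040 ∧ MulAction.IsMultiplyPretransitive (Cfsg.setSystemAut B) α 3 ∧ ∃ H : Subgroup (Cfsg.setSystemAut B), H.index = 2 ∧ Cfsg.IsM22 H := by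
  obtain ⟨j, h⟩ := exists_emb (t := 3) (R := toSet 8388609) (by omega) (by omega) hα hB card_pair0
  obtain ⟨e⟩ := h.equiv card_pair0.le
  have h1 := (Nat.card_congr e.toEquiv).symm.trans card_L22
  have f := (Subgroup.subgroupOfEquivOfLe K22_le_L22).symm.trans (e.subgroupMap _)
  have h2 := (Nat.card_congr f.toEquiv).symm.trans card_K22
  have := simple_K22
  refine ⟨h1, h.mt (by rw [card_pair0]), _, ?_, f.symm.isSimpleGroup, h2⟩
  exact Nat.eq_of_mul_eq_mul_left (by decide : 0 < 443520)
    (((congrArg (· * _) h2.symm).trans (Subgroup.card_mul_index _)).trans h1)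

end Cfsg.Agent.S0414
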