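import Cfsg.Statements.S0428
import Mathlib
import Cfsg.Agent.H2.Srg

set_option autoImplicit false
open Cfsg

namespace Cfsg.Agent.S0428

open H2.St Finset

/-- The point-block graph of an S(3, 6, 22) is strongly regular with parameters (100, 22, 0, 6). -/
theorem result {α : Type*} [Fintype α] (hα : Fintype.card α = 22) {B : Set (Finset α)} (hB : Cfsg.IsSteinerSystem 3 6 B) [Fintype B] [DecidableRel (Cfsg.pointBlockGraph B).Adj] : (Cfsg.pointBlockGraph B).IsSRGWith 100 22 0 6 := by
  classical
  have h : Fintype.card B = 77 := Nat.card_eq_fintype_card.symm.trans (n77 hα hB)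
  have h1 : ∀ b : B, #b.1 = 6 := fun b => hB.1 _ b.2
  have h2 := fun x y => (ncard_sub _).trans (n_pts hα hB x y)
  have h3 := fun (b : B) y => (ncard_sub _).trans (n_pt_disj hα hB b.2 y)
  have h4 := fun b c : B => (ncard_sub _).trans (n_disj hα hB b.2 c.2)
  refine srg_of (by simp [hα, h]) ?_
  rintro (_ | a | b) (_ | a' | b') <;> rw [ncard_opt] <;> simp [adj_none, adj_pt, adj_bl hB, *]
  · split_ifs <;> rfl
  · simpa only [and_comm] using h3 b a'
  · have : {a | a ∈ b.1 ∧ a ∈ b'.1}.ncard = #(b.1 ∩ b'.1) := by rw [← Set.ncard_coe_finset, coe_inter]; rfl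
    rw [this]
    by_cases e : b = b'
    · simp [e, h1]
    have := inter22 hα hB b.2 b'.2 (Subtype.coe_ne_coe.2 e)
    simp only [e, Subtype.val_inj, if_false, disjoint_iff_inter_eq_empty, ← card_eq_zero]
    split_ifs <;> omega

end Cfsg.Agent.S0428
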