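import Cfsg.Statements.S0006
import Cfsg.Agent.H1.Wielandt

set_option autoImplicit false
open Cfsg

namespace Cfsg.Agent.S0006

/-- Converse of Hall's Theorem: if for every prime p a finite group has a subgroup of index equal to the p-part of the group order (a Hall p-complement), then the group is solvable. -/
theorem result {G : Type*} [Group G] [Finite G]
    (h : ∀ p : ℕ, p.Prime → ∃ H : Subgroup G, H.index = p ^ (Nat.card G).factorization p) :
    Group.IsSolvable G := by
  refine H1.isSolvable_of_forall_exists_pComplement G fun p hp => ?_
  obtain ⟨H, hH⟩ := h p hp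
  refine ⟨H, ?_, _, hH⟩
  have h1 : Nat.card H = Nat.card G / p ^ (Nat.card G).factorization p := by
    rw [← hH, ← H.card_mul_index, Nat.mul_div_cancel _ (Nat.pos_of_ne_zero
      Subgroup.FiniteIndex.index_ne_zero)]
  rw [h1]
  exact (Nat.coprime_ordCompl hp Nat.card_pos.ne').symm

end Cfsg.Agent.S0006
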