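import Cfsg.Statements.S0048
import Mathlib
import Cfsg.Agent.H2.Frattini

set_option autoImplicit false
open Cfsg

namespace Cfsg.Agent.S0048

universe u
theorem aux (G : Type u) [Group G] [Finite G] : Group.IsSolvable G → ∀ M : Subgroup G,
    IsCoatom M → IsPrimePow M.index := by
  refine H2.card_induction (P := fun G _ _ => Group.IsSolvable G → ∀ M : Subgroup G,
    IsCoatom M → IsPrimePow M.index) (fun G _ _ ih => ?_) G
  intro hG M hM
  have : Nontrivial G := by
    by_contra hc
    rw [not_nontrivial_iff_subsingleton] at hc
    exact hM.1 (Subsingleton.elim _ _)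
  obtain ⟨N, hN, hc, p, hp, hP⟩ := H2.exists_isMinNormal_of_isSolvable (G := G)
  have := hN.normal
  by_cases h : N ≤ M
  · have := ih (G ⧸ N) (H1.card_quotient_lt hN.ne_bot) inferInstance _ (H2.isCoatom_map_mk' hM h)
    rwa [Subgroup.index_map_eq _ (QuotientGroup.mk'_surjective N)
      (by rwa [QuotientGroup.ker_mk'])] at this
  · have h1 := hN.isComplement'_of_coatom hM h
    rw [h1.index_eq_card]
    have := Fact.mk hp
    obtain ⟨n, hn⟩ := hP.exists_card_eq
    refine ⟨p, n, hp.prime, Nat.pos_of_ne_zero ?_, hn.symm⟩
    rintro rfl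
    exact hN.ne_bot (Subgroup.card_eq_one.mp (by simpa using hn))

/-- In a finite solvable group every maximal subgroup has index a prime power. -/
theorem result {G : Type*} [Group G] [Finite G] [Group.IsSolvable G]
    (M : Subgroup G) (hM : IsCoatom M) : IsPrimePow M.index := by
  exact aux G inferInstance M hM

end Cfsg.Agent.S0048
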