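import Cfsg.Statements.S0049
import Mathlib
import Cfsg.Agent.H2.Frattini

set_option autoImplicit false
open Cfsg

namespace Cfsg.Agent.S0049

/-- A prime divisor of the order of a finite group also divides the index of the Frattini subgroup. -/
theorem result {G : Type*} [Group G] [Finite G] (p : ℕ) (hp : p.Prime) (hdvd : p ∣ Nat.card G) :
    p ∣ (frattini G).index := by
  by_contra hc
  have := Fact.mk hp
  obtain ⟨P⟩ : Nonempty (Sylow p G) := inferInstance
  have h1 : H3.SylowIn p ((P : Subgroup G) ⊓ frattini G) (frattini G) := H3.sylowIn_inf_normal P _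
  have h2 := H2.normal_of_sylowIn_of_isNilpotent frattini_nilpotent h1
  set Q := (P : Subgroup G) ⊓ frattini G with hQ
  have h3 : ¬ p ∣ Q.index := by
    rw [← Subgroup.relIndex_mul_index (inf_le_right : Q ≤ frattini G), hp.dvd_mul]
    exact fun h => h.elim h1.not_dvd hc
  obtain ⟨H, hH⟩ := Subgroup.exists_right_complement'_of_coprime (N := Q)
    (H1.coprime_card_of_isPGroup h1.isPGroup h3)
  have h4 : H = ⊤ := H2.eq_top_of_sup_of_le_frattini (N := Q) inf_le_right
    (by rw [sup_comm]; exact hH.sup_eq_top)
  have h5 := hH.disjoint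
  rw [h4, disjoint_top] at h5
  rw [h5, Subgroup.index_bot] at h3
  exact h3 hdvd

end Cfsg.Agent.S0049
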