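import Cfsg.Statements.S0197
import Cfsg.Agent.H19.W3

set_option autoImplicit false
open Cfsg

namespace Cfsg.Agent.S0197

/-- If a finite simple group has an involution whose centralizer is isomorphic to the general linear group GL(2, 3), then the group has order 5616 or 7920. -/
theorem result {G : Type*} [Group G] [Finite G] [IsSimpleGroup G] (t : G) (ht : orderOf t = 2) (e : Subgroup.centralizer ({t} : Set G) ≃* Matrix.GeneralLinearGroup (Fin 2) (ZMod 3)) : Nat.card G = 5616 ∨ Nat.card G = 7920 := by
  have no2 : ∀ H : Subgroup G, H.index ≠ 2 := fun H hH => by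
    obtain h | h := (Subgroup.normal_of_index_eq_two hH).eq_bot_or_eq_top
    · rw [h, Subgroup.index_bot] at hH
      have := Subgroup.card_subgroup_dvd_card (Subgroup.centralizer ({t} : Set G))
      rw [hH, Nat.card_congr (e.trans H19.M3.equivGL).toEquiv, H19.M3.card_eq] at this
      exact absurd this (by decide)
    · simp [h] at hH
  obtain ⟨f, h⟩ := H19.exists_WG ht e no2
  exact h.card_cases.symm.imp_left And.left

end Cfsg.Agent.S0197
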