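import Cfsg.Statements.S0225
import Cfsg.Agent.H6.ZStar2
import Cfsg.Agent.H11.Klein
-- import your own Cfsg.Agent.* helpers here

set_option autoImplicit false
open Cfsg

namespace Cfsg.Agent.S0225

open Cfsg.Agent.H4 Cfsg.Agent.H6


/-- If a finite group G has even order but contains no Klein four-subgroup (2-rank 1), then some involution z of G is central modulo a normal subgroup of odd order: there is a normal subgroup N of odd order containing every commutator z g z⁻¹ g⁻¹. -/
theorem result {G : Type*} [Group G] [Finite G] (heven : Even (Nat.card G)) (hrank : ∀ E : Subgroup G, ¬ IsKleinFour E) : ∃ z : G, orderOf z = 2 ∧ ∃ N : Subgroup G, N.Normal ∧ Odd (Nat.card N) ∧ ∀ g : G, z * g * z⁻¹ * g⁻¹ ∈ N := by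
  obtain ⟨z, hz⟩ := H11.exists_invol_of_even' heven
  refine ⟨z, hz, pPrimeCore 2 G, inferInstance, ?_, zstar hz fun g hc => ?_⟩
  · exact Nat.not_even_iff_odd.1 fun h => H1.not_dvd_card_pPrimeCore 2 G h.two_dvd
  · by_contra hne
    exact hrank _ (H11.isKleinFour_closure hz (by rw [orderOf_conj', hz]) (Ne.symm hne) hc)

end Cfsg.Agent.S0225
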