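import Cfsg.Statements.S0340
import Cfsg.Agent.S0347
import Cfsg.Agent.S0344

set_option autoImplicit false
open Cfsg

namespace Cfsg.Agent.S0340

open Cfsg.Agent.H4


/-- Classification of Zassenhaus groups, simple case, order-level form: a finite simple Zassenhaus group is
isomorphic to `PSL₂(F)` for some finite field `F` or is simple of Suzuki order. -/
theorem result {G Ω : Type*} [Group G] [Finite G] [MulAction G Ω]
    [Finite Ω] (hZ : Cfsg.IsZassenhausGroup G Ω) [IsSimpleGroup G] :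
    (∃ (F : Type) (_ : Field F) (_ : Fintype F), Nonempty (G ≃* Matrix.ProjectiveSpecialLinearGroup (Fin 2) F)) ∨ Cfsg.IsSuzuki G := by
  have := Fintype.ofFinite G
  have := Fintype.ofFinite Ω
  obtain ⟨a⟩ := hZ.nonempty
  obtain ⟨b, hab⟩ := hZ.exists_ne a
  rcases Nat.even_or_odd (Nat.card (St2 G a b)) with he | ho
  · obtain ⟨F, _, _, -, h⟩ := S0344.result hZ hab he
    exact Or.inl ⟨F, _, ‹_›, h⟩
  have h := hZ.zo hab ho
  rcases h.feit hab with h1 | ⟨h1, h2, -⟩
  · left
    by_cases h2 : Nat.card (St2 G a b) = Nat.card (hZ.zt.K a) - 1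
    · obtain ⟨c, hca, hcb⟩ := h.exists_third (h.ne a b hab)
      have h3 := h.card_lt hab
      obtain ⟨F, _, _, -, -, h6⟩ := h.iso_PSL_of_odd (by
        rw [← h.card_K hab, show Nat.card (h.K a) = Nat.card (St2 G a b) + 1 from by
          change _ < Nat.card (hZ.zt.K a) at h3; change Nat.card (hZ.zt.K a) = _; omega]
        exact ho.add_one.add_one) hab hca hcb h2
      exact ⟨F, _, ‹_›, h6⟩
    · have := hZ.zt.comm_of_large hab h1
      obtain ⟨-, F, _, _, -, -, h6⟩ := hZ.iso_PSL_of_comm hab h2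
      exact ⟨F, _, ‹_›, h6⟩
  obtain ⟨u, hu, v, hv, huv⟩ := not_ab_iff.1 (not_ab_of_commutator h2)
  exact Or.inr (S0347.result hZ a (h.K a) (h.K_le a)
    (Subgroup.normal_subgroupOf_of_le_normalizer (h.stab_le_normalizer a)) h1
    ⟨⟨u, hu⟩, ⟨v, hv⟩, fun e => huv (congrArg Subtype.val e)⟩ h.K_reg)

end Cfsg.Agent.S0340
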