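import Cfsg.Statements.S0353
import Mathlib
import Cfsg.Agent.H2.Gol2

set_option autoImplicit false
open Cfsg

namespace Cfsg.Agent.S0353

open H2.St Finset

/-- In an S(5, 8, 24), the symmetric difference of two blocks meeting in four points is a block. -/
theorem result {α : Type*} [Fintype α] [DecidableEq α] (hα : Fintype.card α = 24) {B : Set (Finset α)} (hB : Cfsg.IsSteinerSystem 5 8 B) {b c : Finset α} (hb : b ∈ B) (hc : c ∈ B) (h4 : (b ∩ c).card = 4) : symmDiff b c ∈ B := by
  obtain ⟨j, h⟩ := exists_emb (t := 5) (R := ∅) (by omega) le_rfl hα hB rfl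
  have h1 := (h.blk b).1 hb
  have h2 := (h.blk c).1 hc
  have := H16.card_symmDiff_add b c
  rw [h.blk]
  simp only [union_empty, map_eq_image, image_symmDiff _ _ j.injective] at *
  refine ⟨H16.symmDiff_mem_gSets h1.1 h2.1, ?_⟩
  rw [← image_symmDiff _ _ j.injective, card_image_of_injective _ j.injective]
  have := hB.1 b hb
  have := hB.1 c hc
  omega

end Cfsg.Agent.S0353
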