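import Cfsg.Statements.S0380
import Cfsg.Agent.H16.M24g

set_option autoImplicit false
open Cfsg

namespace Cfsg.Agent.S0380
open H16 Matrix in
theorem base : Nonempty (K21 ≃* ProjectiveSpecialLinearGroup (Fin 3) F4) := by
  have hc : Nat.card (SpecialLinearGroup (Fin 3) F4) = 60480 := by
    have := H12.card_SL_fin card_F4 3 (by norm_num)
    rw [Fin.prod_univ_three] at this
    exact Nat.eq_of_mul_eq_mul_left (by norm_num) (this.trans (by norm_num))
  have hz : Nat.card (Subgroup.center (SpecialLinearGroup (Fin 3) F4)) = 3 := by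
    rw [H12.card_center_SL, Nat.card_eq_fintype_card, card_F4]; rfl
  have g1 := gen_top (G := SpecialLinearGroup (Fin 3) F4) (pt := vecPt el4 4 3) (w := 6) (by norm_num) (inj_vecPt inj_el4 3) hc
    [(⟨!![⟨1, 1⟩, ⟨1, 1⟩, ⟨0, 1⟩; ⟨0, 0⟩, ⟨1, 0⟩, ⟨0, 1⟩; ⟨0, 0⟩, ⟨1, 0⟩, ⟨0, 0⟩], by decide +kernel⟩,
      35658907787841399897900530671169087734976580066143542177554767944698689303110545946026999486155976296177704731414720),
     (⟨!![⟨0, 1⟩, ⟨1, 0⟩, ⟨1, 1⟩; ⟨1, 1⟩, ⟨1, 0⟩, ⟨0, 0⟩; ⟨0, 0⟩, ⟨0, 1⟩, ⟨0, 1⟩], by decide +kernel⟩,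
      2559304380956595619784342154503131494443560308195652492755742771503290989094688151232933175730153085257181454168960)]
    (by decide +kernel)
    [[1, 1, 0, 0, 1, 1, 1], [0, 1, 0, 0, 2, 1], [3, 1, 1, 3, 1, 1], [2, 2, 4, 3, 3, 4], [3, 2, 3, 2, 3], [3, 4, 2, 0, 1, 2, 3, 1, 0, 2]]
    [1, 4, 16] (by decide) (by decide +kernel)
  have g2 : Gen gpt 24 5 K21 [983172399718402415523670954778929184, 961205820834203828175902435387345952] :=
    Gen.of_slp five_le gpt_inj [2, 3, 4, 5] (by decide) _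
      (inK_of_fixAll (A := [bit 23, bit 0, bit 1]) (by decide +kernel) fun _ h => ⟨⟨fix_bit h (by norm_num) (by simp),
        fix_bit h (by norm_num) (by simp)⟩, fix_bit h (by norm_num) (by simp)⟩)
      [[1, 0, 0, 0], [1, 2, 0, 1, 1], [2, 1, 1, 3, 0, 3, 1], [2, 4, 2, 4, 2, 4, 3], [4, 4, 2, 4, 0, 3, 0]]
      (by rw [card_K21]; exact Nat.le_of_ble_eq_true (by decide +kernel))
  obtain ⟨φ, h, -⟩ := exists_surj (w := 7) (inj_vecPt inj_el4 3) gpt_inj (by decide) (faith_SL surj_el4 3 ⊤) (faith_M24 K21)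
    [(35658907787841399897900530671169087734976580066143542177554767944698689303110545946026999486155976296177704731414720,
      983172399718402415523670954778929184),
     (2559304380956595619784342154503131494443560308195652492755742771503290989094688151232933175730153085257181454168960,
      961205820834203828175902435387345952)] [] g1 g2
    [[1, 1, 0, 0, 1, 1, 1], [0, 1, 0, 0, 2, 1], [3, 1, 1, 3, 1, 1], [2, 2, 4, 3, 3, 4], [3, 2, 3, 2, 3], [3, 4, 2, 0, 1, 2, 3, 1, 0, 2]]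
    [1, 4, 16] (by decide) (by decide +kernel)
  have : IsSimpleGroup (SpecialLinearGroup (Fin 3) F4 ⧸ Subgroup.center _) :=
    H12.PSL_fin_simple 3 (by norm_num) (by norm_num)
  exact quot_center_equiv' (φ.comp (Subgroup.topEquiv (G := SpecialLinearGroup (Fin 3) F4)).symm.toMonoidHom)
    (fun y => let ⟨x, hx⟩ := h y; ⟨x, hx⟩)
    (by rw [hc, hz, card_K21]) (by rw [hz, card_K21]; norm_num)

/-- A three-point stabiliser in the group of the length-24 code is isomorphic to PSL(3, F) for the field F with 4 elements. -/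
theorem result (p q r : Cfsg.GolayPt) (hpq : p ≠ q) (hpr : p ≠ r) (hqr : q ≠ r) (F : Type) [Field F] [Fintype F] (hF : Fintype.card F = 4) : Nonempty (↥(MulAction.stabilizer Cfsg.M24 p ⊓ MulAction.stabilizer Cfsg.M24 q ⊓ MulAction.stabilizer Cfsg.M24 r) ≃* Matrix.ProjectiveSpecialLinearGroup (Fin 3) F) := by
  obtain ⟨e⟩ := H16.equiv_K21 hpq hpr hqr
  obtain ⟨f⟩ := base
  obtain ⟨r⟩ := H12.nonempty_ringEquiv_of_natCard_eq (F := H16.F4) (K := F)
    (by rw [Nat.card_eq_fintype_card, Nat.card_eq_fintype_card, hF, H16.card_F4])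
  exact ⟨e.symm.trans (f.trans (H12.pslCongr _ r))⟩

end Cfsg.Agent.S0380
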