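import Cfsg.Statements.S0412
import Mathlib
import Cfsg.Agent.H2.Gol2

set_option autoImplicit false
open Cfsg

namespace Cfsg.Agent.S0412

open H2.St H16 MulAction
open scoped Pointwise

/-- Aut of an S(5, 8, 24) is simple of order 244823040 and 5-transitive on points. -/
theorem result {α : Type*} [Fintype α] [DecidableEq α] (hα : Fintype.card α = 24) {B : Set (Finset α)} (hB : Cfsg.IsSteinerSystem 5 8 B) : Cfsg.IsM24 (Cfsg.setSystemAut B) ∧ MulAction.IsMultiplyPretransitive (Cfsg.setSystemAut B) α 5 := by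
  obtain ⟨j, h⟩ := exists_emb (t := 5) (R := ∅) (by omega) le_rfl hα hB rfl
  obtain ⟨e⟩ := h.equiv (by simp)
  have f := (Subgroup.topEquiv.symm.trans (MulEquiv.subgroupCongr
    (eq_top_iff.2 fun g _ => Finset.smul_finset_empty g).symm)).trans e
  have := simple_M24
  exact ⟨⟨f.symm.isSimpleGroup, (Nat.card_congr f.toEquiv).symm.trans card_M24⟩, h.mt rfl⟩

end Cfsg.Agent.S0412
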