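import Cfsg.Statements.S0413
import Mathlib
import Cfsg.Agent.H2.Gol2

set_option autoImplicit false
open Cfsg

namespace Cfsg.Agent.S0413

open H2.St H16 MulAction
open scoped Pointwise

/-- Aut of an S(4, 7, 23) is simple of order 10200960 and 4-transitive. -/
theorem result {α : Type*} [Fintype α] [DecidableEq α] (hα : Fintype.card α = 23) {B : Set (Finset α)} (hB : Cfsg.IsSteinerSystem 4 7 B) : Cfsg.IsM23 (Cfsg.setSystemAut B) ∧ MulAction.IsMultiplyPretransitive (Cfsg.setSystemAut B) α 4 := by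
  obtain ⟨j, h⟩ := exists_emb (t := 4) (R := {gpt 23}) (by omega) (by omega) hα hB rfl
  obtain ⟨e⟩ := h.equiv (by simp)
  have f : K23 ≃* _ := (MulEquiv.subgroupCongr (by ext; simp)).trans e
  have := simple_K23
  exact ⟨⟨f.symm.isSimpleGroup, (Nat.card_congr f.toEquiv).symm.trans card_K23⟩, h.mt rfl⟩

end Cfsg.Agent.S0413
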