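import Cfsg.Statements.S0434
import Cfsg.Agent.H19.M11e

set_option autoImplicit false
open Cfsg

namespace Cfsg.Agent.S0434

open H19 Subgroup

/-- Sylow 3-normalisers in a simple group of order 7920 have order 144 (so there are 55 Sylow 3-subgroups). -/
theorem result {G : Type*} [Group G] [Finite G] (hG : Cfsg.IsM11 G) (P : Sylow 3 G) : Nat.card (Subgroup.normalizer ((P : Subgroup G) : Set G)) = 144 := by
  classical
  haveI := hG.1
  haveI := Fintype.ofFinite G
  haveI : Fact (Nat.Prime 3) := ⟨Nat.prime_three⟩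
  obtain ⟨D⟩ := nonempty_MDat hG.2
  have h9 : Nat.card P = 3 ^ 2 := by rw [P.card_eq_multiplicity, hG.2]; congr 1; decide +kernel
  have hA := IsPGroup.isMulCommutative_of_card_eq_prime_sq h9
  have h3 : ∀ y ∈ (P : Subgroup G), y ≠ 1 → y ∈ TT G 3 := fun y hy h1 => by
    have := orderOf_dvd_natCard (⟨y, hy⟩ : (P : Subgroup G))
    rw [orderOf_mk, h9] at this
    obtain ⟨k, hk, e⟩ := (Nat.dvd_prime_pow Nat.prime_three).mp this
    rw [mem_TT, e]
    interval_cases k
    · exact absurd (orderOf_eq_one_iff.mp e) h1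
    all_goals rfl
  obtain ⟨v, hv⟩ := exists_prime_orderOf_dvd_card' (G := P) 3 (by rw [h9]; norm_num)
  have hv1 : (v : G) ≠ 1 := fun e => by rw [← orderOf_coe, e] at hv; simp at hv
  set N := normalizer ((P : Subgroup G) : Set G)
  letI : MulAction N G := MulAction.compHom G ((MulAut.conj (G := G)).comp N.subtype)
  have hs : ∀ (n : N) (x : G), n • x = n * x * (n : G)⁻¹ := fun _ _ => rfl
  have h1 : MulAction.orbit N (v : G) = (P : Set G) \ {1} := by
    ext y
    refine ⟨by rintro ⟨n, rfl⟩; exact ⟨(mem_normalizer_iff.mp n.2 _).mp v.2, by simpa [hs] using hv1⟩,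
      fun hy => ?_⟩
    obtain ⟨g, rfl⟩ := isConj_iff.mp (D.conj3 hG.2 (h3 _ v.2 hv1) (h3 y hy.1 hy.2))
    obtain ⟨n, hn, e⟩ := P.conj_eq_normalizer_conj_of_mem (v : G) g⁻¹ v.2 (by rw [inv_inv]; exact hy.1)
    exact ⟨⟨n⁻¹, inv_mem hn⟩, by simp only [hs]; rw [inv_inv, ← e, inv_inv]⟩
  have h2 := ncard_orbit_eq_index (H := N) (v : G)
  rw [h1, Set.ncard_diff_singleton_of_mem (s := (P : Set G)) P.one_mem, ← Nat.card_coe_set_eq] at h2
  have h4 : (P : Subgroup G) ≤ centralizer {(v : G)} := fun a ha => mem_centralizer_singleton_iff.mpr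
    (congrArg Subtype.val (hA.1.1 ⟨a, ha⟩ v))
  have h5 := D.cc3 hG.2 (h3 _ v.2 hv1)
  have h6 : centralizer {(v : G)} ≤ N := by
    rw [← normal_subgroupOf_iff_le_normalizer h4]
    refine normal_of_index_eq_two ?_
    have := ((P : Subgroup G).subgroupOf (centralizer {(v : G)})).index_mul_card
    rw [Nat.card_congr (subgroupOfEquivOfLe h4).toEquiv, h9] at this
    unfold cc at h5
    omega
  have h7 : MulAction.stabilizer N (v : G) = (centralizer {(v : G)}).subgroupOf N := by
    ext n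
    rw [MulAction.mem_stabilizer_iff, hs, mem_subgroupOf, mem_centralizer_singleton_iff,
      mul_inv_eq_iff_eq_mul]
  have h8 := (MulAction.stabilizer N (v : G)).index_mul_card
  rw [← h2, h7, Nat.card_congr (subgroupOfEquivOfLe h6).toEquiv] at h8
  have : Nat.card ((P : Set G)) = 9 := h9
  unfold cc at h5
  rw [← h8, this, h5]

end Cfsg.Agent.S0434
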