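import Cfsg.Statements.S0436

set_option autoImplicit false
open Cfsg

namespace Cfsg.Agent.S0436

theorem braid {G : Type*} [Group G] {E : Set G} (hE : IsThreeTranspositionSet E) {a e : G}
    (he : e ∈ E) (ha : a ∈ E) (h : ¬ Commute e a) : e * a * e = a * e * a := by
  have sq : ∀ d ∈ E, d⁻¹ = d := fun d hd =>
    inv_eq_of_mul_eq_one_right (by rw [← sq, ← hE.1 d hd, pow_orderOf_eq_one])
  rcases hE.2 e he a ha with h2 | h3
  · refine absurd ?_ h
    have := inv_eq_of_mul_eq_one_right ((_root_.sq (e * a)) ▸ h2)
    rw [mul_inv_rev, sq a ha, sq e he] at this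
    exact this.symm
  · have : e * a * e * (a * e * a) = 1 := by
      rw [← h3]; simp only [pow_succ, pow_zero, one_mul, mul_assoc]
    rw [eq_inv_of_mul_eq_one_left this]
    simp only [mul_inv_rev, sq a ha, sq e he, mul_assoc]

/-- For distinct commuting members a, b of a set of 3-transpositions E, a member e of E centralises the product a * b if and only if it centralises both a and b. -/
theorem result {G : Type*} [Group G] {E : Set G} (hE : Cfsg.IsThreeTranspositionSet E) {a b e : G} (ha : a ∈ E) (hb : b ∈ E) (he : e ∈ E) (hab : a ≠ b) (hcomm : Commute a b) : Commute e (a * b) ↔ (Commute e a ∧ Commute e b) := by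
  have sq : ∀ d ∈ E, d * d = 1 := fun d hd => by rw [← sq, ← hE.1 d hd, pow_orderOf_eq_one]
  refine ⟨fun h => ?_, fun h => h.1.mul_right h.2⟩
  have ia : a⁻¹ = a := inv_eq_of_mul_eq_one_right (sq a ha)
  have ib : b⁻¹ = b := inv_eq_of_mul_eq_one_right (sq b hb)
  by_cases h1 : Commute e a
  · exact ⟨h1, by simpa using h1.inv_right.mul_right h⟩
  by_cases h2 : Commute e b
  · exact ⟨by simpa using h.mul_right h2.inv_right, h2⟩
  have e1 := braid hE he ha h1
  have e2 := braid hE he hb h2
  have : a * b = a * (e * (a * b) * e) * b := by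
    calc a * b = e * (a * b) * e := by rw [h.eq, mul_assoc, sq e he, mul_one]
      _ = (e * a * e) * (e * b * e) := by
        simp only [mul_assoc]; rw [← mul_assoc e e, sq e he, one_mul]
      _ = _ := by rw [e1, e2]; simp only [mul_assoc]
  rw [h.eq, mul_assoc (a * b), sq e he, mul_one, ← mul_assoc, sq a ha, one_mul, sq b hb] at this
  exact absurd (ia ▸ (inv_eq_of_mul_eq_one_right this)) hab

end Cfsg.Agent.S0436
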