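import Cfsg.Agent.S0436
import Cfsg.Statements.S0437

set_option autoImplicit false
open Cfsg

namespace Cfsg.Agent.S0437

/-- For three distinct, pairwise commuting members a, b, c of a set of 3-transpositions E, a member e of E centralises a * b * c if and only if it centralises each of a, b and c. -/
theorem result {G : Type*} [Group G] {E : Set G} (hE : Cfsg.IsThreeTranspositionSet E) {a b c e : G} (ha : a ∈ E) (hb : b ∈ E) (hc : c ∈ E) (he : e ∈ E) (hab : a ≠ b) (hac : a ≠ c) (hbc : b ≠ c) (h₁ : Commute a b) (h₂ : Commute a c) (h₃ : Commute b c) : Commute e (a * b * c) ↔ (Commute e a ∧ Commute e b ∧ Commute e c) := by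
  have sq : ∀ d ∈ E, d * d = 1 := fun d hd => by rw [← sq, ← hE.1 d hd, pow_orderOf_eq_one]
  refine ⟨fun h => ?_, fun h => (h.1.mul_right h.2.1).mul_right h.2.2⟩
  by_cases hc' : Commute e c
  · have := (S0436.result hE ha hb he hab h₁).1 (by simpa using h.mul_right hc'.inv_right)
    exact ⟨this.1, this.2, hc'⟩
  by_cases ha' : Commute e a
  · have := (S0436.result hE hb hc he hbc h₃).1 (by simpa [mul_assoc] using ha'.inv_right.mul_right h)
    exact ⟨ha', this.1, this.2⟩
  by_cases hb' : Commute e b
  · have := (S0436.result hE ha hc he hac h₂).1 (by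
      rw [h₁.eq] at h; simpa [mul_assoc] using hb'.inv_right.mul_right h)
    exact ⟨this.1, hb', this.2⟩
  have e1 := S0436.braid hE he ha ha'
  have e2 := S0436.braid hE he hb hb'
  have e3 := S0436.braid hE he hc hc'
  have ee : ∀ x, e * (e * x) = x := fun x => by rw [← mul_assoc, sq e he, one_mul]
  have h4 : a * b * c = a * (e * (a * b * e * b * c) * e) * c := by
    calc a * b * c = e * (a * b * c) * e := by rw [h.eq, mul_assoc _ e e, sq e he, mul_one]
      _ = (e * a * e) * (e * b * e) * (e * c * e) := by simp only [mul_assoc, ee]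
      _ = _ := by rw [e1, e2, e3]; simp only [mul_assoc]
  have h5 : b = e * (a * b * e * b * c) * e := mul_left_cancel (mul_right_cancel h4)
  have h6 : a * (b * e * b) * c = b * e * b := by
    rw [← e2]
    conv_rhs => rw [h5]
    rw [e2]; simp only [mul_assoc, ee, sq e he, mul_one]
  have h7 : a * e * c = e := by
    apply mul_left_cancel (a := b); apply mul_right_cancel (b := b)
    rw [← h6]
    simp only [mul_assoc]
    rw [← mul_assoc b a, ← h₁.eq, h₃.eq, mul_assoc]
  have h8 : a = c * e * c := by
    rw [← e3]
    calc a = a * e * c * (c * e) := by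
          simp only [mul_assoc]; rw [← mul_assoc c c, sq c hc, one_mul, sq e he, mul_one]
      _ = _ := by rw [h7, mul_assoc]
  have h9 : e = a := by
    calc e = c * (c * e * c) * c := by
          simp only [mul_assoc]; rw [← mul_assoc c c, sq c hc, one_mul, mul_one]
      _ = a := by rw [← h8, ← h₂.eq, mul_assoc, sq c hc, mul_one]
  exact absurd (h9 ▸ Commute.refl e) ha'

end Cfsg.Agent.S0437
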