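import Cfsg.Agent.H17.AltCover
import Cfsg.Statements.S0447

set_option autoImplicit false
open Cfsg

namespace Cfsg.Agent.S0447

open Equiv H17

theorem aux {H A : Type*} [Group H] [Finite H] [Group A] {θ : H →* A} (hs : Function.Surjective θ)
    (hk : ∀ x, θ x = 1 ↔ x ∈ Subgroup.center H) (h2 : Nat.card (Subgroup.center H) = 2)
    (hL : ∀ L, ¬ (Subgroup.center H).IsComplement' L) (hl : ∀ u, θ u ^ 2 = 1 → u ^ 2 = 1)
    {j k : ℕ} [NeZero (j * 2)] {s t : A} (h1 : s ^ 2 = 1) (h3 : t ^ 2 = 1)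
    (h4 : (s * t) ^ (j * 2) = 1)
    (h5 : ∀ i : ZMod (j * 2), ((s * t) ^ i.val = 1 → i = 0) ∧ s * (s * t) ^ i.val ≠ 1)
    (hA : Nat.card A = 2 * (j * 2) * k) (hk' : Odd k) : False := by
  obtain ⟨s, rfl⟩ := hs s
  obtain ⟨t, rfl⟩ := hs t
  have e1 : s * s = 1 := sq s ▸ hl s h1
  let ψ := H11.dihedralHom (n := j * 2) (a := s * t) (s := s)
    (by rw [pow_mul]; exact hl _ (by rw [map_pow, ← pow_mul, map_mul, h4]))
    (H11.invol_inverts_left e1 (sq t ▸ hl t h3)) e1
  have hi : ∀ d, θ (ψ d) = 1 → d = 1 := by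
    rintro (i | i) h
    · exact congrArg DihedralGroup.r ((h5 i).1 (by rw [← map_mul, ← map_pow]; exact h))
    · exact absurd (by rw [← map_mul, ← map_pow, ← map_mul]; exact h) (h5 i).2
  have c1 : Nat.card ψ.range = 2 * (j * 2) := by
    rw [← Nat.card_congr (MonoidHom.ofInjective ((injective_iff_map_eq_one ψ).2 fun d hd =>
      hi d (by rw [hd, map_one]))).toEquiv, DihedralGroup.nat_card]
  have c2 := ψ.range.card_mul_index
  have c3 := θ.ker.card_mul_index
  rw [Subgroup.index_ker, MonoidHom.range_eq_top.2 hs, Subgroup.card_top, hA,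
    show θ.ker = Subgroup.center H from Subgroup.ext hk, h2, ← c2, c1] at c3
  obtain ⟨M, hM⟩ := exists_compl_center h2 ψ.range (Subgroup.disjoint_def.2 fun {x} hx ⟨d, hd⟩ => by
    rw [← hd, hi d (by rw [hd]; exact (hk x).2 hx), map_one]) (k := k)
    (Nat.eq_of_mul_eq_mul_left (Nat.mul_pos two_pos (NeZero.pos (j * 2))) (by rw [← c3]; ring)) hk'
  exact hL M hM

theorem n01 : (0 : Fin 8) ≠ 1 := by decide
theorem n23 : (2 : Fin 8) ≠ 3 := by decide
theorem n45 : (4 : Fin 8) ≠ 5 := by decide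
theorem n67 : (6 : Fin 8) ≠ 7 := by decide

theorem x2_sq : tt7 n01 n23 ^ 2 = zA 8 := tt7_sq _ _ (by decide) (by decide)

theorem x4_sq : (tt7 n01 n23 * tt7 n45 n67) ^ 2 = 1 := by
  rw [(tt7_comm n01 n23 n45 n67 (by decide) (by decide) (by decide) (by decide)
    (by decide)).mul_pow, x2_sq, tt7_sq _ _ (by decide) (by decide), ← sq, zA_sq]

theorem x4_ne {z : PinA 8} (h : πA 8 z = 1) : tt7 n01 n23 * tt7 n45 n67 ≠ z := fun e => by
  have := congrArg Subtype.val (e ▸ h : πA 8 (tt7 n01 n23 * tt7 n45 n67) = 1)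
  rw [map_mul, Subgroup.coe_mul, πA_tt7, πA_tt7] at this
  exact absurd this (by decide)

/-- Involutions in double covers of alternating groups: for n ≤ 7, a finite non-split double cover of the alternating group of degree n has exactly one element of order 2 (the central one); for degree 8 there is a non-split double cover with two distinct involutions. -/
theorem result : (∀ (n : ℕ) (H : Type) (_ : Group H) (_ : Finite H), n ≤ 7 → Cfsg.IsNonsplitDoubleCover H (alternatingGroup (Fin n)) → ∀ x y : H, orderOf x = 2 → orderOf y = 2 → x = y) ∧ ∃ (H : Type) (_ : Group H) (_ : Finite H), Cfsg.IsNonsplitDoubleCover H (alternatingGroup (Fin 8)) ∧ ∃ x y : H, x ≠ y ∧ orderOf x = 2 ∧ orderOf y = 2 := by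
  refine ⟨fun n H _ _ hn ⟨h2, ⟨e⟩, hL⟩ => ?_, H17.PinA 8, inferInstance, inferInstance,
    H17.nonsplit_of_sq H17.πA_surj H17.card_ker_πA (alternatingGroup.center_eq_bot (by simp))
      (x := tt7 n01 n23) (by rw [x2_sq]; rfl) (x2_sq ▸ zA_ne),
    zA 8, _, (x4_ne rfl).symm, orderOf_eq_prime zA_sq zA_ne,
    orderOf_eq_prime x4_sq (x4_ne (map_one _))⟩
  let θ : H →* alternatingGroup (Fin n) := e.toMonoidHom.comp (QuotientGroup.mk' _)
  have hs : Function.Surjective θ := e.surjective.comp (QuotientGroup.mk'_surjective _)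
  have hk : ∀ x, θ x = 1 ↔ x ∈ Subgroup.center H := fun x =>
    e.map_eq_one_iff.trans (QuotientGroup.eq_one_iff x)
  have hz : ∀ z ∈ Subgroup.center H, z ^ 2 = 1 := fun z hz => by
    have := pow_card_eq_one' (x := (⟨z, hz⟩ : Subgroup.center H))
    rw [h2] at this; exact congrArg Subtype.val this
  have key : ∀ x : H, orderOf x = 2 → x ∈ Subgroup.center H := fun x hx => by
    by_contra h1
    rw [← hk] at h1
    have hx2 : x ^ 2 = 1 := hx ▸ pow_orderOf_eq_one x
    have hx3 : θ x ^ 2 = 1 := by rw [← map_pow, hx2, map_one]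
    have hl : ∀ u, θ u ^ 2 = 1 → u ^ 2 = 1 := fun u hu => by
      by_cases h0 : θ u = 1
      · exact hz u ((hk u).1 h0)
      · obtain ⟨g, hg⟩ := isConj_iff.1 (H17.isConj_of_invol hn hx3 h1 hu h0)
        obtain ⟨g, rfl⟩ := hs g
        have h3 : (g * x * g⁻¹)⁻¹ * u ∈ Subgroup.center H := by
          rw [← hk, map_mul, map_inv, map_mul, map_mul, map_inv, hg, inv_mul_cancel]
        have h4 : Commute (g * x * g⁻¹) ((g * x * g⁻¹)⁻¹ * u) := Subgroup.mem_center_iff.1 h3 _
        rw [← mul_inv_cancel_left (g * x * g⁻¹) u, h4.mul_pow, hz _ h3, conj_pow, hx2]; simp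
    have h4 := Equiv.Perm.sum_cycleType_le (θ x).1
    rw [H17.cycleType_of_invol hn hx3 h1, Fintype.card_fin] at h4
    have h4 : 4 ≤ n := h4
    have : Nontrivial (Fin n) := Fin.nontrivial_iff_two_le.2 (by omega)
    have hc := nat_card_alternatingGroup (α := Fin n)
    rw [Nat.card_eq_fintype_card (α := Fin n), Fintype.card_fin] at hc
    interval_cases n
    · exact aux hs hk h2 hL hl (j := 1) (k := 3) (s := ⟨swap 0 1 * swap 2 3, Perm.mem_alternatingGroup.2 (by decide)⟩)
        (t := ⟨swap 0 2 * swap 1 3, Perm.mem_alternatingGroup.2 (by decide)⟩) (by decide) (by decide) (by decide) (by decide)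
        hc (by decide)
    · exact aux hs hk h2 hL hl (j := 1) (k := 15) (s := ⟨swap 0 1 * swap 2 3, Perm.mem_alternatingGroup.2 (by decide)⟩)
        (t := ⟨swap 0 2 * swap 1 3, Perm.mem_alternatingGroup.2 (by decide)⟩) (by decide) (by decide) (by decide) (by decide)
        hc (by decide)
    · exact aux hs hk h2 hL hl (j := 2) (k := 45) (s := ⟨swap 0 1 * swap 2 3, Perm.mem_alternatingGroup.2 (by decide)⟩)
        (t := ⟨swap 0 2 * swap 4 5, Perm.mem_alternatingGroup.2 (by decide)⟩) (by decide) (by decide) (by decide) (by decide)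
        hc (by decide)
    · exact aux hs hk h2 hL hl (j := 2) (k := 315) (s := ⟨swap 0 1 * swap 2 3, Perm.mem_alternatingGroup.2 (by decide)⟩)
        (t := ⟨swap 0 2 * swap 4 5, Perm.mem_alternatingGroup.2 (by decide)⟩) (by decide) (by decide) (by decide) (by decide)
        hc (by decide)
  intro x y hx hy
  obtain ⟨z, -, hz⟩ := (Nat.card_eq_two_iff' (1 : Subgroup.center H)).1 h2
  exact congrArg Subtype.val
    ((hz ⟨x, key x hx⟩ fun h => H11.ne_one_of_orderOf_two hx (congrArg Subtype.val h)).trans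
      (hz ⟨y, key y hy⟩ fun h => H11.ne_one_of_orderOf_two hy (congrArg Subtype.val h)).symm)

end Cfsg.Agent.S0447
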