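import Cfsg.Agent.H17.Fi24B
import Cfsg.Statements.S0473

set_option autoImplicit false
open Cfsg

namespace Cfsg.Agent.S0473

/-- The largest Fischer 3-transposition group: a group of order 2 · 1255205709190661721292800 generated by a conjugacy class of 306936 3-transpositions, in which a transposition centraliser has order 2 · 4089470473293004800 and contains a simple subgroup of order 4089470473293004800; its subgroup of index 2 is simple and contains simple subgroups of orders 4089470473293004800 and 4030387200. -/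
theorem result : ∃ (G : Type) (_ : Group G) (_ : Finite G), Nat.card G = 2 * 1255205709190661721292800 ∧ ∃ D : Set G, Cfsg.IsThreeTranspositionClass D ∧ Nat.card D = 306936 ∧ (∀ d ∈ D, Nat.card (Subgroup.centralizer ({d} : Set G)) = 2 * 4089470473293004800 ∧ ∃ K : Subgroup G, K ≤ Subgroup.centralizer ({d} : Set G) ∧ Cfsg.IsFi23 K) ∧ ∃ H : Subgroup G, H.index = 2 ∧ Cfsg.IsFi24' H ∧ (∃ K : Subgroup H, Cfsg.IsFi23 K) ∧ (∃ K : Subgroup H, Cfsg.IsHe K) := by
  have h23 : IsSimpleGroup H17.Fi24.ψ.range ∧ Nat.card H17.Fi24.ψ.range = 4089470473293004800 := by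
    have := H17.Fi23.simple
    rw [← H17.Fi23.faith.card]; exact H17.simple_card_range H17.Fi24.ψ_inj
  refine ⟨Spor.Fi24, inferInstance, H17.Fi24.faith.fin, H17.Fi24.faith.card, _,
    H17.Fi24.threeTr.1, H17.Fi24.threeTr.2, fun d hd => ?_, commutator _, H17.Fi24.main.1,
    ⟨H17.Fi24.main.2.2.1, H17.Fi24.main.2.1⟩,
    ⟨_, H17.simple_card_subgroupOf h23 H17.Fi24.ψ_le_commutator⟩, ?_⟩
  · obtain ⟨c, rfl⟩ := isConj_iff.1 hd
    refine ⟨?_, _, ?_, H17.simple_card_map h23 (ψ := (MulAut.conj c).toMonoidHom) (MulAut.conj c).injective⟩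
    · rw [← Nat.card_congr (H17.centralizerConjEquiv _ c).toEquiv, H17.Fi24.card_centralizer_l]
    · rw [H17.centralizer_conj]
      exact Subgroup.map_mono H17.Fi24.ψ_le_centralizer
  · obtain ⟨θ, h1, h2, -⟩ := H17.Fi24.exists_He
    have := H17.He.simple
    have h3 := H17.simple_card_range h1
    rw [H17.He.faith.card] at h3
    exact ⟨_, H17.simple_card_subgroupOf h3 h2⟩

end Cfsg.Agent.S0473
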