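import Cfsg.Statements.S0550
import Mathlib
import Cfsg.Agent.H2.Prim

set_option autoImplicit false
open Cfsg

namespace Cfsg.Agent.S0550

/-- Let U be a maximal subgroup with trivial normal core in a finite group G, and A ≠ B two minimal normal subgroups. Then A is the centralizer of B and B that of A, U complements each of them, A and B are non-abelian, and A, B and (A ⊔ B) ∩ U are pairwise isomorphic. -/
theorem result {G : Type*} [Group G] [Finite G] (U : Subgroup G) (hU : IsCoatom U) (hcore : U.normalCore = ⊥) (A B : Subgroup G) [A.Normal] [B.Normal] (hA : A ≠ ⊥) (hB : B ≠ ⊥) (hAmin : ∀ K : Subgroup G, K.Normal → K ≤ A → K = ⊥ ∨ K = A) (hBmin : ∀ K : Subgroup G, K.Normal → K ≤ B → K = ⊥ ∨ K = B) (hAB : A ≠ B) : Subgroup.centralizer (B : Set G) = A ∧ Subgroup.centralizer (A : Set G) = B ∧ Subgroup.IsComplement' A U ∧ Subgroup.IsComplement' B U ∧ ¬ IsMulCommutative A ∧ Nonempty (A ≃* B) ∧ Nonempty (A ≃* ↥((A ⊔ B) ⊓ U)) := by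
  have mA : H2.IsMinNormal A := ⟨‹_›, hA, hAmin⟩
  have mB : H2.IsMinNormal B := ⟨‹_›, hB, hBmin⟩
  have h0 := mA.inf_eq_bot_of_ne mB hAB
  have hc : ⁅A, B⁆ = ⊥ := Subgroup.commutator_eq_bot_of_disjoint (disjoint_iff.2 h0)
  have h1 : Subgroup.centralizer (B : Set G) = A := (H2.eq_centralizer_of_core hU hcore hB hA
    (Subgroup.commutator_eq_bot_iff_le_centralizer.1 hc)).symm
  have h2 : Subgroup.centralizer (A : Set G) = B := (H2.eq_centralizer_of_core hU hcore hA hB
    (Subgroup.commutator_eq_bot_iff_le_centralizer.1 (H10.commutator_eq_bot_comm hc))).symm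
  have h3 : A ⊓ U = ⊥ := h1 ▸ H2.centralizer_inf_eq_bot_of_core hU hcore hB
  have h4 : B ⊓ U = ⊥ := h2 ▸ H2.centralizer_inf_eq_bot_of_core hU hcore hA
  have h5 := H2.sup_eq_top_of_core hU hcore hA
  have h6 := H2.sup_eq_top_of_core hU hcore hB
  have dA : (A ⊔ B) ⊓ U ⊔ A = A ⊔ B := by
    have := H1.sup_inf_of_le_normalizer (H2.le_normalizer_of_normal' A U) (le_sup_left (b := B))
    rw [h5, top_inf_eq] at this
    rw [sup_comm, inf_comm, ← this]
  have dB : (A ⊔ B) ⊓ U ⊔ B = A ⊔ B := by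
    have := H1.sup_inf_of_le_normalizer (H2.le_normalizer_of_normal' B U) (le_sup_right (a := A))
    rw [h6, top_inf_eq] at this
    rw [sup_comm, inf_comm, ← this]
  have iA : (A ⊔ B) ⊓ U ⊓ A = ⊥ := le_bot_iff.1 (h3 ▸ le_inf inf_le_right (inf_le_left.trans inf_le_right))
  have iB : (A ⊔ B) ⊓ U ⊓ B = ⊥ := le_bot_iff.1 (h4 ▸ le_inf inf_le_right (inf_le_left.trans inf_le_right))
  obtain ⟨e1⟩ := H2.nonempty_equiv_of_complements h0 iB dB.symm
  obtain ⟨e2⟩ := H2.nonempty_equiv_of_complements (by rwa [inf_comm] : B ⊓ A = ⊥) iA (by rw [dA, sup_comm])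
  refine ⟨h1, h2, H2.isComplement'_of_normal h3 h5, H2.isComplement'_of_normal h4 h6, fun h => ?_,
    ⟨e1.trans e2.symm⟩, ⟨e1⟩⟩
  exact hAB ((H2.centralizer_eq_of_core hU hcore hA).symm.trans h2)

end Cfsg.Agent.S0550
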