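import Cfsg.Statements.S0618
import Cfsg.Agent.H9.Hol

set_option autoImplicit false
open Cfsg

namespace Cfsg.Agent.S0618

/-- A p-separable group with trivial p'-core in which the Thompson factorization fails has p = 2 or 3, and J(G) induces on the normal closure of Ω₁(Z(S)) a group containing a normal SL(2, p). -/
theorem result {G : Type*} [Group G] [Finite G] {p : ℕ} [Fact p.Prime] (hsep : Cfsg.IsPSolvable p G) (hO : Cfsg.pPrimeCore p G = ⊥) (hnf : ¬ Cfsg.IsThompsonFactorizable p G) : (p = 2 ∨ p = 3) ∧ ∃ E : Subgroup G, Subgroup.centralizer ((⨆ S : Sylow p G, Cfsg.omegaOne p ((S : Subgroup G) ⊓ Subgroup.centralizer ((S : Subgroup G) : Set G))) : Set G) ≤ E ∧ E ≤ Cfsg.thompsonSubgroup p G ⊔ Subgroup.centralizer ((⨆ S : Sylow p G, Cfsg.omegaOne p ((S : Subgroup G) ⊓ Subgroup.centralizer ((S : Subgroup G) : Set G))) : Set G) ∧ Cfsg.thompsonSubgroup p G ⊔ Subgroup.centralizer ((⨆ S : Sylow p G, Cfsg.omegaOne p ((S : Subgroup G) ⊓ Subgroup.centralizer ((S :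 Subgroup G) : Set G))) : Set G) ≤ Subgroup.normalizer (E : Set G) ∧ ∃ hn : ((Subgroup.centralizer ((⨆ S : Sylow p G, Cfsg.omegaOne p ((S : Subgroup G) ⊓ Subgroup.centralizer ((S : Subgroup G) : Set G))) : Set G)).subgroupOf E).Normal, Nonempty ((↥E ⧸ (Subgroup.centralizer ((⨆ S : Sylow p G, Cfsg.omegaOne p ((S : Subgroup G) ⊓ Subgroup.centralizer ((S : Subgroup G) : Set G))) : Set G)).subgroupOf E) ≃* Matrix.SpecialLinearGroup (Fin 2) (ZMod p)) := by
  have hC : Subgroup.centralizer ((⨆ S : Sylow p G, Cfsg.omegaOne p ((S : Subgroup G) ⊓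
      Subgroup.centralizer ((S : Subgroup G) : Set G))) : Set G) =
      Subgroup.centralizer (H9.vSub p G : Set G) := by
    rw [H9.vSub, Subgroup.iSup_eq_closure, Subgroup.centralizer_closure]; rfl
  rw [hC]
  have hV := H9.CharPGrp.isEA_vSub (H9.centralizer_pCore_le_of_isPSolvable hsep hO)
  have hO' := H9.pCore_quotient_centralizer_vSub (G := G) (p := p)
  have hF := H9.ffSet_holRep hsep hV hO'
  obtain ⟨E, hE, hle⟩ := H9.exists_isFF_le hsep hV hO'
    (mt (H9.isThompsonFactorizable_iff hO).2 hnf)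
  have hE' := hF.fac_of_isFF hE
  have hk := H9.ker_holRep (V := H9.vSub p G)
  refine ⟨hF.fac_prime hE', E.comap (H9.holRep (H9.vSub p G)),
    hk.ge.trans (Subgroup.ker_le_comap _ _),
    (Subgroup.comap_mono hle).trans (by rw [Subgroup.comap_map_eq, hk]), ?_, ?_⟩
  · refine le_trans (sup_le ?_ (hk.ge.trans (Subgroup.ker_le_comap _ _)))
      (H10.comap_le_normalizer_comap (hF.iSup_le_normalizer (E := ⟨E, hE⟩)) _)
    rw [← H9.thompsonOf_top]
    exact H9.thompsonOf_le_comap_ffJ hsep hV hO' le_top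
  · obtain ⟨e⟩ := hF.fac_equiv hE'
    let f := e.toMonoidHom.comp ((H9.holRep (H9.vSub p G)).subgroupComap E)
    have h1 : Function.Surjective f := e.surjective.comp fun y => by
      obtain ⟨g, hg⟩ := hE'.le y.2
      exact ⟨⟨g, show _ ∈ E from hg ▸ y.2⟩, Subtype.ext hg⟩
    have h2 : f.ker = (Subgroup.centralizer (H9.vSub p G : Set G)).subgroupOf _ := by
      ext g
      rw [← hk, Subgroup.mem_subgroupOf, MonoidHom.mem_ker, MonoidHom.mem_ker]
      exact (EmbeddingLike.map_eq_one_iff (f := e)).trans Subtype.ext_iff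
    exact ⟨inferInstance, ⟨(QuotientGroup.quotientMulEquivOfEq h2.symm).trans
      (QuotientGroup.quotientKerEquivOfSurjective f h1)⟩⟩

end Cfsg.Agent.S0618
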