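import Cfsg.Statements.S0658
import Cfsg.Agent.H9.PCons

set_option autoImplicit false
open Cfsg

namespace Cfsg.Agent.S0658

theorem normal_aux {G : Type*} [Group G] [Finite G] {p : ℕ} [Fact p.Prime] (hp : p ≠ 2)
    {H R : Subgroup G} (h : Cfsg.pPrimeCore p H = ⊥ ∧ Cfsg.IsPConstrained p H ∧ Cfsg.IsPStable p H)
    (hR : H3.SylowIn p R H) : H ≤ Subgroup.normalizer (Cfsg.centerThompsonOf 0 R : Set G) := by
  have h1 := H9.zj_factorization hp (dvd_zero p) h.2.1 (H9.isPStable_iff.mp h.2.2).2.2 hR.toSylow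
  rw [h.1, bot_sup_eq, hR.coe_toSylow] at h1
  have h2 := Subgroup.le_normalizer_map (H := Cfsg.centerThompsonOf 0 (R.subgroupOf H)) H.subtype
  rwa [h1, H9.map_top_subtype, H9.map_centerThompsonOf H.subtype_injective,
    Subgroup.map_subgroupOf_eq_of_le hR.le] at h2

/-- In a group of characteristic p type all of whose p-locals are p-stable (p odd), the normalizer of Z(J(P)) contains the normalizer of every nontrivial subgroup of the Sylow p-subgroup P. -/
theorem result {G : Type*} [Group G] [Finite G] {p : ℕ} [Fact p.Prime] (hp : p ≠ 2) (hloc : ∀ Q : Subgroup G, IsPGroup p Q → Q ≠ ⊥ → Cfsg.pPrimeCore p ↥(Subgroup.normalizer (Q : Set G)) = ⊥ ∧ Cfsg.IsPConstrained p ↥(Subgroup.normalizer (Q : Set G)) ∧ Cfsg.IsPStable p ↥(Subgroup.normalizer (Q : Set G))) (P : Sylow p G) (Q : Subgroup G) (hQP : Q ≤ (P : Subgroup G)) (hQ1 : Q ≠ ⊥) : Subgroup.normalizer (Q : Set G) ≤ Subgroup.normalizer (Cfsg.centerThompsonAOf ((P : Subgroup G)) : Set G) := by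
  rw [H9.centerThompsonAOf_eq]
  set M := Subgroup.normalizer (Cfsg.centerThompsonOf 0 (P : Subgroup G) : Set G) with hM
  have hPM : (P : Subgroup G) ≤ M := Subgroup.le_normalizer.trans
    ((H9.normalizer_le_normalizer_thompsonOf 0 _).trans
      (H9.normalizer_thompsonOf_le_normalizer_center 0 _))
  by_contra hbad
  obtain ⟨T₀, hT₀⟩ := H3.exists_sylowIn p (Subgroup.normalizer (Q : Set G) ⊓ M)
  obtain ⟨⟨U, T⟩, ⟨h1, h2, h3, h4, h5⟩, hmax⟩ := Set.Finite.exists_maximalFor
    (fun x : Subgroup G × Subgroup G => Nat.card x.2)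
    {x | IsPGroup p x.1 ∧ x.1 ≠ ⊥ ∧ x.1 ≤ M ∧
      H3.SylowIn p x.2 (Subgroup.normalizer (x.1 : Set G) ⊓ M) ∧
      ¬ Subgroup.normalizer (x.1 : Set G) ≤ M} (Set.toFinite _)
    ⟨(Q, T₀), P.isPGroup'.to_le hQP, hQ1, hQP.trans hPM, hT₀, hbad⟩
  dsimp only at h1 h2 h3 h4 h5 hmax
  have hUT : U ≤ T := h4.le_of_le_normalizer h1 (le_inf Subgroup.le_normalizer h3) inf_le_left
  have hT0 : T ≠ ⊥ := fun h => h2 (by rwa [h, le_bot_iff] at hUT)
  have hTM : T ≤ M := h4.le.trans inf_le_right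
  -- any `p`-local containing a larger `p`-subgroup of `M` lies in `M`
  have key : ∀ X Y : Subgroup G, X ≤ T → X ≠ ⊥ → IsPGroup p Y → T < Y → Y ≤ M →
      Y ≤ Subgroup.normalizer (X : Set G) → Subgroup.normalizer (X : Set G) ≤ M := by
    intro X Y x1 x2 y1 y2 y3 y4
    by_contra hX
    obtain ⟨T', t1, t2⟩ := H3.exists_sylowIn_le y1 (le_inf y4 y3)
    have := H9.card_lt_of_lt (y2.trans_le t2)
    exact absurd (hmax (j := (X, T')) ⟨h4.isPGroup.to_le x1, x2, x1.trans hTM, t1, hX⟩ this.le)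
      (not_le.mpr this)
  obtain ⟨S, hS, hTS⟩ := H3.exists_sylowIn_le h4.isPGroup hTM
  rcases hTS.eq_or_lt with rfl | hlt
  · obtain ⟨m, hm, e⟩ := (H3.sylowIn_of_le P hPM).exists_conj hS
    have hT : H3.SylowIn p T (Subgroup.normalizer (U : Set G)) := by
      have := (H3.sylowIn_top P).conj m
      rw [e, H3.conj_smul_eq_of_normal] at this
      exact this.of_le (h4.le.trans inf_le_left) le_top
    have := normal_aux hp (hloc U h1 h2) hT
    rw [← e, ← H3.map_conj_eq_smul, ← H9.map_centerThompsonOf (MulAut.conj m).injective,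
      H9.map_conj_eq_iff.mpr hm] at this
    exact h5 this
  · have hlt' := H3.lt_inf_normalizer_of_lt hS.isPGroup hlt
    have hY : IsPGroup p ((S ⊓ Subgroup.normalizer (T : Set G) : Subgroup G)) :=
      hS.isPGroup.to_le inf_le_left
    have hNT := key T _ le_rfl hT0 hY hlt' (inf_le_left.trans hS.le) inf_le_right
    have hT : H3.SylowIn p T (Subgroup.normalizer (U : Set G)) := by
      refine H3.sylowIn_of_forall_eq h4.isPGroup (h4.le.trans inf_le_left) fun R r1 r2 r3 => ?_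
      by_contra hne
      have := H3.lt_inf_normalizer_of_lt r1 (lt_of_le_of_ne r3 (Ne.symm hne))
      exact this.ne' (h4.eq_of_le (r1.to_le inf_le_left) (inf_le_inf r2 hNT) this.le)
    refine h5 ((normal_aux hp (hloc U h1 h2) hT).trans (key _ _ (H9.centerThompsonOf_le 0 T)
      (H9.centerThompsonOf_ne_bot (dvd_zero p) h4.isPGroup hT0) hY hlt' (inf_le_left.trans hS.le)
      (inf_le_right.trans ((H9.normalizer_le_normalizer_thompsonOf 0 _).trans
        (H9.normalizer_thompsonOf_le_normalizer_center 0 _)))))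

end Cfsg.Agent.S0658
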