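import Cfsg.Statements.S0679
import Mathlib
import Cfsg.Agent.H2.Deg11
import Cfsg.Agent.S0498

set_option autoImplicit false
open Cfsg

namespace Cfsg.Agent.S0679

open H2.Pm MulAction

/-- A non-solvable transitive permutation group on 11 points that does not contain the alternating group is either sharply 4-transitive (of order 7920) or isomorphic to the projective special linear group of degree 2 over the field with 11 elements. -/
theorem result {α : Type*} [Fintype α] [DecidableEq α] (hα : Fintype.card α = 11) (G : Subgroup (Equiv.Perm α)) [MulAction.IsPretransitive G α] (hG : ¬ Group.IsSolvable G) (hA : ¬ alternatingGroup α ≤ G) : (MulAction.IsMultiplyPretransitive G α 4 ∧ ∀ x : Fin 4 ↪ α, MulAction.stabilizer G x = ⊥) ∨ Nonempty (G ≃* Matrix.ProjectiveSpecialLinearGroup (Fin 2) (ZMod 11)) := by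
  have : Fact (Nat.Prime 11) := ⟨by norm_num⟩
  have hX : Nat.card α = 11 := by rw [Nat.card_eq_fintype_card, hα]
  rcases deg_eleven (G := G) hα hG fun h => hA (fun g hg => by
    obtain ⟨g, rfl⟩ := h (by convert hg); exact g.2) with ⟨h1, h2⟩ | h
  · refine .inl ⟨h1, fun x => eq_bot_iff.2 fun g hg => ?_⟩
    have := card_eq_of_mt h1 (Finset.univ.map x) (by simp)
    simp only [hα, h2, Nat.descFactorial] at this
    have h3 : Nat.card (fixingSubgroup G (Finset.univ.map x : Set α)) = 1 := by omega
    rw [← Subgroup.card_eq_one.1 h3, mem_fixingSubgroup_iff]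
    intro z hz
    obtain ⟨i, -, rfl⟩ := Finset.mem_map.1 hz
    exact DFunLike.congr_fun hg i
  have := simple_of_prime_deg hX hG fun k n b1 b2 b3 b4 b5 => by
    rw [h] at b5 ⊢
    have := Nat.le_of_dvd (by omega) b1
    have := Nat.le_of_dvd (by omega) b5
    unfold Nat.ModEq at b2
    have : n ≤ 30 := by interval_cases k <;> omega
    interval_cases k <;> first | omega | (interval_cases n <;> omega)
  exact .inr (S0498.result 11 (.inl rfl) (by omega) (ZMod.card 11))

end Cfsg.Agent.S0679
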