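import Cfsg.Statements.S0688
import Mathlib
import Cfsg.Agent.H2.Lin1

set_option autoImplicit false
open Cfsg

namespace Cfsg.Agent.S0688

/-- Degrees of the soluble exceptional sharply doubly transitive groups: if a solvable linear group over the prime field is regular on the non-zero vectors of `V` and has no irreducible cyclic normal subgroup, then `V` has 25, 49, 121 or 529 elements. -/
theorem result {p : ℕ} [Fact p.Prime] {V : Type*} [AddCommGroup V] [Module (ZMod p) V] [Finite V] (H : Subgroup (V ≃ₗ[ZMod p] V)) (hreg : ∀ v w : V, v ≠ 0 → w ≠ 0 → ∃! h : H, (h : V ≃ₗ[ZMod p] V) v = w) (hI : ∀ A : Subgroup H, A.Normal → IsCyclic A → ∃ W : Submodule (ZMod p) V, W ≠ ⊥ ∧ W ≠ ⊤ ∧ ∀ a ∈ A, ∀ v ∈ W, ((a : H) : V ≃ₗ[ZMod p] V) v ∈ W) (hsolv : Group.IsSolvable H) : Nat.card V = 25 ∨ Nat.card V = 49 ∨ Nat.card V = 121 ∨ Nat.card V = 529 := by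
  have h := H2.Pm.regLin_of hreg
  haveI := H2.Pm.NoIrr.nontrivial (p := p) (H := H) hI
  haveI := h.finite
  obtain ⟨A, h1, h2, h3⟩ := H1.exists_maximal_abelian_normal (G := H)
  obtain ⟨N, h4, h5, h6, h7⟩ := H2.Pm.exists_min_nonab inferInstance
    (h.cent_not_comm (p := p) hI ⟨h1, h2, h3⟩)
  have h8 := H2.Pm.quat_or_sl25 h.freeRep ⟨h1, h2, h3⟩ h5 h6 h7
  obtain ⟨-, W, h9, h10, h11⟩ := h.exists_W (p := p) (H2.Pm.exists_quat h8)
  obtain ⟨e⟩ := h8.resolve_right fun ⟨e⟩ => H2.Pm.not_sol_sl25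
    (solvable_of_surjective (f := e.toMonoidHom) e.surjective)
  rcases h.card_of_q8 hI e h9 h10 h11 with h | h | h | h <;> simp [h9, h]

end Cfsg.Agent.S0688
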