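import Cfsg.Statements.S0727
import Cfsg.Agent.H4.Zass4

set_option autoImplicit false
open Cfsg

namespace Cfsg.Agent.S0727

open Cfsg.Agent.H4


/-- A sharply triply transitive permutation group of degree `2^f + 1` is isomorphic to the projective general linear group of degree 2 over the field with `2^f` elements. -/
theorem result {α : Type*} [Fintype α] [DecidableEq α] {f : ℕ} (hf : 1 ≤ f) (hα : Fintype.card α = 2 ^ f + 1) (G : Subgroup (Equiv.Perm α)) (h3 : MulAction.IsMultiplyPretransitive G α 3) (hsharp : ∀ x : Fin 3 ↪ α, MulAction.stabilizer G x = ⊥) : ∃ (F : Type) (_ : Field F) (_ : Fintype F), Fintype.card F = 2 ^ f ∧ Nonempty (G ≃* Matrix.ProjGenLinGroup (Fin 2) F) := by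
  classical
  have h2 : 2 ≤ 2 ^ f := by
    calc 2 = 2 ^ 1 := rfl
      _ ≤ 2 ^ f := Nat.pow_le_pow_right (by norm_num) hf
  have hc := exists_third_of_card (α := α) (by omega)
  have h := zt_of_sharp3 G h3 hsharp hc
  obtain ⟨a, b, hab⟩ := Fintype.exists_pair_of_one_lt_card (α := α) (by omega)
  obtain ⟨c, hca, hcb⟩ := hc a b
  have hodd : Odd (Nat.card α) := by
    rw [Nat.card_eq_fintype_card, hα]
    exact (Nat.even_pow.2 ⟨by norm_num, by omega⟩).add_one
  obtain ⟨s, hs, h1, h4⟩ := h.exists_invol_swap hab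
  obtain ⟨F, _, _, h5, h6⟩ := h.iso_PGL_of_inverts hab hca hcb (h.card_St2_of_three h3 hab hca hcb)
    h1 h4 (h.inverts_of_odd hodd hab hs h1 h4)
  refine ⟨F, inferInstance, inferInstance, ?_, h6⟩
  have := h.card_K hab
  rw [Nat.card_eq_fintype_card (α := α)] at this
  omega

end Cfsg.Agent.S0727
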