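import Cfsg.Statements.S0731
import Cfsg.Agent.H4.Zass7

set_option autoImplicit false
open Cfsg

namespace Cfsg.Agent.S0731

open Cfsg.Agent.H4


/-- A finite Zassenhaus group whose point stabiliser has an abelian regular normal subgroup on the remaining points is sharply triply transitive or isomorphic to `PSL(2, F)` for a finite field `F` of odd characteristic. -/
theorem result {G Ω : Type*} [Group G] [Finite G] [MulAction G Ω] [Finite Ω] (hZ : Cfsg.IsZassenhausGroup G Ω) (x : Ω) (F : Subgroup G) (hFle : F ≤ MulAction.stabilizer G x) (hFn : (F.subgroupOf (MulAction.stabilizer G x)).Normal) (hFab : IsMulCommutative F) (hreg : ∀ y z : Ω, y ≠ x → z ≠ x → ∃! u : F, (u : G) • y = z) : (MulAction.IsMultiplyPretransitive G Ω 3 ∧ ∀ t : Fin 3 ↪ Ω, MulAction.stabilizer G t = ⊥) ∨ ∃ (K : Type) (_ : Field K) (_ : Fintype K), ringChar K ≠ 2 ∧ Nonempty (G ≃* Matrix.ProjectiveSpecialLinearGroup (Fin 2) K) := by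
  obtain ⟨b, hab⟩ := hZ.exists_ne x
  have h := hZ.zt
  obtain rfl := h.eq_K_of_reg hab hFle hreg
  have h1 : ∀ {N : Subgroup G} (hZ' : IsZassenhausGroup N Ω), Odd (Nat.card (St2 N x b)) →
      Nat.card (h.K x) - 1 ≤ 2 * Nat.card (St2 N x b) := fun hZ' ho => by
    rw [← h.card_K_subgroup hZ'.zt hab]
    exact (hZ'.feit hab ho).resolve_right fun h2 => h2.2.1
      (Subgroup.commutator_eq_bot_iff_le_centralizer.2 fun u hu v hv => Subtype.ext
        (Subtype.ext_iff.1 (mul_comm' (⟨v, (h.mem_K_subgroup _).1 hv⟩ : h.K x)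
          ⟨u, (h.mem_K_subgroup _).1 hu⟩) :))
  by_cases h2 : Nat.card (St2 G x b) = Nat.card (h.K x) - 1
  · exact Or.inl (h.three_of_card hab h2)
  have h3 : 2 * Nat.card (St2 G x b) ≤ Nat.card (h.K x) - 1 := by
    obtain ⟨m, hm⟩ := h.card_St2_dvd hab
    have := (h.K x).one_lt_card_iff_ne_bot.2 (h.K_ne_bot' hab (hZ.St2_ne_bot hab))
    have : m ≠ 1 := by rintro rfl; omega
    have : m ≠ 0 := by rintro rfl; omega
    rw [hm, mul_comm]; exact Nat.mul_le_mul_left _ (by omega)
  right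
  rcases Nat.even_or_odd (Nat.card (St2 G x b)) with he | ho
  · obtain ⟨F, _, _, -, h4⟩ := hZ.iso_PSL_of_even_small hab he h3
    exact ⟨F, inferInstance, inferInstance, h4⟩
  have := hZ.nontrivial
  have : IsSimpleGroup G := ⟨fun N hN => or_iff_not_imp_left.2 fun hne =>
    hZ.eq_top_of_card hne hab (by
      have := h1 (hZ.normal_subgroup N hne) (ho.of_dvd_nat (card_St2_subgroup_dvd N x b))
      omega)⟩
  have := (hZ.zo hab ho).comm hab
  obtain ⟨F, _, _, -, h4⟩ := h.iso_PSL_of_half hab (le_antisymm h3 ((hZ.feit hab ho).resolve_right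
    fun h2 => h2.2.1 (Subgroup.commutator_eq_bot_iff_le_centralizer.2 fun u hu v hv =>
      congrArg Subtype.val (mul_comm' (⟨v, hv⟩ : h.K x) ⟨u, hu⟩))))
    (H19.commutator_eq_top_of_simple hZ.not_comm)
  exact ⟨F, inferInstance, inferInstance, h4⟩

end Cfsg.Agent.S0731
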