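import Cfsg.Statements.S0732
import Cfsg.Agent.H4.Zass8
import Cfsg.Agent.S0730
import Cfsg.Agent.S0727
import Cfsg.Agent.H12.Transport

set_option autoImplicit false
open Cfsg

namespace Cfsg.Agent.S0732

open Cfsg.Agent.H4

open Subgroup MulAction

theorem trans_of_order {α : Type*} [Fintype α] [DecidableEq α] {p : ℕ} (hp : p.Prime)
    (hα : Fintype.card α = p + 1) {y : Equiv.Perm α} (hy : orderOf y = p) {a b c : α} (ha : y a = a)
    (hb : b ≠ a) (hc : c ≠ a) : ∃ k : ℤ, (y ^ k) b = c := by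
  have h1 := Equiv.Perm.isCycle_of_prime_order' (hy ▸ hp) (by have := hp.two_le; omega)
  have h2 : y.support = Finset.univ.erase a := Finset.eq_of_subset_of_card_le
    (fun x hx => Finset.mem_erase.2 ⟨by rintro rfl; simp [ha] at hx, Finset.mem_univ _⟩)
    (by rw [← h1.orderOf, hy]; simp [hα])
  exact h1.exists_zpow_eq (Equiv.Perm.mem_support.1 (by simp [h2, hb]))
    (Equiv.Perm.mem_support.1 (by simp [h2, hc]))

theorem zt {α : Type*} [Fintype α] [DecidableEq α] {p d : ℕ} (hp : p.Prime)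
    (hα : Fintype.card α = p + 1) (G : Subgroup (Equiv.Perm α)) [MulAction.IsPretransitive G α]
    (hG : Nat.card G = (p + 1) * p * d) (hd : d < p) : ZT G α := by
  have := Fact.mk hp
  have h1 : ∀ a : α, ∃ P : Subgroup G, Nat.card P = p ∧ P ≤ stabilizer G a ∧
      ∀ g ∈ stabilizer G a, ∀ x ∈ P, g * x * g⁻¹ ∈ P := fun a => by
    have h1 := (stabilizer G a).index_mul_card
    rw [index_stabilizer_of_transitive, Nat.card_eq_fintype_card, hα, hG, mul_assoc] at h1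
    replace h1 := Nat.eq_of_mul_eq_mul_left (Nat.succ_pos p) h1
    have h0 : 0 < d := Nat.pos_of_mul_pos_left (h1 ▸ Nat.card_pos) |>.trans_le le_rfl
    obtain ⟨P⟩ : Nonempty (Sylow p (stabilizer G a)) := inferInstance
    have h2 := H19.card_sylow_of_prime_mul p d h1 (Nat.not_dvd_of_pos_of_lt h0 hd) P
    have h3 := (P : Subgroup (stabilizer G a)).card_mul_index
    rw [h2, h1] at h3
    have h4 := Nat.le_of_dvd h0 (Nat.eq_of_mul_eq_mul_left hp.pos h3 ▸ P.card_dvd_index)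
    have h5 := (card_sylow_modEq_one p (stabilizer G a)).eq_of_lt_of_lt (by omega) hp.one_lt
    have := (Nat.card_eq_one_iff_unique.1 h5).1
    have h6 := Sylow.normal_of_subsingleton P
    refine ⟨(P : Subgroup (stabilizer G a)).map (Subgroup.subtype _), by
      rw [card_map_of_injective (subtype_injective _), h2], map_subtype_le _, ?_⟩
    rintro g hg _ ⟨x, hx, rfl⟩
    exact ⟨_, h6.conj_mem x hx ⟨g, hg⟩, rfl⟩
  have h2 : ∀ {P : Subgroup G} {a : α}, Nat.card P = p → P ≤ stabilizer G a → ∀ y ∈ P, y ≠ 1 →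
      ∀ b c, b ≠ a → c ≠ a → ∃ k : ℤ, y ^ k • b = c := fun h2 h3 y hy h4 b c hb hc =>
    trans_of_order hp hα (y := y) (by
      rw [orderOf_coe]
      exact ((Nat.dvd_prime hp).1 (h2 ▸ orderOf_dvd_natCard _ hy)).resolve_left
        (mt orderOf_eq_one_iff.1 h4)) (h3 hy) hb hc
  have h3 : ∀ a b c : α, b ≠ a → c ≠ a → ∃ (P : Subgroup G) (y : G), Nat.card P = p ∧
      P ≤ stabilizer G a ∧ (∀ g ∈ stabilizer G a, ∀ x ∈ P, g * x * g⁻¹ ∈ P) ∧ y ∈ P ∧ y • b = c :=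
    fun a b c hb hc => by
      obtain ⟨P, h3, h4, h5⟩ := h1 a
      obtain ⟨⟨x, hx⟩, hx1⟩ := ne_bot_iff_exists_ne_one.1 (P.one_lt_card_iff_ne_bot.1 (h3 ▸ hp.one_lt))
      obtain ⟨k, hk⟩ := h2 h3 h4 x hx (fun e => hx1 (Subtype.ext e)) b c hb hc
      exact ⟨P, _, h3, h4, h5, zpow_mem hx k, hk⟩
  refine ⟨fun g hg => Subtype.ext (Equiv.ext hg), fun a b c d hab hcd => ?_,
    fun g a b c hab hbc hac ha hb hc => ?_⟩
  · obtain ⟨g, rfl⟩ := exists_smul_eq G a c
    obtain ⟨P, y, -, h4, -, h5, h6⟩ := h3 (g • a) (g • b) d (by simpa using hab.symm) hcd.symm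
    exact ⟨y * g, by rw [mul_smul]; exact h4 h5, by rw [mul_smul, h6]⟩
  obtain ⟨P, y, h4, h5, h6, h7, h8⟩ := h3 a b c hab.symm hac.symm
  have h9 : y⁻¹ * (g * y * g⁻¹) = 1 := by
    by_contra h9
    obtain ⟨k, hk⟩ := h2 h4 h5 _ (mul_mem (inv_mem h7) (h6 g ha y h7)) h9 b c hab.symm hac.symm
    refine hbc (Eq.trans (Eq.symm (zpow_mem (K := stabilizer G b) ?_ k)) hk)
    rw [mem_stabilizer_iff, mul_smul, mul_smul, mul_smul, inv_smul_eq_iff.2 hb.symm, h8, hc, ← h8,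
      inv_smul_smul]
  have h10 : Commute g y := mul_inv_eq_iff_eq_mul.1 (inv_mul_eq_one.1 h9).symm
  refine Subtype.ext (Equiv.ext fun x => show g • x = x from ?_)
  by_cases h11 : x = a
  · rw [h11, ha]
  obtain ⟨k, rfl⟩ := h2 h4 h5 y h7 (by rintro rfl; exact hbc (by simpa using h8)) b x hab.symm h11
  rw [← mul_smul, (h10.zpow_right k).eq, mul_smul, hb]


/-- A transitive permutation group on `p + 1` points (`p` prime) of order `(p+1) p d` with `d < p` is isomorphic to `PGL(2,p)` with `d = p - 1`, or to `PSL(2,p)` with `2d = p - 1`, or else `p + 1 = 2^q` for a prime `q`, `d = 1` or `d = q`, and the group is permutation-isomorphic to a group of semi-affine maps `x ↦ a φ(x) + b` of the field with `2^q` elements. -/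
theorem result {α : Type*} [Fintype α] [DecidableEq α] {p d : ℕ} (hp : p.Prime) (hα : Fintype.card α = p + 1) (G : Subgroup (Equiv.Perm α)) [MulAction.IsPretransitive G α] (hG : Nat.card G = (p + 1) * p * d) (hd : d < p) : (d = p - 1 ∧ Nonempty (G ≃* Matrix.ProjGenLinGroup (Fin 2) (ZMod p))) ∨ (2 * d = p - 1 ∧ Nonempty (G ≃* Matrix.ProjectiveSpecialLinearGroup (Fin 2) (ZMod p))) ∨ (∃ q : ℕ, q.Prime ∧ p + 1 = 2 ^ q ∧ (d = 1 ∨ d = q) ∧ ∃ e : α ≃ GaloisField 2 q, ∀ g : G, (e.symm.trans (((g : Equiv.Perm α)).trans e)) ∈ Cfsg.semiaffineGroup (GaloisField 2 q)) := by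
  have := Fact.mk hp
  have h := zt hp hα G hG hd
  obtain ⟨a, b, hab⟩ := Fintype.exists_pair_of_one_lt_card (α := α) (by have := hp.two_le; omega)
  have h1 := h.card_K hab
  rw [Nat.card_eq_fintype_card (α := α), hα, add_left_inj] at h1
  have h2 := h.card_G hab
  rw [h1, hG] at h2
  obtain rfl := Nat.eq_of_mul_eq_mul_left (Nat.mul_pos (Nat.succ_pos p) hp.pos) h2
  by_cases h3 : Nat.card (St2 G a b) = p - 1
  · refine Or.inl ⟨h3, ?_⟩
    obtain ⟨h4, h5⟩ := h.three_of_card hab (h1 ▸ h3)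
    obtain ⟨F, _, _, h6, ⟨e⟩⟩ : ∃ (F : Type) (_ : Field F) (_ : Fintype F), Fintype.card F = p ^ 1 ∧
        Nonempty (G ≃* Matrix.ProjGenLinGroup (Fin 2) F) := by
      by_cases h6 : p = 2
      · subst h6; exact S0727.result le_rfl hα G h4 h5
      · exact S0730.result hp h6 odd_one (by rw [pow_one, hα]) G h4 h5
    obtain ⟨f⟩ := H12.nonempty_ringEquiv_zmod (h6.trans (pow_one p))
    exact ⟨e.trans (H12.pglCongr _ f)⟩
  have : IsCyclic (h.K a) := isCyclic_of_prime_card h1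
  right
  by_cases hZ : IsZassenhausGroup G α
  · obtain ⟨h4, F, _, _, h5, -, ⟨e⟩⟩ := hZ.iso_PSL_of_comm hab (h1 ▸ h3)
    obtain ⟨f⟩ := H12.nonempty_ringEquiv_zmod (h5.trans h1)
    exact Or.inl ⟨h1 ▸ h4, ⟨e.trans (H12.pslCongr _ f)⟩⟩
  right
  obtain ⟨N, hN, htr, hr⟩ : ∃ N : Subgroup G, N.Normal ∧ (∀ b c : α, ∃ l ∈ N, l • b = c) ∧
      ∀ m ∈ N, ∀ a : α, m • a = a → m = 1 := by
    by_cases h4 : St2 G a b = ⊥
    · have : Nontrivial α := ⟨a, b, hab⟩
      obtain ⟨M, -, -, h5, h6, h7, -⟩ := exists_sharp2_kernel h.two fun g c d hcd h5 h6 =>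
        mem_bot.1 (card_eq_one.1 ((h.card_St2_eq hab hcd).trans (card_eq_one.2 h4)) ▸
          mem_St2.2 ⟨h5, h6⟩)
      exact ⟨M, h5, h7, fun m hm c e => ((h6 m).1 hm).resolve_right fun h => h c e⟩
    by_contra! h5
    obtain ⟨⟨g, hg⟩, hg1⟩ := ne_bot_iff_exists_ne_one.1 h4
    refine hZ ⟨h.faithful, h.isMultiplyPretransitive, h.three, ⟨g, fun e => hg1 (Subtype.ext e),
      a, b, hab, hg⟩, fun N hN h6 => ?_⟩
    obtain ⟨m, hm, c, h7, h8⟩ := h5 N hN fun b c => by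
      obtain ⟨l, hl⟩ := h6.exists_smul_eq b c
      exact ⟨l, l.2, hl⟩
    exact ⟨c, fun e => h8 (congrArg Subtype.val (mem_bot.1 (e ▸ h7 : (⟨m, hm⟩ : N) ∈ ⊥)))⟩
  obtain ⟨q, hq, h4, h5⟩ : ∃ q : ℕ, q.Prime ∧ p + 1 = 2 ^ q ∧
      (Nat.card (St2 G a b) = 1 ∨ Nat.card (St2 G a b) = q) := by
    by_cases h4 : St2 G a b = ⊥
    · have : Nontrivial α := ⟨a, b, hab⟩
      obtain ⟨r, j, hr', -, h5, -⟩ := elem_of_regular_normal h.two htr hr
      rw [card_eq_of_regular a (htr a) fun m hm => hr m hm a, Nat.card_eq_fintype_card, hα] at h5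
      obtain rfl := (Nat.prime_dvd_prime_iff_eq Nat.prime_two hr').1 (Nat.prime_two.dvd_of_dvd_pow
        (h5 ▸ (hp.odd_of_ne_two (by rintro rfl; simp [h4] at h3)).add_one.two_dvd))
      exact ⟨j, Nat.Prime.of_mersenne (by rwa [mersenne, ← h5]), h5, Or.inl (card_eq_one.2 h4)⟩
    · exact ⟨_, h.prime_card_St2 hab htr hr h4, by
        rw [← hα, ← Nat.card_eq_fintype_card, h.card_eq_two_pow hab htr hr le_rfl h4], Or.inr rfl⟩
  obtain ⟨F, _, _, e, -, -, h6⟩ := h.exists_affine hab htr hr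
  obtain ⟨f⟩ := H12.nonempty_ringEquiv_of_natCard_eq (F := F) (K := GaloisField 2 q) (by
    rw [GaloisField.card _ _ hq.ne_zero, Nat.card_congr e, Nat.card_eq_fintype_card, hα, h4])
  refine ⟨q, hq, h4, h5, e.symm.trans f.toEquiv, fun g => ?_⟩
  obtain ⟨m, c, σ, hm, h7⟩ := h6 g
  refine ⟨Units.mk0 (f m) (by simpa using hm), f c, f.symm.trans (σ.trans f), fun x => ?_⟩
  have := h7 (f.symm x)
  change (g : Equiv.Perm α) _ = _ at this
  simp [this]

end Cfsg.Agent.S0732
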