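import Cfsg.Statements.S0745
import Mathlib
import Cfsg.Agent.H2.LW

set_option autoImplicit false
open Cfsg

namespace Cfsg.Agent.S0745

open H2.Pm MulAction

/-- Let `G` have degree `n` and `3 ≤ k ≤ n`; suppose `G` is `(k-2)`-transitive but not `(k-1)`-transitive, and is `(k-1)`-homogeneous and `k`-homogeneous. Then `k = n` and `G` is the alternating group, or `n = 5, k = 4, |G| = 20`, or `n = 6, k = 5, |G| = 120`, or `n = 9, k = 5, |G| ∈ {504, 1512}`. -/
theorem result {α : Type*} [Fintype α] [DecidableEq α] (G : Subgroup (Equiv.Perm α)) {k : ℕ} (hk : 3 ≤ k) (hkn : k ≤ Fintype.card α) (ht : MulAction.IsMultiplyPretransitive G α (k - 2)) (hnt : ¬ MulAction.IsMultiplyPretransitive G α (k - 1)) (hh1 : MulAction.IsPretransitive G (Set.powersetCard α (k - 1))) (hh : MulAction.IsPretransitive G (Set.powersetCard α k)) : (k = Fintype.card α ∧ G = alternatingGroup α) ∨ (Fintype.card α = 5 ∧ k = 4 ∧ Nat.card G = 20) ∨ (Fintype.card α = 6 ∧ k = 5 ∧ Nat.card G = 120) ∨ (Fintype.card α = 9 ∧ k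 = 5 ∧ (Nat.card G = 504 ∨ Nat.card G = 1512)) := by
  rw [homog_iff'] at hh hh1
  obtain ⟨t, rfl⟩ := Nat.exists_eq_add_of_le' (show 2 ≤ k by omega)
  by_cases h : t + 2 = Fintype.card α
  · have h1 : alternatingGroup α ≤ G := IsMultiplyPretransitive.alternatingGroup_le _ _
      (by rwa [Nat.card_eq_fintype_card, ← h])
    have : Nontrivial α := Fintype.one_lt_card_iff_nontrivial.1 (by omega)
    refine .inl ⟨h, Equiv.Perm.eq_alternatingGroup_of_index_eq_two
      (((Nat.dvd_prime Nat.prime_two).1 (alternatingGroup.index_eq_two (α := α) ▸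
        Subgroup.index_dvd_of_le h1)).resolve_left fun h => hnt ?_)⟩
    obtain rfl := Subgroup.index_eq_one.1 h
    exact (mt_subgroup_iff _).2 fun x y hx hy =>
      (mt_iff.1 (Equiv.Perm.isMultiplyPretransitive α _) x y hx hy).imp fun _ h => ⟨trivial, h⟩
  have := lw_aux G (t := t) (by omega) (by omega) ht hnt (by convert hh1; rfl) (by convert hh)
  omega

end Cfsg.Agent.S0745
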