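import Cfsg.Statements.S0747
import Mathlib
import Cfsg.Agent.H2.LW

set_option autoImplicit false
open scoped Pointwise
open Cfsg

namespace Cfsg.Agent.S0747

open H2.Pm MulAction

/-- In a `k`-transitive permutation group with `4 ≤ k < n`, some `(k+1)`-subset `Δ` has the property that every even permutation of `Δ` is induced by an element of the group stabilising `Δ`. -/
theorem result {α : Type*} [Fintype α] [DecidableEq α] (G : Subgroup (Equiv.Perm α)) {k : ℕ} (hk : 4 ≤ k) (hkn : k < Fintype.card α) (hG : MulAction.IsMultiplyPretransitive G α k) : ∃ Δ : Finset α, Δ.card = k + 1 ∧ ∀ σ : Equiv.Perm ↥Δ, σ ∈ alternatingGroup ↥Δ → ∃ g ∈ G, ∀ x : ↥Δ, g (x : α) = σ x := by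
  obtain ⟨t, rfl⟩ := Nat.exists_eq_add_of_le' hk
  obtain ⟨f, hf, h⟩ := exists_ind hG hkn
  refine ⟨Finset.univ.image f, by simp [Finset.card_image_of_injective _ hf], fun σ hσ => ?_⟩
  let e : Fin (t + 5) ≃ Finset.univ.image f := Equiv.ofBijective (fun i => ⟨f i, by simp⟩)
    ⟨fun i j h => hf (congrArg Subtype.val h :), fun ⟨x, hx⟩ => by simpa using hx⟩
  obtain ⟨g, hg⟩ := h (show e.symm.permCongr σ ∈ _ from
    Equiv.Perm.mem_alternatingGroup.2 ((Equiv.Perm.sign_permCongr _ _).trans hσ))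
  refine ⟨g, g.2, fun x => ?_⟩
  obtain ⟨i, rfl⟩ := e.surjective x
  exact (hg i).trans (congrArg Subtype.val (e.apply_symm_apply (σ (e i))))

end Cfsg.Agent.S0747
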