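import Cfsg.Statements.S0820
import Cfsg.Agent.S2162
import Cfsg.Agent.H12.Lin

set_option autoImplicit false
open Cfsg

namespace Cfsg.Agent.S0820

/-- Any two elements of order 2 of PSL_3(4) are conjugate. -/
theorem result {F : Type*} [Field F] [Fintype F] (hF : Fintype.card F = 4) (x y : Matrix.ProjectiveSpecialLinearGroup (Fin 3) F) (hx : orderOf x = 2) (hy : orderOf y = 2) : IsConj x y := by
  have h2 : CharP F 2 := charP_of_card_eq_prime_pow (p := 2) (f := 2) hF
  have hc : Nat.card (Subgroup.center (Matrix.SpecialLinearGroup (Fin 3) F)) = 3 := by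
    rw [H12.card_center_SL, Nat.card_eq_fintype_card, hF]; rfl
  have key : ∀ x : Matrix.ProjectiveSpecialLinearGroup (Fin 3) F, orderOf x = 2 →
      ∃ a : Matrix.SpecialLinearGroup (Fin 3) F, orderOf a = 2 ∧ QuotientGroup.mk a = x ∧
        ((a : Matrix (Fin 3) (Fin 3) F) - 1).rank = 1 := fun x hx => by
    obtain ⟨a, rfl⟩ := QuotientGroup.mk_surjective x
    have h3 := orderOf_dvd_iff_pow_eq_one.1 hx.dvd
    have h4 : (QuotientGroup.mk (a ^ 3) : Matrix.ProjectiveSpecialLinearGroup (Fin 3) F) =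
        QuotientGroup.mk a := by rw [QuotientGroup.mk_pow, pow_succ, h3, one_mul]
    have h5 : (a ^ 3) ^ 2 = 1 := by
      rw [← QuotientGroup.mk_pow, QuotientGroup.eq_one_iff] at h3
      have := pow_card_eq_one' (x := (⟨_, h3⟩ : Subgroup.center _))
      rw [hc] at this
      rw [← pow_mul, mul_comm, pow_mul]
      exact congrArg Subtype.val this
    have h6 : a ^ 3 ≠ 1 := fun h => by
      rw [← h4, h] at hx
      simp at hx
    refine ⟨a ^ 3, orderOf_eq_prime h5 h6, h4, ?_⟩
    generalize a ^ 3 = b at h5 h6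
    have h7 : (b.1 - 1) ^ 2 = 0 :=
      H13.sq_eq_zero_of_orderOf Matrix.SpecialLinearGroup.coeMonoidHom h5
    have h8 := Matrix.rank_add_rank_le_card_of_mul_eq_zero ((sq _).symm.trans h7)
    have h9 : (b.1 - 1).rank ≠ 0 := fun h => by
      rw [Matrix.rank, Submodule.finrank_eq_zero, LinearMap.range_eq_bot] at h
      exact h6 (Subtype.ext (sub_eq_zero.1 (Matrix.toLin'.injective (h.trans (map_zero _).symm))))
    rw [Fintype.card_fin] at h8
    omega
  obtain ⟨a, ha, rfl, ha'⟩ := key x hx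
  obtain ⟨b, hb, rfl, hb'⟩ := key y hy
  exact (QuotientGroup.mk' _).map_isConj ((S2162.result le_rfl a b ha hb).2 (ha'.trans hb'.symm))

end Cfsg.Agent.S0820
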