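import Cfsg.Statements.S0974
import Cfsg.Agent.H19.BTc

set_option autoImplicit false
open Cfsg

namespace Cfsg.Agent.S0974

open Cfsg.Agent.H19

/-- No finite simple group has order 3648 = 2^6 * 3 * 19. -/
theorem result {G : Type*} [Group G] [Finite G] [IsSimpleGroup G] : Nat.card G ≠ 3648 := by
  intro h
  have hc : ¬ IsMulCommutative G := not_comm_of_card_not_prime (by rw [h]; norm_num)
  have := bt_card hc 19 2 6 3 (by norm_num) (by norm_num) (by norm_num) (by rw [h]; norm_num)
    (by norm_num)
  rw [h] at this
  revert this
  decide

end Cfsg.Agent.S0974
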