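import Cfsg.Statements.S0992
import Cfsg.Agent.H19.Two
-- import your own Cfsg.Agent.* helpers here

set_option autoImplicit false
open Cfsg

namespace Cfsg.Agent.S0992

open Cfsg.Agent.H19


/-- Let G be a non-abelian finite simple group of even order not divisible by 8, and T a Sylow 2-subgroup. Then T is a Klein four-group and the centralizer of T has index 3 in the normalizer of T. -/
theorem result {G : Type*} [Group G] [Finite G] [IsSimpleGroup G] (hG : ¬ IsMulCommutative G) (h2 : Even (Nat.card G)) (h8 : ¬ 8 ∣ Nat.card G) (T : Sylow 2 G) : IsKleinFour ↥(T : Subgroup G) ∧ (Subgroup.centralizer ((T : Subgroup G) : Set G)).relIndex (Subgroup.normalizer ((T : Subgroup G) : Set G)) = 3 := by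
  have hc := not_cyclic_sylow_two hG T
  have h4 : Nat.card (T : Subgroup G) = 4 := by
    obtain ⟨k, hk⟩ := IsPGroup.iff_card.1 T.isPGroup'
    have hd : 2 ^ k ∣ Nat.card G := hk ▸ Subgroup.card_subgroup_dvd_card _
    have hk3 : k < 3 := by
      by_contra h
      exact h8 ((pow_dvd_pow 2 (not_lt.1 h)).trans hd)
    interval_cases k
    · exact absurd (isCyclic_of_card_dvd_prime (p := 2) (by simp [hk])) hc
    · exact absurd (isCyclic_of_card_dvd_prime (p := 2) (by simp [hk])) hc
    · simpa using hk
  haveI hK := klein_of_card_four h4 hc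
  refine ⟨hK, ?_⟩
  have hn := not_normalizer_le_centralizer hG 2 h2.two_dvd T
  set n := (Subgroup.centralizer ((T : Subgroup G) : Set G)).relIndex
    (Subgroup.normalizer ((T : Subgroup G) : Set G)) with hn'
  have h24 : n ∣ 24 := by
    have h1 : n ∣ Nat.card (MulAut (T : Subgroup G)) := by
      rw [hn', Subgroup.relIndex, ← Subgroup.normalizerMonoidHom_ker, Subgroup.index_ker]
      exact Subgroup.card_subgroup_dvd_card _
    have h2 : Nat.card (MulAut (T : Subgroup G)) ∣ Nat.card (Equiv.Perm (T : Subgroup G)) :=
      Subgroup.card_dvd_of_injective (MulAut.toPerm _) (fun a b h => by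
        ext x; exact congrArg Subtype.val (congrArg (fun e : Equiv.Perm _ => e x) h))
    rw [Nat.card_perm, h4] at h2
    exact h1.trans h2
  have hodd : ¬ 2 ∣ n := by
    intro h
    have hle : (T : Subgroup G) ≤ Subgroup.centralizer ((T : Subgroup G) : Set G) := by
      haveI : IsMulCommutative (T : Subgroup G) := IsKleinFour.isMulCommutative
      exact Subgroup.le_centralizer _
    have h3 : n ∣ (T : Subgroup G).relIndex (Subgroup.normalizer ((T : Subgroup G) : Set G)) :=
      Subgroup.relIndex_dvd_of_le_left _ hle
    have h5 := Subgroup.relIndex_dvd_index_of_le (Subgroup.le_normalizer (H := (T : Subgroup G)))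
    exact T.not_dvd_index (h.trans (h3.trans h5))
  have h1 : n ≠ 1 := fun h => hn (Subgroup.relIndex_eq_one.1 h)
  have hle := Nat.le_of_dvd (by norm_num) h24
  interval_cases n <;> omega

end Cfsg.Agent.S0992
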