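import Cfsg.Statements.S1138
import Cfsg.Agent.H4.Hig4

set_option autoImplicit false
open Cfsg

namespace Cfsg.Agent.S1138

open Cfsg.Agent.H4


/-- Let `P` be a Suzuki 2-group with `|Z(P)| = q`. Then every square lies in `Z(P)` and `P/Z(P)` is abelian (so elementary abelian), `|P| = q²` or `|P| = q³`, and `P` has exponent 4. -/
theorem result {P : Type*} [Group P] (hP : Cfsg.IsSuzukiTwoGroup P) :
    (∀ x : P, x * x ∈ Subgroup.center P) ∧ (∀ x y : P, x⁻¹ * y⁻¹ * x * y ∈ Subgroup.center P) ∧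
      (Nat.card P = Nat.card (Subgroup.center P) ^ 2 ∨ Nat.card P = Nat.card (Subgroup.center P) ^ 3) ∧
      Monoid.exponent P = 4 := by
  haveI := hP.1
  obtain ⟨κ, N, h, hna⟩ := exists_HS hP
  rw [h.center_eq hna, h.card_Om]
  refine ⟨h.sq_mem hna, fun x y => by simpa [commutatorElement_def] using h.comm_mem hna x⁻¹ y⁻¹,
    h.card_cases hna, ?_⟩
  have h4 : Monoid.exponent P ∣ 2 ^ 2 := Monoid.exponent_dvd_of_forall_pow_eq_one fun x => by
    have := (h.sq_mem hna x).2
    rw [show 2 ^ 2 = 2 + 2 from rfl, pow_add, pow_two]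
    exact this
  obtain ⟨k, hk, e⟩ := (Nat.dvd_prime_pow Nat.prime_two).1 h4
  rcases hk.eq_or_lt with rfl | hk
  · exact e
  · exfalso
    refine (h.Om_lt_top hna).ne (eq_top_iff.2 fun x _ => h.mem_Om.2 ?_)
    have : Monoid.exponent P ∣ 2 ^ 1 := e ▸ pow_dvd_pow 2 (by omega)
    rw [← pow_two]
    exact Monoid.exponent_dvd_iff_forall_pow_eq_one.1 this x

end Cfsg.Agent.S1138
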