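import Cfsg.Statements.S1245
import Cfsg.Agent.WA.Main

set_option autoImplicit false
set_option linter.style.haveILetI false
open Cfsg

namespace Cfsg.Agent.S1245

/-- Let G be a non-abelian finite simple group with commutative Sylow 2-subgroups, and t an involution whose centralizer is the internal direct product of ⟨t⟩ and a subgroup E which has a normal subgroup E₀ ≅ PSL(2,F), |F| odd, with C_E(E₀) = 1 (so PSL(2,q) ≤ E ≤ Aut PSL(2,q)). Then C_G(t) is a maximal subgroup of G. -/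
theorem result {G : Type*} [Group G] [Finite G] [IsSimpleGroup G] (hna : ¬ IsMulCommutative G) (S : Sylow 2 G) (hS : IsMulCommutative (S : Subgroup G)) (t : G) (ht : orderOf t = 2) (E E₀ : Subgroup G) (hprod : Cfsg.IsInternalDirectProduct (Subgroup.zpowers t) E (Subgroup.centralizer ({t} : Set G))) (hE₀E : E₀ ≤ E) (hE₀n : (E₀.subgroupOf E).Normal) (hE₀ : ∃ (F : Type) (_ : Field F) (_ : Fintype F), Odd (Fintype.card F) ∧ Nonempty (E₀ ≃* Matrix.ProjectiveSpecialLinearGroup (Fin 2) F)) (hCE : E ⊓ Subgroup.centralizer (E₀ : Set G) = ⊥) : IsCoatom (Subgroup.centralizer ({t} : Set G)) := by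
  open Subgroup Cfsg.Agent.H11 Cfsg.Agent.WA in
  have h2 : Ab2 (⊤ : Subgroup G) := fun T _ hT a ha b hb => by
    obtain ⟨P, hP⟩ := hT.exists_le_sylow
    obtain ⟨g, hg⟩ := MulAction.exists_smul_eq G S P
    have c : ∀ x ∈ (P : Subgroup G), g⁻¹ * x * g ∈ (S : Subgroup G) := fun x hx => by
      rw [← hg] at hx
      rw [Sylow.coe_subgroup_smul, Subgroup.mem_pointwise_smul_iff_inv_smul_mem] at hx
      simpa using hx
    have := congrArg Subtype.val (hS.1.1 ⟨_, c a (hP ha)⟩ ⟨_, c b (hP hb)⟩)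
    simp only [Subgroup.coe_mul] at this
    have e : g⁻¹ * (a * b) * g = g⁻¹ * (b * a) * g := by
      calc _ = g⁻¹ * a * g * (g⁻¹ * b * g) := by group
        _ = _ := this
        _ = _ := by group
    simpa using e
  obtain ⟨F, _, _, hF, ⟨f⟩⟩ := hE₀
  haveI : IsSimpleGroup (⊤ : Subgroup G) := Subgroup.topEquiv.isSimpleGroup
  have hL : ¬ IsMulCommutative (⊤ : Subgroup G) := fun h => hna
    ⟨⟨fun a b => congrArg Subtype.val (h.1.1 ⟨a, mem_top a⟩ ⟨b, mem_top b⟩)⟩⟩
  have hE : E₀ ≤ centralizer {t} := hE₀E.trans hprod.2.1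
  rcases walter hL h2.top with ⟨K, _, _, ⟨n, -, hK⟩, ⟨e⟩⟩ | ⟨K, _, _, hK, -, ⟨e⟩⟩ | h
  · exfalso
    have B := BT.of_psl hK e
    have h0 := H12.two_ne_zero_of_odd_card hF
    let u : Matrix.SpecialLinearGroup (Fin 2) F := ⟨!![1, 1; 0, 1], by simp [Matrix.det_fin_two]⟩
    have h1 := B t (mem_top t) ht (f.symm (QuotientGroup.mk u)) (mem_top _)
      (mem_cent1.1 (hE (f.symm _).2))
    have h3 : (QuotientGroup.mk (u * u) : Matrix.ProjectiveSpecialLinearGroup (Fin 2) F) = 1 := by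
      apply f.symm.injective
      rw [QuotientGroup.mk_mul, map_mul, map_one]
      exact Subtype.ext h1
    have h4 : (u * u) 0 1 = 2 := by
      show ((u : Matrix (Fin 2) (Fin 2) F) * (u : Matrix (Fin 2) (Fin 2) F)) 0 1 = 2
      simp [u, Matrix.mul_apply, Fin.sum_univ_two]; norm_num
    rcases H12.psl2_mk_eq_one_iff.1 h3 with a | a <;> rw [a] at h4 <;> simp at h4 <;> exact h0 h4.symm
  · exfalso
    have h1 := H12.card_PSL2 (F := F) rfl
    have h3 := H12.card_PSL2 (F := K) rfl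
    rw [← Nat.card_congr f.toEquiv] at h1
    rw [← Nat.card_congr e.toEquiv, card_top] at h3
    have ht' : t ∉ E₀ := fun a => by
      have : t ∈ zpowers t ⊓ E := ⟨mem_zpowers t, hE₀E a⟩
      rw [hprod.2.2.2.1, mem_bot] at this
      exact ne_one_of_orderOf_two ht this
    have h4 : Nat.card E₀ * 2 ∣ Nat.card G := by
      have h5 := H10.card_sup_mul_card_inf (N := E₀) (H := zpowers t) (fun x hx => by
          obtain ⟨k, rfl⟩ := hx
          exact zpow_mem (centralizer_le_normalizer _ fun y hy => mem_cent1.1 (hE hy)) k)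
      have h6 : E₀ ⊓ zpowers t = ⊥ := by
          rw [eq_bot_iff]
          intro x hx
          rcases (mem_zpowers_invol (mul_self_of_orderOf_two ht)).1 hx.2 with a | a
          · exact mem_bot.2 a
          · exact absurd (a ▸ hx.1) ht'
      rw [inf_comm, h6, card_bot, mul_one, mul_comm] at h5
      rw [Nat.card_zpowers, ht] at h5
      exact h5 ▸ card_subgroup_dvd_card _
    obtain ⟨c, hc⟩ := h4
    obtain ⟨a, ha⟩ := hF
    have g1 : Nat.gcd 2 (Fintype.card F - 1) = 2 := Nat.gcd_eq_left (by omega)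
    have g2 : Nat.gcd 2 (Fintype.card K - 1) = 2 := Nat.gcd_eq_left (by omega)
    rw [g1] at h1
    rw [g2, hc] at h3
    have k1 : 8 ∣ Fintype.card F ^ 2 - 1 := by
      rw [ha]
      obtain ⟨b, hb⟩ := Nat.even_mul_succ_self a
      exact ⟨b, by rw [show (2 * a + 1) ^ 2 = 4 * (a * (a + 1)) + 1 by ring, hb]; omega⟩
    have k2 : 16 ∣ Fintype.card K * (Fintype.card K ^ 2 - 1) := by
      rw [← h3]
      obtain ⟨b, hb⟩ := k1
      refine ⟨Fintype.card F * b * c, ?_⟩
      rw [hb] at h1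
      calc 2 * (Nat.card E₀ * 2 * c) = 2 * Nat.card E₀ * (2 * c) := by ring
        _ = _ := by rw [h1]; ring
    obtain ⟨m, hm⟩ : ∃ m, Fintype.card K = 8 * m + 3 ∨ Fintype.card K = 8 * m + 5 :=
      ⟨Fintype.card K / 8, by omega⟩
    have k3 : Nat.Coprime 16 (Fintype.card K) := by
      rw [show 16 = 2 ^ 4 by norm_num]
      exact Nat.Coprime.pow_left 4 (Nat.coprime_two_left.2 (Nat.odd_iff.2 (by omega)))
    have k4 := k3.dvd_of_dvd_mul_left k2
    rcases hm with hm | hm
    · rw [hm, show (8 * m + 3) ^ 2 = 16 * (4 * m ^ 2 + 3 * m) + 9 by ring] at k4; omega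
    · rw [hm, show (8 * m + 5) ^ 2 = 16 * (4 * m ^ 2 + 5 * m + 1) + 9 by ring] at k4; omega
  · obtain ⟨s, D, J, h1⟩ := h.jat hL h2
    have C := fun V hV => cyc_small hL h2 hV (h1 V hV).1 (Or.inr (h1 V hV).2)
    obtain ⟨V, hV, c⟩ := exists_syl_invol (mem_top t) ht
    obtain ⟨g, d, e⟩ := hV.exists_conj_invol_mem J.ord J.mem
    obtain ⟨D', c1, -, -, c3, -⟩ := C V hV
    obtain ⟨k, c4, rfl⟩ := c3 _ e (ne_one_of_orderOf_two (J.conj d).ord) t c (ne_one_of_orderOf_two ht)
    have J' := (J.conj d).conj (c1 c4)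
    refine ⟨fun a => not_le_cent hL (mem_top _) (ne_one_of_orderOf_two ht) a.ge, fun H hH => ?_⟩
    rcases J'.max H (inf_le_right.trans hH.le) with a | a
    · exact absurd ((le_inf le_top le_rfl).trans a) hH.not_ge
    · exact top_le_iff.1 a

end Cfsg.Agent.S1245
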