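import Cfsg.Statements.S1248
import Cfsg.Agent.H11.U3
import Cfsg.Agent.H11.Klein

set_option autoImplicit false
open Cfsg

namespace Cfsg.Agent.S1248

/-- Let F be a field with 16 elements and S a Sylow 2-subgroup of PSU(3) over F (the unitary group U₃(4)). Then |S| = 64; the centre Z(S) is a Klein four-group and coincides with the subgroup generated by the involutions of S and with the derived subgroup; and every element of S ⧸ Z(S) squares to the identity, S ⧸ Z(S) having order 16. -/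
theorem result {F : Type*} [Field F] [Fintype F] (hF : Fintype.card F = 16) (S : Sylow 2 (Cfsg.PSU 3 F 4)) : Nat.card S = 64 ∧ IsKleinFour (Subgroup.center (S : Subgroup (Cfsg.PSU 3 F 4))) ∧ Subgroup.center (S : Subgroup (Cfsg.PSU 3 F 4)) = Subgroup.closure {x : (S : Subgroup (Cfsg.PSU 3 F 4)) | orderOf x = 2} ∧ Subgroup.center (S : Subgroup (Cfsg.PSU 3 F 4)) = commutator (S : Subgroup (Cfsg.PSU 3 F 4)) ∧ Nat.card ((S : Subgroup (Cfsg.PSU 3 F 4)) ⧸ Subgroup.center (S : Subgroup (Cfsg.PSU 3 F 4))) = 16 ∧ ∀ x : (S : Subgroup (Cfsg.PSU 3 F 4)) ⧸ Subgroup.center (S : Subgroup (Cfsg.PSU 3 F 4)), x ^ 2 = 1 := by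
  have hE : Fintype.card F = 4 ^ 2 := hF
  obtain ⟨X, Y, h⟩ := H11.exists_uc_PSU hE (by decide) S
  have h1 := h.card_center
  have h2 := h.index_center
  rw [H12.q0_frobq] at h1
  rw [Nat.card_eq_fintype_card, hF] at h2
  refine ⟨?_, H11.isKleinFour_iff.2 ⟨h1, fun x hx => h.sq_eq_one_iff.2 (h.mem_center.1 hx)⟩,
    le_antisymm (fun x hx => ?_) ((Subgroup.closure_le _).2 fun x hx => ?_), h.commutator_eq.symm,
    h2, fun x => ?_⟩
  · exact (Subgroup.card_mul_index _).symm.trans (by rw [h1, h2])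
  · by_cases e : x = 1
    · rw [e]; exact one_mem _
    · exact Subgroup.subset_closure (orderOf_eq_prime
        ((sq x).trans (h.sq_eq_one_iff.2 (h.mem_center.1 hx))) e)
  · exact h.mem_center.2 (h.sq_eq_one_iff.1 ((sq x).symm.trans
      (orderOf_dvd_iff_pow_eq_one.1 (dvd_of_eq hx))))
  · obtain ⟨x, rfl⟩ := QuotientGroup.mk_surjective x
    rw [← QuotientGroup.mk_pow, QuotientGroup.eq_one_iff, h.mem_center, sq, h.X_sq]

end Cfsg.Agent.S1248
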