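import Cfsg.Statements.S1313
import Cfsg.Agent.H10.Comp

set_option autoImplicit false
open Cfsg

namespace Cfsg.Agent.S1313

/-- For a finite group H, |H| ≤ |F*(H)|!. -/
theorem result {H : Type*} [Group H] [Finite H] : Nat.card H ≤ Nat.factorial (Nat.card ↥(Cfsg.generalizedFittingSubgroup H)) := by
  open Subgroup Cfsg.Agent.H10 in
  let F := generalizedFittingSubgroup H
  by_cases hF : F = ⊥
  · have : (⊤ : Subgroup H) = ⊥ := by
      by_contra h
      exact FstarOf_ne_bot h (FstarOf_top.trans hF)
    rw [← card_top (G := H), this, card_bot]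
    exact Nat.factorial_pos _
  -- `H / C_H(F)` embeds in the permutations of `F` fixing `1`, and `|C_H(F)| ≤ |F|`
  let φ : H →* Equiv.Perm F := (MulAut.toPerm F).comp (MulAut.conjNormal (H := F))
  have hker : φ.ker ≤ F := by
    refine le_trans (b := centralizer (F : Set H)) ?_ (centralizer_fstar_le H)
    intro x hx y hy
    have := congrArg Subtype.val (Equiv.congr_fun hx ⟨y, hy⟩)
    simp only [φ, MonoidHom.comp_apply, MulAut.toPerm, MonoidHom.coe_mk, OneHom.coe_mk,
      Equiv.Perm.coe_one, id] at this
    have h2 : x * y * x⁻¹ = y := this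
    rw [← h2, mul_assoc, inv_mul_cancel, mul_one, h2]
  have hrange : φ.range ≤ MulAction.stabilizer (Equiv.Perm F) (1 : F) := by
    rintro _ ⟨x, rfl⟩
    exact map_one (MulAut.conjNormal (H := F) x)
  have h1 : Nat.card (MulAction.stabilizer (Equiv.Perm F) (1 : F)) * Nat.card F =
      (Nat.card F).factorial := by
    rw [← Nat.card_perm, ← card_mul_index (MulAction.stabilizer (Equiv.Perm F) (1 : F)),
      MulAction.index_stabilizer_of_transitive]
  rw [← h1, ← φ.ker.index_mul_card, index_ker]
  exact Nat.mul_le_mul (card_le_of_le hrange) (card_le_of_le hker)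

end Cfsg.Agent.S1313
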