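import Cfsg.Statements.S1349
import Cfsg.Agent.H10.Dih
import Cfsg.Agent.H10.Comp
import Cfsg.Agent.H11.Invol

set_option autoImplicit false
open Cfsg

namespace Cfsg.Agent.S1349

/-- Let G be finite, L ≤ G solvable of odd order, and A an elementary abelian 2-subgroup of order 2^d (d ≥ 1) normalizing L with C_A(L) = 1. Then there are subgroups A_1, …, A_d of A of order 2 generating A and subgroups L_1, …, L_d of L such that each A_i ⊔ L_i is dihedral of order 2 n_i with n_i odd and at least 3, and A_i ⊔ L_i commutes elementwise with A_j ⊔ L_j for i ≠ j. -/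
theorem result {G : Type*} [Group G] [Finite G] (L A : Subgroup G) (hLs : Group.IsSolvable ↥L) (hLodd : Odd (Nat.card ↥L)) (hA : Cfsg.IsElementaryAbelian 2 A) (d : ℕ) (hd : 1 ≤ d) (hAd : Nat.card ↥A = 2 ^ d) (hAL : A ≤ Subgroup.normalizer (L : Set G)) (hfaith : A ⊓ Subgroup.centralizer (L : Set G) = ⊥) : ∃ (Ai : Fin d → Subgroup G) (Li : Fin d → Subgroup G) (n : Fin d → ℕ), (∀ i, Ai i ≤ A ∧ Nat.card ↥(Ai i) = 2 ∧ Li i ≤ L ∧ Odd (n i) ∧ 3 ≤ n i ∧ Nonempty (↥(Ai i ⊔ Li i) ≃* DihedralGroup (n i))) ∧ (⨆ i, Ai i) = A ∧ ∀ i j, i ≠ j → ∀ x ∈ Ai i ⊔ Li i, ∀ y ∈ Ai j ⊔ Li j, x * y = y * x := by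
  open Subgroup Cfsg.Agent.H10 in
  have hFL : FitOf L ≤ L := FitOf_le
  have hFodd : Odd (Nat.card (FitOf L)) := hLodd.of_dvd_nat (card_dvd_of_le hFL)
  have hf : A ⊓ centralizer (FitOf L : Set G) = ⊥ := by
    rw [eq_bot_iff, ← hfaith]
    refine le_inf inf_le_left (H1.le_centralizer_of_commutator_le (N := FitOf L)
      ((ea2_coprime hA hFodd).coprime_dvd_left (card_dvd_of_le inf_le_left)) ?_ inf_le_right)
    refine le_trans (le_inf (commutator_le_left_of_le_normalizer (inf_le_left.trans hAL)) ?_)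
      (inf_centralizer_FitOf_le_of_solvable hLs)
    exact (commutator_mono le_rfl inf_le_right).trans
      (commutator_le_right_of_le_normalizer (le_normalizer_centralizer
        (le_normalizer_FitOf le_normalizer)))
  obtain ⟨x, a, h1, h2, h3, h4, h5⟩ := exists_dual_basis hA FitOf_nilpotent hFodd
    (le_normalizer_FitOf hAL) hf hAd
  have ha1 : ∀ i, a i ≠ 1 := fun i h => (h3 i).2.2 (by rw [h, one_mul, mul_one])
  have hao : ∀ i, orderOf (a i) = 2 := fun i => orderOf_eq_prime (hA.2 _ (h3 i).1) (ha1 i)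
  have hodd : ∀ i, Odd (orderOf (x i)) := fun i =>
    hFodd.of_dvd_nat ((FitOf L).orderOf_dvd_natCard (h1 i).1)
  have hca : ∀ i j, i ≠ j → ∀ u ∈ zpowers (a i), ∀ v ∈ zpowers (a j), u * v = v * u := by
    rintro i j - _ ⟨k, rfl⟩ _ ⟨l, rfl⟩
    exact Commute.zpow_zpow (ea2_comm hA (h3 i).1 (h3 j).1) k l
  refine ⟨fun i => zpowers (a i), fun i => zpowers (x i), fun i => orderOf (x i), fun i =>
    ⟨zpowers_le.mpr (h3 i).1, by rw [Nat.card_zpowers, hao], zpowers_le.mpr (hFL (h1 i).1), hodd i,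
      ?_, ?_⟩, ?_, fun i j hij => ?_⟩
  · have h6 := (h1 i).2.1.two_le
    obtain ⟨k, hk⟩ := hodd i
    beta_reduce
    omega
  · have h6 : zpowers (a i) ⊔ zpowers (x i) = Subgroup.closure {x i, a i} := by
      rw [zpowers_eq_closure, zpowers_eq_closure, ← Subgroup.closure_union, Set.union_singleton]
    beta_reduce
    rw [h6]
    refine H11.nonempty_closure_equiv_dihedral (h1 i).2.1.pos rfl (h3 i).2.1
      (ea2_mul_self hA (h3 i).1) ?_
    rintro ⟨k, hk⟩
    refine (h3 i).2.2 ?_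
    rw [← hk]
    exact Commute.zpow_left (Commute.refl _) k
  · refine eq_of_le_of_card_le (iSup_le fun i => zpowers_le.mpr (h3 i).1) (le_of_eq ?_)
    rw [card_iSup_of_iSupIndep _ hca (iSupIndep_zpowers_of_prime a x
      (fun i => by rw [hao]; exact Nat.prime_two) (fun i => (h3 i).2.2.symm)
      (fun i j hij => (h4 j i hij.symm).symm)), hAd]
    simp [Nat.card_zpowers, hao]
  · have h6 : zpowers (a j) ⊔ zpowers (x j) ≤
        centralizer ((zpowers (a i) ⊔ zpowers (x i) : Subgroup G) : Set G) := by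
      rw [centralizer_sup, centralizer_zpowers, centralizer_zpowers]
      refine sup_le (zpowers_le.mpr ⟨?_, ?_⟩) (zpowers_le.mpr ⟨?_, ?_⟩) <;>
        refine mem_centralizer_singleton_iff.mpr ?_
      · exact ea2_comm hA (h3 j).1 (h3 i).1
      · exact h4 j i hij.symm
      · exact (h4 i j hij).symm
      · exact h2 j i
    exact fun u hu v hv => h6 hv u hu

end Cfsg.Agent.S1349
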