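import Cfsg.Statements.S1591
import Mathlib
import Cfsg.Agent.H2.TG

set_option autoImplicit false
open Cfsg

namespace Cfsg.Agent.S1591

open H2.TG Finset

/-- Any two words of the length-12 ternary code have dot product zero. -/
theorem result (x y : Cfsg.ArrayPt → ZMod 3) (hx : x ∈ Cfsg.ternaryGolayCode) (hy : y ∈ Cfsg.ternaryGolayCode) : ∑ p, x p * y p = 0 := by
  have h : ∀ j k, ∑ p, g j p * g k p = 0 := by decide +kernel
  obtain ⟨c, rfl⟩ := mem_range.1 hx
  obtain ⟨d, rfl⟩ := mem_range.1 hy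
  simp only [w, sum_mul_sum, mul_mul_mul_comm (c _)]
  rw [sum_comm]
  refine sum_eq_zero fun j _ => ?_
  rw [sum_comm]
  exact sum_eq_zero fun k _ => by rw [← mul_sum, h, mul_zero]

end Cfsg.Agent.S1591
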