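import Cfsg.Statements.S1635
import Mathlib
import Cfsg.Agent.H2.Gol2

set_option autoImplicit false
open Cfsg

namespace Cfsg.Agent.S1635

open H2.St

/-- Coset leaders of the length-24 code: a coset contains a unique word of weight ≤ 3, or else exactly six words of weight 4 and none lighter. -/
theorem result (w : Cfsg.GolayPt → ZMod 2) : ({v : Cfsg.GolayPt → ZMod 2 | hammingNorm v ≤ 4 ∧ w - v ∈ Cfsg.golayCode}.ncard = 1 ∧ ∃ v : Cfsg.GolayPt → ZMod 2, hammingNorm v ≤ 3 ∧ w - v ∈ Cfsg.golayCode) ∨ ({v : Cfsg.GolayPt → ZMod 2 | hammingNorm v ≤ 4 ∧ w - v ∈ Cfsg.golayCode}.ncard = 6 ∧ ∀ v : Cfsg.GolayPt → ZMod 2, w - v ∈ Cfsg.golayCode → hammingNorm v ≤ 4 → hammingNorm v = 4) := by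
  have h : ∀ u, w - u ∈ golayCode ↔ symmDiff (support₂ w) (support₂ u) ∈ H16.gSets := fun u => by
    rw [← H2.St.sup_sub, sup_mem]; rfl
  simp only [h, and_comm (a := hammingNorm _ ≤ 4)]
  have h0 := Set.ncard_preimage_of_injective_subset_range H16.support_injective
    (s := {v | symmDiff (support₂ w) v ∈ H16.gSets ∧ v.card ≤ 4}) fun s _ => sup_surj s
  rcases gol_gSets.coset (support₂ w) with ⟨u, h1, h2⟩ | ⟨h1, h2⟩
  · obtain ⟨u, rfl⟩ := sup_surj u
    exact .inl ⟨h0.trans (h1 ▸ Set.ncard_singleton _), u, h2, (h1.ge rfl).1⟩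
  exact .inr ⟨h0.trans h1, fun u a b => (h2 _ a b).1⟩

end Cfsg.Agent.S1635
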