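import Cfsg.Statements.S1636
import Mathlib
import Cfsg.Agent.H2.Gol2

set_option autoImplicit false
open Cfsg

namespace Cfsg.Agent.S1636

open H2.St H16 Finset

/-- The punctured length-23 code has weight distribution 0^1 7^253 8^506 11^1288 12^1288 15^506 16^253 23^1. -/
theorem result : {u : ZMod 23 → ZMod 2 | ∃ w ∈ Cfsg.golayCode, ∀ x : ZMod 23, u x = w (some x)}.ncard = 4096 ∧ {u : ZMod 23 → ZMod 2 | u ∈ {u : ZMod 23 → ZMod 2 | ∃ w ∈ Cfsg.golayCode, ∀ x : ZMod 23, u x = w (some x)} ∧ hammingNorm u = 7}.ncard = 253 ∧ {u : ZMod 23 → ZMod 2 | u ∈ {u : ZMod 23 → ZMod 2 | ∃ w ∈ Cfsg.golayCode, ∀ x : ZMod 23, u x = w (some x)} ∧ hammingNorm u = 8}.ncard = 506 ∧ {u : ZMod 23 → ZMod 2 | u ∈ {u : ZMod 23 → ZMod 2 | ∃ w ∈ Cfsg.golayCode, ∀ x : ZMod 23, u x = w (some x)} ∧ hammingNorm u = 11}.ncard = 1288 ∧ {u : ZMod 23 → ZMod 2 | u ∈ {u : ZMod 23 → ZMod 2 | ∃ w ∈ Cfsg.golayCode, ∀ x : ZMod 23, u x = w (some x)} ∧ hammingNorm u = 12}.ncard =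 1288 ∧ {u : ZMod 23 → ZMod 2 | u ∈ {u : ZMod 23 → ZMod 2 | ∃ w ∈ Cfsg.golayCode, ∀ x : ZMod 23, u x = w (some x)} ∧ hammingNorm u = 15}.ncard = 506 ∧ {u : ZMod 23 → ZMod 2 | u ∈ {u : ZMod 23 → ZMod 2 | ∃ w ∈ Cfsg.golayCode, ∀ x : ZMod 23, u x = w (some x)} ∧ hammingNorm u = 16}.ncard = 253 ∧ ∀ u ∈ {u : ZMod 23 → ZMod 2 | ∃ w ∈ Cfsg.golayCode, ∀ x : ZMod 23, u x = w (some x)}, u ≠ 0 → 7 ≤ hammingNorm u := by
  have h0 : ∀ w : GolayPt → ZMod 2, hammingNorm (fun x => w (some x)) = #((support₂ w).erase none) := fun w => by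
    rw [hammingNorm, ← card_map Function.Embedding.some]
    congr 1; ext (_ | x) <;> simp [support₂]
  have h1 : ∀ {P : ℕ → Prop} (f : ℕ → Bool), (∀ j, P j ↔ f j = true) → {u : ZMod 23 → ZMod 2 | u ∈ {u : ZMod 23 → ZMod 2 |
      ∃ w ∈ golayCode, ∀ x : ZMod 23, u x = w (some x)} ∧ P (hammingNorm u)}.ncard =
      codeCnt fun m => f (pc24 (Nat.land m 8388607)) := fun {P} f hf => by
    rw [← ncard_gSets_filter (Q := fun s => P #(s.erase none)) _ fun m _ => by
      rw [← hf, ← card_inter_toSet, show toSet 8388607 = univ.erase none by decide +kernel, inter_erase, inter_univ]]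
    refine (Set.ncard_congr (fun s _ x => if some x ∈ s then 1 else 0) ?_ ?_ ?_).symm
    · rintro _ ⟨⟨w, hw, rfl⟩, h⟩
      have : (fun x => if some x ∈ support₂ w then 1 else 0) = fun x => w (some x) := funext fun x => by
        simp only [H2.St.mem_sup]; generalize w _ = a; revert a; decide
      exact ⟨⟨w, hw, congrFun this⟩, by rwa [this, h0]⟩
    · refine fun s t hs ht e => gol_gSets.eq hs.1 ht.1 ((card_le_card (t := {none}) ?_).trans (by simp))
      rintro (_ | x)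
      · simp
      · have := congrFun e x
        simp only [mem_symmDiff]
        split_ifs at this <;> simp_all
    · rintro u ⟨⟨w, hw, h⟩, h'⟩
      obtain rfl := funext h
      exact ⟨_, ⟨H2.St.sup_mem.2 hw, h0 w ▸ h'⟩, funext fun x => by
        simp only [H2.St.mem_sup]; generalize w _ = a; revert a; decide⟩
  have h2 := fun k => h1 (P := (· = k)) (Nat.beq · k) fun _ => Nat.beq_eq.to_iff.symm
  refine ⟨by simpa using (h1 (P := fun _ => True) (fun _ => true) (by simp)).trans (by decide +kernel : _ = 4096),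
    (h2 7).trans (by decide +kernel), (h2 8).trans (by decide +kernel), (h2 11).trans (by decide +kernel),
    (h2 12).trans (by decide +kernel), (h2 15).trans (by decide +kernel), (h2 16).trans (by decide +kernel), ?_⟩
  rintro u ⟨w, hw, h⟩ e
  obtain rfl := funext h
  have := gol_gSets.min _ (H2.St.sup_mem.2 hw) (mt sup_eq_empty.1 (by rintro rfl; exact e rfl))
  have := pred_card_le_card_erase (s := support₂ w) (a := none)
  rw [h0]; omega

end Cfsg.Agent.S1636
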