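import Cfsg.Statements.S1637
import Mathlib
import Cfsg.Agent.H2.Gol2

set_option autoImplicit false
open Cfsg

namespace Cfsg.Agent.S1637

open H2.St Finset

/-- The punctured length-23 code is a perfect 3-error-correcting code: each word of length 23 is within distance 3 of exactly one codeword. -/
theorem result (u : ZMod 23 → ZMod 2) : ∃! c : ZMod 23 → ZMod 2, c ∈ {u : ZMod 23 → ZMod 2 | ∃ w ∈ Cfsg.golayCode, ∀ x : ZMod 23, u x = w (some x)} ∧ hammingDist u c ≤ 3 := by
  have h : ∀ w : GolayPt → ZMod 2, hammingDist u (fun x => w (some x)) =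
      #((symmDiff (support₂ fun p => Option.elim p 0 u) (support₂ w)).erase none) := fun w => by
    rw [← H2.St.sup_sub, hammingDist, ← card_map Function.Embedding.some]
    congr 1; ext (_ | x) <;> simp [support₂, sub_eq_zero]
  obtain ⟨_, ⟨w, hw, rfl⟩, h1⟩ := gol_gSets.perfect none (support₂ fun p => Option.elim p 0 u)
  refine ⟨_, ⟨⟨w, hw, fun _ => rfl⟩, h w ▸ h1⟩, ?_⟩
  rintro c ⟨⟨v, hv, h2⟩, h3⟩
  obtain rfl := funext h2
  rw [H16.support_injective (gol_gSets.eq (H2.St.sup_mem.2 hv) (H2.St.sup_mem.2 hw) ?_)]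
  rw [h] at h3
  generalize (support₂ fun p => Option.elim p 0 u) = s at *
  refine (card_le_card (t := insert none ((symmDiff s (support₂ v)).erase none ∪
    (symmDiff s (support₂ w)).erase none)) fun x => ?_).trans ((card_insert_le _ _).trans
      (Nat.succ_le_succ ((card_union_le _ _).trans (by omega))))
  simp only [mem_symmDiff, mem_insert, mem_union, mem_erase]
  tauto

end Cfsg.Agent.S1637
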