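import Cfsg.Statements.S1707
import Cfsg.Agent.H27.HN6

set_option autoImplicit false
open Cfsg

namespace Cfsg.Agent.S1707

/-- In the presented Harada–Norton group (generators x, y, z, t), the subgroup generated by the images of x, y, z has index 1539000. -/
theorem result : (((Subgroup.closure ({Cfsg.Spor.HN.x, Cfsg.Spor.HN.y, Cfsg.Spor.HN.z} : Set (FreeGroup Cfsg.Spor.HN.Gen))).map (PresentedGroup.mk (Cfsg.Spor.coxRelators Cfsg.Spor.HN.edges ∪ {r | r ∈ Cfsg.Spor.HN.extra})))).index = 1539000 := by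
  rw [H17.map_closure_list (g := H17.HN.g) _ H17.HN.mk_eq [Spor.HN.z, Spor.HN.x, Spor.HN.y]
    (W := [[0], [1], [3]]) (by ext; simp; tauto) (by decide +kernel), ← H17.HN6.range_eq]
  exact H17.HN6.act.index

end Cfsg.Agent.S1707
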