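import Cfsg.Statements.S1708
import Cfsg.Agent.H27.HN8

set_option autoImplicit false
open Cfsg

namespace Cfsg.Agent.S1708

open H17 Subgroup in

/-- In the presented Harada–Norton group, the subgroup N generated by the images of x, y, z has a normal subgroup of index 2 which is a non-split double cover of the Higman–Sims group. -/
theorem result : ∃ K : Subgroup (((Subgroup.closure ({Cfsg.Spor.HN.x, Cfsg.Spor.HN.y, Cfsg.Spor.HN.z} : Set (FreeGroup Cfsg.Spor.HN.Gen))).map (PresentedGroup.mk (Cfsg.Spor.coxRelators Cfsg.Spor.HN.edges ∪ {r | r ∈ Cfsg.Spor.HN.extra})))), K.Normal ∧ K.index = 2 ∧ Cfsg.IsNonsplitDoubleCover K Cfsg.Spor.HS := by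
  rw [H17.map_closure_list (g := H17.HN.g) _ H17.HN.mk_eq [Spor.HN.z, Spor.HN.x, Spor.HN.y]
    (W := [[0], [1], [3]]) (by ext; simp; tauto) (by decide +kernel), ← H17.HN6.range_eq]
  let e := MonoidHom.ofInjective HN6.act.inj'
  let e' : HN8.K ≃* HN8.K.map e.toMonoidHom := e.subgroupMap HN8.K
  have c : (center HN8.K).map e'.toMonoidHom = center (HN8.K.map e.toMonoidHom) := by
    ext a
    obtain ⟨a, rfl⟩ := e'.surjective a
    simp only [mem_map_equiv, mem_center_iff, e'.surjective.forall, ← map_mul, e'.injective.eq_iff,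
      MulEquiv.symm_apply_apply]
  obtain ⟨a, ⟨b⟩, d⟩ := HN8.cover
  refine ⟨HN8.K.map e.toMonoidHom, Normal.map inferInstance _ e.surjective, (index_map_equiv _ e).trans HN8.index,
    by rw [← c, card_map_of_injective e'.injective, a], ⟨(QuotientGroup.congr _ _ e' c).symm.trans b⟩, fun L h => ?_⟩
  have i : L.index = 2 := by rw [h.index_eq_card, ← c, card_map_of_injective e'.injective, a]
  refine HN8.xx_ne (e'.injective ((map_one e').symm ▸ disjoint_def.1 h.disjoint (c ▸ mem_map_of_mem _ HN8.xx_center) ?_))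
  rw [map_mul]
  exact (mul_mem_iff_of_index_two i).2 Iff.rfl

end Cfsg.Agent.S1708
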