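import Cfsg.Statements.S1892
import Cfsg.Agent.H1.HallHigman
import Cfsg.Agent.H9.PSolv
import Cfsg.Agent.H10.Basic

set_option autoImplicit false
open Cfsg

namespace Cfsg.Agent.S1892

/-- Let S be a finite p-solvable group with no nontrivial normal subgroup of order prime to p, A a p-subgroup of S, and Q a nontrivial A-invariant subgroup of order prime to p with [A, Q] = Q. Then the commutator [O_p(S), A, Q] is nontrivial. -/
theorem result {S : Type*} [Group S] [Finite S] {p : ℕ} [Fact p.Prime]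
    (hS : Cfsg.IsPSolvable p S) (hred : Cfsg.pPrimeCore p S = ⊥)
    (A Q : Subgroup S) (hA : IsPGroup p A) (hQ : ¬ p ∣ Nat.card Q) (hQ1 : Q ≠ ⊥)
    (hinv : ∀ a ∈ A, ∀ x ∈ Q, a * x * a⁻¹ ∈ Q) (hAQ : ⁅A, Q⁆ = Q) :
    ⁅⁅Cfsg.pCore p S, A⁆, Q⁆ ≠ ⊥ := by
  intro h
  have hp : p.Prime := Fact.out
  have hV := H1.isPGroup_pCore p S
  have hcop : (Nat.card Q).Coprime (Nat.card (pCore p S)) := (H1.coprime_card_of_isPGroup hV hQ).symm
  set W : Subgroup S := ⁅pCore p S, Q⁆ with hW
  have hWV : W ≤ pCore p S := Subgroup.commutator_le_left _ _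
  have hWQ : ⁅W, Q⁆ = W := H1.commutator_commutator_eq Subgroup.le_normalizer_of_normal hcop
  have hAQ' : A ≤ Subgroup.normalizer (Q : Set S) := fun a ha =>
    Subgroup.mem_normalizer_fintype (hinv a ha)
  have hAW : A ≤ Subgroup.normalizer (W : Set S) :=
    H1.le_normalizer_commutator Subgroup.le_normalizer_of_normal hAQ'
  have hQW : Q ≤ Subgroup.normalizer (W : Set S) := Subgroup.normalizer_commutator_ge_right _ _
  have h1 : ⁅⁅W, A⁆, Q⁆ = ⊥ := eq_bot_iff.mpr ((Subgroup.commutator_mono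
    (Subgroup.commutator_mono hWV le_rfl) le_rfl).trans h.le)
  have h2 : ⁅W, A⁆ ≤ ⁅W, W⁆ := by
    refine le_trans ?_ (H1.inf_centralizer_inf_commutator_le hQW
      (hcop.coprime_dvd_right (Subgroup.card_dvd_of_le hWV)))
    rw [hWQ]
    exact le_inf (le_inf (H1.commutator_le_left_of_le_normalizer hAW)
      (Subgroup.commutator_eq_bot_iff_le_centralizer.mp h1))
      (H1.commutator_le_left_of_le_normalizer hAW)
  have h3 : ⁅⁅A, Q⁆, W⁆ ≤ ⁅W, W⁆ := H10.three_subgroups (H1.le_normalizer_commutator hAW hAW)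
    (H1.le_normalizer_commutator hQW hQW) (Subgroup.normalizer_commutator_ge_left _ _)
    (by rwa [Subgroup.commutator_comm Q W, hWQ]) (h1.le.trans bot_le)
  rw [hAQ, Subgroup.commutator_comm, hWQ] at h3
  have h4 : W = ⊥ := by
    by_contra hne
    exact (H1.commutator_lt_of_isSolvable (H1.isSolvable_of_isPGroup (hV.to_le hWV)) hne).not_ge h3
  rw [hW, Subgroup.commutator_comm, Subgroup.commutator_eq_bot_iff_le_centralizer] at h4
  exact hQ1 (Subgroup.card_eq_one.mp (Nat.Coprime.eq_one_of_dvd hcop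
    (Subgroup.card_dvd_of_le (h4.trans (H9.centralizer_pCore_le_of_isPSolvable hS hred)))))

end Cfsg.Agent.S1892
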