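import Cfsg.Statements.S1893
import Cfsg.Agent.H22.Ng2

set_option autoImplicit false
set_option linter.style.haveILetI false
open Cfsg

namespace Cfsg.Agent.S1893

/-- Let S be a finite solvable group, π a set of primes containing neither 2 nor 3, H a Hall π-subgroup of S, and A a self-centralizing normal subgroup of the Fitting subgroup F(H). Then C_S(A) = A × D for a normal subgroup D of C_S(A) whose order has no prime divisor in π. -/
theorem result {S : Type*} [Group S] [Finite S] [Group.IsSolvable S]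
    (π : Set ℕ) (h2 : 2 ∉ π) (h3 : 3 ∉ π) (H : Subgroup S) (hH : Cfsg.IsPiHall π H)
    (A : Subgroup S) (hA : Cfsg.IsSCN ((Cfsg.fittingSubgroup H).map H.subtype) A) :
    ∃ D : Subgroup S, D ≤ Subgroup.centralizer (A : Set S) ∧
      (∀ c ∈ Subgroup.centralizer (A : Set S), ∀ d ∈ D, c * d * c⁻¹ ∈ D) ∧
      A ⊓ D = ⊥ ∧ A ⊔ D = Subgroup.centralizer (A : Set S) ∧
      ∀ q : ℕ, q.Prime → q ∣ Nat.card D → q ∉ π := by
  have h := H22.Ng2.main inferInstance h2 h3 hH hA
  have hAC : A ≤ Subgroup.centralizer (A : Set S) := hA.2.2.ge.trans inf_le_right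
  have hAH : A ≤ H := hA.1.trans (Subgroup.map_subtype_le _)
  have hD : H1.IsPiNum πᶜ (Nat.card (Subgroup.centralizer (A : Set S) ⊓ piCore πᶜ S : Subgroup S)) :=
    (H1.isPiNum_card_piCore πᶜ S).of_dvd (Subgroup.card_dvd_of_le inf_le_right)
  refine ⟨Subgroup.centralizer (A : Set S) ⊓ piCore πᶜ S, inf_le_left, fun c hc d hd =>
    ⟨Subgroup.mul_mem _ (Subgroup.mul_mem _ hc hd.1) (Subgroup.inv_mem _ hc), Subgroup.Normal.conj_mem inferInstance d hd.2 c⟩,
    disjoint_iff.1 (Subgroup.disjoint_of_coprime_natCard (H1.IsPiNum.coprime (π := π)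
      (H1.IsPiNum.of_dvd hH.1 (Subgroup.card_dvd_of_le hAH)) hD)),
    le_antisymm (sup_le hAC inf_le_left) fun c hc => ?_, hD⟩
  obtain ⟨a, ha, o, ho, rfl⟩ := Subgroup.mem_sup_of_normal_right.1 (h hc)
  exact mul_mem (Subgroup.mem_sup_left ha) (Subgroup.mem_sup_right
    ⟨by simpa using mul_mem (inv_mem (hAC ha)) hc, ho⟩)

end Cfsg.Agent.S1893
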