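import Cfsg.Statements.S1894
import Cfsg.Agent.H3.PGroup1

set_option autoImplicit false
open Cfsg

namespace Cfsg.Agent.S1894

/-- Let P be a finite p-group, A a normal subgroup of P and B an abelian subgroup of A that is normal in P. Then some subgroup C of A containing B is normal in P and is self-centralizing and normal in A (C ∈ SCN(A)). -/
theorem result {P : Type*} [Group P] [Finite P] {p : ℕ} [Fact p.Prime] (hP : IsPGroup p P)
    (A : Subgroup P) [A.Normal] (B : Subgroup P) [B.Normal] (hBA : B ≤ A) (hB : IsMulCommutative B) :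
    ∃ C : Subgroup P, C.Normal ∧ B ≤ C ∧ Cfsg.IsSCN A C := by
  obtain ⟨C, ⟨hCn, hCc, hBC, hCA⟩, hmax⟩ := (wellFounded_gt (α := Subgroup P)).has_min
    {C : Subgroup P | C.Normal ∧ IsMulCommutative C ∧ B ≤ C ∧ C ≤ A} ⟨B, inferInstance, hB, le_rfl, hBA⟩
  refine ⟨C, hCn, hBC, hCA, Subgroup.le_normalizer_of_normal,
    ((le_inf hCA (Subgroup.le_centralizer C)).eq_or_lt.resolve_right fun hlt => ?_).symm⟩
  obtain ⟨x, hx, hxC, -, hc⟩ := H3.exists_central_mod hP hlt.not_ge
  refine hmax (C ⊔ Subgroup.zpowers x) ⟨H3.normal_sup_zpowers hc,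
    H3.isMulCommutative_sup_zpowers hCc hx.2, hBC.trans le_sup_left,
    sup_le hCA (Subgroup.zpowers_le.mpr hx.1)⟩ (left_lt_sup.mpr fun h => hxC ?_)
  exact h (Subgroup.mem_zpowers x)

end Cfsg.Agent.S1894
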