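import Cfsg.Statements.S1895
import Mathlib
import Cfsg.Agent.H2.PCen
import Cfsg.Agent.BG.S04b
import Cfsg.Agent.H9.PCons
import Cfsg.Agent.H1.Cores

set_option autoImplicit false
open Cfsg

namespace Cfsg.Agent.S1895

open Subgroup Cfsg.Agent.H20 Cfsg.Agent.H21 Cfsg.Agent.BG

theorem normal_of {G : Type*} [Group G] {A : Subgroup G} (h : (⊤ : Subgroup G) ≤ N⟦A⟧) : A.Normal :=
  normalizer_eq_top_iff.1 (top_le_iff.1 h)

theorem top_le_norm {G : Type*} [Group G] (A : Subgroup G) [h : A.Normal] : (⊤ : Subgroup G) ≤ N⟦A⟧ :=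
  top_le_iff.2 (normalizer_eq_top_iff.2 h)

theorem relIndex_cent_dvd {G : Type*} [Group G] [Finite G] {p : ℕ} [hp : Fact p.Prime] {E P : Subgroup G}
    (hE : IsElementaryAbelian p E) (h : ♯E ∣ p ^ 2) (hP : IsPGroup p P) (hn : P ≤ N⟦E⟧) :
    (C⟦E⟧).relIndex P ≤ p := by
  have h1 := relIndex_cent_abelem2_dvd hE h hn
  obtain ⟨k, hk⟩ := pgroup_exists_card hP
  have h2 : (C⟦E⟧).relIndex P ∣ p ^ k := hk ▸ relIndex_dvd_card _ _
  obtain ⟨j, -, hj⟩ := (Nat.dvd_prime_pow hp.out).1 h2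
  rw [hj] at h1 ⊢
  have h3 : Nat.Coprime p ((p - 1) * (p - 1) * (p + 1)) := by
    have h4 : Nat.Coprime p (p - 1) := by
      have := hp.out.two_le
      rw [Nat.coprime_self_sub_right (by omega)]; simp
    exact Nat.Coprime.mul_right (h4.mul_right h4) (by simp)
  have h5 : p ^ j ∣ p := (Nat.Coprime.pow_left j h3).dvd_of_dvd_mul_right h1
  exact Nat.le_of_dvd hp.out.pos h5

theorem exists_D {G : Type*} [Group G] [Finite G] {p : ℕ} [hp : Fact p.Prime] {R : Subgroup G} [R.Normal]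
    (hR : IsPGroup p R) (hodd : Odd ♯R) (hr : pRank p R ≤ 2) :
    ∃ D E : Subgroup G, D.Normal ∧ D ≤ R ∧ D.relIndex R ≤ p ^ 2 ∧ ♯E ≤ p ^ 2 ∧ D ≤ C⟦E⟧ ∧
      ∀ x ∈ D, x ^ p = 1 → x ∈ E := by
  obtain ⟨E, -, hER, hE, hO⟩ := exists_max_normal_abelem (A := ⊥) hR hodd
    ⟨bot_le, le_top.trans (top_le_norm ⊥)⟩ (elem_bot p)
  obtain ⟨n, hn⟩ := exists_isElem_of_elem hE hER.1
  have hn2 : n ≤ 2 := hn.le_pRank.trans hr
  have hc : ♯E ∣ p ^ 2 := hn.card ▸ pow_dvd_pow p hn2
  have hc' : ♯E ≤ p ^ 2 := Nat.le_of_dvd (pow_pos hp.out.pos 2) hc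
  have hi := relIndex_cent_dvd hE hc hR hER.2
  have hpp : p ≤ p ^ 2 := Nat.le_self_pow (by norm_num) p
  have hm : ∀ x ∈ R ⊓ C⟦E⟧, x ^ p = 1 → x ∈ E := fun x hx h => hO ▸ mem_omegaOne hx h
  by_cases hN : E.Normal
  · refine ⟨R ⊓ C⟦E⟧, E, inferInstance, inf_le_left, ?_, hc', inf_le_right, hm⟩
    rw [inf_relIndex_left]; exact hi.trans hpp
  have hn3 : n = 2 := by
    by_contra h
    have h1 : ♯E ∣ p := by
      rw [hn.card]; nth_rewrite 2 [← pow_one p]; exact pow_dvd_pow p (by omega)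
    have h2 := le_cent_of_card_dvd_prime hR hER.2 h1
    rw [inf_eq_left.2 h2] at hO
    exact hN (hO ▸ normal_of ((top_le_norm R).trans (norm_le_norm_omegaOne p R)))
  subst hn3
  obtain ⟨g, hg⟩ : ∃ g, cj g E ≠ E := by
    by_contra h
    push Not at h
    exact hN (normal_of fun g _ => mem_norm_iff_cj.2 (h g))
  have hgR : g ∈ N⟦R⟧ := top_le_norm R (mem_top g)
  have hn' : IsElem p 2 (cj g E) R := hn.cj_of_mem_norm hgR
  have hER' : cj g E ⊴ R := by
    have := hER.cj g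
    rwa [mem_norm_iff_cj.1 hgR] at this
  set W := omegaOne p (ucn2 R) with hW
  have hWn : W.Normal := normal_of ((top_le_norm R).trans
    ((ucn2_charIn R).norm_le.trans (norm_le_norm_omegaOne p _)))
  have hWR : W ≤ R := (omegaOne_le p _).trans (ucn2_charIn R).le
  have hW3 : ♯W ∣ p ^ 3 := rank2_exponent_p_p3group (hR.to_le hWR) ((pRank_mono p hWR).trans hr)
    (expDvd_omegaOne_ucn2 hR hodd)
  have h1 : E ≤ W := le_omegaOne hE (hn.le_ucn2 hR hER)
  have h2 : cj g E ≤ W := le_omegaOne hn'.elem (hn'.le_ucn2 hR hER')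
  have h3 : E ⊔ cj g E = W := by
    by_contra h
    have h4 : E ⊔ cj g E < W := lt_of_le_of_ne (sup_le h1 h2) h
    have h5 := card_dvd_of_lt h4 hW3
    have h6 : E = E ⊔ cj g E := eq_of_le_card le_sup_left (by
      rw [hn.card]; exact Nat.le_of_dvd (pow_pos hp.out.pos 2) h5)
    have h7 : cj g E ≤ E := le_sup_right.trans h6.ge
    exact hg (hn'.eq_of_le hn h7)
  have hi' := relIndex_cent_dvd hn'.elem (hn'.card ▸ dvd_rfl) hR hER'.2
  have h4 : C⟦W⟧ = C⟦E⟧ ⊓ C⟦cj g E⟧ := by rw [← h3, cent_sup]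
  refine ⟨R ⊓ C⟦W⟧, E, inferInstance, inf_le_left, ?_, hc', ?_, fun x hx h => hm x ⟨hx.1, ?_⟩ h⟩
  · rw [inf_relIndex_left, h4, pow_two]
    exact relIndex_inf_le.trans (Nat.mul_le_mul hi hi')
  · rw [h4]; exact inf_le_right.trans inf_le_left
  · have := hx.2; rw [h4] at this; exact this.1

theorem exists_X {G : Type*} [Group G] [Finite G] {p : ℕ} [hp : Fact p.Prime] (hc : H9.CharPGrp p G)
    (hodd : Odd ♯(pCore p G)) (hr : pRank p (pCore p G) ≤ 2) {P : Subgroup G} (hP : IsPGroup p P) :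
    (pCore p G).relIndex P ≤ p := by
  have hR := H1.isPGroup_pCore p G
  obtain ⟨H, h1, h2, h3, h4⟩ := exists_rank2_section hR hodd hr
  have hH : (⊤ : Subgroup G) ≤ N⟦H⟧ := h1.norm (top_le_norm _)
  have hF : (⊤ : Subgroup G) ≤ N⟦frattiniOf H⟧ := norm_frattiniOf hH
  set X := cospre (frattiniOf H) C⟦quo H (frattiniOf H)⟧ with hX
  have hXn : X.Normal := normal_of (le_norm_cospre hF (norm_cent (quo_norm _ hH)))
  have hXp : IsPGroup p X := by
    refine H9.isPGroup_of_forall_coprime fun g hg hcop => ?_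
    have h5 := h4 (zpowers g) (le_top.trans (top_le_norm _)) (by rwa [Nat.card_zpowers])
      ((quo_le_iff (le_top.trans hF)).2 (zpowers_le.2 hg))
    have h6 : g ∈ pCore p G := hc (h5 (mem_zpowers g))
    obtain ⟨k, hk⟩ := hR ⟨g, h6⟩
    have h7 : orderOf g ∣ p ^ k := orderOf_dvd_of_pow_eq_one (by simpa using congrArg Subtype.val hk)
    exact orderOf_eq_one_iff.1 (Nat.Coprime.eq_one_of_dvd (hcop.pow_right k) h7)
  have h5 : X ≤ pCore p G := H1.le_pCore hXp
  have h6 := relIndex_cent_dvd h2 h3 (quo_isPGroup hP _) (quo_norm _ (le_top.trans hH))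
  rw [← relIndex_cospre, cospre_quo (le_top.trans hF)] at h6
  refine (relIndex_le_of_le_left h5 index_ne_zero_of_finite).trans
    ((relIndex_le_of_le_right le_sup_left index_ne_zero_of_finite).trans h6)

theorem core {G : Type*} [Group G] [Finite G] {p : ℕ} [hp : Fact p.Prime] (hp2 : p ≠ 2)
    (hc : H9.CharPGrp p G) (hr : pRank p (pCore p G) ≤ 2)
    (H K : Subgroup G) [H.Normal] [K.Normal] {n : ℕ} (hpow : K.relIndex H = p ^ n)
    (he : ∀ x ∈ H, x ^ p ∈ K) (hKH : K ≤ H)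
    (hchief : ∀ L : Subgroup G, L.Normal → K ≤ L → L ≤ H → L = K ∨ L = H) :
    K.relIndex H ≤ p ^ 2 := by
  have hR := H1.isPGroup_pCore p G
  have hodd : Odd ♯(pCore p G) := by
    obtain ⟨k, hk⟩ := pgroup_exists_card hR
    rw [hk]; exact (hp.out.odd_of_ne_two hp2).pow
  obtain ⟨D, E, hDn, hDR, hi, hE, hDE, hm⟩ := exists_D hR hodd hr
  have key : ∀ N : Subgroup G, N.Normal → ¬ H ⊓ N ≤ K → K.relIndex H = K.relIndex (H ⊓ N) := by
    intro N hN h
    rcases hchief (K ⊔ H ⊓ N) inferInstance le_sup_left (sup_le hKH inf_le_left) with h1 | h1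
    · exact absurd (le_sup_right.trans h1.le) h
    · rw [← relIndex_sup_left (H ⊓ N) K, h1]
  by_cases h1 : H ⊓ D ≤ K
  swap
  · rw [key D hDn h1]
    exact (H2.PCen.relIndex_le hp2 (hR.to_le (inf_le_right.trans hDR)) (fun x hx => hm x hx.2)
      (inf_le_right.trans hDE) (fun x hx => he x hx.1)).trans hE
  by_cases h2 : H ⊓ pCore p G ≤ K
  swap
  · rw [key _ inferInstance h2]
    refine (relIndex_le_of_le_left h1 index_ne_zero_of_finite).trans ?_
    have h3 : (H ⊓ D).relIndex (H ⊓ pCore p G) = D.relIndex (H ⊓ pCore p G) := by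
      rw [← inf_relIndex_right (H ⊓ D), ← inf_relIndex_right D]
      congr 1
      exact le_antisymm (inf_le_inf_right _ inf_le_right)
        (le_inf (le_inf (inf_le_right.trans inf_le_left) inf_le_left) inf_le_right)
    rw [h3]
    exact (relIndex_le_of_le_right inf_le_right index_ne_zero_of_finite).trans hi
  obtain ⟨P, hP⟩ := exists_sylowOf p H
  have h3 : K ⊔ P = H := by
    refine le_antisymm (sup_le hKH hP.le) (relIndex_eq_one.1 ?_)
    have h4 : (K ⊔ P).relIndex H ∣ p ^ n := hpow ▸ relIndex_dvd_of_le_left H le_sup_left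
    obtain ⟨j, -, hj⟩ := (Nat.dvd_prime_pow hp.out).1 h4
    rcases j with _ | j
    · simpa using hj
    · exact absurd le_sup_right (not_le_of_dvd_relIndex hP (hj ▸ dvd_pow_self p j.succ_ne_zero))
  rw [← h3, relIndex_sup_left]
  have h4 : pCore p G ⊓ P ≤ K := (le_inf (inf_le_right.trans hP.le) inf_le_left).trans h2
  refine (relIndex_le_of_le_left h4 index_ne_zero_of_finite).trans ?_
  rw [inf_relIndex_right]
  exact (exists_X hc hodd hr hP.isPGroup).trans (Nat.le_self_pow (by norm_num) p)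

theorem pow_mem {G : Type*} [Group G] [Finite G] {p : ℕ} [hp : Fact p.Prime]
    (H K : Subgroup G) [H.Normal] [K.Normal] {n : ℕ} (hpow : K.relIndex H = p ^ n) (hKH : K < H)
    (hchief : ∀ L : Subgroup G, L.Normal → K ≤ L → L ≤ H → L = K ∨ L = H) :
    ∀ x ∈ H, x ^ p ∈ K := by
  have hn : (⊤ : Subgroup G) ≤ N⟦K⟧ := top_le_norm K
  have h1 : IsPGroup p (quo H K) := pgroup_of_card ((card_quo (le_top.trans hn)).trans hpow)
  have h2 : quo H K ≠ ⊥ := fun h => hKH.not_ge ((quo_eq_bot_iff (le_top.trans hn)).1 h)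
  have h3 := frattiniOf_lt h2
  have hKH' : K ⊴ H := ⟨hKH.le, le_top.trans hn⟩
  rcases hchief (cospre K (frattiniOf (quo H K)))
    (normal_of (le_norm_cospre hn (norm_frattiniOf (quo_norm _ (top_le_norm H)))))
    (le_cospre _) (cospre_le hKH' h3.le) with h4 | h4
  · intro x hx
    rw [← h4, mem_cospre]
    refine ⟨hn (mem_top _), ?_⟩
    rw [cos_pow (hn (mem_top _))]
    exact pow_mem_frattiniOf h1 (mem_quo.2 ⟨x, hx, hn (mem_top _), rfl⟩)
  · exact absurd ((quo_le_iff (le_top.trans hn)).2 h4.ge) h3.not_ge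

/-- Let p be an odd prime and G a finite p-solvable group with no elementary abelian subgroup of order p³. Then every chief factor H/K of G (H, K normal in G with no normal subgroup of G strictly between them) whose order is a power of p has order p or p². -/
theorem result {G : Type*} [Group G] [Finite G] {p : ℕ} [Fact p.Prime] (hp : p ≠ 2)
    (hG : Cfsg.IsPSolvable p G) (hr : Cfsg.PRankLE p 2 G)
    (H K : Subgroup G) [H.Normal] [K.Normal] (hKH : K < H) (hpow : ∃ n : ℕ, K.relIndex H = p ^ n)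
    (hchief : ∀ L : Subgroup G, L.Normal → K ≤ L → L ≤ H → L = K ∨ L = H) :
    K.relIndex H = p ∨ K.relIndex H = p ^ 2 := by
  obtain ⟨n, hn⟩ := hpow
  have he := pow_mem H K hn hKH hchief
  set O := pPrimeCore p G with hO
  let π := QuotientGroup.mk' O
  have hπ : Function.Surjective π := QuotientGroup.mk'_surjective O
  have hcop := H1.coprime_card_pPrimeCore p G
  have h1 : H ⊓ O ≤ K := by
    refine relIndex_eq_one.1 ?_
    have h2 : K.relIndex (H ⊓ O) ∣ p ^ n := hn ▸ H9.relIndex_dvd_of_le_right_of_normal K inf_le_left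
    have h3 : K.relIndex (H ⊓ O) ∣ ♯O := (relIndex_dvd_card _ _).trans (card_dvd_of_le inf_le_right)
    exact Nat.eq_one_of_dvd_coprimes (hcop.pow_right n) h3 h2
  have h2 : (K.map π).relIndex (H.map π) = K.relIndex H := by
    rw [relIndex_map_map, QuotientGroup.ker_mk']
    have h3 : H ⊔ O = H ⊔ (K ⊔ O) := by rw [← sup_assoc, sup_eq_left.2 hKH.le]
    rw [h3, relIndex_sup_right, ← inf_relIndex_right (K ⊔ O)]
    congr 1
    refine le_antisymm ?_ (le_inf le_sup_left hKH.le)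
    rintro x ⟨hx, hxH⟩
    obtain ⟨k, hk, o, ho, rfl⟩ := mem_sup_of_normal_right.1 hx
    exact K.mul_mem hk (h1 ⟨(H.mul_mem_cancel_left (hKH.le hk)).1 hxH, ho⟩)
  have hr' : H20.pRank p (pCore p (G ⧸ O)) ≤ 2 := by
    obtain ⟨S⟩ := (inferInstance : Nonempty (Sylow p G))
    have h3 : pCore p (G ⧸ O) ≤ (S : Subgroup G).map π := H1.pCore_le_sylow (S.mapSurjective hπ)
    refine (pRank_mono p h3).trans ?_
    have h4 := H9.injective_comp_subtype (H9.inf_ker_mk'_pPrimeCore S.isPGroup')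
    have h5 : (S : Subgroup G).map π = (⊤ : Subgroup S).map (π.comp (S : Subgroup G).subtype) := by
      rw [← map_map, top_map_subtype]
    rw [h5, pRank_map h4, pRank_top_coe]
    refine pRank_le_iff.2 fun m E hE => ?_
    have h6 := hr E hE.comm fun a ha => hE.pow ha
    rw [hE.card] at h6
    exact (Nat.pow_le_pow_iff_right (Fact.out : p.Prime).one_lt).1 h6
  haveI : (H.map π).Normal := Normal.map inferInstance _ hπ
  haveI : (K.map π).Normal := Normal.map inferInstance _ hπ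
  have h3 := core hp (H9.isPConstrained_iff.1 (H9.isPConstrained_of_isPSolvable hG)) hr'
    (H.map π) (K.map π) (h2.trans hn) (by
      rintro _ ⟨x, hx, rfl⟩
      exact ⟨x ^ p, he x hx, map_pow π x p⟩) (map_mono hKH.le) (by
      intro L hL hKL hLH
      rcases hchief (L.comap π ⊓ H) inferInstance (le_inf (map_le_iff_le_comap.1 hKL) hKH.le)
        inf_le_right with h4 | h4
      · left
        refine le_antisymm (fun y hy => ?_) hKL
        obtain ⟨x, hx, rfl⟩ := hLH hy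
        exact ⟨x, h4.le ⟨hy, hx⟩, rfl⟩
      · right
        exact le_antisymm hLH (map_le_iff_le_comap.2 (h4.ge.trans inf_le_left)))
  rw [h2, hn] at h3
  rw [hn]
  have h4 := (Nat.pow_le_pow_iff_right (Fact.out : p.Prime).one_lt).1 h3
  have h5 : n ≠ 0 := by
    rintro rfl
    exact hKH.not_ge (relIndex_eq_one.1 (by simpa using hn))
  have h6 : n = 1 ∨ n = 2 := by omega
  rcases h6 with rfl | rfl
  · left; exact pow_one p
  · right; rfl

end Cfsg.Agent.S1895
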