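import Cfsg.Statements.S1897
import Cfsg.Agent.H14.U33L

set_option autoImplicit false
open Cfsg

namespace Cfsg.Agent.S1897

/-- The projective special unitary group PSU₃(3) (realised over the field with 9 elements) has a subgroup isomorphic to PSL₂(7). -/
theorem result {F : Type*} [Field F] [Fintype F] (hF : Fintype.card F = 9)
    {K : Type*} [Field K] [Fintype K] (hK : Fintype.card K = 7) :
    ∃ H : Subgroup (Cfsg.PSU 3 F 3), Nonempty (H ≃* Matrix.ProjectiveSpecialLinearGroup (Fin 2) K) := by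
  obtain ⟨H, ⟨e⟩⟩ := H14.U33L.base
  obtain ⟨f⟩ := H12.nonempty_ringEquiv_of_natCard_eq (F := H14.U33L.N9) (K := F) (by
    rw [Nat.card_eq_fintype_card, Nat.card_eq_fintype_card, hF, H14.U33L.card_N9])
  obtain ⟨g⟩ := H12.nonempty_ringEquiv_of_natCard_eq (F := ZMod 7) (K := K) (by
    rw [Nat.card_eq_fintype_card, Nat.card_eq_fintype_card, hK, ZMod.card])
  exact ⟨H.map (H12.psuCongr 3 3 f).toMonoidHom,
    ⟨((H12.psuCongr 3 3 f).subgroupMap H).symm.trans (e.trans (H12.pslCongr _ g))⟩⟩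

end Cfsg.Agent.S1897
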