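import Cfsg.Statements.S1899
import Cfsg.Agent.H1.Basic

set_option autoImplicit false
open Cfsg

namespace Cfsg.Agent.S1899

/-- Let a dihedral group of order 2n, n odd and n > 1, act on a finite abelian 2-group A through automorphisms d and t with d^n = 1, t² = 1 and t d t⁻¹ = d⁻¹, and suppose that d fixes only the identity. Then A is the internal direct product of C_A(t) and its image under d. -/
theorem result {A : Type*} [CommGroup A] [Finite A] (hA : IsPGroup 2 A)
    {n : ℕ} (hn : Odd n) (hn1 : 1 < n) (d t : MulAut A) (hd : d ^ n = 1) (ht : t ^ 2 = 1) (hdt : t * d * t⁻¹ = d⁻¹)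
    (hfix : ∀ a : A, d a = a → a = 1) :
    (MulEquiv.toMonoidHom t).eqLocus (MonoidHom.id A) ⊓ ((MulEquiv.toMonoidHom t).eqLocus (MonoidHom.id A)).map d.toMonoidHom = ⊥ ∧
      (MulEquiv.toMonoidHom t).eqLocus (MonoidHom.id A) ⊔ ((MulEquiv.toMonoidHom t).eqLocus (MonoidHom.id A)).map d.toMonoidHom = ⊤ := by
  have ht' : ∀ a, t (t a) = a := fun a => by rw [← MulAut.mul_apply, ← sq, ht, MulAut.one_apply]
  have htd : ∀ a, t (d a) = d⁻¹ (t a) := fun a => by
    rw [← hdt, MulAut.mul_apply, MulAut.mul_apply, MulAut.inv_apply_self]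
  have hd2 : ∀ a, d (d a) = a → a = 1 := fun a ha => by
    obtain ⟨k, rfl⟩ := hn
    have h1 : ∀ j : ℕ, (d ^ (2 * j)) a = a := fun j => by
      induction j with
      | zero => rfl
      | succ j ih => rw [mul_add, pow_add, MulAut.mul_apply, mul_one, sq, MulAut.mul_apply, ha, ih]
    refine hfix a ?_
    conv_lhs => rw [← h1 k]
    rw [← MulAut.mul_apply, ← pow_succ', hd, MulAut.one_apply]
  refine ⟨eq_bot_iff.mpr ?_, eq_top_iff.mpr fun a _ => ?_⟩
  · rintro _ ⟨h1, b, hb, rfl⟩
    have h2 : t (d b) = d b := h1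
    have h3 : t b = b := hb
    rw [htd, h3, MulAut.inv_def, MulEquiv.symm_apply_eq] at h2
    simp [hd2 b h2.symm]
  · have hf : MonoidHom.FixedPointFree (d * d) := hd2
    obtain ⟨c, rfl⟩ := hf.commutatorMap_surjective a
    have h1 : c * t c ∈ (MulEquiv.toMonoidHom t).eqLocus (MonoidHom.id A) := by
      change t (c * t c) = c * t c
      rw [map_mul, ht', mul_comm]
    have h2 : d c * t (d c) ∈ (MulEquiv.toMonoidHom t).eqLocus (MonoidHom.id A) := by
      change t (d c * t (d c)) = d c * t (d c)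
      rw [map_mul, ht', mul_comm]
    convert div_mem (Subgroup.mem_sup_left h1) (Subgroup.mem_sup_right
      (Subgroup.mem_map_of_mem d.toMonoidHom h2)) using 1
    simp [htd]

end Cfsg.Agent.S1899
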