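import Cfsg.Statements.S1900
import Cfsg.Agent.H1.Generation
import Cfsg.Agent.H3.Frobenius
import Cfsg.Agent.H10.Basic

set_option autoImplicit false
open Cfsg

namespace Cfsg.Agent.S1900

open Subgroup in
theorem aux {S : Type*} [Group S] [Finite S] {P Q X₁ X₂ : Subgroup S} [P.Normal]
    [IsMulCommutative Q] (hP : Group.IsNilpotent P) (hcop : (Nat.card Q).Coprime (Nat.card P))
    (hS : P ⊔ Q = ⊤) (h₁ : X₁ ≤ Q) (h₂ : X₂ ≤ Q)
    (h0 : P ⊓ centralizer (X₁ : Set S) ⊓ centralizer (X₂ : Set S) = ⊥) {N : Subgroup S} [N.Normal]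
    (hNP : N ≤ P) (hN : N ≤ (N ⊓ centralizer (X₁ : Set S)) ⊔ (N ⊓ centralizer (X₂ : Set S)))
    (h : ⁅P ⊓ centralizer (X₁ : Set S), P ⊓ centralizer (X₂ : Set S)⁆ ≤ N) :
    ⁅P ⊓ centralizer (X₁ : Set S), P ⊓ centralizer (X₂ : Set S)⁆ ≤
      (N ⊓ centralizer (X₂ : Set S)) ⊔ ⁅N, P⁆ := by
  have hQX : ∀ X ≤ Q, Q ≤ normalizer (X : Set S) := fun X hX =>
    (le_centralizer Q).trans ((centralizer_le hX).trans (centralizer_le_normalizer _))
  have hLN : (N ⊓ centralizer (X₂ : Set S)) ⊔ ⁅N, P⁆ ≤ N := sup_le inf_le_left (commutator_le_left _ _)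
  have hQL : Q ≤ normalizer (((N ⊓ centralizer (X₂ : Set S)) ⊔ ⁅N, P⁆ : Subgroup S) : Set S) :=
    H1.le_normalizer_sup (H1.le_normalizer_inf le_normalizer_of_normal
      (H1.le_normalizer_centralizer (hQX _ h₂))) le_normalizer_of_normal
  have hL : ((N ⊓ centralizer (X₂ : Set S)) ⊔ ⁅N, P⁆).Normal := by
    rw [← normalizer_eq_top_iff, eq_top_iff, ← hS]
    exact sup_le (le_normalizer_iff_commutator_le_left.mpr
      ((commutator_mono hLN le_rfl).trans le_sup_right)) hQL
  have hC : X₁ ≤ normalizer ((P ⊓ centralizer (X₂ : Set S) : Subgroup S) : Set S) :=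
    h₁.trans (H1.le_normalizer_inf le_normalizer_of_normal (H1.le_normalizer_centralizer (hQX _ h₂)))
  have h3 := H1.commutator_sup_centralizer hC ((hcop.coprime_dvd_left
    (card_dvd_of_le h₁)).coprime_dvd_right (card_dvd_of_le inf_le_left))
    (Or.inr (H1.isSolvable_of_le inf_le_left inferInstance))
  rw [inf_right_comm, h0, sup_bot_eq] at h3
  rw [commutator_comm, ← h3]
  refine H1.commutator_commutator_le_of_rotate ?_ ((commutator_mono h le_rfl).trans ?_)
  · rw [commutator_comm X₁, commutator_eq_bot_iff_le_centralizer.mpr inf_le_right,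
      commutator_bot_left]
    exact bot_le
  · refine (commutator_mono (K₁ := ((N ⊓ centralizer (X₂ : Set S)) ⊔ ⁅N, P⁆) ⊔
      (N ⊓ centralizer (X₁ : Set S))) (hN.trans (sup_le le_sup_right
        (le_sup_of_le_left le_sup_left))) le_rfl).trans ?_
    rw [H1.commutator_sup_left_of_le_centralizer le_normalizer_of_normal inf_le_right]
    exact commutator_le_left _ _

/-- Let S = PQ be a finite group with P a normal Sylow p-subgroup and Q elementary abelian of order q², q a prime different from p. If exactly two subgroups X₁, X₂ of order q in Q have a nontrivial centralizer in P, then P is the internal direct product of C_P(X₁) and C_P(X₂): they commute elementwise, meet trivially and generate P. -/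
theorem result {S : Type*} [Group S] [Finite S] {p q : ℕ} [Fact p.Prime] [Fact q.Prime] (hpq : p ≠ q)
    (P : Sylow p S) [(P : Subgroup S).Normal] (Q : Subgroup S) (hQ : Cfsg.IsElementaryAbelian q Q) (hQc : Nat.card Q = q ^ 2)
    (hS : (P : Subgroup S) ⊔ Q = ⊤)
    (X₁ X₂ : Subgroup S) (h₁ : X₁ ≤ Q) (h₂ : X₂ ≤ Q) (h₁₂ : X₁ ≠ X₂) (hc₁ : Nat.card X₁ = q) (hc₂ : Nat.card X₂ = q)
    (hf₁ : (P : Subgroup S) ⊓ Subgroup.centralizer (X₁ : Set S) ≠ ⊥)
    (hf₂ : (P : Subgroup S) ⊓ Subgroup.centralizer (X₂ : Set S) ≠ ⊥)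
    (honly : ∀ X : Subgroup S, X ≤ Q → Nat.card X = q →
      (P : Subgroup S) ⊓ Subgroup.centralizer (X : Set S) ≠ ⊥ → X = X₁ ∨ X = X₂) :
    ⁅(P : Subgroup S) ⊓ Subgroup.centralizer (X₁ : Set S), (P : Subgroup S) ⊓ Subgroup.centralizer (X₂ : Set S)⁆ = ⊥ ∧
      ((P : Subgroup S) ⊓ Subgroup.centralizer (X₁ : Set S)) ⊓ ((P : Subgroup S) ⊓ Subgroup.centralizer (X₂ : Set S)) = ⊥ ∧
      ((P : Subgroup S) ⊓ Subgroup.centralizer (X₁ : Set S)) ⊔ ((P : Subgroup S) ⊓ Subgroup.centralizer (X₂ : Set S)) = P := by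
  open Subgroup in
  have := hQ.1
  have hq : q.Prime := Fact.out
  have hP := P.isPGroup'.isNilpotent
  have hcop : (Nat.card Q).Coprime (Nat.card (P : Subgroup S)) := by
    rw [hQc]
    exact (H1.coprime_card_of_isPGroup P.isPGroup' fun h =>
      hpq ((Nat.prime_dvd_prime_iff_eq Fact.out hq).mp h)).symm.pow_left 2
  have hord : ∀ a ∈ Q, a ≠ 1 → Nat.card (zpowers a) = q := fun a ha h1 => by
    rw [Nat.card_zpowers, orderOf_eq_prime (hQ.2 a ha) h1]
  have hgen : ∀ X : Subgroup S, Nat.card X = q → ∀ a ∈ X, a ≠ 1 → a ∈ Q → zpowers a = X :=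
    fun X hX a ha h1 haQ => eq_of_le_of_card_ge (zpowers_le.mpr ha) (by rw [hX, hord a haQ h1])
  have hd : X₁ ⊓ X₂ = ⊥ := eq_bot_iff.mpr fun a ha => by_contra fun h1 =>
    h₁₂ ((hgen _ hc₁ a ha.1 h1 (h₁ ha.1)).symm.trans (hgen _ hc₂ a ha.2 h1 (h₁ ha.1)))
  have hQX : ∀ X ≤ Q, Q ≤ normalizer (X : Set S) := fun X hX =>
    (le_centralizer Q).trans ((centralizer_le hX).trans (centralizer_le_normalizer _))
  have hsup : X₁ ⊔ X₂ = Q := eq_of_le_of_card_ge (sup_le h₁ h₂) (by
    rw [H1.card_sup_of_disjoint (h₂.trans (hQX _ h₁)) hd, hc₁, hc₂, hQc, sq])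
  have hnc : ¬ IsCyclic Q := fun h => by
    obtain ⟨g, hg⟩ := h.exists_generator
    have h1 := orderOf_eq_card_of_forall_mem_zpowers hg
    have h2 := orderOf_dvd_of_pow_eq_one (show g ^ q = 1 from Subtype.ext (hQ.2 g g.2))
    rw [h1, hQc, sq] at h2
    exact (Nat.lt_mul_self_iff.mpr hq.one_lt).not_ge (Nat.le_of_dvd hq.pos h2)
  have hG : ∀ N ≤ (P : Subgroup S), Q ≤ normalizer (N : Set S) →
      N ≤ (N ⊓ centralizer (X₁ : Set S)) ⊔ (N ⊓ centralizer (X₂ : Set S)) := fun N hN hQN => by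
    refine H1.le_of_forall_centralizer_singleton_le hnc hQN
      (hcop.coprime_dvd_right (card_dvd_of_le hN)) fun a ha h1 => ?_
    rw [← centralizer_closure, ← zpowers_eq_closure]
    by_cases h2 : (P : Subgroup S) ⊓ centralizer (zpowers a : Set S) = ⊥
    · exact ((inf_le_inf_right _ hN).trans h2.le).trans bot_le
    · rcases honly _ (zpowers_le.mpr ha) (hord a ha h1) h2 with h | h
      · exact h ▸ le_sup_left
      · exact h ▸ le_sup_right
  have h0 : (P : Subgroup S) ⊓ centralizer (X₁ : Set S) ⊓ centralizer (X₂ : Set S) = ⊥ := by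
    by_contra hne
    obtain ⟨a, ha, ha1⟩ := H1.exists_prime_orderOf_mem (H := X₁)
      (fun h => hq.one_lt.ne (by rw [← hc₁, h, card_bot]))
    obtain ⟨b, hb, hb1⟩ := H1.exists_prime_orderOf_mem (H := X₂)
      (fun h => hq.one_lt.ne (by rw [← hc₂, h, card_bot]))
    have ha2 : a ∉ X₂ := fun h => by
      rw [show a = 1 from mem_bot.mp (hd ▸ mem_inf.mpr ⟨ha, h⟩), orderOf_one] at ha1
      exact Nat.not_prime_one ha1
    have hb2 : b ∉ X₁ := fun h => by
      rw [show b = 1 from mem_bot.mp (hd ▸ mem_inf.mpr ⟨h, hb⟩), orderOf_one] at hb1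
      exact Nat.not_prime_one hb1
    have hab : a * b ∈ Q := mul_mem (h₁ ha) (h₂ hb)
    have h1 : a * b ∉ X₁ := fun h => hb2 ((mul_mem_cancel_left ha).mp h)
    have h2 : a * b ∉ X₂ := fun h => ha2 ((mul_mem_cancel_right hb).mp h)
    rcases honly _ (zpowers_le.mpr hab) (hord _ hab fun h => h1 (h ▸ one_mem _)) (fun h => hne
      (eq_bot_iff.mpr (le_trans (le_inf (inf_le_left.trans inf_le_left) (le_centralizer_iff.mp
        ((zpowers_le.mpr hab).trans (hsup.ge.trans (sup_le
          (le_centralizer_iff.mp (inf_le_left.trans inf_le_right))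
          (le_centralizer_iff.mp inf_le_right)))))) h.le))) with h | h
    · exact h1 (h ▸ mem_zpowers _)
    · exact h2 (h ▸ mem_zpowers _)
  refine ⟨?_, eq_bot_iff.mpr ((inf_le_inf_left _ inf_le_right).trans h0.le),
    le_antisymm (sup_le inf_le_left inf_le_left) (hG _ le_rfl le_normalizer_of_normal)⟩
  set N := normalClosure ((⁅(P : Subgroup S) ⊓ centralizer (X₁ : Set S),
    (P : Subgroup S) ⊓ centralizer (X₂ : Set S)⁆ : Subgroup S) : Set S) with hN
  have hNP : N ≤ P := normalClosure_le_normal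
    ((commutator_mono inf_le_left inf_le_left).trans (commutator_le_left _ _))
  have h1 := aux hP hcop hS h₁ h₂ h0 hNP (hG N hNP le_normalizer_of_normal) le_normalClosure
  have h2 := aux hP hcop hS h₂ h₁ (by rwa [inf_right_comm]) hNP
    (by rw [sup_comm]; exact hG N hNP le_normalizer_of_normal)
    (by rw [commutator_comm]; exact le_normalClosure)
  rw [commutator_comm] at h2
  have hcomm : ∀ X : Subgroup S, X ≤ Q →
      ⁅(N ⊓ centralizer (X : Set S)) ⊔ ⁅N, (P : Subgroup S)⁆, X⁆ ≤ ⁅N, (P : Subgroup S)⁆ :=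
    fun X _ => by
      rw [sup_comm, H1.commutator_sup_left_of_le_centralizer le_normalizer_of_normal inf_le_right]
      exact commutator_le_left _ _
  have h3 : N ≤ ⁅N, (P : Subgroup S)⁆ := normalClosure_le_normal fun x hx => by
    obtain ⟨m, hm, c, hc, rfl⟩ := H1.exists_mul_centralizer_of_commutator_le (A := Q)
      (N := ⁅N, (P : Subgroup S)⁆) le_normalizer_of_normal
      (hcop.coprime_dvd_right (card_dvd_of_le (commutator_le_right _ _)))
      (Or.inr (H1.isSolvable_of_le (commutator_le_right _ _) inferInstance)) (by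
        rw [← hsup, commutator_comm]
        refine H10.commutator_sup_left_le le_normalizer_of_normal le_normalizer_of_normal ?_ ?_
        · rw [commutator_comm]
          exact (commutator_mono h2 le_rfl).trans (hcomm X₁ h₁)
        · rw [commutator_comm]
          exact (commutator_mono h1 le_rfl).trans (hcomm X₂ h₂)) hx
    have h4 : c = 1 := mem_bot.mp (h0 ▸ mem_inf.mpr ⟨mem_inf.mpr ⟨(mul_mem_cancel_left
      (commutator_le_right _ _ hm)).mp (hNP (le_normalClosure hx)), centralizer_le h₁ hc⟩,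
      centralizer_le h₂ hc⟩)
    rwa [h4, mul_one]
  rw [eq_bot_iff, ← H3.eq_bot_of_le_commutator hP hNP h3]
  exact le_normalClosure

end Cfsg.Agent.S1900
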