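import Cfsg.Statements.S1901
import Cfsg.Agent.H1.Coprime
import Cfsg.Agent.H9.PSolv
import Cfsg.Agent.H2.Basic

set_option autoImplicit false
open Cfsg

namespace Cfsg.Agent.S1901

open Subgroup in
theorem aux {p : ℕ} [hp : Fact p.Prime] (G : Type*) [Group G] [Finite G] : IsPSolvable p G →
    ∀ P Q A : Subgroup G, H1.IsSylowIn p P ⊤ → ¬ p ∣ Nat.card Q → Q ≤ normalizer (P : Set G) →
      IsPGroup p A → A ≤ normalizer (Q : Set G) → ⁅Q, A⁆ = ⊥ := by
  refine H2.card_induction (P := fun G _ _ => IsPSolvable p G →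
    ∀ P Q A : Subgroup G, H1.IsSylowIn p P ⊤ → ¬ p ∣ Nat.card Q → Q ≤ normalizer (P : Set G) →
      IsPGroup p A → A ≤ normalizer (Q : Set G) → ⁅Q, A⁆ = ⊥) (fun G _ _ ih => ?_) G
  intro hG P Q A hP hQ hQP hA hAQ
  rcases subsingleton_or_nontrivial G with hs | hnt
  · exact Subsingleton.elim _ _
  have key : ∀ (N : Subgroup G) [N.Normal], N ≠ ⊥ → ⁅Q, A⁆ ≤ N := fun N _ hN => by
    have h1 := ih (G ⧸ N) (H1.card_quotient_lt hN) (H9.isPSolvable_quotient hG N) _ _ _
      (by simpa [map_top_of_surjective _ (QuotientGroup.mk'_surjective N)] using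
        hP.map (QuotientGroup.mk' N)) (fun h => hQ (h.trans (card_map_dvd _ _)))
      ((map_mono hQP).trans (le_normalizer_map _)) (hA.map (QuotientGroup.mk' N))
      ((map_mono hAQ).trans (le_normalizer_map _))
    rwa [← map_commutator, Subgroup.map_eq_bot_iff, QuotientGroup.ker_mk'] at h1
  have hle := H1.commutator_le_left_of_le_normalizer hAQ
  rcases H9.core_ne_bot_of_isPSolvable hG with h | h
  · exact eq_bot_iff.mpr ((le_inf (key _ h) hle).trans (inf_eq_bot_of_coprime
      (H1.coprime_card_of_isPGroup (H1.isPGroup_pCore p G) hQ)).le)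
  · set R : Subgroup G := ⁅Q, A⁆ with hR
    have h1 : P ≤ centralizer (R : Set G) := by
      rw [← commutator_eq_bot_iff_le_centralizer, eq_bot_iff]
      exact (le_inf (H1.commutator_le_left_of_le_normalizer (hle.trans hQP))
        ((commutator_mono le_rfl (key _ h)).trans (commutator_le_right _ _))).trans
        (inf_eq_bot_of_coprime (H1.coprime_card_of_isPGroup hP.isPGroup
          (H1.not_dvd_card_pPrimeCore p G))).le
    have hAR : A ≤ normalizer (R : Set G) := normalizer_commutator_ge_right _ _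
    obtain ⟨g, hg, h2⟩ := (hP.of_le (h1.trans (centralizer_le_normalizer _)) le_top).exists_le_conj
      hAR hA
    have h3 : A ≤ centralizer (R : Set G) := fun a ha => by
      convert H1.conj_mem_of_le_normalizer (H1.normalizer_le_normalizer_centralizer R) hg
        (h1 (H1.mem_conj_smul.mp (h2 ha))) using 1
      group
    rw [hR, ← H1.commutator_commutator_eq hAQ (H1.coprime_card_of_isPGroup hA hQ), commutator_comm,
      commutator_eq_bot_iff_le_centralizer]
    exact h3

/-- Let G be a finite p-solvable group and Q a subgroup of order prime to p such that p divides the index of C_G(Q) in N_G(Q). Then Q normalizes no Sylow p-subgroup of G. -/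
theorem result {G : Type*} [Group G] [Finite G] {p : ℕ} [Fact p.Prime]
    (hG : Cfsg.IsPSolvable p G) (Q : Subgroup G) (hQ : ¬ p ∣ Nat.card Q)
    (hA : p ∣ (Subgroup.centralizer (Q : Set G)).relIndex (Subgroup.normalizer (Q : Set G)))
    (P : Sylow p G) : ¬ Q ≤ Subgroup.normalizer ((P : Subgroup G) : Set G) := by
  intro h
  obtain ⟨A, hAs⟩ := H1.exists_isSylowIn p (Subgroup.normalizer (Q : Set G))
  have h1 := aux G hG P Q A (H1.isSylowIn_top P) hQ h hAs.isPGroup hAs.le
  rw [Subgroup.commutator_comm, Subgroup.commutator_eq_bot_iff_le_centralizer] at h1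
  exact hAs.not_dvd (hA.trans (Subgroup.relIndex_dvd_of_le_left _ h1))

end Cfsg.Agent.S1901
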