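import Cfsg.Statements.S1903
import Cfsg.Agent.H22.U320

set_option autoImplicit false
set_option linter.style.haveILetI false
open Cfsg

namespace Cfsg.Agent.S1903

/-- A finite group of order 320 whose derived subgroup has order 64 and has centre a Klein four-group is isomorphic to the centralizer of an involution in PSU₃(4). -/
theorem result {G : Type*} [Group G] [Finite G] (hG : Nat.card G = 320) (hD : Nat.card (commutator G) = 64)
    (hZ : IsKleinFour (Subgroup.center (commutator G)))
    {F : Type*} [Field F] [Fintype F] (hF : Fintype.card F = 16) :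
    ∃ t : Cfsg.PSU 3 F 4, orderOf t = 2 ∧ Nonempty (G ≃* Subgroup.centralizer ({t} : Set (Cfsg.PSU 3 F 4))) := by
  haveI : Fact (Nat.Prime 5) := ⟨Nat.prime_five⟩
  have hF' : Fintype.card F = 4 ^ 2 := hF
  haveI : CharP F 2 := charP_of_card_eq_prime_pow (f := 4) hF
  obtain ⟨σ, φ, hσ, h⟩ := H22.Mb.exists_md hF'
  have hc : Subgroup.center (Cfsg.SU 3 F 4) = ⊥ :=
    Subgroup.card_eq_one.1 (H12.card_center_SU hF' (by norm_num))
  let e : Cfsg.PSU 3 F 4 ≃* Cfsg.SU 3 F 4 :=
    (QuotientGroup.quotientMulEquivOfEq hc).trans QuotientGroup.quotientBot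
  have hs : (σ : F →+* F) = H12.frobq hF' := RingHom.ext hσ
  obtain ⟨l, hl⟩ := exists_prime_orderOf_dvd_card' (G := Fˣ) 5
    (by rw [Nat.card_units, Nat.card_eq_fintype_card, hF]; norm_num)
  exact H22.U320.model (φ := φ.comp e.toMonoidHom) ⟨h.inv, h.ne, h.inj.comp e.injective,
    fun g => h.ok _, fun A hA => by
      obtain ⟨g, hg⟩ := h.surj A hA
      exact ⟨e.symm g, by simpa using hg⟩⟩ (CharP.cast_eq_zero F 2) hσ (l := l)
    (by rw [orderOf_units, hl]) (hs ▸ H12.card_N1_frobq hF') (Nat.card_eq_fintype_card.trans hF)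
    (hs ▸ H12.q0_frobq hF') hG hD hZ

end Cfsg.Agent.S1903
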