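import Cfsg.Statements.S1905
import Cfsg.Agent.H11.StrEmb
import Cfsg.Agent.H21.Base2

set_option autoImplicit false
open Cfsg

namespace Cfsg.Agent.S1905

open Subgroup Cfsg.Agent.H20 Cfsg.Agent.H21

/-- Let M be a subgroup of even order of a finite group S such that M contains the centralizer in S of each of its involutions and the normal core of M in S has odd order. Then all involutions of S are conjugate. If moreover N_S(X) ≤ M for a Sylow 2-subgroup X of M and I is an involution in the centre of X, then all involutions of M are conjugate in M and M = M₀ C_M(I) for some subgroup M₀ of M of odd order. -/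
theorem result {S : Type*} [Group S] [Finite S] (M : Subgroup S) (hM : Even (Nat.card M))
    (hC : ∀ i ∈ M, orderOf i = 2 → Subgroup.centralizer ({i} : Set S) ≤ M) (hcore : Odd (Nat.card M.normalCore)) :
    (∀ x y : S, orderOf x = 2 → orderOf y = 2 → IsConj x y) ∧
      ∀ (X : Sylow 2 M) (I : M), I ∈ (Subgroup.center ↥(X : Subgroup ↥M)).map (X : Subgroup ↥M).subtype → orderOf I = 2 →
        Subgroup.normalizer (((X : Subgroup M).map M.subtype : Subgroup S) : Set S) ≤ M →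
        (∀ x y : M, orderOf x = 2 → orderOf y = 2 → IsConj x y) ∧
          ∃ M₀ : Subgroup M, Odd (Nat.card M₀) ∧
            ∀ m : M, ∃ a ∈ M₀, ∃ c ∈ Subgroup.centralizer ({I} : Set M), m = a * c := by
  haveI : Fact (Nat.Prime 2) := ⟨Nat.prime_two⟩
  have h1 : ∀ i ∈ M, orderOf i = 2 → ∀ j ∉ M, orderOf j = 2 → IsConj i j := fun i hi h2 j hj h3 => by
    by_contra h
    obtain ⟨z, -, h4, h5, h6⟩ := H11.exists_invol_commute_of_not_isConj (H11.mul_self_of_orderOf_two h2)
      (H11.mul_self_of_orderOf_two h3) h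
    exact hj (hC z (hC i hi h2 (mem_centralizer_singleton_iff.mpr h5)) h4
      (mem_centralizer_singleton_iff.mpr h6.symm))
  obtain ⟨i, hi2⟩ := exists_prime_orderOf_dvd_card' (G := M) 2 hM.two_dvd
  rw [← orderOf_coe] at hi2
  obtain ⟨g, hg⟩ : ∃ g : S, g * i * g⁻¹ ∉ M := by
    by_contra! h
    exact hcore.not_two_dvd_nat (hi2 ▸ orderOf_dvd_natCard M.normalCore h)
  have hj := (H11.orderOf_conj g i).trans hi2
  have h2 : ∀ x : S, orderOf x = 2 → IsConj x (g * i * g⁻¹) := fun x hx => by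
    by_cases h : x ∈ M
    exacts [h1 x h hx _ hg hj, (h1 i i.2 hi2 x h hx).symm.trans (isConj_iff.mpr ⟨g, rfl⟩)]
  have h3 : ∀ x y : S, orderOf x = 2 → orderOf y = 2 → IsConj x y := fun x y hx hy =>
    (h2 x hx).trans (h2 y hy).symm
  refine ⟨h3, fun X I hI hI2 hN => ?_⟩
  rw [← orderOf_coe] at hI2
  have hX := sylowOf_map_subtype X
  have h4 : ∀ g : S, g * I * g⁻¹ ∈ M → g ∈ M := fun g hg => by
    have h4 : (X : Subgroup M).map M.subtype ≤ C₁⟦(I : S)⟧ := by
      rintro _ ⟨x, hx, rfl⟩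
      obtain ⟨I, hI, rfl⟩ := hI
      exact mem_centralizer_singleton_iff.mpr (congrArg (fun y : X => ((y : M) : S)) (mem_center_iff.mp hI ⟨x, hx⟩))
    obtain ⟨m, hm, h5⟩ := hX.exists_cj_le (hX.cj g).isPGroup ((cj_mono g h4).trans
      ((cj_cent1 g _).trans_le (hC _ hg ((H11.orderOf_conj g I).trans hI2))))
    simpa using mul_mem (inv_mem hm) (hN (mem_norm_of_cj_le ((cj_mul m g _).trans_le h5)))
  have hS : IsStronglyEmbedded M := H11.isStronglyEmbedded_iff.mpr ⟨fun e => hg (e.ge trivial), hM,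
    fun t ht ht2 g hg => by
      obtain ⟨a, rfl⟩ := isConj_iff.mp (h3 I t hI2 ht2)
      simpa using mul_mem (h4 (g * a) (by simpa [mul_assoc] using hg)) (inv_mem (h4 a ht))⟩
  refine ⟨fun x y hx hy => ?_, (M ⊓ cj (g * i * g⁻¹) M).subgroupOf M, ?_, fun m => ?_⟩
  · obtain ⟨h, hh, e⟩ := H11.SE.exists_conj_eq hS x.2 ((orderOf_coe x).trans hx) y.2 ((orderOf_coe y).trans hy)
    exact isConj_iff.mpr ⟨⟨h, hh⟩, Subtype.ext e⟩
  · rw [Nat.card_congr (subgroupOfEquivOfLe inf_le_left).toEquiv]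
    exact hS.2.2 _ hg
  obtain ⟨k, hk, h5, h6⟩ := H11.SE.exists_inverted_conj_eq hS hg hj I.2 hI2 (m * I * m⁻¹).2
    ((H11.orderOf_conj (m : S) I).trans hI2)
  refine ⟨⟨k, hk⟩, ⟨hk, mem_cj'.mpr ⟨k⁻¹, inv_mem hk, by rw [← conj_inv, h5, inv_inv]; rfl⟩⟩, ⟨k, hk⟩⁻¹ * m,
    mem_centralizer_singleton_iff.mpr (Subtype.ext ?_), by group⟩
  change k⁻¹ * m * I = I * (k⁻¹ * m)
  calc _ = k⁻¹ * (m * I * m⁻¹ : M) * m := by simp [mul_assoc]
    _ = _ := by rw [← h6]; group

end Cfsg.Agent.S1905
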