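import Cfsg.Statements.S1907
import Cfsg.Agent.H1.Coprime
import Cfsg.Agent.H9.PCons

set_option autoImplicit false
open Cfsg

namespace Cfsg.Agent.S1907

/-- Let P be a Sylow p-subgroup of a finite group G, H = P ∩ O_{p',p}(G), N = N_G(H) and D = O_{p'}(G). (a) If y is an element of p-power order of N and d ∈ D with d⁻¹ y d ∈ N, then d = d₁ d₂ with d₁ ∈ C_D(y) and d₂ ∈ C_D(H). (b) Two elements of P that are conjugate in G are conjugate in N. -/
theorem result {G : Type*} [Group G] [Finite G] {p : ℕ} [Fact p.Prime] (P : Sylow p G) :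
    (∀ y ∈ Subgroup.normalizer (((P : Subgroup G) ⊓ Cfsg.pPrimePCore p G : Subgroup G) : Set G), (∃ k : ℕ, orderOf y = p ^ k) →
      ∀ d ∈ Cfsg.pPrimeCore p G, d⁻¹ * y * d ∈ Subgroup.normalizer (((P : Subgroup G) ⊓ Cfsg.pPrimePCore p G : Subgroup G) : Set G) →
        ∃ d₁ ∈ Cfsg.pPrimeCore p G ⊓ Subgroup.centralizer ({y} : Set G),
          ∃ d₂ ∈ Cfsg.pPrimeCore p G ⊓ Subgroup.centralizer (((P : Subgroup G) ⊓ Cfsg.pPrimePCore p G : Subgroup G) : Set G), d = d₁ * d₂) ∧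
    ∀ x y : G, x ∈ (P : Subgroup G) → y ∈ (P : Subgroup G) → IsConj x y →
      ∃ n ∈ Subgroup.normalizer (((P : Subgroup G) ⊓ Cfsg.pPrimePCore p G : Subgroup G) : Set G), n * x * n⁻¹ = y := by
  open Subgroup in
  set H : Subgroup G := (P : Subgroup G) ⊓ pPrimePCore p G with hH
  have hHp : IsPGroup p H := P.isPGroup'.to_le inf_le_left
  have hD := H1.not_dvd_card_pPrimeCore p G
  have h1 : pPrimeCore p G ⊓ normalizer (H : Set G) ≤ centralizer (H : Set G) := by
    rw [← commutator_eq_bot_iff_le_centralizer, eq_bot_iff]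
    exact (le_inf (le_normalizer_iff_commutator_le_right.mp inf_le_right)
      ((commutator_mono inf_le_left le_rfl).trans (commutator_le_left _ _))).trans
      (disjoint_of_coprime_natCard (H1.coprime_card_of_isPGroup hHp hD)).le_bot
  have ha : ∀ y ∈ normalizer (H : Set G), (∃ k : ℕ, orderOf y = p ^ k) →
      ∀ d ∈ pPrimeCore p G, d⁻¹ * y * d ∈ normalizer (H : Set G) →
        ∃ d₁ ∈ pPrimeCore p G ⊓ centralizer ({y} : Set G),
          ∃ d₂ ∈ pPrimeCore p G ⊓ centralizer (H : Set G), d = d₁ * d₂ := by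
    rintro y hy ⟨k, hk⟩ d hd hdy
    have hz : zpowers y ≤ normalizer (H : Set G) := zpowers_le.mpr hy
    obtain ⟨n, hn, h2⟩ := H1.exists_fixed_in_left_coset (A := zpowers y)
      (N := pPrimeCore p G ⊓ normalizer (H : Set G))
      (H1.le_normalizer_inf le_normalizer_of_normal (hz.trans le_normalizer))
      (H1.coprime_card_of_isPGroup (IsPGroup.of_card (by rw [Nat.card_zpowers, hk]))
        fun h => hD (h.trans (card_dvd_of_le inf_le_left))) (Or.inl (H1.isSolvable_zpowers y))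
      (x := d) (fun a ha => by
        refine mem_inf.mpr ⟨mul_mem (inv_mem hd) (Normal.conj_mem inferInstance d hd a), ?_⟩
        obtain ⟨j, rfl⟩ := mem_zpowers_iff.mp ha
        convert mul_mem (zpow_mem hdy j) (inv_mem (zpow_mem hy j)) using 1
        rw [show d⁻¹ * y * d = d⁻¹ * y * d⁻¹⁻¹ by rw [inv_inv], conj_zpow]
        group)
    exact ⟨d * n, ⟨mul_mem hd hn.1, centralizer_le (Set.singleton_subset_iff.mpr (mem_zpowers y)) h2⟩,
      n⁻¹, inv_mem (mem_inf.mpr ⟨hn.1, h1 hn⟩), by group⟩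
  refine ⟨ha, fun x y hx hy hxy => ?_⟩
  obtain ⟨g, rfl⟩ := isConj_iff.mp hxy
  have : (pPrimePCore p G).Normal := Normal.comap inferInstance _
  have hPN : (P : Subgroup G) ≤ normalizer (H : Set G) :=
    H1.le_normalizer_inf le_normalizer le_normalizer_of_normal
  have hS : H1.IsSylowIn p H (pPrimePCore p G) := by
    simpa [hH] using (H1.isSylowIn_top P).inf le_top le_normalizer_of_normal
  have h2 := H9.pPrimeCore_sup_normalizer_eq_top hHp (by
    rw [H9.map_eq_pCore_of_sylowIn ⟨hS.le, hS.isPGroup, hS.not_dvd⟩]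
    infer_instance)
  obtain ⟨n, hn, d, hd, rfl⟩ := (H1.mem_sup_of_le_normalizer_right le_normalizer_of_normal).mp
    (((sup_comm _ _).trans h2).ge (mem_top g))
  obtain ⟨k, hk⟩ := IsPGroup.iff_orderOf.mp P.isPGroup' ⟨x, hx⟩
  obtain ⟨d₁, hd₁, d₂, hd₂, h3⟩ := ha x (hPN hx) ⟨k, by rwa [orderOf_mk] at hk⟩ d⁻¹ (inv_mem hd) (by
    convert mul_mem (mul_mem (inv_mem hn) (hPN hy)) hn using 1
    group)
  refine ⟨n * d₂⁻¹, mul_mem hn (inv_mem (centralizer_le_normalizer _ hd₂.2)), ?_⟩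
  rw [← inv_inv d, h3]
  calc n * d₂⁻¹ * x * (n * d₂⁻¹)⁻¹ = n * (d₁ * d₂)⁻¹ * (d₁ * x) * (n * d₂⁻¹)⁻¹ := by group
    _ = _ := by rw [mem_centralizer_singleton_iff.mp hd₁.2]; group

end Cfsg.Agent.S1907
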