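import Cfsg.Statements.S1932
import Cfsg.Agent.H23.JCl2
-- import your own Cfsg.Agent.* helpers here

set_option autoImplicit false
open Cfsg

namespace Cfsg.Agent.S1932

/-- Let G be a finite group that is 2-constrained and has no section isomorphic to the symmetric group of degree 4, and let S be a Sylow 2-subgroup of G of nilpotency class at most 2. Then G = N_G(J(S))·O_{2'}(G), where J(S) is the Thompson subgroup generated by the elementary abelian subgroups of S of largest order. -/
theorem result {G : Type*} [Group G] [Finite G] (hcon : Cfsg.IsPConstrained 2 G) (hS4 : ¬ Cfsg.Involves (Equiv.Perm (Fin 4)) G) (S : Sylow 2 G) (hcl : Subgroup.lowerCentralSeries (S : Subgroup G) 2 = ⊥) : Subgroup.normalizer ((Cfsg.thompsonSubgroupOf 2 (S : Subgroup G)) : Set G) ⊔ Cfsg.pPrimeCore 2 G = ⊤ := by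
  open Cfsg.Agent.H23 Cfsg.FusionSystem Subgroup in
  open Cfsg.Agent.H24 Cfsg.Agent.L0 in
    haveI : Fact (Nat.Prime 2) := ⟨Nat.prime_two⟩
    have hc := H1.coprime_card_pPrimeCore 2 G
    have h1 := H23.j_normal_of_class_two (H9.isPConstrained_iff.1 hcon)
      (fun h => hS4 (sec_iff_involves.1 ((sec_iff_involves.2 h).trans (Sec.quotient _))))
      (S := (S : Subgroup G).map (QuotientGroup.mk' (pPrimeCore 2 G)))
      (by simpa [map_top_mk'] using (sylIn_top S).map (QuotientGroup.mk' (pPrimeCore 2 G)))
      (by
        rw [← Subgroup.map_commutator]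
        exact map_le_centralizer_map _ (le_centralizer_iff_commutator.2 hcl))
    rw [← H9.map_thompsonOf_of_disjoint (H9.inf_ker_mk'_pPrimeCore S.isPGroup'),
      H9.normalizer_map_mk'_of_coprime (S.isPGroup'.to_le (H9.thompsonOf_le _ _)) hc] at h1
    have h2 := congrArg (comap (QuotientGroup.mk' (pPrimeCore 2 G))) h1
    rwa [comap_map_eq, QuotientGroup.ker_mk', comap_top] at h2

end Cfsg.Agent.S1932
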