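import Cfsg.Statements.S1935
import Cfsg.Agent.H9.Lyn2
import Cfsg.Agent.H9.EAMod
import Cfsg.Agent.H9.Offender

set_option autoImplicit false
open Cfsg

namespace Cfsg.Agent.S1935

open Subgroup H9 H9.Lyn
open scoped commutatorElement

/-- Let p ≥ 5 be a prime and, inside an ambient finite group, let G be a p-subgroup acting faithfully by conjugation on an elementary abelian p-subgroup V that it normalizes (only the identity of G centralizes V). Suppose V is an F-module for G: some nontrivial elementary abelian subgroup E of G satisfies #E · #C_V(E) ≥ #V. Then G contains such an offender A that moreover acts quadratically on V ([V, A, A] = 1) and is normal in its normal closure in G. -/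
theorem result {Ω : Type*} [Group Ω] [Finite Ω] (p : ℕ) [Fact p.Prime] (hp : 5 ≤ p) (V G : Subgroup Ω) (hV : Cfsg.IsElementaryAbelian p V) (hG : IsPGroup p ↥G) (hGV : G ≤ Subgroup.normalizer (V : Set Ω)) (hfaith : G ⊓ Subgroup.centralizer (V : Set Ω) = ⊥) (hF : ∃ E : Subgroup Ω, E ≤ G ∧ E ≠ ⊥ ∧ Cfsg.IsElementaryAbelian p E ∧ Nat.card ↥V ≤ Nat.card ↥E * Nat.card ↥(V ⊓ Subgroup.centralizer (E : Set Ω))) : ∃ A : Subgroup Ω, A ≤ G ∧ A ≠ ⊥ ∧ Cfsg.IsElementaryAbelian p A ∧ Nat.card ↥V ≤ Nat.card ↥A * Nat.card ↥(V ⊓ Subgroup.centralizer (A : Set Ω)) ∧ ⁅⁅V, A⁆, A⁆ = ⊥ ∧ ∀ g ∈ Subgroup.closure {x : Ω | ∃ h ∈ G, ∃ a ∈ A, x = h * a * h⁻¹}, ∀ a ∈ A, g * a * g⁻¹ ∈ A := by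
  obtain ⟨E, h1, h2, h3, h4⟩ := hF
  obtain ⟨B, ⟨b1, b2⟩, hB⟩ := Set.exists_max_image {B : Subgroup Ω | B ≤ E ∧ B ≠ ⊥}
    (fun B => Nat.card B * Nat.card (V ⊓ centralizer (B : Set Ω) :)) (Set.toFinite _) ⟨E, le_rfl, h2⟩
  have z : Nat.card (⊥ : Subgroup Ω) * Nat.card (V ⊓ centralizer ((⊥ : Subgroup Ω) : Set Ω) :) =
      Nat.card V := by
    rw [card_bot, one_mul, inf_eq_left.2 fun v _ g hg => by rw [mem_bot.1 hg]; simp]
  have b3 : IsBestOffenderOn p V B := ⟨fun C hC => by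
    by_cases e : C = ⊥
    · rw [e, z]; exact h4.trans (hB E ⟨le_rfl, h2⟩)
    · exact hB C ⟨hC.trans b1, e⟩, commutator_le.2 fun a ha b hb => by
      rw [commutatorElement_eq_one_iff_mul_comm.2 (isMulCommutative_iff'.mp h3.1 a (b1 ha) b (b1 hb))]
      exact one_mem _, fun a ha => by rw [h3.2 a (b1 ha)]; exact one_mem _⟩
  obtain ⟨c1, -, c2⟩ := timmesfeld hV ((b1.trans h1).trans hGV) b3 le_rfl
  replace c2 := c2 fun c => b2 (eq_bot_iff.2 (hfaith ▸ le_inf (b1.trans h1)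
    (commutator_eq_bot_iff_le_centralizer.1 (by rwa [commutator_comm]))))
  set A := B ⊓ centralizer ((⁅V, B⁆ : Subgroup Ω) : Set Ω)
  have c3 : A ≤ G := (inf_le_left.trans b1).trans h1
  have hρ : Function.Injective (eaRep hV hGV) := (injective_iff_map_eq_one _).2 fun g hg =>
    Subtype.ext (mem_bot.1 (hfaith ▸ mem_inf.2 ⟨g.2, (eaRep_eq_one_iff g).1 hg⟩))
  have q : ∀ a b : G, (eaRep hV hGV a - 1) * (eaRep hV hGV b - 1) = 0 ↔
      ∀ v ∈ V, (a : Ω) * ⁅(b : Ω), v⁆ = ⁅(b : Ω), v⁆ * a := fun a b => by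
    simp only [LinearMap.ext_iff, ← EAMod.val_injective.eq_iff, Module.End.mul_apply,
      val_eaRep_sub_one, LinearMap.zero_apply, EAMod.val_zero, commutatorElement_eq_one_iff_mul_comm]
    exact ⟨fun h v hv => h (EAMod.mk hV v hv), fun h v => h _ v.val_mem⟩
  have f : ∀ C : Subgroup G, Nat.card (fx (eaRep hV hGV) C) =
      Nat.card (V ⊓ centralizer (C.map G.subtype : Set Ω) :) := fun C => by
    rw [← EAMod.card_ofSubgroup (hV := hV) inf_le_left]
    refine Nat.card_congr (Equiv.subtypeEquivRight fun v => ?_)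
    rw [EAMod.mem_ofSubgroup]
    refine ⟨fun h => mem_inf.2
      ⟨v.val_mem, ?_⟩, fun h a ha => (eaRep_apply_eq_iff a v).2 (h.2 a ⟨a, ha, rfl⟩)⟩
    rintro _ ⟨a, ha, rfl⟩
    exact (eaRep_apply_eq_iff a v).1 (h a ha)
  have A0 : A ≠ ⊥ := fun c => c2 (by simp [c])
  obtain ⟨C, d1, d2, d3, d4⟩ := main (A := A.subgroupOf G) (ρ := eaRep hV hGV) (fun c => by
    have := Nat.le_of_dvd two_pos ((ZMod.natCast_eq_zero_iff 2 p).1 c); omega) hG hρ
    (fun a ha b hb => (q a b).2 fun v hv => (ha.2 _ (by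
      rw [commutator_comm]; exact commutator_mem_commutator hb.1 hv)).symm)
    (by rwa [Ne, subgroupOf_eq_bot, disjoint_iff, inf_eq_left.2 c3])
  rw [f, f, map_subgroupOf_eq_of_le c3] at d3
  rw [Nat.card_congr (subgroupOfEquivOfLe c3).toEquiv, ← card_map_of_injective G.subtype_injective] at d2
  have e : ∀ a ∈ C, ∀ b ∈ C, eaRep hV hGV (a * b) = eaRep hV hGV a + eaRep hV hGV b - 1 :=
    fun a ha b hb => by rw [map_mul, ← sub_eq_zero, ← d1 a ha b hb]; noncomm_ring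
  refine ⟨C.map G.subtype, map_subtype_le _, fun c => A0 ?_, ⟨isMulCommutative_iff'.mpr ?_, ?_⟩,
    (z.ge.trans (c1.1 ⊥ bot_le)).trans (Nat.mul_le_mul d2 d3), ?_, fun g hg a ha => ?_⟩
  · rw [c, card_bot] at d2
    exact card_le_one_iff_eq_bot _ |>.1 d2
  · rintro _ ⟨a, ha, rfl⟩ _ ⟨b, hb, rfl⟩
    exact congrArg Subtype.val (hρ (by rw [e a ha b hb, e b hb a ha, add_comm]) : a * b = b * a)
  · rintro _ ⟨a, ha, rfl⟩
    have : ∀ n : ℕ, eaRep hV hGV (a ^ n) = 1 + (n : ZMod p) • (eaRep hV hGV a - 1) := fun n => by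
      induction n with
      | zero => simp
      | succ n ih => rw [pow_succ, e _ (pow_mem ha n) a ha, ih]; simp only [Nat.cast_succ, add_smul, one_smul]; abel
    exact congrArg Subtype.val (hρ (by rw [this]; simp) : a ^ p = 1)
  · rw [commutator_eq_bot_iff_le_centralizer, commutator_comm, commutator_le]
    rintro _ ⟨b, hb, rfl⟩ v hv _ ⟨a, ha, rfl⟩
    exact (q a b).1 (d1 a ha b hb) v hv
  · refine (mem_normalizer_iff.1 ((closure_le (normalizer _)).2 ?_ hg) a).1 ha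
    rintro _ ⟨h, hh, _, ⟨b, hb, rfl⟩, rfl⟩
    exact le_normalizer_map _ ⟨_, d4 ⟨h, hh⟩ ⟨b, hb, rfl⟩, rfl⟩

end Cfsg.Agent.S1935
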