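import Cfsg.Statements.S1939
import Cfsg.Agent.H3.Control

set_option autoImplicit false
open Cfsg

namespace Cfsg.Agent.S1939

open Cfsg.Agent.H3

/-- Let S be a Sylow p-subgroup of the finite group G and a an element of S that is the only G-conjugate of a lying in S. Then every power of a has the same property: for every n, the only G-conjugate of a^n lying in S is a^n. -/
theorem result {G : Type*} [Group G] [Finite G] {p : ℕ} [Fact p.Prime] (S : Sylow p G) (a : G)
    (haS : a ∈ (S : Subgroup G)) (hwc : ∀ g : G, g * a * g⁻¹ ∈ (S : Subgroup G) → g * a * g⁻¹ = a) (n : ℕ) :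
    ∀ g : G, g * a ^ n * g⁻¹ ∈ (S : Subgroup G) → g * a ^ n * g⁻¹ = a ^ n := by
  intro g hg
  have h1 : Subgroup.zpowers a ≤ S := by simpa using haS
  obtain ⟨m, hm, he⟩ := exists_normalizer_conj_of_weaklyClosed S (Z := Subgroup.zpowers a)
    (Subgroup.zpowers_le.mpr fun s hs => mul_inv_eq_iff_eq_mul.mp
      (hwc s (mul_mem (mul_mem hs haS) (inv_mem hs))))
    ⟨h1, fun x hx => by
      rw [map_conj_eq_smul, conj_zpowers] at hx ⊢
      rw [hwc x (by simpa using hx)]⟩ g
  rw [← he _ (pow_mem haS n) hg, ← conj_pow,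
    hwc m (h1 ((Subgroup.mem_normalizer_iff.mp hm a).mp (Subgroup.mem_zpowers a)))]

end Cfsg.Agent.S1939
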