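import Cfsg.Statements.S1940
import Cfsg.Agent.H1.Basic

set_option autoImplicit false
open Cfsg

namespace Cfsg.Agent.S1940

/-- Let the finite group L act by automorphisms on the finite abelian group M, and let N be an L-invariant subgroup of M such that M/N is a p-group on which L acts trivially (every l • m lies in the coset mN). If every element of M is a product of an element of N and an element fixed by a Sylow p-subgroup T of L, then every element of M is a product of an element of N and an element fixed by all of L. -/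
theorem result {L : Type*} [Group L] [Finite L] {M : Type*} [CommGroup M] [Finite M] [MulDistribMulAction L M]
    {p : ℕ} [Fact p.Prime] (N : Subgroup M) (hN : ∀ (l : L) (m : M), m ∈ N → l • m ∈ N)
    (hquot : IsPGroup p (M ⧸ N)) (htriv : ∀ (l : L) (m : M), (l • m) * m⁻¹ ∈ N) (T : Sylow p L)
    (hT : ∀ m : M, ∃ n ∈ N, ∃ c : M, (∀ t ∈ (T : Subgroup L), t • c = c) ∧ m = n * c) :
    ∀ m : M, ∃ n ∈ N, ∃ c : M, (∀ l : L, l • c = c) ∧ m = n * c := by
  intro m
  have := Fintype.ofFinite (L ⧸ (T : Subgroup L))
  have hcop : (Nat.card (M ⧸ N)).Coprime (T : Subgroup L).index :=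
    H1.coprime_card_of_isPGroup hquot T.not_dvd_index
  obtain ⟨x, hx⟩ := (powCoprime hcop).surjective (m : M ⧸ N)
  obtain ⟨y, rfl⟩ := QuotientGroup.mk_surjective x
  obtain ⟨n, hn, c, hc, rfl⟩ := hT y
  have h1 : ∀ (l : L) (x : L ⧸ (T : Subgroup L)), (l • x).out • c = l • x.out • c := fun l x => by
    obtain ⟨t, ht⟩ := QuotientGroup.mk_out_eq_mul (T : Subgroup L) (l * x.out)
    rw [← smul_eq_mul, ← MulAction.Quotient.smul_mk, QuotientGroup.out_eq', smul_eq_mul] at ht
    rw [ht, mul_smul, hc t t.2, mul_smul]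
  refine ⟨m * (∏ x : L ⧸ (T : Subgroup L), x.out • c)⁻¹, ?_, ∏ x : L ⧸ (T : Subgroup L), x.out • c,
    fun l => ?_, by simp⟩
  · rw [← QuotientGroup.eq_one_iff, QuotientGroup.mk_mul, QuotientGroup.mk_inv, mul_inv_eq_one,
      ← hx, powCoprime_apply, QuotientGroup.mk_mul, (QuotientGroup.eq_one_iff n).mpr hn, one_mul,
      Subgroup.index, Nat.card_eq_fintype_card, ← Finset.card_univ, ← Finset.prod_const,
      QuotientGroup.mk_prod]
    refine Finset.prod_congr rfl fun x _ => ?_
    rw [QuotientGroup.eq, mul_comm]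
    exact htriv _ _
  · rw [Finset.smul_prod', ← Equiv.prod_comp (MulAction.toPerm l) fun x : L ⧸ (T : Subgroup L) => x.out • c]
    exact Finset.prod_congr rfl fun x _ => (h1 l x).symm

end Cfsg.Agent.S1940
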