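import Cfsg.Statements.S1941
import Cfsg.Agent.H1.Cores
import Cfsg.Agent.H10.Comp

set_option autoImplicit false
open Cfsg

namespace Cfsg.Agent.S1941

open Subgroup

/-- Let G be a finite group with no nontrivial normal subgroup of order prime to p, T a Sylow p-subgroup of G and E(G) the layer of G (the subgroup generated by its components). An automorphism of G of p-power order that fixes T and E(G) elementwise is inner. -/
theorem result {G : Type*} [Group G] [Finite G] {p : ℕ} [Fact p.Prime] (hcore : Cfsg.pPrimeCore p G = ⊥)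
    (T : Sylow p G) (α : MulAut G) (hα : ∃ j : ℕ, orderOf α = p ^ j) (hfixT : ∀ x ∈ (T : Subgroup G), α x = x)
    (hfixE : ∀ x ∈ Cfsg.layer G, α x = x) : ∃ g : G, ∀ x : G, α x = g * x * g⁻¹ := by
  classical
  let A := centralizer (generalizedFittingSubgroup G : Set G)
  have hA : A ≤ generalizedFittingSubgroup G := H10.centralizer_fstar_le G
  haveI : IsMulCommutative A := ⟨⟨fun a b => Subtype.ext (b.2 a (hA a.2))⟩⟩
  let _ : CommGroup A := { (inferInstance : Group A) with mul_comm := fun a b => mul_comm' a b }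
  have hF := H1.fittingSubgroup_eq_pCore hcore
  have hp : IsPGroup p A := (H1.isPGroup_pCore p G).to_le (hF ▸ le_sSup ⟨inferInstance, inferInstance⟩)
  have hfix : ∀ x ∈ generalizedFittingSubgroup G, α x = x := fun x hx =>
    (sup_le (fun x hx => hfixE x hx) (fun x hx => hfixT x (H1.pCore_le_sylow T (hF ▸ hx))) :
      layer G ⊔ fittingSubgroup G ≤ α.toMonoidHom.eqLocus (MonoidHom.id G)) hx
  let d : G → A := fun x => ⟨α x * x⁻¹, fun f hf => by
    have := hfix _ (Normal.conj_mem' inferInstance f hf x)
    rw [map_mul, map_mul, hfix f hf, map_inv] at this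
    calc _ = α x * ((α x)⁻¹ * f * α x) * x⁻¹ := by group
      _ = _ := by rw [this]; group⟩
  have hd : ∀ x y, d (x * y) = d x * MulAut.conjNormal x (d y) := fun x y => Subtype.ext (by
    simp [d, mul_assoc])
  have := Fintype.ofFinite (G ⧸ (T : Subgroup G))
  have h1 : ∀ (y : G) (q : G ⧸ (T : Subgroup G)), d (y • q).out = d y * MulAut.conjNormal y (d q.out) :=
    fun y q => by
      have h2 : (y * q.out)⁻¹ * (y • q).out ∈ (T : Subgroup G) := by
        rw [← QuotientGroup.eq, QuotientGroup.out_eq', ← smul_eq_mul, ← MulAction.Quotient.smul_mk,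
          QuotientGroup.out_eq']
      rw [← hd, ← mul_inv_cancel_left (y * q.out) (y • q).out, hd (y * q.out),
        show d ((y * q.out)⁻¹ * (y • q).out) = 1 from Subtype.ext (mul_inv_eq_one.mpr (hfixT _ h2)),
        map_one, mul_one]
  have hc : (Nat.card A).Coprime (T : Subgroup G).index := by
    obtain ⟨k, hk⟩ := hp.exists_card_eq
    exact hk ▸ ((Nat.Prime.coprime_iff_not_dvd Fact.out).mpr T.not_dvd_index).pow_left k
  obtain ⟨b, hb⟩ := (powCoprime hc).surjective (∏ q : G ⧸ (T : Subgroup G), d q.out)
  refine ⟨b, fun y => ?_⟩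
  have h2 : b = d y * MulAut.conjNormal y b := (powCoprime hc).injective (by
    rw [hb, ← Equiv.prod_comp (MulAction.toPerm y), powCoprime_apply, mul_pow, ← map_pow,
      ← powCoprime_apply hc b, hb, map_prod, index, Nat.card_eq_fintype_card, ← Finset.card_univ,
      ← Finset.prod_const, ← Finset.prod_mul_distrib]
    exact Finset.prod_congr rfl fun q _ => h1 y q)
  have h3 : (b : G) = α y * y⁻¹ * (y * b * y⁻¹) := congrArg Subtype.val h2
  calc _ = α y * y⁻¹ * (y * b * y⁻¹) * y * (b : G)⁻¹ := by group
    _ = _ := by rw [← h3]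

end Cfsg.Agent.S1941
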