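import Cfsg.Statements.S1944
import Cfsg.Agent.H21.Base4

set_option autoImplicit false
open Cfsg

namespace Cfsg.Agent.S1944

open Subgroup Cfsg.Agent.H20 Cfsg.Agent.H21

/-- Let S be a Sylow p-subgroup of the finite group G and suppose that the centre Z(S) lies in O_{p',p}(G). The elements of S each of which is its only G-conjugate in S form a subgroup W of Z(S); W is then a direct factor of Z(S): there is a subgroup K of Z(S) with W ∩ K = 1 and WK = Z(S). -/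
theorem result {G : Type*} [Group G] [Finite G] {p : ℕ} [Fact p.Prime] (S : Sylow p G)
    (hZ : ((S : Subgroup G) ⊓ Subgroup.centralizer ((S : Subgroup G) : Set G)) ≤ Cfsg.pPrimePCore p G) :
    ∃ W K : Subgroup G, (∀ x : G, x ∈ W ↔ (x ∈ (S : Subgroup G) ∧ ∀ g : G, g * x * g⁻¹ ∈ (S : Subgroup G) → g * x * g⁻¹ = x)) ∧
      K ≤ ((S : Subgroup G) ⊓ Subgroup.centralizer ((S : Subgroup G) : Set G)) ∧ W ⊓ K = ⊥ ∧ W ⊔ K = ((S : Subgroup G) ⊓ Subgroup.centralizer ((S : Subgroup G) : Set G)) := by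
  classical
  rw [← pPrimePCoreOf_top] at hZ
  have hn := ppcore_normalIn p (⊤ : Subgroup G)
  have hP := (sylowOf_top S).inf_normalIn hn
  have hSH : (S : Subgroup G) ≤ N⟦(S : Subgroup G) ⊓ pPrimePCoreOf p ⊤⟧ :=
    norm_inf le_normalizer (le_top.trans hn.norm)
  have hZP := le_inf inf_le_left hZ
  have hPS : (S : Subgroup G) ⊓ pPrimePCoreOf p ⊤ ≤ S := inf_le_left
  generalize (S : Subgroup G) ⊓ pPrimePCoreOf p ⊤ = P at *
  let A := P ⊓ C⟦P⟧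
  haveI : IsMulCommutative A := ⟨⟨fun a b => Subtype.ext (b.2.2 a a.2.1)⟩⟩
  let _ : CommGroup A := { (inferInstance : Group A) with mul_comm := fun a b => mul_comm' a b }
  let f : N⟦P⟧ →* MulAut A := A.normalizerMonoidHom.comp (inclusion (norm_inf_cent le_rfl le_rfl))
  have hf : ∀ y a, (f y a : G) = y * a * (y : G)⁻¹ := fun _ _ => rfl
  have := Fintype.ofFinite (N⟦P⟧ ⧸ (S : Subgroup G).subgroupOf N⟦P⟧)
  let φ : A →* A := ∏ q : N⟦P⟧ ⧸ (S : Subgroup G).subgroupOf N⟦P⟧, (f q.out).toMonoidHom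
  have hφ : ∀ a, φ a = ∏ q : N⟦P⟧ ⧸ (S : Subgroup G).subgroupOf N⟦P⟧, f q.out a := fun a =>
    MonoidHom.finset_prod_apply _ _ _
  have hc : (Nat.card A).Coprime ((S : Subgroup G).relIndex N⟦P⟧) :=
    (((sylowOf_top S).of_le hSH le_top).coprime).of_dvd_left (card_dvd (inf_le_left.trans hPS))
  have h1 : ∀ a : A, (a : G) ∈ C⟦N⟦P⟧⟧ → φ a = a ^ (S : Subgroup G).relIndex N⟦P⟧ := fun a ha => by
    rw [hφ, relIndex, index, Nat.card_eq_fintype_card, ← Finset.card_univ, ← Finset.prod_const]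
    exact Finset.prod_congr rfl fun q _ => Subtype.ext (by rw [hf, ha _ q.out.2, mul_inv_cancel_right])
  have h2 : ∀ a : A, (a : G) ∈ C⟦(S : Subgroup G)⟧ → (φ a : G) ∈ C⟦N⟦P⟧⟧ := fun a ha y hy => by
    have h3 : f ⟨y, hy⟩ (φ a) = φ a := by
      rw [hφ, map_prod]
      refine Fintype.prod_equiv (MulAction.toPerm (⟨y, hy⟩ : N⟦P⟧)) _ _ fun q => ?_
      have h4 : ((⟨y, hy⟩ : N⟦P⟧) * q.out)⁻¹ * ((⟨y, hy⟩ : N⟦P⟧) • q).out ∈ (S : Subgroup G).subgroupOf N⟦P⟧ := by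
        rw [← QuotientGroup.eq, QuotientGroup.out_eq', ← smul_eq_mul, ← MulAction.Quotient.smul_mk,
          QuotientGroup.out_eq']
      rw [MulAction.toPerm_apply, ← mul_inv_cancel_left (⟨y, hy⟩ * q.out) ((⟨y, hy⟩ : N⟦P⟧) • q).out, map_mul f (_ * _),
        map_mul, MulAut.mul_apply, MulAut.mul_apply]
      congr 2
      exact Subtype.ext (by rw [hf, ha _ (mem_subgroupOf.mp h4), mul_inv_cancel_right])
    exact mul_inv_eq_iff_eq_mul.mp ((hf _ _).symm.trans (congrArg Subtype.val h3))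
  have hW : P ⊓ C⟦N⟦P⟧⟧ ≤ (S : Subgroup G) ⊓ C⟦(S : Subgroup G)⟧ := inf_le_inf hPS (centralizer_le hSH)
  have hA : (S : Subgroup G) ⊓ C⟦(S : Subgroup G)⟧ ≤ A := le_inf hZP (inf_le_right.trans (centralizer_le hPS))
  refine ⟨P ⊓ C⟦N⟦P⟧⟧, φ.ker.map A.subtype ⊓ ((S : Subgroup G) ⊓ C⟦(S : Subgroup G)⟧), fun x => ⟨fun hx => ⟨hPS hx.1, fun g hg => ?_⟩,
    fun ⟨hx, h⟩ => ?_⟩, inf_le_right, eq_bot_iff.mpr ?_, le_antisymm (sup_le hW inf_le_right) fun x hx => ?_⟩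
  · obtain ⟨n, h3, y, hy, rfl⟩ := hP.frattini_mem (hn.norm (mem_top g))
    obtain ⟨k, hk, z, hz, rfl⟩ := (ppcore_compl hP).prod n h3
    have e : k * z * y * x * (k * z * y)⁻¹ = k * x * k⁻¹ := by
      rw [mul_assoc k z, mul_assoc k, hx.2 _ (mul_mem (le_normalizer hz) hy)]; group
    rw [e] at hg ⊢
    refine mul_inv_eq_one.mp (mem_bot.mp (((sylowOf_top S).isPi.inf_eq_bot (isPi_piCoreOf {p}ᶜ ⊤)).le
      (mem_inf.mpr ⟨mul_mem hg (inv_mem (hPS hx.1)), ?_⟩)))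
    rw [mul_assoc, mul_assoc, ← mul_assoc x]
    exact mul_mem hk (conj_mem_of_norm ((piCoreOf_normalIn _ _).norm (mem_top x)) (inv_mem hk))
  · have h3 : x ∈ P := hZP ⟨hx, fun s hs => mul_inv_eq_iff_eq_mul.mp
      (h s (mul_mem (mul_mem hs hx) (inv_mem hs)))⟩
    exact ⟨h3, fun y hy => mul_inv_eq_iff_eq_mul.mp (h y (hPS (conj_mem_of_norm hy h3)))⟩
  · rintro _ ⟨hx, ⟨a, ha, rfl⟩, -⟩
    have h3 := (h1 a hx.2).symm.trans ha
    exact congrArg Subtype.val ((powCoprime hc).injective (h3.trans (one_pow _).symm))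
  · obtain ⟨m, hm⟩ := exists_pow_eq_self_of_coprime (x := (⟨x, hA hx⟩ : A))
      (hc.symm.of_dvd_right (orderOf_dvd_natCard _))
    have h3 := h2 ⟨x, hA hx⟩ hx.2
    have h4 : (φ ⟨x, hA hx⟩ : G) ^ m ∈ P ⊓ C⟦N⟦P⟧⟧ := pow_mem (mem_inf.mpr ⟨(φ _).2.1, h3⟩) m
    rw [← mul_inv_cancel_left ((φ ⟨x, hA hx⟩ : G) ^ m) x]
    refine mul_mem_sup h4 (mem_inf.mpr ⟨⟨(φ ⟨x, hA hx⟩ ^ m)⁻¹ * ⟨x, hA hx⟩, ?_, rfl⟩,
      mul_mem (inv_mem (hW h4)) hx⟩)
    change φ _ = 1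
    rw [map_mul, map_inv, map_pow, h1 _ h3, ← map_pow, ← map_pow, hm, inv_mul_cancel]

end Cfsg.Agent.S1944
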