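import Cfsg.Statements.S1945
import Cfsg.Agent.S1944
import Cfsg.Agent.S2799
import Cfsg.Agent.H9.PCons
import Cfsg.Agent.H9.Thompson
import Cfsg.Agent.H9.PSolv

set_option autoImplicit false
open Cfsg

namespace Cfsg.Agent.S1945

/-- Let S be a Sylow p-subgroup of the finite group G, and assume that p is odd or that G is solvable. The elements of S each of which is its only G-conjugate in S form a subgroup W of Z(S); W is then a direct factor of Z(S): there is a subgroup K of Z(S) with W ∩ K = 1 and WK = Z(S). (For p = 2 and G not solvable this can fail.) -/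
theorem result {G : Type*} [Group G] [Finite G] {p : ℕ} [Fact p.Prime] (S : Sylow p G) (h : p ≠ 2 ∨ Group.IsSolvable G) :
    ∃ W K : Subgroup G, (∀ x : G, x ∈ W ↔ (x ∈ (S : Subgroup G) ∧ ∀ g : G, g * x * g⁻¹ ∈ (S : Subgroup G) → g * x * g⁻¹ = x)) ∧
      K ≤ ((S : Subgroup G) ⊓ Subgroup.centralizer ((S : Subgroup G) : Set G)) ∧ W ⊓ K = ⊥ ∧ W ⊔ K = ((S : Subgroup G) ⊓ Subgroup.centralizer ((S : Subgroup G) : Set G)) := by
  rcases h with hp | hs
  swap
  · refine S1944.result S fun z hz => ?_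
    have hc := H9.isPConstrained_iff.1 (H9.isPConstrained_of_isPSolvable
      (H9.isPSolvable_of_isSolvable (p := p) hs))
    refine hc fun q hq => ?_
    have h1 : Cfsg.pCore p (G ⧸ Cfsg.pPrimeCore p G) ≤
        (S.mapSurjective (QuotientGroup.mk'_surjective (Cfsg.pPrimeCore p G)) : Subgroup _) :=
      sSup_le fun N hN => by
        haveI := hN.1
        exact hN.2.le_sylow_of_normal _
    obtain ⟨s, hs, rfl⟩ := h1 hq
    rw [← map_mul, ← map_mul, hz.2 s hs]
  have hJ : ∀ z ∈ (S : Subgroup G), (∀ s ∈ (S : Subgroup G), s * z = z * s) →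
      z ∈ Cfsg.thompsonSubgroupAOf (S : Subgroup G) := fun z hz hc => by
    obtain ⟨A, hA⟩ := H9.exists_maxEA 0 (S : Subgroup G)
    rw [H9.thompsonSubgroupAOf_eq]
    exact H9.le_thompsonOf hA (H9.mem_of_mem_maxEA_of_centralizes hA hz (pow_zero z)
      fun a ha => hc a (hA.1 ha))
  have hJS : Cfsg.thompsonSubgroupAOf (S : Subgroup G) ≤ S := Subgroup.map_subtype_le _
  have hle : (S : Subgroup G) ≤
      Subgroup.normalizer ((Cfsg.thompsonSubgroupAOf (S : Subgroup G) : Subgroup G) : Set G) := by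
    rw [H9.thompsonSubgroupAOf_eq]
    exact Subgroup.le_normalizer.trans (H9.normalizer_le_normalizer_thompsonOf 0 _)
  have h2 := fun x hx hz => S2799.result S x hx hz (Or.inl hp)
  generalize Cfsg.thompsonSubgroupAOf (S : Subgroup G) = J at *
  have hZ : ((S.subtype hle : Subgroup (Subgroup.normalizer (J : Set G))) ⊓ Subgroup.centralizer
      ((S.subtype hle : Subgroup (Subgroup.normalizer (J : Set G))) :
        Set (Subgroup.normalizer (J : Set G)))).map (Subgroup.normalizer (J : Set G)).subtype =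
      (S : Subgroup G) ⊓ Subgroup.centralizer ((S : Subgroup G) : Set G) := by
    refine le_antisymm ?_ fun z hz => ⟨⟨z, hle hz.1⟩, ⟨hz.1, fun s hs => Subtype.ext (hz.2 s hs)⟩, rfl⟩
    rintro _ ⟨z, hz, rfl⟩
    exact ⟨hz.1, fun s hs => congrArg Subtype.val (hz.2 ⟨s, hle hs⟩ hs)⟩
  obtain ⟨W, K, a1, a2, a3, a4⟩ := S1944.result (S.subtype hle) fun z hz => by
    have h3 := hZ.le ⟨z, hz, rfl⟩
    refine (le_sSup (s := {N : Subgroup _ | N.Normal ∧ IsPGroup p N})
      (a := (J.subgroupOf (Subgroup.normalizer (J : Set G))).map (QuotientGroup.mk' _))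
      ⟨Subgroup.Normal.map Subgroup.normal_in_normalizer _ (QuotientGroup.mk'_surjective _),
        ((S.2.to_le hJS).comap_subtype).map _⟩) ⟨z, hJ _ h3.1 h3.2, rfl⟩
  refine ⟨W.map (Subgroup.normalizer (J : Set G)).subtype,
    K.map (Subgroup.normalizer (J : Set G)).subtype, fun x => ⟨?_, fun hx => ?_⟩,
    hZ ▸ Subgroup.map_mono a2, ?_, ?_⟩
  · rintro ⟨y, hy, rfl⟩
    obtain ⟨b1, b2⟩ := (a1 y).1 hy
    have b3 : (y : G) ∈ J := hJ _ b1 fun s hs => mul_inv_eq_iff_eq_mul.1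
      (congrArg Subtype.val (b2 ⟨s, hle hs⟩ (mul_mem (mul_mem hs b1) (inv_mem hs) :
        s * (y : G) * s⁻¹ ∈ (S : Subgroup G))))
    refine ⟨b1, h2 _ b1 ⟨y, Subgroup.mem_center_iff.2 fun n => mul_inv_eq_iff_eq_mul.1 (b2 n ?_), rfl⟩⟩
    exact hJS ((Subgroup.mem_normalizer_iff.1 n.2 _).1 b3)
  · exact ⟨⟨x, hle hx.1⟩, (a1 _).2 ⟨hx.1, fun g hg => Subtype.ext (hx.2 g hg)⟩, rfl⟩
  · rw [← Subgroup.map_inf _ _ _ (Subgroup.subtype_injective _), a3, Subgroup.map_bot]
  · rw [← Subgroup.map_sup, a4, hZ]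

end Cfsg.Agent.S1945
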