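import Cfsg.Statements.S1946
import Cfsg.Agent.H3.Action
import Mathlib.GroupTheory.Nilpotent

set_option autoImplicit false
open Cfsg

namespace Cfsg.Agent.S1946

open Cfsg.Agent.H3

open scoped commutatorElement

/-- Let P be a Sylow p-subgroup of the finite group G. Then G has a normal p-complement if and only if P controls the fusion of its elements of order dividing p (dividing 4 when p = 2): whenever such an element a of P has a G-conjugate g a g⁻¹ in P, that conjugate is already x a x⁻¹ for some x in P. -/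
theorem result {G : Type*} [Group G] [Finite G] {p : ℕ} [Fact p.Prime] (P : Sylow p G) :
    Cfsg.HasNormalPComplement p G ↔
      ∀ a ∈ (P : Subgroup G), (a ^ p = 1 ∨ (p = 2 ∧ a ^ 4 = 1)) → ∀ g : G, g * a * g⁻¹ ∈ (P : Subgroup G) →
        ∃ x ∈ (P : Subgroup G), g * a * g⁻¹ = x * a * x⁻¹ := by
  refine ⟨fun h a ha _ g hg => ?_, fun h => ?_⟩
  · obtain ⟨y, hy, he⟩ := (hasNormalPComplement_iff_fusion P).mp h a ha g hg
    exact ⟨y, hy, he.symm⟩
  by_contra hne
  obtain ⟨B, A, q, hB, -, -, -, -, -, hm⟩ := exists_minAct_of_not P hne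
  obtain ⟨n, hn⟩ := P.2.isNilpotent.nilpotent
  refine hm.not_chain (fun i => (Subgroup.upperCentralSeries P i).map (P : Subgroup G).subtype) n
    (by simp) ?_ fun i b hb a ha => ?_
  · rw [hn, ← MonoidHom.range_eq_map, Subgroup.range_subtype]
    exact hB
  · obtain ⟨hb1, c, hc, rfl⟩ := hb
    obtain ⟨x, hx, he⟩ := h _ (hB (inv_mem hb1)) (hm.pow_eq_one_or (inv_mem hb1)) a
      (hB (H1.conj_mem_of_le_normalizer hm.le_normalizer ha (inv_mem hb1)))
    refine ⟨_, Subgroup.mem_upperCentralSeries_succ_iff.mp hc ⟨x, hx⟩, ?_⟩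
    rw [map_commutatorElement, commutatorElement_def, commutatorElement_def]
    simp only [mul_assoc] at he ⊢
    rw [he]
    rfl

end Cfsg.Agent.S1946
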