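import Cfsg.Statements.S1947
import Cfsg.Agent.H3.Action
import Mathlib.GroupTheory.Nilpotent

set_option autoImplicit false
open Cfsg

namespace Cfsg.Agent.S1947

open Cfsg.Agent.H3

/-- Let G be a finite group and p a prime. If every element of G of order dividing p (dividing 4 when p = 2) lies in some fixed term Z_n(G) of the upper central series, then G has a normal p-complement. -/
theorem result {G : Type*} [Group G] [Finite G] {p : ℕ} [Fact p.Prime] (n : ℕ)
    (h : ∀ a : G, (a ^ p = 1 ∨ (p = 2 ∧ a ^ 4 = 1)) → a ∈ Subgroup.upperCentralSeries G n) : Cfsg.HasNormalPComplement p G := by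
  obtain ⟨P⟩ : Nonempty (Sylow p G) := inferInstance
  by_contra hne
  obtain ⟨B, A, q, hB, -, -, -, -, -, hm⟩ := exists_minAct_of_not P hne
  exact hm.not_chain (Subgroup.upperCentralSeries G) n (by simp)
    (fun b hb => h b (hm.pow_eq_one_or hb))
    fun i b hb a _ => Subgroup.mem_upperCentralSeries_succ_iff.mp hb.2 a

end Cfsg.Agent.S1947
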