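import Cfsg.Statements.S1948
import Cfsg.Agent.H1.Coprime
import Cfsg.Agent.H9.PCons
import Cfsg.Agent.H11.Syl

set_option autoImplicit false
open Cfsg

namespace Cfsg.Agent.S1948

/-- Let S be a Sylow p-subgroup of the finite group G. Then G = N_G(S)·O_{p'}(G) if and only if G is p-constrained and N_G(S) controls fusion in S, in the sense that whenever a subgroup Q of S has a conjugate g Q g⁻¹ inside S, the element g is a product n c with n normalizing S and c centralizing Q. -/
theorem result {G : Type*} [Group G] [Finite G] {p : ℕ} [Fact p.Prime] (S : Sylow p G) :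
    Subgroup.normalizer ((S : Subgroup G) : Set G) ⊔ Cfsg.pPrimeCore p G = ⊤ ↔
      (Cfsg.IsPConstrained p G ∧
        ∀ Q : Subgroup G, Q ≤ (S : Subgroup G) → ∀ g : G, Q.map (MulAut.conj g).toMonoidHom ≤ (S : Subgroup G) →
          ∃ n ∈ Subgroup.normalizer ((S : Subgroup G) : Set G), ∃ c ∈ Subgroup.centralizer (Q : Set G), g = n * c) := by
  open Subgroup in
  have hD := H1.not_dvd_card_pPrimeCore p G
  have : (pPrimePCore p G).Normal := Normal.comap inferInstance _
  constructor
  · intro h
    have h1 : ∀ g : G, ∃ n ∈ normalizer ((S : Subgroup G) : Set G), ∃ d ∈ pPrimeCore p G,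
        n * d = g := fun g =>
      (H1.mem_sup_of_le_normalizer_right le_normalizer_of_normal).mp (h.ge (mem_top g))
    constructor
    · have hn : ((S : Subgroup G).map (QuotientGroup.mk' (pPrimeCore p G))).Normal := by
        rw [← normalizer_eq_top_iff, eq_top_iff, ← map_top_of_surjective _
          (QuotientGroup.mk'_surjective (pPrimeCore p G)), ← h, Subgroup.map_sup,
          (Subgroup.map_eq_bot_iff _).mpr (QuotientGroup.ker_mk' _).ge, sup_bot_eq]
        exact le_normalizer_map _
      refine H9.isPConstrained_of_isPSolvable (H9.isPSolvable_of_normal_of_quotient (pPrimeCore p G)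
        (H9.isPSolvable_of_coprime (H1.coprime_card_pPrimeCore p G))
        (H9.isPSolvable_of_normal_of_quotient _ (H9.isPSolvable_of_isPGroup (S.isPGroup'.map
          (QuotientGroup.mk' (pPrimeCore p G)))) (H9.isPSolvable_of_coprime ?_)))
      exact ((Nat.Prime.coprime_iff_not_dvd Fact.out).mpr fun h2 => S.not_dvd_index
        (h2.trans (index_map_dvd _ (QuotientGroup.mk'_surjective _)))).symm
    · intro Q hQ g hg
      obtain ⟨n, hn, d, hd, rfl⟩ := h1 g
      refine ⟨n, hn, d, mem_centralizer_iff.mpr fun x hx => ?_, rfl⟩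
      have h2 : d * x * d⁻¹ * x⁻¹ ∈ (S : Subgroup G) ⊓ pPrimeCore p G := by
        refine mem_inf.mpr ⟨mul_mem ?_ (inv_mem (hQ hx)), ?_⟩
        · convert H11.conj_mem_of_mem_normalizer' hn (hg (H11.conj_mem_map_conj _ hx)) using 1
          group
        · convert mul_mem hd (Normal.conj_mem inferInstance _ (inv_mem hd) x) using 1
          group
      rw [H1.inf_pPrimeCore_eq_bot S.isPGroup', mem_bot, mul_inv_eq_one, mul_inv_eq_iff_eq_mul] at h2
      exact h2.symm
  · rintro ⟨h1, h2⟩
    set T : Subgroup G := (S : Subgroup G) ⊓ pPrimePCore p G with hT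
    have hS : H1.IsSylowIn p T (pPrimePCore p G) :=
      (H1.isSylowIn_top S).inf le_top le_normalizer_of_normal
    have hS' : H3.SylowIn p T (pPrimePCore p G) := ⟨hS.le, hS.isPGroup, hS.not_dvd⟩
    have h3 := H9.pPrimeCore_sup_normalizer_eq_top hS.isPGroup (by
      rw [H9.map_eq_pCore_of_sylowIn hS']
      infer_instance)
    have h4 := (H9.centralizer_le_pPrimePCore_iff hS').mpr (H9.isPConstrained_iff.mp h1)
    have h5 : pPrimePCore p G ≤ T ⊔ pPrimeCore p G := by
      rw [← QuotientGroup.ker_mk' (pPrimeCore p G), ← comap_map_eq, H9.map_eq_pCore_of_sylowIn hS']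
      exact le_rfl
    rw [eq_top_iff, ← h3]
    refine sup_le le_sup_right fun g hg => ?_
    obtain ⟨n, hn, c, hc, rfl⟩ := h2 T inf_le_left g ((H11.cj_eq_iff.mpr hg).le.trans inf_le_left)
    exact mul_mem (mem_sup_left hn)
      (sup_le_sup_right (inf_le_left.trans le_normalizer) _ (h5 (h4 hc)))

end Cfsg.Agent.S1948
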