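import Cfsg.Statements.S1949
import Mathlib
import Cfsg.Agent.H3.Action

set_option autoImplicit false
open Cfsg

namespace Cfsg.Agent.S1949

open Subgroup
open scoped commutatorElement

theorem stab {P : Type*} [Group P] {p : ℕ} (hP : IsPGroup p P) {β : MulAut P}
    (hβ : (orderOf β).Coprime p) {x : P} (h : β (x⁻¹ * β x) = x⁻¹ * β x) : β x = x := by
  have key : ∀ k : ℕ, (β ^ k) x = x * (x⁻¹ * β x) ^ k := fun k => by
    induction k with
    | zero => simp
    | succ k ih => rw [pow_succ', MulAut.mul_apply, ih, map_mul, map_pow, h, pow_succ', ← mul_assoc, mul_inv_cancel_left]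
  have h1 := key (orderOf β)
  rw [pow_orderOf_eq_one, MulAut.one_apply, left_eq_mul] at h1
  obtain ⟨j, hj⟩ := hP (x⁻¹ * β x)
  have := Nat.dvd_gcd (orderOf_dvd_of_pow_eq_one h1) (orderOf_dvd_of_pow_eq_one hj)
  rw [hβ.pow_right j, Nat.dvd_one, orderOf_eq_one_iff, inv_mul_eq_one] at this
  exact this.symm

theorem stab' {P : Type*} [Group P] {p : ℕ} (hP : IsPGroup p P) {β : MulAut P}
    (hβ : (orderOf β).Coprime p) {A : Subgroup P} (hA : ∀ a ∈ A, β a = a) {x : P}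
    (hx : ∀ a ∈ A, x * a * x⁻¹ ∈ A) (h : x⁻¹ * β x ∈ centralizer (A : Set P) → x⁻¹ * β x ∈ A) :
    β x = x := stab hP hβ (hA _ (h fun a ha => by
  have := hA _ (hx a ha)
  rw [map_mul, map_mul, map_inv, hA a ha] at this
  calc _ = x⁻¹ * (x * a * x⁻¹) * β x := by group
    _ = _ := by rw [← this]; group))

/-- Let P be a finite p-group and G a group of automorphisms of P containing the inner automorphisms. Then there is a G-invariant subgroup D of P, contained in the subgroup generated by the elements x⁻¹α(x) with x in P and α in O^p(G), of exponent dividing p when p is odd and dividing 4 when p = 2, with [D, P] ≤ Z(D), such that every automorphism in G of order prime to p that fixes D elementwise is the identity; moreover every maximal abelian subgroup A of D is normal in P and every automorphism in G fixing A elementwise has p-power order. -/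
theorem result {P : Type*} [Group P] [Finite P] {p : ℕ} [Fact p.Prime] (hP : IsPGroup p P)
    (G : Subgroup (MulAut P)) (hG : Cfsg.Inn P ≤ G) :
    ∃ D : Subgroup P,
      (∀ α ∈ G, D.map α.toMonoidHom = D) ∧
      D ≤ Subgroup.closure {y : P | ∃ α ∈ Cfsg.pResidual p ↥G, ∃ x : P, y = x⁻¹ * (α : MulAut P) x} ∧
      (∀ d ∈ D, d ^ p = 1 ∨ (p = 2 ∧ d ^ 4 = 1)) ∧
      ⁅D, (⊤ : Subgroup P)⁆ ≤ D ⊓ Subgroup.centralizer (D : Set P) ∧
      (∀ α ∈ G, (orderOf α).Coprime p → (∀ d ∈ D, α d = d) → α = 1) ∧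
      ∀ A : Subgroup P, A ≤ D → IsMulCommutative ↥A →
        (∀ B : Subgroup P, A ≤ B → B ≤ D → IsMulCommutative ↥B → B = A) →
        A.Normal ∧ ∀ α ∈ G, (∀ a ∈ A, α a = a) → ∃ k : ℕ, orderOf α = p ^ k := by
  have hp : p.Prime := Fact.out
  let Inv : Subgroup P → Prop := fun D => ∀ α ∈ G, ∀ d ∈ D, α d ∈ D
  have nor : ∀ D, Inv D → D.Normal := fun D h => ⟨fun a ha g => h (MulAut.conj g) (hG ⟨g, rfl⟩) a ha⟩
  have cen : ∀ D, Inv D → Inv (centralizer (D : Set P)) := fun D h α hα d hd a ha => by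
    simpa using congrArg α (hd _ (h _ (inv_mem hα) a ha))
  set Q := closure {y : P | ∃ α ∈ Cfsg.pResidual p ↥G, ∃ x : P, y = x⁻¹ * (α : MulAut P) x}
  have hQ : Inv Q := fun γ hγ d hd => by
    refine (show Q ≤ Q.comap γ.toMonoidHom from (closure_le _).2 ?_) hd
    rintro _ ⟨α, hα, x, rfl⟩
    exact subset_closure ⟨_, Normal.conj_mem inferInstance α hα ⟨γ, hγ⟩, γ x, by simp⟩
  obtain ⟨A, ⟨a1, a2, a3⟩, hmax⟩ := (Set.toFinite {A : Subgroup P | A ≤ Q ∧ Inv A ∧
    ∀ a ∈ A, ∀ b ∈ A, a * b = b * a}).exists_maximal ⟨⊥, bot_le, by simp [Inv], by simp⟩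
  haveI := nor A a2
  let C : Subgroup P :=
    { carrier := {x | x ∈ Q ∧ x ∈ centralizer (A : Set P) ∧ x ^ p ∈ A ∧ ∀ g, ⁅g, x⁆ ∈ A}
      one_mem' := ⟨one_mem _, one_mem _, by simp, by simp⟩
      mul_mem' := fun {a b} ha hb => ⟨mul_mem ha.1 hb.1, mul_mem ha.2.1 hb.2.1, by
        rw [H9.mul_pow_of_commutator_commute (hb.2.1 _ (ha.2.2.2 b)) (ha.2.1 _ (ha.2.2.2 b))]
        exact mul_mem (mul_mem ha.2.2.1 hb.2.2.1) (pow_mem (ha.2.2.2 b) _), fun g => by
        convert mul_mem (ha.2.2.2 g) (Normal.conj_mem inferInstance _ (hb.2.2.2 g) a) using 1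
        simp only [commutatorElement_def]; group⟩
      inv_mem' := fun {a} ha => ⟨inv_mem ha.1, inv_mem ha.2.1, by
        rw [inv_pow]; exact inv_mem ha.2.2.1, fun g => by
        convert Normal.conj_mem inferInstance _ (inv_mem (ha.2.2.2 g)) a⁻¹ using 1
        simp only [commutatorElement_def]; group⟩ }
  have hC : Inv C := fun α hα d hd => ⟨hQ α hα d hd.1, cen A a2 α hα d hd.2.1,
    map_pow α d p ▸ a2 α hα _ hd.2.2.1, fun g => by
      simpa [map_commutatorElement] using a2 α hα _ (hd.2.2.2 (α⁻¹ g))⟩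
  have hAC : A ≤ C := fun a ha => ⟨a1 ha, fun b hb => a3 b hb a ha, pow_mem ha _, fun g =>
    mul_mem (Normal.conj_mem inferInstance _ ha g) (inv_mem ha)⟩
  have hE : Q ⊓ centralizer (C : Set P) ≤ A := by
    by_contra h
    haveI := nor _ hQ
    haveI := nor _ hC
    obtain ⟨z, h1, h2, h3, h4⟩ := H3.exists_central_mod hP h
    refine h2 (hmax (y := C ⊓ centralizer (C : Set P)) ⟨fun x hx => hx.1.1, fun α hα d hd =>
      ⟨hC α hα d hd.1, cen C hC α hα d hd.2⟩, fun a ha b hb => hb.2 a ha.1⟩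
      (fun a ha => ⟨hAC ha, fun c hc => (hc.2.1 a ha).symm⟩)
      ⟨⟨h1.1, fun a ha => h1.2 a (hAC ha), h3, h4⟩, h1.2⟩)
  have cp : ∀ x ∈ C, ∀ y ∈ C, ⁅y, x⁆ ^ p = 1 := fun x hx y hy => by
    rw [← H9.commutatorElement_pow_left_of_commute (hy.2.1 _ (hx.2.2.2 y)),
      commutatorElement_eq_one_iff_mul_comm]
    exact hx.2.1 _ hy.2.2.1
  have mp := fun x (hx : x ∈ C) y (hy : y ∈ C) =>
    H9.mul_pow_of_commutator_commute (hy.2.1 _ (hx.2.2.2 y)) (hx.2.1 _ (hx.2.2.2 y))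
  obtain ⟨q, ⟨k, q1⟩, q2, q3⟩ : ∃ q : ℕ, p ∣ q.choose 2 ∧ (q = p ∨ p = 2 ∧ q = 4) ∧
      ∀ u a : P, a ^ p = 1 → u ^ p * a ^ p.choose 2 = 1 → u ^ q = 1 := by
    by_cases h : p = 2
    · subst h
      refine ⟨2 * 2, by decide, .inr ⟨rfl, rfl⟩, fun u a h1 h2 => ?_⟩
      rw [pow_mul, eq_inv_of_mul_eq_one_left h2, inv_pow, Nat.choose_self, pow_one, h1, inv_one]
    · obtain ⟨k, hk⟩ := hp.dvd_choose_self two_ne_zero (lt_of_le_of_ne hp.two_le (Ne.symm h))
      exact ⟨p, ⟨k, hk⟩, .inl rfl, fun u a h1 h2 => by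
        rwa [hk, pow_mul, h1, one_pow, mul_one] at h2⟩
  let D : Subgroup P :=
    { carrier := {x | x ∈ C ∧ x ^ q = 1}
      one_mem' := ⟨one_mem _, one_pow _⟩
      mul_mem' := fun {a b} ha hb => ⟨mul_mem ha.1 hb.1, by
        rw [mp a ha.1 b hb.1, ha.2, hb.2, q1, pow_mul, cp a ha.1 b hb.1]; simp⟩
      inv_mem' := fun {a} ha => ⟨inv_mem ha.1, by rw [inv_pow, ha.2, inv_one]⟩ }
  have hD : Inv D := fun α hα d hd => ⟨hC α hα d hd.1, by rw [← map_pow, hd.2, map_one]⟩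
  haveI := nor D hD
  have hDZ : ∀ g, ∀ d ∈ D, ⁅g, d⁆ ∈ D ⊓ centralizer (D : Set P) := fun g d hd =>
    ⟨D.mul_mem (Normal.conj_mem inferInstance _ hd g) (D.inv_mem hd), fun e he =>
      (he.1.2.1 _ (hd.1.2.2.2 g)).symm⟩
  have det : ∀ α ∈ G, (orderOf α).Coprime p → (∀ d ∈ D, α d = d) → α = 1 := fun β hβ h1 h2 => by
    have f1 : ∀ j, ∀ x ∈ C, x ^ p ^ j = 1 → β x = x := fun j => by
      induction j with
      | zero => intro x _ h; rw [show x = 1 by simpa using h, map_one]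
      | succ j ih =>
        intro x hx h
        have hu := mul_mem (inv_mem hx) (hC β hβ x hx)
        have e := mp x hx _ hu p
        rw [mul_inv_cancel_left, ← map_pow, ih _ (pow_mem hx p) (by rw [← pow_mul, ← pow_succ', h]),
          mul_assoc, left_eq_mul] at e
        exact stab hP h1 (h2 _ ⟨hu, q3 _ _ (cp x hx _ hu) e⟩)
    have f2 : ∀ x ∈ Q, β x = x := fun x hx => stab' hP h1 (A := C)
      (fun c hc => (hP c).elim fun j => f1 j c hc) (fun c hc => (nor C hC).conj_mem c hc x)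
      fun h => hAC (hE ⟨Q.mul_mem (Q.inv_mem hx) (hQ β hβ x hx), h⟩)
    ext x
    exact stab hP h1 (f2 _ (subset_closure ⟨⟨β, hβ⟩, H3.mem_pResidual_of_coprime
      (by rwa [orderOf_mk]), x, rfl⟩))
  refine ⟨D, fun α hα => le_antisymm (map_le_iff_le_comap.2 (hD α hα)) fun d hd =>
    ⟨α⁻¹ d, hD _ (G.inv_mem hα) d hd, by simp⟩, fun d hd => hd.1.1, fun d hd => ?_, ?_, det,
    fun B hBD hB hm => ?_⟩
  · rcases q2 with rfl | ⟨h, rfl⟩
    exacts [.inl hd.2, .inr ⟨h, hd.2⟩]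
  · rw [commutator_comm]
    exact commutator_le.2 fun g _ d hd => hDZ g d hd
  have hc : ∀ z ∈ D, z ∈ centralizer (B : Set P) → z ∈ B := fun z hz h =>
    (hm _ le_sup_left (sup_le hBD (zpowers_le.2 hz)) (H3.isMulCommutative_sup_zpowers hB h)).le
      (mem_sup_right (mem_zpowers z))
  have hn : B.Normal := H3.normal_of_forall_commutator_mem le_rfl fun g x hx =>
    hc _ (hDZ g x (hBD hx)).1 fun b hb => (hDZ g x (hBD hx)).2 b (hBD hb)
  refine ⟨hn, fun α hα h => ?_⟩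
  obtain ⟨j, m, hm, e⟩ := Nat.exists_eq_pow_mul_and_not_dvd (orderOf_pos α).ne' p hp.ne_one
  have hβ : (orderOf (α ^ p ^ j)).Coprime p := by
    rw [orderOf_pow, e, Nat.gcd_mul_right_left, Nat.mul_div_cancel_left _ (pow_pos hp.pos j)]
    exact ((Nat.Prime.coprime_iff_not_dvd hp).2 hm).symm
  have hf : ∀ n : ℕ, ∀ b ∈ B, (α ^ n) b = b := fun n b hb => by
    induction n with
    | zero => rfl
    | succ n ih => rw [pow_succ', MulAut.mul_apply, ih, h b hb]
  have := det _ (pow_mem hα _) hβ fun d hd => stab' hP hβ (hf _) (fun b hb => hn.conj_mem b hb d)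
    (hc _ (mul_mem (inv_mem hd) (hD _ (pow_mem hα _) d hd)))
  obtain ⟨i, -, hi⟩ := (Nat.dvd_prime_pow hp).1 (orderOf_dvd_of_pow_eq_one this)
  exact ⟨i, hi⟩

end Cfsg.Agent.S1949
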