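import Cfsg.Statements.S1950
import Cfsg.Agent.H7.PairGen2
-- import your own Cfsg.Agent.* helpers here

set_option autoImplicit false
open Cfsg

namespace Cfsg.Agent.S1950

open Cfsg.Agent.H4 Cfsg.Agent.H7 Subgroup

theorem zmod_two : ∀ c : ZMod 2, c ≠ 1 → c = 0 := by decide

universe u in
theorem aux {p : ℕ} [hp : Fact p.Prime] (n : ℕ) : ∀ (G : Type u) [Group G] [Finite G],
    Nat.card G = n → (∀ S : Sylow p G, IsCyclic (S : Subgroup G)) →
    (∀ x y : G, orderOf x = p → orderOf y = p → IsPSolvable p (closure ({x, y} : Set G))) →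
    IsPSolvable p G := by
  induction n using Nat.strong_induction_on with
  | _ n ih =>
  intro G _ _ hn hc hpair
  obtain ⟨P⟩ : Nonempty (Sylow p G) := inferInstance
  haveI := hc P
  have hcyc : ∀ (L : Type u) [Group L], IsPGroup p L → ∀ f : L →* G, Function.Injective f →
      IsCyclic L := fun L _ hL f hf => by
    obtain ⟨φ, hφ⟩ := exists_injective_sylow P hL f hf
    exact isCyclic_of_injective φ hφ
  have hsub : ∀ (K : Subgroup G) (S : Sylow p K), IsCyclic (S : Subgroup K) := fun K S =>
    hcyc _ S.2 ((Subgroup.subtype _).comp (Subgroup.subtype _))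
      ((subtype_injective _).comp (subtype_injective _))
  by_cases hO : pPrimeCore p G = ⊥
  swap
  · have hOc := H1.coprime_card_pPrimeCore p G
    refine H9.isPSolvable_of_normal_of_quotient (pPrimeCore p G) (H9.isPSolvable_of_coprime hOc)
      (ih _ (hn ▸ H1.card_quotient_lt hO) _ rfl (fun S => ?_) fun x y hx hy => ?_)
    · obtain ⟨T, rfl⟩ := Sylow.mapSurjective_surjective (QuotientGroup.mk'_surjective _) p S
      haveI := hc T
      exact isCyclic_of_surjective _ (MonoidHom.subgroupMap_surjective _ (T : Subgroup G))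
    · have key : ∀ x : G ⧸ pPrimeCore p G, orderOf x = p → ∃ z : G, orderOf z = p ∧ z = x :=
        fun x hx => by
          obtain ⟨x, rfl⟩ := QuotientGroup.mk_surjective x
          obtain ⟨z, hz⟩ := H6.exists_isPPart hp.out x
          have h1 : (z : G ⧸ pPrimeCore p G) = x := H6.IsPPart.unique hp.out
            (H6.IsPPart.map hp.out hz (QuotientGroup.mk' _))
            (H6.isPPart_self hp.out ⟨1, by rw [pow_one]; exact hx⟩)
          refine ⟨z, orderOf_eq_prime (eq_one_of_mem_of_coprime hOc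
            (H6.exists_orderOf_eq_of_mem hp.out (H6.isPGroup_zpowers hp.out
              (H6.IsPPart.pow_order hz)) (pow_mem (mem_zpowers z) p)) ?_) fun e => ?_, h1⟩
          · rw [← QuotientGroup.eq_one_iff, QuotientGroup.mk_pow, h1]
            exact orderOf_dvd_iff_pow_eq_one.1 hx.dvd
          · rw [← h1, e, QuotientGroup.mk_one, orderOf_one] at hx
            exact hp.out.one_lt.ne hx
      obtain ⟨x, hx', rfl⟩ := key x hx
      obtain ⟨y, hy', rfl⟩ := key y hy
      have := H9.isPSolvable_map (QuotientGroup.mk' (pPrimeCore p G)) (hpair x y hx' hy')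
      rwa [MonoidHom.map_closure, Set.image_pair] at this
  have hC : ∀ x : G, orderOf x = p → HasNormalPComplement p (centralizer ({x} : Set G)) :=
    fun x hx => by
      let x' : centralizer ({x} : Set G) := ⟨x, mem_centralizer_singleton_iff.2 rfl⟩
      have hx' : orderOf x' = p := by rw [← orderOf_coe]; exact hx
      obtain ⟨S, hS⟩ := (H6.isPGroup_zpowers hp.out ⟨1, by rw [hx', pow_one]⟩).exists_le_sylow
      haveI := hsub _ S
      exact hasNormalPComplement_of_isCyclic S (hS (mem_zpowers x')) hx' fun g _ => Subtype.ext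
        (mul_inv_eq_iff_eq_mul.2 (mem_centralizer_singleton_iff.1 g.2))
  have hpow : ∀ Q : Subgroup G, IsPGroup p Q → ∀ x ∈ Q, orderOf x = p → ∀ g : G,
      g * x * g⁻¹ ∈ Q → ∃ k : ℕ, g * x * g⁻¹ = x ^ k := fun Q hQ x hx ox g hg => by
    haveI := hcyc Q hQ _ (subtype_injective Q)
    obtain ⟨k, hk⟩ := exists_pow_eq_of_isCyclic (p := p) (a := (⟨x, hx⟩ : Q)) (b := ⟨_, hg⟩)
      (by rw [← orderOf_coe]; exact ox) (Subtype.ext (by
        rw [coe_pow, conj_pow, ← ox, pow_orderOf_eq_one]; simp))
    exact ⟨k, (congrArg Subtype.val hk).symm⟩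
  have hord : ∀ Q : Subgroup G, IsPGroup p Q → Q ≠ ⊥ → ∃ x ∈ Q, orderOf x = p := fun Q hQ h1 => by
    haveI := (Q.nontrivial_iff_ne_bot).2 h1
    obtain ⟨n, hn0, hn⟩ := hQ.nontrivial_iff_card.1 inferInstance
    obtain ⟨x, hx⟩ := exists_prime_orderOf_dvd_card' (G := Q) p (hn ▸ dvd_pow_self p hn0.ne')
    exact ⟨x, x.2, by rw [orderOf_coe, hx]⟩
  by_cases hR : pCore p G = ⊥
  swap
  · obtain ⟨x, hx, ox⟩ := hord _ (H1.isPGroup_pCore p G) hR
    choose k hk using fun g => hpow _ (H1.isPGroup_pCore p G) x hx ox g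
      (Normal.conj_mem inferInstance x hx g)
    haveI : (centralizer ({x} : Set G)).Normal := ⟨fun c hc g => by
      rw [mem_centralizer_singleton_iff] at hc ⊢
      have h1 : c * (g⁻¹ * x * g⁻¹⁻¹) = (g⁻¹ * x * g⁻¹⁻¹) * c := by
        rw [hk]; exact (show Commute c x from hc).pow_right _
      calc g * c * g⁻¹ * x = g * (c * (g⁻¹ * x * g⁻¹⁻¹)) * g⁻¹ := by group
        _ = _ := by rw [h1]; group⟩
    refine H9.isPSolvable_of_normal_of_quotient (centralizer ({x} : Set G))
      (H9.isPSolvable_of_hasNormalPComplement (hC x ox))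
      (H9.isPSolvable_of_isSolvable (Group.isSolvable_of_comm fun a b => ?_))
    obtain ⟨a, rfl⟩ := QuotientGroup.mk_surjective a
    obtain ⟨b, rfl⟩ := QuotientGroup.mk_surjective b
    rw [← QuotientGroup.mk_mul, ← QuotientGroup.mk_mul, QuotientGroup.eq,
      mem_centralizer_singleton_iff]
    have e : ∀ a b : G, a * b * x * (a * b)⁻¹ = x ^ (k a * k b) := fun a b => by
      rw [pow_mul, ← hk, conj_pow, ← hk]; group
    have h1 : b * a * x * (b * a)⁻¹ = a * b * x * (a * b)⁻¹ := by rw [e, e, mul_comm]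
    calc (a * b)⁻¹ * (b * a) * x = (a * b)⁻¹ * (b * a * x * (b * a)⁻¹) * (b * a) := by group
      _ = _ := by rw [h1]; group
  by_cases hP : (P : Subgroup G) = ⊥
  · refine H9.isPSolvable_of_coprime ((Nat.Prime.coprime_iff_not_dvd hp.out).2 ?_).symm
    rw [← index_bot, ← hP]
    exact P.not_dvd_index
  by_contra hG
  obtain ⟨u, hu, ou⟩ := hord _ P.2 hP
  haveI : Nontrivial G := ⟨⟨u, 1, fun e => by
    rw [e, orderOf_one] at ou; exact hp.out.one_lt.ne ou⟩⟩
  haveI : IsSimpleGroup G := ⟨fun N hN => by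
    by_contra h
    obtain ⟨h1, h2⟩ := not_or.1 h
    haveI := (N.nontrivial_iff_ne_bot).2 h1
    have h3 := ih _ (hn ▸ H1.card_lt_of_ne_top h2) N rfl (hsub N) fun x y hx hy => by
      have := hpair x y (by rw [orderOf_coe, hx]) (by rw [orderOf_coe, hy])
      rw [← coe_subtype, ← Set.image_pair, ← MonoidHom.map_closure] at this
      exact (H9.isPSolvable_congr (equivMapOfInjective _ _ N.subtype_injective)).2 this
    rcases H9.core_ne_bot_of_isPSolvable h3 with h4 | h4
    · have := H1.map_subtype_pCore_le (p := p) N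
      rw [hR, le_bot_iff, map_eq_bot_iff_of_injective _ N.subtype_injective] at this
      exact h4 this
    · have := H1.map_subtype_pPrimeCore_le (p := p) N
      rw [hO, le_bot_iff, map_eq_bot_iff_of_injective _ N.subtype_injective] at this
      exact h4 this⟩
  obtain ⟨g, hg, hgu⟩ : ∃ g ∈ normalizer ((P : Subgroup G) : Set G), g * u * g⁻¹ ≠ u := by
    by_contra h
    push Not at h
    exact hG (H9.isPSolvable_of_hasNormalPComplement (hasNormalPComplement_of_isCyclic P hu ou h))
  obtain ⟨k, hk⟩ := hpow _ P.2 u hu ou g ((mem_normalizer_iff.1 hg u).1 hu)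
  have hup : u ^ p = 1 := by rw [← ou, pow_orderOf_eq_one]
  rw [← pw_natCast hup] at hk
  have hk1 : (k : ZMod p) ≠ 1 := fun e => hgu (by
    rw [hk, e, ← Nat.cast_one, pw_natCast hup, pow_one])
  refine false_of_pairs (fun e => ?_) ou hC (fun h => ?_) hk1 hk
  · subst e
    have h0 : (k : ZMod 2) = 0 := zmod_two _ hk1
    rw [h0, pw_zero, conj_eq_one_iff] at hk
    rw [hk, orderOf_one] at ou
    exact absurd ou (by decide)
  · have oy : orderOf (h * u * h⁻¹) = p := by rw [H6.orderOf_conj', ou]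
    obtain ⟨k, hk, h1⟩ := exists_pPart_isConj (hpair u _ ou oy) (hsub _)
      (x := ⟨u, subset_closure (by simp)⟩) (y := ⟨h * u * h⁻¹, subset_closure (by simp)⟩)
      (by rw [← orderOf_coe]; exact ou) (by rw [← orderOf_coe]; exact oy)
    refine ⟨k, hk, fun i j => ?_⟩
    obtain ⟨z, hz, hzc⟩ := h1 i j
    exact ⟨z, H6.IsPPart.coe hz, (Subgroup.subtype _).map_isConj hzc⟩

/-- Let G be a finite group whose Sylow p-subgroups are cyclic. Then G is p-solvable if and only if every two elements of order p of G generate a p-solvable subgroup. -/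
theorem result {G : Type*} [Group G] [Finite G] {p : ℕ} [Fact p.Prime] (P : Sylow p G) (hP : IsCyclic ↥(P : Subgroup G)) :
    Cfsg.IsPSolvable p G ↔ ∀ x y : G, orderOf x = p → orderOf y = p → Cfsg.IsPSolvable p ↥(Subgroup.closure ({x, y} : Set G)) := by
  refine ⟨fun h x y _ _ => H9.isPSolvable_subgroup h _, aux _ G rfl fun S => ?_⟩
  exact isCyclic_of_surjective _ (P.equiv S).surjective

end Cfsg.Agent.S1950
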