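import Cfsg.Statements.S1951
import Cfsg.Agent.H7.PairGen
-- import your own Cfsg.Agent.* helpers here

set_option autoImplicit false
open Cfsg

namespace Cfsg.Agent.S1951

open Cfsg.Agent.H4 Cfsg.Agent.H7 Subgroup
open scoped ComplexConjugate

theorem ineq {q d f m : ℤ} (hq : 3 ≤ q) (hm : 1 ≤ m) (hf : f = d + m * q) (hf0 : 0 < f)
    (hd : d ^ 2 + 2 ≤ q) : 4 * d ≤ f := by
  have h1 : 3 * d ≤ q := by
    by_contra h
    have h2 : q + 1 ≤ 3 * d := by omega
    have h3 : 2 ≤ d := by omega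
    nlinarith
  nlinarith

/-- Let p be a prime and P a nontrivial elementary abelian Sylow p-subgroup of a finite nonabelian simple group G whose nonidentity elements are all conjugate in G. Suppose that two elements of P are conjugate in G only if they are conjugate in N_G(P), that the centralizer of every element of order p of P has a normal p-complement, and that every two elements of order p of G generate a p-solvable subgroup. Then p = 2. -/
theorem result {G : Type*} [Group G] [Finite G] [IsSimpleGroup G] (hG : ¬ IsMulCommutative G) {p : ℕ} [Fact p.Prime] (P : Sylow p G)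
    (hP1 : (P : Subgroup G) ≠ ⊥) (hPe : Cfsg.IsElementaryAbelian p (P : Subgroup G))
    (hconj : ∀ x ∈ (P : Subgroup G), ∀ y ∈ (P : Subgroup G), x ≠ 1 → y ≠ 1 → ∃ g : G, g * x * g⁻¹ = y)
    (ha : ∀ x ∈ (P : Subgroup G), ∀ y ∈ (P : Subgroup G), (∃ g : G, g * x * g⁻¹ = y) →
      ∃ n ∈ Subgroup.normalizer ((P : Subgroup G) : Set G), n * x * n⁻¹ = y)
    (hb : ∀ x ∈ (P : Subgroup G), orderOf x = p → Cfsg.HasNormalPComplement p ↥(Subgroup.centralizer ({x} : Set G)))
    (hc : ∀ x y : G, orderOf x = p → orderOf y = p → Cfsg.IsPSolvable p ↥(Subgroup.closure ({x, y} : Set G))) :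
    p = 2 := by
  classical
  by_contra hp2
  haveI := Fintype.ofFinite G
  have hp : p.Prime := Fact.out
  obtain ⟨M, hM⟩ := H6.exists_isPModular hp
  haveI := hM.2.1
  obtain ⟨⟨u, hu⟩, hu1⟩ := (ne_bot_iff_exists_ne_one).1 hP1
  have hu1' : u ≠ 1 := fun e => hu1 (Subtype.ext e)
  have ou : orderOf u = p := orderOf_eq_prime (hPe.2 u hu) hu1'
  have oup : ∃ k, orderOf u = p ^ k := ⟨1, by rw [ou, pow_one]⟩
  have hcj : ∀ z : G, (∃ k, orderOf z = p ^ k) → z ≠ 1 → IsConj z u := fun z hz hz1 => by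
    obtain ⟨g, -, hg⟩ := (H3.sylowIn_top P).exists_conj_le (H6.isPGroup_zpowers hp hz) le_top
    have h1 : g * z * g⁻¹ ∈ (P : Subgroup G) := hg (H3.conj_mem_conj_smul.2 (mem_zpowers z))
    exact (isConj_iff.2 ⟨g, rfl⟩).trans (isConj_iff.2 (hconj _ h1 u hu (by simpa using hz1) hu1'))
  have hval : ∀ χ ∈ principalBlock M G, ∀ g : G, p ∣ orderOf g → (χ : G → ℂ) g = (χ : G → ℂ) u :=
    fun χ hχ g hg => by
      obtain ⟨z, hz⟩ := H6.exists_isPPart hp g
      obtain ⟨c, rfl⟩ := isConj_iff.1 (hcj z (H6.IsPPart.pow_order hz)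
        fun e => (H6.IsPPart.eq_one_iff hp hz).1 e hg)
      rw [← χ.2.isClassFunction g c]
      exact H6.principal_apply_of_complement hM (hb _ hu ou) hχ (H6.IsPPart.conj hz c)
  have hd : ∀ χ : IrrCharacter G, ∃ d : ℤ, (χ : G → ℂ) u = d := fun χ =>
    χ.2.isCharacter.isGen.exists_int_of_forall_pow fun m hm => by
      have h1 := hm.symm.orderOf_pow
      obtain ⟨c, hc⟩ := isConj_iff.1 (hcj (u ^ m) (h1.symm ▸ oup) fun e => by
        rw [e, orderOf_one, ou] at h1; exact hp.one_lt.ne h1)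
      rw [← χ.2.isClassFunction _ c, hc]
  choose d hd using hd
  choose f hf0 hf using fun χ : IrrCharacter G => χ.2.exists_degree
  set q := Nat.card (P : Subgroup G) with hq
  set B := H8.bfin (principalBlock M G) with hB
  have hcol : ∑ χ ∈ B, d χ ^ 2 = q := by
    have h1 := H6.principal_column_of_complement hM oup (hb u hu ou)
    have h2 : (P : Subgroup G) ≤ centralizer {u} := fun x hx => mem_centralizer_singleton_iff.2
      (congrArg Subtype.val (hPe.1.is_comm.comm (⟨x, hx⟩ : (P : Subgroup G)) ⟨u, hu⟩))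
    have h3 : p ^ (Nat.card (centralizer ({u} : Set G))).factorization p = q := by
      rw [← (H3.sylowIn_of_le P h2).toSylow.card_eq_multiplicity, H3.SylowIn.coe_toSylow,
        Nat.card_congr (subgroupOfEquivOfLe h2).toEquiv]
    rw [h3, H8.sum_eq_sum_bfin (principalBlock M G) _ (fun χ hχ => if_neg hχ),
      Finset.sum_congr rfl fun χ hχ => if_pos (H8.mem_bfin.1 hχ)] at h1
    simp only [hd, map_intCast, ← pow_two] at h1
    exact_mod_cast h1
  have hreg : ∀ g : G, ¬ p ∣ orderOf g → ∑ χ ∈ B, (d χ : ℂ) * (χ : G → ℂ) g = 0 := fun g hg => by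
    rw [← H8.block_orth' hM H6.isPBlock_principal (H6.isPPart_one hp hg) (H6.isPPart_self hp oup)
      fun h => hu1' (isConj_one_right.1 h)]
    exact Finset.sum_congr rfl fun χ _ => by rw [hd, map_intCast, mul_comm]
  have hsing : ∀ g : G, p ∣ orderOf g → ∑ χ ∈ B, (d χ : ℂ) * (χ : G → ℂ) g = q := fun g hg => by
    rw [Finset.sum_congr rfl fun χ hχ => by rw [hval χ (H8.mem_bfin.1 hχ) g hg, hd, ← pow_two]]
    exact_mod_cast hcol
  have hA : ∀ h : G, (q : ℝ) ≤ (∑ χ ∈ B, (d χ : ℂ) * (χ : G → ℂ) (u * (h * u * h⁻¹)) +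
      ∑ χ ∈ B, (d χ : ℂ) * (χ : G → ℂ) (u * (h * u * h⁻¹)⁻¹)).re := fun h => by
    have oy : orderOf (h * u * h⁻¹) = p := by rw [H6.orderOf_conj', ou]
    have h1 := not_dvd_or_not_dvd hp2 (hc u _ ou oy) (fun S a b => by
        obtain ⟨φ, hφ⟩ := exists_injective_sylow P S.2 ((Subgroup.subtype _).comp (Subgroup.subtype _))
          ((subtype_injective _).comp (subtype_injective _))
        exact hφ (by rw [map_mul, map_mul, hPe.1.is_comm.comm]))
      (x := ⟨u, subset_closure (by simp)⟩) (y := ⟨h * u * h⁻¹, subset_closure (by simp)⟩)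
      (by rw [← orderOf_coe]; exact ou) (by rw [← orderOf_coe]; exact oy)
    rw [← orderOf_coe, ← orderOf_coe (_ * _⁻¹)] at h1
    have h2 : p ∣ orderOf (u * (h * u * h⁻¹)) ∨ p ∣ orderOf (u * (h * u * h⁻¹)⁻¹) := h1
    have h0 : (0 : ℝ) ≤ q := Nat.cast_nonneg _
    by_cases e1 : p ∣ orderOf (u * (h * u * h⁻¹)) <;>
      by_cases e2 : p ∣ orderOf (u * (h * u * h⁻¹)⁻¹)
    · rw [hsing _ e1, hsing _ e2]; simp
    · rw [hsing _ e1, hreg _ e2]; simp
    · rw [hreg _ e1, hsing _ e2]; simp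
    · exact absurd h2 (not_or.2 ⟨e1, e2⟩)
  have hS : ∑ h : G, (∑ χ ∈ B, (d χ : ℂ) * (χ : G → ℂ) (u * (h * u * h⁻¹)) +
      ∑ χ ∈ B, (d χ : ℂ) * (χ : G → ℂ) (u * (h * u * h⁻¹)⁻¹)) =
      ((Nat.card G * (2 * ∑ χ ∈ B, (d χ : ℝ) ^ 3 / f χ) : ℝ) : ℂ) := by
    simp only [← Finset.sum_add_distrib]
    rw [Finset.sum_comm]
    push_cast
    rw [Finset.mul_sum, Finset.mul_sum]
    refine Finset.sum_congr rfl fun χ _ => ?_
    have e1 := χ.2.sum_conj_mul u u
    have e2 := χ.2.sum_conj_mul u⁻¹ u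
    rw [χ.2.isCharacter.apply_inv, hd, map_intCast, hf] at e2
    rw [hd, hf] at e1
    simp only [← mul_add, ← Finset.mul_sum, Finset.sum_add_distrib, χ.2.isClassFunction.mul_comm u,
      conj_inv, e1, e2]
    ring
  have hT : (q : ℝ) ≤ 2 * ∑ χ ∈ B, (d χ : ℝ) ^ 3 / f χ := by
    have h1 := Finset.sum_le_sum fun h (_ : h ∈ Finset.univ) => hA h
    rw [← Complex.re_sum, hS, Complex.ofReal_re, Finset.sum_const, Finset.card_univ,
      ← Nat.card_eq_fintype_card, nsmul_eq_mul] at h1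
    exact le_of_mul_le_mul_left h1 (Nat.cast_pos.2 Nat.card_pos)
  have h1B : irrOne G ∈ B := H8.mem_bfin.2 H6.irrOne_mem_principal
  have hd1 : d (irrOne G) = 1 := by
    have := hd (irrOne G)
    rw [irrOne_apply] at this
    exact_mod_cast this.symm
  have hf1 : f (irrOne G) = 1 := by
    have := hf (irrOne G)
    rw [irrOne_apply] at this
    exact_mod_cast this.symm
  obtain ⟨χ₀, hχ₀, hneg⟩ : ∃ χ ∈ B, d χ < 0 := by
    by_contra hn
    push Not at hn
    have h1 := hreg 1 (by simpa using hp.one_lt.ne')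
    simp only [hf] at h1
    have h2 : ∑ χ ∈ B, d χ * f χ = 0 := by exact_mod_cast h1
    have h3 := (Finset.sum_eq_zero_iff_of_nonneg fun χ hχ =>
      mul_nonneg (hn χ hχ) (Nat.cast_nonneg _)).1 h2 _ h1B
    simp [hd1, hf1] at h3
  have hne0 : χ₀ ≠ irrOne G := fun e => by rw [e, hd1] at hneg; omega
  have hq3 : 3 ≤ q := by
    have h1 : p ∣ q := ou ▸ orderOf_dvd_natCard _ hu
    have := Nat.le_of_dvd Nat.card_pos h1
    have := hp.two_le
    omega
  have hb4 : ∀ χ ∈ B.erase (irrOne G), 4 * d χ ≤ f χ := fun χ hχ => by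
    obtain ⟨hχ1, hχ⟩ := Finset.mem_erase.1 hχ
    by_cases e : χ = χ₀
    · rw [e]; omega
    haveI := Fintype.ofFinite (P : Subgroup G)
    obtain ⟨n, hn⟩ := (χ.2.isCharacter.restrict (P : Subgroup G)).classInner_nat
      isIrrCharacter_one.isCharacter
    have h1 : (q : ℂ) * n = f χ + (q - 1) * d χ := by
      rw [← hn, hq, card_mul_classInner, ← Finset.add_sum_erase _ _ (Finset.mem_univ 1),
        Finset.sum_congr rfl (g := fun _ => (d χ : ℂ)) fun x hx => by
          rw [map_one, mul_one, hval χ (H8.mem_bfin.1 hχ) _ (by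
            rw [orderOf_eq_prime (hPe.2 _ x.2) fun e =>
              (Finset.mem_erase.1 hx).1 (Subtype.ext e)]), hd]]
      simp [hf, Finset.card_erase_of_mem, Fintype.card_pos]
    have h2 : (q : ℤ) * n = f χ + (q - 1) * d χ := by exact_mod_cast h1
    have h3 : d χ < f χ := by
      have e1 := χ.2.isCharacter.re_le u
      rw [hd, hf] at e1
      have e2 : d χ ≤ f χ := by exact_mod_cast e1
      refine lt_of_le_of_ne e2 fun e3 => hu1' ?_
      have := χ.2.isCharacter.mem_charKer.2 (show (χ : G → ℂ) u = (χ : G → ℂ) 1 by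
        rw [hd, hf, e3, Int.cast_natCast])
      rwa [χ.2.charKer_eq_bot_of_simple fun e => hχ1 (Subtype.ext e), mem_bot] at this
    have h4 : d χ ^ 2 + 2 ≤ q := by
      have e1 := Finset.sum_le_sum_of_subset_of_nonneg (f := fun χ => d χ ^ 2)
        (show ({χ, χ₀, irrOne G} : Finset _) ⊆ B by
          intro x hx
          simp only [Finset.mem_insert, Finset.mem_singleton] at hx
          rcases hx with rfl | rfl | rfl <;> assumption) fun _ _ _ => sq_nonneg _
      rw [hcol, Finset.sum_insert (by simp [e, hχ1]), Finset.sum_pair hne0, hd1] at e1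
      nlinarith
    refine ineq (m := n - d χ) (by exact_mod_cast hq3) ?_ (by linarith) (by exact_mod_cast hf0 χ) h4
    have : (0 : ℤ) < q := by omega
    nlinarith
  have hlt : ∑ χ ∈ B.erase (irrOne G), (d χ : ℝ) ^ 3 / f χ <
      ∑ χ ∈ B.erase (irrOne G), (d χ : ℝ) ^ 2 / 4 := by
    refine Finset.sum_lt_sum (fun χ hχ => ?_) ⟨χ₀, Finset.mem_erase.2 ⟨hne0, hχ₀⟩, ?_⟩
    · have h1 : (4 * d χ : ℝ) ≤ f χ := by exact_mod_cast hb4 χ hχ
      rw [div_le_div_iff₀ (Nat.cast_pos.2 (hf0 χ)) (by norm_num)]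
      nlinarith [sq_nonneg (d χ : ℝ)]
    · have h1 : (d χ₀ : ℝ) < 0 := by exact_mod_cast hneg
      have h2 : (0 : ℝ) < f χ₀ := Nat.cast_pos.2 (hf0 χ₀)
      rw [div_lt_div_iff₀ h2 (by norm_num)]
      nlinarith [mul_pos (sq_pos_of_neg h1) h2, mul_pos (sq_pos_of_neg h1) (neg_pos.2 h1)]
  have hcol' : ∑ χ ∈ B, (d χ : ℝ) ^ 2 = q := by exact_mod_cast hcol
  rw [← Finset.add_sum_erase _ _ h1B, hd1] at hcol'
  rw [← Finset.add_sum_erase _ _ h1B, hd1, hf1] at hT
  rw [← Finset.sum_div] at hlt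
  have : (3 : ℝ) ≤ q := by exact_mod_cast hq3
  push_cast at hcol' hT
  linarith

end Cfsg.Agent.S1951
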