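import Cfsg.Statements.S1952
import Cfsg.Agent.H3.Wielandt

set_option autoImplicit false
open Cfsg

namespace Cfsg.Agent.S1952

open Subgroup

/-- Let P be a finite p-group with a normal elementary abelian subgroup A of index p, and let x ∈ A and y ∈ P with y outside A. If the product of the p conjugates y^(-i) x y^i (i = 0, …, p−1) is not the identity, then the wreath product Z_p ≀ Z_p, realised as a Sylow p-subgroup of the symmetric group of degree p², is a homomorphic image of P. -/
theorem result {P : Type*} [Group P] [Finite P] {p : ℕ} [Fact p.Prime] (hP : IsPGroup p P) (A : Subgroup P) [A.Normal]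
    (hA : Cfsg.IsElementaryAbelian p A) (hidx : A.index = p) (x y : P) (hx : x ∈ A) (hy : y ∉ A)
    (hprod : ((List.range p).map (fun i => (y ^ i)⁻¹ * x * y ^ i)).prod ≠ 1) :
    ∃ (Q : Sylow p (Equiv.Perm (Fin (p ^ 2)))) (f : P →* ↥(Q : Subgroup (Equiv.Perm (Fin (p ^ 2))))), Function.Surjective f := by
  classical
  have hp : p.Prime := Fact.out
  haveI := hA.1
  let _ : CommGroup A := { (inferInstance : Group A) with mul_comm := fun a b => mul_comm' a b }
  let f : P → A := fun u => if h : u ∈ A then ⟨u, h⟩ else 1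
  have hf : ∀ u ∈ A, (f u : P) = u := fun u hu => by simp [f, hu]
  have h1 := H3.prod_conj_eq_iterate hp (fun a : A => Subtype.ext (hA.2 a a.2)) (R := A) (f := f)
    (fun u hu v hv => Subtype.ext (by rw [coe_mul, hf _ hu, hf _ hv, hf _ (mul_mem hu hv)]))
    (le_normalizer_of_normal (mem_top y)) hx
  suffices h : H3.WObstruction p (⊤ : Subgroup P) ⊤ by
    obtain ⟨Q, g, hg⟩ := h.exists_surjective (hP.to_subgroup _)
    exact ⟨Q, g.comp (topEquiv (G := P)).symm.toMonoidHom, hg.comp (topEquiv (G := P)).symm.surjective⟩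
  refine ⟨x, y, A, ⊥, hx, mem_top y, hy,
    by rw [top_sup_eq]; exact lt_top_iff_ne_top.mpr fun e => hy (e ▸ mem_top y), le_top,
    by rwa [top_sup_eq, relIndex_top_right], le_normalizer_of_normal, bot_le,
    (commutator_eq_bot_iff_le_centralizer.mpr (le_centralizer A)).le, hA.2, fun h => hprod ?_⟩
  have h2 : ∀ n, ((List.range n).map (fun i => (y ^ i)⁻¹ * x * y ^ i)).prod =
      (∏ i ∈ Finset.range n, f ((y ^ i)⁻¹ * x * y ^ i) : A) := fun n => by
    induction n with
    | zero => rfl
    | succ n ih => rw [List.prod_range_succ, Finset.prod_range_succ, ih, coe_mul,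
        hf _ (Normal.conj_mem' inferInstance x hx _)]
  rw [h2, h1, mem_bot.mp h, hf _ (one_mem _)]

end Cfsg.Agent.S1952
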