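import Cfsg.Statements.S1953
import Cfsg.Agent.L0.Model

set_option autoImplicit false
open Cfsg

namespace Cfsg.Agent.S1953

open Subgroup Cfsg.Agent.H24 Cfsg.Agent.H3 Cfsg.Agent.L0


/-- Let p be an odd prime and P a Sylow p-subgroup of the finite group G, and suppose that for no p-subgroup Q of G does N_G(Q)/C_G(Q) have a section isomorphic to SL₂(p). Call a subgroup Q of P centric-radical when Z(Q) is a Sylow p-subgroup of C_G(Q) and the only normal subgroup X of N_G(Q) containing Q·C_G(Q) such that the index of Q·C_G(Q) in X is a power of p is Q·C_G(Q) itself (that is, N_G(Q)/Q·C_G(Q) has no nontrivial normal p-subgroup). Then there is a centric-radical subgroup Q of P contained in every centric-radical subgroup of P; it is normal in P, and N_G(Q) controls strong fusion in P: whenever a subgroup A of P has g A g⁻¹ ≤ P, the element g is a product h c with h in N_G(Q) and c centralizing A. -/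
theorem result {G : Type*} [Group G] [Finite G] {p : ℕ} [Fact p.Prime] (hp : p ≠ 2) (P : Sylow p G)
    (hfree : ∀ Q : Subgroup G, IsPGroup p ↥Q → ¬ ∃ (H K : Subgroup G) (_ : (K.subgroupOf H).Normal),
      Subgroup.centralizer (Q : Set G) ≤ K ∧ K ≤ H ∧ H ≤ Subgroup.normalizer (Q : Set G) ∧
      Nonempty ((↥H ⧸ K.subgroupOf H) ≃* Matrix.SpecialLinearGroup (Fin 2) (ZMod p)))
    (cr : Subgroup G → Prop)
    (hcr : ∀ Q : Subgroup G, cr Q ↔ (Q ≤ (P : Subgroup G) ∧
      (∃ R : Sylow p ↥(Subgroup.centralizer (Q : Set G)),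
        (R : Subgroup ↥(Subgroup.centralizer (Q : Set G))).map (Subgroup.centralizer (Q : Set G)).subtype = Q ⊓ Subgroup.centralizer (Q : Set G)) ∧
      ∀ X : Subgroup G, X ≤ Subgroup.normalizer (Q : Set G) →
        (∀ n ∈ Subgroup.normalizer (Q : Set G), X.map (MulAut.conj n).toMonoidHom = X) →
        Q ⊔ Subgroup.centralizer (Q : Set G) ≤ X → (∃ k : ℕ, (Q ⊔ Subgroup.centralizer (Q : Set G)).relIndex X = p ^ k) →
        X = Q ⊔ Subgroup.centralizer (Q : Set G))) :
    ∃ Q : Subgroup G, cr Q ∧ (∀ R : Subgroup G, cr R → Q ≤ R) ∧ (∀ x ∈ (P : Subgroup G), Q.map (MulAut.conj x).toMonoidHom = Q) ∧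
      ∀ A : Subgroup G, A ≤ (P : Subgroup G) → ∀ g : G, A.map (MulAut.conj g).toMonoidHom ≤ (P : Subgroup G) →
        ∃ h ∈ Subgroup.normalizer (Q : Set G), ∃ c ∈ Subgroup.centralizer (A : Set G), g = h * c := by
  have hq : ¬ Involves (qd p) G := fun h => by
    obtain ⟨Q, h1, h2⟩ := exists_automizer_section h
    exact hfree Q h1 h2
  obtain ⟨Q, h1, h2, h3, h4, h5⟩ := exists_model hp hq (sylowIn_top P)
  refine ⟨Q, (hcr Q).2 ⟨h1, ?_, fun X a1 a2 a3 ⟨k, a4⟩ => h5 X a1
    (fun n hn => cj_eq_self_iff.1 (a2 n hn)) a3 (pGrpMod_of_relIndex (a1.trans (le_normalizer_sup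
      le_rfl (normalizer_le_normalizer_centralizer Q))) a4)⟩, fun R hR => ?_,
    fun x hx => cj_eq_of_mem_normalizer (h2 hx), fun A hA g hg =>
      sf_singleton_iff.1 h3 A hA g trivial hg⟩
  · have h6 := sylowIn_inf_centralizer (sylowIn_top P) h2
    refine ⟨h6.toSylow, ?_⟩
    rw [SylowIn.coe_toSylow, map_subgroupOf_eq_of_le inf_le_right]
    exact le_antisymm (le_inf h4 inf_le_right) (inf_le_inf_right _ h1)
  · obtain ⟨a1, ⟨T, a2⟩, a3⟩ := (hcr R).1 hR
    refine le_of_centric_radical P.2 h1 h2 h3 a1 ?_ fun X b1 b2 b3 b4 => a3 X b1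
      (fun n hn => cj_eq_of_mem_normalizer (b2 hn)) b3 (b4.relIndex (b1.trans (le_normalizer_sup
      le_rfl (normalizer_le_normalizer_centralizer R))))
    have := sylIn_map T
    rw [a2] at this
    exact (this.le_of_le P.2.to_inf_left (inf_le_inf_right _ a1) inf_le_right).trans inf_le_left

end Cfsg.Agent.S1953
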