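import Cfsg.Statements.S1956
import Cfsg.Agent.H3.Fusion

set_option autoImplicit false
open Cfsg

namespace Cfsg.Agent.S1956

open Cfsg.Agent.H3

open scoped Pointwise

/-- Let P be a Sylow p-subgroup of the finite group G such that every element of P of order dividing p (dividing 4 when p = 2) is central in P. Then the fusion of these elements is controlled by N_G(P): if such an element a of P has g a g⁻¹ in P, then g = n c with n normalizing P and c commuting with a. -/
theorem result {G : Type*} [Group G] [Finite G] {p : ℕ} [Fact p.Prime] (P : Sylow p G)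
    (hcen : ∀ a ∈ (P : Subgroup G), (a ^ p = 1 ∨ (p = 2 ∧ a ^ 4 = 1)) → ∀ y ∈ (P : Subgroup G), a * y = y * a) :
    ∀ a ∈ (P : Subgroup G), (a ^ p = 1 ∨ (p = 2 ∧ a ^ 4 = 1)) → ∀ g : G, g * a * g⁻¹ ∈ (P : Subgroup G) →
      ∃ n ∈ Subgroup.normalizer ((P : Subgroup G) : Set G), ∃ c : G, c * a = a * c ∧ g = n * c := by
  intro a ha hap g hg
  have hb : (g * a * g⁻¹) ^ p = 1 ∨ (p = 2 ∧ (g * a * g⁻¹) ^ 4 = 1) := by
    rcases hap with h | ⟨h1, h⟩
    · exact Or.inl (by rw [conj_pow, h]; group)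
    · exact Or.inr ⟨h1, by rw [conj_pow, h]; group⟩
  have h1 : (P : Subgroup G) ≤ Subgroup.centralizer {a} := fun y hy =>
    Subgroup.mem_centralizer_singleton_iff.mpr (hcen a ha hap y hy).symm
  have h2 : MulAut.conj g⁻¹ • (P : Subgroup G) ≤ Subgroup.centralizer {a} := by
    rw [conj_smul_le_iff]
    intro y hy
    rw [Subgroup.mem_centralizer_singleton_iff]
    calc g⁻¹ * y * g⁻¹⁻¹ * a = g⁻¹ * (y * (g * a * g⁻¹)) * g := by group
      _ = _ := by rw [← hcen _ hg hb y hy]; group
  obtain ⟨c, hc, hn⟩ := exists_mul_mem_normalizer P h1 h2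
  exact ⟨_, inv_mem hn, c, Subgroup.mem_centralizer_singleton_iff.mp hc, by group⟩

end Cfsg.Agent.S1956
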