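import Cfsg.Statements.S2001
import Cfsg.Agent.L0.Central

set_option autoImplicit false
open Cfsg

namespace Cfsg.Agent.S2001

open Subgroup Cfsg.Agent.H24 Cfsg.Agent.H3 Cfsg.Agent.L0


/-- Let p be a prime dividing the order of the finite group G, P a Sylow p-subgroup, W a conjugacy functor for p on G with Z(H) ≤ W(H) for every nontrivial p-subgroup H, and V a central functor: a conjugacy functor with V(H) ≤ Z(H), and V(H) ≤ V(K) whenever Z(H) ≤ Z(K), for nontrivial p-subgroups H, K. Say that W with V controls transfer in a subgroup L when some Sylow p-subgroup Q of L satisfies Q ∩ L' = (Q ∩ (N_L(W(Q)))')·(Q ∩ (C_L(V(Q)))') as a product of two subgroups. If W with V controls transfer in N_G(H) for every subgroup H with Z(P) ≤ H ≤ P, then W with V controls transfer in G. -/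
theorem result {G : Type*} [Group G] [Finite G] {p : ℕ} [Fact p.Prime] (hdiv : p ∣ Nat.card G) (P : Sylow p G) (W V : Subgroup G → Subgroup G) (hW : Cfsg.IsConjugacyFunctor p W) (hV : Cfsg.IsConjugacyFunctor p V) (hWZ : ∀ H : Subgroup G, IsPGroup p ↥H → H ⊓ Subgroup.centralizer ((H : Subgroup G) : Set G) ≤ W H) (hVZ : ∀ H : Subgroup G, IsPGroup p ↥H → V H ≤ H ⊓ Subgroup.centralizer ((H : Subgroup G) : Set G)) (hVmono : ∀ H K : Subgroup G, IsPGroup p ↥H → IsPGroup p ↥K → H ≠ ⊥ → K ≠ ⊥ → H ⊓ Subgroup.centralizer ((H : Subgroup G) : Set G) ≤ K ⊓ Subgroup.centralizer ((K : Subgroup G) : Set G) → V H ≤ V K) (hloc : ∀ H : Subgroup G, (P : Subgroup G) ⊓ Subgroup.centralizer (((P : Subgroup G) : Subgroup G) : Set G) ≤ H → H ≤ (P : Subgroup G) → ∃ Q : Subgroup G, Q ≤ Subgroup.normalizer ((H : Subgroup G) : Set G) ∧ IsPGroup p ↥Q ∧ ¬ p ∣ (Q).relIndex (Subgroup.normalizer ((H : Subgroup G) : Set G)) ∧ ∀ x : G, x ∈ Q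 ⊓ ⁅Subgroup.normalizer ((H : Subgroup G) : Set G), Subgroup.normalizer ((H : Subgroup G) : Set G)⁆ ↔ ∃ a ∈ Q ⊓ ⁅Subgroup.normalizer ((H : Subgroup G) : Set G) ⊓ Subgroup.normalizer ((W Q : Subgroup G) : Set G), Subgroup.normalizer ((H : Subgroup G) : Set G) ⊓ Subgroup.normalizer ((W Q : Subgroup G) : Set G)⁆, ∃ b ∈ Q ⊓ ⁅Subgroup.normalizer ((H : Subgroup G) : Set G) ⊓ Subgroup.centralizer ((V Q : Subgroup G) : Set G), Subgroup.normalizer ((H : Subgroup G) : Set G) ⊓ Subgroup.centralizer ((V Q : Subgroup G) : Set G)⁆, x = a * b) : ∃ Q : Subgroup G, IsPGroup p ↥Q ∧ ¬ p ∣ Q.index ∧ ∀ x : G, x ∈ Q ⊓ commutator G ↔ ∃ a ∈ Q ⊓ ⁅Subgroup.normalizer ((W Q : Subgroup G) : Set G), Subgroup.normalizer ((W Q : Subgroup G) : Set G)⁆, ∃ b ∈ Q ⊓ ⁅Subgroup.centralizer ((V Q : Subgroup G) : Set G), Subgroup.centralizer ((V Q : Subgroup G) : Set G)⁆, x = a * b := by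
  have hS := sylowIn_top P
  set S := (P : Subgroup G) with hSdef
  have hS0 : S ≠ ⊥ := fun h => (hS.eq_bot_iff.1 h) (by simpa using hdiv)
  let Φ : Subgroup G → Subgroup G → Set (Subgroup G) := fun H Q => {H ⊓ 𝐍[W Q], H ⊓ 𝐂[V Q]}
  have hloc' : ∀ T ≤ S, S ⊓ 𝐂[S] ≤ T → ∀ R, SylowIn p R 𝐍[T] → TF (Φ 𝐍[T] R) R 𝐍[T] := by
    intro T hT hZ R hR
    obtain ⟨Q, h1, h2, h3, h4⟩ := hloc T hZ hT
    have hQ : TF (Φ 𝐍[T] Q) Q 𝐍[T] := by
      intro x hx
      obtain ⟨a, ha, b, hb, rfl⟩ := (h4 x).1 hx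
      exact mul_mem (le_tr (Or.inl rfl) ha) (le_tr (Or.inr rfl) hb)
    obtain ⟨g, hg, rfl⟩ := syl_exists_cj ⟨h1, h2, h3⟩ hR
    have := hQ.map (MulAut.conj g).injective (𝓝' := Φ 𝐍[T] (cj Q g)) (by
      rintro _ (rfl | rfl)
      · refine ⟨_, Or.inl rfl, ?_⟩
        rw [map_conj_eq_cj, cj_inf, cj_normalizer, cj_normalizer, cf_cj hW h2,
          cj_eq_of_mem_normalizer hg]
      · refine ⟨_, Or.inr rfl, ?_⟩
        rw [map_conj_eq_cj, cj_inf, cj_normalizer, cj_centralizer, cf_cj hV h2,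
          cj_eq_of_mem_normalizer hg])
    rwa [map_conj_eq_cj, map_conj_eq_cj, cj_eq_of_mem hg] at this
  set K₁ := S ⊓ ⁅𝐍[W S], 𝐍[W S]⁆ with hK₁
  set K₂ := S ⊓ ⁅𝐂[V S], 𝐂[V S]⁆ with hK₂
  have main : S ⊓ ⁅(⊤ : Subgroup G), ⊤⁆ ≤ K₁ ⊔ K₂ := by
    refine tf_local_global hS (alpFam_fullyNormalized hS) _ (fun T => S ⊓ 𝐂[S] ≤ T)
      (fun T hT _ h => frattini_noncentric hT.1 hT.2 fun h' =>
        h ((inf_le_inf_left _ (centralizer_anti hT.1)).trans h'))
      fun T hT hT0 hZ ih => ?_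
    refine le_trans (hloc' T hT.1 hZ _ hT.2) (tr_le_iff.2 ?_)
    have hp' : IsPGroup p (S ⊓ 𝐍[T] : Subgroup G) := hS.isPGroup.to_inf_left
    have hR0 : S ⊓ 𝐍[T] ≠ ⊥ := fun h0 => hT0 (le_bot_iff.1 (h0 ▸ le_inf hT.1 le_normalizer))
    rintro _ (rfl | rfl)
    · by_cases hR : S ⊓ 𝐍[T] = S
      · rw [hR]
        exact (inf_le_inf_left _ (commutator_mono inf_le_right inf_le_right)).trans le_sup_left
      · have e : S ⊓ 𝐍[T] ≤ S ⊓ 𝐍[W (S ⊓ 𝐍[T])] :=
          le_inf inf_le_left (le_normalizer.trans (cf_normalizer_le hW hp'))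
        exact le_trans (inf_le_inf e (commutator_mono inf_le_right inf_le_right))
          (ih (W (S ⊓ 𝐍[T])) ((cf_le hW hp').trans inf_le_left) (cf_ne_bot hW hp' hR0)
          (card_lt_of_ne hW hS.isPGroup inf_le_left hR)
          (fun g hg => center_le_cj_functor hS.isPGroup hW hWZ hT.1 hT.2 hg))
    · have := centralizer_anti (hVmono _ _ hS.isPGroup hp' hS0 hR0
        (center_le_center_normalizer hT.1))
      exact (inf_le_inf inf_le_left (commutator_mono (inf_le_right.trans this)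
        (inf_le_right.trans this))).trans le_sup_right
  have hN : S ≤ 𝐍[W S] := le_normalizer.trans (cf_normalizer_le hW hS.isPGroup)
  have hn : K₂ ≤ 𝐍[K₁] := inf_le_left.trans (le_normalizer_inf le_normalizer
    (le_normalizer_commutator (le_normalizer_of_le hN) (le_normalizer_of_le hN)))
  refine ⟨S, hS.isPGroup, by simpa using hS.not_dvd, fun x => ⟨fun hx => ?_, ?_⟩⟩
  · exact (mem_sup_of_le_normalizer_left hn).1 (main hx)
  · rintro ⟨a, ha, b, hb, rfl⟩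
    exact ⟨mul_mem ha.1 hb.1, mul_mem (commutator_mono le_top le_top ha.2)
      (commutator_mono le_top le_top hb.2)⟩

end Cfsg.Agent.S2001
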