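import Cfsg.Statements.S2002
import Cfsg.Agent.L0.Central

set_option autoImplicit false
open Cfsg

namespace Cfsg.Agent.S2002

open Subgroup Cfsg.Agent.H24 Cfsg.Agent.H3 Cfsg.Agent.L0


/-- Let p be a prime dividing the order of the finite group G, P a Sylow p-subgroup, W a conjugacy functor for p on G with Z(H) ≤ W(H) for every nontrivial p-subgroup H, and V a central functor (a conjugacy functor with V(H) ≤ Z(H), and V(H) ≤ V(K) whenever Z(H) ≤ Z(K)). Say that W with V controls strong fusion in a subgroup L when some Sylow p-subgroup Q of L has the property: whenever X ⊆ Q and a ∈ L with a⁻¹Xa ⊆ Q, then a = c b with c ∈ C_L(X) and b = b₁ ⋯ bₙ a product of elements each in N_L(W(Q)) or in C_L(V(Q)) such that every partial conjugate (b₁ ⋯ bₖ)⁻¹ X (b₁ ⋯ bₖ) lies in Q. If W with V controls strong fusion in N_G(H) for every subgroup H with Z(P) ≤ H ≤ P, then W with V controls strong fusion in G. -/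
theorem result {G : Type*} [Group G] [Finite G] {p : ℕ} [Fact p.Prime] (hdiv : p ∣ Nat.card G) (P : Sylow p G) (W V : Subgroup G → Subgroup G) (hW : Cfsg.IsConjugacyFunctor p W) (hV : Cfsg.IsConjugacyFunctor p V) (hWZ : ∀ H : Subgroup G, IsPGroup p ↥H → H ⊓ Subgroup.centralizer ((H : Subgroup G) : Set G) ≤ W H) (hVZ : ∀ H : Subgroup G, IsPGroup p ↥H → V H ≤ H ⊓ Subgroup.centralizer ((H : Subgroup G) : Set G)) (hVmono : ∀ H K : Subgroup G, IsPGroup p ↥H → IsPGroup p ↥K → H ≠ ⊥ → K ≠ ⊥ → H ⊓ Subgroup.centralizer ((H : Subgroup G) : Set G) ≤ K ⊓ Subgroup.centralizer ((K : Subgroup G) : Set G) → V H ≤ V K) (hloc : ∀ H : Subgroup G, (P : Subgroup G) ⊓ Subgroup.centralizer (((P : Subgroup G) : Subgroup G) : Set G) ≤ H → H ≤ (P : Subgroup G) → ∃ Q : Subgroup G, Q ≤ Subgroup.normalizer ((H : Subgroup G) : Set G) ∧ IsPGroup p ↥Q ∧ ¬ p ∣ (Q).relIndex (Subgroup.normalizer ((H : Subgroup G) : Set G)) ∧ ∀ (X : Set G) (a :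 G), X ⊆ Q → a ∈ Subgroup.normalizer ((H : Subgroup G) : Set G) → (fun x => a⁻¹ * x * a) '' X ⊆ Q → ∃ c ∈ Subgroup.normalizer ((H : Subgroup G) : Set G) ⊓ Subgroup.centralizer X, ∃ (n : ℕ) (b : Fin n → G), (∀ i, b i ∈ Subgroup.normalizer ((H : Subgroup G) : Set G) ⊓ Subgroup.normalizer ((W Q : Subgroup G) : Set G) ∨ b i ∈ Subgroup.normalizer ((H : Subgroup G) : Set G) ⊓ Subgroup.centralizer ((V Q : Subgroup G) : Set G)) ∧ a = c * (List.ofFn b).prod ∧ ∀ k : ℕ, k ≤ n → (fun x => (((List.ofFn b).take k).prod)⁻¹ * x * ((List.ofFn b).take k).prod) '' ((fun x => c⁻¹ * x * c) '' X) ⊆ Q) : ∃ Q : Subgroup G, IsPGroup p ↥Q ∧ ¬ p ∣ Q.index ∧ ∀ (X : Set G) (a : G), X ⊆ Q → (fun x => a⁻¹ * x * a) '' X ⊆ Q → ∃ c ∈ Subgroup.centralizer X, ∃ (n : ℕ) (b : Fin n → G), (∀ i, b i ∈ ⊤ ⊓ Subgroup.normalizer ((W Q : Subgroup G) : Set G) ∨ b i ∈ ⊤ ⊓ Subgroup.centralizer ((V Q : Subgroup G) : Set G)) ∧ a = c * (List.ofFn b).prod ∧ ∀ k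 : ℕ, k ≤ n → (fun x => (((List.ofFn b).take k).prod)⁻¹ * x * ((List.ofFn b).take k).prod) '' ((fun x => c⁻¹ * x * c) '' X) ⊆ Q := by
  have hS := sylowIn_top P
  set S := (P : Subgroup G) with hSdef
  have hS0 : S ≠ ⊥ := fun h => (hS.eq_bot_iff.1 h) (by simpa using hdiv)
  let Φ : Subgroup G → Subgroup G → Set (Subgroup G) := fun H Q => {H ⊓ 𝐍[W Q], H ⊓ 𝐂[V Q]}
  have hloc' : ∀ T ≤ S, S ⊓ 𝐂[S] ≤ T → ∀ R, SylowIn p R 𝐍[T] → SF (Φ 𝐍[T] R) R 𝐍[T] := by
    intro T hT hZ R hR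
    obtain ⟨Q, h1, h2, h3, h4⟩ := hloc T hZ hT
    have hQ : SF (Φ 𝐍[T] Q) Q 𝐍[T] := by
      intro A hA h hh hAh
      obtain ⟨c, hc, n, b, e1, e2, e3⟩ := h4 A h⁻¹ hA (inv_mem hh) (by
        rintro _ ⟨a, ha, rfl⟩
        simpa using hAh (conj_mem_cj ha h))
      have := Fac.of_list (𝓝 := Φ 𝐍[T] Q) (S := Q) hc.2 (List.ofFn b) (fun x hx => by
        obtain ⟨i, rfl⟩ := (List.mem_ofFn' _ _).1 hx
        rcases e1 i with h | h
        · exact ⟨_, Or.inl rfl, h⟩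
        · exact ⟨_, Or.inr rfl, h⟩) (fun k hk => by
        rw [cj_le_iff']
        intro a ha
        have := e3 k (by simpa using hk) ⟨_, ⟨a, ha, rfl⟩, rfl⟩
        have e : c⁻¹ * a * c = a := by
          simpa using mem_centralizer_iff_conj.1 (inv_mem hc.2) a ha
        simpa [e] using this)
      rwa [← e2, inv_inv] at this
    obtain ⟨g, hg, rfl⟩ := syl_exists_cj ⟨h1, h2, h3⟩ hR
    have := hQ.map (MulAut.conj g).injective (𝓝' := Φ 𝐍[T] (cj Q g)) (by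
      rintro _ (rfl | rfl)
      · refine ⟨_, Or.inl rfl, ?_⟩
        rw [map_conj_eq_cj, cj_inf, cj_normalizer, cj_normalizer, cf_cj hW h2,
          cj_eq_of_mem_normalizer hg]
      · refine ⟨_, Or.inr rfl, ?_⟩
        rw [map_conj_eq_cj, cj_inf, cj_normalizer, cj_centralizer, cf_cj hV h2,
          cj_eq_of_mem_normalizer hg])
    rwa [map_conj_eq_cj, map_conj_eq_cj, cj_eq_of_mem hg] at this
  have main : SF (Φ ⊤ S) S ⊤ := by
    refine sf_local_global hS.isPGroup (alpFam_fullyNormalized hS) _ (fun T => S ⊓ 𝐂[S] ≤ T)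
      (fun T hT _ h => frattini_noncentric hT.1 hT.2 fun h' =>
        h ((inf_le_inf_left _ (centralizer_anti hT.1)).trans h'))
      fun T hT hT0 hZ ih B hB x hx hBx => ?_
    refine (hloc' T hT.1 hZ _ hT.2 B hB x hx hBx).trans inf_le_left ?_
    have hp' : IsPGroup p (S ⊓ 𝐍[T] : Subgroup G) := hS.isPGroup.to_inf_left
    have hR0 : S ⊓ 𝐍[T] ≠ ⊥ := fun h0 => hT0 (le_bot_iff.1 (h0 ▸ le_inf hT.1 le_normalizer))
    rintro _ (rfl | rfl) y hy C hC hCy
    · by_cases hR : S ⊓ 𝐍[T] = S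
      · rw [hR] at hy hC hCy
        exact Fac.single hC (Or.inl rfl) ⟨mem_top _, hy.2⟩ hCy
      · have e : S ⊓ 𝐍[T] ≤ S ⊓ 𝐍[W (S ⊓ 𝐍[T])] :=
          le_inf inf_le_left (le_normalizer.trans (cf_normalizer_le hW hp'))
        exact ih (W (S ⊓ 𝐍[T])) ((cf_le hW hp').trans inf_le_left) (cf_ne_bot hW hp' hR0)
          (card_lt_of_ne hW hS.isPGroup inf_le_left hR)
          (fun g hg => center_le_cj_functor hS.isPGroup hW hWZ hT.1 hT.2 hg) C (hC.trans e)
          y hy.2 (hCy.trans e)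
    · refine Fac.single (hC.trans inf_le_left) (Or.inr rfl) ⟨mem_top _, ?_⟩
        (hCy.trans inf_le_left)
      exact centralizer_anti (hVmono _ _ hS.isPGroup hp' hS0 hR0
        (center_le_center_normalizer hT.1)) hy.2
  refine ⟨S, hS.isPGroup, by simpa using hS.not_dvd, fun X a hX hXa => ?_⟩
  obtain ⟨c, hc, l, e1, e2, e3⟩ := (main (closure X) ((closure_le _).2 hX) a⁻¹ (mem_top _)
    (cj_closure_le_iff.2 (by simpa using hXa))).exists_list
  have hc' : c ∈ centralizer X := by rwa [centralizer_closure] at hc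
  refine ⟨c, hc', l.length, l.get, fun i => ?_, by simpa using e2, fun k hk => ?_⟩
  · obtain ⟨_, rfl | rfl, h⟩ := e1 _ (List.get_mem l i)
    · exact Or.inl h
    · exact Or.inr h
  · rintro _ ⟨_, ⟨x, hx, rfl⟩, rfl⟩
    have e : c⁻¹ * x * c = x := by
      simpa using mem_centralizer_iff_conj.1 (inv_mem hc) x (subset_closure hx)
    have := e3 k hk (conj_mem_cj (subset_closure hx) _)
    simpa [e] using this

end Cfsg.Agent.S2002
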