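import Cfsg.Statements.S2010
import Cfsg.Agent.H9.S4F3

set_option autoImplicit false
open Cfsg

namespace Cfsg.Agent.S2010

open Subgroup H24 H9K

/-- Let G be a finite solvable group with no section isomorphic to the symmetric group of degree 4, whose Sylow 2-subgroup S has nilpotency class at most 2. Then G = N_G(J_e(S)) · O_{2'}(G), where J_e(S) is the subgroup generated by the elementary abelian subgroups of S of largest order. -/
theorem result {G : Type*} [Group G] [Finite G]
    [Group.IsSolvable G] (hS4 : ¬ Cfsg.Involves (Equiv.Perm (Fin 4)) G) (S : Sylow 2 G)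
    (hcl : Subgroup.lowerCentralSeries (S : Subgroup G) 2 = ⊥) :
    Subgroup.normalizer ((Cfsg.thompsonSubgroupOf 2 (S : Subgroup G)) : Set G) ⊔ Cfsg.pPrimeCore 2 G = ⊤ := by
  rw [sup_comm]
  refine H9.pPrimeCore_sup_normalizer_eq_top (S.isPGroup'.to_le (H9.thompsonOf_le _ _)) ?_
  rw [H9.map_thompsonOf_of_disjoint (H9.inf_ker_mk'_pPrimeCore S.isPGroup')]
  have hS := sylIn_top (S.mapSurjective (QuotientGroup.mk'_surjective (pPrimeCore 2 G)))
  have h := J_le_O_of_class_two inferInstance (charP_top_iff.2
    (H1.centralizer_pCore_le_of_isSolvable inferInstance (H1.pPrimeCore_quotient_pPrimeCore 2)))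
    (fun h => hS4 (H9.involves_of_quotient _ (H9.involves_of_subgroup _ h))) hS (by
      rw [le_centralizer_iff_commutator, Sylow.coe_mapSurjective, ← map_commutator,
        ← map_commutator]
      exact (congrArg _ hcl).trans (Subgroup.map_bot _))
  rw [← Sylow.coe_mapSurjective (QuotientGroup.mk'_surjective _),
    ← H9.thompsonOf_eq_of_le h hS.pCoreOf_le]
  exact H9.thompsonOf_normal _ _

end Cfsg.Agent.S2010
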