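import Cfsg.Statements.S2163
import Cfsg.Agent.H13.Cols

set_option autoImplicit false
open Cfsg

namespace Cfsg.Agent.S2163

/-- Over a finite field of characteristic two and for n ≥ 3: for every ℓ with 1 ≤ ℓ and 2ℓ ≤ n, the matrix j_ℓ that is the identity plus the entries 1 in positions (n − ℓ + i, i) for i < ℓ (an identity block of size ℓ in the lower left corner) lies in SL_n(F), has order 2, and j_ℓ − 1 has rank ℓ. Together with the conjugacy criterion by rank, these matrices represent the conjugacy classes of involutions of SL_n(F). -/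
theorem result {F : Type*} [Field F] [Fintype F] [CharP F 2] {n : ℕ} (hn : 3 ≤ n) (ℓ : ℕ) (h1 : 1 ≤ ℓ) (h2 : 2 * ℓ ≤ n) :
    ∃ a : Matrix.SpecialLinearGroup (Fin n) F, (a : Matrix (Fin n) (Fin n) F) = 1 + Matrix.of (fun i j : Fin n => if j.val < ℓ ∧ i.val = j.val + (n - ℓ) then (1 : F) else 0) ∧ orderOf a = 2 ∧ ((a : Matrix (Fin n) (Fin n) F) - 1).rank = ℓ := by
  let f : Fin ℓ → Fin n := fun a => ⟨a, by omega⟩
  let g : Fin ℓ → Fin n := fun a => ⟨a + (n - ℓ), by omega⟩
  have hf : Function.Injective f := fun a b h => Fin.ext (by simpa [f] using h)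
  have hg : Function.Injective g := fun a b h => Fin.ext (by simpa [g] using h)
  have hfg : ∀ a b, f a ≠ g b := fun a b h => by simp only [f, g, Fin.mk.injEq] at h; omega
  have e : Matrix.of (fun i j : Fin n => if j.val < ℓ ∧ i.val = j.val + (n - ℓ) then (1 : F) else 0) =
      H13.cols F g * (H13.cols F f).transpose := by
    ext i j
    exact (H13.cols_mul_transpose_apply hg i j _ ⟨fun h => ⟨⟨j, h.1⟩, Fin.ext h.2.symm, rfl⟩,
      by rintro ⟨a, rfl, rfl⟩; exact ⟨a.2, rfl⟩⟩).symm
  have hr := H13.rank_mul_transpose_eq (H13.cols_transpose_mul_self (F := F) hg)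
    (H13.cols_transpose_mul_self hf)
  rw [Fintype.card_fin] at hr
  obtain ⟨a, h3, h4⟩ := H13.exists_SL_of_sq (N := H13.cols F g * (H13.cols F f).transpose)
    (by rw [Matrix.mul_assoc, ← Matrix.mul_assoc (H13.cols F f).transpose,
      H13.cols_transpose_mul_zero hfg]; simp) (by omega)
  exact ⟨a, e ▸ h3, h4, by rw [h3, add_sub_cancel_left, hr]⟩

end Cfsg.Agent.S2163
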