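import Cfsg.Statements.S2164
import Cfsg.Agent.H13.QEU

set_option autoImplicit false
open Cfsg

namespace Cfsg.Agent.S2164

/-- Conjugacy of involutions in the special unitary group SU_n(q), q even, n ≥ 3, realised over the field F with q² elements as the matrices of determinant 1 preserving the form Σ u_i v_i^q: for two elements of order 2 of SU_n(q) the following are equivalent — they are conjugate in SU_n(q); they are conjugate in SL_n(F); the matrices a − 1 and b − 1 have the same rank. -/
theorem result {F : Type*} [Field F] [Fintype F] [CharP F 2] {n q : ℕ} (hF : Fintype.card F = q ^ 2) (hn : 3 ≤ n) (a b : ↥(Cfsg.SU n F q)) (ha : orderOf a = 2) (hb : orderOf b = 2) :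
    (IsConj a b ↔ IsConj (a : Matrix.SpecialLinearGroup (Fin n) F) (b : Matrix.SpecialLinearGroup (Fin n) F)) ∧
    (IsConj a b ↔ (((a : Matrix.SpecialLinearGroup (Fin n) F) : Matrix (Fin n) (Fin n) F) - 1).rank = (((b : Matrix.SpecialLinearGroup (Fin n) F) : Matrix (Fin n) (Fin n) F) - 1).rank) := by
  have h1 : IsConj (a : Matrix.SpecialLinearGroup (Fin n) F) (b : Matrix.SpecialLinearGroup (Fin n) F) → _ :=
    fun h => H13.rank_sub_one_of_isConj (Matrix.SpecialLinearGroup.coeMonoidHom.map_isConj h)
  have h2 : (((a : Matrix.SpecialLinearGroup (Fin n) F) : Matrix (Fin n) (Fin n) F) - 1).rank = (((b : Matrix.SpecialLinearGroup (Fin n) F) : Matrix (Fin n) (Fin n) F) - 1).rank → IsConj a b := fun h => by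
    rw [← H13.isConj_equiv_iff (H12.suEquiv hF n)]
    refine H13.sd_isConj_SUG_two (H12.sd_uB hF n) (H12.frobq_ne_id hF)
      ((MulEquiv.orderOf_eq _ a).trans ha) ((MulEquiv.orderOf_eq _ b).trans hb) ?_
    rw [H13.rk1_eq_rank (H12.suEquiv_apply hF a), H13.rk1_eq_rank (H12.suEquiv_apply hF b), h]
  have h3 := (Cfsg.SU n F q).subtype.map_isConj (a := a) (b := b)
  exact ⟨⟨h3, fun h => h2 (h1 h)⟩, fun h => h1 (h3 h), h2⟩

end Cfsg.Agent.S2164
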