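import Cfsg.Statements.S2165
import Cfsg.Agent.H13.Cols

set_option autoImplicit false
open Cfsg

namespace Cfsg.Agent.S2165

/-- In SU_n(q), q even, n ≥ 3 (matrices of determinant 1 over the field with q² elements preserving Σ u_i v_i^q): for every ℓ with 1 ≤ ℓ and 2ℓ ≤ n, the permutation matrix of the involution of {0, …, n−1} exchanging i and n − ℓ + i for each i < ℓ lies in SU_n(q), has order 2, and differs from the identity by a matrix of rank ℓ. So every rank between 1 and n/2 occurs for involutions of SU_n(q). -/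
theorem result {F : Type*} [Field F] [Fintype F] [CharP F 2] {n q : ℕ} (hF : Fintype.card F = q ^ 2) (hn : 3 ≤ n) (ℓ : ℕ) (h1 : 1 ≤ ℓ) (h2 : 2 * ℓ ≤ n) :
    ∃ a : ↥(Cfsg.SU n F q), (((a : Matrix.SpecialLinearGroup (Fin n) F) : Matrix (Fin n) (Fin n) F) = Matrix.of (fun i j : Fin n => if (j.val < ℓ ∧ i.val = j.val + (n - ℓ)) ∨ (i.val < ℓ ∧ j.val = i.val + (n - ℓ)) ∨ (i = j ∧ ℓ ≤ i.val ∧ i.val < n - ℓ) then (1 : F) else 0)) ∧ orderOf a = 2 ∧ ((((a : Matrix.SpecialLinearGroup (Fin n) F) : Matrix (Fin n) (Fin n) F)) - 1).rank = ℓ := by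
  let f : Fin ℓ → Fin n := fun a => ⟨a, by omega⟩
  let g : Fin ℓ → Fin n := fun a => ⟨a + (n - ℓ), by omega⟩
  have hf : Function.Injective f := fun a b h => Fin.ext (by simpa [f] using h)
  have hg : Function.Injective g := fun a b h => Fin.ext (by simpa [g] using h)
  have hfg : ∀ a b, f a ≠ g b := fun a b h => by simp only [f, g, Fin.mk.injEq] at h; omega
  set X := H13.cols F f + H13.cols F g with hX
  have e : Matrix.of (fun i j : Fin n => if (j.val < ℓ ∧ i.val = j.val + (n - ℓ)) ∨ (i.val < ℓ ∧ j.val = i.val + (n - ℓ)) ∨ (i = j ∧ ℓ ≤ i.val ∧ i.val < n - ℓ) then (1 : F) else 0) =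
      1 + X * X.transpose := by
    ext i j
    rw [hX, Matrix.transpose_add, Matrix.add_mul, Matrix.mul_add, Matrix.mul_add]
    simp only [Matrix.add_apply, Matrix.of_apply, Matrix.one_apply]
    rw [H13.cols_mul_transpose_apply hf i j (i.val < ℓ ∧ i.val = j.val)
        ⟨fun h => ⟨⟨i, h.1⟩, rfl, Fin.ext h.2⟩, by rintro ⟨a, rfl, rfl⟩; exact ⟨a.2, rfl⟩⟩,
      H13.cols_mul_transpose_apply hf i j (i.val < ℓ ∧ j.val = i.val + (n - ℓ))
        ⟨fun h => ⟨⟨i, h.1⟩, rfl, Fin.ext h.2.symm⟩, by rintro ⟨a, rfl, rfl⟩; exact ⟨a.2, rfl⟩⟩,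
      H13.cols_mul_transpose_apply hg i j (j.val < ℓ ∧ i.val = j.val + (n - ℓ))
        ⟨fun h => ⟨⟨j, h.1⟩, Fin.ext h.2.symm, rfl⟩, by rintro ⟨a, rfl, rfl⟩; exact ⟨a.2, rfl⟩⟩,
      H13.cols_mul_transpose_apply hg i j (n - ℓ ≤ i.val ∧ i.val = j.val)
        ⟨fun h => ⟨⟨i - (n - ℓ), by omega⟩, Fin.ext (by simp only [g]; omega),
          Fin.ext (by simp only [g]; omega)⟩, by rintro ⟨a, rfl, rfl⟩; simp [g]⟩]
    simp only [Fin.ext_iff]
    split_ifs <;> first | omega | simp [CharTwo.add_self_eq_zero]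
  have h3 : (H13.cols F f).transpose * X = 1 := by
    rw [hX, Matrix.mul_add, H13.cols_transpose_mul_self hf, H13.cols_transpose_mul_zero hfg, add_zero]
  have h4 : (H13.cols F g).transpose * X = 1 := by
    rw [hX, Matrix.mul_add, H13.cols_transpose_mul_self hg,
      H13.cols_transpose_mul_zero fun a b => (hfg b a).symm, zero_add]
  have hr := H13.rank_mul_transpose_eq h3 h3
  rw [Fintype.card_fin] at hr
  have h5 : X.transpose * X = 0 := by
    conv_lhs => rw [hX, Matrix.transpose_add, ← hX]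
    rw [Matrix.add_mul, h3, h4, ← two_smul F, CharTwo.two_eq_zero, zero_smul]
  obtain ⟨a, h6, h7⟩ := H13.exists_SL_of_sq (N := X * X.transpose)
    (by rw [Matrix.mul_assoc, ← Matrix.mul_assoc X.transpose, h5]; simp) (by omega)
  obtain ⟨σ, hσ, -⟩ := H28.exists_frob_two hF
  have h8 : H28.cT σ (a : Matrix (Fin n) (Fin n) F) = a := by
    have h9 : (a : Matrix (Fin n) (Fin n) F).map σ = a := by
      rw [h6, ← e]; ext i j; simp [apply_ite σ]
    rw [H28.cT, h9, h6]; simp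
  refine ⟨⟨a, (H28.mem_SU_iff hσ).2 ?_⟩, e ▸ h6, (Subgroup.orderOf_mk _ _).trans h7,
    by rw [h6, add_sub_cancel_left, hr]⟩
  rw [h8, ← Matrix.SpecialLinearGroup.coe_mul, ← pow_two, ← h7, pow_orderOf_eq_one]; rfl

end Cfsg.Agent.S2165
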