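import Cfsg.Statements.S2166
import Cfsg.Agent.H13.Inv2Sp

set_option autoImplicit false
open Cfsg

namespace Cfsg.Agent.S2166

/-- Conjugacy of involutions in the symplectic group Sp_{2m}(F), F a finite field of characteristic two, m ≥ 2 (Sp taken as the matrices A with A J Aᵀ = J, acting on column vectors, with the alternating form f(u, v) = u ⬝ (J v)). For an involution t write V(t) for the set of vectors v with f(v, t v) = 0 (a subspace). Two involutions a, b are conjugate in Sp_{2m}(F) exactly when a − 1 and b − 1 have the same rank and, in case that rank is even, V(a) and V(b) have the same number of elements. -/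
theorem result {F : Type*} [Field F] [Fintype F] [CharP F 2] {m : ℕ} (hm : 2 ≤ m) (a b : ↥(Matrix.symplecticGroup (Fin m) F)) (ha : orderOf a = 2) (hb : orderOf b = 2) :
    IsConj a b ↔ ((((a : ↥(Matrix.symplecticGroup (Fin m) F)) : Matrix (Fin m ⊕ Fin m) (Fin m ⊕ Fin m) F) - 1).rank = (((b : ↥(Matrix.symplecticGroup (Fin m) F)) : Matrix (Fin m ⊕ Fin m) (Fin m ⊕ Fin m) F) - 1).rank ∧
      (Even (((a : ↥(Matrix.symplecticGroup (Fin m) F)) : Matrix (Fin m ⊕ Fin m) (Fin m ⊕ Fin m) F) - 1).rank → Nat.card {v : Fin m ⊕ Fin m → F // Cfsg.sympForm m F v (Matrix.mulVec ((a : ↥(Matrix.symplecticGroup (Fin m) F)) : Matrix (Fin m ⊕ Fin m) (Fin m ⊕ Fin m) F) v) = 0} = Nat.card {v : Fin m ⊕ Fin m → F // Cfsg.sympForm m F v (Matrix.mulVec ((b : ↥(Matrix.symplecticGroup (Fin m) F)) : Matrix (Fin m ⊕ Fin m) (Fin m ⊕ Fin m) F) v) = 0})) := by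
  have h1 := H13.sq_sp (ha ▸ pow_orderOf_eq_one a)
  have h1' := H13.sq_sp (hb ▸ pow_orderOf_eq_one b)
  obtain ⟨h2, h3⟩ := (H13.isIsom_UG _).card_alt_zero H12.sd_spB.wittData h1
  obtain ⟨h2', h3'⟩ := (H13.isIsom_UG _).card_alt_zero H12.sd_spB.wittData h1'
  simp only [H13.spB_sub1] at h2 h3 h2' h3'
  have h4 := (H13.isIsom_UG _).even_of_alt H12.sd_spB.wittData h1
  have h4' := (H13.isIsom_UG _).even_of_alt H12.sd_spB.wittData h1'
  rw [← H13.isConj_equiv_iff (H12.spEquiv (Fin m) F),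
    (H13.isIsom_UG _).isConj_iff_two H12.sd_spB.wittData h1 h1', ← H13.rk1_sp, ← H13.rk1_sp]
  have hq : 2 ≤ Nat.card F := Finite.one_lt_card
  have hV : 0 < Nat.card (Fin m ⊕ Fin m → F) := Nat.card_pos
  refine and_congr_right fun hr => ⟨fun h _ => ?_, fun h => ⟨fun h5 => ?_, fun h5 => ?_⟩⟩
  · by_cases h5 : H13.Alt (H12.spB (Fin m) F) (H12.spEquiv _ F a)
    · rw [h2 h5, h2' (h.1 h5)]
    · exact Nat.eq_of_mul_eq_mul_right (by omega) ((h3 h5).trans (h3' (mt h.2 h5)).symm)
  · by_contra h6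
    have := h3' h6
    rw [← h (h4 h5), h2 h5] at this
    nlinarith
  · by_contra h6
    have := h3 h6
    rw [h (hr ▸ h4' h5), h2' h5] at this
    nlinarith

end Cfsg.Agent.S2166
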