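import Cfsg.Statements.S2178
import Cfsg.Agent.H14.CentTab

set_option autoImplicit false
open Cfsg

namespace Cfsg.Agent.S2178

/-- Centralizers of the long and the short root involutions in the Chevalley group G of type F₄ over a finite field F of characteristic two (this problem's root numbering for type F₄, from the Chevalley data module: fundamental roots p₁, p₂ short, p₃, p₄ long, with indices 33, 27, 25, 24, their negatives 14, 20, 22, 23; highest root 47, highest short root 44; U the subgroup generated by the positive root subgroups). For an element t of G with matrix x_47(1): the centralizer of t in G is the subgroup generated by U and the root subgroups X_{−p₁}, X_{−p₂}, X_{−p₃} (the unipotent radical of the maximal parabolic subgroup whose Levi factor has fundamental roots p₁, p₂, p₃, together with that Levi factor's root subgroups; the Levi factor is of type C₃). For an element u of G with matrix x_44(1): the centralizer of u in G is generated by U and X_{−p₂}, X_{−p₃}, X_{−p₄} (the same construction for the Levi factor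 with fundamental roots p₂, p₃, p₄, of type B₃). -/
theorem result {F : Type*} [Field F] [Fintype F] [CharP F 2] (t u : GL Cfsg.Lie.chevF4.Idx F) (ht : (t : Matrix Cfsg.Lie.chevF4.Idx Cfsg.Lie.chevF4.Idx F) = Cfsg.Lie.chevF4.x F 47 1) (hu : (u : Matrix Cfsg.Lie.chevF4.Idx Cfsg.Lie.chevF4.Idx F) = Cfsg.Lie.chevF4.x F 44 1) :
    Cfsg.Lie.chevF4.group F ⊓ Subgroup.centralizer {t} = Cfsg.Lie.chevF4.posUnipotent F ⊔ Cfsg.Lie.chevF4.rootSubgroup F 14 ⊔ Cfsg.Lie.chevF4.rootSubgroup F 20 ⊔ Cfsg.Lie.chevF4.rootSubgroup F 22 ∧
    Cfsg.Lie.chevF4.group F ⊓ Subgroup.centralizer {u} = Cfsg.Lie.chevF4.posUnipotent F ⊔ Cfsg.Lie.chevF4.rootSubgroup F 20 ⊔ Cfsg.Lie.chevF4.rootSubgroup F 22 ⊔ Cfsg.Lie.chevF4.rootSubgroup F 23 := by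
  have G := H14.goodF4
  have hp : ((2 : ℕ) : F) = 0 := CharP.cast_eq_zero F 2
  simp (disch := decide) only [G.U_eq', G.rootSubgroup_eq', ← H14.RG0.gen_union]
  exact ⟨G.centralizer_tab F (H14.connF4 G) hp (S := [47]) (Θ := [47]) (E := []) (J := [0, 1, 2]) (A := [47])
      (σ := id) (τ := id) (m := 1) (y := 1) (P := fun r => ((Lie.chevF4.IsPosRoot r ∨ r = 14) ∨ r = 20) ∨ r = 22)
      (by decide +kernel) (by simpa using ht),
    G.centralizer_tab F (H14.connF4 G) hp (S := [44]) (Θ := [44]) (E := []) (J := [1, 2, 3]) (A := [44])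
      (σ := id) (τ := id) (m := 1) (y := 1) (P := fun r => ((Lie.chevF4.IsPosRoot r ∨ r = 20) ∨ r = 22) ∨ r = 23)
      (by decide +kernel) (by simpa using hu)⟩

end Cfsg.Agent.S2178
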