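import Cfsg.Statements.S2179
import Cfsg.Agent.H14.CentTab

set_option autoImplicit false
open Cfsg

namespace Cfsg.Agent.S2179

/-- Centralizers of the two remaining classes of involutions in the Chevalley group G of type F₄ over a finite field F of characteristic two (this problem's root numbering for type F₄, from the Chevalley data module: p₁, p₂ short, p₃, p₄ long with indices 33, 27, 25, 24 and negatives 14, 20, 22, 23; U generated by the positive root subgroups). For an element of G with matrix x_47(1)x_44(1) (highest root times highest short root): its centralizer in G is generated by U, X_{−p₂} and X_{−p₃}. For an element of G with matrix x_39(1)x_45(1) (roots (1,2,2,1) and (2,4,2,1), an orthogonal short/long pair): its centralizer in G is generated by X_{p₁}, X_{−p₁}, X_{p₄}, X_{−p₄} and the root subgroups of all positive roots other than p₂ (27), p₃ (25), p₁ + p₂ (34) and p₃ + p₄ (26). -/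
theorem result {F : Type*} [Field F] [Fintype F] [CharP F 2] (w v : GL Cfsg.Lie.chevF4.Idx F) (hw : (w : Matrix Cfsg.Lie.chevF4.Idx Cfsg.Lie.chevF4.Idx F) = Cfsg.Lie.chevF4.x F 47 1 * Cfsg.Lie.chevF4.x F 44 1) (hv : (v : Matrix Cfsg.Lie.chevF4.Idx Cfsg.Lie.chevF4.Idx F) = Cfsg.Lie.chevF4.x F 39 1 * Cfsg.Lie.chevF4.x F 45 1) :
    Cfsg.Lie.chevF4.group F ⊓ Subgroup.centralizer {w} = Cfsg.Lie.chevF4.posUnipotent F ⊔ Cfsg.Lie.chevF4.rootSubgroup F 20 ⊔ Cfsg.Lie.chevF4.rootSubgroup F 22 ∧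
    Cfsg.Lie.chevF4.group F ⊓ Subgroup.centralizer {v} = Cfsg.Lie.chevF4.rootSubgroup F 33 ⊔ Cfsg.Lie.chevF4.rootSubgroup F 14 ⊔ Cfsg.Lie.chevF4.rootSubgroup F 24 ⊔ Cfsg.Lie.chevF4.rootSubgroup F 23 ⊔
      Subgroup.closure {g : GL Cfsg.Lie.chevF4.Idx F | ∃ (r : ℕ) (c : F), Cfsg.Lie.chevF4.IsPosRoot r ∧ r ∉ [27, 25, 34, 26] ∧ (g : Matrix Cfsg.Lie.chevF4.Idx Cfsg.Lie.chevF4.Idx F) = Cfsg.Lie.chevF4.x F r c} := by
  have G := H14.goodF4
  have hp : ((2 : ℕ) : F) = 0 := CharP.cast_eq_zero F 2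
  have e := G.closure_eq_gen F (P := fun r => Lie.chevF4.IsPosRoot r ∧ r ∉ [27, 25, 34, 26]) fun r h => h.1.1
  simp only [and_assoc] at e
  rw [e]
  simp (disch := decide) only [G.U_eq', G.rootSubgroup_eq', ← H14.RG0.gen_union]
  exact ⟨G.centralizer_tab F (H14.connF4 G) hp (S := [47, 44]) (Θ := [47, 44]) (E := []) (J := [1, 2]) (A := [39, 45])
      (σ := id) (τ := id) (m := 1) (y := fun i θ => if (i = 0 ↔ θ = 44) then 1 else 0)
      (P := fun r => (Lie.chevF4.IsPosRoot r ∨ r = 20) ∨ r = 22) (by decide +kernel) (by simpa using hw),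
    G.centralizer_tab F (H14.connF4 G) hp (S := [39, 40, 44, 45, 46, 47]) (Θ := [39, 45]) (E := [27, 25, 34, 26])
      (J := [0, 3]) (A := [39, 45]) (σ := fun e => if e = 27 then 40 else if e = 34 then 44 else e + 21)
      (τ := fun e => if e ≤ 26 then 45 else 39) (m := fun θ => if θ = 39 then 3 else 2)
      (y := fun i θ => if i = 2 ∧ θ = 39 then 2 else 1)
      (P := fun r => (((r = 33 ∨ r = 14) ∨ r = 24) ∨ r = 23) ∨ Lie.chevF4.IsPosRoot r ∧ r ∉ [27, 25, 34, 26])
      (by decide +kernel) (by simpa using hv)⟩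

end Cfsg.Agent.S2179
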