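import Cfsg.Statements.S2180
import Cfsg.Agent.H14.CentTab

set_option autoImplicit false
open Cfsg

namespace Cfsg.Agent.S2180

/-- Centralizers of involutions in the Chevalley group G of type G₂ over a finite field F of characteristic two with at least four elements (this problem's root numbering for type G₂, from the Chevalley data module: a = p₁ short with index 7, b = p₂ long with index 6, −a = 4, −b = 5, 2a + b = 9, 3a + b = 10, 3a + 2b = 11; U generated by the positive root subgroups). For an element z of G with matrix x_{3a+2b}(1): the centralizer of z in G is generated by U and X_{−a}. For an element t of G with matrix x_{2a+b}(1): the centralizer of t in G is generated by X_{2a+b}, X_{3a+b}, X_{3a+2b}, X_b and X_{−b}. -/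
theorem result {F : Type*} [Field F] [Fintype F] [CharP F 2] (hF : 4 ≤ Fintype.card F) (z t : GL Cfsg.Lie.chevG2.Idx F) (hz : (z : Matrix Cfsg.Lie.chevG2.Idx Cfsg.Lie.chevG2.Idx F) = Cfsg.Lie.chevG2.x F 11 1) (ht : (t : Matrix Cfsg.Lie.chevG2.Idx Cfsg.Lie.chevG2.Idx F) = Cfsg.Lie.chevG2.x F 9 1) :
    Cfsg.Lie.chevG2.group F ⊓ Subgroup.centralizer {z} = Cfsg.Lie.chevG2.posUnipotent F ⊔ Cfsg.Lie.chevG2.rootSubgroup F 4 ∧
    Cfsg.Lie.chevG2.group F ⊓ Subgroup.centralizer {t} = Cfsg.Lie.chevG2.rootSubgroup F 9 ⊔ Cfsg.Lie.chevG2.rootSubgroup F 10 ⊔ Cfsg.Lie.chevG2.rootSubgroup F 11 ⊔ Cfsg.Lie.chevG2.rootSubgroup F 6 ⊔ Cfsg.Lie.chevG2.rootSubgroup F 5 := by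
  have G := H14.goodG2
  have hp : ((2 : ℕ) : F) = 0 := CharP.cast_eq_zero F 2
  simp (disch := decide) only [G.U_eq', G.rootSubgroup_eq', ← H14.RG0.gen_union]
  exact ⟨G.centralizer_tab F (H14.connG2 G) hp (S := [11]) (Θ := [11]) (E := []) (J := [0]) (A := [11])
      (σ := id) (τ := id) (m := 1) (y := 1) (P := fun r => Lie.chevG2.IsPosRoot r ∨ r = 4)
      (by decide +kernel) (by simpa using hz),
    G.centralizer_tab F (H14.connG2 G) hp (S := [9, 10, 11]) (Θ := [9]) (E := [7, 8]) (J := [1]) (A := [9])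
      (σ := (· + 3)) (τ := fun _ => 9) (m := 1) (y := 1)
      (P := fun r => (((r = 9 ∨ r = 10) ∨ r = 11) ∨ r = 6) ∨ r = 5) (by decide +kernel) (by simpa using ht)⟩

end Cfsg.Agent.S2180
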