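import Cfsg.Statements.S2181
import Cfsg.Agent.H14.Inv2

set_option autoImplicit false
open Cfsg

namespace Cfsg.Agent.S2181

/-- The Chevalley group of type E₇ over a finite field of characteristic two (the matrix group generated by the root elements) has exactly five conjugacy classes of elements of order 2. -/
theorem result {F : Type*} [Field F] [Fintype F] [CharP F 2] :
    (ConjClasses.mk '' {g : ↥(Cfsg.Lie.chevE7.group F) | orderOf g = 2}).ncard = 5 := by
  obtain ⟨h1, h2, h3⟩ := (H14.invol_classes (F := F) H14.goodE7 H14.bridgeE7 (by decide) (fun _ _ h => (H14.goodE7.rgD F).commute_sl (H14.slE7 _) h.ge)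
    [([125], 34), ([92, 125], 52), ([63, 92, 125], 53), ([87, 92, 125], 62), ([87, 63, 92, 125], 63)]
    [([78, 73, 66, 87, 63, 92, 125], [6, 78, 87, 125, 6, 78, 87, 125], [78, 73, 66, 87, 92, 125]),
      ([78, 73, 66, 87, 92, 125], [4, 78, 92, 125, 4, 78, 92, 125], [78, 73, 87, 92, 125]),
      ([78, 73, 87, 63, 92, 125], [6, 78, 87, 125, 6, 78, 87, 125], [78, 73, 87, 92, 125]),
      ([78, 66, 87, 63, 92, 125], [6, 78, 87, 125, 6, 78, 87, 125], [78, 66, 87, 92, 125]),
      ([73, 66, 87, 63, 92, 125], [13, 66, 73, 125, 13, 66, 73, 125], [73, 66, 87, 92, 125]),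
      ([78, 73, 87, 92, 125], [2, 87, 92, 125, 2, 87, 92, 125], [78, 87, 92, 125]),
      ([78, 66, 87, 92, 125], [4, 78, 92, 125, 4, 78, 92, 125], [78, 87, 92, 125]),
      ([73, 66, 87, 92, 125], [2, 87, 92, 125, 2, 87, 92, 125], [66, 87, 92, 125]),
      ([78, 87, 63, 92, 125], [6, 78, 87, 125, 6, 78, 87, 125], [78, 87, 92, 125]),
      ([73, 87, 63, 92, 125], [2, 87, 92, 125, 2, 87, 92, 125], [87, 63, 92, 125]),
      ([66, 87, 63, 92, 125], [35, 66, 87, 92, 35, 66, 87, 92], [66, 87, 92, 125]),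
      ([78, 87, 92, 125], [98, 27, 98, 101, 24, 101], [87, 63, 92, 125]),
      ([73, 87, 92, 125], [2, 87, 92, 125, 2, 87, 92, 125], [87, 92, 125]),
      ([66, 87, 92, 125], [65, 60, 65, 67, 58, 67], [87, 63, 92, 125]), ([87, 63, 92, 125], [], [87, 63, 92, 125]),
      ([87, 92, 125], [], [87, 92, 125]), ([63, 92, 125], [], [63, 92, 125]), ([92, 125], [], [92, 125]), ([125], [], [125]),
      ([], [], [])]
    (by decide +kernel) (by decide +kernel) (by decide +kernel) (by simp))
  rw [show (5 : ℕ) = ([[125], [92, 125], [63, 92, 125], [87, 92, 125], [87, 63, 92, 125]] : List (List ℕ)).toFinset.card by decide,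
    ← Set.ncard_coe_finset, ← Set.InjOn.ncard_image (f := fun ρ => ConjClasses.mk (H14.gw H14.goodE7 F ρ))
      fun a ha b hb h => h3 a (by simpa using ha) b (by simpa using hb) (ConjClasses.mk_eq_mk_iff_isConj.1 h)]
  congr 1
  ext c
  exact ⟨fun ⟨g, hg, e⟩ => (h2 g hg).imp fun ρ h => ⟨by simpa using h.1, (ConjClasses.mk_eq_mk_iff_isConj.2 h.2).symm.trans e⟩,
    fun ⟨ρ, h, e⟩ => ⟨_, h1 ρ (by simpa using h), e⟩⟩

end Cfsg.Agent.S2181
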