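import Cfsg.Statements.S2186
import Cfsg.Agent.H14.CentTab

set_option autoImplicit false
open Cfsg

namespace Cfsg.Agent.S2186

/-- Let G be the Chevalley group of type G₂ (over a field with at least four elements), D₄, E₆, E₇ or E₈ over a finite field F of characteristic two, and let X be the root subgroup of the highest root (the last root index) — a long root subgroup, of order |F|. For every g in G, the subgroup generated by X and its conjugate g X g⁻¹ is either a 2-group or is conjugate by an element of G to the subgroup generated by X and the root subgroup of the lowest root (index 0, the negative of the highest root), which is a copy of SL₂(F). -/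
theorem result {F : Type*} [Field F] [Fintype F] [CharP F 2] (D : Cfsg.Lie.ChevalleyDatum) (hD : D ∈ [Cfsg.Lie.chevG2, Cfsg.Lie.chevD4, Cfsg.Lie.chevE6, Cfsg.Lie.chevE7, Cfsg.Lie.chevE8]) (hF : D = Cfsg.Lie.chevG2 → 4 ≤ Fintype.card F) (g : GL D.Idx F) (hg : g ∈ D.group F) :
    IsPGroup 2 ↥(D.rootSubgroup F (D.nroots - 1) ⊔ (D.rootSubgroup F (D.nroots - 1)).map (MulAut.conj g).toMonoidHom) ∨
    ∃ h ∈ D.group F, (D.rootSubgroup F (D.nroots - 1) ⊔ (D.rootSubgroup F (D.nroots - 1)).map (MulAut.conj g).toMonoidHom).map (MulAut.conj h).toMonoidHom = D.rootSubgroup F (D.nroots - 1) ⊔ D.rootSubgroup F 0 := by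
  have hD' : D ∈ [Lie.chevG2, Lie.chevB2, Lie.chevD4, Lie.chevF4, Lie.chevE6, Lie.chevE7, Lie.chevE8] := by
    simp only [List.mem_cons] at hD ⊢; tauto
  obtain ⟨G⟩ := H14.exists_good hD'
  have h : D.nroots - 1 < D.nroots ∧ D.neg (D.nroots - 1) = 0 ∧ ∀ r < D.nroots, D.IsPosRoot r →
      r = D.nroots - 1 ∨ H14.CommP D 2 r (D.nroots - 1) := by
    simp only [List.mem_cons, List.not_mem_nil, or_false] at hD
    rcases hD with rfl | rfl | rfl | rfl | rfl <;> decide +kernel
  obtain ⟨h1, h2, h3⟩ := h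
  set X := G.rg F
  obtain ⟨b, hb, s, e⟩ := X.exists_conj_pair (θ := ⟨_, h1⟩) (fun r hr t u => by
    rcases h3 r r.2 ((G.isPosRoot_iff r).2 hr) with h | h
    · rw [show r = ⟨_, h1⟩ from Fin.ext h]; exact X.x_comm _ _ _
    · simpa [H14.xN, h1] using h.commute G.chev_rg (CharP.cast_eq_zero F 2) t u) (G.grp_eq F ▸ hg)
  rw [G.rootSubgroup_eq F ⟨_, h1⟩, ← h2, ← G.neg_eq ⟨_, h1⟩, G.rootSubgroup_eq]
  by_cases hs : s = G.R.neg ⟨_, h1⟩
  · exact Or.inr ⟨b, G.grp_eq F ▸ X.B_le_grp hb, hs ▸ e⟩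
  · exact Or.inl ((e ▸ X.isPGroup_pair 2 hs).of_equiv (Subgroup.equivMapOfInjective _ _ (MulAut.conj b).injective).symm)

end Cfsg.Agent.S2186
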