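import Cfsg.Statements.S2189
import Cfsg.Agent.H15.Sf7

set_option autoImplicit false
open Cfsg

namespace Cfsg.Agent.S2189

/-- Finite subgroups of an adjoint Chevalley group over an algebraically closed field that contain the group over a finite subfield. Let k be an algebraically closed field of prime characteristic p, G the Chevalley group of type G₂, B₂, D₄, F₄, E₆, E₇ or E₈ over k (the matrix group generated by the root elements x_s(t), t ∈ k), and q = p^a with a ≥ 1. Let L be the subgroup generated by the root elements x_s(t) with t^q = t (the Chevalley group over the field of q elements inside G), and let M be a finite subgroup of G containing L. Then for some r ≥ 1, M contains every root element x_s(t) with t^(q^r) = t and every element of M is a matrix all of whose entries c satisfy c^(q^r) = c (so M lies between the Chevalley group over the field with q^r elements and the group of points of G fixed by the q^r-th power map). -/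
theorem result {k : Type*} [Field k] [IsAlgClosed k] (p : ℕ) [Fact p.Prime] [CharP k p] (D : Cfsg.Lie.ChevalleyDatum) (hD : D ∈ [Cfsg.Lie.chevG2, Cfsg.Lie.chevB2, Cfsg.Lie.chevD4, Cfsg.Lie.chevF4, Cfsg.Lie.chevE6, Cfsg.Lie.chevE7, Cfsg.Lie.chevE8]) (a : ℕ) (ha : 1 ≤ a) (M : Subgroup (GL D.Idx k)) (hMfin : Finite ↥M) (hMG : M ≤ D.group k)
    (hLM : Subgroup.closure {g : GL D.Idx k | ∃ (s : ℕ) (t : k), t ^ (p ^ a) = t ∧ (g : Matrix D.Idx D.Idx k) = D.x k s t} ≤ M) :
    ∃ r : ℕ, 1 ≤ r ∧ Subgroup.closure {g : GL D.Idx k | ∃ (s : ℕ) (t : k), t ^ ((p ^ a) ^ r) = t ∧ (g : Matrix D.Idx D.Idx k) = D.x k s t} ≤ M ∧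
      ∀ g ∈ M, ∀ i j : D.Idx, ((g : Matrix D.Idx D.Idx k) i j) ^ ((p ^ a) ^ r) = (g : Matrix D.Idx D.Idx k) i j := by
  obtain ⟨G⟩ := H14.exists_good hD
  simp only [H15.closure_le_iff G, ← pow_mul] at hLM ⊢
  have hp := (Fact.out : p.Prime).one_lt
  obtain ⟨-, ⟨i⟩⟩ := H14.conn_of_mem hD G
  have hb : ∀ r, 1 ≤ r → (∀ s t, t ^ p ^ (a * r) = t → (G.rg k).x s t ∈ M) → r ≤ Nat.card M := fun r h1 h2 => by
    have h3 := Set.ncard_le_ncard_of_injOn _ (fun t (ht : t ∈ {t : k | t ^ p ^ (a * r) = t}) => h2 (G.R.simple i) t ht)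
      ((G.rg k).x_injective _).injOn (Set.toFinite (M : Set (GL D.Idx k)))
    rw [H15.ncard_fix p (by positivity)] at h3
    exact ((Nat.le_mul_of_pos_left r ha).trans (Nat.lt_pow_self hp).le).trans h3
  obtain ⟨r, ⟨h1, h2⟩, h3⟩ := Set.exists_max_image {r | 1 ≤ r ∧ ∀ s t, t ^ p ^ (a * r) = t → (G.rg k).x s t ∈ M} id
    ((Set.finite_Iic _).subset fun r h => hb r h.1 h.2) ⟨1, le_rfl, by simpa using hLM⟩
  refine ⟨r, h1, h2, ?_⟩
  rcases H15.res_mem G (iterateFrobenius k p (a * r)) p hD M hMfin (G.grp_eq k ▸ hMG) h2 with h | ⟨E, h4, h5⟩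
  · exact fun g hg => (H15.map_eq_iff _).1 (h g hg)
  have : Finite E := (H15.Ax_finite (X := G.rg k) (Y := M) (G.R.simple i)).subset fun t ht => (h4 t).1 ht _
  obtain ⟨m, h6, h7⟩ := H15.exists_card_eq (σ := iterateFrobenius k p (a * r))
    ((Nat.card_coe_set_eq _).trans (H15.ncard_fix p (by positivity))) (fun t ht => (h4 t).2 fun s => h2 s t ht) h5
  have h8 : (E : Set k) = {t | t ^ p ^ (a * (r * m)) = t} := by
    refine Set.eq_of_subset_of_ncard_le (fun t ht => ?_) ?_ (Set.finite_of_ncard_pos ?_)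
    · have := Fintype.ofFinite E
      have e := congrArg Subtype.val (FiniteField.pow_card (⟨t, ht⟩ : E))
      rw [← Nat.card_eq_fintype_card, h7, ← pow_mul, mul_assoc] at e
      exact e
    · rw [H15.ncard_fix p (by positivity), ← mul_assoc, pow_mul, ← h7]; rfl
    · rw [H15.ncard_fix p (by positivity)]; positivity
  have h9 : r * m ≤ r := h3 (r * m) ⟨by nlinarith, fun s t ht => (h4 t).1 (h8.ge ht) s⟩
  nlinarith

end Cfsg.Agent.S2189
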