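import Cfsg.Statements.S2190
import Cfsg.Agent.H15.Sf7
import Cfsg.Agent.H15.Tw5

set_option autoImplicit false
open Cfsg

namespace Cfsg.Agent.S2190

/-- Subfield subgroups of prime degree are maximal. Let K be a finite field with q^r elements, r a prime, q a power of the characteristic, and G the Chevalley group of type G₂, B₂, D₄, F₄, E₆, E₇ or E₈ over K (the matrix group generated by the root elements). Let M be the subgroup of G consisting of the matrices all of whose entries lie in the subfield with q elements (entries c with c^q = c). Then M is a proper subgroup of G and is maximal: every subgroup of G containing M is M or G. -/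
theorem result {K : Type*} [Field K] [Fintype K] (p : ℕ) [Fact p.Prime] [CharP K p] (D : Cfsg.Lie.ChevalleyDatum) (hD : D ∈ [Cfsg.Lie.chevG2, Cfsg.Lie.chevB2, Cfsg.Lie.chevD4, Cfsg.Lie.chevF4, Cfsg.Lie.chevE6, Cfsg.Lie.chevE7, Cfsg.Lie.chevE8]) (a r : ℕ) (ha : 1 ≤ a) (hr : r.Prime) (hK : Fintype.card K = (p ^ a) ^ r) (M : Subgroup (GL D.Idx K))
    (hM : ∀ g : GL D.Idx K, g ∈ M ↔ g ∈ D.group K ∧ ∀ i j : D.Idx, ((g : Matrix D.Idx D.Idx K) i j) ^ (p ^ a) = (g : Matrix D.Idx D.Idx K) i j) :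
    M ≠ D.group K ∧ ∀ H : Subgroup (GL D.Idx K), M ≤ H → H ≤ D.group K → H = M ∨ H = D.group K := by
  obtain ⟨G⟩ := H14.exists_good hD
  have hp := (Fact.out : p.Prime).one_lt
  obtain ⟨-, ⟨i⟩⟩ := H14.conn_of_mem hD G
  have hM' : ∀ g, g ∈ M ↔ g ∈ D.group K ∧ Matrix.GeneralLinearGroup.map (iterateFrobenius K p a) g = g := fun g =>
    (hM g).trans (and_congr_right' (H15.map_eq_iff (iterateFrobenius K p a)).symm)
  have hc : Nat.card {t // iterateFrobenius K p a t = t} = p ^ a :=
    H15.card_fix (φ := iterateFrobenius K p a) (fun _ => rfl) (Nat.one_le_pow _ _ (by omega)) hK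
  have hq : 1 < p ^ a := Nat.one_lt_pow (by omega) hp
  refine ⟨fun e => ?_, fun H h1 h2 => ?_⟩
  · rw [Nat.card_congr (Equiv.subtypeUnivEquiv fun t => (G.rg K).x_injective (G.R.simple i) ((H15.map_x G _ _ t).symm.trans
      ((hM' _).1 (e ▸ G.x_mem_group K _ t)).2)), Nat.card_eq_fintype_card, hK] at hc
    exact hr.one_lt.ne' (Nat.pow_right_injective hq (hc.trans (pow_one _).symm))
  have hL : ∀ r t, iterateFrobenius K p a t = t → (G.rg K).x r t ∈ H := fun r t e =>
    h1 ((hM' _).2 ⟨G.x_mem_group K r t, by rw [H15.map_x, e]⟩)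
  refine (H15.res_mem G (iterateFrobenius K p a) p hD H inferInstance (G.grp_eq K ▸ h2) hL).imp
    (fun h => le_antisymm (fun g hg => (hM' g).2 ⟨h2 hg, h g hg⟩) h1) fun ⟨E, h4, h5⟩ => le_antisymm h2 ?_
  obtain ⟨m, h6, h7⟩ := H15.exists_card_eq hc (fun t ht => (h4 t).2 fun s => hL s t ht) h5
  have h8 := Module.natCard_eq_pow_finrank (K := E) (V := K)
  rw [Nat.card_eq_fintype_card, hK, h7, ← pow_mul (p ^ a)] at h8
  have h9 := Nat.pow_right_injective hq h8
  obtain rfl : m = r := (hr.eq_one_or_self_of_dvd m ⟨_, h9⟩).resolve_left (by omega)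
  have h10 : (E : Set K) = Set.univ := Set.eq_of_subset_of_ncard_le (Set.subset_univ _)
    (by rw [Set.ncard_univ, Nat.card_eq_fintype_card, hK, ← h7]; rfl)
  exact G.grp_eq K ▸ (G.rg K).gen_le.2 fun s _ t => (h4 t).1 (h10.ge trivial) s

end Cfsg.Agent.S2190
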