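import Cfsg.Statements.S2197
import Cfsg.Agent.H27.Cls
import Cfsg.Agent.H27.TTits

set_option autoImplicit false
open Cfsg

namespace Cfsg.Agent.S2197

open Cfsg.Agent.H27 Tl TTits MulAction Subgroup

theorem cP : (Mc.perm 11 1755 [0, 1, 3, 91, 27]).evs (L3 ++ sg1) [[0], [1], [2], [], [0, 0], [1, 0], [2, 0], [0, 1], [1, 1], [2, 1], [2, 2], [1, 0, 0], [2, 0, 0], [0, 1, 0], [1, 1, 0], [2, 1, 0], [2, 2, 0], [0, 0, 1], [1, 0, 1], [0, 1, 1], [2, 1, 1], [2, 2, 1], [1, 1, 0, 0], [2, 2, 0, 0], [1, 0, 1, 0], [0, 1, 1, 0], [2, 2, 1, 1], [], [5, 29, 5, 32, 11, 18, 22], [32, 29, 10, 32, 35, 38, 21], [], [11, 14, 38, 21, 24], [15, 27, 35, 11, 39, 24], [24, 6, 30, 15, 39, 36, 24], [13, 28, 6, 18, 11, 35, 37, 19, 16], [7, 32, 6, 18, 22, 38, 24], [34, 14, 6, 35, 11, 35, 23, 22, 24], [19, 29, 9, 30, 15, 14, 37, 23], [28, 6, 6, 18, 14, 22, 16, 24], [18, 11, 18, 14, 22, 38, 24], [35, 10, 12, 17, 38,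 19], [29, 28, 6, 35, 11, 15, 37, 19, 16, 24], [10, 6, 6, 18, 11, 17, 36, 19, 24], [32, 35, 38, 24], [38, 9, 4, 11, 17, 37, 21, 24], [18, 10, 13, 38, 37], [26, 16, 27, 11, 18, 20, 24], [28, 21, 4, 11, 35, 40, 24], [23, 6, 18, 11, 24], [33, 23, 7, 30, 15, 38, 16, 24], [34, 27, 5, 13, 35, 38, 16], [4, 4, 18, 14, 40], [31, 7, 4, 18, 11, 14, 40, 16], [9, 26, 4, 15, 20, 19], [6, 10, 5, 30, 21, 21]] (fun L => (Mc.perm 11 1755 [0, 1, 3, 91, 27]).clsB L 3 27 0 &&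
    (Mc.perm 11 1755 [0, 1, 3, 91, 27]).cardB 3 2 L [(111, [[2], [1], [0]])] && (Mc.perm 11 1755 [0, 1, 3, 91, 27]).weqB ((Mc.perm 11 1755 [0, 1, 3, 91, 27]).cw L [0, 0, 0]) ((Mc.perm 11 1755 [0, 1, 3, 91, 27]).cw L []) &&
    (Mc.perm 11 1755 [0, 1, 3, 91, 27]).weqB ((Mc.perm 11 1755 [0, 1, 3, 91, 27]).cw L [54, 0]) ((Mc.perm 11 1755 [0, 1, 3, 91, 27]).cw L [0, 54, 54, 54]) &&
    (Mc.perm 11 1755 [0, 1, 3, 91, 27]).weqB ((Mc.perm 11 1755 [0, 1, 3, 91, 27]).cw L [54, 54, 54, 54, 54, 54, 54, 54, 54, 54, 54, 54, 54]) ((Mc.perm 11 1755 [0, 1, 3, 91, 27]).cw L []) &&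
    !Nat.beq ((Mc.perm 11 1755 [0, 1, 3, 91, 27]).app (H17.nth (Mc.perm 11 1755 [0, 1, 3, 91, 27]).one L 54) 0) 0) = true := by decide +kernel

theorem cE : (Mc.perm 11 1755 [0, 1, 3, 91, 27]).evs (L5 ++ sg1) [[0], [1], [], [0, 0], [1, 0], [1, 1], [0, 0, 0], [1, 0, 0], [1, 1, 0], [1, 1, 1], [0, 0, 0, 0], [1, 0, 0, 0], [1, 1, 0, 0], [1, 1, 1, 0], [1, 1, 1, 1], [1, 0, 0, 0, 0], [1, 1, 0, 0, 0], [1, 1, 1, 0, 0], [1, 1, 1, 1, 0], [1, 1, 0, 0, 0, 0], [1, 1, 1, 0, 0, 0], [1, 1, 1, 1, 0, 0], [1, 1, 1, 0, 0, 0, 0], [1, 1, 1, 1, 0, 0, 0], [1, 1, 1, 1, 0, 0, 0, 0], [], [7, 34, 8, 11, 17, 23, 16], [], [23, 13, 4, 32, 11, 15, 14, 23, 19, 24], [27, 21, 5, 30, 11, 18, 20, 21, 24], [27, 8, 18, 11, 36, 20], [4, 11, 37, 16], [29, 29, 6, 30, 14, 38, 37, 24], [28, 29, 5, 35, 11, 15, 14, 40, 39, 16], [31, 17, 7, 32, 17, 36, 37, 24], [8, 40, 6, 30, 11, 18, 14, 20], [40, 5, 30, 17, 36, 24], [30, 11,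 6, 32, 17, 20, 19, 24], [28, 35, 4, 13, 18, 14, 37, 19, 24], [8, 38, 5, 18, 11, 17, 22, 16], [27, 4, 5, 11, 18, 23, 24], [19, 28, 4, 11, 22, 39, 24], [12, 18, 37, 16, 24], [29, 4, 30, 11, 18, 14, 38, 21], [37, 25, 6, 30, 35, 20, 36], [24, 4, 5, 18, 23, 16], [23, 25, 5, 30, 17, 40, 39, 16, 24], [10, 18, 6, 32, 11, 35, 19, 24], [34, 31, 6, 30, 37, 23, 24], [11, 6, 4, 35, 11, 22, 39]] (fun L => (Mc.perm 11 1755 [0, 1, 3, 91, 27]).clsB L 2 25 0 &&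
    (Mc.perm 11 1755 [0, 1, 3, 91, 27]).cardB 5 1 L [(186, [[0]]), (181, [[1]])]) = true := by decide +kernel

theorem exP : ∃ (K : Subgroup G) (y z : G), Nat.card K = 27 ∧ (∀ x ∈ K, x = 1 ∨ IsConj x y) ∧ y ^ 3 = 1 ∧
    z * y = y * z ^ 3 ∧ z ^ 13 = 1 ∧ z ≠ 1 := by
  obtain ⟨g, L, hg, h⟩ := X.act.evs_g (L3_in.append sg1_in) cP
  simp only [Bool.and_eq_true] at h
  obtain ⟨⟨⟨⟨⟨a, b⟩, c⟩, d⟩, e⟩, f⟩ := h
  have a := X.act.cls hg a
  refine ⟨_, g 0, g 54, a.1.antisymm (X.act.cardB hg (by norm_num) b), a.2, ?_, ?_, ?_, fun h => ?_⟩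
  · simpa [pow_succ, mul_assoc] using X.act.weqB hg c
  · simpa [pow_succ, mul_assoc] using X.act.weqB hg d
  · simpa [pow_succ, mul_assoc] using X.act.weqB hg e
  · have := X.act.app (hg 54) (ω := X.pt 0) (y := 0) ⟨by norm_num, rfl⟩
    rw [h, one_smul] at this
    rw [X.inj _ this.1 _ (by norm_num) this.2] at f
    exact absurd f (by decide)

theorem exE : ∃ (K : Subgroup G) (y : G), Nat.card K = 25 ∧ ∀ x ∈ K, x = 1 ∨ IsConj x y := by
  obtain ⟨g, L, hg, h⟩ := X.act.evs_g (L5_in.append sg1_in) cE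
  rw [Bool.and_eq_true] at h
  have a := X.act.cls hg h.1
  exact ⟨_, g 0, a.1.antisymm (X.act.cardB hg (by norm_num) h.2), a.2⟩

set_option maxRecDepth 100000 in
theorem nums (n : ℕ) (h : n < 4241) (a : 27 ≤ n) (b : 17971200 % (n * (n - 1)) = 0) : n = 27 ∨ n = 40 ∨ n = 65 := by
  have := H16.allB_spec (n := 4241) (f := fun n => Nat.blt n 27 || !Nat.beq (17971200 % (n * (n - 1))) 0 ||
    Nat.beq n 27 || Nat.beq n 40 || Nat.beq n 65) (by decide +kernel) n h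
  simp only [b, Bool.or_eq_true, Nat.blt_eq, Nat.beq_eq, show (!Nat.beq 0 0) = false from rfl] at this
  simp only [Bool.false_eq_true, or_false] at this
  omega

theorem main {Ω : Type*} [Finite Ω] [MulAction G Ω] [FaithfulSMul G Ω] (hΩ : 3 ≤ Nat.card Ω) :
    ¬ IsMultiplyPretransitive G Ω 2 := fun h => by
  obtain ⟨P, y, z, p1, p2, p3, p4, p5, p6⟩ := exP
  obtain ⟨E, u, e1, e2⟩ := exE
  have hy : y ≠ 1 := fun e => by
    have : P = ⊥ := eq_bot_iff.2 fun x hx => (p2 x hx).elim id fun c => isConj_one_left.1 (e ▸ c)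
    simp [this] at p1
  have a1 := card_dvd_of_conj (Ω := Ω) p2
  have a2 := ncard_fixedBy_lt (Ω := Ω) hy
  have a3 := card_dvd_of_conj (Ω := Ω) e2
  have a4 := ncard_fixedBy_lt (Ω := Ω) p6
  have a5 := fix_modEq (Ω := Ω) (by norm_num) p5
  have a6 := exists_fix (Ω := Ω) Nat.prime_three p3 p4
  have a7 := le_of_conj (Ω := Ω) e2 (s := 5)
  have : Nontrivial Ω := Finite.one_lt_card_iff_nontrivial.1 (by omega)
  obtain ⟨a, b, hab⟩ := exists_pair_ne Ω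
  have hs := Set.ncard_pair hab
  have b1 := index_dvd_card (fixingSubgroup G {a, b})
  rw [IsMultiplyPretransitive.index_of_fixingSubgroup_eq _ (by rwa [hs]), hs, card, mul_comm,
    ← Nat.descFactorial_eq_factorial_mul_choose] at b1
  have : IsPretransitive G Ω := isPretransitive_of_is_two_pretransitive
  have b2 : ∀ ω : Ω, Nat.card (stabilizer E ω) ∣ 25 ∧ Nat.card Ω * Nat.card (stabilizer E ω) ∣ 17971200 := fun ω =>
    ⟨e1 ▸ card_subgroup_dvd_card _, by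
      rw [← card, ← (stabilizer G ω).index_mul_card, index_stabilizer_of_transitive]
      refine mul_dvd_mul_left _ ?_
      rw [← card_map_of_injective E.subtype_injective]
      exact card_dvd_of_le fun _ ⟨x, hx, e⟩ => e ▸ hx⟩
  rw [p1] at a1
  rw [e1] at a3 a7
  unfold Nat.ModEq at a5
  generalize Nat.card Ω = n at *
  have b3 : n * (n - 1) ∣ 17971200 := by simpa [mul_comm] using b1
  have b4 : n < 4241 := by
    have := Nat.le_of_dvd (by norm_num) b3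
    by_contra hn
    have : 4241 * 4240 ≤ n * (n - 1) := Nat.mul_le_mul (by omega) (by omega)
    omega
  have b5 : ∀ ω : Ω, n = 40 ∨ n = 65 → Nat.card (stabilizer E ω) ≤ 5 := fun ω hn => by
    obtain ⟨c, d⟩ := b2 ω
    have := Nat.le_of_dvd (by norm_num) c
    by_contra hc
    have : Nat.card (stabilizer E ω) = 25 := by
      generalize Nat.card (stabilizer E ω) = s at *
      have : 5 < s := by omega
      interval_cases s <;> omega
    rcases hn with hn | hn <;> rw [hn, this] at d <;> omega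
  rcases nums n b4 (by omega) (Nat.mod_eq_zero_of_dvd b3) with hn | hn
  · omega
  · have := a7 fun ω => b5 ω hn
    omega

/-- The Tits group (the commutator subgroup of ²F₄(2)) has no faithful 2-transitive action on a finite set with more than two points. -/
theorem result {Ω : Type*} [Fintype Ω] [MulAction Cfsg.Lie.TitsGroup Ω] [FaithfulSMul Cfsg.Lie.TitsGroup Ω] (hΩ : 3 ≤ Fintype.card Ω) :
    ¬ MulAction.IsMultiplyPretransitive Cfsg.Lie.TitsGroup Ω 2 := by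
  letI : MulAction G Ω := MulAction.compHom Ω equiv.toMonoidHom
  haveI : FaithfulSMul G Ω := ⟨fun h => equiv.injective (eq_of_smul_eq_smul h)⟩
  intro h
  refine main (Ω := Ω) (by simpa using hΩ) (is_two_pretransitive_iff.2 fun a b => ?_)
  obtain ⟨g, hg⟩ := is_two_pretransitive_iff.1 h a b
  obtain ⟨g, rfl⟩ := equiv.surjective g
  exact ⟨g, hg⟩

end Cfsg.Agent.S2197
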