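import Cfsg.Statements.S2205
import Cfsg.Agent.H13.Dp6

set_option autoImplicit false
open Cfsg

namespace Cfsg.Agent.S2205

/-- A finite group acting faithfully and 2-transitively on a set with p² + 1 points, p a prime, is doubly primitive — a point stabilizer acts primitively on the remaining p² points — unless p = 2 and the group is the Frobenius group of order 20. -/
theorem result {G Ω : Type*} [Group G] [Finite G] [Fintype Ω] [MulAction G Ω] [FaithfulSMul G Ω] (p : ℕ) (hp : p.Prime) (hΩ : Fintype.card Ω = p ^ 2 + 1) (h2 : MulAction.IsMultiplyPretransitive G Ω 2) (a : Ω) :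
    MulAction.IsPreprimitive ↥(MulAction.stabilizer G a) ↥(SubMulAction.ofStabilizer G a) ∨ (p = 2 ∧ Nat.card G = 20) := by
  classical
  have := Fact.mk hp
  have T : H13.Dp.T2 G Ω := fun x y x' y' h h' => by
    rw [MulAction.is_two_pretransitive_iff] at h2
    exact h2 h h'
  refine or_iff_not_imp_left.2 fun h => ?_
  have tr : MulAction.IsPretransitive (MulAction.stabilizer G a) (SubMulAction.ofStabilizer G a) :=
    ⟨fun x y => by
      obtain ⟨g, g1, g2⟩ := T a x a y (Ne.symm x.2) (Ne.symm y.2)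
      exact ⟨⟨g, g1⟩, Subtype.ext g2⟩⟩
  obtain ⟨B, hB, h1⟩ : ∃ B : Set (SubMulAction.ofStabilizer G a),
      MulAction.IsBlock (MulAction.stabilizer G a) B ∧ ¬ MulAction.IsTrivialBlock B := by
    by_contra! k
    exact h ⟨fun {B} hB => k B hB⟩
  obtain ⟨h3, h4⟩ := not_or.1 h1
  obtain ⟨b, hb, b', hb', hne⟩ := Set.not_subsingleton_iff.1 h3
  have cO : Nat.card (SubMulAction.ofStabilizer G a) = p ^ 2 := by
    rw [SubMulAction.nat_card_ofStabilizer_eq, Nat.card_eq_fintype_card, hΩ, Nat.add_sub_cancel]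
  obtain ⟨j, j1, j2⟩ := (Nat.dvd_prime_pow hp).1 (cO ▸ hB.ncard_dvd_card ⟨b, hb⟩)
  have m : ∀ x, x ∈ (Subtype.val '' B).toFinset ↔ ∃ y ∈ B, y.1 = x := fun x => by
    rw [Set.mem_toFinset]; rfl
  obtain ⟨S, P, c⟩ := T.cx hΩ (a := a) (b := b) (Δ := (Subtype.val '' B).toFinset)
    (fun h => by obtain ⟨y, -, e⟩ := (m a).1 h; exact y.2 e) ((m _).2 ⟨b, hb, rfl⟩) (by
      rw [← Set.ncard_eq_toFinset_card', Set.ncard_image_of_injective _ Subtype.val_injective]
      interval_cases j
      · exact absurd j2 (Set.one_lt_ncard (Set.toFinite B) |>.2 ⟨b, hb, b', hb', hne⟩).ne'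
      · simpa using j2
      · exact absurd (Set.eq_of_subset_of_ncard_le (Set.subset_univ B)
          (by rw [j2, Set.ncard_univ, cO])) h4)
    fun g hg x hx hx' y hy => by
      obtain ⟨x, x1, rfl⟩ := (m _).1 hx
      obtain ⟨x', x2, e⟩ := (m _).1 hx'
      obtain ⟨y, y1, rfl⟩ := (m _).1 hy
      have := hB.smul_eq_of_mem (g := ⟨g, hg⟩) x1 (by
        rwa [show x' = (⟨g, hg⟩ : MulAction.stabilizer G a) • x from Subtype.ext e] at x2)
      exact (m _).2 ⟨_, this ▸ Set.smul_mem_smul_set y1, rfl⟩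
  obtain rfl : p = 2 := by_contra c.odd
  exact ⟨rfl, c.twenty⟩

end Cfsg.Agent.S2205
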