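import Cfsg.Statements.S2214
import Cfsg.Agent.H14.Fix

set_option autoImplicit false
open Cfsg

namespace Cfsg.Agent.S2214

/-- Let k be an algebraically closed field of prime characteristic p, G the adjoint Chevalley group of type G₂, B₂, D₄, F₄, E₆, E₇ or E₈ over k (the matrix group generated by the root elements x_s(t), t ∈ k, acting on the Lie algebra), q = p^a with a ≥ 1, and K a subgroup of G containing every root element x_s(t) with t^q = t and consisting of matrices all of whose entries c satisfy c^q = c. Then the centralizer of K in G is trivial, and the normalizer of K in G is exactly the set of elements of G all of whose entries c satisfy c^q = c. -/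
theorem result {k : Type*} [Field k] [IsAlgClosed k] (p : ℕ) [Fact p.Prime] [CharP k p] (D : Cfsg.Lie.ChevalleyDatum) (hD : D ∈ [Cfsg.Lie.chevG2, Cfsg.Lie.chevB2, Cfsg.Lie.chevD4, Cfsg.Lie.chevF4, Cfsg.Lie.chevE6, Cfsg.Lie.chevE7, Cfsg.Lie.chevE8]) (a : ℕ) (ha : 1 ≤ a) (K : Subgroup (GL D.Idx k)) (hKG : K ≤ D.group k)
    (hLK : Subgroup.closure {g : GL D.Idx k | ∃ (s : ℕ) (t : k), t ^ (p ^ a) = t ∧ (g : Matrix D.Idx D.Idx k) = D.x k s t} ≤ K)
    (hKfix : ∀ g ∈ K, ∀ i j : D.Idx, ((g : Matrix D.Idx D.Idx k) i j) ^ (p ^ a) = (g : Matrix D.Idx D.Idx k) i j) :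
    D.group k ⊓ Subgroup.centralizer (K : Set (GL D.Idx k)) = ⊥ ∧
    ∀ g : GL D.Idx k, g ∈ D.group k → (g ∈ Subgroup.normalizer (K : Set (GL D.Idx k)) ↔ ∀ i j : D.Idx, ((g : Matrix D.Idx D.Idx k) i j) ^ (p ^ a) = (g : Matrix D.Idx D.Idx k) i j) := by
  obtain ⟨G⟩ := H14.exists_good hD
  obtain ⟨hc, hn⟩ := H14.conn_of_mem hD G
  set X := G.rg k
  let σ := iterateFrobenius k p a
  let φ : GL D.Idx k →* GL D.Idx k := Units.map (σ.mapMatrix (m := D.Idx)).toMonoidHom
  have hφ : ∀ r t, φ (X.x r t) = X.x r (σ t) := fun r t => Units.ext (H14.map_xR σ r t)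
  have hfix : ∀ g : GL D.Idx k, φ g = g ↔
      ∀ i j, (g : Matrix D.Idx D.Idx k) i j ^ p ^ a = (g : Matrix D.Idx D.Idx k) i j := fun g => by
    rw [Units.ext_iff, ← Matrix.ext_iff]; rfl
  have hL : X.fixL σ ≤ K := le_trans (Subgroup.closure_mono (by
    rintro _ ⟨r, t, ht, rfl⟩; exact ⟨r, t, ht, G.rg_x' k r t⟩)) hLK
  rw [G.grp_eq] at hKG ⊢
  have h1 : ∀ g ∈ X.grp, (∀ y ∈ K, g * y * g⁻¹ = y) → g = 1 := fun g hg h =>
    have := fun r => h _ (hL (X.x_mem_fixL r (map_one σ)))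
    G.eq_one_of_central k (X.mem_H_of_centralizes hc hg this) this
  refine ⟨eq_bot_iff.2 fun g hg => h1 g hg.1 fun y hy => mul_inv_eq_of_eq_mul (hg.2 y hy).symm, fun g hg => ?_⟩
  rw [← hfix]
  have h2 := fun y hy => (hfix y).2 (hKfix y hy)
  refine ⟨fun h => ?_, fun h => Subgroup.mem_normalizer_iff.2 fun y => ⟨X.fix_conj_mem hφ
    (fun _ a _ => G.H_comm k a) hL hKG h2 hg h, fun hy => ?_⟩⟩
  · refine (inv_mul_eq_one.1 (h1 _ (mul_mem (inv_mem hg) (X.frob_mem_gen hφ hg)) fun y hy => ?_)).symm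
    have := h2 _ ((Subgroup.mem_normalizer_iff.1 h y).1 hy)
    rw [map_mul, map_mul, map_inv, h2 y hy] at this
    rw [mul_inv_rev, inv_inv, mul_assoc g⁻¹, mul_assoc g⁻¹, ← mul_assoc _ _ g, this]; group
  · simpa [mul_assoc] using X.fix_conj_mem hφ (fun _ a _ => G.H_comm k a) hL hKG h2 (inv_mem hg) (by simp [h]) hy

end Cfsg.Agent.S2214
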