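import Cfsg.Statements.S2221
import Cfsg.Agent.H23.Sa2

set_option autoImplicit false
open Cfsg

namespace Cfsg.Agent.S2221

/-- Direct decomposability of the Sylow 2-subgroups of the alternating groups. Let n ≥ 4 and let P be a Sylow 2-subgroup of the alternating group of degree n. Then P is the internal direct product of two nontrivial subgroups if and only if n = 4, n = 5, or n ≡ 2, 3 (mod 4) with 4⌊n/4⌋ not a power of 2. In the remaining cases (n ≡ 0, 1 (mod 4) with n ≥ 8, or n ≡ 2, 3 (mod 4) with 4⌊n/4⌋ a power of 2) P is directly indecomposable. -/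
theorem result (n : ℕ) (hn : 4 ≤ n)
    (P : Sylow 2 (alternatingGroup (Fin n))) :
    (∃ S₁ S₂ : Subgroup (alternatingGroup (Fin n)), S₁ ≠ ⊥ ∧ S₂ ≠ ⊥ ∧
        Cfsg.IsInternalDirectProduct S₁ S₂ (P : Subgroup (alternatingGroup (Fin n)))) ↔
      (n = 4 ∨ n = 5 ∨ ((n % 4 = 2 ∨ n % 4 = 3) ∧ ∀ r : ℕ, 4 * (n / 4) ≠ 2 ^ r)) := by
  show H23S.Dec _ ↔ _
  by_cases h : n = 4 ∨ n = 5
  · have c : Nat.card P = 4 := by
      haveI : Nontrivial (Fin n) := Fin.nontrivial_iff_two_le.2 (by omega)
      rw [P.card_eq_multiplicity, nat_card_alternatingGroup, Nat.card_eq_fintype_card, Fintype.card_fin]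
      rcases h with rfl | rfl
      · rw [show Nat.factorial 4 / 2 = 2 ^ 2 * 3 from rfl, Nat.factorization_mul (by norm_num) (by norm_num),
          Nat.prime_two.factorization_pow]
        simp [Nat.prime_three.factorization]
      · rw [show Nat.factorial 5 / 2 = 2 ^ 2 * (3 * 5) from rfl, Nat.factorization_mul (by norm_num) (by norm_num),
          Nat.factorization_mul (a := 3) (by norm_num) (by norm_num), Nat.prime_two.factorization_pow]
        simp [Nat.prime_three.factorization, Nat.prime_five.factorization]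
    refine iff_of_true (H23S.dec_four c fun g hg => ?_) (by omega)
    · have k : g ^ 4 = 1 := by
        have := pow_card_eq_one' (x := (⟨g, hg⟩ : (P : Subgroup (alternatingGroup (Fin n)))))
        rw [c] at this
        exact congrArg Subtype.val this
      have k' : g.1 ^ 4 = 1 := congrArg Subtype.val k
      refine Subtype.ext ?_
      clear hg
      obtain ⟨g, hg⟩ := g
      rw [Equiv.Perm.mem_alternatingGroup] at hg
      show g * g = 1
      rcases h with rfl | rfl
      · exact (by decide +kernel : ∀ g : Equiv.Perm (Fin 4), Equiv.Perm.sign g = 1 → g ^ 4 = 1 → g * g = 1) g hg k'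
      · exact (by decide +kernel : ∀ g : Equiv.Perm (Fin 5), Equiv.Perm.sign g = 1 → g ^ 4 = 1 → g * g = 1) g hg k'
  obtain ⟨T, hT, e⟩ := H24.exists_sylIn_le (H24.sylIn_map P).pgrp le_top
  rw [H23S.dec_map, ← (H24.sylIn_map P).max (T ⊓ alternatingGroup (Fin n)) hT.pgrp.to_inf_left
    (le_inf e (H24.sylIn_map P).le) inf_le_right, H23S.main hT (Fintype.card_fin n) (by omega)]
  exact ⟨fun k => .inr (.inr k), fun k => (k.resolve_left fun k => h (.inl k)).resolve_left fun k => h (.inr k)⟩

end Cfsg.Agent.S2221
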