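import Cfsg.Statements.S2222
import Cfsg.Agent.L0.SymSyl

set_option autoImplicit false
open Cfsg

namespace Cfsg.Agent.S2222

open Cfsg.Agent.L0.SymSyl


/-- In the alternating group of degree n ≥ 5 every subgroup H of odd index is pronormal: for every element g, the subgroups H and gHg⁻¹ are conjugate by an element of the subgroup they generate. -/
theorem result (n : ℕ) (hn : 5 ≤ n)
    (H : Subgroup (alternatingGroup (Fin n))) (hH : Odd H.index) : Cfsg.IsPronormal H := by
  obtain ⟨P, hP⟩ := exists_sylow_le_of_odd H hH
  rcases hn.lt_or_eq with h | rfl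
  · refine pron_of_norm_le P hP ((alt_norm_le (by simp; omega) P).trans (hP.trans Subgroup.le_normalizer))
  · have hc : Nat.card (alternatingGroup (Fin 5)) = 60 := by
      rw [nat_card_alternatingGroup]; simp [Nat.factorial]
    have hd : H.index ∣ 60 := hc ▸ H.index_dvd_card
    have hPc : Nat.card (P : Subgroup (alternatingGroup (Fin 5))) = 4 := by
      rw [P.card_eq_multiplicity, hc]
      have : (60 : ℕ).factorization 2 = 2 := by
        rw [show (60 : ℕ) = 2 ^ 2 * 15 from rfl, Nat.factorization_mul (by norm_num) (by norm_num),
          Nat.factorization_pow]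
        simp [Nat.factorization_eq_zero_of_not_dvd (by norm_num : ¬ 2 ∣ 15), Nat.Prime.factorization_self Nat.prime_two]
      rw [this]; rfl
    have h15 : H.index ∣ 15 := by
      have : Nat.Coprime H.index 4 := by
        simpa using (Nat.Coprime.pow_right 2 ((Nat.coprime_two_right).2 hH))
      exact this.dvd_of_dvd_mul_left (by simpa using hd)
    have hpr : ∀ q : ℕ, q.Prime → H.index = q → Cfsg.IsPronormal H := by
      intro q hq e
      refine pron_coatom ⟨fun ht => ?_, fun K hK => ?_⟩
      · rw [ht, Subgroup.index_top] at e; exact hq.one_lt.ne e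
      · have h1 := Subgroup.relIndex_mul_index hK.le
        rw [e] at h1
        rcases hq.eq_one_or_self_of_dvd _ (Dvd.intro_left _ h1) with h2 | h2
        · exact Subgroup.index_eq_one.1 h2
        · rw [h2] at h1
          have : H.relIndex K = 1 := by
            have := hq.pos
            nlinarith [Nat.eq_of_mul_eq_mul_right hq.pos (h1.trans (one_mul q).symm)]
          exact absurd (Subgroup.relIndex_eq_one.1 this) (not_le_of_gt hK)
    have : H.index ∈ Nat.divisors 15 := Nat.mem_divisors.2 ⟨h15, by norm_num⟩
    have h4 : H.index = 1 ∨ H.index = 3 ∨ H.index = 5 ∨ H.index = 15 := by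
      have e : Nat.divisors 15 = {1, 3, 5, 15} := by decide
      rw [e] at this; simpa using this
    rcases h4 with h | h | h | h
    · rw [Subgroup.index_eq_one.1 h]
      intro g
      exact ⟨g, Subgroup.mem_sup_left trivial, rfl⟩
    · exact hpr 3 Nat.prime_three h
    · exact hpr 5 Nat.prime_five h
    · have h1 := H.card_mul_index
      rw [h, hc] at h1
      have : (P : Subgroup (alternatingGroup (Fin 5))) = H :=
        Subgroup.eq_of_le_of_card_ge hP (by omega)
      rw [← this]; exact pron_sylow P

end Cfsg.Agent.S2222
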