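import Cfsg.Statements.S2431
import Cfsg.Agent.H27.SL2d

set_option autoImplicit false
open Cfsg

namespace Cfsg.Agent.S2431

open Cfsg.Agent.H27 Cfsg.Agent.H4 Cfsg.Agent.H5 Cfsg.Agent.H12
open scoped MatrixGroups commutatorElement


/-- Let F be a finite field with q elements, q odd, and S a Sylow 2-subgroup of SL₂ over F. The centraliser of S is the centre of SL₂ (of order 2); S is its own normaliser when q ≡ ±1 mod 8, and has index 3 in its normaliser when q ≡ ±3 mod 8. -/
theorem result {F : Type*} [Field F] [Fintype F] (hodd : Odd (Fintype.card F)) (S : Sylow 2 (Matrix.SpecialLinearGroup (Fin 2) F)) :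
    Subgroup.centralizer ((S : Subgroup (Matrix.SpecialLinearGroup (Fin 2) F)) : Set (Matrix.SpecialLinearGroup (Fin 2) F)) = Subgroup.center (Matrix.SpecialLinearGroup (Fin 2) F) ∧
    ((Fintype.card F % 8 = 1 ∨ Fintype.card F % 8 = 7) →
      Subgroup.normalizer ((S : Subgroup (Matrix.SpecialLinearGroup (Fin 2) F)) : Set (Matrix.SpecialLinearGroup (Fin 2) F)) = (S : Subgroup (Matrix.SpecialLinearGroup (Fin 2) F))) ∧
    ((Fintype.card F % 8 = 3 ∨ Fintype.card F % 8 = 5) →
      Nat.card (Subgroup.normalizer ((S : Subgroup (Matrix.SpecialLinearGroup (Fin 2) F)) : Set (Matrix.SpecialLinearGroup (Fin 2) F))) = 3 * Nat.card S) := by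
  have h2 := two_ne_zero_iff_odd.2 hodd
  obtain ⟨k, t, w, hk, ht, ho, hc, htS, hwS, hw, hS⟩ := sylow_two hodd S
  refine ⟨two_centralizer ht htS hwS hw h2, fun h => two_normalizer_eq ht htS hwS hw hS fun h4 => ?_,
    fun h => ?_⟩
  · have h3 := (sylow_two_card hodd S).1 h
    have := Nat.le_of_dvd (by norm_num) h4
    have := Nat.le_of_dvd Nat.card_pos h3
    omega
  · have h3 := (sylow_two_card hodd S).2 h
    obtain rfl : k = 1 := by
      by_contra hk1
      obtain ⟨j, rfl⟩ : ∃ j, k = j + 2 := ⟨k - 2, by omega⟩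
      exact h3 ⟨2 ^ j, by rw [hc]; ring⟩
    rw [(two_normalizer_eight ht htS hwS hw hS h2 ho hc).1, hc]; rfl

end Cfsg.Agent.S2431
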