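import Cfsg.Statements.S2225
import Cfsg.Agent.H28.Pron1
import Cfsg.Agent.H28.Pron4
import Cfsg.Agent.H25.Cyc
import Cfsg.Agent.S3820
import Cfsg.Agent.S2431
import Cfsg.Agent.S0276

set_option autoImplicit false
open Cfsg

namespace Cfsg.Agent.S2225

open Subgroup Matrix
open scoped MatrixGroups

theorem mid_eq {G : Type*} [Group G] [Finite G] {S M N : Subgroup G} (h1 : S ≤ M) (h2 : M ≤ N)
    (h : Nat.card N = 3 * Nat.card S) : N ≤ M ∨ M ≤ S := by
  obtain ⟨a, ha⟩ := card_dvd_of_le h1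
  obtain ⟨b, hb⟩ := card_dvd_of_le h2
  have h3 : a * b = 3 := Nat.eq_of_mul_eq_mul_left (Nat.card_pos (α := S)) (by rw [← mul_assoc, ← ha, ← hb, h, mul_comm])
  rcases Nat.prime_three.eq_one_or_self_of_dvd a ⟨b, h3.symm⟩ with rfl | rfl
  · exact Or.inr (eq_of_le_of_card_ge h1 (by omega)).ge
  · exact Or.inl (eq_of_le_of_card_ge h2 (by omega)).ge

theorem pron_cyc {G : Type*} [Group G] [Finite G] (S : Sylow 2 G) (hS : ∀ a ∈ S, ∀ b ∈ S, a * b = b * a)
    (hN : ∀ L : Subgroup G, S.1 ≤ L → normalizer (S.1 : Set G) ≤ L ∨ normalizer (S.1 : Set G) ⊓ L ≤ S)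
    (hO : ∀ O : Subgroup G, Odd (Nat.card O) → S.1 ≤ normalizer (O : Set G) → IsCyclic O) {H : Subgroup G}
    (hH : S.1 ≤ H) : IsPronormal H := by
  refine (S3820.result S.1 H hH (L0.SymSyl.pron_sylow S)).2 fun g hg => ?_
  set H' := H.map (MulAut.conj g).toMonoidHom with hH'
  have a1 : S.1 ≤ H' := fun s hs => ⟨g⁻¹ * s * g, hH ((mem_normalizer_iff.1 hg _).2 (by simpa [mul_assoc] using hs)),
    by simp [mul_assoc]⟩
  have a2 : Nat.card H' = Nat.card H := card_map_of_injective (MulAut.conj g).injective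
  have a3 : S.1 ≤ H ⊔ H' := hH.trans le_sup_left
  refine (hN _ a3).elim (fun h => ⟨g, h hg, rfl⟩) fun h => ⟨1, one_mem _, ?_⟩
  generalize hL : H ⊔ H' = L at a3 h
  have hc : normalizer ((S.subtype a3).1 : Set L) ≤ centralizer ((S.subtype a3).1 : Set L) := fun x hx y hy =>
    Subtype.ext (hS _ hy _ (h ⟨mem_normalizer_fintype fun s hs => (mem_normalizer_iff.1 hx ⟨s, a3 hs⟩).1 hs, x.2⟩))
  have c1 := MonoidHom.ker_transferSylow_isComplement' _ hc
  have c2 := MonoidHom.not_dvd_card_ker_transferSylow _ hc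
  have c3 := MonoidHom.normal_ker (MonoidHom.transferSylow _ hc)
  generalize (MonoidHom.transferSylow _ hc).ker = O at c1 c2 c3
  have : IsCyclic O := by
    have := hO (O.map L.subtype) (by rw [card_map_of_injective L.subtype_injective, Nat.odd_iff]; omega)
      fun s hs => le_normalizer_map _ ⟨⟨s, a3 hs⟩, by rw [normalizer_eq_top]; trivial, rfl⟩
    exact isCyclic_of_surjective _ (equivMapOfInjective O _ L.subtype_injective).symm.surjective
  have b1 : ∀ M : Subgroup G, S.1 ≤ M → M ≤ L → Nat.card ↥(M.subgroupOf L ⊓ O) * O.index = Nat.card M := fun M h1 h2 => by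
    rw [← Nat.card_congr (subgroupOfEquivOfLe h2).toEquiv, ← H28.pr_card_inf O (M.subgroupOf L), ← relIndex_sup_left,
      show O ⊔ M.subgroupOf L = ⊤ from eq_top_iff.2 (c1.sup_eq_top.ge.trans (sup_le_sup_left (comap_mono h1) O)),
      relIndex_top_right]
  have b2 : ∀ M M' : Subgroup G, S.1 ≤ M → M ≤ L → S.1 ≤ M' → M' ≤ L → Nat.card M = Nat.card M' → M ≤ M' :=
    fun M M' h1 h2 h3 h4 e m hm => by
      obtain ⟨⟨o, s⟩, e1⟩ := c1.2 ⟨m, h2 hm⟩
      have e2 : m = o.1.1 * s.1.1 := (congrArg Subtype.val e1).symm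
      have := H25.le_of_card_dvd_of_isCyclic (C := O) (A := M.subgroupOf L ⊓ O) (B := M'.subgroupOf L ⊓ O) inf_le_right
        inf_le_right (Nat.eq_of_mul_eq_mul_right (Nat.pos_of_ne_zero index_ne_zero_of_finite)
          ((b1 M h1 h2).trans (e.trans (b1 M' h3 h4).symm))).dvd (x := o) ⟨by
          simpa [e2, mem_subgroupOf] using mul_mem hm (inv_mem (h1 s.2)), o.2⟩
      exact e2 ▸ mul_mem this.1 (h3 s.2)
  rw [show H.map (MulAut.conj (1 : G)).toMonoidHom = H by ext; simp]
  exact le_antisymm (b2 _ _ a1 (hL ▸ le_sup_right) hH (hL ▸ le_sup_left) a2)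
    (b2 _ _ hH (hL ▸ le_sup_left) a1 (hL ▸ le_sup_right) a2.symm)

theorem even_psl2 (E : Type*) [Field E] [Finite E] : Even (Nat.card PSL(2, E)) := by
  have := Fintype.ofFinite E
  rcases Nat.even_or_odd (Fintype.card E) with h | h
  · exact even_iff_two_dvd.2 (h.two_dvd.trans (Nat.card_eq_fintype_card (α := E) ▸ H12.card_dvd_card_PSL2))
  · have h1 := H12.card_PSL2 (F := E) rfl
    obtain ⟨c, hc⟩ := (Nat.prime_two.pow_dvd_iff_le_factorization
      (H8.pow_sub_one_ne_zero Fintype.one_lt_card two_ne_zero)).2 (H28.three_le_fac h Fintype.one_lt_card)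
    rw [Nat.gcd_eq_left (Nat.Odd.sub_odd h odd_one).two_dvd, hc] at h1
    exact ⟨2 * Fintype.card E * c, by nlinarith⟩

theorem cyc_of_klein {F : Type*} [Field F] [Fintype F] (ho : Odd (Fintype.card F)) {S O : Subgroup PSL(2, F)}
    (hS : IsKleinFour S) (h1 : Odd (Nat.card O)) (h2 : S ≤ normalizer (O : Set PSL(2, F))) : IsCyclic O := by
  obtain ⟨p, hp⟩ := CharP.exists F
  have := Fact.mk (CharP.char_is_prime F p)
  have hi := ProjectiveSpecialLinearGroup.toPGL_injective (n := Fin 2) (R := F)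
  refine isCyclic_of_surjective (hH := ?_) _ (equivMapOfInjective O _ hi).symm.surjective
  rw [← card_map_of_injective hi] at h1
  rcases H12.dickson_pgl2 p (O.map ProjectiveSpecialLinearGroup.toPGL) with
    ⟨x, h4, h3⟩ | ⟨h3, -⟩ | ⟨a, s, h3, -⟩ | ⟨-, ⟨-, h | h | h⟩ | ⟨-, h⟩⟩ | ⟨E, k, -, -, h3⟩
  · obtain ⟨⟨u, hu, h5⟩, h6⟩ := ne_bot_iff_exists_ne_one.1 h3
    have := H12.isCyclic_of_fix_of_inf_unip (S.map ProjectiveSpecialLinearGroup.toPGL) (x := x) (fun s hs => by
      have := h4 _ ((mem_normalizer_iff.1 (le_normalizer_map _ (map_mono h2 hs)) u).1 hu)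
      rw [mul_smul, mul_smul, ← eq_inv_smul_iff] at this
      exact (inv_smul_eq_iff.1 (H12.eq_of_mem_unip_of_smul_eq h5 (fun e => h6 (Subtype.ext e)) this)).symm)
      (eq_bot_iff.2 (by
        rintro _ ⟨⟨s, hs, rfl⟩, h7⟩
        refine orderOf_eq_one_iff.1 (Nat.eq_one_of_dvd_coprimes ((Nat.coprime_primes Nat.prime_two this.out).2
          (H12.char_ne_two_of_two_ne_zero p (H12.two_ne_zero_of_odd_card ho)).symm) (orderOf_dvd_of_pow_eq_one ?_)
          (orderOf_dvd_of_pow_eq_one ((H12.mem_unip_iff p).1 h7).2))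
        rw [← map_pow, show s ^ 2 = 1 from congrArg Subtype.val (hS.exponent_two ▸ Monoid.pow_exponent_eq_one (⟨s, hs⟩ : S)),
          map_one]))
    exact absurd (isCyclic_of_surjective _ (equivMapOfInjective S _ hi).symm.surjective) IsKleinFour.not_isCyclic
  · exact h3
  · rw [h3.card] at h1; exact absurd h1 (Nat.not_odd_iff_even.2 (even_two_mul _))
  all_goals first
    | (rw [h] at h1; exact absurd h1 (by decide))
    | exact absurd (h1.of_dvd_nat (H12.card_subPSL_dvd h3)) (Nat.not_odd_iff_even.2 (even_psl2 E))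

/-- Let F be a finite field and d = 2^w ≥ 2 a power of 2 such that PSL_d(F) is simple. Then every subgroup H of PSL_d(F) of odd index is pronormal: for every g, H and gHg⁻¹ are conjugate by an element of the subgroup they generate. -/
theorem result {F : Type*} [Field F] [Fintype F]
    (w : ℕ) (hw : 1 ≤ w) (hs : IsSimpleGroup (Matrix.ProjectiveSpecialLinearGroup (Fin (2 ^ w)) F))
    (H : Subgroup (Matrix.ProjectiveSpecialLinearGroup (Fin (2 ^ w)) F)) (hH : Odd H.index) : Cfsg.IsPronormal H := by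
  rcases Nat.even_or_odd (Fintype.card F) with h | h
  · have : CharP F 2 := ringChar.of_eq (FiniteField.even_card_iff_char_two.2 (Nat.even_iff.1 h))
    exact (H28.sbnc_SL 2 (Nat.le_self_pow (by omega) 2)).quot.pron H hH
  rcases hw.lt_or_eq with h1 | rfl
  · obtain ⟨k, rfl⟩ := Nat.exists_eq_add_of_le' (show 2 ≤ w from h1)
    exact H28.pron_quot (H28.sl_norm_le h k) H hH
  have h2 := Nat.odd_iff.1 h
  rcases (by omega : (Fintype.card F % 8 = 1 ∨ Fintype.card F % 8 = 7) ∨ (Fintype.card F % 8 = 3 ∨ Fintype.card F % 8 = 5))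
    with h3 | h3
  · exact H28.pron_quot (G := SL(2, F)) (fun P => ((S2431.result h P).2.1 h3).le) H hH
  obtain ⟨S, hS⟩ := L0.SymSyl.exists_sylow_le_of_odd (G := PSL(2, F)) H hH
  have h4 := S0276.result rfl h3 S
  have := h4.isMulCommutative
  refine pron_cyc S (fun a ha b hb => congrArg Subtype.val (mul_comm' (⟨a, ha⟩ : S.1) ⟨b, hb⟩)) (fun L hL => ?_)
    (fun O => cyc_of_klein h h4) hS
  let P := S.comapOfKerIsPGroup (QuotientGroup.mk' (center SL(2, F))) (by
    rw [QuotientGroup.ker_mk']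
    exact fun x => ⟨1, Subtype.ext (by rcases H27.scal_sl_iff.1 (H27.scal_iff_mem_center.2 x.2) with e | e <;> simp [e])⟩)
    (by rw [QuotientGroup.range_mk']; exact le_top)
  have hs := QuotientGroup.mk'_surjective (center SL(2, F))
  refine (mid_eq (M := (normalizer (S.1 : Set PSL(2, F)) ⊓ L).comap (QuotientGroup.mk' _))
    (comap_mono (le_inf le_normalizer hL)) ((comap_mono inf_le_left).trans (le_normalizer_comap _))
    ((S2431.result h P).2.2 h3)).imp (fun e x hx => ?_) (comap_le_comap_of_surjective hs).1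
  obtain ⟨x, rfl⟩ := hs x
  exact (e (le_normalizer_comap _ hx)).2

end Cfsg.Agent.S2225
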