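import Cfsg.Statements.S2226
import Cfsg.Agent.H28.Pron1
import Cfsg.Agent.H28.Pron4

set_option autoImplicit false
open Cfsg

namespace Cfsg.Agent.S2226



/-- Let F be a finite field with q² elements and d = 2^w ≥ 4 a power of 2 such that the unitary group PSU_d(q) (realised over F) is simple. Then every subgroup H of PSU_d(q) of odd index is pronormal: for every g, H and gHg⁻¹ are conjugate by an element of the subgroup they generate. -/
theorem result {F : Type*} [Field F] [Fintype F] (q : ℕ)
    (hF : Fintype.card F = q ^ 2) (w : ℕ) (hw : 2 ≤ w) (hs : IsSimpleGroup (Cfsg.PSU (2 ^ w) F q))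
    (H : Subgroup (Cfsg.PSU (2 ^ w) F q)) (hH : Odd H.index) : Cfsg.IsPronormal H := by
  obtain ⟨k, rfl⟩ := Nat.exists_eq_add_of_le' hw
  rcases Nat.even_or_odd q with h | h
  · have : CharP F 2 := ringChar.of_eq (FiniteField.even_card_iff_char_two.2 (by
      rw [hF]; exact Nat.even_iff.1 (h.pow_of_ne_zero two_ne_zero)))
    exact (H28.sbnc_SU 2 hF Nat.one_le_two_pow).quot.pron H hH
  · exact H28.pron_quot (H28.su_norm_le hF h k) H hH

end Cfsg.Agent.S2226
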