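import Cfsg.Agent.H17.E5C
import Cfsg.Statements.S2227
-- import your own Cfsg.Agent.* helpers here

set_option autoImplicit false
open Cfsg

namespace Cfsg.Agent.S2227

/-- In the twisted group ²E₆(2) all elements of order 5 are conjugate, and the centralizer of an element of order 5 is isomorphic to the direct product of a cyclic group of order 5 with the alternating group of degree 8. -/
theorem result {K : Type*} [Field K] [Fintype K] (hK : Fintype.card K = 4) :
    (∀ x y : ↥(Cfsg.Lie.twistedE6 K 2), orderOf x = 5 → orderOf y = 5 → IsConj x y) ∧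
      ∀ x : ↥(Cfsg.Lie.twistedE6 K 2), orderOf x = 5 →
        Nonempty (↥(Subgroup.centralizer ({x} : Set ↥(Cfsg.Lie.twistedE6 K 2))) ≃* (Multiplicative (ZMod 5) × ↥(alternatingGroup (Fin 8)))) := by
  obtain ⟨a, ha⟩ := H17.E6.conj5 hK
  obtain ⟨x, h1, φ, h2, h3, h4⟩ := H17.E6.cent5 hK
  refine ⟨fun x y hx hy => (ha x hx).symm.trans (ha y hy), fun y hy => ?_⟩
  obtain ⟨c, rfl⟩ := isConj_iff.1 ((ha x h1).symm.trans (ha y hy))
  refine H17.cent_prod hy ((MulAut.conj c).toMonoidHom.comp φ) ((MulAut.conj c).injective.comp h2)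
    (alternatingGroup.center_eq_bot (by simp)) (fun b => (h3 b).map (MulAut.conj c)) fun d hd => ?_
  obtain ⟨b, k, e⟩ := h4 (c⁻¹ * d * c) (by simpa [mul_assoc] using hd.map (MulAut.conj c⁻¹))
  refine ⟨b, k, ?_⟩
  change d = c * φ b * c⁻¹ * _
  rw [conj_pow, conj_mul, ← e]
  group

end Cfsg.Agent.S2227
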