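import Cfsg.Statements.S2231
import Cfsg.Agent.H27.PSL2a
import Cfsg.Agent.H9.Involves

set_option autoImplicit false
open Cfsg

namespace Cfsg.Agent.S2231

open Cfsg.Agent.H27 Cfsg.Agent.H12
open scoped MatrixGroups

open Cfsg.Agent.H9

theorem normal_T {p : ℕ} : (qdTHom p).range.Normal := ⟨by
    rintro _ ⟨c, rfl⟩ g
    obtain ⟨d, A, rfl⟩ := exists_qd_eq g
    refine ⟨d * Multiplicative.ofAdd (A.1.mulVec c.toAdd) * d⁻¹, ?_⟩
    have : qdLHom p A * qdTHom p c = qdTHom p (Multiplicative.ofAdd (A.1.mulVec c.toAdd)) *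
      qdLHom p A := Subtype.ext (qdL_mul_qdT A _)
    rw [mul_assoc (qdTHom p d), this, map_mul, map_mul, map_inv]
    generalize qdLHom p A = x
    generalize qdTHom p d = y
    generalize qdTHom p _ = z
    group⟩

theorem pgroup_T {p : ℕ} : IsPGroup p (qdTHom p).range := by
  refine IsPGroup.of_surjective (fun c => ⟨1, ?_⟩) _ (qdTHom p).rangeRestrict_surjective
  apply Multiplicative.toAdd.injective
  ext i; simp

theorem not_comm {p : ℕ} (A : SL(2, ZMod p)) (h : A.1 0 1 ≠ 0) :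
    qdL A * qdT ![0, 1] ≠ qdT ![0, 1] * qdL A := fun h2 => by
  rw [qdL_mul_qdT, mul_left_inj] at h2
  have h3 := congrArg (fun g : SL(3, ZMod p) => g.1 0 2) h2
  simp [coe_qdT, Matrix.mulVec, dotProduct, Fin.sum_univ_two, h] at h3

theorem aux {p : ℕ} [Fact p.Prime] (S : Sylow p (qd p)) [Finite (qd p)]
    (A : SL(2, ZMod p)) (h : A.1 0 1 ≠ 0) (hS : Subgroup.zpowers (qdLHom p A) ≤ S)
    (key : ∀ a ∈ (S : Subgroup (qd p)), ∀ b ∈ (S : Subgroup (qd p)), a * b = b * a) : False := by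
  have := normal_T (p := p)
  have hT' := pgroup_T.le_sylow_of_normal S
  have h1 := key _ (hS (Subgroup.mem_zpowers _)) (qdTHom p (Multiplicative.ofAdd ![0, 1]))
    (hT' ⟨_, rfl⟩)
  exact not_comm A h (congrArg Subtype.val h1)

/-- Let p be an odd prime and K a finite field of characteristic p. Then Qd(p) (the natural semidirect product of an elementary abelian group of order p² by SL₂(p)) is not involved in the projective special linear group PSL₂(K). -/
theorem result {p : ℕ} [Fact p.Prime] (hp : p ≠ 2) {K : Type*} [Field K] [Fintype K] [CharP K p] : ¬ Cfsg.Involves ↥(Cfsg.qd p) (Matrix.ProjectiveSpecialLinearGroup (Fin 2) K) := by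
  intro h
  obtain ⟨H, β, hβ⟩ := involves_iff.1 (involves_of_surjective (QuotientGroup.mk' _)
    (QuotientGroup.mk'_surjective _) h)
  have : Finite (qd p) := Finite.of_surjective β hβ
  have hx : IsPGroup p (Subgroup.zpowers (qdLHom p (upper 1))) := by
    rw [← MonoidHom.map_zpowers]
    exact ((isPGroup_rootSL p (inf _)).to_le ((Subgroup.zpowers_le).2
      (mem_rootSL_inf.2 ⟨1, rfl⟩))).map _
  obtain ⟨S, hS⟩ := hx.exists_le_sylow
  refine aux S _ one_ne_zero hS ?_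
  obtain ⟨P, rfl⟩ := Sylow.mapSurjective_surjective hβ p S
  obtain ⟨y, hy⟩ := le_rootSL_of_isPGroup p (P.2.map H.subtype)
  obtain ⟨e⟩ := nonempty_rootSL_equiv y
  rw [Sylow.coe_mapSurjective]
  rintro _ ⟨a, ha, rfl⟩ _ ⟨b, hb, rfl⟩
  rw [← map_mul, ← map_mul]
  have := e.injective (a₁ := ⟨a, hy ⟨a, ha, rfl⟩⟩ * ⟨b, hy ⟨b, hb, rfl⟩⟩)
    (a₂ := ⟨b, hy ⟨b, hb, rfl⟩⟩ * ⟨a, hy ⟨a, ha, rfl⟩⟩) (by rw [map_mul, map_mul, mul_comm])
  exact congrArg β (Subtype.ext (congrArg (fun z : rootSL y => z.1) this))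

end Cfsg.Agent.S2231
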