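import Cfsg.Statements.S2232
import Cfsg.Agent.H9.Involves
import Cfsg.Agent.H28.Spec1
import Cfsg.Agent.H12.SBridge
import Cfsg.Agent.H12.Torus
import Cfsg.Agent.H12.Root2

set_option autoImplicit false
open Cfsg

namespace Cfsg.Agent.S2232

open Module H12 H28 Matrix
open scoped MatrixGroups

section lin

variable {F V : Type*} [Field F] [AddCommGroup V] [Module F V] [FiniteDimensional F V] {σ : F →+* F}
  {B : V →ₛₗ[σ] V →ₗ[F] F}

lemma nil_step {N : End F V} (hN : IsNilpotent N) {U W : Submodule F V} (hUW : U ≤ W) (hd : finrank F W ≤ finrank F U + 1)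
    (hU : ∀ x ∈ U, N x ∈ U) (hW : ∀ x ∈ W, N x ∈ W) : ∀ x ∈ W, N x ∈ U := fun u hu => by
  by_contra h
  have u0 : u ∉ U := fun h' => h (hU u h')
  have a1 : U ⊔ F ∙ u = W := Submodule.eq_of_le_of_finrank_le (sup_le hUW ((Submodule.span_singleton_le_iff_mem _ _).2 hu))
    (hd.trans (Submodule.finrank_lt_finrank_of_lt (lt_of_le_of_ne le_sup_left fun e => u0 (e ▸ Submodule.mem_sup_right
      (Submodule.mem_span_singleton_self u)))))
  obtain ⟨w, hw, z, hz, e⟩ := Submodule.mem_sup.1 (a1 ▸ hW u hu)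
  obtain ⟨a, rfl⟩ := Submodule.mem_span_singleton.1 hz
  have a2 : ∀ m : ℕ, (N ^ m) u - a ^ m • u ∈ U := fun m => by
    induction m with
    | zero => simp
    | succ m ih =>
      convert U.add_mem (hU _ ih) (U.smul_mem (a ^ m) hw) using 1
      rw [pow_succ', End.mul_apply, map_sub, map_smul, ← e, smul_add, pow_succ, mul_smul]
      abel
  obtain ⟨m, hm⟩ := hN
  have a3 := a2 m
  rw [hm, LinearMap.zero_apply, zero_sub, neg_mem_iff] at a3
  rcases eq_or_ne a 0 with rfl | a0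
  · exact h (by simpa [← e] using hw)
  · exact u0 ((U.smul_mem_iff (pow_ne_zero m a0)).1 a3)

/-- unitriangular for the flag of an isotropic vector -/
def Uni (B : V →ₛₗ[σ] V →ₗ[F] F) (e : V) (g : End F V) : Prop :=
  (∀ x, g x - x ∈ sperp B (F ∙ e)) ∧ (∀ x ∈ sperp B (F ∙ e), g x - x ∈ F ∙ e) ∧ ∀ x ∈ F ∙ e, g x - x = 0

omit [FiniteDimensional F V] in
lemma Uni.mul {e : V} (he : B e e = 0) {g h : End F V} (hg : Uni B e g) (hh : Uni B e h) : Uni B e (g * h) := by
  have a1 : (F ∙ e) ≤ sperp B (F ∙ e) := (Submodule.span_singleton_le_iff_mem _ _).2 (mem_sperp_singleton.2 he)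
  have a2 : ∀ x, (g * h) x - x = (g (h x) - h x) + (h x - x) := fun x => by simp
  refine ⟨fun x => a2 x ▸ add_mem (hg.1 _) (hh.1 _), fun x hx => a2 x ▸ add_mem (hg.2.1 _ ?_) (hh.2.1 _ hx), fun x hx => ?_⟩
  · simpa using add_mem (a1 (hh.2.1 _ hx)) hx
  · rw [End.mul_apply, sub_eq_zero.1 (hh.2.2 x hx), hg.2.2 x hx]

variable {p : ℕ} [hp : Fact p.Prime] [CharP F p]

omit [FiniteDimensional F V] in
lemma Uni.pow_eq_one {e : V} {g : End F V} (hg : Uni B e g) (h3 : 3 ≤ p) : g ^ p = 1 := by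
  nontriviality V
  have := charP_of_injective_algebraMap (algebraMap F (End F V)).injective p
  have a1 : (g - 1) ^ 3 = 0 := LinearMap.ext fun x => hg.2.2 _ (hg.2.1 _ (hg.1 x))
  rw [← sub_eq_zero, ← one_pow (M := End F V) p, ← sub_pow_char_of_commute _ (Commute.one_right g), pow_eq_zero_of_le h3 a1]

variable (D : SD B) (h3 : finrank F V = 3)
include D h3

lemma exists_pt [Finite F] {R : Subgroup (SUG B)} (hR : IsPGroup p R) (h1 : R ≠ ⊥) :
    ∃ e ≠ 0, B e e = 0 ∧ ∀ g ∈ Subgroup.normalizer (R : Set (SUG B)), en B g e ∈ F ∙ e := by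
  let C : Submodule F V := ⨅ r ∈ R, End.eigenspace (en B r) 1
  have hC : ∀ v, v ∈ C ↔ ∀ r ∈ R, en B r v = v := fun v => by simp [C]
  have a1 : ∀ g ∈ Subgroup.normalizer (R : Set (SUG B)), ∀ v ∈ C, en B g v ∈ C := fun g hg v hv => (hC _).2 fun r hr => by
    rw [← End.mul_apply, ← map_mul, show r * g = g * (g⁻¹ * r * g) by group, map_mul, End.mul_apply,
      (hC v).1 hv _ ((Subgroup.mem_normalizer_iff''.1 hg r).1 hr)]
  have a2 : ∀ g ∈ Subgroup.normalizer (R : Set (SUG B)), ∀ v ∈ sperp B C, en B g v ∈ sperp B C := fun g hg v hv w hw => by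
    rw [← en_map g⁻¹, ← End.mul_apply _ (en B g), ← map_mul, inv_mul_cancel, map_one]
    exact hv _ (a1 _ (inv_mem hg) w hw)
  letI : MulAction R (sperp B C) :=
    { smul r v := ⟨en B r v, a2 _ (Subgroup.le_normalizer r.2) _ v.2⟩
      one_smul v := Subtype.ext (by change en B 1 v = v; simp)
      mul_smul r s v := Subtype.ext (by change en B (r * s) v = en B r (en B s v); simp) }
  have : Finite V := finite_of_finite F
  have a3 : finrank F (sperp B C) ≠ 0 := fun h => h1 ((Subgroup.eq_bot_iff_forall _).2 fun r hr => by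
    have := D.finrank_sperp C
    exact en_injective (LinearMap.ext fun v => (hC v).1 (Submodule.eq_top_of_finrank_eq (by omega : finrank F C = finrank F V) ▸
      Submodule.mem_top) r hr))
  obtain ⟨e, he, e0⟩ := hR.exists_fixed_point_of_prime_dvd_card_of_fixed_point (sperp B C) (by
    have := Fintype.ofFinite F
    rw [natCard_eq_pow_finrank (K := F), Nat.card_eq_fintype_card]
    exact (char_dvd_card p).trans (dvd_pow_self _ a3)) (a := 0) fun r => Subtype.ext (map_zero (en B r))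
  have e1 : e.1 ∈ C := (hC _).2 fun r hr => congrArg Subtype.val (he ⟨r, hr⟩)
  have e2 : e.1 ≠ 0 := fun h => e0 (Subtype.ext h.symm)
  refine ⟨e, e2, e.2 _ e1, fun g hg => ?_⟩
  have a4 : finrank F (C ⊓ sperp B C : Submodule F V) ≤ finrank F (F ∙ e.1) := by
    have := D.finrank_sperp (C ⊓ sperp B C)
    have := Submodule.finrank_mono (show C ⊓ sperp B C ≤ sperp B (C ⊓ sperp B C) from fun x hx w hw => hx.2 w hw.1)
    rw [finrank_span_singleton e2]
    omega
  rw [Submodule.eq_of_le_of_finrank_le ((Submodule.span_singleton_le_iff_mem _ _).2 (Submodule.mem_inf.2 ⟨e1, e.2⟩)) a4]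
  exact ⟨a1 g hg _ e1, a2 g hg _ e.2⟩

lemma flag {e : V} (e0 : e ≠ 0) (he : B e e = 0) {g : End F V} (hg : Pres B g) {k : ℕ} (hk : g ^ p ^ k = 1) (h : g e ∈ F ∙ e) :
    Uni B e g := by
  have := nontrivial_of_ne _ _ e0
  have := charP_of_injective_algebraMap (algebraMap F (End F V)).injective p
  have hN : IsNilpotent (g - 1) := ⟨p ^ k, by rw [sub_pow_char_pow_of_commute _ _ (Commute.one_right g), hk, one_pow, sub_self]⟩
  have d1 := finrank_span_singleton (K := F) e0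
  have d2 := D.finrank_sperp (F ∙ e)
  have a1 : ∀ x ∈ F ∙ e, (g - 1) x ∈ F ∙ e := fun x hx => by
    obtain ⟨c, rfl⟩ := Submodule.mem_span_singleton.1 hx
    exact map_smul (g - 1) c e ▸ Submodule.smul_mem _ _ (sub_mem h (Submodule.mem_span_singleton_self e))
  have a2 := nil_step hN bot_le (by simp [d1]) (by simp) a1
  have a3 : ∀ x, g x - x ∈ sperp B (F ∙ e) := fun x => mem_sperp_singleton.2 (by
    rw [map_sub, ← hg e x, show g e = e from sub_eq_zero.1 (a2 e (Submodule.mem_span_singleton_self e)), sub_self])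
  exact ⟨a3, nil_step hN ((Submodule.span_singleton_le_iff_mem _ _).2 (mem_sperp_singleton.2 he)) (by omega) a1 fun x _ => a3 x, a2⟩

end lin

lemma exists_pair {p : ℕ} [Fact p.Prime] {L : Type*} [Group L] [Finite L] {β : L →* qd p} (hβ : Function.Surjective β) :
    ∃ R : Subgroup L, IsPGroup p R ∧ R ≠ ⊥ ∧ ∃ x ∈ Subgroup.normalizer (R : Set L), ∃ y ∈ Subgroup.normalizer (R : Set L),
      (∃ k, x ^ p ^ k = 1) ∧ (∃ k, y ^ p ^ k = 1) ∧ (x * y) ^ p ≠ 1 := by
  let π : qd p →* SL(2, ZMod p) := MonoidHom.mk' (fun M => ⟨!![M.1 0 0, M.1 0 1; M.1 1 0, M.1 1 1], by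
    obtain ⟨h0, h1, h2⟩ := H9.mem_qd_iff.1 M.2
    have := M.1.2
    rw [det_fin_three, h0, h1, h2] at this
    simpa using this⟩) fun M N => Subtype.ext (by
    obtain ⟨h0, h1, h2⟩ := H9.mem_qd_iff.1 N.2
    change _ = !![_, _; _, _] * !![_, _; _, _]
    ext i j
    fin_cases i <;> fin_cases j <;> simp [Matrix.mul_apply, Fin.sum_univ_three, h0, h1])
  have a1 : ∀ A, π (H9.qdLHom p A) = A := fun A => Subtype.ext (by ext i j; fin_cases i <;> fin_cases j <;> rfl)
  let N := (π.comp β).ker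
  obtain ⟨R⟩ : Nonempty (Sylow p N) := inferInstance
  have a2 : (R : Subgroup N) ≠ ⊥ := R.ne_bot_of_dvd_card (by
    obtain ⟨x, hx⟩ := hβ (H9.qdTHom p (Multiplicative.ofAdd ![1, 0]))
    have b1 : x ∈ N := by
      rw [MonoidHom.mem_ker, MonoidHom.comp_apply, hx]
      exact Subtype.ext (by ext i j; fin_cases i <;> fin_cases j <;> rfl)
    refine ((orderOf_eq_prime ?_ fun h => ?_).symm.dvd.trans (orderOf_map_dvd β x)).trans (Subgroup.orderOf_dvd_natCard N b1)
    · rw [hx, ← map_pow, ← ofAdd_nsmul, ← Nat.cast_smul_eq_nsmul (ZMod p), ZMod.natCast_self, zero_smul, ofAdd_zero, map_one]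
    · rw [hx] at h
      exact one_ne_zero (congrArg (fun M : qd p => M.1 0 2) h))
  set M := Subgroup.normalizer ((R : Subgroup N).map N.subtype : Set L)
  have a3 : Function.Surjective ((π.comp β).comp M.subtype) := fun A => by
    obtain ⟨x, hx⟩ := hβ (H9.qdLHom p A)
    obtain ⟨y, hy, z, hz, rfl⟩ := Subgroup.mem_sup_of_normal_right.1 (R.normalizer_sup_eq_top ▸ Subgroup.mem_top x)
    exact ⟨⟨y, hy⟩, by rw [← a1 A, ← hx, ← MonoidHom.comp_apply π, map_mul, MonoidHom.mem_ker.1 hz, mul_one]; rfl⟩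
  have a4 : ∀ A : SL(2, ZMod p), A ^ p = 1 → ∃ x ∈ M, π (β x) = A ∧ ∃ k, x ^ p ^ k = 1 := fun A hA => by
    obtain ⟨Q, hQ⟩ := (IsPGroup.of_card_dvd_pow (p := p) (G := Subgroup.zpowers A) (n := 1) (by
      rw [Nat.card_zpowers, pow_one]; exact orderOf_dvd_of_pow_eq_one hA)).exists_le_sylow
    obtain ⟨P, rfl⟩ := Sylow.mapSurjective_surjective a3 p Q
    obtain ⟨x, hx, e1⟩ := hQ (Subgroup.mem_zpowers A)
    obtain ⟨k, hk⟩ := P.isPGroup' ⟨x, hx⟩
    exact ⟨x, x.2, e1, k, congrArg (fun y : P => y.1.1) hk⟩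
  obtain ⟨x, x0, x1, x2⟩ := a4 (upper 1) (by rw [upper_pow]; simp [upper_zero])
  obtain ⟨y, y0, y1, y2⟩ := a4 (lower 1) (by rw [lower_pow]; simp [lower_zero])
  refine ⟨_, R.isPGroup'.map N.subtype, by rwa [Ne, Subgroup.map_eq_bot_iff_of_injective _ N.subtype_injective],
    x, x0, y, y0, x2, y2, fun a5 => ?_⟩
  have a6 : (upper 1 * lower 1 : SL(2, ZMod p)) ^ p = 1 := by
    rw [← x1, ← y1, ← map_mul, ← map_mul, ← map_pow, ← map_pow, a5, map_one, map_one]
  obtain ⟨z, hz⟩ := exists_mem_rootSL_of_pow p (k := 1) (by rwa [pow_one])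
  obtain ⟨g, rfl⟩ := MulAction.exists_smul_eq SL(2, ZMod p) (inf (ZMod p)) z
  obtain ⟨b, hb⟩ := mem_rootSL_inf.1 (mem_rootSL_smul.1 hz)
  have a7 := sl2_trace_conj (upper 1 * lower 1 : SL(2, ZMod p)) g⁻¹
  rw [inv_inv, hb] at a7
  change (!![1, b; 0, 1] : Matrix _ _ (ZMod p)).trace = (!![1, 1; 0, 1] * !![1, 0; 1, 1] : Matrix (Fin 2) (Fin 2) (ZMod p)).trace at a7
  simp [trace_fin_two] at a7

/-- Let p be an odd prime, q a power of p and K a finite field with q² elements. Then Qd(p) (the natural semidirect product of an elementary abelian group of order p² by SL₂(p)) is not involved in the projective special unitary group PSU₃(q) realised over K. -/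
theorem result {p : ℕ} [Fact p.Prime] (hp : p ≠ 2) {K : Type*} [Field K] [Fintype K] [CharP K p] (n : ℕ) (hn : 1 ≤ n) (hK : Fintype.card K = (p ^ n) ^ 2) : ¬ Cfsg.Involves ↥(Cfsg.qd p) (Cfsg.PSU 3 K (p ^ n)) := by
  intro h
  obtain ⟨e⟩ := (sd_uB hK 3).nonempty_SUG_equiv_SU hK (n := 3) (by simp)
  obtain ⟨L, β, hβ⟩ := H9.involves_iff.1 (H9.involves_of_surjective e.toMonoidHom e.surjective (H9.involves_of_quotient _ h))
  have : Finite (SUG (uB hK 3)) := Finite.of_equiv _ e.symm.toEquiv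
  obtain ⟨R, h1, h2, x, hx, y, hy, ⟨k, hk⟩, ⟨l, hl⟩, h3⟩ := exists_pair hβ
  obtain ⟨v, v0, v1, hv⟩ := exists_pt (sd_uB hK 3) (by simp) (h1.map L.subtype)
    (by rwa [Ne, Subgroup.map_eq_bot_iff_of_injective _ L.subtype_injective])
  have a4 : ∀ x ∈ Subgroup.normalizer (R : Set L), ∀ k, x ^ p ^ k = 1 → Uni (uB hK 3) v (en _ (L.subtype x)) := fun x hx k hk =>
    flag (sd_uB hK 3) (by simp) v0 v1 (en_map _) (k := k) (by rw [← map_pow, ← map_pow, hk, map_one, map_one])
      (hv _ (Subgroup.le_normalizer_map _ ⟨x, hx, rfl⟩))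
  refine h3 (L.subtype_injective (en_injective ?_))
  rw [map_pow, map_pow, map_mul, map_mul, map_one, map_one]
  exact ((a4 x hx k hk).mul v1 (a4 y hy l hl)).pow_eq_one ((Fact.out : p.Prime).two_le.lt_of_ne hp.symm)

end Cfsg.Agent.S2232
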