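import Cfsg.Statements.S2238
import Cfsg.Agent.H15.Sz5

set_option autoImplicit false
open Cfsg

namespace Cfsg.Agent.S2238

/-- The partition of the Suzuki group: with q = 2^(2m+1), m ≥ 1, r = 2^m and the Suzuki group realised as the stabiliser in SL₄ of the Suzuki–Tits ovoid, every non-identity element lies in exactly one subgroup that is either a Sylow 2-subgroup or a cyclic subgroup of order q − 1, q + 2r + 1 or q − 2r + 1. -/
theorem result {F : Type*} [Field F] [Fintype F] {m : ℕ} (hm : 1 ≤ m) (hF : Fintype.card F = 2 ^ (2 * m + 1)) (g : ↥(Cfsg.Sz F m)) (hg : g ≠ 1) :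
    ∃! U : Subgroup ↥(Cfsg.Sz F m), ((∃ P : Sylow 2 ↥(Cfsg.Sz F m), U = (P : Subgroup ↥(Cfsg.Sz F m))) ∨
      (IsCyclic ↥U ∧ Nat.card ↥U ∈ ({2 ^ (2 * m + 1) - 1, 2 ^ (2 * m + 1) + 2 ^ (m + 1) + 1, 2 ^ (2 * m + 1) - 2 ^ (m + 1) + 1} : Set ℕ))) ∧ g ∈ U := by
  have := H15.Sz.charP_two hF
  let M := H15.Sz.ovModel hm hF
  have hq : Nat.card F = 2 ^ (2 * m + 1) := Nat.card_eq_fintype_card.trans hF
  have : Fact (Nat.Prime 2) := ⟨Nat.prime_two⟩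
  apply existsUnique_of_exists_of_unique
  · rcases M.trichotomy hg with h | h | h
    · obtain ⟨P, hP⟩ := (M.isPGroup_cent_of_conjSet_Q h).exists_le_sylow
      exact ⟨P, Or.inl ⟨P, rfl⟩, hP (H11.mem_cent1.2 rfl)⟩
    · have h1 := M.isCyclic_cent_of_conjSet_D h
      exact ⟨_, Or.inr ⟨h1.1, Or.inl (hq ▸ h1.2)⟩, H11.mem_cent1.2 rfl⟩
    · exact ⟨_, Or.inr ⟨h.isCyclic, Or.inr (h.card_torus hm hq).1⟩, H11.mem_cent1.2 rfl⟩
  · have key : ∀ P : Sylow 2 (Cfsg.Sz F m), g ∈ (P : Subgroup (Cfsg.Sz F m)) → ¬ Odd (orderOf g) := by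
      intro P hP hodd
      obtain ⟨k, hk⟩ := IsPGroup.iff_orderOf.1 P.isPGroup' ⟨g, hP⟩
      rw [← Subgroup.orderOf_coe] at hk
      rcases k with _ | k
      · exact hg (orderOf_eq_one_iff.1 hk)
      · rw [hk] at hodd
        exact (Nat.not_even_iff_odd.2 hodd) (by simp [Nat.even_pow])
    rintro U V ⟨⟨P, rfl⟩ | ⟨h1, h2⟩, hU⟩ ⟨⟨P', rfl⟩ | ⟨h3, h4⟩, hV⟩
    · rw [M.sylow_eq_of_mem hg hU hV]
    · exact absurd (M.eq_cent_of_cyclic hm hq h3 h4 hg hV).2 (key P hU)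
    · exact absurd (M.eq_cent_of_cyclic hm hq h1 h2 hg hU).2 (key P' hV)
    · rw [(M.eq_cent_of_cyclic hm hq h1 h2 hg hU).1, (M.eq_cent_of_cyclic hm hq h3 h4 hg hV).1]

end Cfsg.Agent.S2238
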