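import Cfsg.Statements.S2239
import Cfsg.Agent.H15.Sz8

set_option autoImplicit false
open Cfsg

namespace Cfsg.Agent.S2239

/-- Subfield subgroups of the Suzuki group: let q = 2^(2m+1) and s = 2^(2k+1) with m, k ≥ 1 and 2k+1 dividing 2m+1 (so q is a power of s), both groups realised as stabilisers in SL₄ of the Suzuki–Tits ovoid. Then Sz(q) has a subgroup isomorphic to Sz(s), and any two subgroups of Sz(q) isomorphic to Sz(s) are conjugate. -/
theorem result {F : Type*} [Field F] [Fintype F] {m : ℕ} (hm : 1 ≤ m) (hF : Fintype.card F = 2 ^ (2 * m + 1)) {K : Type*} [Field K] [Fintype K] {k : ℕ} (hk : 1 ≤ k) (hK : Fintype.card K = 2 ^ (2 * k + 1)) (hdiv : 2 * k + 1 ∣ 2 * m + 1) :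
    (∃ S : Subgroup ↥(Cfsg.Sz F m), Nonempty (↥S ≃* ↥(Cfsg.Sz K k))) ∧
    ∀ S₁ S₂ : Subgroup ↥(Cfsg.Sz F m), Nonempty (↥S₁ ≃* ↥(Cfsg.Sz K k)) → Nonempty (↥S₂ ≃* ↥(Cfsg.Sz K k)) →
      ∃ g : ↥(Cfsg.Sz F m), S₂ = S₁.map (MulAut.conj g).toMonoidHom := by
  have := H15.Sz.charP_two hF
  have := H15.Sz.charP_two hK
  have : Fact (Nat.Prime 2) := ⟨Nat.prime_two⟩
  have hφ := H15.Sz.map_tw hF hK
  refine ⟨?_, fun S₁ S₂ ⟨e₁⟩ ⟨e₂⟩ => ?_⟩
  · let _ := ZMod.algebra F 2
    let _ := ZMod.algebra K 2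
    have h1 := FiniteField.pow_finrank_eq_card 2 F
    have h2 := FiniteField.pow_finrank_eq_card 2 K
    obtain ⟨φ⟩ := FiniteField.nonempty_algHom_of_finrank_dvd (F := ZMod 2) (K := K) (L := F) (by
      rwa [Nat.pow_right_injective le_rfl (h1.trans hF), Nat.pow_right_injective le_rfl (h2.trans hK)])
    exact ⟨_, ⟨(MonoidHom.ofInjective ((H15.Sz.ovModel hm hF).ι_inj (H15.Sz.ovModel hk hK) (hφ φ))).symm⟩⟩
  · have key : ∀ (S : Subgroup (Cfsg.Sz F m)) (e : S ≃* Cfsg.Sz K k), (S.subtype.comp e.symm.toMonoidHom).range = S :=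
      fun S e => by
        rw [MonoidHom.range_comp, MonoidHom.range_eq_top_of_surjective _ e.symm.surjective, ← MonoidHom.range_eq_map,
          Subgroup.range_subtype]
    have := (H15.Sz.ovModel hm hF).range_conj (H15.Sz.ovModel hk hK) hφ (j := S₁.subtype.comp e₁.symm.toMonoidHom)
      (j' := S₂.subtype.comp e₂.symm.toMonoidHom) (S₁.subtype_injective.comp e₁.symm.injective)
      (S₂.subtype_injective.comp e₂.symm.injective)
    rwa [key, key] at this

end Cfsg.Agent.S2239
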