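import Cfsg.Statements.S2240
import Cfsg.Agent.H15.Sz5
import Cfsg.Agent.H12.Transport

set_option autoImplicit false
open Cfsg

namespace Cfsg.Agent.S2240

/-- Elementary abelian TI-subgroups of the Suzuki group: let q = 2^(2m+1) with m ≥ 1, the group realised as the stabiliser in SL₄ of the Suzuki–Tits ovoid, and n ≥ 2. There is an elementary abelian 2-subgroup E of order 2^n that is a TI-subgroup (every conjugate of E meeting E nontrivially is E itself) if and only if n divides 2m + 1. -/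
theorem result {F : Type*} [Field F] [Fintype F] {m : ℕ} (hm : 1 ≤ m) (hF : Fintype.card F = 2 ^ (2 * m + 1)) (n : ℕ) (hn : 2 ≤ n) :
    (∃ E : Subgroup ↥(Cfsg.Sz F m), Cfsg.IsElementaryAbelian 2 E ∧ Nat.card ↥E = 2 ^ n ∧
      ∀ x : ↥(Cfsg.Sz F m), E ⊓ E.map (MulAut.conj x).toMonoidHom ≠ ⊥ → x ∈ Subgroup.normalizer (E : Set ↥(Cfsg.Sz F m))) ↔ n ∣ 2 * m + 1 := by
  have := H15.Sz.charP_two hF
  have : Fact (Nat.Prime 2) := ⟨Nat.prime_two⟩
  have hq : Nat.card F = 2 ^ (2 * m + 1) := Nat.card_eq_fintype_card.trans hF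
  constructor
  · rintro ⟨E, hE, hc, hTI⟩
    obtain ⟨P, hP⟩ := (IsPGroup.of_card hc).exists_le_sylow
    obtain ⟨M, -, hM⟩ := (H15.Sz.ovModel hm hF).exists_model_sylow P
    rw [← hM] at hP
    have hZ : ∀ g ∈ E, ∃ b, g = M.S 0 b := fun g hg =>
      M.mem_Z_of_sq (hP hg) (by rw [← pow_two, hE.2 g hg])
    have hne : E ≠ ⊥ := by
      rintro rfl
      rw [Subgroup.card_bot] at hc
      have := Nat.one_lt_two_pow (n := n) (by omega)
      omega
    obtain ⟨⟨g, hg⟩, hg1⟩ := Subgroup.ne_bot_iff_exists_ne_one.1 hne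
    obtain ⟨c, rfl⟩ := hZ g hg
    have hc0 : c ≠ 0 := by rintro rfl; exact hg1 (Subtype.ext M.S_zero)
    have hmul : ∀ k b : F, M.S 0 (c * k) ∈ E → M.S 0 b ∈ E → M.S 0 (k * b) ∈ E := by
      intro k b hk hb
      by_cases hk0 : k = 0
      · rw [hk0, zero_mul, M.S_zero]; exact one_mem _
      obtain ⟨a, rfl⟩ := M.exists_θ hk0
      have h1 := hTI (M.D a) (by
        rw [Subgroup.ne_bot_iff_exists_ne_one]
        refine ⟨⟨M.S 0 (c * M.θ a), hk, M.S 0 c, hg, ?_⟩, fun h => ?_⟩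
        · simp [M.D_conj_S, mul_comm]
        · exact mul_ne_zero hc0 hk0 (M.S_eq_one.1 (congrArg Subtype.val h)).2)
      simpa [M.D_conj_S] using (Subgroup.mem_normalizer_iff.1 h1 _).1 hb
    let R : Subring F :=
      { carrier := {k | M.S 0 (c * k) ∈ E}
        mul_mem' := fun {a b} ha hb => by
          have := hmul a _ ha hb
          rwa [mul_left_comm] at this
        one_mem' := by simpa using hg
        add_mem' := fun {a b} ha hb => by
          have := E.mul_mem ha hb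
          rwa [M.S_zero_mul, ← mul_add] at this
        zero_mem' := by simp [M.S_zero]
        neg_mem' := fun {a} ha => by rwa [CharTwo.neg_eq] }
    have h1 : Nat.card R = Nat.card E := by
      refine Nat.card_eq_of_bijective (fun k => ⟨M.S 0 (c * k), k.2⟩) ⟨fun a b h => ?_, ?_⟩
      · have h2 : M.S 0 (c * a) = M.S 0 (c * b) := congrArg Subtype.val h
        exact Subtype.ext (mul_left_cancel₀ hc0 (M.S_inj.1 h2).2)
      · rintro ⟨g, hg⟩
        obtain ⟨b, rfl⟩ := hZ g hg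
        have h2 : c * (b / c) = b := by field_simp
        exact ⟨⟨b / c, show M.S 0 (c * (b / c)) ∈ E by rwa [h2]⟩, Subtype.ext (by simp only [h2])⟩
    let _ : Field R := (Finite.isDomain_to_isField R).toField
    have h2 := Module.natCard_eq_pow_finrank (K := R) (V := F)
    rw [hq, h1, hc, ← pow_mul] at h2
    exact ⟨_, Nat.pow_right_injective le_rfl h2⟩
  · rintro ⟨d, hd⟩
    let M := H15.Sz.ovModel hm hF
    obtain ⟨φ⟩ := H12.nonempty_ringHom_of_card_pow (K := GaloisField 2 n) (F := F) (m := d)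
      (by rw [GaloisField.card 2 n (by omega), hq, hd, pow_mul])
    let E : Subgroup (Cfsg.Sz F m) :=
      { carrier := {g | ∃ b, g = M.S 0 (φ b)}
        mul_mem' := by
          rintro _ _ ⟨a, rfl⟩ ⟨b, rfl⟩
          exact ⟨a + b, by rw [M.S_zero_mul, map_add]⟩
        one_mem' := ⟨0, by rw [map_zero, M.S_zero]⟩
        inv_mem' := by
          rintro _ ⟨a, rfl⟩
          exact ⟨a, by simp [M.S_inv]⟩ }
    refine ⟨E, ⟨⟨⟨?_⟩⟩, ?_⟩, ?_, ?_⟩
    · rintro ⟨_, a, rfl⟩ ⟨_, b, rfl⟩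
      exact Subtype.ext (M.S_comm_iff.2 (by simp))
    · rintro _ ⟨a, rfl⟩
      rw [pow_two, M.S_mul_self_eq_one]
    · rw [← GaloisField.card 2 n (by omega)]
      symm
      refine Nat.card_eq_of_bijective (fun b => ⟨M.S 0 (φ b), b, rfl⟩) ⟨fun a b h => ?_, ?_⟩
      · have h2 : M.S 0 (φ a) = M.S 0 (φ b) := congrArg Subtype.val h
        exact φ.injective (M.S_inj.1 h2).2
      · rintro ⟨_, b, rfl⟩
        exact ⟨b, rfl⟩
    · intro x hx
      obtain ⟨⟨_, ⟨a, rfl⟩, _, ⟨b, rfl⟩, e⟩, h1⟩ := Subgroup.ne_bot_iff_exists_ne_one.1 hx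
      have e' : x * M.S 0 (φ b) * x⁻¹ = M.S 0 (φ a) := e
      have h2 : M.S 0 (φ a) ≠ 1 := fun h => h1 (Subtype.ext h)
      have h3 : M.S 0 (φ b) ≠ 1 := by rintro h; rw [h] at e'; exact h2 (by simpa using e'.symm)
      have h4 := M.isTI_Q x _ h3 (M.S_mem _ _) (e' ▸ M.S_mem _ _)
      rw [M.normalizer_Q] at h4
      obtain ⟨k, hk, hk'⟩ := M.conj_Z h4
      have hb : φ b ≠ 0 := fun h => h3 (by rw [h, M.S_zero])
      have h5 : k = φ (a / b) := by
        rw [map_div₀, eq_div_iff hb]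
        exact (M.S_inj.1 ((hk' _).symm.trans e')).2
      apply Subgroup.mem_normalizer_fintype
      rintro _ ⟨c, rfl⟩
      exact ⟨a / b * c, by rw [hk', h5, map_mul]⟩

end Cfsg.Agent.S2240
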