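import Cfsg.Statements.S2241
import Cfsg.Agent.H15.Sz5

set_option autoImplicit false
open Cfsg

namespace Cfsg.Agent.S2241

/-- Real 2-elements of the Suzuki group: with q = 2^(2m+1), m ≥ 1, and the group realised as the stabiliser in SL₄ of the Suzuki–Tits ovoid, a non-identity element of a Sylow 2-subgroup is conjugate to its inverse if and only if it is an involution; in particular no element of order 4 is conjugate to its inverse. -/
theorem result {F : Type*} [Field F] [Fintype F] {m : ℕ} (hm : 1 ≤ m) (hF : Fintype.card F = 2 ^ (2 * m + 1)) (P : Sylow 2 ↥(Cfsg.Sz F m)) (g : ↥(Cfsg.Sz F m)) (hg : g ∈ (P : Subgroup ↥(Cfsg.Sz F m))) (h1 : g ≠ 1) :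
    IsConj g g⁻¹ ↔ orderOf g = 2 := by
  have := H15.Sz.charP_two hF
  obtain ⟨M, -, hM⟩ := (H15.Sz.ovModel hm hF).exists_model_sylow P
  rw [← hM] at hg
  refine ⟨fun h => ?_, fun h => by rw [H11.inv_eq_of_orderOf_two h]⟩
  obtain ⟨x, hx⟩ := isConj_iff.1 h
  have h2 := M.isTI_Q x g h1 hg (hx ▸ inv_mem hg)
  rw [M.normalizer_Q] at h2
  obtain ⟨u, v, c, rfl⟩ := M.exists_SD h2
  obtain ⟨a, b, rfl⟩ := hg
  refine H11.orderOf_two_of h1 (M.S_mul_self_eq_one.2 ?_)
  by_contra ha
  rw [show M.S u v * M.D c * M.S a b * (M.S u v * M.D c)⁻¹ =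
    M.S u v * (M.D c * M.S a b * (M.D c)⁻¹) * (M.S u v)⁻¹ by group, M.D_conj_S, M.S_conj, M.S_inv,
    M.S_inj] at hx
  have h3 := M.eq_one_of_sq_div c.ne_zero (mul_right_cancel₀ ha (hx.1.trans (one_mul a).symm))
  have h4 := hx.2
  simp only [h3, map_one, one_pow, div_one, one_mul] at h4
  have h5 := M.θ_ne ha
  have h6 : M.θ (u / a) = u / a + 1 := by rw [map_div₀]; field_simp; grind
  have h7 := M.sq (u / a)
  rw [h6, map_add, map_one, h6] at h7
  have h8 : u / a = 0 ∨ u / a = 1 := by grind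
  rcases h8 with h8 | h8 <;> simp [h8] at h6

end Cfsg.Agent.S2241
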