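import Cfsg.Statements.S2244
import Cfsg.Agent.H14.WC3
import Cfsg.Agent.H14.All
import Cfsg.Agent.H15.Tw5

set_option autoImplicit false
open Cfsg

namespace Cfsg.Agent.S2244

/-- Weakly closed unipotent subgroups of Chevalley groups: let G be the Chevalley group of type G₂, B₂, D₄, F₄, E₆, E₇ or E₈ over a finite field F (the matrix group generated by the root elements), with |F| ≠ 2, and |F| ≠ 3 as well for the types G₂, B₂, D₄, F₄. Let U be the subgroup generated by the positive root subgroups. If X ≤ U is weakly closed in U with respect to G (every G-conjugate of X lying in U equals X), then X is the unipotent radical U_J of a standard parabolic subgroup for some set J of fundamental roots. -/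
theorem result {F : Type*} [Field F] [Fintype F] (D : Cfsg.Lie.ChevalleyDatum) (hD : D ∈ [Cfsg.Lie.chevG2, Cfsg.Lie.chevB2, Cfsg.Lie.chevD4, Cfsg.Lie.chevF4, Cfsg.Lie.chevE6, Cfsg.Lie.chevE7, Cfsg.Lie.chevE8])
    (h2 : Fintype.card F ≠ 2) (h3 : D ∈ [Cfsg.Lie.chevG2, Cfsg.Lie.chevB2, Cfsg.Lie.chevD4, Cfsg.Lie.chevF4] → Fintype.card F ≠ 3)
    (X : Subgroup (GL D.Idx F)) (hXU : X ≤ D.posUnipotent F)
    (hwc : ∀ g ∈ D.group F, X.map (MulAut.conj g).toMonoidHom ≤ D.posUnipotent F → X.map (MulAut.conj g).toMonoidHom = X) :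
    ∃ J : Set ℕ, (∀ j ∈ J, j < D.rank) ∧ X = D.unipotentRadical F J := by
  obtain ⟨G⟩ := H14.exists_good hD
  have h1 := Fintype.one_lt_card (α := F)
  obtain ⟨l, hl⟩ : ∃ l : Fˣ, l ^ 1 ≠ 1 := by
    classical
    simpa using Fintype.exists_ne_of_one_lt_card (by rw [Fintype.card_units]; omega) (1 : Fˣ)
  have h4 := fun h => H15.exists_unit_sq_ne (K := F) (by have := h3 h; omega)
  simp only [List.mem_cons, List.not_mem_nil, or_false] at hD
  rcases hD with rfl | rfl | rfl | rfl | rfl | rfl | rfl
  · exact (h4 (by simp)).elim fun l hl => H14.wcG2.weakly_closed G l hl hXU hwc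
  · exact (h4 (by simp)).elim fun l hl => H14.wcB2.weakly_closed G l hl hXU hwc
  · exact (h4 (by simp)).elim fun l hl => H14.wcD4.weakly_closed G l hl hXU hwc
  · exact (h4 (by simp)).elim fun l hl => H14.wcF4.weakly_closed G l hl hXU hwc
  exacts [H14.wcE6.weakly_closed G l hl hXU hwc, H14.wcE7.weakly_closed G l hl hXU hwc, H14.wcE8.weakly_closed G l hl hXU hwc]

end Cfsg.Agent.S2244
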