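import Cfsg.Statements.S2249
import Cfsg.Agent.H28.NR1

set_option autoImplicit false
open Cfsg

namespace Cfsg.Agent.S2249

open Cfsg.Agent.H28 Cfsg.Agent.H27 Cfsg.Agent.H8 Matrix Subgroup Equiv Module

/-- The normal 2-rank of the general linear group over a finite field of odd order q: for n ≥ 1 and S a Sylow 2-subgroup of GL_n(F), the largest rank of an elementary abelian subgroup of S that is normal in S equals n when q ≡ 1 (mod 4) and ⌊(n + 1)/2⌋ when q ≡ 3 (mod 4). -/
theorem result {F : Type*} [Field F] [Fintype F] {q : ℕ} (hF : Fintype.card F = q) (hodd : Odd q) (n : ℕ) (hn : 1 ≤ n) (S : Sylow 2 (Matrix.GeneralLinearGroup (Fin n) F)) :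
    (q % 4 = 1 → ((∃ E : Subgroup ↥(S : Subgroup (Matrix.GeneralLinearGroup (Fin n) F)), E.Normal ∧ Cfsg.IsElementaryAbelian 2 E ∧ 2 ^ (n) ≤ Nat.card ↥E) ∧
      ∀ E : Subgroup ↥(S : Subgroup (Matrix.GeneralLinearGroup (Fin n) F)), E.Normal → Cfsg.IsElementaryAbelian 2 E → Nat.card ↥E ≤ 2 ^ (n))) ∧
    (q % 4 = 3 → ((∃ E : Subgroup ↥(S : Subgroup (Matrix.GeneralLinearGroup (Fin n) F)), E.Normal ∧ Cfsg.IsElementaryAbelian 2 E ∧ 2 ^ ((n + 1) / 2) ≤ Nat.card ↥E) ∧
      ∀ E : Subgroup ↥(S : Subgroup (Matrix.GeneralLinearGroup (Fin n) F)), E.Normal → Cfsg.IsElementaryAbelian 2 E → Nat.card ↥E ≤ 2 ^ ((n + 1) / 2))) := by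
  classical
  subst hF
  have h2 := H12.two_ne_zero_of_odd_card hodd
  have h1 := Fintype.one_lt_card (α := F)
  refine ⟨fun hq => ?_, fun hq => ?_⟩
  · obtain ⟨D0, hD⟩ := exists_sylow_mem (p := 2) (k := 1) (x := (-1 : Fˣ)) (by simp)
    obtain ⟨T⟩ : Nonempty (Sylow 2 (Perm (Fin n))) := inferInstance
    refine nr_gl (DistribMulAction.toModuleAut F F) (fun a b h => Units.ext (by
      simpa [Units.smul_def] using LinearEquiv.congr_fun h 1)) h2 (m := n) (r := 0) (by simp) D0 T ?_
      (fun h => nr_wr (Z := zpowers (-1)) (zpowers_le.2 hD) (fun _ _ => mem_center_iff.2 fun _ => mul_comm _ _) ?_ ?_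
        (by simp) (Or.inl h)) S
    · rw [Nat.card_units, Nat.card_eq_fintype_card, add_zero]
      clear hn S T
      induction n with
      | zero => simp
      | succ n ih =>
        rw [Finset.sum_range_succ, Nat.factorial_succ, fac2_mul (a := n + 1) n.succ_ne_zero n.factorial_ne_zero]
        have : (Fintype.card F ^ (n + 1) - 1).factorization 2 =
            (Fintype.card F - 1).factorization 2 + (n + 1).factorization 2 := by
          obtain ⟨m, hm | hm⟩ := Nat.even_or_odd' (n + 1)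
          · rw [hm, fac2_even_pow hodd h1 (by omega), fac2_sq_sub_one h1, fac2_mul two_ne_zero (by omega),
              fac2_eq_one (n := Fintype.card F + 1) (by omega), Nat.prime_two.factorization_self, add_assoc]
          · rw [hm, fac2_odd_pow hodd h1, fac2_odd (odd_two_mul_add_one m), add_zero]
        rw [this, add_mul]
        omega
    · rintro _ ⟨j, rfl⟩
      simp only [← mul_zpow, neg_mul_neg, mul_one, _root_.one_zpow]
    · rw [Nat.card_zpowers]
      exact orderOf_eq_prime (by simp) (units_one_ne_neg_one h2).symm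
  · obtain ⟨m, r, hr, rfl⟩ : ∃ m r, r ≤ 1 ∧ n = 2 * m + r := ⟨n / 2, n % 2, by omega, by omega⟩
    obtain ⟨g, g2⟩ : ∃ g : G2 F, g * g = -1 :=
      ⟨H12.mkGL2 0 1 (-1) 0 (by simp), Units.ext (m2ext (by simp [m2mul]) (by simp [m2mul]) (by simp [m2mul])
        (by simp [m2mul]))⟩
    have g3 : (-1 : G2 F) ≠ 1 := fun h => h2 (by
      have : (-1 : F) = 1 := by simpa using congrArg (fun x : G2 F => (x : M2 F) 0 0) h
      linear_combination -this)
    obtain ⟨D0, hD⟩ := exists_sylow_mem (p := 2) (k := 2) (x := g) (by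
      rw [show 2 ^ 2 = 2 * 2 from rfl, pow_mul, sq g, g2]; simp)
    obtain ⟨T⟩ : Nonempty (Sylow 2 (Perm (Fin m))) := inferInstance
    refine nr_gl (H12.glEq (Fin 2) F).toMonoidHom (H12.glEq (Fin 2) F).injective h2 (m := m) (r := r)
      (by simp [mul_comm]) D0 T ?_
      (fun _ => nr_wr (Z := zpowers (-1)) (zpowers_le.2 (g2 ▸ mul_mem hD hD))
        (zpowers_le.2 (mem_center_iff.2 fun _ => by simp)) ?_ ?_
        (by simp; omega) (Or.inr ⟨⟨g, hD, g2 ▸ g3⟩, fun a _ a2 h => nr_g2 hq D0 a2 h⟩)) S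
    · rw [Nat.card_congr (H12.glEq (Fin 2) F).toEquiv, fac2_card_gl hodd (n := 2 * 1) (by simp),
        fac2_gl_even hodd h1]
      have h4 := fac2_gl_even hodd h1 m
      interval_cases r
      · simp [h4]
      · rw [Finset.sum_range_succ, h4, fac2_odd_pow hodd h1, fac2_eq_one (n := Fintype.card F - 1) (by omega)]
        simp
    · rintro _ ⟨j, rfl⟩
      simp only [← (Commute.refl (-1 : G2 F)).mul_zpow, neg_mul_neg, mul_one, _root_.one_zpow]
    · rw [Nat.card_zpowers]
      exact orderOf_eq_prime (by simp) g3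

end Cfsg.Agent.S2249
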