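import Cfsg.Statements.S2250
import Cfsg.Agent.H28.NR1
import Cfsg.Agent.H13.Rank2

set_option autoImplicit false
open Cfsg

namespace Cfsg.Agent.S2250

open Cfsg.Agent.H28 Cfsg.Agent.H8 Subgroup Equiv Module Function
open scoped MatrixGroups

/-- The normal 2-rank of the symplectic group over a finite field of odd order: for n ≥ 1 and S a Sylow 2-subgroup of Sp_{2n}(F), the largest rank of an elementary abelian subgroup of S that is normal in S equals n. -/
theorem result {F : Type*} [Field F] [Fintype F] (hF : Odd (Fintype.card F)) (n : ℕ) (hn : 1 ≤ n) (S : Sylow 2 ↥(Matrix.symplecticGroup (Fin n) F)) :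
    ((∃ E : Subgroup ↥(S : Subgroup ↥(Matrix.symplecticGroup (Fin n) F)), E.Normal ∧ Cfsg.IsElementaryAbelian 2 E ∧ 2 ^ (n) ≤ Nat.card ↥E) ∧
      ∀ E : Subgroup ↥(S : Subgroup ↥(Matrix.symplecticGroup (Fin n) F)), E.Normal → Cfsg.IsElementaryAbelian 2 E → Nat.card ↥E ≤ 2 ^ (n)) := by
  classical
  have h2 := H12.two_ne_zero_of_odd_card hF
  let V := (Fin n → Fin 2 → F) × (Fin 0 → F)
  let B : V →ₛₗ[RingHom.id F] V →ₗ[F] F := LinearMap.mk₂ F
    (fun v w => ∑ i, (v.1 i 0 * w.1 i 1 - v.1 i 1 * w.1 i 0))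
    (fun _ _ _ => by
      rw [← Finset.sum_add_distrib]; exact Finset.sum_congr rfl fun _ _ => by simp [V]; ring)
    (fun _ _ _ => by
      rw [smul_eq_mul, Finset.mul_sum]; exact Finset.sum_congr rfl fun _ _ => by simp [V]; ring)
    (fun _ _ _ => by
      rw [← Finset.sum_add_distrib]; exact Finset.sum_congr rfl fun _ _ => by simp [V]; ring)
    (fun _ _ _ => by
      rw [smul_eq_mul, Finset.mul_sum]; exact Finset.sum_congr rfl fun _ _ => by simp [V]; ring)
  have hB : ∀ v w, B v w = ∑ i, (v.1 i 0 * w.1 i 1 - v.1 i 1 * w.1 i 0) := fun _ _ => rfl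
  have hSD : H12.SD B := by
    refine ⟨fun _ => rfl, fun v w => ?_, fun v h => ?_, fun v => ⟨0, ?_⟩⟩
    · rw [RingHom.id_apply, hB, hB, ← Finset.sum_neg_distrib]
      exact Finset.sum_congr rfl fun _ _ => by ring
    · refine Prod.ext (funext fun i => ?_) (Subsingleton.elim _ _)
      have h0 := h (Pi.single i ![0, 1], 0)
      have h1 := h (Pi.single i ![1, 0], 0)
      rw [hB, Finset.sum_eq_single i (fun j _ hj => by simp [Pi.single_eq_of_ne hj])
        (by simp)] at h0 h1
      funext j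
      fin_cases j
      · simpa using h0
      · simpa using h1
    · rw [hB, Finset.sum_eq_zero fun _ _ => by ring]; simp
  have hV : finrank F V = 2 * n := by
    simp [V, finrank_pi_fintype, mul_comm]
  obtain ⟨e⟩ := hSD.nonempty_UG_equiv_sp hV
  let f : Wr SL(2, F) (Fin n) × (Fin 0 → ℤˣ) →* (V ≃ₗ[F] V) :=
    wrL Matrix.SpecialLinearGroup.toLin' (sgnL F (Fin 0))
  have hf : Injective f := wrL_injective Matrix.SpecialLinearGroup.toLin'_injective (sgnL_injective h2)
  have hfB : ∀ w, f w ∈ H12.UG B := fun w u v => by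
    rw [hB, hB, ← Equiv.sum_comp w.1.right⁻¹ fun i => u.1 i 0 * v.1 i 1 - u.1 i 1 * v.1 i 0]
    refine Finset.sum_congr rfl fun i _ => ?_
    have h1 := (w.1.left i).det_coe
    rw [Matrix.det_fin_two] at h1
    have h2 : ∀ (u : V) (j : Fin 2), (f w u).1 i j =
        ∑ k, (w.1.left i).1 j k * u.1 (w.1.right⁻¹ i) k := fun _ _ => rfl
    simp only [h2, Fin.sum_univ_two]
    linear_combination (u.1 (w.1.right⁻¹ i) 0 * v.1 (w.1.right⁻¹ i) 1 -
      u.1 (w.1.right⁻¹ i) 1 * v.1 (w.1.right⁻¹ i) 0) * h1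
  have hf' : Injective (f.codRestrict _ hfB) := fun a b h => hf (congrArg Subtype.val h)
  obtain ⟨D0, hD⟩ := exists_sylow_mem (p := 2) (k := 1) (x := (-1 : SL(2, F))) (by simp)
  obtain ⟨T⟩ : Nonempty (Sylow 2 (Perm (Fin n))) := inferInstance
  refine nr_sylow (k := n) (e.toMonoidHom.comp (f.codRestrict _ hfB)) (e.injective.comp hf')
    (isPGroup_prod_top (isPGroup_wsub D0.isPGroup' T.isPGroup') (isPGroup_signs _)) ?_
    (nr_wr (Z := zpowers (-1)) (zpowers_le.2 hD) (zpowers_le.2 (mem_center_iff.2 fun _ => by simp)) ?_ ?_ (by simp)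
      (Or.inl fun E hE => ?_)) S
  · rw [factorization_card_prod_top, factorization_card_wsub, factorization_card_sylow, factorization_card_sylow_perm,
      fac2_card_sl2 hF, H12.card_sp, H12.spOrd, Nat.card_eq_fintype_card,
      fac2_mul (pow_ne_zero _ Fintype.card_ne_zero) (prod_even_pow_ne_zero Fintype.one_lt_card _),
      fac2_odd hF.pow, fac2_prod_even_pow hF Fintype.one_lt_card]
    simp
  · rintro _ ⟨j, rfl⟩
    simp only [← (Commute.refl (-1 : SL(2, F))).mul_zpow, neg_mul_neg, mul_one, _root_.one_zpow]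
  · rw [Nat.card_zpowers]
    refine orderOf_eq_prime (by simp) fun h => h2 ?_
    have : (-1 : F) = 1 := by simpa using congrArg (fun x : SL(2, F) => x.1 0 0) h
    linear_combination -this
  · have h3 := nr_ea.1 (nr_ea_map hE (f.codRestrict _ hfB))
    have e1 := (E.equivMapOfInjective _ hf').toEquiv
    rw [Nat.card_congr e1]
    exact H13.card_le_sp_aux h2 n hSD hV _ (.of_equiv _ e1) (fun a b => Subtype.ext (h3.1 a a.2 b b.2))
      fun a => Subtype.ext (h3.2 a a.2)

end Cfsg.Agent.S2250
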