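import Cfsg.Statements.S2254
import Cfsg.Agent.H6.NilSymB
-- import your own Cfsg.Agent.* helpers here

set_option autoImplicit false
open Cfsg

namespace Cfsg.Agent.S2254

open Cfsg.Agent.H6.NS Subgroup Equiv


/-- Let n ≡ 3 (mod 4). Then every nilpotent subgroup of the symmetric group on n letters has order at most 3 times the order of a Sylow 2-subgroup of the symmetric group on n − 3 letters; the bound is attained by a nilpotent subgroup isomorphic to the direct product of such a Sylow 2-subgroup with a cyclic group of order 3; and any two nilpotent subgroups attaining the bound are conjugate. -/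
theorem result  (n : ℕ) (hn : n % 4 = 3)
    (P : Sylow 2 (Equiv.Perm (Fin (n - 3)))) :
    (∀ N : Subgroup (Equiv.Perm (Fin n)), Group.IsNilpotent N → Nat.card N ≤ 3 * Nat.card P) ∧
    (∃ M : Subgroup (Equiv.Perm (Fin n)), Group.IsNilpotent M ∧ Nat.card M = 3 * Nat.card P ∧
      Nonempty (M ≃* (↥(P : Subgroup (Equiv.Perm (Fin (n - 3)))) × Multiplicative (ZMod 3)))) ∧
    (∀ N₁ N₂ : Subgroup (Equiv.Perm (Fin n)), Group.IsNilpotent N₁ → Group.IsNilpotent N₂ →
      Nat.card N₁ = 3 * Nat.card P → Nat.card N₂ = 3 * Nat.card P →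
      ∃ g : Equiv.Perm (Fin n), N₂ = N₁.map (MulAut.conj g).toMonoidHom) := by
  refine ⟨fun N hN => ?_, ?_, fun N₁ N₂ h₁ h₂ c₁ c₂ => ?_⟩
  · have := (nil_bound n (Fin n) (Fintype.card_fin n) N hN).1
    rwa [hS, if_pos hn, w_three hn, Nat.add_sub_cancel, ← card_sylow_perm P] at this
  · obtain ⟨f, hf, -⟩ := exists_embedding (show 3 ≤ n by omega)
    exact exists_prod P.2 (f.comp ((P : Subgroup (Perm (Fin (n - 3)))).subtype.prodMap (MonoidHom.id _)))
      (hf.comp ((subtype_injective _).prodMap Function.injective_id))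
  rw [card_sylow_perm] at c₁ c₂
  refine conj_of_card (fun c d hc hd h1 h2 => ?_) (fun c hc h1 h2 => ?_) h₁ h₂ c₁ c₂
  · exact Perm.isConj_of_cycleType_eq ((isThreeCycle_of hn (Nat.le_succ _) hc h1).trans
      (isThreeCycle_of hn (Nat.le_succ _) hd h2).symm)
  · rw [card_cent_three (isThreeCycle_of hn (Nat.le_succ _) hc h1)] at h2
    have := le_w_of_dvd (Nat.Coprime.dvd_of_dvd_mul_right (Nat.Coprime.pow_left _ (by decide)) h2)
    omega

end Cfsg.Agent.S2254
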