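import Cfsg.Statements.S2256
import Cfsg.Agent.H6.NilSymB
-- import your own Cfsg.Agent.* helpers here

set_option autoImplicit false
open Cfsg

namespace Cfsg.Agent.S2256

open Cfsg.Agent.H6.NS Subgroup Equiv

theorem cent_alt {n : ℕ} (c : alternatingGroup (Fin n)) :
    centralizer ({c} : Set (alternatingGroup (Fin n))) =
      (centralizer ({(c : Perm (Fin n))} : Set (Perm (Fin n)))).subgroupOf _ := by
  ext x
  rw [mem_subgroupOf, mem_centralizer_singleton_iff, mem_centralizer_singleton_iff, Subtype.ext_iff]
  rfl

theorem card_cent_alt {n : ℕ} (hn : 5 ≤ n) (c : alternatingGroup (Fin n))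
    (hc : (c : Perm (Fin n)).IsThreeCycle) :
    Nat.card (centralizer ({c} : Set (alternatingGroup (Fin n)))) * 2 = (n - 3).factorial * 3 := by
  have : Nontrivial (Fin n) := Fin.nontrivial_iff_two_le.2 (by omega)
  set C := centralizer ({(c : Perm (Fin n))} : Set (Perm (Fin n)))
  have h1 : (alternatingGroup (Fin n)).relIndex C = 2 := by
    have h2 := relIndex_dvd_index_of_normal (alternatingGroup (Fin n)) C
    rw [alternatingGroup.index_eq_two] at h2
    refine ((Nat.dvd_prime Nat.prime_two).1 h2).resolve_left fun h => ?_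
    obtain ⟨a, ha, b, hb, hab⟩ := Finset.one_lt_card.1
      (show 1 < ((c : Perm (Fin n)).supportᶜ).card by
        rw [Finset.card_compl, hc.card_support, Fintype.card_fin]; omega)
    have h3 : swap a b ∈ C := mem_centralizer_singleton_iff.2 (Perm.Disjoint.commute (by
      rw [Perm.disjoint_iff_disjoint_support, Perm.support_swap hab, Finset.disjoint_left]
      intro x hx
      rcases Finset.mem_insert.1 hx with rfl | hx
      · exact Finset.mem_compl.1 ha
      · rw [Finset.mem_singleton.1 hx]; exact Finset.mem_compl.1 hb))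
    have h4 := Perm.mem_alternatingGroup.1 (relIndex_eq_one.1 h h3)
    rw [Perm.sign_swap hab] at h4
    exact absurd h4 (by decide)
  rw [← card_cent_three hc, ← h1, cent_alt, ← inf_subgroupOf_right,
    Nat.card_congr (subgroupOfEquivOfLe inf_le_right).toEquiv,
    ← Nat.card_congr (subgroupOfEquivOfLe inf_le_left).toEquiv, inf_subgroupOf_left]
  exact card_mul_index _


/-- Let n ≡ 3 (mod 4) with n ≥ 7. Then every nilpotent subgroup of the alternating group on n letters has order at most 3 times the order of a Sylow 2-subgroup of the alternating group on n − 3 letters; the bound is attained by a nilpotent subgroup isomorphic to the direct product of such a Sylow 2-subgroup with a cyclic group of order 3; and any two nilpotent subgroups of the alternating group attaining the bound are conjugate in it. -/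
theorem result  (n : ℕ) (hn : n % 4 = 3) (h7 : 7 ≤ n)
    (P : Sylow 2 (alternatingGroup (Fin (n - 3)))) :
    (∀ N : Subgroup (alternatingGroup (Fin n)), Group.IsNilpotent N → Nat.card N ≤ 3 * Nat.card P) ∧
    (∃ M : Subgroup (alternatingGroup (Fin n)), Group.IsNilpotent M ∧ Nat.card M = 3 * Nat.card P ∧
      Nonempty (M ≃* (↥(P : Subgroup (alternatingGroup (Fin (n - 3)))) × Multiplicative (ZMod 3)))) ∧
    (∀ N₁ N₂ : Subgroup (alternatingGroup (Fin n)), Group.IsNilpotent N₁ → Group.IsNilpotent N₂ →
      Nat.card N₁ = 3 * Nat.card P → Nat.card N₂ = 3 * Nat.card P →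
      ∃ g : alternatingGroup (Fin n), N₂ = N₁.map (MulAut.conj g).toMonoidHom) := by
  have hP := card_sylow_alt (show 2 ≤ n - 3 by omega) P
  refine ⟨fun N hN => ?_, ?_, fun N₁ N₂ h₁ h₂ c₁ c₂ => ?_⟩
  · have := alt_bound N hN
    rw [kk, if_neg (by omega), if_neg (by omega), if_neg (by omega), if_neg (by omega),
      if_neg (by omega), hS, if_pos hn, w_three hn, Nat.add_sub_cancel, ← hP] at this
    omega
  · obtain ⟨f, hf, hs⟩ := exists_embedding (show 3 ≤ n by omega)
    let g := f.comp (((alternatingGroup (Fin (n - 3))).subtype.comp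
      (P : Subgroup (alternatingGroup (Fin (n - 3)))).subtype).prodMap (MonoidHom.id _))
    refine exists_prod P.2 (g.codRestrict (alternatingGroup (Fin n)) fun x => ?_) fun a b h => ?_
    · exact Perm.mem_alternatingGroup.2 ((hs _ _).trans (Perm.mem_alternatingGroup.1 x.1.1.2))
    · exact (hf.comp (((subtype_injective _).comp (subtype_injective _)).prodMap
        Function.injective_id)) (congrArg Subtype.val h)
  obtain ⟨a, ha⟩ := P.2.exists_card_eq
  have hw : w (n - 3) = a + 1 := by
    rw [show Nat.card P = 2 ^ a from ha, ← pow_succ'] at hP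
    exact (Nat.pow_right_injective le_rfl hP).symm
  rw [show Nat.card P = 2 ^ a from ha] at c₁ c₂
  have h3 : ∀ c : alternatingGroup (Fin n), orderOf c = 3 →
      2 ^ a ∣ Nat.card (centralizer ({c} : Set (alternatingGroup (Fin n)))) →
      (c : Perm (Fin n)).IsThreeCycle := fun c hc h =>
    isThreeCycle_of hn hw.le (by rwa [orderOf_coe]) (h.trans (by
      rw [cent_alt, ← card_map_of_injective (subtype_injective _)]
      exact card_dvd_of_le (map_comap_le _ _)))
  refine conj_of_card (fun c d hc hd h1 h2 => ?_) (fun c hc h1 h2 => ?_) h₁ h₂ c₁ c₂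
  · exact alternatingGroup.isThreeCycle_isConj (by simp; omega) (h3 c hc h1) (h3 d hd h2)
  · have h4 := Nat.mul_dvd_mul_right h2 2
    rw [card_cent_alt (by omega) c (h3 c hc h1), ← pow_succ] at h4
    have := le_w_of_dvd (Nat.Coprime.dvd_of_dvd_mul_right (Nat.Coprime.pow_left _ (by decide)) h4)
    omega

end Cfsg.Agent.S2256
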