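import Cfsg.Statements.S2257
import Mathlib
import Cfsg.Agent.H2.Sol2

set_option autoImplicit false
open Cfsg

namespace Cfsg.Agent.S2257

open Cfsg.Agent.H2.Sol Cfsg.Agent.H12 in

/-- Let G = PSL_2(F) with F a field of order q = 2^p, p prime, and for x ∈ G call the solubilizer of x the set of y ∈ G such that x and y generate a solvable subgroup. Then the solubilizer of an involution has 3q(q − 1) elements; that of a non-identity element of order dividing q − 1 has 2q(q − 1) elements; and that of a non-identity element of order dividing q + 1 has 2(q + 1) elements. -/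
theorem result (p : ℕ) (hp : p.Prime) {F : Type*} [Field F] [Fintype F]
    (hF : Fintype.card F = 2 ^ p) (x : Matrix.ProjectiveSpecialLinearGroup (Fin 2) F) :
    (orderOf x = 2 → Nat.card {y : Matrix.ProjectiveSpecialLinearGroup (Fin 2) F // Group.IsSolvable ↥(Subgroup.closure ({x, y} : Set (Matrix.ProjectiveSpecialLinearGroup (Fin 2) F)))} = 3 * 2 ^ p * (2 ^ p - 1)) ∧
    (x ≠ 1 → orderOf x ∣ 2 ^ p - 1 → Nat.card {y : Matrix.ProjectiveSpecialLinearGroup (Fin 2) F // Group.IsSolvable ↥(Subgroup.closure ({x, y} : Set (Matrix.ProjectiveSpecialLinearGroup (Fin 2) F)))} = 2 * 2 ^ p * (2 ^ p - 1)) ∧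
    (x ≠ 1 → orderOf x ∣ 2 ^ p + 1 → Nat.card {y : Matrix.ProjectiveSpecialLinearGroup (Fin 2) F // Group.IsSolvable ↥(Subgroup.closure ({x, y} : Set (Matrix.ProjectiveSpecialLinearGroup (Fin 2) F)))} = 2 * (2 ^ p + 1)) := by
  obtain ⟨g, rfl⟩ := QuotientGroup.mk_surjective x
  have hq : (Fintype.card F : F) = 0 := FiniteField.cast_card_eq_zero F
  have h2 : (2 : F) = 0 := by
    rw [hF] at hq
    push_cast at hq
    exact pow_eq_zero_iff hp.ne_zero |>.1 hq
  have hneg : ∀ a : Matrix.SpecialLinearGroup (Fin 2) F, -a = a := fun a => by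
    ext i j
    simp only [Matrix.SpecialLinearGroup.coe_neg, Matrix.neg_apply]
    linear_combination (-a.1 i j) * h2
  have hc : Nat.card (Subgroup.center (Matrix.SpecialLinearGroup (Fin 2) F)) = 1 := by
    rw [card_center_SL, Nat.card_eq_fintype_card, hF, Fintype.card_fin]
    exact Nat.coprime_two_left.2
      (Nat.Even.sub_odd Nat.one_le_two_pow ((Nat.even_pow' hp.ne_zero).2 even_two) odd_one)
  have h1 := ncard_sol_quot g
  rw [hc, one_mul] at h1
  have h3 : Nat.card {y : Matrix.ProjectiveSpecialLinearGroup (Fin 2) F // Group.IsSolvable ↥(Subgroup.closure ({(g : Matrix.ProjectiveSpecialLinearGroup (Fin 2) F), y} : Set (Matrix.ProjectiveSpecialLinearGroup (Fin 2) F)))} = (sol g).ncard := h1 ▸ Nat.card_coe_set_eq (sol _)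
  rw [h3, ← hF]
  have h4 : ∀ n, orderOf (g : Matrix.ProjectiveSpecialLinearGroup (Fin 2) F) ∣ n → g ^ n = 1 := fun n hn => by
    have := psl2_mk_eq_one_iff.1 ((QuotientGroup.mk_pow _ g n).trans (orderOf_dvd_iff_pow_eq_one.1 hn))
    rwa [hneg, or_self] at this
  have h5 : ∀ n : ℕ, (n : F) ≠ 0 → (g : Matrix.ProjectiveSpecialLinearGroup (Fin 2) F) ≠ 1 → g ^ n = 1 →
      tr g ^ 2 ≠ 4 ∧ tr g ≠ 0 := fun n hn hg h => by
    have h6 : tr g ^ 2 ≠ 4 := ((central_or_trace_ne hn (Or.inl h)).resolve_left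
      fun h => hg (psl2_mk_eq_one_iff.2 (Or.inl h))).resolve_left fun h => hg (psl2_mk_eq_one_iff.2 (Or.inr h))
    exact ⟨h6, fun h => h6 (by rw [h]; linear_combination -2 * h2)⟩
  refine ⟨fun h => ?_, fun h h' => ?_, fun h h' => ?_⟩
  · haveI : CharP F 2 := CharTwo.of_one_ne_zero_of_two_eq_zero one_ne_zero h2
    obtain ⟨P, hP⟩ := exists_mem_rootSL_of_pow 2 (k := 1) (h4 _ (by rw [h, pow_one]))
    obtain ⟨b, hb, h6⟩ := exists_conj_upper hP (by rintro rfl; simp at h)
    rw [h6, ncard_unip_two h2 hb]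
  · obtain ⟨h6, h7⟩ := h5 _ natCast_card_sub_one_ne_zero h (h4 _ h')
    exact ncard_split h6 h7 (fun h => absurd h2 h) (h4 _ h')
  · obtain ⟨h6, h7⟩ := h5 _ natCast_card_add_one_ne_zero h (h4 _ h')
    exact ncard_nonsplit h6 h7 (fun h => absurd h2 h) (h4 _ h')

end Cfsg.Agent.S2257
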