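import Cfsg.Statements.S2258
import Mathlib
import Cfsg.Agent.H2.Sol3

set_option autoImplicit false
open Cfsg

namespace Cfsg.Agent.S2258

open Cfsg.Agent.H2.Sol Cfsg.Agent.H12 in

/-- Let G = PSL_2(F) with F a field of order q = 3^p, p an odd prime, and for x ∈ G call the solubilizer of x the set of y ∈ G such that x and y generate a solvable subgroup. Then the solubilizer of an involution has q(q + 1) elements; that of an element of order 3 has q(q + 5)/2 elements; that of an element of order neither 1 nor 2 dividing q − 1 has q(q − 1) elements; and that of an element of order neither 1 nor 2 dividing q + 1 has q + 1 elements. -/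
theorem result (p : ℕ) (hp : p.Prime) (hodd : Odd p) {F : Type*} [Field F] [Fintype F]
    (hF : Fintype.card F = 3 ^ p) (x : Matrix.ProjectiveSpecialLinearGroup (Fin 2) F) :
    (orderOf x = 2 → Nat.card {y : Matrix.ProjectiveSpecialLinearGroup (Fin 2) F // Group.IsSolvable ↥(Subgroup.closure ({x, y} : Set (Matrix.ProjectiveSpecialLinearGroup (Fin 2) F)))} = 3 ^ p * (3 ^ p + 1)) ∧
    (orderOf x = 3 → 2 * Nat.card {y : Matrix.ProjectiveSpecialLinearGroup (Fin 2) F // Group.IsSolvable ↥(Subgroup.closure ({x, y} : Set (Matrix.ProjectiveSpecialLinearGroup (Fin 2) F)))} = 3 ^ p * (3 ^ p + 5)) ∧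
    (x ≠ 1 → orderOf x ≠ 2 → orderOf x ∣ 3 ^ p - 1 → Nat.card {y : Matrix.ProjectiveSpecialLinearGroup (Fin 2) F // Group.IsSolvable ↥(Subgroup.closure ({x, y} : Set (Matrix.ProjectiveSpecialLinearGroup (Fin 2) F)))} = 3 ^ p * (3 ^ p - 1)) ∧
    (x ≠ 1 → orderOf x ≠ 2 → orderOf x ∣ 3 ^ p + 1 → Nat.card {y : Matrix.ProjectiveSpecialLinearGroup (Fin 2) F // Group.IsSolvable ↥(Subgroup.closure ({x, y} : Set (Matrix.ProjectiveSpecialLinearGroup (Fin 2) F)))} = 3 ^ p + 1) := by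
  have hq : (Fintype.card F : F) = 0 := FiniteField.cast_card_eq_zero F
  have h3 : (3 : F) = 0 := by
    rw [hF] at hq
    push_cast at hq
    exact pow_eq_zero_iff hp.ne_zero |>.1 hq
  have h2 : (2 : F) ≠ 0 := fun h => one_ne_zero (by linear_combination h3 - h : (1 : F) = 0)
  have hm : Fintype.card F % 4 = 3 := by
    obtain ⟨k, rfl⟩ := hodd
    rw [hF, pow_succ, pow_mul, Nat.mul_mod, Nat.pow_mod]
    simp
  have hn : ∀ a : F, a ^ 2 ≠ -1 := fun a ha =>
    FiniteField.isSquare_neg_one_iff.1 ⟨a, by rw [← ha, pow_two]⟩ hm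
  have hc : Nat.card (Subgroup.center (Matrix.SpecialLinearGroup (Fin 2) F)) = 2 := by
    rw [card_center_SL, Nat.card_eq_fintype_card, Fintype.card_fin]
    exact Nat.gcd_eq_left (by omega)
  have h1 : ∀ g : Matrix.SpecialLinearGroup (Fin 2) F, 2 * Nat.card {y : Matrix.ProjectiveSpecialLinearGroup (Fin 2) F // Group.IsSolvable ↥(Subgroup.closure ({(g : Matrix.ProjectiveSpecialLinearGroup (Fin 2) F), y} : Set (Matrix.ProjectiveSpecialLinearGroup (Fin 2) F)))} = (sol g).ncard := fun g => by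
    rw [ncard_sol_quot g, hc]
    exact congrArg _ (Nat.card_coe_set_eq (sol _))
  rw [← hF]
  have h4 : ∀ (g : Matrix.SpecialLinearGroup (Fin 2) F) n,
      orderOf (g : Matrix.ProjectiveSpecialLinearGroup (Fin 2) F) ∣ n → g ^ n = 1 ∨ g ^ n = -1 := fun g n hn =>
    psl2_mk_eq_one_iff.1 ((QuotientGroup.mk_pow _ g n).trans (orderOf_dvd_iff_pow_eq_one.1 hn))
  have h5 : ∀ (g : Matrix.SpecialLinearGroup (Fin 2) F) (n : ℕ), (n : F) ≠ 0 →
      (g : Matrix.ProjectiveSpecialLinearGroup (Fin 2) F) ≠ 1 →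
      orderOf (g : Matrix.ProjectiveSpecialLinearGroup (Fin 2) F) ≠ 2 → (g ^ n = 1 ∨ g ^ n = -1) →
      tr g ^ 2 ≠ 4 ∧ tr g ≠ 0 ∧ ((2 : F) ≠ 0 → ∀ k : ℤ, tr g ^ 2 ≠ k) ∧ g ^ 2 ≠ -1 := fun g n hn' hg hg2 h => by
    have h6 : tr g ^ 2 ≠ 4 := ((central_or_trace_ne hn' h).resolve_left
      fun h => hg (psl2_mk_eq_one_iff.2 (Or.inl h))).resolve_left fun h => hg (psl2_mk_eq_one_iff.2 (Or.inr h))
    have h7 : tr g ≠ 0 := fun h => hg2 (orderOf_eq_prime (psl_sq h) hg)
    exact ⟨h6, h7, fun _ k hk => h6 (by linear_combination (sq_cases h3 hn hk).resolve_left h7 - h3),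
      fun h => h7 (sl2_trace_of_mul_self (by rw [← pow_two, h]))⟩
  have h8 : Fintype.card F + 1 = (Fintype.card F - 1) + 2 := by omega
  refine ⟨fun h => ?_, fun h => ?_, fun h h' h'' => ?_, fun h h' h'' => ?_⟩
  · obtain ⟨g, hg, rfl⟩ := exists_lift_invol h2 h
    obtain ⟨k, hk⟩ := exists_conj_of_trace_eq (trace_sq_ne_four_of_mul_self h2 hg)
      (tr_J.trans (sl2_trace_of_mul_self hg).symm)
    have h6 := h1 g
    rw [← ncard_sol_conj g k, hk, ncard_invol_three h3 hn, mul_assoc] at h6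
    exact Nat.eq_of_mul_eq_mul_left two_pos h6
  · obtain ⟨g, rfl⟩ := QuotientGroup.mk_surjective x
    obtain ⟨u, hu, hu'⟩ : ∃ u : Matrix.SpecialLinearGroup (Fin 2) F, u ^ 3 = 1 ∧
        (g : Matrix.ProjectiveSpecialLinearGroup (Fin 2) F) = u := by
      rcases h4 g 3 (by rw [h]) with h6 | h6
      · exact ⟨g, h6, rfl⟩
      · exact ⟨-g, by rw [Odd.neg_pow (by decide), h6, neg_neg], (psl2_mk_neg g).symm⟩
    rw [hu'] at h ⊢
    haveI : Fact (Nat.Prime 3) := ⟨Nat.prime_three⟩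
    haveI : CharP F 3 := (CharP.charP_iff_prime_eq_zero Nat.prime_three).2 (by exact_mod_cast h3)
    obtain ⟨P, hP⟩ := exists_mem_rootSL_of_pow 3 (k := 1) (by rw [pow_one, hu])
    obtain ⟨b, hb, h6⟩ := exists_conj_upper hP (by rintro rfl; simp at h)
    rw [h1, h6, ncard_unip_three h3 hn hb]
  · obtain ⟨g, rfl⟩ := QuotientGroup.mk_surjective x
    obtain ⟨a1, a2, a3, a4⟩ := h5 g _ natCast_card_sub_one_ne_zero h h' (h4 g _ h'')
    have h6 := h1 g
    rw [ncard_split a1 a2 a3 ((pow_eq_one_of_trace_ne a1).elim id fun h7 => (h4 g _ h'').resolve_right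
      fun h9 => a4 (by rw [h8, pow_add, h9, neg_one_mul] at h7; exact neg_eq_iff_eq_neg.1 h7)), mul_assoc] at h6
    exact Nat.eq_of_mul_eq_mul_left two_pos h6
  · obtain ⟨g, rfl⟩ := QuotientGroup.mk_surjective x
    obtain ⟨a1, a2, a3, a4⟩ := h5 g _ natCast_card_add_one_ne_zero h h' (h4 g _ h'')
    have h6 := h1 g
    rw [ncard_nonsplit a1 a2 a3 ((pow_eq_one_of_trace_ne a1).symm.elim id fun h7 => (h4 g _ h'').resolve_right
      fun h9 => a4 (by rwa [h8, pow_add, h7, one_mul] at h9))] at h6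
    exact Nat.eq_of_mul_eq_mul_left two_pos h6

end Cfsg.Agent.S2258
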