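import Cfsg.Statements.S2259
import Cfsg.Agent.H15.Sz9

set_option autoImplicit false
open Cfsg

namespace Cfsg.Agent.S2259

/-- Let G be the Suzuki group Sz(q), q = 2^(2m+1) with 2m + 1 prime and m ≥ 1, realised inside Sp_4(F) for F the field of order q, write r = 2^(m+1) (so r² = 2q), and for x ∈ G call the solubilizer of x the set of y ∈ G such that x and y generate a solvable subgroup. Then the solubilizer of an involution has q²(4q − 3) elements; that of an element of order 4 has q²(q + 3) elements; that of a non-identity element of order dividing q − 1 has 2q²(q − 1) elements; that of a non-identity element of order dividing q + r + 1 has 4(q + r + 1) elements; and that of a non-identity element of order dividing q − r + 1 has 4(q − r + 1) elements. -/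
theorem result {F : Type*} [Field F] [Fintype F] {m : ℕ} (hm : 1 ≤ m)
    (hp : (2 * m + 1).Prime) (hF : Fintype.card F = 2 ^ (2 * m + 1)) (x : ↥(Cfsg.Lie.Sz F (2 ^ (m + 1)))) :
    (orderOf x = 2 → Nat.card {y : ↥(Cfsg.Lie.Sz F (2 ^ (m + 1))) // Group.IsSolvable ↥(Subgroup.closure ({x, y} : Set (↥(Cfsg.Lie.Sz F (2 ^ (m + 1))))))} = (2 ^ (2 * m + 1)) ^ 2 * (4 * 2 ^ (2 * m + 1) - 3)) ∧
    (orderOf x = 4 → Nat.card {y : ↥(Cfsg.Lie.Sz F (2 ^ (m + 1))) // Group.IsSolvable ↥(Subgroup.closure ({x, y} : Set (↥(Cfsg.Lie.Sz F (2 ^ (m + 1))))))} = (2 ^ (2 * m + 1)) ^ 2 * (2 ^ (2 * m + 1) + 3)) ∧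
    (x ≠ 1 → orderOf x ∣ 2 ^ (2 * m + 1) - 1 →
      Nat.card {y : ↥(Cfsg.Lie.Sz F (2 ^ (m + 1))) // Group.IsSolvable ↥(Subgroup.closure ({x, y} : Set (↥(Cfsg.Lie.Sz F (2 ^ (m + 1))))))} = 2 * (2 ^ (2 * m + 1)) ^ 2 * (2 ^ (2 * m + 1) - 1)) ∧
    (x ≠ 1 → orderOf x ∣ 2 ^ (2 * m + 1) + 2 ^ (m + 1) + 1 → Nat.card {y : ↥(Cfsg.Lie.Sz F (2 ^ (m + 1))) // Group.IsSolvable ↥(Subgroup.closure ({x, y} : Set (↥(Cfsg.Lie.Sz F (2 ^ (m + 1))))))} = 4 * (2 ^ (2 * m + 1) + 2 ^ (m + 1) + 1)) ∧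
    (x ≠ 1 → orderOf x ∣ 2 ^ (2 * m + 1) - 2 ^ (m + 1) + 1 → Nat.card {y : ↥(Cfsg.Lie.Sz F (2 ^ (m + 1))) // Group.IsSolvable ↥(Subgroup.closure ({x, y} : Set (↥(Cfsg.Lie.Sz F (2 ^ (m + 1))))))} = 4 * (2 ^ (2 * m + 1) - 2 ^ (m + 1) + 1)) := by
  have := H15.Sz.charP_two hF
  have hq : Nat.card F = 2 ^ (2 * m + 1) := by rw [Nat.card_eq_fintype_card, hF]
  let M := H15.Sz.lieModel hm hF
  have key : ∀ t, x ≠ 1 → orderOf x ∣ t → t ∣ Nat.card F ^ 2 + 1 → (∀ s, t.Coprime s → ¬ Nat.card (Subgroup.centralizer {x}) = s) ∧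
      M.Fpf x := fun t h1 h2 h3 => ⟨fun s hs e => h1 (orderOf_eq_one_iff.1 (Nat.eq_one_of_dvd_coprimes hs h2
        (e ▸ Subgroup.orderOf_dvd_natCard _ (H11.mem_cent1.2 rfl)))), M.fpf_of_orderOf_dvd h1 (h2.trans h3)⟩
  have hmul := H15.Sz.Model.torus_mul (m := m)
  have hcop := H15.Sz.Model.torus_coprime (m := m)
  rw [← hq]
  refine ⟨M.sol_two hm hq, M.sol_four hm hq, fun h1 h2 => ?_, fun h1 h2 => ?_, fun h1 h2 => ?_⟩
  · obtain ⟨g, a, ha⟩ := M.torus_D.conj_mem' (M.card_D ▸ h2)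
    refine (H15.Sz.ncard_sol_conj g x).symm.trans ?_
    rw [← ha, M.sol_D hm hq (M.D_ne_one.1 (ha ▸ H15.conj_ne_one h1))]
  · rw [hq] at h2 ⊢
    obtain ⟨h3, h4⟩ := key _ h1 h2 (by rw [hq]; exact ⟨_, hmul.symm⟩)
    exact (M.sol_fpf hm hq h4).trans (by rw [(h4.card_torus hm hq).1.resolve_right (h3 _ hcop)])
  · rw [hq] at h2 ⊢
    obtain ⟨h3, h4⟩ := key _ h1 h2 (by rw [hq]; exact Dvd.intro_left _ hmul)
    exact (M.sol_fpf hm hq h4).trans (by rw [(h4.card_torus hm hq).1.resolve_left (h3 _ hcop.symm)])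

end Cfsg.Agent.S2259
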