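import Cfsg.Statements.S2268
import Cfsg.Agent.H24.Base2

set_option autoImplicit false
open Cfsg

namespace Cfsg.Agent.S2268

open Subgroup Cfsg.Agent.H24


/-- Let G be a finite group with an abelian Sylow p-subgroup P and let Q ≤ P. Then N_G(Q) = (N_G(Q) ∩ N_G(P))·C_G(Q), so that N_G(Q)/C_G(Q) is a homomorphic image of the subgroup (N_G(Q) ∩ N_G(P))/C_G(P) of N_G(P)/C_G(P); in particular the order of N_G(Q)/C_G(Q) divides the order of N_G(P)/C_G(P). -/
theorem result {G : Type*} [Group G] [Finite G] {p : ℕ} [Fact p.Prime]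
    (P : Sylow p G) (hP : IsMulCommutative (P : Subgroup G)) (Q : Subgroup G) (hQ : Q ≤ (P : Subgroup G)) :
    Subgroup.normalizer (Q : Set G) =
      (Subgroup.normalizer (Q : Set G) ⊓ Subgroup.normalizer ((P : Subgroup G) : Set G)) ⊔ Subgroup.centralizer (Q : Set G) ∧
    ((Subgroup.centralizer (Q : Set G)).subgroupOf (Subgroup.normalizer (Q : Set G))).index ∣ ((Subgroup.centralizer ((P : Subgroup G) : Set G)).subgroupOf (Subgroup.normalizer ((P : Subgroup G) : Set G))).index := by
  have h1 : (P : Subgroup G) ≤ centralizer (Q : Set G) := fun x hx => mem_centralizer_iff.2 fun y hy =>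
    congrArg Subtype.val (hP.is_comm.comm (⟨y, hQ hy⟩ : (P : Subgroup G)) ⟨x, hx⟩)
  have h2 := (sylIn_of_le P h1).frattini_sup (centralizer_le_normalizer' Q) (normalizer_le_normalizer_centralizer Q)
  rw [sup_comm] at h2
  refine ⟨h2.symm, ?_⟩
  change (centralizer (Q : Set G)).relIndex _ ∣ (centralizer ((P : Subgroup G) : Set G)).relIndex _
  have h3 : centralizer ((P : Subgroup G) : Set G) ≤ centralizer (Q : Set G) := centralizer_le hQ
  have h4 : centralizer ((P : Subgroup G) : Set G) ≤ normalizer (Q : Set G) ⊓ normalizer ((P : Subgroup G) : Set G) :=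
    le_inf (h3.trans (centralizer_le_normalizer' Q)) (centralizer_le_normalizer' _)
  conv_lhs => rw [← h2]
  rw [relIndex_sup_of_le_normalizer (inf_le_left.trans (normalizer_le_normalizer_centralizer Q)),
    ← relIndex_mul_relIndex _ _ _ h4 inf_le_right]
  exact (relIndex_dvd_of_le_left _ h3).mul_right _

end Cfsg.Agent.S2268
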