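import Cfsg.Statements.S2270
import Cfsg.Agent.H23.AltF
-- import your own Cfsg.Agent.* helpers here

set_option autoImplicit false
open Cfsg

namespace Cfsg.Agent.S2270

section
open Cfsg Cfsg.FusionSystem Subgroup Cfsg.Agent.H23
open Equiv (Perm)

open Subgroup in
theorem two_dvd {G : Type*} [Group G] {P : Subgroup G} {t : G} (h1 : t ∈ normalizer (P : Set G)) (h2 : t ∉ centralizer (P : Set G))
    (h3 : t ^ 2 = 1) : 2 ∣ ((centralizer (P : Set G)).subgroupOf (normalizer (P : Set G))).index := by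
  have : orderOf (QuotientGroup.mk ⟨t, h1⟩ : normalizer (P : Set G) ⧸ (centralizer (P : Set G)).subgroupOf (normalizer (P : Set G))) = 2 :=
    orderOf_eq_prime (by rw [← QuotientGroup.mk_pow, show (⟨t, h1⟩ : normalizer (P : Set G)) ^ 2 = 1 from Subtype.ext h3]; rfl)
      fun e => h2 ((QuotientGroup.eq_one_iff (⟨t, h1⟩ : normalizer (P : Set G))).1 e)
  exact this ▸ orderOf_dvd_natCard _

open Subgroup in
theorem two_dvd_map {G G' : Type*} [Group G] [Group G'] (f : G ≃* G') {P : Subgroup G} {P' : Subgroup G'} (e : P.map f.toMonoidHom = P')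
    {t : G} (h1 : t ∈ normalizer (P : Set G)) (h2 : t ∉ centralizer (P : Set G))
    (h3 : t ^ 2 = 1) : 2 ∣ ((centralizer (P' : Set G')).subgroupOf (normalizer (P' : Set G'))).index := by
  subst e
  refine two_dvd (t := f t) (le_normalizer_map f.toMonoidHom ⟨t, h1, rfl⟩) (fun h => h2 fun x hx => f.injective ?_)
    (by rw [← map_pow, h3, map_one])
  rw [map_mul, map_mul]
  exact h _ (mem_map_of_mem f.toMonoidHom hx)

theorem neg_ne {p : ℕ} [Fact p.Prime] (hp : p ≠ 2) : (-1 : ZMod p) ≠ 1 := by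
  haveI : Fact (2 < p) := ⟨lt_of_le_of_ne (Fact.out : p.Prime).two_le hp.symm⟩
  exact ZMod.neg_one_ne_one

open H23 in
theorem eq_bot_of_comm {p : ℕ} [Fact p.Prime] {I R : Type*} [DecidableEq I] {P : Subgroup (Equiv.Perm I)}
    (h : ∀ σ ∈ P, ∀ b : I → ZMod p, io p R σ * tr b = tr b * io p R σ) : P = ⊥ := by
  refine eq_bot_iff.2 fun σ hσ => Equiv.ext fun i => ?_
  by_contra e
  have := congrArg (fun g : Equiv.Perm (WP p I R) => g (.inl (i, 0))) (h σ hσ (Pi.single i 1))
  simp [show σ i ≠ i from e] at this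

end


/-- Let n ≥ 3, p an odd prime, and P an abelian Sylow p-subgroup of the symmetric group S_n (with p dividing n!, so that P ≠ 1). Then N(P)/C(P) has even order. -/
theorem result (n : ℕ) (hn : 3 ≤ n) {p : ℕ} [Fact p.Prime] (hp : p ≠ 2) (hpn : p ≤ n)
    (P : Sylow p (Equiv.Perm (Fin n))) (hP : IsMulCommutative (P : Subgroup (Equiv.Perm (Fin n)))) :
    2 ∣ ((Subgroup.centralizer ((P : Subgroup (Equiv.Perm (Fin n))) : Set (Equiv.Perm (Fin n)))).subgroupOf (Subgroup.normalizer ((P : Subgroup (Equiv.Perm (Fin n))) : Set (Equiv.Perm (Fin n))))).index := by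
  open Cfsg.Agent.H23 Cfsg.FusionSystem Subgroup in
    have hpp := (Fact.out : p.Prime)
    obtain ⟨e⟩ := H23.nonempty_equiv_WP (p := p) (I := Fin (n / p)) (R := Fin (n % p)) (α := Fin n) (by simp [Nat.div_add_mod])
    obtain ⟨P'⟩ : Nonempty (Sylow p (Equiv.Perm (Fin (n / p)))) := inferInstance
    obtain ⟨f, hf⟩ := H23.exists_map_eq_sylow e.permCongrHom (H23.sylW (by simpa using Nat.mod_lt _ hpp.pos) P') P
    rw [H23.coe_sylW, eq_bot_of_comm (p := p) (R := Fin (n % p)) (P := P') fun σ hσ b => f.injective (by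
      rw [map_mul, map_mul]
      exact congrArg Subtype.val (hP.is_comm.comm ⟨_, hf.le (Subgroup.mem_map_of_mem _ (H23.io_mem_WS hσ))⟩
        ⟨_, hf.le (Subgroup.mem_map_of_mem _ (H23.tr_mem_WS _ b))⟩))] at hf
    refine two_dvd_map f hf (H23.dg_nm (-1)) (fun h => ?_) (by rw [← map_pow, neg_one_sq, map_one])
    have := congrArg (fun g : Equiv.Perm (H23.WP p (Fin (n / p)) (Fin (n % p))) => g (.inl (⟨0, Nat.div_pos hpn hpp.pos⟩, 0)))
      (h _ (H23.tr_mem_WS _ 1))
    simpa [(neg_ne hp).symm] using this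

end Cfsg.Agent.S2270
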