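import Cfsg.Statements.S5164
import Cfsg.Agent.H23.AltF
-- import your own Cfsg.Agent.* helpers here

set_option autoImplicit false
open Cfsg

namespace Cfsg.Agent.S5164

section
open Cfsg Cfsg.FusionSystem Subgroup Cfsg.Agent.H23
open Equiv (Perm)

open Subgroup H23 Equiv in
theorem transfer {p : ℕ} [Fact p.Prime] {I R α : Type} [Fintype I] [DecidableEq I] [Fintype R] [DecidableEq R] [Fintype α]
    [DecidableEq α] (h : Fintype.card α = p * Fintype.card I + Fintype.card R) (hR : Fintype.card R < p) (P : Sylow p (Perm I))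
    (S : Sylow p (alternatingGroup α)) :
    IsMulCommutative S ↔ ∀ x ∈ WS p R P ⊓ alternatingGroup (WP p I R), ∀ y ∈ WS p R P ⊓ alternatingGroup (WP p I R), x * y = y * x := by
  obtain ⟨e⟩ := nonempty_equiv_WP h
  have hS : RSyl p ⊥ (WS p R (P : Subgroup (Perm I)) ⊓ alternatingGroup _) (alternatingGroup _) :=
    (rsyl_sylow (sylW hR P)).inf_normal' le_top le_normalizer_of_normal
  obtain ⟨T, hT⟩ := (rsyl_bot_iff hS.le2).1 hS
  obtain ⟨f, hf⟩ := exists_map_eq_sylow e.altCongrHom T S
  constructor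
  · intro H x hx y hy
    have m : ∀ z (hz : z ∈ WS p R P ⊓ alternatingGroup (WP p I R)), f ⟨z, hz.2⟩ ∈ S := fun z hz =>
      hf.le (mem_map_of_mem _ (hT.ge hz))
    have := congrArg Subtype.val (H.is_comm.comm ⟨_, m x hx⟩ ⟨_, m y hy⟩)
    simp only [MulMemClass.coe_mul, ← map_mul] at this
    exact congrArg Subtype.val (f.injective this)
  · refine fun H => ⟨⟨fun ⟨x, hx⟩ ⟨y, hy⟩ => Subtype.ext ?_⟩⟩
    obtain ⟨x, hx', rfl⟩ := hf.ge hx
    obtain ⟨y, hy', rfl⟩ := hf.ge hy
    change f x * f y = f y * f x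
    rw [← map_mul, ← map_mul, show x * y = y * x from Subtype.ext (H _ (hT.le hx') _ (hT.le hy'))]

end


/-- For n ≥ 6 and a prime p, a nontrivial Sylow p-subgroup of the alternating group of degree n is abelian if and only if n < p². -/
theorem result (n p : ℕ) (hn : 6 ≤ n) [Fact p.Prime] (S : Sylow p (alternatingGroup (Fin n))) (hS : (S : Subgroup (alternatingGroup (Fin n))) ≠ ⊥) : IsMulCommutative S ↔ n < p ^ 2 := by
  open Cfsg.Agent.H23 Cfsg.FusionSystem Subgroup in
    have hp := (Fact.out : p.Prime)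
    constructor
    · intro H
      by_contra! hnp
      have h1 : p ≤ n / p := (Nat.le_div_iff_mul_le hp.pos).2 (by rwa [← pow_two])
      have h2 : Fintype.card (ZMod p ⊕ Fin (n / p - p)) = n / p := by simp; omega
      have s1 : H23.sh (Fin (n / p - p)) (1 : ZMod p) ^ p ^ 1 = 1 := by
        rw [pow_one, H23.sh_pow]; ext (i | j) <;> simp [H23.sh]
      obtain ⟨P, hP⟩ := (show IsPGroup p (Subgroup.zpowers (H23.sh (Fin (n / p - p)) (1 : ZMod p))) from
        IsPGroup.iff_card.2 (by
          rw [Nat.card_zpowers]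
          exact ((Nat.dvd_prime_pow hp).1 (orderOf_dvd_of_pow_eq_one s1)).imp fun _ h => h.2)).exists_le_sylow
      have := (transfer (R := Fin (n % p)) (by rw [h2]; simp [Nat.div_add_mod]) (by simpa using Nat.mod_lt _ hp.pos) P S).1 H
      obtain ⟨b, hb⟩ := H23.cent_E1 (R := Fin (n % p)) (x := H23.io p _ (H23.sh _ 1)) (by
        rw [h2]
        by_cases h : p = 2
        · subst h; omega
        · exact (lt_of_le_of_ne hp.two_le (Ne.symm h)).trans_le h1) fun y hy =>
          this _ ⟨H23.WS_mono bot_le hy.1, hy.2⟩ _ ⟨H23.io_mem_WS (hP (Subgroup.mem_zpowers _)), H23.io_mem_alt s1⟩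
      simpa [H23.sh] using hb (.inl 0) 0
    · intro h
      obtain ⟨P⟩ : Nonempty (Sylow p (Equiv.Perm (Fin (n / p)))) := inferInstance
      refine (transfer (I := Fin (n / p)) (R := Fin (n % p)) (by simp [Nat.div_add_mod]) (by simpa using Nat.mod_lt _ hp.pos) P S).2 ?_
      have : (P : Subgroup (Equiv.Perm (Fin (n / p)))) = ⊥ := Subgroup.card_eq_one.1 (by
        rw [P.card_eq_multiplicity, Nat.card_perm, Nat.card_eq_fintype_card, Fintype.card_fin,
          Nat.factorization_factorial_eq_zero_of_lt ((Nat.div_lt_iff_lt_mul hp.pos).2 (by rwa [← pow_two])), pow_zero])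
      rw [this]
      intro x hx y hy
      obtain ⟨a, rfl⟩ := H23.mem_WS_bot.1 hx.1
      obtain ⟨b, rfl⟩ := H23.mem_WS_bot.1 hy.1
      rw [← H23.tr_add, ← H23.tr_add, add_comm]

end Cfsg.Agent.S5164
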