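import Cfsg.Statements.S2269
import Cfsg.Agent.H23.AltF
import Cfsg.Agent.H9.Four
import Cfsg.Agent.S2270
import Cfsg.Agent.S5164
-- import your own Cfsg.Agent.* helpers here

set_option autoImplicit false
open Cfsg

namespace Cfsg.Agent.S2269

section
open Cfsg Cfsg.FusionSystem Subgroup Cfsg.Agent.H23
open Equiv (Perm)

open Subgroup in
theorem five (P : Sylow 2 (alternatingGroup (Fin 5))) :
    ((centralizer ((P : Subgroup (alternatingGroup (Fin 5))) : Set (alternatingGroup (Fin 5)))).subgroupOf
      (normalizer ((P : Subgroup (alternatingGroup (Fin 5))) : Set (alternatingGroup (Fin 5))))).index = 3 ∧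
      IsKleinFour (P : Subgroup (alternatingGroup (Fin 5))) := by
  have c60 : Nat.card (alternatingGroup (Fin 5)) = 60 := by rw [nat_card_alternatingGroup]; simp; rfl
  have c4 : Nat.card (P : Subgroup (alternatingGroup (Fin 5))) = 4 := by
    rw [P.card_eq_multiplicity, c60, show (60 : ℕ) = 2 ^ 2 * 15 by norm_num, Nat.factorization_mul (by norm_num) (by norm_num),
      Nat.Prime.factorization_pow Nat.prime_two, Finsupp.add_apply, Finsupp.single_eq_same,
      Nat.factorization_eq_zero_of_not_dvd (by norm_num)]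
    rfl
  have h4 : H9K.Four (P : Subgroup (alternatingGroup (Fin 5))) := ⟨c4, fun x hx => by
    have h1 : x.1 ^ 2 ^ 2 = 1 := congrArg (fun y : (P : Subgroup (alternatingGroup (Fin 5))) => y.1.1)
      (c4 ▸ pow_card_eq_one' (x := (⟨x, hx⟩ : (P : Subgroup (alternatingGroup (Fin 5))))))
    by_cases h : 4 ∈ x.1.cycleType
    · have := Equiv.Perm.cycleType_of_card_le_mem_cycleType_add_two (by simp) h
      have s := Equiv.Perm.sign_of_cycleType x.1
      rw [this, show Equiv.Perm.sign x.1 = 1 from x.2] at s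
      exact absurd s (by decide)
    refine Subtype.ext ?_
    change x.1 * x.1 = 1
    rw [← pow_two, Equiv.Perm.pow_prime_eq_one_iff]
    intro c hc
    obtain ⟨k, hk, rfl⟩ := (Nat.dvd_prime_pow Nat.prime_two).1
      ((Equiv.Perm.dvd_of_mem_cycleType hc).trans (orderOf_dvd_of_pow_eq_one h1))
    have := Equiv.Perm.two_le_of_mem_cycleType hc
    interval_cases k
    · omega
    · rfl
    · exact absurd hc h⟩
  refine ⟨?_, h4.klein⟩
  obtain ⟨e, φ, -, -, -, -, -, hφ, -⟩ := h4.exists_hom
  have k : φ.ker = (centralizer ((P : Subgroup (alternatingGroup (Fin 5))) : Set (alternatingGroup (Fin 5)))).subgroupOf _ :=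
    Subgroup.ext hφ
  have d6 : φ.ker.index ∣ 6 := by
    rw [index_ker]
    exact (card_subgroup_dvd_card φ.range).trans (by rw [Nat.card_perm]; simp [Nat.factorial])
  have od : ¬ 2 ∣ φ.ker.index := fun h => P.not_dvd_index (h.trans (k ▸ (relIndex_dvd_of_le_left _ h4.le_centralizer).trans
    (relIndex_dvd_index_of_le le_normalizer)))
  have n1 : φ.ker.index ≠ 1 := fun h => by
    rw [index_eq_one, k, subgroupOf_eq_top] at h
    have := (MonoidHom.ker_transferSylow_isComplement' P h).card_mul_card
    rw [c4, c60] at this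
    rcases (MonoidHom.normal_ker (MonoidHom.transferSylow P h)).eq_bot_or_eq_top with e | e
    · rw [e, card_bot] at this; omega
    · rw [e, card_top, c60] at this; omega
  rw [← k]
  have := Nat.le_of_dvd (by norm_num) d6
  generalize φ.ker.index = m at *
  interval_cases m <;> simp_all

end


/-- Let n ≥ 5 and let P be an abelian Sylow p-subgroup of the alternating group A_n. Then N(P)/C(P) (taken in A_n) has even order, or P is cyclic, except when n = 5 and p = 2, where P is a four-group and N(P)/C(P) has order 3. -/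
theorem result (n : ℕ) (hn : 5 ≤ n) {p : ℕ} [Fact p.Prime]
    (P : Sylow p (alternatingGroup (Fin n))) (hP : IsMulCommutative (P : Subgroup (alternatingGroup (Fin n)))) :
    (¬ (n = 5 ∧ p = 2) → 2 ∣ ((Subgroup.centralizer ((P : Subgroup (alternatingGroup (Fin n))) : Set (alternatingGroup (Fin n)))).subgroupOf (Subgroup.normalizer ((P : Subgroup (alternatingGroup (Fin n))) : Set (alternatingGroup (Fin n))))).index ∨ IsCyclic (P : Subgroup (alternatingGroup (Fin n)))) ∧
    ((n = 5 ∧ p = 2) → ((Subgroup.centralizer ((P : Subgroup (alternatingGroup (Fin n))) : Set (alternatingGroup (Fin n)))).subgroupOf (Subgroup.normalizer ((P : Subgroup (alternatingGroup (Fin n))) : Set (alternatingGroup (Fin n))))).index = 3 ∧ IsKleinFour (P : Subgroup (alternatingGroup (Fin n)))) := by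
  open Cfsg.Agent.H23 Cfsg.FusionSystem Subgroup in
    refine ⟨fun h => ?_, by rintro ⟨rfl, rfl⟩; exact five P⟩
    have hpp := (Fact.out : p.Prime)
    by_cases hp : p = 2
    · subst hp
      have h6 : 6 ≤ n := by omega
      by_cases h0 : (P : Subgroup (alternatingGroup (Fin n))) = ⊥
      · right; rw [h0]; infer_instance
      have := (S5164.result n 2 h6 P h0).1 hP
      omega
    obtain ⟨e⟩ := H23.nonempty_equiv_WP (p := p) (I := Fin (n / p)) (R := Fin (n % p)) (α := Fin n) (by simp [Nat.div_add_mod])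
    obtain ⟨P'⟩ : Nonempty (Sylow p (Equiv.Perm (Fin (n / p)))) := inferInstance
    have hS : H23.RSyl p ⊥ (H23.WS p (Fin (n % p)) (P' : Subgroup (Equiv.Perm (Fin (n / p)))) ⊓ alternatingGroup _) (alternatingGroup _) :=
      (H23.rsyl_sylow (H23.sylW (by simpa using Nat.mod_lt _ hpp.pos) P')).inf_normal' le_top Subgroup.le_normalizer_of_normal
    obtain ⟨T, hT⟩ := (H23.rsyl_bot_iff hS.le2).1 hS
    obtain ⟨f, hf⟩ := H23.exists_map_eq_sylow e.altCongrHom T P
    have tA : ∀ b : Fin (n / p) → ZMod p, (H23.tr b : Equiv.Perm (H23.WP p _ (Fin (n % p)))) ∈ alternatingGroup _ := fun b =>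
      H23.sign_of_pow_odd hp (k := 1) (by rw [pow_one, H23.tr_pow])
    have hb : (P' : Subgroup (Equiv.Perm (Fin (n / p)))) = ⊥ := S2270.eq_bot_of_comm (p := p) (R := Fin (n % p)) fun σ hσ b => by
      obtain ⟨k, hk⟩ := P'.isPGroup' ⟨σ, hσ⟩
      have a := H23.io_mem_alt (R := Fin (n % p)) (congrArg Subtype.val hk)
      have := congrArg Subtype.val (hP.is_comm.comm ⟨_, hf.le (Subgroup.mem_map_of_mem _ (hT.ge (x := ⟨_, a⟩) ⟨H23.io_mem_WS hσ, a⟩))⟩
        ⟨_, hf.le (Subgroup.mem_map_of_mem _ (hT.ge (x := ⟨_, tA b⟩) ⟨H23.tr_mem_WS _ b, tA b⟩))⟩)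
      simp only [MulMemClass.coe_mul, ← map_mul] at this
      exact congrArg Subtype.val (f.injective this)
    rw [hb] at hT
    by_cases h2 : n / p ≤ 1
    · right
      have c : Nat.card (P : Subgroup (alternatingGroup (Fin n))) ∣ p := by
        rw [← hf, Subgroup.card_map_of_injective f.injective, hT, Nat.card_congr (Subgroup.subgroupOfEquivOfLe inf_le_right).toEquiv]
        refine (Subgroup.card_dvd_of_le inf_le_left).trans ?_
        rw [H23.card_WS, Subgroup.card_bot, mul_one, Fintype.card_fin]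
        exact (pow_dvd_pow _ h2).trans (pow_one p).dvd
      exact isCyclic_of_card_dvd_prime c
    left
    let i : Fin (n / p) := ⟨0, by omega⟩
    let j : Fin (n / p) := ⟨1, by omega⟩
    have ij : i ≠ j := by simp [i, j]
    have s : H23.dg (Fin (n % p)) (Pi.mulSingle i (-1) * Pi.mulSingle j (-1) : Fin (n / p) → (ZMod p)ˣ) ∈ alternatingGroup _ := by
      have e : (Pi.mulSingle j (-1) : Fin (n / p) → (ZMod p)ˣ) = Pi.mulSingle i (-1) ∘ (Equiv.swap i j).symm := by
        funext l
        by_cases h : l = j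
        · simp [h]
        · rw [Pi.mulSingle_eq_of_ne h, Function.comp, Pi.mulSingle_eq_of_ne]
          simpa [Equiv.swap_apply_eq_iff] using h
      rw [Equiv.Perm.mem_alternatingGroup, map_mul, map_mul, e, ← H23.io_dg, ← H23.sign_eq_of_conj, Int.units_mul_self]
    refine S2270.two_dvd_map f hf (t := ⟨_, s⟩) ?_ (fun h => ?_) (Subtype.ext ?_)
    · rw [hT]
      exact Subgroup.mem_normalizer_fintype fun x hx =>
        Subgroup.mem_subgroupOf.2 (H23.conj_mem_of_mem_normalizer (H23.nm_inf_alt (H23.dg_nm _)) (Subgroup.mem_subgroupOf.1 hx))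
    · have := congrArg (fun g : alternatingGroup (H23.WP p (Fin (n / p)) (Fin (n % p))) => g.1 (.inl (i, 0)))
        (h ⟨_, tA 1⟩ (hT.ge ⟨H23.tr_mem_WS _ 1, tA 1⟩))
      simpa [(S2270.neg_ne hp).symm, ij] using this
    · change H23.dg _ _ ^ 2 = 1
      rw [← map_pow, mul_pow, ← Pi.mulSingle_pow, ← Pi.mulSingle_pow, neg_one_sq, Pi.mulSingle_one, Pi.mulSingle_one, mul_one, map_one]

end Cfsg.Agent.S2269
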