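import Cfsg.Statements.S2281
import Cfsg.Agent.L0.RV3

set_option autoImplicit false
open Cfsg

namespace Cfsg.Agent.S2281

open Cfsg.Agent.L0.RV Cfsg.Agent.H12


/-- Let F be a finite field and n ≥ 2, excluding the case n = 2 with F of two elements (where the group is not quasisimple). Then the symplectic group Sp_2n(F) is generated by three conjugate regular unipotent elements: there are u ∈ Sp_2n(F) with u − 1 nilpotent and (u − 1)^(2n−1) ≠ 0, and g, h ∈ Sp_2n(F), such that u, g u g⁻¹ and h u h⁻¹ generate Sp_2n(F). -/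
theorem result {F : Type*} [Field F] [Fintype F] (n : ℕ) (hn : 2 ≤ n) (h22 : ¬ (n = 2 ∧ Fintype.card F = 2)) :
    ∃ u g h : Matrix.symplecticGroup (Fin n) F,
      IsNilpotent ((u : Matrix (Fin n ⊕ Fin n) (Fin n ⊕ Fin n) F) - 1) ∧
      ((u : Matrix (Fin n ⊕ Fin n) (Fin n ⊕ Fin n) F) - 1) ^ (2 * n - 1) ≠ 0 ∧
      Subgroup.closure ({u, g * u * g⁻¹, h * u * h⁻¹} : Set (Matrix.symplecticGroup (Fin n) F)) = ⊤ := by
  obtain ⟨m, rfl⟩ : ∃ m, n = m + 2 := ⟨n - 2, by omega⟩
  have D := sd_spB (l := Fin (m + 2)) (F := F)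
  have hd : Module.finrank F (Fin (m + 2) ⊕ Fin (m + 2) → F) = 2 * m + 3 + 1 := by
    rw [finrank_sp, Fintype.card_fin]; ring
  obtain ⟨u, hu, x, h1, h2, -, -, h3⟩ := model ns_id (2 * m + 3) D hd (by simp)
  obtain ⟨w, hw⟩ := h3 (by omega)
  have h4 : (Nm u ^ (2 * m + 3)) x ≠ 0 := fun e => h2 (by simp [e])
  obtain ⟨e, f1, f2, C, h5⟩ := exists_ch D u hd h1 h4
  have h6 : G3 u := by
    by_cases h : (2 : F) = 0
    · refine big2 D C hw h ?_
      by_cases hm : m = 0
      · right
        by_contra h7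
        push Not at h7
        refine h22 ⟨by omega, ?_⟩
        classical
        rw [← Finset.card_univ, show (Finset.univ : Finset F) = {0, 1} from
          Finset.ext fun a => by simpa [or_iff_not_imp_left] using h7 a]
        simp
      · exact Or.inl (h5 (by omega))
    · exact big1 D (Or.inl rfl) C hw fun _ => h
  obtain ⟨y, g, h7⟩ := finish hu h6
  have h8 := mat_reg u (A := ((spEquivS _ F).symm ⟨u, hu⟩ : Matrix.symplecticGroup (Fin (m + 2)) F)) (fun x => by
    rw [← spEquiv_apply, ← spEquivS_coe, MulEquiv.apply_symm_apply]) h1 h4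
  exact ⟨_, _, _, h8.1, h8.2, transfer (spEquivS _ F) h7⟩

end Cfsg.Agent.S2281
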