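import Cfsg.Statements.S2282
import Cfsg.Agent.L0.RV4

set_option autoImplicit false
open Cfsg

namespace Cfsg.Agent.S2282

open Cfsg.Agent.L0.RV Cfsg.Agent.H12


/-- Let F be a field with q² elements, n ≥ 3 odd with (n, q) ≠ (3, 2), and SU_n(q) the special unitary group of the standard Hermitian form Σ u_i v_i^q. Then SU_n(q) is generated by three conjugate regular unipotent elements: there are u ∈ SU_n(q) with u − 1 nilpotent and (u − 1)^(n−1) ≠ 0, and g, h ∈ SU_n(q), such that u, g u g⁻¹ and h u h⁻¹ generate SU_n(q). -/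
theorem result {F : Type*} [Field F] [Fintype F] (q : ℕ) (hF : Fintype.card F = q ^ 2) (n : ℕ) (hn : 3 ≤ n) (hodd : Odd n) (h32 : ¬ (n = 3 ∧ q = 2)) :
    ∃ u g h : ↥(Cfsg.SU n F q), (IsNilpotent (((u : Matrix.SpecialLinearGroup (Fin n) F) : Matrix (Fin n) (Fin n) F) - 1) ∧ (((u : Matrix.SpecialLinearGroup (Fin n) F) : Matrix (Fin n) (Fin n) F) - 1) ^ (n - 1) ≠ 0) ∧
      Subgroup.closure ({u, g * u * g⁻¹, h * u * h⁻¹} : Set ↥(Cfsg.SU n F q)) = ⊤ := by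
  have D := sd_uB hF n
  have hσ := frobq_ne_id hF
  have hd : Module.finrank F (Fin n → F) = n := by simp
  obtain ⟨k, rfl⟩ : ∃ k, n = k + 1 := ⟨n - 1, by omega⟩
  obtain ⟨u, hu, x, h1, h4, h6⟩ : ∃ u ∈ SUG (uB hF (k + 1)), ∃ x, Nm u ^ (k + 1) = 0 ∧ (Nm u ^ k) x ≠ 0 ∧ G3 u := by
    by_cases h : k = 2
    · subst h
      have := two_le_of_card_eq_sq hF
      by_cases h2 : (2 : F) = 0
      · exact su3_even D hσ hd h2 hF (frobq_apply hF) (by rw [q0_frobq]; omega)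
      · exact su3_odd D hσ hd h2
    obtain ⟨j, hj⟩ := hodd
    obtain ⟨m, rfl⟩ : ∃ m, k = m + 3 := ⟨k - 3, by omega⟩
    obtain ⟨u, hu, x, h1, h2, -, -, h3⟩ := model D.ns (m + 3) D hd (by simp only [hσ, false_iff]; omega)
    obtain ⟨w, hw⟩ := h3 (by omega)
    have h4 : (Nm u ^ (m + 3)) x ≠ 0 := fun e => h2 (by simp [e])
    obtain ⟨e, f1, f2, C, -⟩ := exists_ch D u hd h1 h4
    exact ⟨u, hu, x, h1, h4, big1 D (Or.inr (by omega)) C hw fun e => absurd e hσ⟩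
  obtain ⟨y, g, h7⟩ := finish hu h6
  have h8 := mat_reg u (A := ((suEquiv hF _).symm ⟨u, hu⟩).1.1) (fun x => by
    rw [← suEquiv_apply, MulEquiv.apply_symm_apply]) h1 h4
  exact ⟨_, _, _, h8, transfer (suEquiv hF _) h7⟩

end Cfsg.Agent.S2282
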