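import Cfsg.Statements.S2288
import Cfsg.Agent.L0.PresSL3

set_option autoImplicit false
open Cfsg

namespace Cfsg.Agent.S2288

open Cfsg.Agent.L0


/-- For every finite field F and n ≥ 4: SL_n(F) has a presentation with 7 generators and at most 25 relations, and PSL_n(F) one with 7 generators and at most 26 relations; moreover SL_4(F) has one with 6 generators and at most 21 relations and SL_5(F) one with 6 generators and at most 22 relations. -/
theorem result {F : Type*} [Field F] [Fintype F] (n : ℕ) (hn : 4 ≤ n) :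
    (∃ rels : Finset (FreeGroup (Fin 7)), rels.card ≤ 25 ∧ Nonempty (PresentedGroup (↑rels : Set (FreeGroup (Fin 7))) ≃* Matrix.SpecialLinearGroup (Fin n) F)) ∧ (∃ rels : Finset (FreeGroup (Fin 7)), rels.card ≤ 26 ∧ Nonempty (PresentedGroup (↑rels : Set (FreeGroup (Fin 7))) ≃* Matrix.ProjectiveSpecialLinearGroup (Fin n) F)) ∧
    (∃ rels : Finset (FreeGroup (Fin 6)), rels.card ≤ 21 ∧ Nonempty (PresentedGroup (↑rels : Set (FreeGroup (Fin 6))) ≃* Matrix.SpecialLinearGroup (Fin 4) F)) ∧ (∃ rels : Finset (FreeGroup (Fin 6)), rels.card ≤ 22 ∧ Nonempty (PresentedGroup (↑rels : Set (FreeGroup (Fin 6))) ≃* Matrix.SpecialLinearGroup (Fin 5) F)) := by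
  obtain ⟨g4, h4⟩ := sl4_pres (F := F)
  obtain ⟨g5, h5⟩ := (small6 5 (by omega)).2.elim fun _ h => sln_pres (F := F) le_rfl h
  refine and_assoc.1 ⟨?_, h4.fin (by simp) (by simp), h5.fin (by simp) (by simp)⟩
  rcases hn.eq_or_lt with rfl | hn
  · exact ⟨h4.fin (by simp) (by simp), h4.psl.elim fun _ h => h.fin (by simp) (by simp)⟩
  · obtain ⟨g, h⟩ := (p7 n (by omega)).2.1.elim fun _ h => sln_pres (F := F) hn h
    exact ⟨h.fin (by simp) (by simp), h.psl.elim fun _ h => h.fin (by simp) (by simp)⟩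

end Cfsg.Agent.S2288
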