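import Cfsg.Statements.S2403
import Cfsg.Agent.H28.SLGen

set_option autoImplicit false
open Cfsg

namespace Cfsg.Agent.S2403

open Matrix SpecialLinearGroup

/-- Explicit two-element generation of `PSL_{n+1}(K)` over the fields with two or three elements: with `x = 1 + E₁₂` and `w` the monomial matrix with entries `1` in positions `(i, i+1)` and `(−1)^n` in position `(n+1, 1)`, the elements `x` and `w` generate `SL_{n+1}(K)` modulo its centre. -/
theorem result {K : Type*} [Field K] [Fintype K] (hK : Fintype.card K ≤ 3) (n : ℕ) (hn : 1 ≤ n)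
    (x w : Matrix.SpecialLinearGroup (Fin (n + 1)) K)
    (hx : (x : Matrix (Fin (n + 1)) (Fin (n + 1)) K) = Matrix.transvection (0 : Fin (n + 1)) (1 : Fin (n + 1)) 1)
    (hw : (w : Matrix (Fin (n + 1)) (Fin (n + 1)) K) =
      Matrix.of (fun i j => if j.val = i.val + 1 then 1 else if i.val = n ∧ j.val = 0 then (-1) ^ n else 0)) :
    Subgroup.closure ({x, w} : Set (Matrix.SpecialLinearGroup (Fin (n + 1)) K)) ⊔
      Subgroup.center (Matrix.SpecialLinearGroup (Fin (n + 1)) K) = ⊤ := by
  classical
  refine eq_top_iff.2 ((H28.SL_eq_top_of_cox hw (Subgroup.subset_closure (by simp)) fun h c => ?_).ge.trans le_sup_left)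
  have h1 : SpecialLinearGroup.transvection h 1 ∈ Subgroup.closure ({x, w} : Set _) :=
    Subgroup.subset_closure (Or.inl (Subtype.ext hx.symm))
  by_cases h0 : c = 0
  · rw [h0, transvection_coeff_zero]; exact one_mem _
  have h2 : c ^ 2 = 1 := by
    have := Fintype.one_lt_card (α := K)
    have h3 := FiniteField.pow_card_sub_one_eq_one c h0
    interval_cases Fintype.card K
    · rw [show c = 1 by simpa using h3, one_pow]
    · exact h3
  rcases sq_eq_one_iff.1 h2 with rfl | rfl
  · exact h1
  · exact transvection_inv h (1 : K) ▸ inv_mem h1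

end Cfsg.Agent.S2403
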