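import Cfsg.Statements.S2290
import Cfsg.Agent.L0.PresSL3
import Cfsg.Agent.S2402
import Cfsg.Agent.S2403

set_option autoImplicit false
open Cfsg

namespace Cfsg.Agent.S2290

open Cfsg.Agent.L0


/-- For every finite field F with q elements and n ≥ 2, with q ≥ 4 when n = 2, the simple group PSL_n(F) has a presentation with 2 generators and at most 80 relations. -/
theorem result {F : Type*} [Field F] [Fintype F] (n : ℕ) (hn : 2 ≤ n) (h2 : n = 2 → 4 ≤ Fintype.card F) :
    ∃ rels : Finset (FreeGroup (Fin 2)), rels.card ≤ 80 ∧ Nonempty (PresentedGroup (↑rels : Set (FreeGroup (Fin 2))) ≃* Matrix.ProjectiveSpecialLinearGroup (Fin n) F) := by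
  obtain ⟨m, rfl⟩ : ∃ m, n = m + 1 := ⟨n - 1, by omega⟩
  have hP : ∃ (ι : Type) (g : ι → Matrix.ProjectiveSpecialLinearGroup (Fin (m + 1)) F), Pres g 78 := by
    rcases hn.eq_or_lt with e | hn
    · obtain rfl : m = 1 := by omega
      obtain ⟨g, h⟩ := sl2_pres9 (F := F) (QuotientGroup.mk' (Subgroup.center _))
        (QuotientGroup.mk'_surjective _) (QuotientGroup.ker_mk' _).le
      exact ⟨_, g, h.mono (by omega)⟩
    by_cases e : m = 2
    · subst e; exact sl3_pres.elim fun _ h => h.psl.elim fun g h => ⟨_, g, h.mono (by omega)⟩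
    by_cases e : m = 3
    · subst e; exact sl4_pres.elim fun _ h => h.psl.elim fun g h => ⟨_, g, h.mono (by omega)⟩
    obtain ⟨g, h⟩ := (p7 (m + 1) (by omega)).2.1.elim fun _ h => sln_pres (F := F) (by omega) h
    exact h.psl.elim fun g h => ⟨_, g, h.mono (by omega)⟩
  obtain ⟨ι, g, hg⟩ := hP
  suffices h : ∃ a b : Matrix.SpecialLinearGroup (Fin (m + 1)) F,
      Subgroup.closure {a, b} ⊔ Subgroup.center _ = ⊤ by
    obtain ⟨a, b, h⟩ := h
    refine (hg.change_all ![QuotientGroup.mk' _ a, QuotientGroup.mk' _ b] ?_).final'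
    have := congrArg (Subgroup.map (QuotientGroup.mk' (Subgroup.center _))) h
    rw [Subgroup.map_sup, MonoidHom.map_closure, Subgroup.map_top_of_surjective _ (QuotientGroup.mk'_surjective _),
      QuotientGroup.map_mk'_self, sup_bot_eq, Set.image_pair] at this
    simpa [Set.pair_comm] using this
  have h01 : (0 : Fin (m + 1)) ≠ 1 := by
    obtain ⟨k, rfl⟩ : ∃ k, m = k + 1 := ⟨m - 1, by omega⟩
    simp
  obtain ⟨w, hw⟩ : ∃ w : Matrix.SpecialLinearGroup (Fin (m + 1)) F, (w : Matrix (Fin (m + 1)) (Fin (m + 1)) F) =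
      Matrix.of (fun i j => if j.val = i.val + 1 then 1 else if i.val = m ∧ j.val = 0 then (-1) ^ m else 0) := by
    refine ⟨⟨_, ?_⟩, rfl⟩
    have : (Matrix.of (fun i j => if j.val = i.val + 1 then 1 else if i.val = m ∧ j.val = 0 then (-1) ^ m else 0) :
        Matrix (Fin (m + 1)) (Fin (m + 1)) F) =
        Matrix.diagonal (fun i => if i = Fin.last m then (-1) ^ m else 1) * (finRotate (m + 1)).permMatrix F := by
      ext i j
      rw [Matrix.diagonal_mul, Matrix.of_apply, show (finRotate (m + 1)).permMatrix F i j = _ from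
        congrFun (PEquiv.toMatrix_toPEquiv_apply _ i) j, finRotate_apply, Pi.single_apply]
      by_cases e : i = Fin.last m
      · subst e
        have := j.2
        rw [if_neg (by simp; omega), Fin.last_add_one, if_pos rfl, mul_ite, mul_one, mul_zero]
        exact if_congr (by rw [Fin.val_last, eq_self, true_and, Fin.ext_iff]; rfl) rfl rfl
      · have h1 : (i : ℕ) ≠ m := fun a => e (Fin.ext a)
        rw [if_neg e, one_mul, if_neg (fun a : _ ∧ _ => h1 a.1)]
        exact if_congr (by rw [Fin.ext_iff, Fin.val_add_one, if_neg e]) rfl rfl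
    rw [this, Matrix.det_mul, Matrix.det_diagonal, Matrix.det_permutation, sign_finRotate]
    simp [← mul_pow]
  by_cases hq : Fintype.card F ≤ 3
  · exact ⟨_, _, S2403.result hq m (by omega) _ w (Xnv h01 1) hw⟩
  · obtain ⟨k, hk⟩ := IsCyclic.exists_generator (α := Fˣ)
    refine ⟨_, _, S2402.result (by omega) m (by omega) k hk (Dn 0 1 k) _ w ?_ (Xnv h01 1) hw⟩
    refine (Dnv _ _ _).trans (congrArg _ (funext fun i => ?_))
    obtain ⟨l, rfl⟩ : ∃ k, m = k + 1 := ⟨m - 1, by omega⟩
    simp only [dn, Pi.mul_apply, Pi.mulSingle_apply, Fin.ext_iff, Fin.val_zero, Fin.val_one]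
    split_ifs <;> first | omega | simp

end Cfsg.Agent.S2290
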