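import Cfsg.Statements.S2291
import Cfsg.Agent.H28.US8

set_option autoImplicit false
open Cfsg

namespace Cfsg.Agent.S2291



/-- Let F be a field with q² elements and n ≥ 3 with (n, q) ≠ (3, 2). Then the simple group PSU_n(q) (for the standard Hermitian form) has a presentation with 2 generators and at most 80 relations. -/
theorem result {F : Type*} [Field F] [Fintype F] (q n : ℕ) (hF : Fintype.card F = q ^ 2) (hn : 3 ≤ n) (h32 : ¬ (n = 3 ∧ q = 2)) :
    ∃ rels : Finset (FreeGroup (Fin 2)), rels.card ≤ 80 ∧ Nonempty (PresentedGroup (↑rels : Set (FreeGroup (Fin 2))) ≃* Cfsg.PSU n F q) := by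
  rcases hn.eq_or_lt with rfl | h4
  · obtain ⟨g, h⟩ := (H28.US.pp_three hF fun e => h32 ⟨rfl, e⟩).2
    exact h.fin (by simp) (by simp)
  · obtain ⟨g, h⟩ := (H28.US.PP.of_small (n := n) (d := 2) (r := 41) hF (by omega) fun K _ _ _ _ h1 _ => by
      obtain ⟨g, h⟩ := (H28.US.pp_six h1 h4).1
      exact (H28.US.pres_two h1 hn (by omega) h).imp fun _ h => h.mono (by split_ifs <;> omega)).2
    exact h.fin (by simp) (by simp)

end Cfsg.Agent.S2291
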