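import Cfsg.Statements.S2292
import Cfsg.Agent.H6.SpT
-- import your own Cfsg.Agent.* helpers here

set_option autoImplicit false
open Cfsg

namespace Cfsg.Agent.S2292

open Cfsg.Agent.H6.Sp Cfsg.Agent.L0


/-- Let F be a finite field with q elements and m ≥ 2 with (m, q) ≠ (2, 2). Then the simple group PSp_2m(F) has a presentation with 2 generators and at most 80 relations. -/
theorem result {F : Type*} [Field F] [Fintype F] (m : ℕ) (hm : 2 ≤ m) (h22 : ¬ (m = 2 ∧ Fintype.card F = 2)) :
    ∃ rels : Finset (FreeGroup (Fin 2)), rels.card ≤ 80 ∧ Nonempty (PresentedGroup (↑rels : Set (FreeGroup (Fin 2))) ≃* Cfsg.PSp m F) := by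
-----
  obtain ⟨-, g, hg⟩ := sp_psp_pres F m hm
  obtain ⟨a, b, h⟩ := psp_two_gen (F := F) m hm
  refine ((hg.change_all ![a, b] ?_).mono ?_).final'
  · simpa [Set.pair_comm] using h
  · split_ifs <;> simp

end Cfsg.Agent.S2292
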