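import Cfsg.Statements.S2296
import Cfsg.Agent.H6.SpF
-- import your own Cfsg.Agent.* helpers here

set_option autoImplicit false
open Cfsg

namespace Cfsg.Agent.S2296

open Cfsg.Agent.H6.Sp Cfsg.Agent.L0


/-- Let F be a finite field. Sp_2n(F) has a presentation with 10 generators and at most 58 relations for n ≥ 4, with 9 generators and at most 57 relations for n = 4 or 5, and with 8 generators and at most 52 relations for n = 3; in each case PSp_2n(F) has a presentation with the same number of generators and at most one more relation. -/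
theorem result {F : Type*} [Field F] [Fintype F] (n : ℕ) :
    (4 ≤ n → (∃ rels : Finset (FreeGroup (Fin 10)), rels.card ≤ 58 ∧ Nonempty (PresentedGroup (↑rels : Set (FreeGroup (Fin 10))) ≃* Matrix.symplecticGroup (Fin n) F)) ∧ (∃ rels : Finset (FreeGroup (Fin 10)), rels.card ≤ 59 ∧ Nonempty (PresentedGroup (↑rels : Set (FreeGroup (Fin 10))) ≃* Cfsg.PSp n F))) ∧
    ((n = 4 ∨ n = 5) → (∃ rels : Finset (FreeGroup (Fin 9)), rels.card ≤ 57 ∧ Nonempty (PresentedGroup (↑rels : Set (FreeGroup (Fin 9))) ≃* Matrix.symplecticGroup (Fin n) F)) ∧ (∃ rels : Finset (FreeGroup (Fin 9)), rels.card ≤ 58 ∧ Nonempty (PresentedGroup (↑rels : Set (FreeGroup (Fin 9))) ≃* Cfsg.PSp n F))) ∧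
    (n = 3 → (∃ rels : Finset (FreeGroup (Fin 8)), rels.card ≤ 52 ∧ Nonempty (PresentedGroup (↑rels : Set (FreeGroup (Fin 8))) ≃* Matrix.symplecticGroup (Fin n) F)) ∧ (∃ rels : Finset (FreeGroup (Fin 8)), rels.card ≤ 53 ∧ Nonempty (PresentedGroup (↑rels : Set (FreeGroup (Fin 8))) ≃* Cfsg.PSp n F))) := by
-----
  have key : 3 ≤ n → ∀ d r, 6 ≤ d → 41 + d ≤ r →
      (∃ rels : Finset (FreeGroup (Fin d)), rels.card ≤ r ∧ Nonempty (PresentedGroup (↑rels : Set (FreeGroup (Fin d))) ≃* Matrix.symplecticGroup (Fin n) F)) ∧ (∃ rels : Finset (FreeGroup (Fin d)), rels.card ≤ r + 1 ∧ Nonempty (PresentedGroup (↑rels : Set (FreeGroup (Fin d))) ≃* Cfsg.PSp n F)) := fun hn d r hd hr => by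
    obtain ⟨⟨g, hg⟩, g', hg'⟩ := sp_psp_pres F n (by omega)
    rw [if_neg (by omega)] at hg hg'
    exact ⟨hg.fin (by simpa using hd) (by simp; omega), hg'.fin (by simpa using hd) (by simp; omega)⟩
  exact ⟨fun h => key (by omega) 10 58 (by omega) (by omega), fun h => key (by omega) 9 57 (by omega) (by omega),
    fun h => key (by omega) 8 52 (by omega) (by omega)⟩

end Cfsg.Agent.S2296
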