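import Cfsg.Statements.S2332
import Cfsg.Agent.H7.SLD4
import Cfsg.Agent.H7.LS2
import Cfsg.Agent.S0157
-- import your own Cfsg.Agent.* helpers here

set_option autoImplicit false
open Cfsg

namespace Cfsg.Agent.S2332

open Cfsg.Agent.H7.LS

/-- Smallest degree of a non-linear irreducible complex representation of SL_n over a finite field with q elements, for n ≥ 3 and (n, q) not one of (3, 2), (3, 4), (4, 2), (4, 3): every irreducible complex representation of SL_n(F) of degree at least 2 has degree at least (q^n − q)/(q − 1), and there is an irreducible complex representation of exactly that degree. -/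
theorem result {F : Type*} [Field F] [Fintype F] [DecidableEq F] (n : ℕ) (hn : 3 ≤ n)
    (hex : (n, Fintype.card F) ≠ (3, 2) ∧ (n, Fintype.card F) ≠ (3, 4) ∧ (n, Fintype.card F) ≠ (4, 2) ∧ (n, Fintype.card F) ≠ (4, 3)) :
    (∀ (k : ℕ) (ρ : Representation ℂ (Matrix.SpecialLinearGroup (Fin n) F) (Fin k → ℂ)), ρ.IsIrreducible → 2 ≤ k → (Fintype.card F ^ n - Fintype.card F) / (Fintype.card F - 1) ≤ k) ∧
    (∃ ρ : Representation ℂ (Matrix.SpecialLinearGroup (Fin n) F) (Fin ((Fintype.card F ^ n - Fintype.card F) / (Fintype.card F - 1)) → ℂ), ρ.IsIrreducible) := by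
  have hq : 1 < Fintype.card F := Fintype.one_lt_card
  refine ⟨fun k ρ hρ hk => ?_, ?_⟩
  · have := sl_bound (ρ := ρ) (by simpa) (ne_one_of_irr hρ hk)
      (fun h => by simp at h hex; omega) (fun h => by simp at h hex; omega)
    rw [Fintype.card_fin, Module.finrank_fin_fun] at this
    exact Nat.le_of_lt_succ ((Nat.div_lt_iff_lt_mul (by omega)).2 this)
  · have h1 : Nat.card (Projectivization F (Fin n → F)) - 1 =
        (Fintype.card F ^ n - Fintype.card F) / (Fintype.card F - 1) := by
      have := Projectivization.card F (Fin n → F)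
      simp only [Nat.card_eq_fintype_card, Fintype.card_pi, Finset.prod_const, Finset.card_univ,
        Fintype.card_fin] at this
      refine (Nat.div_eq_of_eq_mul_left (by omega) ?_).symm
      rw [Nat.sub_mul, ← this]
      omega
    have h2 : 2 ≤ Nat.card (Projectivization F (Fin n → F)) := by
      obtain ⟨m, rfl⟩ : ∃ m, n = m + 2 := ⟨n - 2, by omega⟩
      rw [Projectivization.card_of_finrank F _ (Module.finrank_fin_fun F), Finset.sum_range_succ',
        Finset.sum_range_succ', Nat.card_eq_fintype_card]
      simp only [zero_add, pow_one, pow_zero]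
      omega
    have := MulAction.isPretransitive_of_is_two_pretransitive
      (G := Matrix.SpecialLinearGroup (Fin n) F) (α := Projectivization F (Fin n → F))
    obtain ⟨m, ρ, h3, h4⟩ := (S0157.result (G := Matrix.SpecialLinearGroup (Fin n) F)
      (Projectivization F (Fin n → F)) h2).2 inferInstance
    have h5 := congrFun h4 1
    simp at h5
    obtain rfl : m = (Fintype.card F ^ n - Fintype.card F) / (Fintype.card F - 1) := by
      rw [← h1]
      exact Nat.eq_sub_of_add_eq (by exact_mod_cast eq_sub_iff_add_eq.1 h5)
    exact ⟨ρ, h3⟩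

end Cfsg.Agent.S2332
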