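import Cfsg.Statements.S2333
import Cfsg.Agent.H7.SpE
-- import your own Cfsg.Agent.* helpers here

set_option autoImplicit false
open Cfsg

namespace Cfsg.Agent.S2333

open Cfsg.Agent.H7.LS Cfsg.Agent.H12

/-- For a finite field F of even order q and n ≥ 2 with (n, q) ≠ (2, 2), every irreducible complex representation of the symplectic group Sp_{2n}(F) of degree at least 2 has degree at least (q^n − 1)(q^n − q)/(2(q + 1)). -/
theorem result {F : Type*} [Field F] [Fintype F] [DecidableEq F] (n : ℕ) (hn : 2 ≤ n) (heven : Even (Fintype.card F)) (hex : (n, Fintype.card F) ≠ (2, 2)) :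
    (∀ (k : ℕ) (ρ : Representation ℂ (Matrix.symplecticGroup (Fin n) F) (Fin k → ℂ)), ρ.IsIrreducible → 2 ≤ k → (Fintype.card F ^ n - 1) * (Fintype.card F ^ n - Fintype.card F) / (2 * (Fintype.card F + 1)) ≤ k) := by
  intro k ρ hρ hk
  have : CharP F 2 := ringChar.of_eq (FiniteField.even_card_iff_char_two.2 (Nat.even_iff.1 heven))
  obtain ⟨m, rfl⟩ : ∃ m, n = m + 1 := ⟨n - 1, by omega⟩
  have h1 := comp_ne_one (spEquiv _ F) (ne_one_of_irr hρ hk)
  generalize MonoidHom.comp ρ (spEquiv _ F).symm.toMonoidHom = ρ' at h1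
  obtain ⟨e, c, h⟩ : ∃ e c, ρ' (tv _ e c) ≠ 1 := by
    by_contra! H
    refine h1 (MonoidHom.eq_of_eqOn_dense (sd_spB.TG_eq_top rfl) ?_)
    rintro _ ⟨e, c, rfl⟩
    exact H e c
  have := sp_even_aux m sd_spB (by simp [two_mul]) ρ' h
  rw [Module.finrank_fin_fun] at this
  refine Nat.div_le_of_le_mul ?_
  rw [← sum_sp_even Fintype.card_pos, mul_comm 2, mul_assoc]
  exact Nat.mul_le_mul_left _ this

end Cfsg.Agent.S2333
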