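import Cfsg.Statements.S2334
import Cfsg.Agent.H7.LS2
-- import your own Cfsg.Agent.* helpers here

set_option autoImplicit false
open Cfsg

namespace Cfsg.Agent.S2334

open Cfsg.Agent.H12 Cfsg.Agent.H7.LS

/-- For odd n ≥ 3 and a finite field F with q² elements, (n, q) ≠ (3, 2), every irreducible complex representation of the special unitary group SU_n(q) (the determinant-one isometries of the standard Hermitian form over F) of degree at least 2 has degree at least (q^n − q)/(q + 1). -/
theorem result {F : Type*} [Field F] [Fintype F] [DecidableEq F] (n q : ℕ) (hn : 3 ≤ n) (hodd : Odd n) (hF : Fintype.card F = q ^ 2) (hex : (n, q) ≠ (3, 2)) :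
    (∀ (k : ℕ) (ρ : Representation ℂ (Cfsg.SU n F q) (Fin k → ℂ)), ρ.IsIrreducible → 2 ≤ k → (q ^ n - q) / (q + 1) ≤ k) := by
  intro k ρ hρ hk
  obtain ⟨m, rfl⟩ := hodd
  have := bound_odd (sd_uB hF _) (frobq_ne_id hF) (th_uB hF (by simpa using hex)) (m := m) (by omega)
    (by simp) _ (comp_ne_one (suEquiv hF _) (ne_one_of_irr hρ hk))
  rw [card_N1_frobq, q0_frobq, Module.finrank_fin_fun, Nat.card_eq_fintype_card, hF, ← pow_mul,
    Nat.sub_mul, one_mul, ← pow_succ] at this
  exact Nat.div_le_of_le_mul this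

end Cfsg.Agent.S2334
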