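import Cfsg.Statements.S2335
import Cfsg.Agent.H7.LS2
-- import your own Cfsg.Agent.* helpers here

set_option autoImplicit false
open Cfsg

namespace Cfsg.Agent.S2335

open Cfsg.Agent.H12 Cfsg.Agent.H7.LS

/-- For even n ≥ 4 and a finite field F with q² elements, (n, q) not (4, 2) or (4, 3), every irreducible complex representation of the special unitary group SU_n(q) (the determinant-one isometries of the standard Hermitian form over F) of degree at least 2 has degree at least (q^n − 1)/(q + 1). -/
theorem result {F : Type*} [Field F] [Fintype F] [DecidableEq F] (n q : ℕ) (hn : 4 ≤ n) (heven : Even n) (hF : Fintype.card F = q ^ 2) (hex : (n, q) ≠ (4, 2) ∧ (n, q) ≠ (4, 3)) :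
    (∀ (k : ℕ) (ρ : Representation ℂ (Cfsg.SU n F q) (Fin k → ℂ)), ρ.IsIrreducible → 2 ≤ k → (q ^ n - 1) / (q + 1) ≤ k) := by
  intro k ρ hρ hk
  obtain ⟨m, rfl⟩ := heven
  have := bound_even (sd_uB hF _) (Or.inl (frobq_ne_id hF)) (m := m) (by omega)
    (by simp [two_mul]) _ (comp_ne_one (suEquiv hF _) (ne_one_of_irr hρ hk))
  rw [card_N1_frobq, Module.finrank_fin_fun, Nat.card_eq_fintype_card, hF, ← pow_mul,
    two_mul] at this
  exact Nat.div_le_of_le_mul this

end Cfsg.Agent.S2335
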