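import Cfsg.Statements.S2344
import Cfsg.Agent.H26.RD10

set_option autoImplicit false
open Cfsg

namespace Cfsg.Agent.S2344


/-- For a finite field F of odd order q > 3 and n ≥ 3, every irreducible complex representation of degree at least 2 of Ω_{2n+1}(F) (the commutator subgroup of the isometry group of the quadratic form x₀² + x₁y₁ + ⋯ + x_ny_n) has degree at least (q^{2n} − 1)/(q² − 1). -/
theorem result {F : Type*} [Field F] [Fintype F] (n : ℕ) (hn : 3 ≤ n) (hodd : Odd (Fintype.card F)) (h3 : 3 < Fintype.card F) :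
    (∀ (k : ℕ) (ρ : Representation ℂ (Cfsg.Omega F (Cfsg.quadFormOdd n F)) (Fin k → ℂ)), ρ.IsIrreducible → 2 ≤ k → (Fintype.card F ^ (2 * n) - 1) / (Fintype.card F ^ 2 - 1) ≤ k) := by
  intro k ρ hρ hk
  classical
  obtain ⟨j, rfl⟩ : ∃ j, n = j + 3 := ⟨n - 3, by omega⟩
  have hC : H26.MD.OC (H13.QOdd (j + 3) F) :=
    ⟨H13.nd_QOdd fun h => by
      have := FiniteField.even_card_of_char_two (CharP.ringChar_of_prime_eq_zero Nat.prime_two (by exact_mod_cast h))
      have := Nat.odd_iff.1 hodd; omega, by simp; omega⟩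
  obtain ⟨ρ', h1, h2⟩ := H26.RD.glue (H13.QOdd (j + 3) F) ρ hρ hk
  have : Nontrivial (Fin k → ℂ) := Module.nontrivial_of_finrank_pos (R := ℂ) (by simp; omega)
  have := H26.RD.odd_main h1 h2 (j := j) (by simp; omega) (by rw [Nat.card_eq_fintype_card]; omega)
  refine Nat.div_le_of_le_mul ?_
  zify [Nat.one_le_pow _ _ (Fintype.card_pos (α := F))]
  simpa using this

end Cfsg.Agent.S2344
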