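import Cfsg.Statements.S2345
import Cfsg.Agent.H26.RD10

set_option autoImplicit false
open Cfsg

namespace Cfsg.Agent.S2345


/-- For a finite field F with q > 3 elements and n ≥ 4, every irreducible complex representation of degree at least 2 of Ω⁺_{2n}(F) (the commutator subgroup of the isometry group of the hyperbolic quadratic form x₁y₁ + ⋯ + x_ny_n) has degree at least (q^n − 1)(q^{n−1} + q)/(q² − 1). -/
theorem result {F : Type*} [Field F] [Fintype F] (n : ℕ) (hn : 4 ≤ n) (h3 : 3 < Fintype.card F) :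
    (∀ (k : ℕ) (ρ : Representation ℂ (Cfsg.Omega F (Cfsg.quadFormPlus n F)) (Fin k → ℂ)), ρ.IsIrreducible → 2 ≤ k → (Fintype.card F ^ n - 1) * (Fintype.card F ^ (n - 1) + Fintype.card F) / (Fintype.card F ^ 2 - 1) ≤ k) := by
  intro k ρ hρ hk
  classical
  obtain ⟨j, rfl⟩ : ∃ j, n = j + 4 := ⟨n - 4, by omega⟩
  have hC : H26.MD.OC (H13.QPlus (j + 4) F) := ⟨H13.nd_QPlus, by simp; omega⟩
  obtain ⟨ρ', h1, h2⟩ := H26.RD.glue (H13.QPlus (j + 4) F) ρ hρ hk
  have : Nontrivial (Fin k → ℂ) := Module.nontrivial_of_finrank_pos (R := ℂ) (by simp; omega)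
  have := H26.RD.plus_main h1 h2 (j := j) (by simp; omega) (H13.isPlus_QPlus _)
    (by rw [Nat.card_eq_fintype_card]; omega)
  refine Nat.div_le_of_le_mul ?_
  zify [Nat.one_le_pow _ _ (Fintype.card_pos (α := F))]
  simpa using this

end Cfsg.Agent.S2345
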