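import Cfsg.Statements.S2346
import Cfsg.Agent.H26.RD10

set_option autoImplicit false
open Cfsg

namespace Cfsg.Agent.S2346


/-- For a finite field F with q elements, n ≥ 4, and a, b ∈ F with z₁² + a z₁z₂ + b z₂² anisotropic, every irreducible complex representation of degree at least 2 of Ω⁻_{2n}(F) (the commutator subgroup of the isometry group of x₁y₁ + ⋯ + x_{n−1}y_{n−1} + z₁² + a z₁z₂ + b z₂²) has degree at least (q^n + 1)(q^{n−1} − q)/(q² − 1). -/
theorem result {F : Type*} [Field F] [Fintype F] (n : ℕ) (hn : 4 ≤ n) (a b : F) (hab : ∀ z₁ z₂ : F, z₁ ^ 2 + a * z₁ * z₂ + b * z₂ ^ 2 = 0 → z₁ = 0 ∧ z₂ = 0) :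
    (∀ (k : ℕ) (ρ : Representation ℂ (Cfsg.Omega F (Cfsg.quadFormMinus (n - 1) F a b)) (Fin k → ℂ)), ρ.IsIrreducible → 2 ≤ k → (Fintype.card F ^ n + 1) * (Fintype.card F ^ (n - 1) - Fintype.card F) / (Fintype.card F ^ 2 - 1) ≤ k) := by
  intro k ρ hρ hk
  classical
  obtain ⟨j, rfl⟩ : ∃ j, n = j + 4 := ⟨n - 4, by omega⟩
  have hC : H26.MD.OC (H13.QMinus (j + 3) F a b) := ⟨H13.nd_QMinus hab, by simp; omega⟩
  obtain ⟨ρ', h1, h2⟩ := H26.RD.glue (H13.QMinus (j + 3) F a b) ρ hρ hk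
  have : Nontrivial (Fin k → ℂ) := Module.nontrivial_of_finrank_pos (R := ℂ) (by simp; omega)
  have := H26.RD.minus_main h1 h2 (j := j) (by simp; omega) (H13.not_isPlus_QMinus hab)
    fun S hS => H13.finrank_le_of_singular_QMinus hab hS
  refine Nat.div_le_of_le_mul ?_
  zify [Nat.one_le_pow _ _ (Fintype.card_pos (α := F)), Nat.le_self_pow (by omega : j + 4 - 1 ≠ 0) (Fintype.card F)]
  simpa using this

end Cfsg.Agent.S2346
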