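import Cfsg.Statements.S2347
import Cfsg.Agent.H7.Weil
-- import your own Cfsg.Agent.* helpers here

set_option autoImplicit false
open Cfsg

namespace Cfsg.Agent.S2347

open Cfsg.Agent.H12 Cfsg.Agent.H7.LS

/-- Smallest degree of a non-linear irreducible complex representation of the symplectic group Sp_{2n} over a finite field of odd order q, n ≥ 2: every irreducible complex representation of degree at least 2 has degree at least (q^n − 1)/2, and there is an irreducible complex representation of exactly that degree (a Weil representation). -/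
theorem result {F : Type*} [Field F] [Fintype F] [DecidableEq F] (n : ℕ) (hn : 2 ≤ n) (hodd : Odd (Fintype.card F)) :
    (∀ (k : ℕ) (ρ : Representation ℂ (Matrix.symplecticGroup (Fin n) F) (Fin k → ℂ)), ρ.IsIrreducible → 2 ≤ k → (Fintype.card F ^ n - 1) / 2 ≤ k) ∧
    (∃ ρ : Representation ℂ (Matrix.symplecticGroup (Fin n) F) (Fin ((Fintype.card F ^ n - 1) / 2) → ℂ), ρ.IsIrreducible) := by
  have h2 : (2 : F) ≠ 0 := Ring.two_ne_zero fun e => by
    have := FiniteField.even_card_of_char_two e
    obtain ⟨k, hk⟩ := hodd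
    omega
  have hg : Nat.gcd 2 (Nat.card F - 1) = 2 := by
    obtain ⟨k, hk⟩ := hodd
    rw [Nat.card_eq_fintype_card, hk]; simp
  have key : ∀ (M : Type _) [AddCommGroup M] [Module ℂ M] [FiniteDimensional ℂ M]
      (ρ : Matrix.symplecticGroup (Fin n) F →* Module.End ℂ M), ρ ≠ 1 →
      Fintype.card F ^ n - 1 ≤ 2 * Module.finrank ℂ M := fun M _ _ _ ρ hρ => by
    have := bound_even sd_spB (Or.inr h2) hn (by simp [two_mul]) _ (comp_ne_one (spEquivS _ F) hρ)
    rwa [card_N1_id, hg, Nat.card_eq_fintype_card] at this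
  refine ⟨fun k ρ hρ hk => ?_, ?_⟩
  · have := bound_even sd_spB (Or.inr h2) hn (by simp [two_mul]) _
      (comp_ne_one (spEquivS _ F) (ne_one_of_irr hρ hk))
    rw [card_N1_id, hg, Nat.card_eq_fintype_card, Module.finrank_fin_fun] at this
    omega
  · obtain ⟨ψ, hψ, -⟩ := exists_char (σ := RingHom.id F)
    have : Nontrivial (Fin n) := Fin.nontrivial_iff_two_le.2 hn
    obtain ⟨M, ρ, h3, h4⟩ := exists_weil_neg (l := Fin n) hψ h2
    rw [Fintype.card_fin] at h4
    have := isIrreducible_of_bound (ρ.comp (spEquiv (Fin n) F).toMonoidHom)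
      (comp_ne_one (spEquiv (Fin n) F).symm h3) fun W hW => by
        have := key W.toSubmodule W.toRepresentation hW
        omega
    exact ⟨_, H4.isIrreducible_of_equiv (H4.repConjEquiv (ρ.comp (spEquiv (Fin n) F).toMonoidHom)
      (LinearEquiv.ofFinrankEq _ _ (by rw [Module.finrank_fin_fun]; omega)))⟩

end Cfsg.Agent.S2347
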