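import Cfsg.Statements.S2352
import Cfsg.Agent.H27.PSL2a

set_option autoImplicit false
open Cfsg

namespace Cfsg.Agent.S2352

open Cfsg.Agent.H27 Cfsg.Agent.H12
open scoped MatrixGroups


/-- A non-trivial law holds in only finitely many alternating groups: for every non-trivial element w of the free group on countably many generators there is N such that for all n ≥ N some substitution of elements of the alternating group of degree n into w is not the identity. -/
theorem result (w : FreeGroup ℕ) (hw : w ≠ 1) :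
    ∃ N : ℕ, ∀ n : ℕ, N ≤ n → ∃ f : ℕ → alternatingGroup (Fin n), FreeGroup.lift f w ≠ 1 := by
  classical
  obtain ⟨N, hN⟩ := law_psl2.{0} w hw
  obtain ⟨p, hp, hp'⟩ := Nat.exists_infinite_primes N
  haveI := Fact.mk hp'
  obtain ⟨f, hf⟩ := hN (ZMod p) (by simpa using hp)
  have := Fintype.ofFinite PSL(2, ZMod p)
  refine ⟨Fintype.card (PSL(2, ZMod p) ⊕ PSL(2, ZMod p)), fun n hn => ?_⟩
  obtain ⟨ι⟩ : Nonempty (PSL(2, ZMod p) ⊕ PSL(2, ZMod p) ↪ Fin n) :=
    Function.Embedding.nonempty_of_card_le (by simpa using hn)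
  let τ := MulAction.toPermHom PSL(2, ZMod p) PSL(2, ZMod p)
  let φ : PSL(2, ZMod p) →* Equiv.Perm (Fin n) :=
    (Equiv.Perm.viaEmbeddingHom ι).comp ((Equiv.Perm.sumCongrHom _ _).comp (τ.prod τ))
  have hφ : Function.Injective φ := (Equiv.Perm.viaEmbeddingHom_injective ι).comp
    (Equiv.Perm.sumCongrHom_injective.comp fun a b h =>
      MulAction.toPerm_injective (congrArg Prod.fst h))
  have hs : ∀ g, φ g ∈ alternatingGroup (Fin n) := fun g => by
    rw [Equiv.Perm.mem_alternatingGroup]
    refine (@Equiv.Perm.sign_extendDomain _ _ _ _ _ _ ((τ g).sumCongr (τ g)) _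
      (Classical.decPred _) (Equiv.ofInjective ι.1 ι.2)).trans ?_
    convert (Equiv.Perm.sign_sumCongr (τ g) (τ g)).trans (Int.units_mul_self _)
  refine ⟨fun i => φ.codRestrict _ hs (f i), fun e => hf (hφ ?_)⟩
  have : FreeGroup.lift (fun i => φ.codRestrict _ hs (f i)) =
      (φ.codRestrict _ hs).comp (FreeGroup.lift f) := by ext i : 1; simp
  rw [this] at e
  rw [map_one]; exact congrArg Subtype.val e

end Cfsg.Agent.S2352
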