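import Cfsg.Statements.S2354
import Cfsg.Agent.H15.Sz7

set_option autoImplicit false
open Cfsg

namespace Cfsg.Agent.S2354

/-- A non-trivial law holds in only finitely many Suzuki groups: for every non-trivial element w of the free group on countably many generators there is N such that for q = 2^(2m+1) with m ≥ N some substitution of elements of the Suzuki group over the field with q elements into w is not the identity. -/
theorem result (w : FreeGroup ℕ) (hw : w ≠ 1) :
    ∃ N : ℕ, ∀ (F : Type*) [Field F] [Fintype F] (m : ℕ), 1 ≤ m → N ≤ m →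
      Fintype.card F = 2 ^ (2 * m + 1) →
      ∃ f : ℕ → ↥(Cfsg.Lie.Sz F (2 ^ (m + 1))), FreeGroup.lift f w ≠ 1 := by
  classical
  obtain ⟨n, hn⟩ : ∃ n, ∀ l ∈ w.toWord, l.1 < n :=
    ⟨(w.toWord.map Prod.fst).sum + 1, fun l hl => Nat.lt_succ_of_le (List.le_sum_of_mem (List.mem_map_of_mem hl))⟩
  refine ⟨w.toWord.length + n + 2, fun F _ _ m hm hN hF => ?_⟩
  have := H15.Sz.charP_two hF
  obtain ⟨s, hs⟩ : ∃ s, 2 ^ (m + 1) = s + 2 := ⟨2 ^ (m + 1) - 2, by
    have : 2 ^ 1 ≤ 2 ^ (m + 1) := Nat.pow_le_pow_right two_pos (by omega)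
    omega⟩
  obtain ⟨k, rfl⟩ : ∃ k, m = k + 1 := ⟨m - 1, by omega⟩
  have h1 : k < 2 ^ k := Nat.lt_two_pow_self
  have h2 : 2 ^ (2 * (k + 1) + 1) = (2 * s + 4) * 2 ^ k := by
    rw [show 2 * s + 4 = 2 * (s + 2) by ring, ← hs]; ring
  have h3 := Nat.mul_le_mul_left (2 * s + 4) (show w.toWord.length + 1 + n ≤ 2 ^ k by omega)
  have := (H15.Sz.lieModel hm hF).not_law (s := s) (fun x => hs ▸ H15.Sz.tw_θ hF x) (FreeGroup.isReduced_toWord (x := w))
    (by simpa using hw) hn (by rw [hF, h2]; nlinarith) (by rw [hF, h2]; simp only [mul_add] at h3; omega)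
  rwa [FreeGroup.mk_toWord] at this

end Cfsg.Agent.S2354
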