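import Cfsg.Statements.S2355
import Cfsg.Agent.S2352
import Cfsg.Agent.H13.Par
import Cfsg.Agent.H12.SMore

set_option autoImplicit false
open Cfsg

namespace Cfsg.Agent.S2355

open Matrix Subgroup
open scoped MatrixGroups

def NC (w : FreeGroup ℕ) (Y : Type*) [Group Y] : Prop := ∃ f : ℕ → Y, FreeGroup.lift f w ∉ center Y

theorem lift_comp {X Y : Type*} [Group X] [Group Y] (φ : Y →* X) (f : ℕ → Y) (w : FreeGroup ℕ) :
    FreeGroup.lift (φ ∘ f) w = φ (FreeGroup.lift f w) :=
  DFunLike.congr_fun (show FreeGroup.lift (φ ∘ f) = φ.comp (FreeGroup.lift f) by ext i : 1; simp) w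

variable {w : FreeGroup ℕ}

theorem NC.map {X Y : Type*} [Group X] [Group Y] (h : NC w Y) (φ : Y →* X) (hφ : Function.Injective φ) : NC w X :=
  let ⟨f, hf⟩ := h
  ⟨φ ∘ f, fun e => hf (mem_center_iff.mpr fun y => hφ (by
    rw [map_mul, map_mul, ← lift_comp, mem_center_iff.mp e]))⟩

theorem NC.not_law {X G : Type*} [Group X] [Group G] (h : NC w X) (e : G ≃* X ⧸ center X) :
    ¬ ∀ f : ℕ → G, FreeGroup.lift f w = 1 := fun hG =>
  let ⟨f, hf⟩ := h
  hf ((QuotientGroup.eq_one_iff _).mp (e.symm.injective (by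
    have := hG ((e.symm.toMonoidHom.comp (QuotientGroup.mk' _)) ∘ f)
    rw [lift_comp] at this
    exact this.trans (map_one _).symm)))

theorem NC.der {X Y : Type*} [Group X] [Group Y] (h : NC w Y) (hY : _root_.commutator Y = ⊤) (φ : Y →* X)
    (hφ : Function.Injective φ) : NC w (_root_.commutator X) :=
  h.map (φ.codRestrict _ fun y => by
    have := mem_map_of_mem φ (hY.ge (mem_top y))
    rw [_root_.commutator, map_commutator] at this
    exact commutator_mono le_top le_top this) fun a b e => hφ (congrArg Subtype.val e)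

section
variable {F : Type*} [Field F] {α β ι : Type} [Fintype α] [Fintype β] [Fintype ι] [DecidableEq α] [DecidableEq β]
  [DecidableEq ι]

def blk (F : Type*) [Field F] (e : α ⊕ β ≃ ι) : Matrix α α F →* Matrix ι ι F where
  toFun A := reindex e e (fromBlocks A 0 0 1)
  map_one' := by simp
  map_mul' A B := by simp [submatrix_mul_equiv, fromBlocks_multiply]

theorem blk_inj (e : α ⊕ β ≃ ι) : Function.Injective (blk F e) := fun _ _ h =>
  (fromBlocks_inj.mp ((reindex e e).injective h)).1

theorem blk_mulVec (e : α ⊕ β ≃ ι) (A : Matrix α α F) (v : ι → F) :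
    blk F e A *ᵥ v = Sum.elim (A *ᵥ (v ∘ e ∘ .inl)) (v ∘ e ∘ .inr) ∘ e.symm := by
  simp [blk, submatrix_mulVec_equiv, fromBlocks_mulVec, Function.comp_assoc]

def blkSL (F : Type*) [Field F] (e : α ⊕ β ≃ ι) : SpecialLinearGroup α F →* SpecialLinearGroup ι F where
  toFun A := ⟨blk F e A, by simp [blk]⟩
  map_one' := Subtype.ext (map_one (blk F e))
  map_mul' A B := Subtype.ext (map_mul (blk F e) A.1 B.1)

theorem blkSL_inj (e : α ⊕ β ≃ ι) : Function.Injective (blkSL F e) := fun _ _ h =>
  Subtype.ext (blk_inj e (congrArg Subtype.val h))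

def altSL (F : Type*) [Field F] (ι : Type) [Fintype ι] [DecidableEq ι] :
    alternatingGroup ι →* SpecialLinearGroup ι F where
  toFun σ := ⟨permMatrixHom σ.1, by simp [Equiv.Perm.mem_alternatingGroup.mp σ.2]⟩
  map_one' := Subtype.ext (map_one permMatrixHom)
  map_mul' A B := Subtype.ext (map_mul permMatrixHom A.1 B.1)

theorem altSL_inj : Function.Injective (altSL F ι) := (injective_iff_map_eq_one _).mpr fun σ h => by
  ext i
  have : (σ.1⁻¹.permMatrix F) (σ.1 i) i = (1 : Matrix ι ι F) (σ.1 i) i :=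
    congrFun (congrFun (congrArg Subtype.val h) (σ.1 i)) i
  by_contra e
  simp [one_apply_ne (show σ.1 i ≠ i from e)] at this

def lev (F : Type*) [Field F] (α : Type) [Fintype α] [DecidableEq α] :
    SpecialLinearGroup α F →* Matrix (α ⊕ α) (α ⊕ α) F :=
  (symplecticGroup α F).subtype.comp ((H13.leviSp α F).comp SpecialLinearGroup.toGL)

theorem lev_inj : Function.Injective (lev F α) :=
  Subtype.val_injective.comp (H13.leviSp_injective.comp SpecialLinearGroup.toGL_injective)

theorem lev_sum (A : SpecialLinearGroup α F) (v : α ⊕ α → F) :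
    ∑ i, (lev F α A *ᵥ v) (.inl i) * (lev F α A *ᵥ v) (.inr i) = ∑ i, v (.inl i) * v (.inr i) := by
  have : lev F α A = _ := H13.coe_leviSp (SpecialLinearGroup.toGL A)
  rw [this, fromBlocks_mulVec]
  simp only [zero_mulVec, add_zero, zero_add, Sum.elim_inl, Sum.elim_inr]
  change _ ⬝ᵥ _ = (v ∘ .inl) ⬝ᵥ (v ∘ .inr)
  rw [dotProduct_mulVec, vecMul_transpose, mulVec_mulVec, ← Units.val_mul, inv_mul_cancel, Units.val_one, one_mulVec]

theorem nc_omega (h : NC w (SpecialLinearGroup α F)) (h3 : 3 ≤ Fintype.card α) {Q : (ι → F) → F}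
    (φ : SpecialLinearGroup α F →* Matrix ι ι F) (h1 : Function.Injective φ) (h2 : ∀ A v, Q (φ A *ᵥ v) = Q v) :
    NC w (Omega F Q) :=
  h.der (H12.commutator_SL_eq_top h3) (φ.toHomUnits.codRestrict _ fun A v _ => h2 A v) fun _ _ e =>
    h1 (congrArg (fun x : isometryGroup F Q => x.1.1) e)

theorem card_le {G X : Type*} [Group G] [Group X] [Fintype F] (e : G ≃* X ⧸ center X) (φ : X → Matrix ι ι F)
    (h : Function.Injective φ) {M : ℕ} (h1 : Fintype.card ι ≤ M) (h2 : Fintype.card F ≤ M) :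
    Nat.card G ≤ M ^ (M * M) := by
  have := Finite.of_injective φ h
  have h3 := Fintype.card_pos (α := F)
  calc _ = _ := Nat.card_congr e.toEquiv
    _ ≤ Nat.card X := Nat.card_le_card_of_surjective _ (QuotientGroup.mk_surjective)
    _ ≤ _ := Nat.card_le_card_of_injective φ h
    _ = Fintype.card F ^ (Fintype.card ι * Fintype.card ι) := by
      change Nat.card (ι → ι → F) = _
      rw [Nat.card_eq_fintype_card, Fintype.card_fun, Fintype.card_fun, pow_mul]
    _ ≤ _ := (Nat.pow_le_pow_left h2 _).trans (Nat.pow_le_pow_right (by omega) (Nat.mul_le_mul h1 h1))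

end

theorem exists_N (hw : w ≠ 1) : ∃ N, 4 ≤ N ∧ (∀ n, N ≤ n → NC w (alternatingGroup (Fin n))) ∧
    ∀ (F : Type) [Field F] [Fintype F] (n : ℕ), 2 ≤ n → N ≤ n ∨ N ≤ Fintype.card F →
      NC w (SpecialLinearGroup (Fin n) F) := by
  obtain ⟨N1, h1⟩ := S2352.result w hw
  obtain ⟨N2, h2⟩ := H27.law_psl2.{0} w hw
  have h3 : ∀ n, N1 + N2 + 4 ≤ n → NC w (alternatingGroup (Fin n)) := fun n hn =>
    (h1 n (by omega)).imp fun f hf => by rwa [alternatingGroup.center_eq_bot (by simp; omega), mem_bot]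
  refine ⟨_, by omega, h3, fun F _ _ n hn h => h.elim (fun h => (h3 n h).map _ altSL_inj) fun h => ?_⟩
  obtain ⟨f, hf⟩ := h2 F (by omega)
  obtain ⟨m, rfl⟩ := Nat.exists_eq_add_of_le hn
  refine NC.map ⟨fun i => (f i).out, fun e => hf ?_⟩ _ (blkSL_inj finSumFinEquiv)
  rw [← (QuotientGroup.eq_one_iff _).mpr e, ← QuotientGroup.mk'_apply, ← lift_comp]
  congr 2
  ext i
  simp

/-- A non-trivial law is satisfied by only finitely many finite simple groups that are alternating or classical, up to isomorphism: for every non-trivial element w of the free group on countably many generators there is a bound N such that every alternating group of degree ≥ 5 and every simple classical group (linear, symplectic, unitary or orthogonal, in this problem's sense) in which w is a law has order at most N. -/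
theorem result (w : FreeGroup ℕ) (hw : w ≠ 1) :
    ∃ N : ℕ, ∀ (G : Type*) [Group G] [Finite G],
      (Cfsg.IsAlternating G ∨ Cfsg.IsPSL G ∨ Cfsg.IsPSp G ∨ Cfsg.IsPSU G ∨ Cfsg.IsPOmegaOdd G ∨
          Cfsg.IsPOmegaPlus G ∨ Cfsg.IsPOmegaMinus G) →
      (∀ f : ℕ → G, FreeGroup.lift f w = 1) → Nat.card G ≤ N := by
  obtain ⟨N, h4, h1, h2⟩ := exists_N hw
  have hM : N ≤ N * N + 2 * N ∧ 2 * N ≤ N * N + 2 * N := by omega
  refine ⟨(N * N + 2 * N) ^ ((N * N + 2 * N) * (N * N + 2 * N)) + N.factorial, fun G _ _ hG h => ?_⟩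
  have h3 : ∀ (F : Type) [Field F] [Fintype F] (n : ℕ), 2 ≤ n → ¬ NC w (SpecialLinearGroup (Fin n) F) →
      n < N ∧ Fintype.card F ≤ N * N + 2 * N := fun F _ _ n hn h => by
    have := mt (h2 F n hn) h
    omega
  have hO : ∀ {F ι : Type} [Field F] [Fintype ι] [DecidableEq ι] {Q : (ι → F) → F},
      Function.Injective fun x : Omega F Q => x.1.1.1 := fun e => Subtype.ext (Subtype.ext (Units.ext e))
  rcases hG with ⟨n, hn, ⟨e⟩⟩ | ⟨F, _, _, n, hn, -, ⟨e⟩⟩ | ⟨F, _, _, n, hn, -, ⟨e⟩⟩ | ⟨F, _, _, n, q, hq, hn, -, ⟨e⟩⟩ |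
    ⟨F, _, _, n, hn, -, ⟨e⟩⟩ | ⟨F, _, _, n, hn, ⟨e⟩⟩ | ⟨F, _, _, n, a, b, hn, -, ⟨e⟩⟩
  · refine le_add_left (le_trans ?_ (Nat.factorial_le (not_lt.mp fun hn' : N < n => ?_)))
    · rw [Nat.card_congr e.toEquiv]
      exact (card_le_card_group _).trans_eq (by simp [Fintype.card_perm])
    · obtain ⟨f, hf⟩ := (h1 n hn'.le).map e.symm.toMonoidHom e.symm.injective
      exact hf (h f ▸ one_mem _)
  all_goals refine le_add_right ?_
  · obtain ⟨h5, h6⟩ := h3 F n hn fun h5 => h5.not_law e h
    exact card_le e Subtype.val Subtype.val_injective (by simp; omega) h6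
  · obtain ⟨h5, h6⟩ := h3 F n hn fun h5 => (h5.map ((H13.leviSp _ F).comp SpecialLinearGroup.toGL)
      (H13.leviSp_injective.comp SpecialLinearGroup.toGL_injective)).not_law e h
    exact card_le e Subtype.val Subtype.val_injective (by simp; omega) h6
  · have h5 : n < N := not_le.mp fun h5 => ((h1 n h5).map ((altSL F (Fin n)).codRestrict (SU n F q) fun σ u v => by
        change hermForm n F q (σ.1⁻¹.permMatrix F *ᵥ u) (σ.1⁻¹.permMatrix F *ᵥ v) = _
        simp only [hermForm, permMatrix_mulVec, Function.comp_apply]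
        exact Equiv.sum_comp σ.1⁻¹ fun i => u i * v i ^ q) fun a b e => altSL_inj (congrArg Subtype.val e)).not_law e h
    obtain ⟨p, j, hp, -, rfl⟩ := H12.exists_pow_of_card_eq_sq hq
    have := Fact.mk hp
    have hj : j ≠ 0 := by rintro rfl; exact Fintype.one_lt_card.ne' hq
    have := Fintype.ofFinite (GaloisField p j)
    have h6 : Fintype.card (GaloisField p j) = p ^ j := by rw [← Nat.card_eq_fintype_card, GaloisField.card p j hj]
    obtain ⟨e'⟩ := H12.nonempty_SU2_equiv hq h6
    obtain ⟨m, rfl⟩ := Nat.exists_eq_add_of_le (show 2 ≤ n by omega)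
    have h7 : p ^ j < N := not_le.mp fun h7 => (((h2 _ 2 le_rfl (.inr (h6 ▸ h7))).map e'.symm.toMonoidHom e'.symm.injective).map
      (((blkSL F finSumFinEquiv).comp (SU 2 F (p ^ j)).subtype).codRestrict (SU (2 + m) F (p ^ j)) fun A u v => by
        change hermForm _ F _ (blk F finSumFinEquiv A.1.1 *ᵥ u) (blk F finSumFinEquiv A.1.1 *ᵥ v) = _
        have := A.2 (u ∘ finSumFinEquiv ∘ .inl) (v ∘ finSumFinEquiv ∘ .inl)
        simp only [hermForm, blk_mulVec, ← finSumFinEquiv.sum_comp, Fintype.sum_sum_type, Function.comp_apply,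
          Equiv.symm_apply_apply, Sum.elim_inl, Sum.elim_inr] at this ⊢
        exact congrArg (· + _) this) fun a b e => Subtype.ext (blkSL_inj _ (congrArg Subtype.val e))).not_law e h
    exact card_le e (fun x => x.1.1) (Subtype.val_injective.comp Subtype.val_injective) (by simp; omega)
      (by rw [hq, sq]; exact le_add_right (Nat.mul_le_mul h7.le h7.le))
  · obtain ⟨h5, h6⟩ := h3 F n (by omega) fun h5 => (nc_omega h5 (by simpa) ((blk F (Equiv.sumComm _ _)).comp (lev F _))
      ((blk_inj _).comp lev_inj) fun A v => by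
        simp only [quadFormOdd, MonoidHom.comp_apply, blk_mulVec]
        exact congrArg (_ + ·) (lev_sum A _)).not_law e h
    exact card_le e _ hO (by simp; omega) h6
  · obtain ⟨h5, h6⟩ := h3 F n (by omega) fun h5 => (nc_omega h5 (by simp; omega) (lev F _) lev_inj
      fun A v => lev_sum A v).not_law e h
    exact card_le e _ hO (by simp; omega) h6
  · obtain ⟨h5, h6⟩ := h3 F (n - 1) (by omega) fun h5 => (nc_omega h5 (by simp; omega)
      ((blk F (Equiv.refl _)).comp (lev F _)) ((blk_inj _).comp lev_inj) fun A v => by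
        simp only [quadFormMinus, MonoidHom.comp_apply, blk_mulVec]
        exact congrArg (· + _) (lev_sum A _)).not_law e h
    exact card_le e _ hO (by simp; omega) h6

end Cfsg.Agent.S2355
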