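import Cfsg.Statements.S2357
import Cfsg.Agent.H15.ReeM
import Cfsg.Agent.H15.Ree9

set_option autoImplicit false
open Cfsg

namespace Cfsg.Agent.S2357

/-- Let R be the small Ree group over the field with q = 3^(2m+1) ≥ 27 elements and write φ for Euler's totient function. Then R has exactly q²(q²−q+1) involutions, (q²−1)(q³+1) elements of order 3, and q²(q−1)(q³+1) elements of order 6 and as many of order 9; for i > 2 dividing q−1 it has φ(i)q³(q³+1)/2 elements of order i; for i > 1 dividing (q+1)/4 it has φ(i)q³(q−1)(q²−q+1)/6 elements of order i and φ(i)q³(q−1)(q²−q+1)/2 elements of order 2i; and for i > 1 dividing q − 3^(m+1) + 1 (respectively q + 3^(m+1) + 1) it has φ(i)q³(q²−1)(q + 3^(m+1) + 1)/6 (respectively φ(i)q³(q²−1)(q − 3^(m+1) + 1)/6) elements of order i. -/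
theorem result {K : Type*} [Field K] [Fintype K] {m : ℕ} (hm : 1 ≤ m)
    (hK : Fintype.card K = 3 ^ (2 * m + 1)) :
    Nat.card {g : ↥(Cfsg.Lie.twistedG2 K (3 ^ m)) // orderOf g = 2} = (3 ^ (2 * m + 1)) ^ 2 * ((3 ^ (2 * m + 1)) ^ 2 - 3 ^ (2 * m + 1) + 1) ∧
    Nat.card {g : ↥(Cfsg.Lie.twistedG2 K (3 ^ m)) // orderOf g = 3} = ((3 ^ (2 * m + 1)) ^ 2 - 1) * ((3 ^ (2 * m + 1)) ^ 3 + 1) ∧
    Nat.card {g : ↥(Cfsg.Lie.twistedG2 K (3 ^ m)) // orderOf g = 6} = (3 ^ (2 * m + 1)) ^ 2 * (3 ^ (2 * m + 1) - 1) * ((3 ^ (2 * m + 1)) ^ 3 + 1) ∧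
    Nat.card {g : ↥(Cfsg.Lie.twistedG2 K (3 ^ m)) // orderOf g = 9} = (3 ^ (2 * m + 1)) ^ 2 * (3 ^ (2 * m + 1) - 1) * ((3 ^ (2 * m + 1)) ^ 3 + 1) ∧
    (∀ i : ℕ, 2 < i → i ∣ 3 ^ (2 * m + 1) - 1 →
      2 * Nat.card {g : ↥(Cfsg.Lie.twistedG2 K (3 ^ m)) // orderOf g = i} = Nat.totient i * (3 ^ (2 * m + 1)) ^ 3 * ((3 ^ (2 * m + 1)) ^ 3 + 1)) ∧
    (∀ i : ℕ, 1 < i → i ∣ (3 ^ (2 * m + 1) + 1) / 4 →
      6 * Nat.card {g : ↥(Cfsg.Lie.twistedG2 K (3 ^ m)) // orderOf g = i} =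
          Nat.totient i * (3 ^ (2 * m + 1)) ^ 3 * (3 ^ (2 * m + 1) - 1) * ((3 ^ (2 * m + 1)) ^ 2 - 3 ^ (2 * m + 1) + 1) ∧
        2 * Nat.card {g : ↥(Cfsg.Lie.twistedG2 K (3 ^ m)) // orderOf g = 2 * i} =
          Nat.totient i * (3 ^ (2 * m + 1)) ^ 3 * (3 ^ (2 * m + 1) - 1) * ((3 ^ (2 * m + 1)) ^ 2 - 3 ^ (2 * m + 1) + 1)) ∧
    (∀ i : ℕ, 1 < i → i ∣ 3 ^ (2 * m + 1) - 3 ^ (m + 1) + 1 →
      6 * Nat.card {g : ↥(Cfsg.Lie.twistedG2 K (3 ^ m)) // orderOf g = i} =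
        Nat.totient i * (3 ^ (2 * m + 1)) ^ 3 * ((3 ^ (2 * m + 1)) ^ 2 - 1) * (3 ^ (2 * m + 1) + 3 ^ (m + 1) + 1)) ∧
    (∀ i : ℕ, 1 < i → i ∣ 3 ^ (2 * m + 1) + 3 ^ (m + 1) + 1 →
      6 * Nat.card {g : ↥(Cfsg.Lie.twistedG2 K (3 ^ m)) // orderOf g = i} =
        Nat.totient i * (3 ^ (2 * m + 1)) ^ 3 * ((3 ^ (2 * m + 1)) ^ 2 - 1) * (3 ^ (2 * m + 1) - 3 ^ (m + 1) + 1)) := by
  obtain ⟨_, M, -, -, -, h, -⟩ := H15.exists_ree hK
  obtain ⟨g, g', hg, hg', a1, a2, a3, a4, a5, -⟩ := M.tori hm h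
  have h27 : 27 ≤ Nat.card K := h ▸ Nat.pow_le_pow_right (n := 3) (by decide) (show 3 ≤ _ by omega)
  have hG := M.card_G'
  have h4 := M.card_mod_four
  have e : ∀ i, Nat.card {g : ↥(Cfsg.Lie.twistedG2 K (3 ^ m)) // orderOf g = i} =
    {g : ↥(Cfsg.Lie.twistedG2 K (3 ^ m)) | orderOf g = i}.ncard := fun _ => rfl
  simp only [e]
  rw [← a1, ← a2, ← h]
  refine ⟨M.count_two, M.count_three, M.count_six, M.count_nine, fun i h1 h2 => ?_, fun i h1 h2 => ?_, fun i h1 h2 => ?_,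
    fun i h1 h2 => ?_⟩
  · have c := M.count_D (by omega) (· = i) (by rintro _ rfl; exact ⟨h1, h2⟩)
    rw [H15.ncard_orderOf_cyclic M.isCyclic_D (M.card_D ▸ h2), M.card_G] at c
    exact Nat.eq_of_mul_eq_mul_right (show 0 < Nat.card K - 1 by omega) (by linear_combination c)
  · obtain ⟨k, hk⟩ := M.torus2.odd.of_dvd_nat (M.card_A2 ▸ h2)
    have h3 : 2 * i ∣ Nat.card K + 1 := ((Nat.mul_dvd_mul_left 2 h2).mul_left 2).trans (by omega : _ = _).dvd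
    have c := M.count_T0 (· = i) (by rintro _ rfl; exact ⟨by omega, (Dvd.intro_left _ rfl).trans h3⟩)
    have c' := M.count_T0 (· = 2 * i) (by rintro _ rfl; exact ⟨by omega, h3⟩)
    rw [(M.count_A2 h1 h2).1, hG] at c
    rw [(M.count_A2 h1 h2).2, hG] at c'
    exact ⟨Nat.eq_of_mul_eq_mul_right (show 0 < Nat.card K + 1 by omega) (by linear_combination c),
      Nat.eq_of_mul_eq_mul_right (show 0 < 3 * (Nat.card K + 1) by omega) (by linear_combination c')⟩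
  · have c := hg'.count_order h1 h2
    rw [a5, hG, ← a3] at c
    rw [← one_pow 2, Nat.sq_sub_sq]
    exact Nat.eq_of_mul_eq_mul_right (Nat.card_pos (α := Subgroup.centralizer {g'})) (by linear_combination c)
  · have c := hg.count_order h1 h2
    rw [a4, hG, ← a3] at c
    rw [← one_pow 2, Nat.sq_sub_sq]
    exact Nat.eq_of_mul_eq_mul_right (Nat.card_pos (α := Subgroup.centralizer {g})) (by linear_combination c)

end Cfsg.Agent.S2357
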