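import Cfsg.Statements.S2359
import Cfsg.Agent.H15.ReeM
import Cfsg.Agent.H15.Ree9

set_option autoImplicit false
open Cfsg

namespace Cfsg.Agent.S2359

/-- Let R be the small Ree group over the field with q = 3^(2m+1) ≥ 27 elements. If H is a cyclic subgroup of R of order (q−1)/2, then the centralizer of H in R is cyclic of order q−1, and every non-trivial subgroup of H has the same centralizer as H. If H is a cyclic subgroup of order (q+1)/4, then the centralizer of H is abelian of order q+1 with no element of order 4 (so it is the direct product of H and a group of order 4 whose non-identity elements all have order 2), and every non-trivial subgroup of H has the same centralizer as H. -/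
theorem result {K : Type*} [Field K] [Fintype K] {m : ℕ} (hm : 1 ≤ m)
    (hK : Fintype.card K = 3 ^ (2 * m + 1)) (H : Subgroup ↥(Cfsg.Lie.twistedG2 K (3 ^ m))) (hH : IsCyclic H) :
    (Nat.card H = (3 ^ (2 * m + 1) - 1) / 2 →
      IsCyclic ↥(Subgroup.centralizer (H : Set ↥(Cfsg.Lie.twistedG2 K (3 ^ m)))) ∧
        Nat.card ↥(Subgroup.centralizer (H : Set ↥(Cfsg.Lie.twistedG2 K (3 ^ m)))) = 3 ^ (2 * m + 1) - 1 ∧
        ∀ A : Subgroup ↥(Cfsg.Lie.twistedG2 K (3 ^ m)), A ≤ H → A ≠ ⊥ →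
          Subgroup.centralizer (A : Set ↥(Cfsg.Lie.twistedG2 K (3 ^ m))) = Subgroup.centralizer (H : Set ↥(Cfsg.Lie.twistedG2 K (3 ^ m)))) ∧
    (Nat.card H = (3 ^ (2 * m + 1) + 1) / 4 →
      IsMulCommutative ↥(Subgroup.centralizer (H : Set ↥(Cfsg.Lie.twistedG2 K (3 ^ m)))) ∧
        Nat.card ↥(Subgroup.centralizer (H : Set ↥(Cfsg.Lie.twistedG2 K (3 ^ m)))) = 3 ^ (2 * m + 1) + 1 ∧
        (∀ x ∈ Subgroup.centralizer (H : Set ↥(Cfsg.Lie.twistedG2 K (3 ^ m))), orderOf x ≠ 4) ∧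
        ∀ A : Subgroup ↥(Cfsg.Lie.twistedG2 K (3 ^ m)), A ≤ H → A ≠ ⊥ →
          Subgroup.centralizer (A : Set ↥(Cfsg.Lie.twistedG2 K (3 ^ m))) = Subgroup.centralizer (H : Set ↥(Cfsg.Lie.twistedG2 K (3 ^ m)))) := by
  obtain ⟨_, M, -, -, -, h, -⟩ := H15.exists_ree hK
  have h27 : 27 ≤ 3 ^ (2 * m + 1) := Nat.pow_le_pow_right (n := 3) (by decide) (show 3 ≤ _ by omega)
  refine ⟨fun e => ?_, fun e => ?_⟩ <;> have h0 : H ≠ ⊥ := by rw [Ne, ← Subgroup.card_eq_one, e]; omega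
  · obtain ⟨x, hx⟩ := M.torus1.of_cyclic hH (by rw [e, M.card_A1, h])
    rw [hx.centralizer_eq le_rfl h0]
    exact ⟨H15.isCyclic_map_conj M.isCyclic_D x, by rw [H11.card_map_conj, M.card_D, h], fun A => hx.centralizer_eq⟩
  · obtain ⟨x, hx⟩ := M.torus2.of_cyclic hH (by rw [e, M.card_A2, h])
    rw [hx.centralizer_eq le_rfl h0]
    refine ⟨⟨⟨?_⟩⟩, by rw [H11.card_map_conj, M.card_T0, h], fun y _ e => ?_, fun A => hx.centralizer_eq⟩
    · rintro ⟨_, a, ha, rfl⟩ ⟨_, b, hb, rfl⟩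
      exact Subtype.ext (H15.conj_comm x (M.T0_comm ha hb))
    · have := orderOf_dvd_of_pow_eq_one ((pow_two y).trans (M.sq_of_four (e ▸ pow_orderOf_eq_one y)))
      simp [e] at this

end Cfsg.Agent.S2359
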