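import Cfsg.Statements.S2362
import Cfsg.Agent.H28.Spec6
import Cfsg.Agent.H2.Zsig

set_option autoImplicit false
open Cfsg

namespace Cfsg.Agent.S2362

open H28 H12 H13 Module QuadraticMap

/-- Let F be a finite field of odd order and n ≥ 3. The simple orthogonal group PΩ(2n+1, F) (type B_n) and the projective symplectic group PSp(2n, F) (type C_n), which have the same order, do not have the same set of element orders. -/
theorem result {F : Type*} [Field F] [Fintype F] (hodd : Odd (Fintype.card F)) (n : ℕ) (hn : 3 ≤ n) :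
    Set.range (orderOf : Cfsg.POmega F (Cfsg.quadFormOdd n F) → ℕ) ≠ Set.range (orderOf : Cfsg.PSp n F → ℕ) := by
  obtain ⟨p, _⟩ := CharP.exists F
  obtain ⟨a, hp, hq⟩ := FiniteField.card F p
  have := Fact.mk hp
  have h2 := two_ne_zero_of_odd_card hodd
  have hpq : p ∣ Fintype.card F := hq ▸ dvd_pow_self p a.ne_zero
  have hq1 := Fintype.one_lt_card (α := F)
  obtain ⟨d, rfl⟩ : ∃ d, n = d + 1 := ⟨n - 1, by omega⟩
  obtain ⟨N, r, hN, hN4, hr, hrN, hi⟩ : ∃ N r, Pm (Fintype.card F) d N ∧ N % 4 = 2 ∧ r.Prime ∧ r ∣ N ∧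
      ∀ i, 0 < i → i < d → ¬ r ∣ Fintype.card F ^ (2 * i) - 1 := by
    have h1 := Nat.odd_iff.1 (hodd.pow (n := d))
    have h3 : Fintype.card F ≠ 2 := fun h => by simp [h] at hodd; exact absurd hodd (by decide)
    by_cases h : Fintype.card F ^ d % 4 = 1
    · obtain ⟨r, hr, h4, h5⟩ := H2.zsigmondy (n := 2 * d) hq1 (by omega) (by omega) (by omega)
      obtain ⟨N, ⟨h6, h7 | rfl⟩, h8⟩ := exists_pm (by omega) (by omega) hr h4
      · exact absurd (by rw [← h7]; exact h8) (h5 d h6 (by omega))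
      exact ⟨_, r, ⟨h6, Or.inr rfl⟩, by omega, hr, h8, fun i h1 h2 => h5 _ (by omega) (by omega)⟩
    have h4 : Odd d := by
      by_contra h4
      obtain ⟨e, rfl⟩ := Nat.not_odd_iff_even.1 h4
      obtain ⟨s, hs⟩ := hodd.pow (n := e)
      exact h (by rw [pow_add, hs, show (2 * s + 1) * (2 * s + 1) = 4 * (s * s + s) + 1 by ring]; omega)
    obtain ⟨r, hr, h5, h6⟩ := H2.zsigmondy (n := d) hq1 (by omega) (by omega)
      fun h => absurd (h.1 ▸ h4) (by decide)
    refine ⟨_, r, ⟨by omega, Or.inl (by omega)⟩, by omega, hr, h5, fun i h7 h8 h9 => ?_⟩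
    have := Nat.dvd_gcd h9 h5
    rw [Nat.pow_sub_one_gcd_pow_sub_one, Nat.Coprime.gcd_mul_left_cancel _ (by simpa using h4)] at this
    exact h6 _ (Nat.gcd_pos_of_pos_left _ h7) ((Nat.gcd_le_left _ h7).trans_lt h8) this
  have hr2 : r ≠ 2 := by
    rintro rfl
    obtain ⟨s, hs⟩ := hodd.pow (n := 2 * 1)
    exact hi 1 one_pos (by omega) (by omega)
  have hrp : r ≠ p := fun h => hN.not_dvd hp hpq (h ▸ hrN)
  have hrq : ¬ r ∣ Fintype.card F := fun h => hN.not_dvd hr h hrN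
  have hD : ∀ {D M}, Pm (Fintype.card F) D M → r ∣ M → d ≤ D := fun h h' =>
    not_lt.1 fun h1 => hi _ h.1 h1 (h'.trans h.dvd)
  intro h
  rw [range_pomega' h2 (by omega)] at h
  obtain ⟨g, hg⟩ : p * N ∈ Set.range (orderOf : Om (QOdd (d + 1) F) → ℕ) := by
    obtain ⟨V, _, _, _, B, hB, hV, t, h1, h3, -⟩ := tor' hq hN
    obtain ⟨B', hB', u, h4, h5⟩ := exists_sp_unip (p := p) h2
    obtain ⟨y, c, -, h6, h7, -⟩ := sp_sum hB hB' (d' := 1) hV (finrank_Tr 2) le_rfl (by omega) h1 h4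
    obtain ⟨rfl, h8⟩ := h5 _ _ h7
    exact h ▸ H19.exists_orderOf_of_dvd (Nat.Coprime.mul_dvd_of_dvd_of_dvd
      (hp.coprime_iff_not_dvd.2 (hN.not_dvd hp hpq)) h8 (h3 _ (by simpa using h6)))
  rw [← Subgroup.orderOf_coe] at hg
  obtain ⟨M, rfl⟩ : ∃ M, N = M * 2 := ⟨N / 2, by omega⟩
  obtain ⟨W, k, hk, hW, hW', h1, h3, h4, g₁, g₂, h5⟩ := split_inv (nd_QOdd h2) h2 (j := p * M)
    (pow_mem g.2 _) (pow_ne_one_of_lt_orderOf (mul_ne_zero hp.ne_zero (by omega)) (by
      rw [hg]; exact Nat.mul_lt_mul_of_pos_left (by omega) hp.pos))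
    (by rw [← pow_mul, mul_assoc, ← hg, pow_orderOf_eq_one])
  have A : ∀ {U : Submodule F _} (_ : ND ((QOdd (d + 1) F).restrict U))
      (x : OG ((QOdd (d + 1) F).restrict U)), (r ∣ orderOf x → 2 * d ≤ finrank F U) ∧
      (r ∣ orderOf x → p ∣ orderOf x → 2 * d + 3 ≤ finrank F U) ∧
      (p ∣ orderOf x → 3 ≤ finrank F U) := fun hU x => by
    classical
    have hS := stab_eo hU x
    refine ⟨fun h => ?_, fun h h' => ?_, fun h => ?_⟩
    · obtain ⟨D, M, h1, h2, h3⟩ := crit1 hS hr hr2 hrp (dv_eo h)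
      have := hD h1 h2
      omega
    · obtain ⟨D, M, h1, h3, h4 | ⟨D', M', h4, h5, h6⟩⟩ := crit3 hS hr hr2 hrp (dv_eo h) (dv_eo h')
        (by omega) (three_le_count hU h2 x)
      · have := hD h1 h3
        omega
      · have := hD h1 h3
        have := hD h4 h5
        omega
    obtain ⟨y, hy, hk⟩ := (dv_eo h).exists_ed (det_eo_ne hU x)
    obtain ⟨β, h9, -⟩ := exists_root' y
    rw [← card_rts (eo _ x)]
    by_cases hβ : β ^ 2 = 1
    · exact (three_le_count hU h2 x y hy hk β h9 hβ).trans (Multiset.count_le_card _ _)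
    have h10 := hk.trans (le_count_rts hy h9)
    have := card_mul_le (S := {β⁻¹, β}) (e := 2) fun x hx => by
      rcases Finset.mem_insert.1 hx with rfl | hx
      · exact (count_iterate inv_injective hS.inv β 1).symm ▸ h10
      · exact Finset.mem_singleton.1 hx ▸ h10
    rw [Finset.card_pair fun h => hβ (by
      rw [pow_two]; nth_rw 1 [← h]; exact inv_mul_cancel₀ (hS.ne β (mem_rts_of hy h9)))] at this
    omega
  have B1 := A hW g₁
  have B2 := A hW' g₂
  rw [hg] at h5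
  have h6 := hp.dvd_lcm.1 ((dvd_mul_right _ _).trans h5)
  have h7 := hr.dvd_lcm.1 ((hrN.mul_left _).trans h5)
  have h8 : finrank F (Unit ⊕ (Fin (d + 1) ⊕ Fin (d + 1)) → F) = 2 * d + 3 := by simp; ring
  have h9 : r ∣ orderOf g₁ → k ≠ d := by
    rintro h rfl
    obtain ⟨N', ⟨-, h9⟩, h10, h11⟩ := type_of_negOne hW h2 hk h1 h4 hr hr2 hrq h hi
    have : r ∣ 2 := by
      rcases hN.2 with h | h <;> rcases h9 with h9 | h9
      · omega
      · exact (Nat.dvd_add_right hrN).1 (by convert h11 using 1; omega)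
      · exact (Nat.dvd_add_right h11).1 (by convert hrN using 1; omega)
      · omega
    exact hr2 ((Nat.prime_dvd_prime_iff_eq hr Nat.prime_two).1 this)
  rcases h6 with h6 | h6 <;> rcases h7 with h7 | h7
  · have := B1.2.1 h7 h6
    omega
  · have := B1.2.2 h6
    have := B2.1 h7
    omega
  · have := B1.1 h7
    have := B2.2.2 h6
    have := h9 h7
    omega
  · have := B2.2.1 h7 h6
    omega

end Cfsg.Agent.S2362
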