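import Cfsg.Statements.S2364
import Cfsg.Agent.H13.PG

set_option autoImplicit false
open Cfsg

namespace Cfsg.Agent.S2364

open H13 H28 H12

/-- Let F be a finite field of characteristic p, n ≥ 4, and let a, b be commuting elements of PSL(n, F) with a of order p. Then every prime divisor of the order of b divides the order of SL(n − 2, F). -/
theorem result {F : Type*} [Field F] [Fintype F] (p : ℕ) [Fact p.Prime] [CharP F p] (n : ℕ) (hn : 4 ≤ n)
    (a b : Matrix.ProjectiveSpecialLinearGroup (Fin n) F) (ha : orderOf a = p) (hab : Commute a b) :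
    (orderOf b).primeFactors ⊆ (Nat.card (Matrix.SpecialLinearGroup (Fin (n - 2)) F)).primeFactors := by
  have hp : p.Prime := Fact.out
  intro s hs
  obtain ⟨hs, hsb, -⟩ := Nat.mem_primeFactors.1 hs
  refine Nat.mem_primeFactors.2 ⟨hs, ?_, Nat.card_pos.ne'⟩
  have h2 := dvd_card_SL (F := F) (n := n - 2) (D := 2) (by omega) le_rfl (by omega)
  by_cases hsp : s = p
  · obtain ⟨k, -, hq⟩ := FiniteField.card F p
    exact (hsp ▸ (hq ▸ dvd_pow_self p k.ne_zero : p ∣ Fintype.card F).mul_right _).trans h2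
  obtain ⟨k, hk⟩ := hsb
  have h3 : orderOf (b ^ k) = s := by
    rw [orderOf_pow_of_dvd (fun h => (orderOf_pos b).ne' (by simp [hk, h])) ⟨s, by rw [hk, mul_comm]⟩,
      hk, Nat.mul_div_cancel _ (Nat.pos_of_mul_pos_left (hk ▸ orderOf_pos b))]
  have h4 := (hab.pow_right k).orderOf_mul_eq_mul_orderOf_of_coprime
    (by rw [ha, h3]; exact (Nat.coprime_primes hp hs).2 (Ne.symm hsp))
  obtain ⟨x, h5, h6, h7, h8⟩ := psl_lift (a * b ^ k)
  rw [h4, ha, h3] at h8
  obtain ⟨D, h9, h10, h11⟩ := lin_crit3 (p := p) (h5 ▸ one_ne_zero) h6 h7 hs hsp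
    (dv_of_lift h8 (dvd_mul_left _ _)) (dv_of_lift h8 (dvd_mul_right _ _))
  rw [int_dvd_pow_sub_iff] at h11
  rcases Nat.lt_or_ge D 2 with h | h
  · refine (((dvd_pow_sub_iff Fintype.card_pos).2 (h11.trans ?_)).mul_left _).trans h2
    rw [show D = 1 by omega]; exact one_dvd _
  · simp only [Module.finrank_fin_fun] at h10
    exact (((dvd_pow_sub_iff Fintype.card_pos).2 h11).mul_left _).trans
      (dvd_card_SL (by omega) h (by omega))

end Cfsg.Agent.S2364
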