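import Cfsg.Statements.S2365
import Cfsg.Agent.H13.PG

set_option autoImplicit false
open Cfsg

namespace Cfsg.Agent.S2365

open H13 H28 H12

/-- Let q be a power of the prime p, F the field with q² elements, m ≥ 4, and let a, b be commuting elements of PSU(m, q) with a of order p. Then every prime divisor of the order of b divides the order of SU(m − 2, q). -/
theorem result {F : Type*} [Field F] [Fintype F] (p : ℕ) [Fact p.Prime] [CharP F p] (m q : ℕ) (hm : 4 ≤ m) (hF : Fintype.card F = q ^ 2)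
    (a b : Cfsg.PSU m F q) (ha : orderOf a = p) (hab : Commute a b) :
    (orderOf b).primeFactors ⊆ (Nat.card ↥(Cfsg.SU (m - 2) F q)).primeFactors := by
  have hp : p.Prime := Fact.out
  intro s hs
  obtain ⟨hs, hsb, -⟩ := Nat.mem_primeFactors.1 hs
  refine Nat.mem_primeFactors.2 ⟨hs, Int.natCast_dvd_natCast.1 ?_, Nat.card_pos.ne'⟩
  have h2 := dvd_card_SU (n := m - 2) (D := 2) hF (by omega) le_rfl (by omega)
  by_cases hsp : s = p
  · obtain ⟨k, -, hq⟩ := FiniteField.card F p
    refine (Dvd.dvd.mul_right (Int.natCast_dvd_natCast.2 (hs.dvd_of_dvd_pow (n := 2) ?_)) _).trans h2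
    rw [← hF, hq, hsp]
    exact dvd_pow_self p k.ne_zero
  obtain ⟨k, hk⟩ := hsb
  have h3 : orderOf (b ^ k) = s := by
    rw [orderOf_pow_of_dvd (fun h => (orderOf_pos b).ne' (by simp [hk, h])) ⟨s, by rw [hk, mul_comm]⟩,
      hk, Nat.mul_div_cancel _ (Nat.pos_of_mul_pos_left (hk ▸ orderOf_pos b))]
  have h4 := (hab.pow_right k).orderOf_mul_eq_mul_orderOf_of_coprime
    (by rw [ha, h3]; exact (Nat.coprime_primes hp hs).2 (Ne.symm hsp))
  obtain ⟨x, h5, h6, h7, h8⟩ := psu_lift hF (by omega) (a * b ^ k)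
  rw [h4, ha, h3] at h8
  obtain ⟨D, h9, h10, h11⟩ := lin_crit3 (p := p) (h5 ▸ one_ne_zero) h6 h7 hs hsp
    (dv_of_lift h8 (dvd_mul_left _ _)) (dv_of_lift h8 (dvd_mul_right _ _))
  rcases Nat.lt_or_ge D 2 with h | h
  · refine ((h11.trans ?_).mul_left _).trans h2
    rw [show D = 1 by omega]; exact ⟨-q + 1, by ring⟩
  · simp only [Module.finrank_fin_fun] at h10
    exact (h11.mul_left _).trans (dvd_card_SU hF (by omega) h (by omega))

end Cfsg.Agent.S2365
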