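import Cfsg.Statements.S2369
import Cfsg.Agent.H15.TwIF
import Cfsg.Agent.S2179

set_option autoImplicit false
open Cfsg

namespace Cfsg.Agent.S2369

/-- Let q = 2^(2m+1) with m ≥ 1 and let a, b be commuting elements of the large Ree group ²F₄(q) with a an involution. Then every prime divisor of the order of b divides q(q⁴ − 1). -/
theorem result {K : Type*} [Field K] [Fintype K] (m : ℕ) (hm : 1 ≤ m) (hK : Fintype.card K = 2 ^ (2 * m + 1))
    (a b : ↥(Cfsg.Lie.twistedF4 K (2 ^ m))) (ha : orderOf a = 2) (hab : Commute a b) :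
    (orderOf b).primeFactors ⊆ (2 ^ (2 * m + 1) * ((2 ^ (2 * m + 1)) ^ 4 - 1)).primeFactors := by
  obtain ⟨_, S, θ, h, h1, h2⟩ := H15.exists_F4 hK
  revert a b
  rw [← h1, ← h2]
  intro a b ha hab
  obtain ⟨ρ, hρ, g, hg, e⟩ := h.exists_rep a.2 (congrArg Subtype.val ((sq a).symm.trans (orderOf_dvd_iff_pow_eq_one.1 ha.dvd)))
    (fun e => by rw [show a = 1 from Subtype.ext e] at ha; simp at ha)
  obtain ⟨c1, c2⟩ := S2179.result (H15.gl H14.goodF4 K [47, 44]) (H15.gl H14.goodF4 K [39, 45])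
    (by simpa [H15.gl] using H14.gw_val H14.goodF4 K [47, 44]) (by simpa [H15.gl] using H14.gw_val H14.goodF4 K [39, 45])
  have e' := H14.goodF4.closure_eq_gen K (P := fun r => Lie.chevF4.IsPosRoot r ∧ r ∉ [27, 25, 34, 26]) fun r h => h.1.1
  simp only [and_assoc] at e'
  rw [e'] at c2
  simp (disch := decide) only [H14.goodF4.U_eq', H14.goodF4.rootSubgroup_eq', ← H14.RG0.gen_union] at c1 c2
  have hb : ((⟨g, hg⟩ * b * ⟨g, hg⟩⁻¹ : S.T) : GL _ K) ∈ Lie.chevF4.group K ⊓ Subgroup.centralizer {H15.gl H14.goodF4 K ρ.1} :=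
    ⟨(H14.goodF4.grp_eq K).ge (S.T_le_grp (Subtype.prop _)), Subgroup.mem_centralizer_singleton_iff.2 (by
      rw [← e]
      exact ((hab.symm.map S.T.subtype).conj g).eq)⟩
  have key : ∀ k (A : Set (Fin 48)), (∀ r ∈ A, Lie.chevF4.IsPosRoot r ∨ r ∈ H15.MJ H15.RF (S.J k)) →
      ((⟨g, hg⟩ * b * ⟨g, hg⟩⁻¹ : S.T) : GL _ K) ∈ (H15.XF K).gen A →
      orderOf b ∣ (![Nat.card K, Nat.card K ^ 2] k + 1) * (Nat.card K ^ 12 * (Nat.card K - 1) ^ 2) := fun k A hA hm => by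
    rw [← h.card_XP, ← h.card_U, ← h.card_H, ← S.card_B, ← (MulAut.conj (⟨g, hg⟩ : S.T)).orderOf_eq, ← Nat.card_zpowers]
    refine S.card_dvd_par k fun y hy => ?_
    obtain ⟨n, rfl⟩ := Subgroup.mem_zpowers_iff.1 hy
    refine zpow_mem ((H15.XF K).gen_le.2 (fun r hr t => ?_) hm) n
    exact (hA r hr).elim (fun e => (H15.XF K).B_le_P _ ((H15.XF K).x_mem_B ((H14.goodF4.isPosRoot_iff r).1 e) t))
      fun e => (H15.XF K).x_mem_P e.2 t
  have hq : 1 < Nat.card K := Finite.one_lt_card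
  have h3 : orderOf b ∣ (Nat.card K * (Nat.card K ^ 4 - 1)) ^ 12 := by
    obtain ⟨n, hn⟩ : ∃ n, Nat.card K = n + 1 := ⟨_, (Nat.sub_add_cancel hq.le).symm⟩
    have h4 : (n + 1) ^ 4 - 1 = n * (n + 1 + 1) * ((n + 1) ^ 2 + 1) := Nat.sub_eq_of_eq_add (by ring)
    simp only [List.mem_cons, List.not_mem_nil, or_false] at hρ
    rcases hρ with rfl | rfl
    · refine (key 0 _ (fun r hr => ?_) (c2 ▸ hb)).trans ?_
      · rw [(H15.orth_two (i := 3) (j := 0) (by simp only [h.mem_J]; decide) (H15.carF 3 0)).MJ_eq]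
        rcases hr with (((hr | hr) | hr) | hr) | hr
        · exact Or.inl (hr ▸ by decide +kernel)
        · exact Or.inr ⟨0, (h.mem_J 0).2 rfl, (H15.negF 0).trans (Fin.ext hr.symm)⟩
        · exact Or.inl (hr ▸ by decide +kernel)
        · exact Or.inr ⟨3, (h.mem_J 3).2 rfl, (H15.negF 3).trans (Fin.ext hr.symm)⟩
        · exact Or.inl hr.1
      · rw [hn, h4]
        exact Dvd.intro (n ^ 10 * (n + 1 + 1) ^ 11 * ((n + 1) ^ 2 + 1) ^ 12) (by simp; ring)
    · refine (key 1 _ (fun r hr => ?_) (c1 ▸ hb)).trans ?_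
      · rw [← H15.MJF h.mem_J]
        rcases hr with (hr | hr) | hr
        · exact Or.inl hr
        · exact Or.inr (by rw [show r = 20 from Fin.ext hr]; simp)
        · exact Or.inr (by rw [show r = 22 from Fin.ext hr]; simp)
      · rw [hn, h4]
        exact Dvd.intro (n ^ 10 * (n + 1 + 1) ^ 12 * ((n + 1) ^ 2 + 1) ^ 11) (by simp; ring)
  rw [← Nat.primeFactors_pow (Nat.card K * _) (k := 12) (by norm_num)]
  exact Nat.primeFactors_mono h3 (pow_ne_zero _ (mul_ne_zero (by omega) (Nat.sub_ne_zero_of_lt (Nat.one_lt_pow (by norm_num) hq))))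

end Cfsg.Agent.S2369
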