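import Cfsg.Statements.S2379
import Cfsg.Agent.H13.SyC

set_option autoImplicit false
open Cfsg

namespace Cfsg.Agent.S2379

/-- Sylow subgroups of `SL_n(q)` for large primes. Let `F` be a field with `q` elements and `r` a prime with `r > n` and `r ∤ q` (so `r` does not divide the order `n!` of the Weyl group). Let `d` be the multiplicative order of `q` modulo `r`, `a` the number of integers `i` with `2 ≤ i ≤ n` divisible by `d` (the degrees of the Weyl group are `2, …, n`), and `m` the `r`-part of the value at `q` of the `d`-th cyclotomic polynomial. Then every Sylow `r`-subgroup of `SL_n(q)` is a direct product of `a` cyclic groups of order `m`. -/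
theorem result {F : Type*} [Field F] [Fintype F] {q : ℕ} (hq : Fintype.card F = q) (n : ℕ)
    (r : ℕ) [Fact r.Prime] (hrn : n < r) (hrq : ¬ r ∣ q) (P : Sylow r (Matrix.SpecialLinearGroup (Fin n) F)) :
    Nonempty (↥(P : Subgroup (Matrix.SpecialLinearGroup (Fin n) F)) ≃*
      (Fin ((Finset.Icc 2 n).filter (fun i => orderOf (q : ZMod r) ∣ i)).card →
        Multiplicative (ZMod (r ^ padicValNat r ((Polynomial.cyclotomic (orderOf (q : ZMod r)) ℤ).eval (q : ℤ)).natAbs)))) := by
  subst hq
  have h1 := Fintype.one_lt_card (α := F)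
  rw [H13.val_cyclotomic h1 hrq]
  obtain _ | k := n
  · exact (show H13.Em _ _ from ⟨1, fun _ _ _ => by ext i; exact absurd i.2 (by simp)⟩).sylow
      (by simp) P
  have h2 := congrArg (padicValNat r) (H12.card_SL_fin (F := F) rfl (k + 1) (by omega))
  have h3 := H13.val_pow_sub h1 hrq (e := 1) (by simpa using (Fact.out : r.Prime).ne_one) 0
  simp only [pow_zero, pow_one, one_mul] at h3
  rw [H13.val_GL h1 hrq hrn, padicValNat.mul h3.1 Nat.card_pos.ne', h3.2] at h2
  have h4 := H13.em_GL_cyc (F := F) (H13.ord_pos hrq) (pow_padicValNat_dvd (p := r))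
  by_cases h : orderOf (Fintype.card F : ZMod r) = 1
  · simp only [h, one_dvd, Nat.div_one, if_true, pow_one] at h2
    rw [h, pow_one, show ((Finset.Icc 2 (k + 1)).filter (1 ∣ ·)).card = k by simp]
    obtain ⟨g, hg⟩ := IsCyclic.exists_ofOrder_eq_natCard (α := Fˣ)
    exact (((H13.em_cyc (g := g) (by
      rw [hg, Nat.card_units, Nat.card_eq_fintype_card]; exact pow_padicValNat_dvd)).pi
      _).trans (H13.em_SL_diag k)).sylow (by linarith) P
  rw [if_neg (by simpa using h), zero_add] at h2
  rw [show (Finset.Icc 2 (k + 1)).filter (orderOf (Fintype.card F : ZMod r) ∣ ·) =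
      (Finset.Ioc 0 (k + 1)).filter (orderOf (Fintype.card F : ZMod r) ∣ ·) from
    Finset.ext fun i => by
      simp only [Finset.mem_filter, Finset.mem_Icc, Finset.mem_Ioc, and_congr_left_iff]
      intro hi
      have : i ≠ 1 := by rintro rfl; exact h (Nat.dvd_one.1 hi)
      omega, Nat.Ioc_filter_dvd_card_eq_div]
  obtain ⟨f, hf⟩ := H13.em_pi (X := fun n => GL (Fin n) F) H13.em_GL_sum h4 _ (k + 1)
    (Nat.div_mul_le_self _ _)
  refine (H13.Em.trans ⟨f.codRestrict (MonoidHom.ker _) fun x => ?_, fun x y e =>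
    hf (congrArg Subtype.val e)⟩ (.of_equiv H12.slEquivKerDet.symm)).sylow h2 P
  rw [MonoidHom.mem_ker, ← orderOf_eq_one_iff]
  refine Nat.eq_one_of_dvd_coprimes (a := r ^ _) (b := Nat.card Fˣ) (Nat.Coprime.pow_left _
    ((Nat.Prime.coprime_iff_not_dvd Fact.out).2 fun e => h ?_)) (orderOf_dvd_of_pow_eq_one (by
      rw [← map_pow, ← map_pow, show x ^ _ = 1 from funext fun i => by
        simpa using pow_card_eq_one' (x := x i), map_one, map_one])) (orderOf_dvd_natCard _)
  rw [Nat.card_units, Nat.card_eq_fintype_card, ← pow_one (Fintype.card F),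
    H13.dvd_pow_sub_iff (by omega)] at e
  exact Nat.dvd_one.1 e

end Cfsg.Agent.S2379
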