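import Cfsg.Statements.S2381
import Cfsg.Agent.H13.SyC

set_option autoImplicit false
open Cfsg

namespace Cfsg.Agent.S2381

/-- Sylow subgroups of `Sp_{2n}(q)` for large primes. Let `F` be a field with `q` elements and `r` an odd prime with `r > n` and `r ∤ q` (so `r` does not divide the order `2^n n!` of the Weyl group). Let `d` be the multiplicative order of `q` modulo `r`, `a` the number of `i` with `1 ≤ i ≤ n` and `d ∣ 2i` (the degrees being `2, 4, …, 2n`), and `m` the `r`-part of the value at `q` of the `d`-th cyclotomic polynomial. Then every Sylow `r`-subgroup of the symplectic group `Sp_{2n}(q)` is a direct product of `a` cyclic groups of order `m`. -/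
theorem result {F : Type*} [Field F] [Fintype F] {q : ℕ} (hq : Fintype.card F = q) (n : ℕ)
    (r : ℕ) [Fact r.Prime] (hr2 : r ≠ 2) (hrn : n < r) (hrq : ¬ r ∣ q) (P : Sylow r ↥(Matrix.symplecticGroup (Fin n) F)) :
    Nonempty (↥(P : Subgroup ↥(Matrix.symplecticGroup (Fin n) F)) ≃*
      (Fin ((Finset.Icc 1 n).filter (fun i => orderOf (q : ZMod r) ∣ 2 * i)).card →
        Multiplicative (ZMod (r ^ padicValNat r ((Polynomial.cyclotomic (orderOf (q : ZMod r)) ℤ).eval (q : ℤ)).natAbs)))) := by
  subst hq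
  have h1 := Fintype.one_lt_card (α := F)
  have h0 := H13.ord_pos hrq
  rw [H13.val_cyclotomic h1 hrq]
  obtain ⟨e, N, h2, h3, h4⟩ : ∃ e N, H28.Pm (Fintype.card F) e N ∧ r ^ padicValNat r
      (Fintype.card F ^ orderOf (Fintype.card F : ZMod r) - 1) ∣ N ∧
      ∀ i, orderOf (Fintype.card F : ZMod r) ∣ 2 * i ↔ e ∣ i := by
    rcases Nat.even_or_odd' (orderOf (Fintype.card F : ZMod r)) with ⟨e, h | h⟩
    · refine ⟨e, _, ⟨by omega, .inr rfl⟩, Nat.Coprime.dvd_of_dvd_mul_right
        (n := Fintype.card F ^ e - 1)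
        (Nat.Coprime.pow_left _ ((Nat.Prime.coprime_iff_not_dvd Fact.out).2 fun h' => ?_))
        (by rw [← Nat.sq_sub_sq, ← pow_mul', one_pow, ← h]; exact pow_padicValNat_dvd),
        fun i => by rw [h, Nat.mul_dvd_mul_iff_left two_pos]⟩
      have := Nat.le_of_dvd (by omega) ((H13.dvd_pow_sub_iff (by omega)).1 h')
      omega
    · exact ⟨_, _, ⟨h0, .inl (Nat.sub_add_cancel (Nat.one_le_pow _ _ (by omega)))⟩,
        pow_padicValNat_dvd, fun i => Nat.Coprime.dvd_mul_left (by simp [h])⟩
  rw [Finset.filter_congr fun i _ => h4 i, show Finset.Icc 1 n = Finset.Ioc 0 n from rfl, Nat.Ioc_filter_dvd_card_eq_div]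
  refine (H13.em_pi (X := fun n => Matrix.symplecticGroup (Fin n) F) H13.em_sp_sum
    (H13.em_sp_cyc h2 h3) _ n (Nat.div_mul_le_self _ _)).sylow ?_ P
  rw [H12.card_sp, H12.spOrd, Nat.card_eq_fintype_card, Fintype.card_fin, ← Nat.card_multiples,
    ← H13.val_prod_ite _ (fun i => Fintype.card F ^ (2 * (i + 1)) - 1) _ fun i hi => by
      simpa [h4] using H13.val_pow_sub h1 hrq (e := 2 * (i + 1)) (fun h => by
        rcases (Nat.Prime.dvd_mul Fact.out).1 h with h | h
        · exact hr2 ((Nat.prime_dvd_prime_iff_eq Fact.out Nat.prime_two).1 h)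
        · have := Nat.le_of_dvd (by omega) h
          have := Finset.mem_range.1 hi
          omega) 0, padicValNat.mul (by positivity) (Finset.prod_ne_zero_iff.2 fun i _ =>
      Nat.sub_ne_zero_of_lt (Nat.one_lt_pow (by omega) h1)), padicValNat.eq_zero_of_not_dvd
      fun h => hrq (Nat.Prime.dvd_of_dvd_pow Fact.out h), zero_add]

end Cfsg.Agent.S2381
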