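import Cfsg.Statements.S2388
import Cfsg.Agent.H28.Semisimple

set_option autoImplicit false
open Cfsg

namespace Cfsg.Agent.S2388

lemma ord_coe {F : Type*} [Field F] {n : Type*} [Fintype n] [DecidableEq n]
    (g : Matrix.SpecialLinearGroup n F) : orderOf (g : Matrix n n F) = orderOf g :=
  orderOf_injective (Matrix.SpecialLinearGroup.coeMonoidHom : Matrix.SpecialLinearGroup n F →* Matrix n n F)
    Matrix.SpecialLinearGroup.coeMonoidHom_injective g

/-- In `SL_n(q)`, `q` a power of the prime `p`, two elements of order prime to `p` with the same characteristic polynomial are conjugate in `SL_n(q)` (not merely in `GL_n`). -/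
theorem result {F : Type*} [Field F] [Fintype F] (p : ℕ) [Fact p.Prime] [CharP F p] (n : ℕ)
    (g h : Matrix.SpecialLinearGroup (Fin n) F) (hg : (orderOf g).Coprime p) (hh : (orderOf h).Coprime p)
    (hc : (g : Matrix (Fin n) (Fin n) F).charpoly = (h : Matrix (Fin n) (Fin n) F).charpoly) : IsConj g h := by
  have hg' := H28.isSS_of_coprime (p := p) (A := (g : Matrix (Fin n) (Fin n) F)) (by rwa [ord_coe])
  have hh' := H28.isSS_of_coprime (p := p) (A := (h : Matrix (Fin n) (Fin n) F)) (by rwa [ord_coe])
  exact H28.isConj_SL_of_isConj (H28.isEmpty_or_exists_of_isSS hg')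
    (H28.isConj_of_charpoly_eq hg' hh' hc)

end Cfsg.Agent.S2388
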