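import Cfsg.Statements.S2384
import Cfsg.Agent.H28.Semisimple
import Cfsg.Agent.S2388

set_option autoImplicit false
open Cfsg

namespace Cfsg.Agent.S2384

/-- In `SL_n(q)`, `q` a power of the prime `p`, the number of conjugacy classes of elements of order prime to `p` (the semisimple classes) is `q^(n-1)`. -/
theorem result {F : Type*} [Field F] [Fintype F] {q : ℕ} (hq : Fintype.card F = q) (p : ℕ) [Fact p.Prime] [CharP F p] (n : ℕ) (hn : 1 ≤ n) :
    Nat.card {c : ConjClasses (Matrix.SpecialLinearGroup (Fin n) F) //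
      ∃ g : Matrix.SpecialLinearGroup (Fin n) F, ConjClasses.mk g = c ∧ (orderOf g).Coprime p} = q ^ (n - 1) := by
  classical
  obtain ⟨m, rfl⟩ : ∃ m, n = m + 1 := ⟨n - 1, by omega⟩
  rw [H28.card_conjClasses_eq' (fun g : Matrix.SpecialLinearGroup (Fin (m+1)) F => (g : Matrix (Fin (m+1)) (Fin (m+1)) F).charpoly)
    (fun g => (orderOf g).Coprime p)
    (fun f : Polynomial F => f.Monic ∧ f.natDegree = m + 1 ∧ f.coeff 0 = (-1) ^ (m + 1))]
  · rw [H28.card_monic_coeff_zero m (fun c : F => c = (-1) ^ (m + 1)), Nat.card_eq_fintype_card (α := F), hq]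
    simp
  · intro g h hg hh
    constructor
    · intro hc
      obtain ⟨c, rfl⟩ := isConj_iff.1 hc
      have := Matrix.charpoly_units_conj (Matrix.SpecialLinearGroup.toGL c) (g : Matrix (Fin (m+1)) (Fin (m+1)) F)
      rw [← this, ← Matrix.coe_units_inv, ← map_inv]
      rfl
    · intro hc
      exact S2388.result p (m+1) g h hg hh hc
  · intro g _
    refine ⟨Matrix.charpoly_monic _, by simp, ?_⟩
    have := H28.det_eq_of_charpoly (g : Matrix (Fin (m+1)) (Fin (m+1)) F)
    rw [g.det_coe, Fintype.card_fin] at this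
    have h2 : ((-1 : F) ^ (m+1)) * (-1) ^ (m+1) = 1 := by rw [← mul_pow]; simp
    calc _ = ((-1 : F) ^ (m+1)) * (-1) ^ (m+1) * (Matrix.charpoly (g : Matrix (Fin (m+1)) (Fin (m+1)) F)).coeff 0 := by rw [h2, one_mul]
      _ = _ := by rw [mul_assoc, ← this, mul_one]
  · rintro f ⟨h1, h2, h3⟩
    obtain ⟨g, hg, rfl⟩ := H28.exists_GL_isSS_charpoly (n := Fin (m+1)) h1 (by simpa using h2) (by rw [h3]; simp)
    have hd : (g : Matrix (Fin (m+1)) (Fin (m+1)) F).det = 1 := by
      rw [H28.det_eq_of_charpoly, h3, Fintype.card_fin, ← mul_pow]; simp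
    let g' : Matrix.SpecialLinearGroup (Fin (m+1)) F := ⟨g, hd⟩
    refine ⟨g', ?_, rfl⟩
    have := (H28.coprime_orderOf_iff_isSS (p := p) g).2 hg
    rw [← orderOf_units] at this
    have h5 := S2388.ord_coe g'
    rw [← h5]
    exact this

end Cfsg.Agent.S2384
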