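import Cfsg.Statements.S2387
import Cfsg.Agent.H28.Semisimple

set_option autoImplicit false
open scoped MatrixGroups
open Cfsg

namespace Cfsg.Agent.S2387

/-- In `GL_n(q)` with `n ≥ 1`, `q` a power of the prime `p`, the number of conjugacy classes of elements of order prime to `p` (diagonalisable over the algebraic closure; determined by the characteristic polynomial) is `(q - 1) q^(n-1)`. -/
theorem result {F : Type*} [Field F] [Fintype F] {q : ℕ} (hq : Fintype.card F = q) (p : ℕ) [Fact p.Prime] [CharP F p] (n : ℕ) (hn : 1 ≤ n) :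
    Nat.card {c : ConjClasses (GL (Fin n) F) // ∃ g : GL (Fin n) F, ConjClasses.mk g = c ∧ (orderOf g).Coprime p} = (q - 1) * q ^ (n - 1) := by
  classical
  obtain ⟨m, rfl⟩ : ∃ m, n = m + 1 := ⟨n - 1, by omega⟩
  rw [H28.card_conjClasses_eq' (fun g : GL (Fin (m+1)) F => (g : Matrix (Fin (m+1)) (Fin (m+1)) F).charpoly)
    (fun g => (orderOf g).Coprime p)
    (fun f : Polynomial F => f.Monic ∧ f.natDegree = m + 1 ∧ f.coeff 0 ≠ 0)]
  · rw [H28.card_monic_coeff_zero m (fun c : F => c ≠ 0), Nat.card_eq_fintype_card (α := F), hq]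
    congr 1
    rw [← hq, Nat.card_eq_fintype_card, Fintype.card_subtype_compl, Fintype.card_subtype_eq]
  · intro g h hg hh
    constructor
    · intro hc
      obtain ⟨c, rfl⟩ := isConj_iff.1 hc
      simp only [Units.val_mul]
      rw [← Matrix.charpoly_units_conj c (g : Matrix (Fin (m+1)) (Fin (m+1)) F), Matrix.coe_units_inv]
    · intro hc
      exact H28.isConj_GL_iff.2 (H28.isConj_of_charpoly_eq
        ((H28.coprime_orderOf_iff_isSS g).1 hg) ((H28.coprime_orderOf_iff_isSS h).1 hh) hc)
  · intro g _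
    refine ⟨Matrix.charpoly_monic _, by simp, ?_⟩
    intro h0
    have := H28.det_eq_of_charpoly (g : Matrix (Fin (m+1)) (Fin (m+1)) F)
    rw [h0, mul_zero] at this
    exact (Matrix.isUnits_det_units g).ne_zero this
  · rintro f ⟨h1, h2, h3⟩
    obtain ⟨g, hg, rfl⟩ := H28.exists_GL_isSS_charpoly (n := Fin (m+1)) h1 (by simpa using h2) h3
    exact ⟨g, (H28.coprime_orderOf_iff_isSS g).2 hg, rfl⟩

end Cfsg.Agent.S2387
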