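import Cfsg.Statements.S2392
import Cfsg.Agent.H7.LS3
import Cfsg.Agent.H25.DLen
import Cfsg.Agent.H28.PSLInd
-- import your own Cfsg.Agent.* helpers here

set_option autoImplicit false
open scoped MatrixGroups
open Cfsg

namespace Cfsg.Agent.S2392

open Cfsg.Agent.H7.LS Cfsg.Agent.H28 Matrix

/-- A lower bound for representations in cross characteristic: for `n ≥ 3` and a field `F` with `q` elements, every homomorphism from `SL_n(F)` to `GL_d(K)`, `K` a field of characteristic different from that of `F`, whose kernel is central has `d ≥ q^(n-1) - 1`. -/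
theorem result {F : Type*} [Field F] [Fintype F] {q : ℕ} (hq : Fintype.card F = q) (n : ℕ) (hn : 3 ≤ n)
    {K : Type*} [Field K] (hK : ringChar K ≠ ringChar F) {d : ℕ}
    (ρ : Matrix.SpecialLinearGroup (Fin n) F →* GL (Fin d) K) (hker : ρ.ker ≤ Subgroup.center (Matrix.SpecialLinearGroup (Fin n) F)) :
    q ^ (n - 1) - 1 ≤ d := by
  obtain ⟨m, rfl⟩ : ∃ m, n = m + 3 := ⟨n - 3, by omega⟩
  let U : Submodule F (Fin (m + 3) → F) := LinearMap.ker (LinearMap.proj 0)
  have hU : ∀ u : U, u.1 ⬝ᵥ Pi.single 0 1 = 0 := fun u => by rw [dotProduct_single_one]; exact u.2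
  have hr : Module.finrank F U = m + 2 := by
    have := (LinearMap.proj (R := F) (φ := fun _ : Fin (m + 3) => F) 0).finrank_range_add_finrank_ker
    rw [LinearMap.range_eq_top.2 (LinearMap.proj_surjective _)] at this
    simp only [finrank_top, Module.finrank_self, Module.finrank_fin_fun] at this
    simp only [U]
    omega
  have := bound_tv (F := F) (cast_ringChar_ne hK) (by omega) (fun u : U => tvSL (Pi.single 0 1) u.1)
    (fun u v => Subtype.ext (by
      rw [Matrix.SpecialLinearGroup.coe_mul, coe_tvSL (hU _), coe_tvSL (hU _), coe_tvSL (hU _), Submodule.coe_add, vecMulVec_add]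
      simp [add_mul, mul_add, vecMulVec_mul_vecMulVec, hU, add_assoc, add_comm, add_left_comm]))
    (fun x η hη => by
      obtain ⟨η', rfl⟩ := η.exists_extend
      have h1 : ∀ u, u ⬝ᵥ (fun i => η' (Pi.single i 1)) = η' u := fun u => by
        conv_rhs => rw [← Finset.univ_sum_single u, map_sum]
        exact Finset.sum_congr rfl fun i _ => by rw [← smul_eq_mul, ← map_smul, ← Pi.single_smul']; simp
      have h2 : x.1 ⬝ᵥ (fun i => η' (Pi.single i 1)) = 0 := (h1 _).trans hη
      refine ⟨tvSL (fun i => η' (Pi.single i 1)) x.1, fun u => Subtype.ext ?_⟩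
      rw [Matrix.SpecialLinearGroup.coe_mul, Matrix.SpecialLinearGroup.coe_mul, coe_tvSL (hU _), coe_tvSL (hU _), coe_tvSL h2]
      simp [add_mul, mul_add, vecMulVec_mul_vecMulVec, hU, h1, vecMulVec_add]
      abel)
    ((H25.glEnd (algebraMap K (AlgebraicClosure K)) d).comp ρ)
    (u₀ := ⟨Pi.single 1 1, by simp [U]⟩) fun e => by
      obtain ⟨r, -, h⟩ := Matrix.SpecialLinearGroup.mem_center_iff.1
        (hker (H25.glEnd_injective _ _ (e.trans (map_one _).symm)))
      rw [coe_tvSL (by simp)] at h
      simpa [vecMulVec_apply] using congrFun (congrFun h 0) 1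
  rwa [Module.natCard_eq_pow_finrank (K := F), hr, Nat.card_eq_fintype_card, hq,
    Module.finrank_fin_fun] at this

end Cfsg.Agent.S2392
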