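import Cfsg.Statements.S2393
import Cfsg.Agent.H7.LS3
import Cfsg.Agent.H25.DLen
-- import your own Cfsg.Agent.* helpers here

set_option autoImplicit false
open scoped MatrixGroups
open Cfsg

namespace Cfsg.Agent.S2393

open Cfsg.Agent.H7.LS Cfsg.Agent.H12 Matrix

/-- A lower bound for representations in cross characteristic: for `n ≥ 2` and a field `F` with `q` elements, `q` odd, every homomorphism from the symplectic group `Sp_{2n}(F)` to `GL_d(K)`, `K` a field of characteristic different from that of `F`, whose kernel is central has `d ≥ q^(n-1)(q-1)/2`. -/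
theorem result {F : Type*} [Field F] [Fintype F] {q : ℕ} (hq : Fintype.card F = q) (hodd : Odd q) (n : ℕ) (hn : 2 ≤ n)
    {K : Type*} [Field K] (hK : ringChar K ≠ ringChar F) {d : ℕ}
    (ρ : ↥(Matrix.symplecticGroup (Fin n) F) →* GL (Fin d) K) (hker : ρ.ker ≤ Subgroup.center ↥(Matrix.symplecticGroup (Fin n) F)) :
    q ^ (n - 1) * (q - 1) / 2 ≤ d := by
  subst hq
  have h2 : (2 : F) ≠ 0 := Ring.two_ne_zero fun e => by
    have := FiniteField.even_card_of_char_two e
    obtain ⟨k, hk⟩ := hodd
    omega
  have hg : Nat.gcd 2 (Nat.card F - 1) = 2 := by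
    obtain ⟨k, hk⟩ := hodd
    rw [Nat.card_eq_fintype_card, hk]; simp
  have := bound_sp sd_spB (cast_ringChar_ne hK) h2 hn (by simp [two_mul]) _
    (comp_ne_one (spEquivS _ F) (ρ := (H25.glEnd (algebraMap K (AlgebraicClosure K)) d).comp ρ)
      fun e => by
        have h1 : ∀ a b : UG (spB (Fin n) F), a * b = b * a := fun a b => by
          obtain ⟨a, rfl⟩ := (spEquiv (Fin n) F).surjective a
          obtain ⟨b, rfl⟩ := (spEquiv (Fin n) F).surjective b
          rw [← map_mul, Subgroup.mem_center_iff.1 (hker (H25.glEnd_injective _ _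
            ((DFunLike.congr_fun e b).trans (map_one _).symm))), map_mul]
        let i : Fin n := ⟨0, by omega⟩
        obtain ⟨g, hg⟩ := (sd_spB (l := Fin n) (F := F)).witt_one (x := Pi.single (.inl i) 1)
          (y := Pi.single (.inr i) 1) (by simp) (by simp)
          (by rw [sd_spB.self_eq_zero rfl, sd_spB.self_eq_zero rfl])
        have h3 := congrArg (fun a : UG _ => a.1 (Pi.single (.inl i) 1) (.inl i))
          (h1 g (tv (spB (Fin n) F) (Pi.single (.inl i) 1) 1))
        simp [tv_apply sd_spB (sd_spB.self_eq_zero rfl _) (c := (1 : F)) rfl, hg, spB_single_inl] at h3)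
  rw [card_N1_id, hg, Nat.card_eq_fintype_card, Module.finrank_fin_fun] at this
  refine Nat.div_le_of_le_mul (le_trans ?_ this)
  rw [Nat.mul_sub_one, ← pow_succ, Nat.sub_add_cancel (by omega)]
  exact Nat.sub_le_sub_left (Nat.one_le_pow _ _ Fintype.card_pos) _

end Cfsg.Agent.S2393
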