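import Cfsg.Statements.S2450
import Cfsg.Agent.H27.PSL2a

set_option autoImplicit false
open Cfsg

namespace Cfsg.Agent.S2450

open Cfsg.Agent.H27 Cfsg.Agent.H12
open scoped MatrixGroups


/-- The Arad–Herzog conjecture for PSL(2,q): let F be a finite field with q ≥ 4 elements. For any two non-identity elements a, b of PSL(2,F), the set of products of a conjugate of a with a conjugate of b is not a single conjugacy class. -/
theorem result {F : Type*} [Field F] [Fintype F] (h4 : 4 ≤ Fintype.card F)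
    (a b : Matrix.ProjectiveSpecialLinearGroup (Fin 2) F) (ha : a ≠ 1) (hb : b ≠ 1) (c : Matrix.ProjectiveSpecialLinearGroup (Fin 2) F) :
    {g : Matrix.ProjectiveSpecialLinearGroup (Fin 2) F | ∃ u v : Matrix.ProjectiveSpecialLinearGroup (Fin 2) F, g = (u * a * u⁻¹) * (v * b * v⁻¹)} ≠ {g | IsConj c g} := by
  classical
  intro h
  obtain ⟨a, rfl⟩ := QuotientGroup.mk_surjective a
  obtain ⟨b, rfl⟩ := QuotientGroup.mk_surjective b
  obtain ⟨c, rfl⟩ := QuotientGroup.mk_surjective c
  obtain ⟨u, hu⟩ := exists_conj_ne10 (not_scal_of_mk_ne ha)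
  obtain ⟨v, hv⟩ := exists_conj_ne10 (not_scal_of_mk_ne hb)
  set A := u * a * u⁻¹ with hA
  set B := v * b * v⁻¹ with hB
  set α := -(A.1 1 0 * B.1 1 0)
  set β := A.1 1 0 * B.1 0 0 + (A.1 1 1 - A.1 0 0) * B.1 1 0 - A.1 1 0 * B.1 1 1
  set γ := (A.1 * B.1).trace with hγ
  have hα : α ≠ 0 := neg_ne_zero.2 (mul_ne_zero hu hv)
  have key : ∀ x : F, α * x ^ 2 + β * x + (γ - c.1.trace) = 0 ∨
      α * x ^ 2 + β * x + (γ + c.1.trace) = 0 := fun x => by
    have h1 : IsConj (c : PSL(2, F)) (upper x * A * upper (-x) * B : SL(2, F)) :=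
      (Set.ext_iff.1 h _).1 ⟨(upper x * u : SL(2, F)), v, by
        rw [upper_neg, show upper x * A * (upper x)⁻¹ = (upper x * u) * a * (upper x * u)⁻¹ by
          rw [hA]; group]; rfl⟩
    have h2 : (upper x * A * upper (-x) * B).1.trace = α * x ^ 2 + β * x + γ := by
      simp only [Matrix.SpecialLinearGroup.coe_mul, Matrix.trace_fin_two, m2mul, upper_coe, hγ, α, β]
      simp; ring
    refine (trace_sq_eq_of_isConj h1).imp (fun e => ?_) fun e => ?_ <;> linear_combination e - h2
  have h1 := card_quad_le hα β (γ - c.1.trace)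
  have h2 := card_quad_le hα β (γ + c.1.trace)
  by_cases h3 : (2 : F) = 0
  · rw [Finset.filter_true_of_mem fun x _ => (key x).elim id fun e => by
      linear_combination e - c.1.trace * h3, Finset.card_univ] at h1
    omega
  · have h4 := Finset.card_union_le (Finset.univ.filter fun x => α * x ^ 2 + β * x + (γ - c.1.trace) = 0)
      (Finset.univ.filter fun x => α * x ^ 2 + β * x + (γ + c.1.trace) = 0)
    rw [← Finset.filter_or, Finset.filter_true_of_mem fun x _ => key x, Finset.card_univ] at h4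
    obtain ⟨k, hk⟩ := two_ne_zero_iff_odd.1 h3
    omega

end Cfsg.Agent.S2450
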