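import Cfsg.Statements.S2455
import Cfsg.Agent.H27.PSL2a

set_option autoImplicit false
open Cfsg

namespace Cfsg.Agent.S2455

open Cfsg.Agent.H27 Cfsg.Agent.H12
open scoped MatrixGroups


/-- A strong covering result in the direction of Thompson's conjecture (non-identity elements) for PSL(2,q), q odd: let F be a finite field of odd characteristic p with at least 5 elements and let x ∈ PSL(2,F) have order greater than 2 and not divisible by p (so x is not unipotent). Then every non-identity element of PSL(2,F) is a product of two conjugates of x. -/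
theorem result {F : Type*} [Field F] [Fintype F] (p : ℕ) [Fact p.Prime] [CharP F p] (hp : p ≠ 2) (h5 : 5 ≤ Fintype.card F)
    (x : Matrix.ProjectiveSpecialLinearGroup (Fin 2) F) (hx2 : 2 < orderOf x) (hxp : ¬ p ∣ orderOf x) : ∀ g : Matrix.ProjectiveSpecialLinearGroup (Fin 2) F, g ≠ 1 → ∃ u v : Matrix.ProjectiveSpecialLinearGroup (Fin 2) F, g = (u * x * u⁻¹) * (v * x * v⁻¹) := by
  intro g hg
  obtain ⟨x, rfl⟩ := QuotientGroup.mk_surjective x
  obtain ⟨g, rfl⟩ := QuotientGroup.mk_surjective g
  have h2 : (2 : F) ≠ 0 := H27.two_ne_zero_of_charP p hp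
  have hr : Reg x := (psl2_eq_one_or_trace_ne p hxp).resolve_left fun e => by
    rw [e, orderOf_one] at hx2; omega
  have ht : x.1.trace ≠ 0 := fun e => by
    have : (x : PSL(2, F)) ^ 2 = 1 := by
      rw [sq, ← QuotientGroup.mk_mul, sl2_mul_self_of_trace e, psl2_mk_neg]; rfl
    have := Nat.le_of_dvd two_pos (orderOf_dvd_of_pow_eq_one this)
    omega
  have k : ∀ g : SL(2, F), (g : PSL(2, F)) ≠ 1 → g.1.trace = -2 →
      ∃ u v : PSL(2, F), (g : PSL(2, F)) = (u * x * u⁻¹) * (v * x * v⁻¹) := fun g hg e =>
    psl_prod_of (exists_prod_of_conic hr (not_scal_of_mk_ne hg) (a := (2 * x.1.trace)⁻¹)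
      (b := -(2 * x.1.trace)⁻¹) (by rw [e]; field_simp; ring))
  by_cases hs : g.1.trace ^ 2 = 4
  · have : (g.1.trace - 2) * (g.1.trace + 2) = 0 := by linear_combination hs
    rcases mul_eq_zero.1 this with e | e
    · rw [← psl2_mk_neg] at hg ⊢
      refine k _ hg ?_
      simp only [Matrix.SpecialLinearGroup.coe_neg, Matrix.trace_neg]
      linear_combination -e
    · exact k _ hg (by linear_combination e)
  · obtain ⟨a, b, h⟩ := exists_conic hs (-x.1.trace) x.1.trace 1
    exact psl_prod_of (exists_prod_of_conic hr (not_scal_of_mk_ne hg) (a := a) (b := b)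
      (by linear_combination h))

end Cfsg.Agent.S2455
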