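import Cfsg.Statements.S2456
import Cfsg.Agent.H27.PSL2a

set_option autoImplicit false
open Cfsg

namespace Cfsg.Agent.S2456

open Cfsg.Agent.H27 Cfsg.Agent.H12
open scoped MatrixGroups


/-- A strong covering result in the direction of Thompson's conjecture (non-identity elements) for PSL(2,q), q even: let F be a finite field of characteristic 2 with q ≥ 4 elements and let x ∈ PSL(2,F) have order greater than 2 and not dividing q + 1. Then every non-identity element of PSL(2,F) is a product of two conjugates of x. -/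
theorem result {F : Type*} [Field F] [Fintype F] [CharP F 2] (h4 : 4 ≤ Fintype.card F)
    (x : Matrix.ProjectiveSpecialLinearGroup (Fin 2) F) (hx2 : 2 < orderOf x) (hxq : ¬ orderOf x ∣ Fintype.card F + 1) : ∀ g : Matrix.ProjectiveSpecialLinearGroup (Fin 2) F, g ≠ 1 → ∃ u v : Matrix.ProjectiveSpecialLinearGroup (Fin 2) F, g = (u * x * u⁻¹) * (v * x * v⁻¹) := by
  intro g hg
  obtain ⟨x, rfl⟩ := QuotientGroup.mk_surjective x
  obtain ⟨g, rfl⟩ := QuotientGroup.mk_surjective g
  have h2 : (2 : F) = 0 := two_eq_zero_of_charP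
  have hs : Spl (x : M2 F) := by
    rcases type_cases (x : M2 F) with h | h | h | h
    · rw [psl2_mk_eq_one_iff.2 (scal_sl_iff.1 h), orderOf_one] at hx2; omega
    · obtain ⟨a, y, ha, -, hc⟩ := exists_sl_isConj_un h
      have h1 : x ^ 2 = 1 := by
        rw [← IsConj.pow_eq_one' hc, sq]
        have : (a : F) * a = 1 := by rw [← sq]; simpa using congrArg Units.val ha
        have h3 : (a : F)⁻¹ = a := inv_eq_of_mul_eq_one_right this
        apply s2ext <;> simp [m2mul, h3, this]
        linear_combination a * y * h2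
      have : (x : PSL(2, F)) ^ 2 = 1 := by rw [← QuotientGroup.mk_pow, h1]; rfl
      have := Nat.le_of_dvd two_pos (orderOf_dvd_of_pow_eq_one this)
      omega
    · exact h
    · refine (hxq (orderOf_dvd_of_pow_eq_one ?_)).elim
      rw [← QuotientGroup.mk_pow, ← Nat.card_eq_fintype_card, sl_pow_eq_one_of_ell h]; rfl
  have hr := reg_of_spl hs
  by_cases h4 : g.1.trace ^ 2 = 4
  · obtain ⟨r, s, -, h5, h6⟩ := hs
    rw [x.2] at h6
    have h7 : g.1.trace = 0 := pow_eq_zero_iff (n := 2) two_ne_zero |>.1 (by
      linear_combination h4 + 2 * h2)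
    exact psl_prod_of (exists_prod_of_conic hr (not_scal_of_mk_ne hg) (a := r) (b := 0)
      (by rw [h5, h7]; linear_combination h6))
  · obtain ⟨a, b, h⟩ := exists_conic h4 (-x.1.trace) x.1.trace 1
    exact psl_prod_of (exists_prod_of_conic hr (not_scal_of_mk_ne hg) (a := a) (b := b)
      (by linear_combination h))

end Cfsg.Agent.S2456
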