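import Cfsg.Statements.S2459
import Cfsg.Agent.H15.Sq3

set_option autoImplicit false
open Cfsg

namespace Cfsg.Agent.S2459

/-- A form of Thompson's conjecture for PSL(3,q), q > 2 (covering the non-identity elements), with a semisimple class: for F a finite field of characteristic p with more than 2 elements there is an element x of PSL(3,F) of order prime to p such that every non-identity element of PSL(3,F) is a product of two conjugates of x. -/
theorem result {F : Type*} [Field F] [Fintype F] (p : ℕ) [Fact p.Prime] [CharP F p] (h3 : 3 ≤ Fintype.card F) :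
    ∃ x : Matrix.ProjectiveSpecialLinearGroup (Fin 3) F, ¬ p ∣ orderOf x ∧ ∀ g : Matrix.ProjectiveSpecialLinearGroup (Fin 3) F, g ≠ 1 → ∃ u v : Matrix.ProjectiveSpecialLinearGroup (Fin 3) F, g = (u * x * u⁻¹) * (v * x * v⁻¹) := by
  obtain ⟨x, n, h1, h2, h4, h5⟩ : ∃ (x : Matrix.SpecialLinearGroup (Fin 3) F) (n : ℕ), ¬ p ∣ n ∧ x ^ n = 1 ∧
      (∀ t : F, Commute x.1 (Matrix.diagonal ![1, 1, t])) ∧
      ∀ a b c d e f : F, H15.Sq2 x.1 (!![1, 0, 0; a, 1, 0; b, c, 1] * !![1, d, e; 0, 1, f; 0, 0, 1]) := by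
    obtain ⟨k, hp, hk⟩ := FiniteField.card F p
    have hc : ∀ a b c d t : F, Commute !![a, b, 0; c, d, 0; 0, 0, 1] (Matrix.diagonal ![1, 1, t]) := fun a b c d t => by
      ext i j
      fin_cases i <;> fin_cases j <;> simp
    rcases h3.eq_or_lt with h | h
    · have h6 : (3 : F) = 0 := by simpa [← h] using FiniteField.cast_card_eq_zero F
      obtain rfl : p = 3 := (Nat.prime_dvd_prime_iff_eq hp Nat.prime_three).1 ((CharP.cast_eq_zero_iff F p 3).1 h6)
      refine ⟨⟨!![0, 2, 0; 1, 0, 0; 0, 0, 1], by simp [Matrix.det_fin_three]; linear_combination -h6⟩, 4, by norm_num,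
        Subtype.ext ?_, hc _ _ _ _, H15.sq2_three h.symm⟩
      have : (2 : F) * 2 = 1 := by linear_combination h6
      change !![0, 2, 0; 1, 0, 0; 0, 0, 1] ^ 4 = (1 : Matrix (Fin 3) (Fin 3) F)
      simp [pow_succ, this, Matrix.one_fin_three]
    · obtain ⟨r, h0, hr⟩ := H12.exists_sq_ne_one_of_four_le (F := F) (by rw [Nat.card_eq_fintype_card]; omega)
      refine ⟨⟨!![r, 0, 0; 0, r⁻¹, 0; 0, 0, 1], by simp [Matrix.det_fin_three, h0]⟩, Fintype.card F - 1, fun h => ?_,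
        Subtype.ext ?_, hc _ _ _ _, H15.sq2_diag h0 hr⟩
      · exact hp.not_dvd_one ((Nat.dvd_sub_iff_right (by omega) (hk ▸ dvd_pow_self p k.ne_zero)).1 h)
      change !![r, 0, 0; 0, r⁻¹, 0; 0, 0, 1] ^ _ = (1 : Matrix (Fin 3) (Fin 3) F)
      rw [show !![r, 0, 0; 0, r⁻¹, 0; 0, 0, 1] = Matrix.diagonal ![r, r⁻¹, 1] by ext i j; fin_cases i <;> fin_cases j <;> simp,
        Matrix.diagonal_pow]
      ext i j
      fin_cases i <;> fin_cases j <;> simp [FiniteField.pow_card_sub_one_eq_one r h0]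
  refine ⟨QuotientGroup.mk x, fun h => h1 (h.trans (orderOf_dvd_of_pow_eq_one (by rw [← QuotientGroup.mk_pow, h2]; rfl))), fun g hg => ?_⟩
  obtain ⟨g, rfl⟩ := QuotientGroup.mk_surjective g
  obtain ⟨B, C, a1, a2, a3⟩ := H15.sq2_SL3 h5 g.2 fun c hc => hg ((QuotientGroup.eq_one_iff g).2
    (Subgroup.mem_center_iff.2 fun y => Subtype.ext (by change y.1 * g.1 = g.1 * y.1; simp [hc])))
  obtain ⟨u, rfl⟩ := H15.exists_SL3_conj h4 a1
  obtain ⟨v, rfl⟩ := H15.exists_SL3_conj h4 a2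
  exact ⟨QuotientGroup.mk u, QuotientGroup.mk v, congrArg QuotientGroup.mk (Subtype.ext a3 : g = u * x * u⁻¹ * (v * x * v⁻¹))⟩

end Cfsg.Agent.S2459
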