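import Cfsg.Statements.S2460
import Cfsg.Agent.H15.Sq4
import Cfsg.Agent.H12.Root2

set_option autoImplicit false
open Cfsg

namespace Cfsg.Agent.S2460

/-- A form of Thompson's conjecture for the simple groups PSp(4,q), q ≥ 3 (covering the non-identity elements), with a semisimple class: for F a finite field of characteristic p with at least 3 elements there is an element x of PSp(4,F) of order prime to p such that every non-identity element of PSp(4,F) is a product of two conjugates of x. -/
theorem result {F : Type*} [Field F] [Fintype F] (p : ℕ) [Fact p.Prime] [CharP F p] (h3 : 3 ≤ Fintype.card F) :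
    ∃ x : Cfsg.PSp 2 F, ¬ p ∣ orderOf x ∧ ∀ g : Cfsg.PSp 2 F, g ≠ 1 → ∃ u v : Cfsg.PSp 2 F, g = (u * x * u⁻¹) * (v * x * v⁻¹) := by
  obtain ⟨x, H, hx⟩ := H15.exists_sqPar h3
  refine ⟨QuotientGroup.mk' _ (H15.levS x), fun h => H12.not_char_dvd_pow_sub_one (F := F) p two_ne_zero
    (h.trans (orderOf_dvd_of_pow_eq_one (by rw [← map_pow, ← map_pow, hx, map_one, map_one]))), fun g hg => ?_⟩
  obtain ⟨g, rfl⟩ := QuotientGroup.mk_surjective g
  obtain ⟨B, C, a1, a2, a3⟩ := H.sq2_main h3 (g := g) fun c hc => hg ((QuotientGroup.eq_one_iff g).2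
    (Subgroup.mem_center_iff.2 fun y => Subtype.ext (by simp [hc])))
  obtain ⟨u, rfl⟩ := isConj_iff.1 a1
  obtain ⟨v, rfl⟩ := isConj_iff.1 a2
  exact ⟨u, v, a3⟩

end Cfsg.Agent.S2460
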