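import Cfsg.Statements.S2466
import Cfsg.Agent.H28.AltOrders

set_option autoImplicit false
open Cfsg

namespace Cfsg.Agent.S2466

open Cfsg.Agent.H28

/-- Adjacency of odd primes in the prime graph of the alternating groups: let r ≠ s be odd primes at most n. The alternating group of degree n has an element of order r·s if and only if r + s ≤ n. -/
theorem result (n r s : ℕ) (hr : r.Prime) (hs : s.Prime) (hr2 : r ≠ 2) (hs2 : s ≠ 2) (hrs : r ≠ s) (hrn : r ≤ n) (hsn : s ≤ n) :
    (r * s ∈ Set.range (orderOf : alternatingGroup (Fin n) → ℕ)) ↔ r + s ≤ n := by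
  rw [mem_range_orderOf_alt_iff]
  have hcop : r.Coprime s := (Nat.coprime_primes hr hs).2 hrs
  constructor
  · rintro ⟨M, h1, h2, -, h4⟩
    obtain ⟨a, ha, hra⟩ := prime_dvd_multiset_lcm hr M (h4 ▸ dvd_mul_right _ _)
    have ha2 := h2 a ha
    by_cases hsa : s ∣ a
    · have h5 : r * s ≤ a := Nat.le_of_dvd (by omega) (hcop.mul_dvd_of_dvd_of_dvd hra hsa)
      have h6 : a ≤ M.sum := Multiset.single_le_sum (by simp) a ha
      have := hr.two_le; have := hs.two_le
      nlinarith
    · obtain ⟨b, hb, hsb⟩ := prime_dvd_multiset_lcm hs M (h4 ▸ dvd_mul_left _ _)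
      have hab : b ≠ a := by rintro rfl; exact hsa hsb
      obtain ⟨M', rfl⟩ := Multiset.exists_cons_of_mem ha
      have hb' : b ∈ M' := by simpa [hab] using hb
      have h6 : b ≤ M'.sum := Multiset.single_le_sum (by simp) b hb'
      have := h2 b hb
      have := Nat.le_of_dvd (by omega) hra
      have := Nat.le_of_dvd (by omega) hsb
      rw [Multiset.sum_cons] at h1
      omega
  · intro h
    refine ⟨{r, s}, by simpa using h, ?_, ?_, ?_⟩
    · simp [hr.two_le, hs.two_le]
    · obtain ⟨a, ha⟩ := hr.odd_of_ne_two hr2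
      obtain ⟨b, hb⟩ := hs.odd_of_ne_two hs2
      simp only [Multiset.insert_eq_cons, Multiset.sum_cons, Multiset.sum_singleton,
        Multiset.card_cons, Multiset.card_singleton]
      exact ⟨a + b + 2, by omega⟩
    · simp only [Multiset.insert_eq_cons, Multiset.lcm_cons, Multiset.lcm_singleton, normalize_eq]
      exact hcop.lcm_eq_mul

end Cfsg.Agent.S2466
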