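import Cfsg.Statements.S2467
import Cfsg.Agent.H28.AltOrders

set_option autoImplicit false
open Cfsg

namespace Cfsg.Agent.S2467

open Cfsg.Agent.H28

/-- Adjacency of 2 and an odd prime in the prime graph of the alternating groups: let r be an odd prime at most n, with n ≥ 4. The alternating group of degree n has an element of order 2r if and only if r + 4 ≤ n. -/
theorem result (n r : ℕ) (hn : 4 ≤ n) (hr : r.Prime) (hr2 : r ≠ 2) (hrn : r ≤ n) :
    (2 * r ∈ Set.range (orderOf : alternatingGroup (Fin n) → ℕ)) ↔ r + 4 ≤ n := by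
  rw [mem_range_orderOf_alt_iff]
  have hodd := hr.odd_of_ne_two hr2
  have hcop : Nat.Coprime 2 r := (Nat.coprime_primes Nat.prime_two hr).2 (Ne.symm hr2)
  constructor
  · rintro ⟨M, h1, h2, h3, h4⟩
    rw [even_sum_add_card_iff] at h3
    obtain ⟨a, ha, hra⟩ := prime_dvd_multiset_lcm hr M (h4 ▸ dvd_mul_left _ _)
    obtain ⟨b, hb, h2b⟩ := prime_dvd_multiset_lcm Nat.prime_two M (h4 ▸ dvd_mul_right _ _)
    have hpos : 0 < (M.filter Even).card :=
      Multiset.card_pos_iff_exists_mem.2 ⟨b, Multiset.mem_filter.2 ⟨hb, even_iff_two_dvd.2 h2b⟩⟩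
    have h2le : 2 ≤ (M.filter Even).card := by obtain ⟨k, hk⟩ := h3; omega
    have ha2 := h2 a ha
    obtain ⟨M', rfl⟩ := Multiset.exists_cons_of_mem ha
    have hs : 2 * (M'.filter Even).card ≤ M'.sum := by
      have h5 : (M'.filter Even).card • 2 ≤ (M'.filter Even).sum :=
        Multiset.card_nsmul_le_sum fun x hx => h2 x (by simp [(Multiset.mem_filter.1 hx).1])
      have h6 : (M'.filter Even).sum ≤ M'.sum := by
        conv_rhs => rw [← Multiset.filter_add_not Even M', Multiset.sum_add]
        omega
      simp only [smul_eq_mul] at h5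
      omega
    rw [Multiset.sum_cons] at h1
    have := hr.two_le
    by_cases hae : Even a
    · rw [Multiset.filter_cons_of_pos _ hae, Multiset.card_cons] at h2le
      have h5 : 2 * r ≤ a :=
        Nat.le_of_dvd (by omega) (hcop.mul_dvd_of_dvd_of_dvd (even_iff_two_dvd.1 hae) hra)
      omega
    · rw [Multiset.filter_cons_of_neg _ hae] at h2le
      have := Nat.le_of_dvd (by omega) hra
      omega
  · intro h
    refine ⟨{r, 2, 2}, by simp; omega, ?_, ?_, ?_⟩
    · simp [hr.two_le]
    · obtain ⟨a, ha⟩ := hodd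
      simp only [Multiset.insert_eq_cons, Multiset.sum_cons, Multiset.sum_singleton,
        Multiset.card_cons, Multiset.card_singleton]
      exact ⟨a + 4, by omega⟩
    · simp only [Multiset.insert_eq_cons, Multiset.lcm_cons, Multiset.lcm_singleton, normalize_eq]
      rw [show lcm 2 2 = 2 by decide, mul_comm]
      exact hcop.symm.lcm_eq_mul

end Cfsg.Agent.S2467
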