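import Cfsg.Statements.S2471
import Cfsg.Agent.H12.Torus
import Cfsg.Agent.H12.Root2

set_option autoImplicit false
open Cfsg

namespace Cfsg.Agent.S2471

/-- In PSL(2,q) with q odd, the characteristic p is isolated from 2 in the prime graph: for F a finite field of odd characteristic p with at least 5 elements, PSL(2,F) has no element of order 2p. -/
theorem result {F : Type*} [Field F] [Fintype F] (p : ℕ) [Fact p.Prime] [CharP F p] (hp : p ≠ 2) (h5 : 5 ≤ Fintype.card F) (g : Matrix.ProjectiveSpecialLinearGroup (Fin 2) F) :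
    orderOf g ≠ 2 * p := by
  intro hg
  have hp' : p.Prime := Fact.out
  obtain ⟨a, rfl⟩ := QuotientGroup.mk_surjective g
  have h1 : ∀ k, (QuotientGroup.mk a : Matrix.ProjectiveSpecialLinearGroup (Fin 2) F) ^ k = 1 →
      2 * p ∣ k := fun k hk => hg ▸ orderOf_dvd_of_pow_eq_one hk
  have h2 := H12.char_dvd_card (F := F) p
  by_cases h : a.1.trace ^ 2 = 4
  · have h3 : ∀ b : Matrix.SpecialLinearGroup (Fin 2) F, b.1.trace = 2 → b ^ p = 1 := fun b hb =>
      Subtype.ext (by rw [H12.sl2_pow_of_trace_eq_two hb]; simp)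
    have h4 : 2 * p ∣ p := by
      apply h1
      rcases sq_eq_sq_iff_eq_or_eq_neg.1 (h.trans (show (4 : F) = 2 ^ 2 by norm_num)) with h | h
      · rw [← QuotientGroup.mk_pow, h3 a h]; rfl
      · rw [← H12.psl2_mk_neg, ← QuotientGroup.mk_pow, h3 (-a) (by simp [h])]; rfl
    have := Nat.le_of_dvd hp'.pos h4
    have := hp'.pos
    omega
  · rcases H12.pow_eq_one_of_trace_ne h with h | h
    · have := (dvd_mul_left p 2).trans (h1 _ (by rw [← QuotientGroup.mk_pow, h]; rfl))
      exact hp'.one_lt.ne' (Nat.dvd_one.1 (by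
        simpa [Nat.sub_sub_self (show 1 ≤ Fintype.card F by omega)] using Nat.dvd_sub h2 this))
    · have := (dvd_mul_left p 2).trans (h1 _ (by rw [← QuotientGroup.mk_pow, h]; rfl))
      exact hp'.one_lt.ne' (Nat.dvd_one.1 ((Nat.dvd_add_right h2).1 this))

end Cfsg.Agent.S2471
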