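import Cfsg.Statements.S2479
import Cfsg.Agent.H7.KGL5
import Cfsg.Agent.S2384
-- import your own Cfsg.Agent.* helpers here

set_option autoImplicit false
open Cfsg

namespace Cfsg.Agent.S2479


/-- The number of conjugacy classes of SL(n,q): for F a finite field with q elements, the number k of conjugacy classes of SL(n,F) satisfies q^(n−1) < k and k ≤ (5/2)·q^(n−1) for n ≥ 2, and k ≤ q^(n−1) + 3q^(n−2) for n ≥ 3. -/
theorem result {F : Type*} [Field F] [Fintype F] (n : ℕ) (hn : 2 ≤ n) :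
    Fintype.card F ^ (n - 1) < Nat.card (ConjClasses (Matrix.SpecialLinearGroup (Fin n) F)) ∧ 2 * Nat.card (ConjClasses (Matrix.SpecialLinearGroup (Fin n) F)) ≤ 5 * Fintype.card F ^ (n - 1) ∧
      (3 ≤ n → Nat.card (ConjClasses (Matrix.SpecialLinearGroup (Fin n) F)) ≤ Fintype.card F ^ (n - 1) + 3 * Fintype.card F ^ (n - 2)) := by
  obtain ⟨p, _⟩ := CharP.exists F
  have := Fact.mk (CharP.char_is_prime F p)
  have : NeZero n := ⟨by omega⟩
  have hc : ((-1) ^ n : F) ≠ 0 := by simp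
  refine ⟨?_, (Nat.mul_le_mul_left _ H7.KG.card_SL_le).trans (H7.KG.KK_half (by omega) hc),
    fun h => H7.KG.card_SL_le.trans (H7.KG.KK_three h hc)⟩
  have h01 : (⟨0, by omega⟩ : Fin n) ≠ ⟨1, hn⟩ := by simp
  let t : Multiplicative F →* Matrix.SpecialLinearGroup (Fin n) F := MonoidHom.mk'
    (fun a => ⟨_, Matrix.det_transvection_of_ne _ _ h01 a.toAdd⟩)
    fun a b => Subtype.ext (Matrix.transvection_mul_transvection_same _ _ h01 _ _).symm
  refine (S2384.result rfl p n (by omega)).symm.trans_lt (Finite.card_subtype_lt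
    (x := ConjClasses.mk (t (.ofAdd 1))) fun ⟨g, h1, h2⟩ => ?_)
  obtain ⟨c, rfl⟩ := isConj_iff.1 (ConjClasses.mk_eq_mk_iff_isConj.1 h1.symm)
  rw [← MulAut.conj_apply, MulEquiv.orderOf_eq] at h2
  have h3 := orderOf_eq_one_iff.1 (h2.eq_one_of_dvd (orderOf_dvd_of_pow_eq_one (by
    rw [← map_pow, ← ofAdd_nsmul, nsmul_one, CharP.cast_eq_zero, ofAdd_zero, map_one])))
  have h4 : Matrix.transvection _ _ (1 : F) = 1 := congrArg Subtype.val h3
  simpa [Matrix.transvection, Matrix.one_apply_ne h01] using congrFun (congrFun h4 ⟨0, by omega⟩) ⟨1, hn⟩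

end Cfsg.Agent.S2479
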