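import Cfsg.Statements.S2480
import Cfsg.Agent.H7.KGL5
import Cfsg.Agent.S2479
import Cfsg.Agent.H12.Lin
-- import your own Cfsg.Agent.* helpers here

set_option autoImplicit false
open Cfsg

namespace Cfsg.Agent.S2480


/-- The number of conjugacy classes of PSL(n,q): for F a finite field with q elements, n ≥ 2 and d = gcd(n, q − 1), the number k of conjugacy classes of PSL(n,F) satisfies q^(n−1) ≤ d·k ≤ q^(n−1) + 5q^(n−2). -/
theorem result {F : Type*} [Field F] [Fintype F] (n : ℕ) (hn : 2 ≤ n) :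
    Fintype.card F ^ (n - 1) ≤ Nat.gcd n (Fintype.card F - 1) * Nat.card (ConjClasses (Matrix.ProjectiveSpecialLinearGroup (Fin n) F)) ∧
      Nat.gcd n (Fintype.card F - 1) * Nat.card (ConjClasses (Matrix.ProjectiveSpecialLinearGroup (Fin n) F)) ≤ Fintype.card F ^ (n - 1) + 5 * Fintype.card F ^ (n - 2) := by
  classical
  have : NeZero n := ⟨by omega⟩
  have hc : ((-1) ^ n : F) ≠ 0 := by simp
  have := Fintype.ofFinite (Subgroup.center (Matrix.SpecialLinearGroup (Fin n) F))
  have h1 := H12.card_center_SL (F := F) (ι := Fin n)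
  rw [Fintype.card_fin, Nat.card_eq_fintype_card (α := F)] at h1
  have hq := Fintype.one_lt_card (α := F)
  have h2 : Nat.card (Subgroup.center (Matrix.SpecialLinearGroup (Fin n) F)) ≤ n :=
    h1 ▸ Nat.gcd_le_left _ (by omega)
  have h3 : Nat.card (Subgroup.center (Matrix.SpecialLinearGroup (Fin n) F)) ≤ Fintype.card F - 1 :=
    h1 ▸ Nat.gcd_le_right _ (by omega)
  obtain ⟨h4, -, h5⟩ := S2479.result (F := F) n hn
  rw [← h1, H7.KG.card_center_mul, ← Finset.add_sum_erase _ _ (Finset.mem_univ 1),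
    Nat.card_congr (Equiv.subtypeUnivEquiv fun c => (ConjClasses.mk_surjective c).imp
      fun _ h => ⟨h, isConj_iff.2 ⟨1, by simp⟩⟩)]
  refine ⟨h4.le.trans (Nat.le_add_right _ _), ?_⟩
  have h6 : ∀ B, (∀ m, m ≠ 0 → m ≤ n / 2 → 2 * H7.KG.KK m ((-1) ^ n : F) ≤ B) →
      2 * ∑ z ∈ Finset.univ.erase (1 : Subgroup.center (Matrix.SpecialLinearGroup (Fin n) F)),
      Nat.card {c : ConjClasses _ // ∃ u, ConjClasses.mk u = c ∧ IsConj (z.1 * u) u} ≤
      (Nat.card (Subgroup.center (Matrix.SpecialLinearGroup (Fin n) F)) - 1) * B := fun B hB => by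
    rw [Finset.mul_sum]
    refine (Finset.sum_le_card_nsmul _ _ B fun z hz => ?_).trans (by simp)
    obtain ⟨m, h7, h8, h9⟩ := H7.KG.card_fix_le z.2 fun e => (Finset.mem_erase.1 hz).1 (Subtype.ext e)
    exact (Nat.mul_le_mul_left _ h9).trans (hB m h7 h8)
  generalize Nat.card (Subgroup.center (Matrix.SpecialLinearGroup (Fin n) F)) = d at h2 h3 h6
  obtain rfl | hn := hn.eq_or_lt
  · have h7 := h6 2 fun m h h' => by
      obtain rfl : m = 1 := by omega
      exact Nat.mul_le_mul_left 2 (H7.KG.KK_one hc)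
    have := H7.KG.card_SL_le.trans (H7.KG.KK_two hc).1
    simp only [Nat.add_one_sub_one, pow_one, Nat.sub_self, pow_zero]
    omega
  have h7 := h6 (5 * Fintype.card F ^ (n / 2 - 1)) fun m h h' => (H7.KG.KK_half h hc).trans
    (Nat.mul_le_mul_left _ (Nat.pow_le_pow_right (by omega) (by omega)))
  have h8 : (d - 1) * (5 * Fintype.card F ^ (n / 2 - 1)) ≤ 4 * Fintype.card F ^ (n - 2) := by
    rcases le_or_gt n 4 with h | h
    · refine le_trans ?_ (Nat.mul_le_mul_left _ (Nat.pow_le_pow_right (by omega)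
        (show n / 2 - 1 + 1 ≤ _ by omega)))
      rw [pow_succ', ← mul_assoc, ← mul_assoc]
      exact Nat.mul_le_mul_right _ (by omega)
    · refine le_trans ?_ (Nat.mul_le_mul_left _ (Nat.pow_le_pow_right (by omega)
        (show n / 2 - 1 + 1 + 1 ≤ _ by omega)))
      rw [pow_succ', pow_succ', ← mul_assoc, ← mul_assoc, ← mul_assoc]
      exact Nat.mul_le_mul_right _ (by nlinarith [Nat.sub_le d 1, Nat.sub_le (Fintype.card F) 1])
  have := h5 hn
  omega

end Cfsg.Agent.S2480
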