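import Cfsg.Statements.S2485
import Cfsg.Agent.H15.Sq4

set_option autoImplicit false
open scoped Pointwise
open Cfsg

namespace Cfsg.Agent.S2485

/-- Let q = 2^k − 1 ≥ 7 be a prime and let G = PGL(2,q), the general linear group of degree 2 over the field with q elements modulo its centre. Then any two Sylow 2-subgroups of G have a non-trivial intersection: for a Sylow 2-subgroup H and every x ∈ G, H ∩ H^x ≠ 1. -/
theorem result {q k : ℕ} [Fact q.Prime] (hk : q + 1 = 2 ^ k) (hq : 7 ≤ q)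
    (H : Sylow 2 (GL (Fin 2) (ZMod q) ⧸ Subgroup.center (GL (Fin 2) (ZMod q))))
    (x : GL (Fin 2) (ZMod q) ⧸ Subgroup.center (GL (Fin 2) (ZMod q))) :
    (H : Subgroup (GL (Fin 2) (ZMod q) ⧸ Subgroup.center (GL (Fin 2) (ZMod q)))) ⊓ MulAut.conj x • (H : Subgroup _) ≠ ⊥ := by
  have h4 : q % 4 = 3 := by
    obtain ⟨j, rfl⟩ : ∃ j, k = j + 2 := ⟨k - 2, by
      have : 2 ≤ k := by
        by_contra! h
        interval_cases k <;> omega
      omega⟩
    rw [pow_add] at hk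
    omega
  have h2 : (2 : ZMod q) ≠ 0 := fun h => by
    have := Nat.le_of_dvd two_pos ((ZMod.natCast_eq_zero_iff 2 q).1 h)
    omega
  have hs : ∀ a b : ZMod q, a ^ 2 + b ^ 2 = 0 → a = 0 ∧ b = 0 := fun a b h => by
    have hb : b = 0 := by
      by_contra hb
      exact ZMod.mod_four_ne_three_of_sq_eq_neg_sq hb (eq_neg_of_add_eq_zero_right h) h4
    simpa [hb] using h
  let π := QuotientGroup.mk' (Subgroup.center (GL (Fin 2) (ZMod q)))
  have hπ : ∀ a b : GL (Fin 2) (ZMod q), π a = π b ↔ ∃ c : ZMod q, a.1 = c • b.1 := fun a b => by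
    rw [eq_comm, QuotientGroup.mk'_eq_mk']
    constructor
    · rintro ⟨z, hz, rfl⟩
      rw [Matrix.GeneralLinearGroup.center_eq_range_scalar] at hz
      obtain ⟨c, hc⟩ := hz
      exact ⟨c, by rw [← hc]; ext; simp [mul_comm]⟩
    · rintro ⟨c, hc⟩
      refine ⟨b⁻¹ * a, Subgroup.mem_center_iff.2 fun y => Units.ext ?_, by simp⟩
      simp only [Units.val_mul, hc, Matrix.mul_smul, Units.inv_mul, Matrix.smul_mul, mul_one, one_mul]
  -- the centraliser of a matrix with square `-1`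
  have key : ∀ A : GL (Fin 2) (ZMod q), A.1.trace = 0 → A.1.det = 1 → IsPGroup 2 (Subgroup.centralizer {π A}) := by
    rintro A h0 h1 ⟨g, hg⟩
    obtain ⟨g, rfl⟩ := QuotientGroup.mk'_surjective _ g
    obtain ⟨c, hc⟩ := (hπ (g * A) (A * g)).1 (by rw [map_mul, map_mul]; exact Subgroup.mem_centralizer_singleton_iff.1 hg)
    have c2 : c ^ 2 = 1 := by
      have := congrArg Matrix.det hc
      simp only [Units.val_mul, Matrix.det_mul, Matrix.det_smul, h1, mul_one, one_mul, Fintype.card_fin] at this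
      exact mul_right_cancel₀ g.det_ne_zero (by rw [← this, one_mul])
    have a1 : g.1 * g.1 * A.1 = A.1 * (g.1 * g.1) := by
      rw [Units.val_mul, Units.val_mul] at hc
      rw [mul_assoc, hc, Matrix.mul_smul, ← mul_assoc, hc, Matrix.smul_mul, smul_smul, ← sq, c2, one_smul, mul_assoc]
    let ι := algebraMap (ZMod q) (AlgebraicClosure (ZMod q))
    obtain ⟨l, m, e1, e2⟩ := H12.exists_eigenvalues (ι A.1.trace) (ι A.1.det)
    have a2 : l ≠ m := (H12.disc_ne_zero_iff e1 e2).1 (by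
      rw [h0, h1]; intro h; exact mul_ne_zero h2 h2 (by linear_combination -h))
    obtain ⟨z, w, hzw⟩ := H12.Spec.of_commute e1 e2 a2 a1
    rcases H12.eigen_frob e1 e2 with ⟨b1, -⟩ | b1
    · obtain ⟨a, rfl⟩ := H12.exists_eq_map_of_pow_card ι b1
      rw [h0, map_zero] at e1
      rw [h1, map_one, show m = -ι a by linear_combination -e1] at e2
      exact absurd (hs a 1 (ι.injective (by rw [map_add, map_pow, map_pow, map_one, map_zero]; linear_combination e2))).2 one_ne_zero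
    obtain ⟨b2, b3⟩ := hzw.frob_swap b1
    rw [ZMod.card] at b2 b3
    have b4 := hzw.pow e1 e2 (q + 1)
    rw [pow_succ z, pow_succ w, b2, b3, mul_comm w, ← hzw.det e1 e2] at b4
    refine ⟨k + 1, Subtype.ext ?_⟩
    change π g ^ 2 ^ (k + 1) = π 1
    rw [← map_pow, hπ, pow_succ', ← hk, pow_mul]
    exact ⟨_, by simpa [sq] using H12.Spec.ext a2 b4 (H12.Spec.scalar _)⟩
  have ex : ∀ P : Sylow 2 (GL (Fin 2) (ZMod q) ⧸ Subgroup.center (GL (Fin 2) (ZMod q))), ∃ A : GL (Fin 2) (ZMod q),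
      A.1.trace = 0 ∧ A.1.det = 1 ∧ Subgroup.centralizer {π A} ≤ P := fun P => by
    let A : GL (Fin 2) (ZMod q) := Matrix.GeneralLinearGroup.mkOfDetNeZero !![0, -1; 1, 0] (by simp)
    obtain ⟨Q, hQ⟩ := (key A (by simp [A]) (by simp [A])).exists_le_sylow
    obtain ⟨g, hg⟩ := MulAction.exists_smul_eq (GL (Fin 2) (ZMod q) ⧸ Subgroup.center (GL (Fin 2) (ZMod q))) Q P
    rw [← hg]
    obtain ⟨g, rfl⟩ := QuotientGroup.mk'_surjective _ g
    refine ⟨g * A * g⁻¹, by rw [Units.val_mul, Units.val_mul, Matrix.trace_units_conj]; simp [A],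
      by rw [Units.val_mul, Units.val_mul, Matrix.det_units_conj]; simp [A], fun y hy => ?_⟩
    rw [Sylow.coe_subgroup_smul, Subgroup.mem_pointwise_smul_iff_inv_smul_mem]
    refine hQ (Subgroup.mem_centralizer_singleton_iff.2 ?_)
    have := Subgroup.mem_centralizer_singleton_iff.1 hy
    simp only [map_mul, map_inv] at this
    change (π g)⁻¹ * y * (π g)⁻¹⁻¹ * π A = π A * ((π g)⁻¹ * y * (π g)⁻¹⁻¹)
    calc _ = (π g)⁻¹ * (y * (π g * π A * (π g)⁻¹)) * π g := by group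
      _ = _ := by rw [this]; group
  obtain ⟨A, a0, a1, ha⟩ := ex H
  obtain ⟨B, b0, b1, hb⟩ := ex (x • H)
  have nt : ∀ C : GL (Fin 2) (ZMod q), C.1.trace = 0 → π C ≠ 1 := fun C h e => by
    obtain ⟨c, hc⟩ := (hπ C 1).1 e
    have := C.det_ne_zero
    simp [hc, h2] at h this
    exact this h
  suffices ∃ C : GL (Fin 2) (ZMod q), C.1.trace = 0 ∧ π C * π A = π A * π C ∧ π C * π B = π B * π C by
    obtain ⟨C, c0, c1, c2⟩ := this
    exact fun h => nt C c0 (Subgroup.mem_bot.1 (h ▸ ⟨ha (Subgroup.mem_centralizer_singleton_iff.2 c1),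
      hb (Subgroup.mem_centralizer_singleton_iff.2 c2)⟩))
  by_cases hc : A.1 * B.1 = B.1 * A.1
  · exact ⟨A, a0, rfl, by rw [← map_mul, ← map_mul, Units.ext hc (u := A * B) (v := B * A)]⟩
  have sA : A.1 * A.1 = -1 := by simp [H12.mul_self_fin_two, a0, a1]
  have sB : B.1 * B.1 = -1 := by simp [H12.mul_self_fin_two, b0, b1]
  have t0 : (A.1 * B.1 - B.1 * A.1).trace = 0 := by rw [Matrix.trace_sub, Matrix.trace_mul_comm, sub_self]
  have c1 : (A.1 * B.1 - B.1 * A.1) * A.1 = (-1 : ZMod q) • (A.1 * (A.1 * B.1 - B.1 * A.1)) := by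
    rw [sub_mul, mul_sub, mul_assoc B.1, ← mul_assoc A.1 A.1, sA]; simp [mul_assoc, sub_eq_add_neg, add_comm]
  have c2 : (A.1 * B.1 - B.1 * A.1) * B.1 = (-1 : ZMod q) • (B.1 * (A.1 * B.1 - B.1 * A.1)) := by
    rw [sub_mul, mul_sub, mul_assoc A.1, ← mul_assoc B.1 B.1, sB]; simp [mul_assoc, sub_eq_add_neg, add_comm]
  have hd : (A.1 * B.1 - B.1 * A.1).det ≠ 0 := fun hd => by
    obtain ⟨P, hP⟩ := H15.isConj_comp (A := A.1) fun c hc => nt A a0 ((hπ A 1).2 ⟨c, hc⟩)
    rw [a0, a1] at hP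
    rw [← sub_eq_zero] at hc
    generalize A.1 * B.1 - B.1 * A.1 = C at *
    have d1 : ((P⁻¹).1 * C * P.1).det = 0 := by rw [Matrix.det_units_conj', hd]
    have d2 : (P⁻¹).1 * C * P.1 * !![0, -1; 1, 0] = (-1 : ZMod q) • (!![0, -1; 1, 0] * ((P⁻¹).1 * C * P.1)) := by
      rw [mul_assoc, hP.eq, mul_assoc, ← mul_assoc C, c1, ← mul_assoc !![0, -1; 1, 0], ← mul_assoc !![0, -1; 1, 0], ← hP.units_inv_symm_left.eq]
      simp [mul_assoc]
    have d3 : (P⁻¹).1 * C * P.1 = 0 := by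
      generalize (P⁻¹).1 * C * P.1 = D at d1 d2
      have e1 : D 0 1 = D 1 0 := by simpa [Matrix.mul_apply, Matrix.vecMul, dotProduct] using congrFun₂ d2 0 0
      have e2 : D 1 1 = -D 0 0 := by simpa [Matrix.mul_apply, Matrix.vecMul, dotProduct] using congrFun₂ d2 1 0
      obtain ⟨e3, e4⟩ := hs (D 0 0) (D 1 0) (by rw [Matrix.det_fin_two, e1, e2] at d1; linear_combination -d1)
      ext i j
      fin_cases i <;> fin_cases j <;> simp [e1, e2, e3, e4]
    exact hc (by rwa [P.isUnit.mul_left_eq_zero, P⁻¹.isUnit.mul_right_eq_zero] at d3)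
  exact ⟨Matrix.GeneralLinearGroup.mkOfDetNeZero _ hd, t0, by rw [← map_mul, ← map_mul, hπ]; exact ⟨_, c1⟩,
    by rw [← map_mul, ← map_mul, hπ]; exact ⟨_, c2⟩⟩

end Cfsg.Agent.S2485
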