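import Cfsg.Statements.S2487
import Cfsg.Agent.H28.Sbn6
import Cfsg.Agent.H28.SbnAll

set_option autoImplicit false
open scoped Pointwise
open Cfsg

namespace Cfsg.Agent.S2487

open H13 H28

/-- Let m ≥ 4 and let G be the full isometry group of the hyperbolic quadratic form x₁y₁ + ⋯ + x_m y_m on the 2m-dimensional space over the field with 2 elements (the orthogonal group O⁺(2m,2), which contains Ω⁺(2m,2) with index 2). Then any two Sylow 2-subgroups of G have a non-trivial intersection: for a Sylow 2-subgroup H and every x ∈ G, H ∩ H^x ≠ 1. -/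
theorem result {F : Type*} [Field F] [Fintype F] (hF : Fintype.card F = 2) {m : ℕ} (hm : 4 ≤ m)
    (H : Sylow 2 (Cfsg.isometryGroup F (Cfsg.quadFormPlus m F)))
    (x : Cfsg.isometryGroup F (Cfsg.quadFormPlus m F)) :
    (H : Subgroup (Cfsg.isometryGroup F (Cfsg.quadFormPlus m F))) ⊓ MulAut.conj x • (H : Subgroup _) ≠ ⊥ := by
  obtain ⟨l, rfl⟩ := Nat.exists_eq_add_of_le' (show 2 ≤ m by omega)
  have : CharP F 2 := charP_of_card_eq_prime hF
  have := finite_OG (QPlus (l + 2) F)
  let e : isometryGroup F (quadFormPlus (l + 2) F) ≃* _ := toOG (QPlus (l + 2) F)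
  have := Finite.of_equiv _ e.symm.toEquiv
  refine sylow_inf_ne_bot (N := (Om (QPlus (l + 2) F)).comap e.toMonoidHom) ?_
    ((e.subgroupMap _).trans (MulEquiv.subgroupCongr ((Subgroup.map_comap_eq_self_of_surjective e.surjective _).trans
      (rgD_grp l F (by omega)).symm))) (rg_B_le (rgD l F) (Nat.card_eq_fintype_card.trans hF)) H (x • H)
  rw [Subgroup.index_comap_of_surjective _ e.surjective]
  exact nd_QPlus.index_commutator_even (good_of_five (by simp; omega)) CharTwo.two_eq_zero (by simp; omega)

end Cfsg.Agent.S2487
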