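import Cfsg.Statements.S2488
import Cfsg.Agent.H3.PGroup1

set_option autoImplicit false
open scoped Pointwise
open Cfsg

namespace Cfsg.Agent.S2488

open Equiv
open scoped Pointwise

theorem cyc {a : Perm (Fin 6)} (h : a ^ 2 = 1) (h1 : a ≠ 1) (h2 : Perm.sign a = 1) : a.cycleType = Multiset.replicate 2 2 := by
  have e := Perm.cycleType_of_pow_prime_eq_one h
  have a1 := a.sum_cycleType_le
  have a2 := Perm.sign_of_cycleType a
  have a3 := mt Perm.card_cycleType_eq_zero.1 h1
  generalize a.cycleType.card = k at *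
  rw [e, Multiset.sum_replicate, smul_eq_mul] at a1 a2
  rw [Fintype.card_fin] at a1
  rw [h2] at a2
  rw [e]
  obtain rfl | rfl | rfl : k = 1 ∨ k = 2 ∨ k = 3 := by omega
  exacts [absurd a2 (by decide), rfl, absurd a2 (by decide)]

theorem c1 (P : Prop) [Decidable P] : (Finset.univ.filter fun y : Perm (Fin 6) => y * y = 1 ∧ Perm.sign y = 1 ∧
    ((swap 0 1 * swap 2 3 * y) ^ 5 = 1 ↔ P)).card < 32 := by
  by_cases h : P <;> simp only [h, iff_true, iff_false] <;> decide +kernel

theorem c2 : ∀ y : Perm (Fin 6), y * (swap 0 1 * swap 2 3) = swap 0 1 * swap 2 3 * y → y ^ 4 = 1 := by decide +kernel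

/-- Let G be a finite group with a normal subgroup N of index 4 isomorphic to the alternating group of degree 6 and with trivial centralizer in G (so G is the full automorphism group of A₆). Then any two Sylow 2-subgroups of G have a non-trivial intersection: for a Sylow 2-subgroup H and every x ∈ G, H ∩ H^x ≠ 1. -/
theorem result {G : Type*} [Group G] [Finite G] (N : Subgroup G) [N.Normal]
    (e : N ≃* alternatingGroup (Fin 6)) (hidx : N.index = 4)
    (hC : Subgroup.centralizer (N : Set G) = ⊥)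
    (H : Sylow 2 G) (x : G) :
    (H : Subgroup G) ⊓ MulAut.conj x • (H : Subgroup G) ≠ ⊥ := by
  classical
  intro h0
  have hc : Nat.card H = 32 := by
    rw [H.card_eq_multiplicity, ← N.card_mul_index, hidx, Nat.card_congr e.toEquiv, nat_card_alternatingGroup, Nat.card_fin]
    decide +kernel
  have h1 : N.subgroupOf H ≠ ⊥ := fun a => by
    have := Nat.le_of_dvd (by omega) (Subgroup.relIndex_dvd_index_of_normal N H)
    rw [Subgroup.relIndex, a, Subgroup.index_bot] at this
    omega
  obtain ⟨⟨t, ht⟩, h2⟩ := (Subgroup.ne_bot_iff_exists_ne_one).1 (H3.inf_center_ne_bot H.2.isNilpotent _ h1)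
  obtain ⟨z, hz, hz', h3⟩ : ∃ z : N, (z : G) ∈ H ∧ (∀ g ∈ H, g * z = z * g) ∧ orderOf z = 2 := by
    obtain ⟨k, hk⟩ := IsPGroup.iff_orderOf.1 H.2 t
    have := orderOf_pow_orderOf_div (orderOf_pos t).ne' (hk ▸ dvd_pow_self 2 (by
      rintro rfl; exact h2 (Subtype.ext (orderOf_eq_one_iff.1 hk))))
    have h3 := pow_mem ht (orderOf t / 2)
    generalize t ^ (orderOf t / 2) = z at this h3
    exact ⟨⟨z, h3.1⟩, z.2, fun g hg => congrArg Subtype.val (Subgroup.mem_center_iff.1 h3.2 ⟨g, hg⟩),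
      (Subgroup.orderOf_coe _).symm.trans ((Subgroup.orderOf_coe z).trans this)⟩
  let φ : N →* Perm (Fin 6) := (alternatingGroup _).subtype.comp e.toMonoidHom
  have hφ : Function.Injective φ := Subtype.val_injective.comp e.injective
  have h4 : orderOf (φ z) = 2 := by rw [orderOf_injective φ hφ, h3]
  obtain ⟨s, hs⟩ := isConj_iff.1 (Perm.isConj_iff_cycleType_eq.2 ((cyc (h4 ▸ pow_orderOf_eq_one _)
    (fun a : φ z = 1 => by rw [a, orderOf_one] at h4; omega) (e _).2).trans (cyc (a := swap 0 1 * swap 2 3) (by decide) (by decide) (by decide)).symm))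
  let ψ : N →* Perm (Fin 6) := (MulAut.conj s).toMonoidHom.comp φ
  have hψ : Function.Injective ψ := (MulAut.conj s).injective.comp hφ
  have h5 : ∀ y, Perm.sign (ψ y) = 1 := fun y => by simp [ψ, show Perm.sign (φ y) = 1 from (e y).2]
  replace hs : ψ z = swap 0 1 * swap 2 3 := hs
  have h6 : Subgroup.centralizer {(z : G)} = H := H.3 (fun g => ⟨4, Subtype.ext (by
    have a1 := N.pow_index_mem (g : G)
    have := hψ ((map_pow ψ ⟨_, a1⟩ 4).trans ((c2 _ (by
      rw [← hs, ← map_mul, ← map_mul]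
      exact congrArg ψ (Subtype.ext (Subgroup.mem_centralizer_singleton_iff.1 (pow_mem g.2 _))))).trans ψ.map_one.symm))
    simpa [hidx, ← pow_mul] using congrArg Subtype.val this)⟩) fun g hg => Subgroup.mem_centralizer_singleton_iff.2 (hz' g hg)
  have h7 := Nat.card_le_card_of_injective (fun h : H.1 => (⟨ψ (MulAut.conjNormal (h * x) z), Finset.mem_filter.2 ⟨Finset.mem_univ _,
      by rw [← map_mul, ← map_mul, ← pow_two, orderOf_dvd_iff_pow_eq_one.1 h3.dvd, map_one, map_one], h5 _, by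
      have : (MulAut.conjNormal (h : G) : MulAut N) z = z := Subtype.ext (mul_inv_eq_of_eq_mul (hz' h h.2))
      rw [← hs, ← map_mul, ← map_mul, ← map_pow, ← map_pow, map_eq_one_iff ψ hψ, map_eq_one_iff ψ hψ, map_mul, MulAut.mul_apply]
      nth_rw 1 [← this]
      rw [← map_mul, ← map_pow, MulEquiv.map_eq_one_iff]⟩⟩ : Finset.univ.filter fun y : Perm (Fin 6) => y * y = 1 ∧ Perm.sign y = 1 ∧
    ((swap 0 1 * swap 2 3 * y) ^ 5 = 1 ↔ (swap 0 1 * swap 2 3 * ψ (MulAut.conjNormal x z)) ^ 5 = 1))) fun a b h => by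
      have a1 := congrArg Subtype.val (hψ (congrArg Subtype.val h))
      simp only [MulAut.conjNormal_apply] at a1
      refine Subtype.ext (inv_mul_eq_one.1 (h0.le ⟨H.1.mul_mem (inv_mem a.2) b.2, x⁻¹ * ((a : G)⁻¹ * b) * x, h6.le
        (Subgroup.mem_centralizer_singleton_iff.2 ?_), by simp [mul_assoc]⟩))
      rw [show x⁻¹ * ((a : G)⁻¹ * b) * x * z = (a * x)⁻¹ * (b * x * z * (b * x)⁻¹) * (b * x) by group, ← a1]
      group
  rw [hc, Nat.card_eq_fintype_card, Fintype.card_coe] at h7
  exact absurd h7 (not_le.2 (c1 _))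

end Cfsg.Agent.S2488
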