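import Cfsg.Agent.H17.Dc2
import Cfsg.Statements.S2493
-- import your own Cfsg.Agent.* helpers here

set_option autoImplicit false
open Cfsg

namespace Cfsg.Agent.S2493

/-- Let n ≥ 5 and let G be a finite perfect group whose centre has order 2 with G/Z(G) isomorphic to the alternating group of degree n (the double cover of the alternating group). Then every element of G is a commutator. -/
theorem result {G : Type*} [Group G] [Finite G] (hperf : commutator G = ⊤) {n : ℕ} (hn : 5 ≤ n)
    (hZ : Nat.card (Subgroup.center G) = 2) (e : G ⧸ Subgroup.center G ≃* alternatingGroup (Fin n))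
    (g : G) :
    ∃ a b : G, a * b * a⁻¹ * b⁻¹ = g := by
  
  let π : G →* Equiv.Perm (Fin n) :=
    (alternatingGroup (Fin n)).subtype.comp (e.toMonoidHom.comp (QuotientGroup.mk' _))
  have hk : ∀ x, π x = 1 ↔ x ∈ Subgroup.center G := fun x =>
    (Subtype.ext_iff (a2 := (1 : alternatingGroup (Fin n)))).symm.trans
      (e.map_eq_one_iff.trans (QuotientGroup.eq_one_iff x))
  obtain ⟨z, hz1, hz⟩ := (Nat.card_eq_two_iff' (1 : Subgroup.center G)).1 hZ
  have hc : H17.Dc.Cov π z := by
    refine ⟨fun x hx => ?_, fun x => (Subgroup.mem_center_iff.1 z.2 x).symm, ?_,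
      fun h => hz1 (Subtype.ext h), (hk _).2 z.2, fun σ hσ => ?_, fun x => ?_, hperf⟩
    · by_cases h : x = 1
      · exact Or.inl h
      · exact Or.inr (congrArg Subtype.val (hz ⟨x, (hk x).1 hx⟩ fun h0 => h (congrArg Subtype.val h0)))
    · have := pow_card_eq_one' (x := z)
      rw [hZ, pow_two] at this
      exact congrArg Subtype.val this
    · obtain ⟨y, hy⟩ := (e.surjective.comp (QuotientGroup.mk'_surjective _))
        ⟨σ, Equiv.Perm.mem_alternatingGroup.2 hσ⟩
      exact ⟨y, congrArg Subtype.val hy⟩
    · exact Equiv.Perm.mem_alternatingGroup.1 (e (QuotientGroup.mk' _ x)).2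
  exact hc.both g (H17.Dc.nice (by simpa using hn) _ (hc.sgn g))


end Cfsg.Agent.S2493
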