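import Cfsg.Statements.S2500
import Cfsg.Agent.H13.Cov2

set_option autoImplicit false
open Cfsg

namespace Cfsg.Agent.S2500

/-- The infinite families of simple groups with normal covering number 2. For a finite field F: each of PSL_2(F) (|F| ≥ 4), PSL_3(F), PSL_4(F), PSU_4 over F (|F| = q²), PSU_3 over F when |F| = q² with q a power of 3, PSp_{2m}(F) for |F| even, m ≥ 2 and (m, |F|) ≠ (2, 2), PSp_6(F) for |F| a power of 3, and G_2(F) (automorphisms of the split octonions) for |F| = 2^a ≥ 4 is the union of the conjugates of two proper subgroups: there are proper subgroups H, K such that every element is conjugate into H or into K. -/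
theorem result {F : Type} [Field F] [Fintype F] :
    (4 ≤ Fintype.card F → (∃ H K : Subgroup (Matrix.ProjectiveSpecialLinearGroup (Fin 2) F), H ≠ ⊤ ∧ K ≠ ⊤ ∧ ∀ g : (Matrix.ProjectiveSpecialLinearGroup (Fin 2) F), ∃ x : (Matrix.ProjectiveSpecialLinearGroup (Fin 2) F), x * g * x⁻¹ ∈ H ∨ x * g * x⁻¹ ∈ K)) ∧
    (∃ H K : Subgroup (Matrix.ProjectiveSpecialLinearGroup (Fin 3) F), H ≠ ⊤ ∧ K ≠ ⊤ ∧ ∀ g : (Matrix.ProjectiveSpecialLinearGroup (Fin 3) F), ∃ x : (Matrix.ProjectiveSpecialLinearGroup (Fin 3) F), x * g * x⁻¹ ∈ H ∨ x * g * x⁻¹ ∈ K) ∧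
    (∃ H K : Subgroup (Matrix.ProjectiveSpecialLinearGroup (Fin 4) F), H ≠ ⊤ ∧ K ≠ ⊤ ∧ ∀ g : (Matrix.ProjectiveSpecialLinearGroup (Fin 4) F), ∃ x : (Matrix.ProjectiveSpecialLinearGroup (Fin 4) F), x * g * x⁻¹ ∈ H ∨ x * g * x⁻¹ ∈ K) ∧
    (∀ q : ℕ, Fintype.card F = q ^ 2 → (∃ H K : Subgroup (Cfsg.PSU 4 F q), H ≠ ⊤ ∧ K ≠ ⊤ ∧ ∀ g : (Cfsg.PSU 4 F q), ∃ x : (Cfsg.PSU 4 F q), x * g * x⁻¹ ∈ H ∨ x * g * x⁻¹ ∈ K)) ∧
    (∀ q a : ℕ, Fintype.card F = q ^ 2 → 1 ≤ a → q = 3 ^ a → (∃ H K : Subgroup (Cfsg.PSU 3 F q), H ≠ ⊤ ∧ K ≠ ⊤ ∧ ∀ g : (Cfsg.PSU 3 F q), ∃ x : (Cfsg.PSU 3 F q), x * g * x⁻¹ ∈ H ∨ x * g * x⁻¹ ∈ K)) ∧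
    (∀ m : ℕ, 2 ≤ m → ¬ Odd (Fintype.card F) → ¬ (m = 2 ∧ Fintype.card F = 2) → (∃ H K : Subgroup (Cfsg.PSp m F), H ≠ ⊤ ∧ K ≠ ⊤ ∧ ∀ g : (Cfsg.PSp m F), ∃ x : (Cfsg.PSp m F), x * g * x⁻¹ ∈ H ∨ x * g * x⁻¹ ∈ K)) ∧
    (∀ a : ℕ, 1 ≤ a → Fintype.card F = 3 ^ a → (∃ H K : Subgroup (Cfsg.PSp 3 F), H ≠ ⊤ ∧ K ≠ ⊤ ∧ ∀ g : (Cfsg.PSp 3 F), ∃ x : (Cfsg.PSp 3 F), x * g * x⁻¹ ∈ H ∨ x * g * x⁻¹ ∈ K)) ∧
    (∀ a : ℕ, 2 ≤ a → Fintype.card F = 2 ^ a → (∃ H K : Subgroup (Cfsg.Lie.G2 F), H ≠ ⊤ ∧ K ≠ ⊤ ∧ ∀ g : (Cfsg.Lie.G2 F), ∃ x : (Cfsg.Lie.G2 F), x * g * x⁻¹ ∈ H ∨ x * g * x⁻¹ ∈ K)) := by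
  refine ⟨fun h => (H13.cov_SL (r := 2) le_rfl le_rfl fun k d T h1 h2 h3 h4 => ?_).quot
      (H12.commutator_SL_fin_eq_top 2 le_rfl fun _ => h),
    (H13.cov_SL (r := 3) (by omega) (by omega) fun k d T h1 h2 h3 h4 => ?_).quot
      (H12.commutator_SL_fin_eq_top 3 (by omega) (by omega)),
    (H13.cov_SL (r := 2) (by omega) le_rfl fun k d T h1 h2 h3 h4 => ?_).quot
      (H12.commutator_SL_fin_eq_top 4 (by omega) (by omega)),
    fun q hF => (H13.cov_SU4 hF).quot (H12.commutator_SU hF (by omega) (by omega)),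
    fun q a hF ha hq => ?_, fun m hm h2 h => ?_, fun a ha hF => ?_, fun a ha hF => ?_⟩
  iterate 3
    have : d ≤ 4 := by nlinarith
    have : k ≤ 2 := by nlinarith
    interval_cases d <;> interval_cases k <;> omega
  · haveI := Fact.mk Nat.prime_three
    haveI := charP_of_card_eq_prime_pow (R := F) (p := 3) (f := a * 2) (by rw [hF, hq, pow_mul])
    refine (H13.cov_SU3 hF).quot (H12.commutator_SU hF le_rfl fun h => ?_)
    have := Nat.le_self_pow (by omega : a ≠ 0) 3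
    omega
  · haveI : CharP F 2 := ringChar.of_eq (FiniteField.even_card_iff_char_two.2 (by
      rwa [Nat.not_odd_iff_even, Nat.even_iff] at h2))
    have := Fintype.one_lt_card (α := F)
    exact (H13.cov_Sp_two hm).quot (H12.commutator_sp m (by omega))
  · haveI := Fact.mk Nat.prime_three
    haveI := charP_of_card_eq_prime_pow (R := F) hF
    exact H13.cov_Sp6.quot (H12.commutator_sp 3 (by omega))
  · haveI := Fact.mk Nat.prime_two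
    haveI := charP_of_card_eq_prime_pow (R := F) hF
    obtain ⟨t, t0, t1⟩ := H12.exists_sq_ne_one_of_card (F := F) (hF ▸ Nat.pow_le_pow_right (n := 2) two_pos ha)
    exact H13.cov_G2 t0 fun h => t1 (by simp [h])

end Cfsg.Agent.S2500
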