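import Cfsg.Statements.S2503
import Cfsg.Agent.H12.Torus
import Cfsg.Agent.H12.Root2
import Cfsg.Agent.H12.Lin

set_option autoImplicit false
open Cfsg

namespace Cfsg.Agent.S2503

/-- Let F be a finite field with q = 2^t ≥ 4 elements and L = PSL(2,F). Then L has a cyclic subgroup A of order q + 1 and an elementary abelian 2-subgroup B of order q such that L = ABA: every element of L is a product a·b·a' with a, a' ∈ A and b ∈ B. -/
theorem result {F : Type*} [Field F] [Fintype F]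
    (h2 : 2 ∣ Fintype.card F) (h4 : 4 ≤ Fintype.card F) :
    ∃ A B : Subgroup (Matrix.ProjectiveSpecialLinearGroup (Fin 2) F),
      IsCyclic A ∧ Nat.card A = Fintype.card F + 1 ∧ IsMulCommutative B ∧ (∀ b ∈ B, b * b = 1) ∧
        Nat.card B = Fintype.card F ∧
        ∀ g : Matrix.ProjectiveSpecialLinearGroup (Fin 2) F, ∃ a ∈ A, ∃ b ∈ B, ∃ c ∈ A, g = a * b * c := by
  have c2 : CharP F 2 := by
    obtain ⟨p, _⟩ := CharP.exists F
    obtain ⟨k, hp, hk⟩ := FiniteField.card F p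
    rwa [(Nat.prime_dvd_prime_iff_eq Nat.prime_two hp).1 (Nat.prime_two.dvd_of_dvd_pow (hk ▸ h2))]
  have t0 : (2 : F) = 0 := CharTwo.two_eq_zero
  have sq : ∀ a : F, ∃ b, a = b * b := FiniteField.isSquare_of_char_two (ringChar.eq F 2)
  let π := QuotientGroup.mk' (Subgroup.center (Matrix.SpecialLinearGroup (Fin 2) F))
  have hπ : Function.Injective π := (injective_iff_map_eq_one _).2 fun g hg =>
    (H12.psl2_mk_eq_one_iff.1 hg).elim id fun h => h.trans (Subtype.ext (by ext i j; simp [CharTwo.neg_eq]))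
  obtain ⟨s, h1, h3⟩ := H12.exists_orderOf_eq (F := F) (k := Fintype.card F + 1) (Or.inr dvd_rfl) (by omega)
  obtain ⟨P, hP⟩ := H12.exists_conj_comp h3
  generalize s.1.trace = τ at hP h3
  have a1 : orderOf (H12.comp τ) = Fintype.card F + 1 := by
    rw [← h1, hP]; exact (MulAut.conj P).orderOf_eq _ |>.symm
  have a2 : (H12.comp τ).1.trace = τ := by simp [H12.comp, H12.mkSL2, Matrix.trace_fin_two]
  obtain ⟨t, b1, -, b2⟩ := H12.exists_torus (g := H12.comp τ) (Or.inr rfl) (by rwa [a2]) (a1 ▸ pow_orderOf_eq_one _)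
  have an : ∀ x y : F, x ^ 2 + τ * x * y + y ^ 2 = 0 → x = 0 ∧ y = 0 := fun x y h => by
    have y0 : y = 0 := by
      by_contra y0
      have x0 : x ≠ 0 := fun x0 => y0 (by simpa [x0] using h)
      have e : H12.Eig (RingHom.id F) (H12.comp τ) (x / y) := ⟨div_ne_zero x0 y0, by
        rw [a2, RingHom.id_apply]; field_simp; linear_combination h - (x ^ 2 + y ^ 2) * t0⟩
      have := Nat.le_of_dvd (by omega) ((a1.symm.trans (e.orderOf_eq (by rwa [a2]))).dvd.trans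
        (orderOf_dvd_of_pow_eq_one (FiniteField.pow_card_sub_one_eq_one _ e.1)))
      omega
    simpa [y0] using h
  have ha : ∀ x y : F, x ^ 2 + τ * x * y + y ^ 2 = 1 → ∃ a ∈ Subgroup.zpowers t, a 0 0 = x ∧ a 1 0 = y := fun x y h => by
    refine ⟨H12.mkSL2 x (-y) y (x + τ * y) (by linear_combination h), b2 ▸ Subgroup.mem_centralizer_singleton_iff.2 ?_, rfl, rfl⟩
    ext i j
    fin_cases i <;> fin_cases j <;> simp [H12.comp, Matrix.mul_apply] <;> ring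
  refine ⟨(Subgroup.zpowers t).map π, (H12.rootSL (H12.inf F)).map π, ?_, ?_, ?_, ?_, ?_, fun g => ?_⟩
  · rw [MonoidHom.map_zpowers]; infer_instance
  · rw [Subgroup.card_map_of_injective hπ, Nat.card_zpowers, b1]
  · rw [H12.rootSL_inf_eq_range, MonoidHom.map_range]; infer_instance
  · rintro _ ⟨b, hb, rfl⟩
    rw [← map_mul, ← pow_two, H12.pow_char_of_mem_rootSL 2 hb, map_one]
  · rw [Subgroup.card_map_of_injective hπ, H12.card_rootSL, Nat.card_eq_fintype_card]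
  obtain ⟨g, rfl⟩ := QuotientGroup.mk'_surjective _ g
  have hd := H12.sl2_det g
  obtain ⟨x, y, c1, c2⟩ : ∃ x y : F, x ^ 2 + τ * x * y + y ^ 2 = 1 ∧ (g 0 0 * x + g 0 1 * y) ^ 2 +
      τ * (g 0 0 * x + g 0 1 * y) * (g 1 0 * x + g 1 1 * y) + (g 1 0 * x + g 1 1 * y) ^ 2 = 1 := by
    obtain ⟨α, hα⟩ := sq (g 0 0 ^ 2 + τ * g 0 0 * g 1 0 + g 1 0 ^ 2 - 1)
    obtain ⟨γ, hγ⟩ := sq (g 0 1 ^ 2 + τ * g 0 1 * g 1 1 + g 1 1 ^ 2 - 1)
    obtain ⟨x, y, e1, e2⟩ : ∃ x y : F, ¬ (x = 0 ∧ y = 0) ∧ α * x = γ * y := by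
      by_cases h : α = 0
      exacts [⟨1, 0, by simp, by simp [h]⟩, ⟨γ, α, by simp [h], mul_comm _ _⟩]
    obtain ⟨n, hn⟩ := sq (x ^ 2 + τ * x * y + y ^ 2)
    have n0 : n ≠ 0 := fun h => e1 (an x y (by simp [hn, h]))
    refine ⟨x / n, y / n, by field_simp; linear_combination hn, ?_⟩
    field_simp
    linear_combination hn + x ^ 2 * hα + y ^ 2 * hγ + (α * x + γ * y) * e2 + τ * x * y * hd +
      (γ ^ 2 * y ^ 2 + (g 0 0 * g 0 1 + g 1 0 * g 1 1 + τ * g 0 1 * g 1 0) * x * y) * t0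
  obtain ⟨a, a3, a4, a5⟩ := ha _ _ c1
  obtain ⟨c, a6, a7, a8⟩ := ha _ _ c2
  have e1 : (g * a) 0 0 = c 0 0 := by simp [Matrix.mul_apply, a4, a5, a7]
  have e2 : (g * a) 1 0 = c 1 0 := by simp [Matrix.mul_apply, a4, a5, a8]
  refine ⟨_, ⟨c, a6, rfl⟩, _, ⟨c⁻¹ * (g * a), H12.mem_rootSL_inf.2 ⟨(c⁻¹ * (g * a)) 0 1, ?_⟩, rfl⟩, _, ⟨a⁻¹, inv_mem a3, rfl⟩,
    by rw [← map_mul, ← map_mul, mul_inv_cancel_left, mul_inv_cancel_right]⟩
  have d1 := H12.sl2_det c
  have d2 := H12.sl2_det (c⁻¹ * (g * a))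
  generalize g * a = h at *
  have e3 : (c⁻¹ * h) 0 0 = 1 := by simp [Matrix.mul_apply, Matrix.adjugate_fin_two, e1, e2]; linear_combination d1
  have e4 : (c⁻¹ * h) 1 0 = 0 := by simp [Matrix.mul_apply, Matrix.adjugate_fin_two, e1, e2]; ring
  rw [e3, e4] at d2
  generalize c⁻¹ * h = k at *
  ext i j
  fin_cases i <;> fin_cases j <;> simp [H12.upper, e3, e4]
  simpa using d2

end Cfsg.Agent.S2503
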