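import Cfsg.Statements.S2504
import Mathlib
import Cfsg.Agent.H2.AbSym

set_option autoImplicit false
open Cfsg

namespace Cfsg.Agent.S2504

open H2.Ab

/-- The largest order of an abelian subgroup of the alternating group of degree n is 3^k when n = 3k, 4·3^(k−1) when n = 3k + 1, and 16·3^(k−2) when n = 3k + 2, for every k ≥ 2 (so for all degrees n ≥ 6). -/
theorem result (k : ℕ) (hk : 2 ≤ k) :
    IsGreatest {c : ℕ | ∃ A : Subgroup (alternatingGroup (Fin (3 * k))), IsMulCommutative A ∧ Nat.card A = c} (3 ^ k) ∧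
    IsGreatest {c : ℕ | ∃ A : Subgroup (alternatingGroup (Fin (3 * k + 1))), IsMulCommutative A ∧ Nat.card A = c}
      (4 * 3 ^ (k - 1)) ∧
    IsGreatest {c : ℕ | ∃ A : Subgroup (alternatingGroup (Fin (3 * k + 2))), IsMulCommutative A ∧ Nat.card A = c}
      (16 * 3 ^ (k - 2)) := by
  obtain ⟨k, rfl⟩ := Nat.exists_eq_add_of_le' hk
  have : h (3 * (k + 2)) = 3 ^ (k + 2) ∧ h (3 * (k + 2) + 1) = 4 * 3 ^ (k + 2 - 1) ∧
      h (3 * (k + 2) + 2) = 16 * 3 ^ (k + 2 - 2) := by
    induction k with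
    | zero => decide
    | succ k ih =>
      have := ih (by omega)
      rw [show 3 * (k + 1 + 2) = 3 * (k + 2) + 3 by ring, add_right_comm _ 3 1, add_right_comm _ 3 2,
        h_add (by omega), h_add (by omega), h_add (by omega)]
      simp only [this, Nat.add_succ_sub_one, Nat.add_sub_cancel, pow_succ]; omega
  exact ⟨this.1 ▸ greatest_h _, this.2.1 ▸ greatest_h _, this.2.2 ▸ greatest_h _⟩

end Cfsg.Agent.S2504
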