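import Cfsg.Statements.S2505
import Mathlib
import Cfsg.Agent.H2.AbSym

set_option autoImplicit false
open Cfsg

namespace Cfsg.Agent.S2505

open H2.Ab

/-- The largest order of an abelian subgroup of the symmetric group of degree n is 3^k when n = 3k, 4·3^(k−1) when n = 3k + 1, and 2·3^k when n = 3k + 2, for every k ≥ 1. -/
theorem result (k : ℕ) (hk : 1 ≤ k) :
    IsGreatest {c : ℕ | ∃ A : Subgroup (Equiv.Perm (Fin (3 * k))), IsMulCommutative A ∧ Nat.card A = c} (3 ^ k) ∧
    IsGreatest {c : ℕ | ∃ A : Subgroup (Equiv.Perm (Fin (3 * k + 1))), IsMulCommutative A ∧ Nat.card A = c}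
      (4 * 3 ^ (k - 1)) ∧
    IsGreatest {c : ℕ | ∃ A : Subgroup (Equiv.Perm (Fin (3 * k + 2))), IsMulCommutative A ∧ Nat.card A = c}
      (2 * 3 ^ k) := by
  obtain ⟨k, rfl⟩ := Nat.exists_eq_add_of_le' hk
  have : g (3 * (k + 1)) = 3 ^ (k + 1) ∧ g (3 * (k + 1) + 1) = 4 * 3 ^ (k + 1 - 1) ∧
      g (3 * (k + 1) + 2) = 2 * 3 ^ (k + 1) := by
    induction k with
    | zero => decide
    | succ k ih =>
      have := ih (by omega)
      rw [show 3 * (k + 1 + 1) = 3 * (k + 1) + 3 by ring, add_right_comm _ 3 1, add_right_comm _ 3 2,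
        g_add (by omega), g_add (by omega), g_add (by omega)]
      simp only [this, Nat.add_sub_cancel, pow_succ]; omega
  exact ⟨this.1 ▸ greatest_g _, this.2.1 ▸ greatest_g _, this.2.2 ▸ greatest_g _⟩

end Cfsg.Agent.S2505
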