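import Cfsg.Statements.S2506
import Mathlib
import Cfsg.Agent.H2.AbSym

set_option autoImplicit false
open scoped Pointwise
open Cfsg

namespace Cfsg.Agent.S2506

open H2.Ab Subgroup Equiv.Perm

/-- In the alternating group of any degree, any two abelian subgroups of the largest possible order (among abelian subgroups) are conjugate. -/
theorem result (n : ℕ)
    (A B : Subgroup (alternatingGroup (Fin n))) (hA : IsMulCommutative A) (hB : IsMulCommutative B)
    (hAmax : ∀ C : Subgroup (alternatingGroup (Fin n)), IsMulCommutative C → Nat.card C ≤ Nat.card A)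
    (hBmax : ∀ C : Subgroup (alternatingGroup (Fin n)), IsMulCommutative C → Nat.card C ≤ Nat.card B) :
    ∃ g : alternatingGroup (Fin n), B = MulAut.conj g • A := by
  obtain ⟨⟨C, hC, e⟩, h1⟩ := greatest_h n
  have a : Nat.card A = h n := (h1 ⟨A, hA, rfl⟩).antisymm (e ▸ hAmax C hC)
  have b : Nat.card B = h n := (h1 ⟨B, hB, rfl⟩).antisymm (e ▸ hBmax C hC)
  rcases eq_or_ne n 5 with rfl | h5
  · have := Fact.mk Nat.prime_five
    have c : ∀ A : Subgroup (alternatingGroup (Fin 5)), Nat.card A = h 5 → Nat.card A = 5 ^ (Nat.card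
      (alternatingGroup (Fin 5))).factorization 5 := fun A e => by
        rw [e, nat_card_alternatingGroup, Nat.card_fin]; decide +kernel
    obtain ⟨g, hg⟩ := MulAction.exists_smul_eq (alternatingGroup (Fin 5)) (Sylow.ofCard A (c A a)) (Sylow.ofCard B (c B b))
    exact ⟨g, (congrArg Sylow.toSubgroup hg).symm⟩
  by_cases h3 : n < 3
  · have : h n = 1 := by interval_cases n <;> rfl
    exact ⟨1, by simp [card_eq_one.1 (a.trans this), card_eq_one.1 (b.trans this)]⟩
  rw [← card_subtype] at a b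
  suffices ∃ e : Equiv.Perm (Fin n), sign e = 1 ∧ ∀ g ∈ A.map (Subgroup.subtype _), e * g * e⁻¹ ∈ B.map (Subgroup.subtype _) by
    obtain ⟨e, h1, h2⟩ := this
    refine ⟨⟨e, h1⟩, (eq_of_le_of_card_ge ?_ ?_).symm⟩
    · rintro _ ⟨g, hg, rfl⟩
      obtain ⟨k, hk, e'⟩ := h2 g ⟨g, hg, rfl⟩
      rwa [show k = ⟨e, h1⟩ * g * (⟨e, h1⟩ : alternatingGroup _)⁻¹ from Subtype.ext e'] at hk
    · rw [card_subtype] at a b
      exact (b.trans (a.symm.trans (Nat.card_congr (equivSMul _ A).toEquiv))).le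
  obtain ⟨e, he⟩ := iso _ _ (map_subtype_le A) (map_subtype_le B) (Fintype.card_fin n) (Fintype.card_fin n) a b h5
  obtain ⟨s, h6, h7⟩ := odd_norm _ (map_subtype_le A) (Fintype.card_fin n) a (by omega) h5
  rcases Int.units_eq_one_or (sign e) with h8 | h8
  · exact ⟨e, h8, he⟩
  · exact ⟨e * s, by simp [h6, h8], fun g hg => by
      rw [show e * s * g * (e * s)⁻¹ = e * (s * g * s⁻¹) * e⁻¹ by group]; exact he _ (h7 g hg)⟩

end Cfsg.Agent.S2506
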