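import Cfsg.Statements.S2507
import Cfsg.Agent.H27.PSL2a

set_option autoImplicit false
open Cfsg

namespace Cfsg.Agent.S2507

open Cfsg.Agent.H27 Cfsg.Agent.H12
open scoped MatrixGroups


/-- Let F be a finite field with q = 2^f ≥ 4 elements. The conjugacy class sizes of PSL(2,F) are exactly 1, q(q − 1), q² − 1 and q(q + 1). -/
theorem result {F : Type*} [Field F] [Fintype F]
    (h2 : 2 ∣ Fintype.card F) (h4 : 4 ≤ Fintype.card F) :
    Set.range (fun g : (Matrix.ProjectiveSpecialLinearGroup (Fin 2) F) => (Subgroup.centralizer ({g} : Set (Matrix.ProjectiveSpecialLinearGroup (Fin 2) F))).index) =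
      {1, Fintype.card F * (Fintype.card F - 1), Fintype.card F ^ 2 - 1, Fintype.card F * (Fintype.card F + 1)} := by
  have h0 : (2 : F) = 0 := by
    by_contra h
    exact (Nat.not_even_iff_odd.2 (two_ne_zero_iff_odd.1 h)) (even_iff_two_dvd.2 h2)
  obtain ⟨s, hs, hs'⟩ := exists_orderOf_eq (F := F) (k := Fintype.card F - 1) (Or.inl dvd_rfl) (by omega)
  obtain ⟨t, ht, -⟩ := exists_orderOf_eq (F := F) (k := Fintype.card F + 1) (Or.inr dvd_rfl) (by omega)
  rw [← Nat.card_eq_fintype_card] at h4 hs ht ⊢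
  ext m
  simp only [Set.mem_range, Set.mem_insert_iff, Set.mem_singleton_iff]
  constructor
  · rintro ⟨g, rfl⟩
    obtain ⟨g, rfl⟩ := QuotientGroup.mk_surjective g
    rw [index_cent_psl_of_ne (Or.inl h0)]
    rcases type_cases (g : M2 F) with h | h | h | h
    · simp [torS_scal h]
    · simp [index_torS_uni_even h0 h]
    · simp [index_torS_spl h]
    · simp [index_torS_ell h]
  · rintro (rfl | rfl | rfl | rfl)
    · exact ⟨1, by simp⟩
    · exact ⟨t, by rw [index_cent_psl_of_ne (Or.inl h0), index_torS_ell (ell_of_orderOf ht)]⟩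
    · exact ⟨triS (1 : Fˣ) 1, by rw [index_cent_psl_of_ne (Or.inl h0),
        index_torS_uni_even h0 (uni_triS (one_pow 2) one_ne_zero)]⟩
    · exact ⟨s, by rw [index_cent_psl_of_ne (Or.inl h0), index_torS_spl (spl_of_orderOf h4 hs' hs)]⟩

end Cfsg.Agent.S2507
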