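import Cfsg.Statements.S2508
import Cfsg.Agent.H27.PSL2a

set_option autoImplicit false
open Cfsg

namespace Cfsg.Agent.S2508

open Cfsg.Agent.H27 Cfsg.Agent.H12
open scoped MatrixGroups


/-- Let F be a finite field with q elements, q odd and q ≥ 7. If q ≡ 1 (mod 4) the conjugacy class sizes of PSL(2,F) are exactly 1, (q² − 1)/2, q(q + 1)/2, q(q − 1) and q(q + 1); if q ≡ 3 (mod 4) they are exactly 1, (q² − 1)/2, q(q − 1)/2, q(q + 1) and q(q − 1). -/
theorem result {F : Type*} [Field F] [Fintype F]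
    (hodd : ¬ 2 ∣ Fintype.card F) (h7 : 7 ≤ Fintype.card F) :
    (Fintype.card F % 4 = 1 →
      Set.range (fun g : (Matrix.ProjectiveSpecialLinearGroup (Fin 2) F) => (Subgroup.centralizer ({g} : Set (Matrix.ProjectiveSpecialLinearGroup (Fin 2) F))).index) =
        {1, (Fintype.card F ^ 2 - 1) / 2, Fintype.card F * (Fintype.card F + 1) / 2,
          Fintype.card F * (Fintype.card F - 1), Fintype.card F * (Fintype.card F + 1)}) ∧
    (Fintype.card F % 4 = 3 →
      Set.range (fun g : (Matrix.ProjectiveSpecialLinearGroup (Fin 2) F) => (Subgroup.centralizer ({g} : Set (Matrix.ProjectiveSpecialLinearGroup (Fin 2) F))).index) =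
        {1, (Fintype.card F ^ 2 - 1) / 2, Fintype.card F * (Fintype.card F - 1) / 2,
          Fintype.card F * (Fintype.card F + 1), Fintype.card F * (Fintype.card F - 1)}) := by
  have h2 : (2 : F) ≠ 0 := two_ne_zero_iff_odd.2 (Nat.odd_iff.2 (by omega))
  obtain ⟨s, hs, hs'⟩ := exists_orderOf_eq (F := F) (k := Fintype.card F - 1) (Or.inl dvd_rfl) (by omega)
  obtain ⟨t, ht, -⟩ := exists_orderOf_eq (F := F) (k := Fintype.card F + 1) (Or.inr dvd_rfl) (by omega)
  rw [← Nat.card_eq_fintype_card] at h7 hs ht hodd ⊢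
  have k4 : ∀ g : SL(2, F), g.1.trace = 0 → orderOf g = 4 := fun g h => by
    have h1 := sl2_mul_self_of_trace h
    exact orderOf_eq_prime_pow (p := 2) (n := 1) (by rw [pow_one, sq, h1]; exact sl_neg_one_ne h2)
      (by rw [pow_succ, pow_mul, pow_one, sq g, h1]; simp)
  have k0 : ∀ g : SL(2, F), 5 ≤ orderOf g → 2 * g.1.trace ≠ 0 := fun g h e => by
    have := k4 g ((mul_eq_zero.1 e).resolve_left h2); omega
  have kz : ∀ g : SL(2, F), g.1.trace = 0 → (Nat.card F % 4 = 1 → Spl (g : M2 F)) ∧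
      (Nat.card F % 4 = 3 → Ell (g : M2 F)) := fun g h => by
    have hr : Reg g := trace_sq_ne_four_of_mul_self h2 (sl2_mul_self_of_trace h)
    rcases type_cases (g : M2 F) with h1 | h1 | h1 | h1
    · exact (hr.not_scal h1).elim
    · exact (hr.not_uni h1).elim
    · have := k4 g h ▸ orderOf_dvd_of_pow_eq_one (sl_pow_eq_one_of_spl h1)
      exact ⟨fun _ => h1, fun _ => by omega⟩
    · have := k4 g h ▸ orderOf_dvd_of_pow_eq_one (sl_pow_eq_one_of_ell h1)
      exact ⟨fun _ => by omega, fun _ => h1⟩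
  let f := fun g : PSL(2, F) => (Subgroup.centralizer ({g} : Set PSL(2, F))).index
  have z1 : ∀ g : SL(2, F), g.1.trace = 0 → Nat.card F % 4 = 1 →
      f g = Nat.card F * (Nat.card F + 1) / 2 := fun g h h1 => by
    have := index_cent_psl_of_zero h2 h
    rw [index_torS_spl ((kz g h).1 h1)] at this
    simp only [f]; omega
  have z3 : ∀ g : SL(2, F), g.1.trace = 0 → Nat.card F % 4 = 3 →
      f g = Nat.card F * (Nat.card F - 1) / 2 := fun g h h1 => by
    have := index_cent_psl_of_zero h2 h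
    rw [index_torS_ell ((kz g h).2 h1)] at this
    simp only [f]; omega
  have a0 : ∀ g : SL(2, F), g.1.trace ≠ 0 → f g = 1 ∨ f g = (Nat.card F ^ 2 - 1) / 2 ∨
      f g = Nat.card F * (Nat.card F + 1) ∨ f g = Nat.card F * (Nat.card F - 1) := fun g h => by
    simp only [f]
    rw [index_cent_psl_of_ne (Or.inr (mul_ne_zero h2 h))]
    rcases type_cases (g : M2 F) with h | h | h | h
    · simp [torS_scal h]
    · simp [index_torS_uni_odd h2 h]
    · simp [index_torS_spl h]
    · simp [index_torS_ell h]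
  have b1 : f 1 = 1 := by simp [f]
  have b2 : f (triS (1 : Fˣ) 1) = (Nat.card F ^ 2 - 1) / 2 := by
    simp only [f]
    rw [index_cent_psl_of_ne (Or.inr (mul_ne_zero h2 (by
      simpa [Matrix.trace_fin_two, one_add_one_eq_two] using h2))),
      index_torS_uni_odd h2 (uni_triS (one_pow 2) one_ne_zero)]
  have b3 : f s = Nat.card F * (Nat.card F + 1) := by
    simp only [f]
    rw [index_cent_psl_of_ne (Or.inr (k0 s (by omega))),
      index_torS_spl (spl_of_orderOf (by omega) hs' hs)]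
  have b4 : f t = Nat.card F * (Nat.card F - 1) := by
    simp only [f]
    rw [index_cent_psl_of_ne (Or.inr (k0 t (by omega))), index_torS_ell (ell_of_orderOf ht)]
  refine ⟨fun h => ?_, fun h => ?_⟩ <;> ext m <;>
    simp only [Set.mem_range, Set.mem_insert_iff, Set.mem_singleton_iff] <;> constructor
  · rintro ⟨g, rfl⟩
    obtain ⟨g, rfl⟩ := QuotientGroup.mk_surjective g
    by_cases h0 : g.1.trace = 0
    · exact Or.inr (Or.inr (Or.inl (z1 g h0 h)))
    · have := a0 g h0; tauto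
  · rintro (rfl | rfl | rfl | rfl | rfl)
    exacts [⟨_, b1⟩, ⟨_, b2⟩, ⟨_, z1 _ (trace_cpS 0) h⟩, ⟨_, b4⟩, ⟨_, b3⟩]
  · rintro ⟨g, rfl⟩
    obtain ⟨g, rfl⟩ := QuotientGroup.mk_surjective g
    by_cases h0 : g.1.trace = 0
    · exact Or.inr (Or.inr (Or.inl (z3 g h0 h)))
    · have := a0 g h0; tauto
  · rintro (rfl | rfl | rfl | rfl | rfl)
    exacts [⟨_, b1⟩, ⟨_, b2⟩, ⟨_, z3 _ (trace_cpS 0) h⟩, ⟨_, b3⟩, ⟨_, b4⟩]

end Cfsg.Agent.S2508
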