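import Cfsg.Statements.S2510
import Cfsg.Agent.H28.Spec3

set_option autoImplicit false
open Cfsg

namespace Cfsg.Agent.S2510

open H28 H12 Module

/-- Let F be a finite field with q = p^a elements, n ≥ 2 (with q ≥ 4 when n = 2), L = PSL(n, F), and let r be a prime dividing q − 1 and not dividing n. Then for every m the direct product L × L × L × (ℤ/r)^m has the same set of element orders as L × L × L; and if n − 1 ≠ p^j for every j ≥ 0 (so never when n = 2, since 1 = p^0), then already L × L × (ℤ/r)^m has the same set of element orders as L × L. -/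
theorem result {F : Type*} [Field F] [Fintype F] (p a n r m : ℕ) (hp : p.Prime) (ha : 1 ≤ a) (hF : Fintype.card F = p ^ a)
    (hn : 2 ≤ n) (hn2 : n = 2 → 4 ≤ Fintype.card F) (hr : r.Prime) (hrq : r ∣ Fintype.card F - 1) (hrn : ¬ r ∣ n) :
    Set.range (orderOf : Matrix.ProjectiveSpecialLinearGroup (Fin n) F × Matrix.ProjectiveSpecialLinearGroup (Fin n) F × Matrix.ProjectiveSpecialLinearGroup (Fin n) F × Multiplicative (Fin m → ZMod r) → ℕ) =
      Set.range (orderOf : Matrix.ProjectiveSpecialLinearGroup (Fin n) F × Matrix.ProjectiveSpecialLinearGroup (Fin n) F × Matrix.ProjectiveSpecialLinearGroup (Fin n) F → ℕ) ∧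
    ((¬ ∃ j : ℕ, n - 1 = p ^ j) →
      Set.range (orderOf : Matrix.ProjectiveSpecialLinearGroup (Fin n) F × Matrix.ProjectiveSpecialLinearGroup (Fin n) F × Multiplicative (Fin m → ZMod r) → ℕ) =
        Set.range (orderOf : Matrix.ProjectiveSpecialLinearGroup (Fin n) F × Matrix.ProjectiveSpecialLinearGroup (Fin n) F → ℕ)) := by
  have := Fact.mk hp
  have : CharP F p := charP_of_card_eq_prime_pow hF
  have hq := Fintype.one_lt_card (α := F)
  obtain ⟨ζ, -, hζ⟩ := exists_orderOf_field (E := F) (m := r) (by simpa using hrq)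
  set z : ℤ := (Fintype.card F : ℤ) with hzz
  set μ : ℕ → ℕ := fun D => (∑ j ∈ Finset.range D, z ^ j).natAbs
  have hz : (z - 1).natAbs = Fintype.card F - 1 := by omega
  have hμ : ∀ D, μ D * (Fintype.card F - 1) = Fintype.card F ^ D - 1 := fun D => by
    rw [← hz, natAbs_geom]
    have := Nat.one_le_pow D _ (by omega : 0 < Fintype.card F)
    zify [this]
    rw [abs_of_nonneg (by simpa using (Int.ofNat_le.2 this))]
  have tor : ∀ D [NeZero D], ∃ t : End F (FiniteField.Extension F p D), LinearMap.det t = 1 ∧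
      ∀ K, t ^ K = 1 → μ D ∣ K := fun D _ => by
    obtain ⟨t, -, ht⟩ := exists_orderOf_field (E := FiniteField.Extension F p D) (m := μ D)
      (by rw [FiniteField.natCard_extension, Nat.card_eq_fintype_card, ← hμ]; simp)
    refine ⟨Algebra.lmul F _ t, norm_eq_one_of ?_, fun K hK => ?_⟩
    · rw [FiniteField.natCard_extension, Nat.card_eq_fintype_card, ← hμ,
        Nat.mul_div_cancel _ (by omega), ← ht, pow_orderOf_eq_one]
    · rw [← ht, orderOf_dvd_iff_pow_eq_one, ← map_one (algebraMap F _), ← lmul_pow_eq_smul, hK, one_smul]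
  refine absorb_lin (A := μ n / (μ n).gcd (Fintype.card F - 1)) hr hp hn pow_eq_one_of_exp μ
    (by simp [μ]) (fun D h0 hD => ?_) ?_ fun x => ?_
  · have := NeZero.of_pos h0
    obtain ⟨t, h1, h2⟩ := tor D
    have h3 : finrank F (FiniteField.Extension F p D × Tr F (n - D)) = n := by
      rw [finrank_prod, FiniteField.finrank_extension, finrank_Tr]; omega
    obtain ⟨Ψ, hΨ, -⟩ := exists_PR_SL (σ := RingHom.id F) (B := sumB 0 0) (by simp [sumB_apply]) h3
    obtain ⟨g, h4, h5⟩ := exists_real hΨ (fun _ _ => rfl) (fun _ _ => rfl) h1 (det_cyc_unip _)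
      (coprime_of_dvd_pow_sub ha h0 hp.pos (hF ▸ hμ D ▸ dvd_mul_right _ _) _) h2
      (cyc_unip_pow (p := p) (by omega))
    have : Nontrivial (Tr F (n - D)) := nontrivial_of_finrank_pos (R := F) (by rw [finrank_Tr]; omega)
    obtain ⟨y, h6, h7⟩ := (h4 ▸ idem_prod t _).exists_z' hΨ hr hζ (by simp [sumB_apply]) (by rwa [h3])
    exact ⟨_, y, h6, h7, h5⟩
  · have : NeZero n := ⟨by omega⟩
    obtain ⟨t, h1, h2⟩ := tor n
    obtain ⟨Ψ, hΨ, -⟩ := exists_PR_SL (σ := RingHom.id F) (B := 0) (by simp)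
      (FiniteField.finrank_extension F p n)
    obtain ⟨g, rfl⟩ := exists_en (σ := RingHom.id F) (B := 0) (fun _ _ => rfl) h1
    obtain ⟨c, hc⟩ := (hΨ.orderOf_dvd_iff g _).1 dvd_rfl
    have h3 : c ≠ 0 := fun h => by
      have := congrArg LinearMap.det hc
      simp [h, det_en] at this
    refine ⟨Ψ g, div_gcd_dvd_of (Nat.pos_of_mul_pos_right (by
      rw [hμ]; have := Nat.one_lt_pow (NeZero.ne n) hq; omega)) (h2 _ ?_)⟩
    rw [pow_mul, hc, smul_pow, FiniteField.pow_card_sub_one_eq_one c h3]; simp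
  obtain ⟨Ψ, hΨ, hs⟩ := exists_PR_SL (σ := RingHom.id F) (B := 0) (by simp) (finrank_fin_fun F (n := n))
  obtain ⟨g, rfl⟩ := hs x
  have : Nontrivial (Fin n → F) := nontrivial_of_finrank_pos (R := F) (by simp; omega)
  let ρ := (FiniteField.frobeniusAlgHom F (AlgebraicClosure F))
  have hρ : (fun x => x ^ z) = ρ := funext fun x => zpow_natCast _ _
  rcases struct_lin (p := p) hΨ (z := z) (hρ ▸ ρ.injective) (fun c hc => by
      have h0 : c ≠ 0 := fun h => by simp [h, zero_zpow (z - 1) (by omega)] at hc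
      obtain ⟨c', h⟩ := exists_of_pow_card (c := c) (by
        rw [zpow_sub₀ h0, zpow_one, div_eq_one_iff_eq h0] at hc
        exact (zpow_natCast _ _).symm.trans hc)
      exact ⟨c', h, by simp⟩) g
    (hρ ▸ map_rts _ ρ.toRingHom ρ.commutes) with ⟨π, h⟩ | ⟨D, e, h1, h2, h3, h4, h5⟩
  · obtain ⟨y, h1, h2⟩ := h.exists_z' hΨ hr hζ (by simp) (by simpa)
    exact Or.inl (T0_of_commute hr h1 h2 dvd_rfl)
  · rw [finrank_fin_fun] at h3 h5
    exact Or.inr ⟨D, e, h1, h2, h3, h4, fun h => h5 h _ (by subst h; rw [hz]; exact dvd_div_gcd_mul _ _)⟩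

end Cfsg.Agent.S2510
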