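import Cfsg.Statements.S2513
import Cfsg.Agent.H28.Spec3

set_option autoImplicit false
open Cfsg

namespace Cfsg.Agent.S2513

open H28 H12 Module Polynomial

/-- Let F be the field with two elements, n ≥ 2, L = PSL(n, F) and k₀ = ⌊(n + 3)/2⌋. Then for every k ≥ k₀ the direct product of k copies of L has the same set of element orders as the direct product of k₀ copies of L. -/
theorem result {F : Type*} [Field F] [Fintype F] (hF : Fintype.card F = 2) (n k : ℕ) (hn : 2 ≤ n) (hk : (n + 3) / 2 ≤ k) :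
    Set.range (orderOf : (Fin k → Matrix.ProjectiveSpecialLinearGroup (Fin n) F) → ℕ) = Set.range (orderOf : (Fin ((n + 3) / 2) → Matrix.ProjectiveSpecialLinearGroup (Fin n) F) → ℕ) := by
  classical
  have : CharP F 2 := charP_of_card_eq_prime_pow (f := 1) hF
  have h1 : ∀ c : F, c ≠ 0 → c = 1 := fun c hc => by
    simpa [hF] using FiniteField.pow_card_sub_one_eq_one c hc
  have tor : ∀ D, 0 < D → D ≤ n → ∃ y : Matrix.ProjectiveSpecialLinearGroup (Fin n) F,
      2 ^ D - 1 ∣ orderOf y := fun D h0 hD => by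
    have := NeZero.of_pos h0
    obtain ⟨t, ht0, ht⟩ := exists_orderOf_field (E := FiniteField.Extension F 2 D) (m := 2 ^ D - 1)
      (by rw [FiniteField.natCard_extension, Nat.card_eq_fintype_card, hF])
    have h3 : finrank F (FiniteField.Extension F 2 D × (Fin (n - D) → F)) = n := by
      rw [finrank_prod, FiniteField.finrank_extension, finrank_fin_fun]; omega
    obtain ⟨Ψ, hΨ, -⟩ := exists_PR_SL (σ := RingHom.id F) (B := 0) (by simp) h3
    obtain ⟨g, hg⟩ := exists_en (σ := RingHom.id F) (B := 0) (a := ((Algebra.lmul F _ t : End F _).prodMap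
      (1 : End F (Fin (n - D) → F)) : End F _)) (fun _ _ => rfl) (by
        rw [LinearMap.det_prodMap, det_lmul, h1 _ (Algebra.norm_ne_zero_iff.2 ht0)]; simp)
    obtain ⟨c, hc⟩ := (hΨ.orderOf_dvd_iff g _).1 dvd_rfl
    rw [hg, prodMap_pow] at hc
    have h4 := lmul_pow_eq_smul.1 (prodMap_eq_smul hc).1
    refine ⟨Ψ g, ?_⟩
    rw [← ht, orderOf_dvd_iff_pow_eq_one, h4, h1 c, map_one]
    rintro rfl
    exact pow_ne_zero _ ht0 (h4.trans (map_zero _))
  choose! t ht using tor
  obtain ⟨u, hu⟩ := Nat.prime_two.exists_orderOf_eq_pow_factorization_exponent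
    (Matrix.ProjectiveSpecialLinearGroup (Fin n) F)
  let y : Fin ((n + 3) / 2) → Matrix.ProjectiveSpecialLinearGroup (Fin n) F := fun i =>
    if i.val = 0 then u else t (n + 1 - i)
  have h2 : ∀ i, orderOf (y i) ∣ orderOf y := fun i => orderOf_map_dvd (Pi.evalMonoidHom _ i) y
  have h3 : Monoid.exponent (Matrix.ProjectiveSpecialLinearGroup (Fin n) F) ∣ orderOf y * 2 ^ n := by
    refine Monoid.exponent_dvd_of_forall_pow_eq_one fun x => ?_
    obtain ⟨Ψ, hΨ, hs⟩ := exists_PR_SL (σ := RingHom.id F) (B := 0) (by simp) (finrank_fin_fun F (n := n))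
    obtain ⟨g, rfl⟩ := hs x
    rw [← orderOf_dvd_iff_pow_eq_one, hΨ.orderOf_dvd_iff]
    refine ⟨1, ((pow_eq_one_iff_ed _ _).2 fun z hz => ?_).trans (one_smul F _).symm⟩
    have h4 := mul_le_finrank_of_mem_ed hz
    rw [finrank_fin_fun] at h4
    have h5 := z.natDegree_f_pos
    have h6 : z.f.natDegree ≤ n := (Nat.le_mul_of_pos_left _ z.pos).trans h4
    have h7 := Nat.div_add_mod n z.f.natDegree
    have h8 := Nat.mod_lt n h5
    have h9 : z.f.natDegree ≤ z.f.natDegree * (n / z.f.natDegree) :=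
      Nat.le_mul_of_pos_right _ (Nat.div_pos h6 h5)
    have h10 := irreducible_dvd_X_pow_sub_one z.monic z.irred
      ((isUnit_iff_ed _).1 ((Group.isUnit g).map _) z hz) (dvd_mul_right _ (n / z.f.natDegree))
    generalize z.f.natDegree * (n / z.f.natDegree) = D at *
    obtain ⟨s, hs⟩ := (ht D (by omega) (by omega)).trans (show orderOf (t D) ∣ orderOf y by
      have := h2 ⟨n + 1 - D, by omega⟩
      rwa [show y ⟨n + 1 - D, by omega⟩ = t D by
        simp only [y]; rw [if_neg (by omega)]; congr 1; omega] at this)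
    rw [pow_mul, ← one_pow (M := F[X]) (2 ^ n), ← sub_pow_char_pow]
    refine pow_dvd_pow_of_dvd_of_le (h10.trans ?_)
      (((Nat.le_mul_of_pos_right _ h5).trans h4).trans Nat.lt_two_pow_self.le)
    rw [Nat.card_eq_fintype_card, hF, hs, pow_mul]
    simpa using sub_dvd_pow_sub_pow (X ^ (2 ^ D - 1) : F[X]) 1 s
  have h4 : Monoid.exponent (Matrix.ProjectiveSpecialLinearGroup (Fin n) F) ∣ orderOf y := by
    rw [← Nat.ordProj_mul_ordCompl_eq_self (Monoid.exponent _) 2]
    have h5 := Nat.coprime_ordCompl Nat.prime_two (Monoid.exponent_ne_zero_of_finite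
      (G := Matrix.ProjectiveSpecialLinearGroup (Fin n) F))
    refine (h5.pow_left _).mul_dvd_of_dvd_of_dvd (hu ▸ h2 ⟨0, by omega⟩) ?_
    exact (h5.symm.pow_right n).dvd_of_dvd_mul_right ((Nat.ordCompl_dvd _ _).trans h3)
  refine Set.Subset.antisymm ?_ ?_
  · rintro _ ⟨x, rfl⟩
    exact H19.exists_orderOf_of_dvd (dvd_trans (orderOf_dvd_of_pow_eq_one
      (funext fun i => Monoid.pow_exponent_eq_one _)) h4)
  · rintro _ ⟨x, rfl⟩
    refine H19.exists_orderOf_of_dvd (g := fun i : Fin k => if h : i.val < (n + 3) / 2 then x ⟨i, h⟩ else 1)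
      (orderOf_dvd_of_pow_eq_one (funext fun i => ?_))
    simpa using congrFun (pow_orderOf_eq_one
      (fun i : Fin k => if h : i.val < (n + 3) / 2 then x ⟨i, h⟩ else 1)) (Fin.castLE hk i)

end Cfsg.Agent.S2513
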