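import Cfsg.Statements.S2514
import Cfsg.Agent.H19.Spec

set_option autoImplicit false
open Cfsg

namespace Cfsg.Agent.S2514

lemma exists_max {G : Type*} [Group G] [Finite G] (g : G) : ∃ n, (n ∈ Set.range (orderOf : G → ℕ) ∧
    ∀ m ∈ Set.range (orderOf : G → ℕ), n ∣ m → m = n) ∧ orderOf g ∣ n := by
  obtain ⟨y, h1, h2⟩ := Set.exists_max_image {y : G | orderOf g ∣ orderOf y} orderOf (Set.toFinite _)
    ⟨g, dvd_rfl⟩
  refine ⟨_, ⟨⟨y, rfl⟩, ?_⟩, h1⟩
  rintro _ ⟨z, rfl⟩ h
  exact le_antisymm (h2 z (h1.trans h)) (Nat.le_of_dvd (orderOf_pos z) h)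

/-- For a finite group X write μ(X) for the set of element orders of X that are maximal under divisibility. Let G and H be finite groups and k ≥ 1 such that μ(H) ⊆ μ(G) and μ(G) has fewer than k elements outside μ(H). Then the direct product of k copies of G has the same set of element orders as the direct product of k − 1 copies of G with H. -/
theorem result {G H : Type*} [Group G] [Finite G] [Group H] [Finite H] (k : ℕ) (hk : 1 ≤ k)
    (hsub : {n : ℕ | n ∈ Set.range (orderOf : H → ℕ) ∧ ∀ m ∈ Set.range (orderOf : H → ℕ), n ∣ m → m = n} ⊆ {n : ℕ | n ∈ Set.range (orderOf : G → ℕ) ∧ ∀ m ∈ Set.range (orderOf : G → ℕ), n ∣ m → m = n})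
    (hfew : ({n : ℕ | n ∈ Set.range (orderOf : G → ℕ) ∧ ∀ m ∈ Set.range (orderOf : G → ℕ), n ∣ m → m = n} \ {n : ℕ | n ∈ Set.range (orderOf : H → ℕ) ∧ ∀ m ∈ Set.range (orderOf : H → ℕ), n ∣ m → m = n}).ncard < k) :
    Set.range (orderOf : (Fin k → G) → ℕ) = Set.range (orderOf : (Fin (k - 1) → G) × H → ℕ) := by
  classical
  obtain ⟨k, rfl⟩ : ∃ j, k = j + 1 := ⟨k - 1, by omega⟩
  have ev : ∀ {l : ℕ} (y : Fin l → G) i, orderOf (y i) ∣ orderOf y := fun y i =>
    orderOf_map_dvd (Pi.evalMonoidHom _ i) y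
  have pi : ∀ {l : ℕ} (y : Fin l → G) N, (∀ i, orderOf (y i) ∣ N) → orderOf y ∣ N := fun y N h =>
    orderOf_dvd_of_pow_eq_one (funext fun i => orderOf_dvd_iff_pow_eq_one.1 (h i))
  refine Set.Subset.antisymm ?_ ?_
  · rintro _ ⟨x, rfl⟩
    choose m h1 h2 using fun i => exists_max (x i)
    choose y hy using fun i => (h1 i).1
    obtain ⟨i, h, hi⟩ : ∃ (i : Fin (k + 1)) (h : H), m i ∣ orderOf h ∨ ∃ j, j ≠ i ∧ m j = m i := by
      by_contra! h
      refine hfew.not_ge ?_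
      rw [← Nat.card_coe_set_eq, ← Nat.card_fin (k + 1)]
      have := (Set.finite_range (orderOf : G → ℕ)).subset
        ((Set.sdiff_subset (t := {n : ℕ | n ∈ Set.range (orderOf : H → ℕ) ∧
          ∀ m ∈ Set.range (orderOf : H → ℕ), n ∣ m → m = n})).trans
          (Set.sep_subset _ fun n => ∀ m ∈ Set.range (orderOf : G → ℕ), n ∣ m → m = n))
      refine @Nat.card_le_card_of_injective _ _ this
        (fun i => ⟨m i, h1 i, fun ⟨⟨z, hz⟩, _⟩ => (h i z).1 hz.symm.dvd⟩) fun i j hij => ?_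
      by_contra h3
      exact (h j 1).2 i h3 (congrArg Subtype.val hij)
    refine H19.exists_orderOf_of_dvd (g := (fun j => y (i.succAbove j), h)) (pi _ _ fun j => (h2 j).trans ?_)
    have key : ∀ j, j ≠ i → m j ∣ orderOf ((fun j => y (i.succAbove j), h) : (Fin k → G) × H) := fun j hj => by
      obtain ⟨l, rfl⟩ := Fin.exists_succAbove_eq hj
      rw [← hy, Prod.orderOf_mk]
      exact (ev (fun j => y (i.succAbove j)) l).trans (Nat.dvd_lcm_left _ _)
    by_cases hj : j = i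
    · subst hj
      rcases hi with hi | ⟨l, h3, h4⟩
      · rw [Prod.orderOf_mk]; exact hi.trans (Nat.dvd_lcm_right _ _)
      · exact h4 ▸ key l h3
    · exact key j hj
  · rintro _ ⟨⟨x, h⟩, rfl⟩
    obtain ⟨n, h1, h2⟩ := exists_max h
    obtain ⟨g, rfl⟩ := (hsub h1).1
    refine H19.exists_orderOf_of_dvd (g := (Fin.cons g x : Fin (k + 1) → G)) ?_
    rw [Prod.orderOf_mk]
    exact Nat.lcm_dvd (pi _ _ fun i => ev (Fin.cons g x : Fin (k + 1) → G) i.succ)
      (h2.trans (ev (Fin.cons g x : Fin (k + 1) → G) 0))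

end Cfsg.Agent.S2514
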