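import Cfsg.Statements.S2516
import Mathlib

set_option autoImplicit false
open Cfsg

namespace Cfsg.Agent.S2516

/-- Let F be a field of characteristic p > 0, V a non-zero finite-dimensional F-vector space, G a finite group and ρ a representation of G on V; form the semidirect product V ⋊ G. For g ∈ G of order k, the coset Vg contains an element of order pk if and only if the minimal polynomial of ρ(g) does not divide 1 + X + ⋯ + X^(k−1). -/
theorem result {F : Type*} [Field F] (p : ℕ) [Fact p.Prime] [CharP F p] {V : Type*} [AddCommGroup V] [Module F V] [FiniteDimensional F V] [Nontrivial V]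
    {G : Type*} [Group G] [Finite G] (ρ : Representation F G V) (g : G) :
    (∃ x : Multiplicative V ⋊[(MulAutMultiplicative V).symm.toMonoidHom.comp
        ((DistribMulAction.toAddAut ((V →ₗ[F] V)ˣ) V).comp ρ.asGroupHom)] G,
        x.right = g ∧ orderOf x = p * orderOf g) ↔
      ¬ (minpoly F (ρ g) ∣ ∑ i ∈ Finset.range (orderOf g), (Polynomial.X : Polynomial F) ^ i) := by
  have hp : p.Prime := Fact.out
  have h0 : ∀ (x : Multiplicative V ⋊[(MulAutMultiplicative V).symm.toMonoidHom.comp
        ((DistribMulAction.toAddAut ((V →ₗ[F] V)ˣ) V).comp ρ.asGroupHom)] G) (n : ℕ),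
      (x ^ n).left.toAdd = (∑ i ∈ Finset.range n, ρ x.right ^ i) x.left.toAdd := fun x n => by
    induction n with
    | zero => rfl
    | succ n ih =>
      rw [pow_succ, SemidirectProduct.mul_left, toAdd_mul, ih, Finset.sum_range_succ,
        LinearMap.add_apply, ← map_pow, ← SemidirectProduct.rightHom_eq_right, ← map_pow]
      rfl
  have h1 : ∀ x : Multiplicative V ⋊[(MulAutMultiplicative V).symm.toMonoidHom.comp
        ((DistribMulAction.toAddAut ((V →ₗ[F] V)ˣ) V).comp ρ.asGroupHom)] G, x.right = g →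
      x ^ orderOf g = .inl (.ofAdd ((∑ i ∈ Finset.range (orderOf g), ρ g ^ i) x.left.toAdd)) := by
    rintro x rfl
    ext
    · exact h0 x _
    · rw [← SemidirectProduct.rightHom_eq_right, map_pow]
      exact pow_orderOf_eq_one _
  have h2 : 0 < orderOf g := orderOf_pos g
  rw [minpoly.dvd_iff]
  simp only [map_sum, map_pow, Polynomial.aeval_X]
  constructor
  · rintro ⟨x, hx, hx'⟩ h
    have := h1 x hx
    rw [h, LinearMap.zero_apply, ofAdd_zero, map_one] at this
    have := Nat.le_of_dvd h2 (hx' ▸ orderOf_dvd_of_pow_eq_one this)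
    nlinarith [hp.two_le]
  · intro h
    obtain ⟨v, hv⟩ := DFunLike.ne_iff.1 h
    refine ⟨⟨.ofAdd v, g⟩, rfl, ?_⟩
    have h3 := h1 ⟨.ofAdd v, g⟩ rfl
    have h4 := congrArg orderOf h3
    rw [toAdd_ofAdd] at h4
    have h5 := orderOf_map_dvd SemidirectProduct.rightHom (⟨.ofAdd v, g⟩ : Multiplicative V ⋊[(MulAutMultiplicative V).symm.toMonoidHom.comp
        ((DistribMulAction.toAddAut ((V →ₗ[F] V)ˣ) V).comp ρ.asGroupHom)] G)
    rw [orderOf_pow_of_dvd h2.ne' h5, orderOf_injective _ SemidirectProduct.inl_injective,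
      orderOf_ofAdd_eq_addOrderOf, addOrderOf_eq_prime (p := p) (by
        rw [← Nat.cast_smul_eq_nsmul F, CharP.cast_eq_zero, zero_smul]) hv] at h4
    rw [← h4]
    exact (Nat.div_mul_cancel h5).symm

end Cfsg.Agent.S2516
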