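import Cfsg.Statements.S2518
import Cfsg.Agent.H14.EO5
import Cfsg.Agent.H12.DicksonPSL
import Cfsg.Agent.S1059

set_option autoImplicit false
open Cfsg

namespace Cfsg.Agent.S2518

/-- Let F₃ be the field with 3 elements and F₁₃ the field with 13 elements. The Chevalley group G₂(F₃) and PSL(2, F₁₃) have the same prime graph: the same prime divisors of their orders, and for distinct primes r, s an element of order rs in one iff in the other. -/
theorem result {F : Type*} [Field F] [Fintype F] (hF : Fintype.card F = 3) {E : Type*} [Field E] [Fintype E] (hE : Fintype.card E = 13) :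
    ((∀ r : ℕ, r.Prime → (r ∣ Nat.card ↥(Cfsg.Lie.chevG2.group F) ↔ r ∣ Nat.card (Matrix.ProjectiveSpecialLinearGroup (Fin 2) E))) ∧
      (∀ r s : ℕ, r.Prime → s.Prime → r ≠ s → ((∃ x : ↥(Cfsg.Lie.chevG2.group F), orderOf x = r * s) ↔ (∃ y : (Matrix.ProjectiveSpecialLinearGroup (Fin 2) E), orderOf y = r * s)))) := by
  have := charP_of_card_eq_prime_pow (p := 3) (f := 1) hF
  have : Fact (Nat.Prime 13) := ⟨by norm_num⟩
  have := charP_of_card_eq_prime_pow (p := 13) (f := 1) hE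
  have h1 := H12.card_PSL2 hE
  refine ⟨fun r hr => ?_, fun r s hr hs hrs => ?_⟩
  · rw [S1059.result hF, show Nat.card (Matrix.ProjectiveSpecialLinearGroup (Fin 2) E) = 2 ^ 2 * 3 * 7 * 13 by norm_num at h1; omega,
      show 3 ^ 6 * (3 ^ 2 - 1) * (3 ^ 6 - 1) = 2 ^ 6 * 3 ^ 6 * 7 * 13 by norm_num]
    simp only [hr.dvd_mul, hr.prime.dvd_pow_iff_dvd, ne_eq, OfNat.ofNat_ne_zero, not_false_eq_true]
  have key : ∀ n ∈ [8, 13, 7, 6, 12, 9, 1], r * s ∣ n → r * s = 6 := fun n hn h => by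
    have a0 : 0 < n ∧ n ≤ 13 := by simp at hn; omega
    have a1 := (Nat.le_of_dvd a0.1 ((dvd_mul_right r s).trans h)).trans a0.2
    have a2 := (Nat.le_of_dvd a0.1 ((dvd_mul_left s r).trans h)).trans a0.2
    clear a0
    revert hr hs hrs n
    interval_cases r <;> interval_cases s <;> decide
  refine ⟨fun ⟨x, hx⟩ => ?_, fun ⟨y, hy⟩ => ?_⟩
  · obtain ⟨n, a1, a2⟩ := H14.g2_orderOf 3 hF (m := 2) (by decide) x
    obtain ⟨t, b1, b2⟩ := H12.exists_orderOf_eq (F := E) (k := 12) (by simp [hE]) (by norm_num)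
    exact ⟨t, by rw [H12.psl_orderOf_mk b2, b1, key n a1 (hx ▸ a2)]; rfl⟩
  · suffices h : r * s = 6 from h ▸ H14.g2_exists 3 hF 6 (by simp)
    by_cases h : 13 ∣ orderOf y
    · obtain ⟨g, rfl⟩ := QuotientGroup.mk_surjective y
      have b1 : ∀ g : Matrix.SpecialLinearGroup (Fin 2) E, g.1.trace = 2 →
          orderOf (g : Matrix.ProjectiveSpecialLinearGroup (Fin 2) E) ∣ 13 := fun g hg => orderOf_dvd_of_pow_eq_one (by
        rw [← QuotientGroup.mk_pow, show g ^ 13 = 1 from Subtype.ext (by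
          simpa [show ((13 : ℕ) : E) = 0 from CharP.cast_eq_zero E 13, -Nat.cast_ofNat] using H12.sl2_pow_of_trace_eq_two hg 13)]; rfl)
      by_cases h2 : g.1.trace ^ 2 = 4
      · refine key 13 (by simp) (hy ▸ (sq_eq_sq_iff_eq_or_eq_neg.1 (h2.trans (by norm_num : (4 : E) = 2 ^ 2))).elim (b1 g) fun h3 => ?_)
        exact H12.psl2_mk_neg g ▸ b1 _ (by simp [h3])
      · rw [H12.psl_orderOf_mk h2] at h
        have := h.trans (Nat.div_dvd_of_dvd (Nat.gcd_dvd_right _ _))
        rcases H12.pow_eq_one_of_trace_ne h2 with h | h <;> simpa [hE] using this.trans (orderOf_dvd_of_pow_eq_one h)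
    · rcases H12.psl2_orderOf_dvd 13 h with h | h <;> rw [hE, hy] at h <;> exact key _ (by simp) h

end Cfsg.Agent.S2518
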