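import Cfsg.Statements.S2519
import Cfsg.Agent.H14.EO5

set_option autoImplicit false
open Cfsg

namespace Cfsg.Agent.S2519

/-- Let F be a finite field of odd order q = p^a ≥ 5. The element orders of the Chevalley group G₂(F) that are maximal under divisibility are exactly p(q + 1), p(q − 1), q² − 1, q² + q + 1, q² − q + 1, together with p² when p is 3 or 5. -/
theorem result {F : Type*} [Field F] [Fintype F] (p a : ℕ) (hp : p.Prime) (hp2 : p ≠ 2) (ha : 1 ≤ a) (hF : Fintype.card F = p ^ a) (hq5 : 5 ≤ Fintype.card F) :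
    {n : ℕ | n ∈ Set.range (orderOf : ↥(Cfsg.Lie.chevG2.group F) → ℕ) ∧ ∀ m ∈ Set.range (orderOf : ↥(Cfsg.Lie.chevG2.group F) → ℕ), n ∣ m → m = n} =
      ({p * (p ^ a + 1), p * (p ^ a - 1), p ^ (2 * a) - 1, p ^ (2 * a) + p ^ a + 1, p ^ (2 * a) - p ^ a + 1} : Set ℕ) ∪
        (if p = 3 ∨ p = 5 then ({p ^ 2} : Set ℕ) else ∅) := by
  have := Fact.mk hp
  have := charP_of_card_eq_prime_pow hF
  have h0 := H14.g2_coprime hF
  have h1 := H14.g2_exists p hF
  have h2 : p ∣ p ^ a := dvd_pow_self p (by omega)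
  have h3 : ∀ x : Lie.chevG2.group F, ∃ n ∈ ({p * (p ^ a + 1), p * (p ^ a - 1), (p ^ a) ^ 2 - 1, (p ^ a) ^ 2 + p ^ a + 1,
      (p ^ a) ^ 2 - p ^ a + 1} : Set ℕ) ∪ (if p = 3 ∨ p = 5 then ({p ^ 2} : Set ℕ) else ∅), orderOf x ∣ n := fun x => by
    split_ifs with h
    · obtain ⟨n, a1, a2⟩ := H14.g2_orderOf p hF (m := 2) (by rcases h with rfl | rfl <;> decide) x
      simp only [hp2, if_false, List.mem_cons, List.not_mem_nil, or_false] at a1
      rcases a1 with rfl | rfl | rfl | rfl | rfl | rfl | rfl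
      iterate 6 exact ⟨_, by simp, a2⟩
      exact ⟨p ^ 2, by simp, a2.trans (one_dvd _)⟩
    · obtain ⟨n, a1, a2⟩ := H14.g2_orderOf p hF (m := 1) (by
        by_contra! h5
        rw [pow_one] at h5
        interval_cases p <;> simp_all (config := {decide := true})) x
      simp only [hp2, if_false, List.mem_cons, List.not_mem_nil, or_false] at a1
      rcases a1 with rfl | rfl | rfl | rfl | rfl | rfl | rfl
      iterate 5 exact ⟨_, by simp, a2⟩
      exacts [⟨p * (p ^ a + 1), by simp, a2.trans (by simp)⟩, ⟨p * (p ^ a + 1), by simp, a2.trans (one_dvd _)⟩]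
  rw [pow_mul']
  rw [hF] at hq5
  generalize p ^ a = q at *
  have h4 : ∀ n ∈ ({p * (q + 1), p * (q - 1), q ^ 2 - 1, q ^ 2 + q + 1, q ^ 2 - q + 1} : Set ℕ) ∪
      (if p = 3 ∨ p = 5 then ({p ^ 2} : Set ℕ) else ∅), ∃ x : Lie.chevG2.group F, orderOf x = n := by
    rintro n (h | h)
    · exact h1 n (by simp at h ⊢; omega)
    · split_ifs at h with h'
      · rcases h' with rfl | rfl <;> exact h ▸ H14.g2_reg _ (m := 1) (by decide) (v := [0, 0, 1]) (a := 0) (by decide +kernel)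
      · exact h.elim
  ext n
  refine ⟨fun ⟨⟨x, e⟩, h⟩ => ?_, fun hn => ⟨h4 n hn, ?_⟩⟩
  · obtain ⟨m, a1, a2⟩ := h3 x
    exact h m (h4 m a1) (e ▸ a2) ▸ a1
  rintro _ ⟨x, rfl⟩ b
  obtain ⟨m, a1, a2⟩ := h3 x
  refine Nat.dvd_antisymm (by_contra fun h => ?_) b
  have b1 : n ≠ m := by rintro rfl; exact h a2
  have b2 := b.trans a2
  have h5 := Nat.le_of_dvd (by omega) h2
  have h6 := hp.two_le
  simp only [List.mem_cons, List.not_mem_nil, or_false, forall_eq_or_imp, forall_eq] at h0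
  obtain ⟨c, rfl⟩ : ∃ c, q = c + 1 := ⟨q - 1, by omega⟩
  rw [show (c + 1) ^ 2 - 1 = c * c + 2 * c by ring_nf; omega, show (c + 1) ^ 2 - (c + 1) + 1 = c * c + c + 1 by ring_nf; omega,
    show (c + 1) ^ 2 + (c + 1) + 1 = c * c + 3 * c + 3 by ring, Nat.add_sub_cancel] at *
  have k0 : ∀ {n}, (c + 1).Coprime n → p.Coprime n := fun h => h.coprime_dvd_left h2
  have k1 : ∀ {m n}, (c + 1).Coprime n → ¬ p * m ∣ n := fun h e => hp.one_lt.ne' ((k0 h).eq_one_of_dvd ((dvd_mul_right _ _).trans e))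
  have k2 : ∀ {m n}, (c + 1).Coprime n → 0 < m → m < n → ¬ n ∣ p * m := fun h a b e =>
    (Nat.le_of_dvd a ((k0 h).symm.dvd_of_dvd_mul_left e)).not_gt b
  have k3 : ∀ {m n : ℕ}, n ≠ m → 0 < m → m < 2 * n → ¬ n ∣ m := by
    rintro _ n a b c ⟨d, rfl⟩
    rcases d with _ | _ | d
    exacts [by simp at b, by simp at a, by nlinarith]
  have k4 : ∀ {n}, (c + 1).Coprime n → 1 < n → ¬ n ∣ p := fun h a e => a.ne' ((k0 h).symm.eq_one_of_dvd e)
  obtain ⟨c1, c2, c3, c4, c5⟩ := h0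
  have h7 : 4 * c ≤ c * c := by nlinarith
  simp only [Set.mem_union, Set.mem_insert_iff, Set.mem_singleton_iff, Set.mem_ite_empty_right, sq] at hn a1
  rcases hn with (rfl | rfl | rfl | rfl | rfl) | ⟨-, rfl⟩ <;> rcases a1 with (rfl | rfl | rfl | rfl | rfl) | ⟨-, rfl⟩ <;>
    first
    | exact b1 rfl
    | exact k1 (by assumption) b2
    | exact k2 (by assumption) (by omega) (by omega) b2
    | exact k3 b1 (by omega) (by omega) b2
    | exact k4 (by assumption) (by omega) (Nat.dvd_of_mul_dvd_mul_left hp.pos b2)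
    | exact k3 (by omega) (by omega) (by omega) (Nat.dvd_of_mul_dvd_mul_left hp.pos b2)
    | exact k1 (m := 1) c4 ((mul_one p).symm ▸ Nat.dvd_of_mul_dvd_mul_left hp.pos b2)
    | exact k1 (m := 1) c5 ((mul_one p).symm ▸ Nat.dvd_of_mul_dvd_mul_left hp.pos b2)

end Cfsg.Agent.S2519
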