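import Cfsg.Statements.S2520
import Cfsg.Agent.H14.EO5

set_option autoImplicit false
open Cfsg

namespace Cfsg.Agent.S2520

/-- Let F be a finite field with q = 2^a ≥ 4 elements and G₂(F) the Chevalley group of type G₂ over it. Every element order of G₂(F) maximal under divisibility lies in the set {8, 12, 2(q + 1), 2(q − 1), q² − 1, q² + q + 1, q² − q + 1}, and every member of that set is an element order of G₂(F). -/
theorem result {F : Type*} [Field F] [Fintype F] (a : ℕ) (ha : 2 ≤ a) (hF : Fintype.card F = 2 ^ a) :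
    {n : ℕ | n ∈ Set.range (orderOf : ↥(Cfsg.Lie.chevG2.group F) → ℕ) ∧ ∀ m ∈ Set.range (orderOf : ↥(Cfsg.Lie.chevG2.group F) → ℕ), n ∣ m → m = n} ⊆ ({8, 12, 2 * (2 ^ a + 1), 2 * (2 ^ a - 1), 2 ^ (2 * a) - 1, 2 ^ (2 * a) + 2 ^ a + 1, 2 ^ (2 * a) - 2 ^ a + 1} : Set ℕ) ∧
    ({8, 12, 2 * (2 ^ a + 1), 2 * (2 ^ a - 1), 2 ^ (2 * a) - 1, 2 ^ (2 * a) + 2 ^ a + 1, 2 ^ (2 * a) - 2 ^ a + 1} : Set ℕ) ⊆ Set.range (orderOf : ↥(Cfsg.Lie.chevG2.group F) → ℕ) := by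
  have := charP_of_card_eq_prime_pow hF
  have h1 : ∀ n ∈ [(2 ^ a) ^ 2 - 1, (2 ^ a) ^ 2 + 2 ^ a + 1, (2 ^ a) ^ 2 - 2 ^ a + 1, 2 * (2 ^ a - 1), 2 * (2 ^ a + 1)] ++ [2 ^ 3,
      if 2 = 2 then 12 else 1], ∃ x : Lie.chevG2.group F, orderOf x = n := List.forall_mem_append.2 ⟨H14.g2_exists 2 hF,
    List.forall_mem_cons.2 ⟨H14.g2_reg 2 (m := 2) (by decide) (v := [0, 0, 1]) (a := 0) (by decide +kernel),
      List.forall_mem_singleton.2 H14.g2_twelve⟩⟩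
  rw [pow_mul']
  refine ⟨?_, fun n hn => h1 n (by simp at hn ⊢; omega)⟩
  rintro _ ⟨⟨x, rfl⟩, h⟩
  obtain ⟨n, a1, a2⟩ := H14.g2_orderOf 2 hF (m := 3) (by decide) x
  rw [← h n (h1 n a1) a2]
  simp at a1 ⊢; omega

end Cfsg.Agent.S2520
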