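import Cfsg.Statements.S2521
import Mathlib

set_option autoImplicit false
open Cfsg

namespace Cfsg.Agent.S2521



/-- Let B be a finite group that is the semidirect product of a nilpotent normal subgroup U by an abelian subgroup T (U ∩ T = 1, UT = B), and let t ∈ T have centralizer exactly T. Then every element of the coset tU is conjugate to t in B: for each u ∈ U there is b ∈ B with b t b⁻¹ = t u. -/
theorem result {B : Type*} [Group B] [Finite B] (U T : Subgroup B) [U.Normal] (hU : Group.IsNilpotent ↥U) (hT : IsMulCommutative ↥T)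
    (hcompl : Subgroup.IsComplement' U T) (t : B) (ht : t ∈ T) (hreg : Subgroup.centralizer ({t} : Set B) = T) (u : B) (hu : u ∈ U) :
    ∃ b : B, b * t * b⁻¹ = t * u := by
  let φ : U → U := fun v => ⟨t⁻¹ * v * t * v⁻¹, mul_mem (by
    simpa using (‹U.Normal›).conj_mem _ v.2 t⁻¹) (inv_mem v.2)⟩
  have h : Function.Injective φ := fun v w h => by
    have h1 : t⁻¹ * v * t * v⁻¹ = t⁻¹ * w * t * w⁻¹ := congrArg Subtype.val h
    have h2 : ((w⁻¹ * v : U) : B) ∈ T := hreg ▸ Subgroup.mem_centralizer_singleton_iff.2 (by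
      calc _ = (w : B)⁻¹ * t * (t⁻¹ * v * t * v⁻¹) * v := by simp [mul_assoc]
        _ = _ := by rw [h1]; simp [mul_assoc])
    exact (inv_mul_eq_one.1 (Subtype.ext (Subgroup.disjoint_def.1 hcompl.disjoint (w⁻¹ * v).2 h2))).symm
  obtain ⟨v, hv⟩ := Finite.surjective_of_injective h ⟨u, hu⟩
  exact ⟨v, by rw [← show t⁻¹ * v * t * v⁻¹ = u from congrArg Subtype.val hv]; simp [mul_assoc]⟩

end Cfsg.Agent.S2521
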