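import Cfsg.Statements.S2522
import Mathlib
import Cfsg.Agent.H2.Lev3

set_option autoImplicit false
open Cfsg

namespace Cfsg.Agent.S2522

/-- Let K be a field with at least four elements (finite or infinite), n ≥ 3, and J ∈ GL(n, K) the regular unipotent matrix (ones on the diagonal and the superdiagonal, zeros elsewhere). Then every non-scalar g ∈ GL(n, K) with det g = 1 is a product of two GL(n, K)-conjugates of J. -/
theorem result {K : Type*} [Field K] (hK : 4 ≤ Cardinal.mk K) (n : ℕ) (hn : 3 ≤ n) (J g : GL (Fin n) K)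
    (hJ : ∀ i j : Fin n, (J : Matrix (Fin n) (Fin n) K) i j = if i = j then 1 else if j.val = i.val + 1 then 1 else 0)
    (hg : ¬ ∃ c : K, (g : Matrix (Fin n) (Fin n) K) = c • (1 : Matrix (Fin n) (Fin n) K))
    (hdet : (g : Matrix (Fin n) (Fin n) K).det = 1) :
    ∃ x y : GL (Fin n) K, g = (x * J * x⁻¹) * (y * J * y⁻¹) := by
  obtain ⟨m, rfl⟩ : ∃ m, n = m + 3 := ⟨n - 3, by omega⟩
  have hK4 : H2.Lev.F4 K := by
    intro a b c
    by_contra h
    push Not at h
    have hs : (Set.univ : Set K) ⊆ {a, b, c} := fun t _ => by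
      by_cases h1 : t = a
      · simp [h1]
      by_cases h2 : t = b
      · simp [h2]
      simp [h t h1 h2]
    have h1 := Cardinal.mk_le_mk_of_subset hs
    rw [Cardinal.mk_univ] at h1
    have h2 : Cardinal.mk ({a, b, c} : Set K) ≤ 3 := by
      refine (Cardinal.mk_insert_le).trans ?_
      have := Cardinal.mk_insert_le (s := ({c} : Set K)) (a := b)
      rw [Cardinal.mk_singleton] at this
      exact (add_le_add_left this 1).trans (by norm_num)
    have := hK.trans (h1.trans h2)
    norm_num at this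
  let T : (Fin (m + 3) → K) →ₗ[K] (Fin (m + 3) → K) := Matrix.toLin' (g : Matrix _ _ K) - 1
  have hT : 1 + T = Matrix.toLin' (g : Matrix _ _ K) := by simp [T]
  obtain ⟨N, M, h0, n1, ⟨c, n2⟩, m1, w, m2⟩ := H2.Lev.all hK4 m (by simp) T
    (by rw [hT, LinearMap.det_toLin', hdet]) (by
      rintro ⟨ν, hν⟩
      refine hg ⟨1 + ν, Matrix.toLin'.injective ?_⟩
      rw [← hT]
      refine LinearMap.ext fun v => ?_
      rw [LinearMap.add_apply, hν]; simp [add_smul])
  obtain ⟨x, hx⟩ := H2.Lev.conjJ (m + 2) J hJ N c n1 n2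
  obtain ⟨y, hy⟩ := H2.Lev.conjJ (m + 2) J hJ M w m1 m2
  refine ⟨x, y, Units.ext ?_⟩
  simp only [Units.val_mul]
  rw [← hx, ← hy, Units.mul_inv_cancel_right, Units.mul_inv_cancel_right, ← LinearMap.toMatrix'_mul, ← h0, hT,
    LinearMap.toMatrix'_toLin']

end Cfsg.Agent.S2522
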