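import Cfsg.Statements.S2524
import Cfsg.Agent.H26.WC5

set_option autoImplicit false
open Cfsg

namespace Cfsg.Agent.S2524


/-- Let F be a finite field of odd order q and G = Sp(2n, F) with n ≥ 2. Then G has exactly four irreducible complex characters of degree (q^n + 1)/2 or (q^n − 1)/2 (two of each), and every other non-principal irreducible character has degree at least (q^n − 1)(q^n − q)/(2(q + 1)). -/
theorem result {F : Type*} [Field F] [Fintype F] (hodd : Odd (Fintype.card F)) (n : ℕ) (hn : 2 ≤ n) :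
    Nat.card {χ : Cfsg.IrrCharacter ↥(Matrix.symplecticGroup (Fin n) F) // (χ : ↥(Matrix.symplecticGroup (Fin n) F) → ℂ) 1 = (((Fintype.card F) ^ n + 1 : ℕ) : ℂ) / 2} = 2 ∧
    Nat.card {χ : Cfsg.IrrCharacter ↥(Matrix.symplecticGroup (Fin n) F) // (χ : ↥(Matrix.symplecticGroup (Fin n) F) → ℂ) 1 = (((Fintype.card F) ^ n - 1 : ℕ) : ℂ) / 2} = 2 ∧
    ∀ χ : Cfsg.IrrCharacter ↥(Matrix.symplecticGroup (Fin n) F),
      (χ : ↥(Matrix.symplecticGroup (Fin n) F) → ℂ) 1 ≠ 1 →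
      (χ : ↥(Matrix.symplecticGroup (Fin n) F) → ℂ) 1 ≠ (((Fintype.card F) ^ n + 1 : ℕ) : ℂ) / 2 →
      (χ : ↥(Matrix.symplecticGroup (Fin n) F) → ℂ) 1 ≠ (((Fintype.card F) ^ n - 1 : ℕ) : ℂ) / 2 →
      (((Fintype.card F) ^ n - 1 : ℕ) : ℝ) * (((Fintype.card F) ^ n - Fintype.card F : ℕ) : ℝ) / (2 * ((Fintype.card F : ℕ) + 1 : ℝ)) ≤ ‖(χ : ↥(Matrix.symplecticGroup (Fin n) F) → ℂ) 1‖ := by
  have hC : H26.MS.SC (H12.spB (Fin n) F) := ⟨H12.sd_spB, by rw [H12.finrank_sp]; simp; omega⟩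
  have h2 : (2 : F) ≠ 0 := fun h => by
    have := FiniteField.even_card_of_char_two (CharP.ringChar_of_prime_eq_zero Nat.prime_two (by exact_mod_cast h))
    have := Nat.odd_iff.1 hodd; omega
  have hq : 3 ≤ Fintype.card F := by
    have := Fintype.one_lt_card (α := F); have := Nat.odd_iff.1 hodd; omega
  have h1 : 1 ≤ Fintype.card F ^ n := Nat.one_le_pow _ _ (by omega)
  refine ⟨by simpa using H26.WC.two (H12.spEquiv (Fin n) F) h2 hq (by simpa) (ε := 1) (by simp),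
    by simpa [h1, sub_eq_add_neg] using H26.WC.two (H12.spEquiv (Fin n) F) h2 hq (by simpa) (ε := -1) (by simp),
    fun χ a b c => ?_⟩
  obtain ⟨m, ρ, hI, _, hm, -⟩ := H26.WC.model (H12.spEquiv (Fin n) F) χ
  rw [hm] at a b c ⊢
  rw [Complex.norm_natCast, div_le_iff₀ (by positivity)]
  by_contra! H
  obtain ⟨κ, hκ⟩ := H26.WC.classify h2 hI (by simpa using a) (by
    rw [Module.finrank_fin_fun, Fintype.card_fin, mul_comm]; exact_mod_cast H)
  rcases hκ.dim h2 with h | h <;> rw [Module.finrank_fin_fun, Fintype.card_fin] at h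
  · exact b (by rw [← h]; simp)
  · exact c (by rw [← h]; simp)

end Cfsg.Agent.S2524
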