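import Cfsg.Statements.S2525
import Cfsg.Agent.H14.EO7
import Cfsg.Agent.S1062

set_option autoImplicit false
open Cfsg

namespace Cfsg.Agent.S2525

/-- Let F be a finite field with q = 2^n elements and G = F₄(F). For an odd prime r let e(r, q) be the multiplicative order of q modulo r. Two distinct primes r, s dividing the order of G are non-adjacent in the prime graph of G (no element of order rs) if and only if, up to swapping r and s, either r = 2 and e(s, q) ∈ {8, 12}, or r, s are both odd with k = e(r, q) < l = e(s, q) and one of: l ∈ {8, 12}; l = 6 and k ∈ {3, 4}; l = 4 and k = 3. -/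
theorem result {F : Type*} [Field F] [Fintype F] (n : ℕ) (hn : 1 ≤ n) (hF : Fintype.card F = 2 ^ n)
    (r s : ℕ) (hr : r.Prime) (hs : s.Prime) (hrs : r ≠ s) (hrG : r ∣ Nat.card ↥(Cfsg.Lie.chevF4.group F)) (hsG : s ∣ Nat.card ↥(Cfsg.Lie.chevF4.group F)) :
    (¬ ∃ x : ↥(Cfsg.Lie.chevF4.group F), orderOf x = r * s) ↔
      ((r = 2 ∧ orderOf ((Fintype.card F : ℕ) : ZMod s) ∈ ({8, 12} : Finset ℕ)) ∨ (s = 2 ∧ orderOf ((Fintype.card F : ℕ) : ZMod r) ∈ ({8, 12} : Finset ℕ)) ∨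
       (r ≠ 2 ∧ s ≠ 2 ∧
         ((orderOf ((Fintype.card F : ℕ) : ZMod r) < orderOf ((Fintype.card F : ℕ) : ZMod s) ∧ (orderOf ((Fintype.card F : ℕ) : ZMod s) ∈ ({8, 12} : Finset ℕ) ∨ (orderOf ((Fintype.card F : ℕ) : ZMod s) = 6 ∧ orderOf ((Fintype.card F : ℕ) : ZMod r) ∈ ({3, 4} : Finset ℕ)) ∨ (orderOf ((Fintype.card F : ℕ) : ZMod s) = 4 ∧ orderOf ((Fintype.card F : ℕ) : ZMod r) = 3))) ∨
          (orderOf ((Fintype.card F : ℕ) : ZMod s) < orderOf ((Fintype.card F : ℕ) : ZMod r) ∧ (orderOf ((Fintype.card F : ℕ) : ZMod r) ∈ ({8, 12} : Finset ℕ) ∨ (orderOf ((Fintype.card F : ℕ) : ZMod r) = 6 ∧ orderOf ((Fintype.card F : ℕ) : ZMod s) ∈ ({3, 4} : Finset ℕ)) ∨ (orderOf ((Fintype.card F : ℕ) : ZMod r) = 4 ∧ orderOf ((Fintype.card F : ℕ) : ZMod s) = 3)))))) := by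
  have := charP_of_card_eq_prime_pow hF
  have := Fact.mk hr
  have := Fact.mk hs
  have a0 : ∀ (r : ℕ) [Fact r.Prime], r ≠ 2 → r ∣ Nat.card (Lie.chevF4.group F) →
      orderOf (Fintype.card F : ZMod r) ∈ [1, 2, 3, 4, 6, 8, 12] := fun r hr h2 h => by
    have b1 : ∀ e, r ∣ Fintype.card F ^ e - 1 → orderOf (Fintype.card F : ZMod r) ∣ e := fun e h => orderOf_dvd_of_pow_eq_one (by
      have := (ZMod.natCast_eq_zero_iff _ r).2 h
      rwa [Nat.cast_sub (Nat.one_le_pow _ _ Fintype.card_pos), Nat.cast_pow, Nat.cast_one, sub_eq_zero] at this)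
    simp only [S1062.result rfl, hr.out.dvd_mul] at h
    have b2 : ∀ e ∈ [2, 6, 8, 12], ∀ k ∈ Nat.divisors e, k ∈ [1, 2, 3, 4, 6, 8, 12] := by decide
    rcases h with (((h | h) | h) | h) | h
    · exact absurd (hr.out.dvd_of_dvd_pow h) (hr.out.coprime_iff_not_dvd.1 (H14.card_coprime h2).symm)
    all_goals exact b2 _ (by simp) _ (Nat.mem_divisors.2 ⟨b1 _ h, by simp⟩)
  have a1 : ∀ (r : ℕ) [Fact r.Prime], r ≠ 2 → ∀ (m : ℤ) b, (r : ℤ) ∣ m * 2 ^ b → (r : ℤ) ∣ m := fun r hr h2 m b h =>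
    (IsCoprime.pow_right (Nat.isCoprime_iff_coprime.2 ((Nat.coprime_primes hr.out Nat.prime_two).2 h2))).dvd_of_dvd_mul_right h
  have a2 : ∀ (s : ℕ) [Fact s.Prime], s ≠ 2 → s ∣ Nat.card (Lie.chevF4.group F) → ((¬ ∃ x : Lie.chevF4.group F, orderOf x = s * 2) ↔
      orderOf (Fintype.card F : ZMod s) ∈ ({8, 12} : Finset ℕ)) := fun s hs h2 h => by
    refine ⟨fun h1 => by_contra fun h3 => h1 (H14.f4_two h2 ((by decide : ∀ k ∈ [1, 2, 3, 4, 6, 8, 12], k ∉ ({8, 12} : Finset ℕ) →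
      k ∈ [1, 2, 3, 4, 6]) _ (a0 s h2 h) h3)), fun h1 ⟨x, hx⟩ => ?_⟩
    obtain ⟨b1, b2, b3, -⟩ := H14.ord_of_dvd (q := Fintype.card F) h2
    rcases H14.f4_orderOf F x with ⟨b, t, c1, c2⟩ | ⟨t, -, c2⟩ <;> rw [hx, Nat.cast_mul] at c2
    · have := a1 s h2 _ _ (dvd_of_mul_right_dvd c2)
      have c3 : ∀ k ∈ ({8, 12} : Finset ℕ), k ∉ [1, 2, 4] ∧ k ∉ [1, 2, 3] ∧ k ∉ [1, 2, 6] := by decide
      simp only [List.mem_cons, List.not_mem_nil, or_false] at c1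
      rcases c1 with rfl | rfl | rfl
      exacts [(c3 _ h1).1 (b1 this), (c3 _ h1).2.1 (b2 this), (c3 _ h1).2.2 (b3 this)]
    · obtain ⟨n, rfl⟩ := Nat.exists_eq_add_of_le' hn
      obtain ⟨c, hc⟩ := dvd_of_mul_left_dvd c2
      simp [H14.evM, Finset.sum_range_succ, hF, pow_succ 2 n, mul_pow] at hc
      have : (2 : ℤ) ∣ 1 := ⟨c - 8 * (2 ^ n) ^ 4 - 2 * t * (2 ^ n) ^ 2, by linear_combination hc⟩
      norm_num at this
  by_cases h1 : r = 2
  · subst h1; simpa [mul_comm 2, hrs.symm] using a2 s hrs.symm hsG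
  by_cases h2 : s = 2
  · subst h2; simpa [h1] using a2 r h1 hrG
  have a3 : (∃ x : Lie.chevF4.group F, orderOf x = r * s) ↔ ∃ S ∈ [[1, 2, 4], [1, 2, 3], [1, 2, 6], [8], [12]],
      orderOf (Fintype.card F : ZMod r) ∈ S ∧ orderOf (Fintype.card F : ZMod s) ∈ S := by
    refine ⟨fun ⟨x, hx⟩ => ?_, fun ⟨S, b1, b2, b3⟩ => H14.f4_odd h1 h2 hrs b1 b2 b3⟩
    obtain ⟨b1, b2, b3, b4, b5⟩ := H14.ord_of_dvd (q := Fintype.card F) h1
    obtain ⟨d1, d2, d3, d4, d5⟩ := H14.ord_of_dvd (q := Fintype.card F) h2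
    rcases H14.f4_orderOf F x with ⟨b, t, c1, c2⟩ | ⟨t, c1, c2⟩ <;> rw [hx, Nat.cast_mul] at c2 <;>
      simp only [List.mem_cons, List.not_mem_nil, or_false] at c1
    · have e1 := a1 r h1 _ _ (dvd_of_mul_right_dvd c2)
      have e2 := a1 s h2 _ _ (dvd_of_mul_left_dvd c2)
      rcases c1 with rfl | rfl | rfl
      exacts [⟨_, by simp, b1 e1, d1 e2⟩, ⟨_, by simp, b2 e1, d2 e2⟩, ⟨_, by simp, b3 e1, d3 e2⟩]
    · have e1 := dvd_of_mul_right_dvd c2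
      have e2 := dvd_of_mul_left_dvd c2
      rcases c1 with rfl | rfl
      exacts [⟨[8], by simp, by simp [b4 e1], by simp [d4 e2]⟩, ⟨[12], by simp, by simp [b5 e1], by simp [d5 e2]⟩]
  rw [a3]
  simp only [h1, h2, false_and, false_or, ne_eq, not_false_eq_true, true_and]
  have e1 := a0 r h1 hrG
  have e2 := a0 s h2 hsG
  generalize orderOf (Fintype.card F : ZMod r) = k at *
  generalize orderOf (Fintype.card F : ZMod s) = l at *
  clear a3
  revert k l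
  decide

end Cfsg.Agent.S2525
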