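import Cfsg.Statements.S2556
import Cfsg.Agent.H22.SzA

set_option autoImplicit false
set_option linter.style.haveILetI false
open Cfsg

namespace Cfsg.Agent.S2556

/-- Let S be a Sylow 2-subgroup of the Suzuki group Sz(q), q = 2ⁿ with n = 2m + 1 ≥ 3 (realised as 4 × 4 matrices over the field with q elements). Then the largest normal 2-subgroup of the automorphism group of S is elementary abelian of order 2^(n²), and the automorphism group of S has order 2^(n²) · n · (q − 1). -/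
theorem result {S : Type*} [Group S] [Finite S] (m : ℕ) (hm : 1 ≤ m)
    {F : Type*} [Field F] [Fintype F] (hF : Fintype.card F = 2 ^ (2 * m + 1))
    (P : Sylow 2 ↥(Cfsg.Lie.Sz F (2 ^ (m + 1)))) (hS : Nonempty (S ≃* ↥(P : Subgroup ↥(Cfsg.Lie.Sz F (2 ^ (m + 1)))))) :
    Cfsg.IsElementaryAbelian 2 (Cfsg.pCore 2 (MulAut S)) ∧ Nat.card ↥(Cfsg.pCore 2 (MulAut S)) = 2 ^ ((2 * m + 1) ^ 2) ∧
      Nat.card (MulAut S) = 2 ^ ((2 * m + 1) ^ 2) * ((2 * m + 1) * (2 ^ (2 * m + 1) - 1)) := by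
  haveI : CharP F 2 := charP_of_card_eq_prime_pow (p := 2) hF
  obtain ⟨e⟩ := hS
  obtain ⟨M, hM, hQ⟩ := (H15.Sz.lieModel hm hF).exists_model_sylow P
  let f : F × F → M.Q := fun p => ⟨M.S p.1 p.2, p.1, p.2, rfl⟩
  have hf : Function.Bijective f := ⟨fun p q h => by
    have := M.S_inj.1 (show M.S p.1 p.2 = M.S q.1 q.2 from congrArg Subtype.val h)
    exact Prod.ext this.1 this.2, by rintro ⟨_, a, b, rfl⟩; exact ⟨(a, b), rfl⟩⟩
  let e' := (MulEquiv.subgroupCongr hQ).trans e.symm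
  refine H22.SzA.main hm hF ((Equiv.ofBijective f hf).trans e'.toEquiv) fun a b c d => ?_
  change e' _ * e' _ = e' _
  rw [← map_mul]
  refine congrArg e' (Subtype.ext ((M.S_mul a b c d).trans ?_))
  rw [hM, ← H15.Sz.tw_θ hF]; rfl

end Cfsg.Agent.S2556
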