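import Cfsg.Statements.S2582
import Cfsg.Agent.H28.Elu11

set_option autoImplicit false
open Cfsg

namespace Cfsg.Agent.S2582

open H28 H12 H13 Module

/-- Which unipotent Jordan types occur in the finite symplectic group: over a finite field, a unipotent matrix with Jordan block sizes d_1, …, d_t (sum 2m, all at least 1) is similar to an element of Sp_2m(F) if and only if every odd block size occurs an even number of times. -/
theorem result {F : Type*} [Field F] [Fintype F] {m t : ℕ} (d : Fin t → ℕ) (hd : ∀ k, 1 ≤ d k) (hsum : ∑ k, d k = 2 * m) : (∃ e : ((k : Fin t) × Fin (d k)) ≃ (Fin m ⊕ Fin m), ∃ A : Matrix.symplecticGroup (Fin m) F, IsConj (Matrix.reindex e e (Cfsg.jordanTypeMatrix d F)) (A : Matrix (Fin m ⊕ Fin m) (Fin m ⊕ Fin m) F)) ↔ ∀ j : ℕ, Odd j → Even (Finset.univ.filter (fun k : Fin t => d k = j)).card := by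
  have : Nonempty (((k : Fin t) × Fin (d k)) ≃ (Fin m ⊕ Fin m)) := ⟨Fintype.equivOfCardEq (by simp [hsum, two_mul])⟩
  simp only [isConj_iff_med, med_reindex, med_jordanTypeMatrix d hd, exists_const, count_univ_map]
  have h0 : ∀ k ∈ Finset.univ.val.map d, 0 < k := Multiset.forall_mem_map_iff.2 fun k _ => hd k
  constructor
  · rintro ⟨A, hA⟩ j
    obtain ⟨h1, h2⟩ := jt_of_ed h0 hA.symm
    exact h2 ▸ sp_even_count sd_spB (rl_sp.pres A) h1
  · intro H
    obtain ⟨a, h1, h2⟩ := exists_sp_jt (sd_spB (l := Fin m) (F := F)) h0 H (hsum.trans (by simp [two_mul]))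
    obtain ⟨A, rfl⟩ := (rl_sp.range a).2 ⟨h1, fun _ => rfl⟩
    exact ⟨A, h2.symm⟩

end Cfsg.Agent.S2582
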