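import Cfsg.Statements.S2583
import Cfsg.Agent.H28.Elu11

set_option autoImplicit false
open Cfsg

namespace Cfsg.Agent.S2583

open H28 H12 H13 Module

/-- Which unipotent Jordan types occur in a finite orthogonal group in odd characteristic: over a finite field of odd order, a unipotent matrix with Jordan block sizes d_1, …, d_t (sum n, all at least 1) is similar to an isometry of some quadratic form on F^n with non-degenerate polar form if and only if every even block size occurs an even number of times. -/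
theorem result {F : Type*} [Field F] [Fintype F] (h2 : (2 : F) ≠ 0) {n t : ℕ} (d : Fin t → ℕ) (hd : ∀ k, 1 ≤ d k) (hsum : ∑ k, d k = n) : (∃ Q : QuadraticForm F (Fin n → F), (QuadraticMap.polarBilin Q).Nondegenerate ∧ ∃ e : ((k : Fin t) × Fin (d k)) ≃ Fin n, ∃ A : ↥(Cfsg.isometryGroup F ⇑Q), IsConj (Matrix.reindex e e (Cfsg.jordanTypeMatrix d F)) ((A : Matrix.GeneralLinearGroup (Fin n) F) : Matrix (Fin n) (Fin n) F)) ↔ ∀ j : ℕ, Even j → 0 < j → Even (Finset.univ.filter (fun k : Fin t => d k = j)).card := by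
  have : Nonempty (((k : Fin t) × Fin (d k)) ≃ Fin n) := ⟨Fintype.equivOfCardEq (by simp [hsum])⟩
  simp only [isConj_iff_med, med_reindex, med_jordanTypeMatrix d hd, exists_const, count_univ_map]
  have h0 : ∀ k ∈ Finset.univ.val.map d, 0 < k := Multiset.forall_mem_map_iff.2 fun k _ => hd k
  constructor
  · rintro ⟨Q, hQ, A, hA⟩ j hj _
    obtain ⟨h1, h2⟩ := jt_of_ed h0 hA.symm
    obtain ⟨M₁, M₂, h3, h4, -⟩ := (eb_polar hQ).decomp ((rl_O hQ.1).pres A) h1
    have h5 : M₁.count j = 0 := Multiset.count_eq_zero.2 fun h => ‹(2 : F) ≠ 0› (by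
      have := (h4 j h).1; rw [hj.neg_one_pow] at this; linear_combination this)
    rw [← h2]
    exact h3 ▸ by simp [h5]
  · intro H
    obtain ⟨V, _, _, _, B, a, E, -, h3, h4⟩ := uj_of (ε := (1 : F)) (one_mul _) h0 fun k h =>
      H k (Nat.not_odd_iff_even.1 fun h' => h (.inr ⟨h2, rfl, h'⟩))
    rw [← h4]
    exact exists_O_of (Q := LinearMap.BilinMap.toQuadraticMap B) (fun x hx => E.sep x fun y => mul_left_cancel₀ h2 (by
      have := hx y
      simp only [LinearMap.BilinMap.polar_toQuadraticMap, E.symm x y] at this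
      linear_combination this)) (fun x => h3 x x) (by rw [← tdg_ed a, h4, tdg_map_upp h0]; exact hsum)

end Cfsg.Agent.S2583
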