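import Cfsg.Statements.S2584
import Cfsg.Agent.H28.Elu11
import Cfsg.Agent.S2585

set_option autoImplicit false
open Cfsg

namespace Cfsg.Agent.S2584

open H28 H12 H13 Module

/-- Which unipotent Jordan types occur in a finite orthogonal group in characteristic two: over a finite field of characteristic 2 and in even dimension 2m, a unipotent matrix with Jordan block sizes d_1, …, d_t (sum 2m, all at least 1) is similar to an isometry of some quadratic form on F^(2m) with non-degenerate polar form if and only if every odd block size occurs an even number of times (the same condition as for the symplectic group, which contains these orthogonal groups). -/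
theorem result {F : Type*} [Field F] [Fintype F] [CharP F 2] {m t : ℕ} (d : Fin t → ℕ) (hd : ∀ k, 1 ≤ d k) (hsum : ∑ k, d k = 2 * m) : (∃ Q : QuadraticForm F (Fin (2 * m) → F), (QuadraticMap.polarBilin Q).Nondegenerate ∧ ∃ e : ((k : Fin t) × Fin (d k)) ≃ Fin (2 * m), ∃ A : ↥(Cfsg.isometryGroup F ⇑Q), IsConj (Matrix.reindex e e (Cfsg.jordanTypeMatrix d F)) ((A : Matrix.GeneralLinearGroup (Fin (2 * m)) F) : Matrix (Fin (2 * m)) (Fin (2 * m)) F)) ↔ ∀ j : ℕ, Odd j → Even (Finset.univ.filter (fun k : Fin t => d k = j)).card := by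
  have : Nonempty (((k : Fin t) × Fin (d k)) ≃ Fin (2 * m)) := ⟨Fintype.equivOfCardEq (by simp [hsum])⟩
  simp only [isConj_iff_med, med_reindex, med_jordanTypeMatrix d hd, exists_const, count_univ_map]
  have h0 : ∀ k ∈ Finset.univ.val.map d, 0 < k := Multiset.forall_mem_map_iff.2 fun k _ => hd k
  constructor
  · rintro ⟨Q, hQ, A, hA⟩ j
    obtain ⟨h1, h2⟩ := jt_of_ed h0 hA.symm
    exact h2 ▸ sp_even_count (EB.sd (by simpa [CharTwo.neg_eq] using eb_polar hQ) fun x => by
      simp [QuadraticMap.polar_self, CharTwo.two_eq_zero]) ((rl_O hQ.1).pres A) h1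
  · intro H
    obtain ⟨a, h1, h2⟩ := exists_sp_jt (sd_spB (l := Fin m) (F := F)) h0 H (hsum.trans (by simp [two_mul]))
    obtain ⟨A, rfl⟩ := (rl_sp.range a).2 ⟨h1, fun _ => rfl⟩
    obtain ⟨Q, h3, h4⟩ := S2585.result A
    rw [← h2]
    exact exists_O_of (Q := Q) (fun x hx => sd_spB.sep x fun y => by rw [spB_eq, ← h3, hx]) h4 (by simp [two_mul])

end Cfsg.Agent.S2584
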