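import Cfsg.Statements.S2591
import Cfsg.Agent.H7.WX4
-- import your own Cfsg.Agent.* helpers here

set_option autoImplicit false
open Cfsg

namespace Cfsg.Agent.S2591


/-- Over a finite field of odd order and for m ≥ 1, the regular unipotent elements of Sp_2m(F) (u − 1 nilpotent of rank 2m − 1, a single Jordan block) form exactly two conjugacy classes of Sp_2m(F) (one class under the similarity group, which splits in two). -/
theorem result {F : Type*} [Field F] [Fintype F] {q : ℕ} (hF : Fintype.card F = q) (hq : Odd q) {m : ℕ} (hm : 1 ≤ m) : Nat.card {C : ConjClasses ↥(Matrix.symplecticGroup (Fin m) F) // ∃ u : Matrix.symplecticGroup (Fin m) F, ConjClasses.mk u = C ∧ ((u : Matrix (Fin m ⊕ Fin m) (Fin m ⊕ Fin m) F) - 1) ^ (2 * m) = 0 ∧ ((u : Matrix (Fin m ⊕ Fin m) (Fin m ⊕ Fin m) F) - 1).rank = 2 * m - 1} = 2 := by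
  classical
  have h2 := H13.two_ne_zero_of_odd_card (hF ▸ hq)
  have hn : Module.finrank F (Fin m ⊕ Fin m → F) = 2 * m := by simp [two_mul]
  have h := H7.WU.card_unip h2 (H13.rl_sp (ι := Fin m)) H12.sd_spB hn
  have h1 : ∀ u : Matrix.symplecticGroup (Fin m) F, ((u.1 - 1) ^ (2 * m) = 0 ∧ (u.1 - 1).rank = 2 * m - 1) ↔
      (H13.tsp (Fin m) F u - 1) ^ (2 * m) = 0 ∧ (H13.tsp (Fin m) F u - 1) ^ (2 * m - 1) ≠ 0 := fun u => by
    rw [← H13.toLin'_pow_eq_zero, H13.rank_sub_one]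
    exact and_congr_right fun e => hn ▸ H7.WU.reg_iff ⟨_, e⟩ (by omega)
  have h3 := h (2 * m)
  rw [show Finset.filter _ _ = insert (.indiscrete (2 * m)) (Finset.univ.filter fun μ : (2 * m).Partition =>
    (∀ a ∈ μ.parts, a ≤ 2 * m - 1) ∧ ∀ j, Odd j → Even (μ.parts.count j)) from ?_, Finset.sum_insert
      (by simp [Nat.Partition.indiscrete_parts (show 2 * m ≠ 0 by omega)]; omega), ← h,
    Nat.Partition.indiscrete_parts (by omega), show 2 ^ _ = 2 by simp [Finset.filter_singleton]] at h3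
  · refine Nat.add_right_cancel (Eq.trans ?_ h3)
    simp only [h1]
    refine (Set.ncard_union_eq (Set.disjoint_left.2 ?_) (Set.toFinite _) (Set.toFinite _)).symm.trans
      (congrArg Set.ncard (Set.ext fun c => ⟨?_, ?_⟩))
    · rintro _ ⟨g, rfl, -, h4⟩ ⟨g', h5, h6⟩
      have := (H13.sim_of_isConj (H13.tsp (Fin m) F) (ConjClasses.mk_eq_mk_iff_isConj.1 h5)).aeval_eq_zero_iff
        ((Polynomial.X - 1) ^ (2 * m - 1))
      simp_all
    · rintro (⟨g, rfl, h4, -⟩ | ⟨g, rfl, h4⟩)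
      exacts [⟨g, rfl, h4⟩, ⟨g, rfl, pow_eq_zero_of_le (by omega) h4⟩]
    · rintro ⟨g, rfl, h4⟩
      by_cases e : (H13.tsp (Fin m) F g - 1) ^ (2 * m - 1) = 0
      exacts [.inr ⟨g, rfl, e⟩, .inl ⟨g, rfl, h4, e⟩]
  ext μ
  simp only [Finset.mem_insert, Finset.mem_filter, Finset.mem_univ, true_and]
  refine ⟨fun ⟨h4, h5⟩ => or_iff_not_imp_right.2 fun h6 => ?_, ?_⟩
  · obtain ⟨a, h6, h7⟩ : ∃ a ∈ μ.parts, ¬ a ≤ 2 * m - 1 := by simpa using mt (⟨·, h5⟩) h6
    obtain ⟨M, hM⟩ := Multiset.exists_cons_of_mem h6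
    have h8 := μ.parts_sum
    rw [hM, Multiset.sum_cons] at h8
    obtain rfl : M = 0 := Multiset.eq_zero_of_forall_notMem fun l hl => by
      have := μ.parts_pos (hM ▸ Multiset.mem_cons_of_mem hl)
      have := Multiset.single_le_sum (fun _ _ => Nat.zero_le _) l hl
      omega
    exact Nat.Partition.ext (by rw [hM, Nat.Partition.indiscrete_parts (by omega), ← h8]; simp)
  · rintro (rfl | ⟨h4, h5⟩)
    · rw [Nat.Partition.indiscrete_parts (by omega)]
      exact ⟨by simp, fun j hj => by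
        rw [Multiset.count_singleton, if_neg (by rintro rfl; exact (Nat.not_odd_iff_even.2 (even_two_mul m)) hj)]; simp⟩
    · exact ⟨fun a ha => (h4 a ha).trans (by omega), h5⟩

end Cfsg.Agent.S2591
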