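import Cfsg.Statements.S2592
import Cfsg.Agent.H7.WX4
-- import your own Cfsg.Agent.* helpers here

set_option autoImplicit false
open Cfsg

namespace Cfsg.Agent.S2592


/-- Over a finite field with q elements, q odd, the centraliser in Sp_2m(F) (m ≥ 1) of a regular unipotent element (u − 1 nilpotent of rank 2m − 1) has order 2 q^m. -/
theorem result {F : Type*} [Field F] [Fintype F] {q : ℕ} (hF : Fintype.card F = q) (hq : Odd q) {m : ℕ} (hm : 1 ≤ m) (u : Matrix.symplecticGroup (Fin m) F) (hnil : ((u : Matrix (Fin m ⊕ Fin m) (Fin m ⊕ Fin m) F) - 1) ^ (2 * m) = 0) (hreg : ((u : Matrix (Fin m ⊕ Fin m) (Fin m ⊕ Fin m) F) - 1).rank = 2 * m - 1) : Nat.card ↥(Subgroup.centralizer ({u} : Set ↥(Matrix.symplecticGroup (Fin m) F))) = 2 * q ^ m := by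
  have h2 := H13.two_ne_zero_of_odd_card (hF ▸ hq)
  have hn : Module.finrank F (Fin m ⊕ Fin m → F) = 2 * m := by simp [two_mul]
  have h := H13.rl_sp (ι := Fin m) (F := F)
  have hu : IsNilpotent (H13.tsp (Fin m) F u - 1) := ⟨_, H13.toLin'_pow_eq_zero.2 hnil⟩
  rw [← hF, ← Nat.card_eq_fintype_card, ← (H7.WU.is_of_rl (ε := -1) h h2 (by simp) (by simpa using H12.sd_spB.skew)
    H12.sd_spB.sep u).card_cent hm hn hu (hn ▸ (H7.WU.reg_iff hu (by omega)).1 (hn ▸ H13.rank_sub_one u.1 ▸ hreg))]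
  refine Nat.card_congr (.ofBijective (fun g => ⟨H13.tsp _ F g, by
    rw [← map_mul, ← map_mul, Subgroup.mem_centralizer_singleton_iff.1 g.2], h.pres g⟩)
    ⟨fun g g' e => Subtype.ext (h.inj (congrArg Subtype.val e)), fun ⟨y, h3, h4⟩ => ?_⟩)
  obtain ⟨g, rfl⟩ := (h.range y).2 ⟨h4, fun _ => rfl⟩
  exact ⟨⟨g, Subgroup.mem_centralizer_singleton_iff.2 (h.inj (by rw [map_mul, map_mul, h3]))⟩, rfl⟩

end Cfsg.Agent.S2592
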