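import Cfsg.Statements.S2643
import Cfsg.Agent.H13.Wall4
import Cfsg.Agent.S2677

set_option autoImplicit false
open Cfsg

namespace Cfsg.Agent.S2643

/-- Regular unipotent classes of SU_n(q), n ≥ 2: the elements u of the special unitary group (isometries of Σ u_i v_i^q of determinant one over the field with q² elements) with (u − 1)^n = 0 and rank(u − 1) = n − 1 form exactly gcd(n, q + 1) conjugacy classes of SU_n(q). -/
theorem result {K : Type*} [Field K] [Fintype K] {q n : ℕ} (hK : Fintype.card K = q ^ 2) (hn : 2 ≤ n) : Nat.card {C : ConjClasses ↥(Cfsg.SU n K q) // ∃ u : ↥(Cfsg.SU n K q), ConjClasses.mk u = C ∧ (((u : GL (Fin n) K) : Matrix (Fin n) (Fin n) K) - 1) ^ n = 0 ∧ (((u : GL (Fin n) K) : Matrix (Fin n) (Fin n) K) - 1).rank = n - 1} = Nat.gcd n (q + 1) := by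
  have : Nonempty (Fin n) := ⟨⟨0, by omega⟩⟩
  obtain ⟨x, h1, h2⟩ := H13.exists_GU_jt hK (n := n) (M := {n}) (by simp; omega) (by simp)
  have h3 := H13.isNilpotent_toLin'.mpr h1
  have h4 : (x.1.1 - 1).rank = n - 1 := by
    have := (Matrix.toLin' x.1.1 - 1).finrank_range_add_finrank_ker
    rw [H13.finrank_ker_sub_one h3, h2, ← H13.rank_sub_one] at this
    simp at this
    omega
  rw [H13.card_classes_split (H13.suGU n K q) _ (H13.suGU_injective n) (H13.range_suGU n) (x := x)
    (Units.ext (H13.det_of_isNilpotent h1)) ?_, MonoidHom.range_comp, Subgroup.range_subtype,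
    H28.map_det_GU hK (by omega), Subgroup.relIndex, show Subgroup.subgroupOf _ _ =
      (powMonoidHom n : (powMonoidHom (q + 1) : Kˣ →* Kˣ).ker →* _).range from ?_,
    IsCyclic.index_powMonoidHom_range, H28.card_normOne hK, Nat.gcd_comm]
  · ext c
    refine ⟨fun ⟨b, hb, h⟩ => ?_, fun ⟨d, h⟩ => ⟨⟨_, (S2677.scalar_mem_GU hK (by omega) d.1).2 d.2⟩,
      Subgroup.mem_centralizer_singleton_iff.mpr (Subtype.ext (Units.ext
        (Matrix.scalar_commute (d.1 : K) (Commute.all _) _))), Units.ext (by simp [← h])⟩⟩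
    obtain ⟨d, ⟨j, hj⟩, hd⟩ := H13.det_of_commute_regular h1 (by simpa)
      (congrArg (·.1.1) (Subgroup.mem_centralizer_singleton_iff.mp hb)).symm
    have h0 : d ≠ 0 := fun h0 => b.1.det_ne_zero (by simp [hd, h0]; omega)
    refine ⟨⟨Units.mk0 d h0, Units.ext ?_⟩, Subtype.ext (Units.ext ?_)⟩
    · obtain ⟨ρ, hρ⟩ := H13.exists_frob_ext hK
      have h5 (y) (hy : y ∈ H28.rts (H13.tg _ b)) : y = algebraMap K _ d := by
        have := H28.aeval_eq_zero_of_mem_rts hy (f := (Polynomial.X - Polynomial.C d) ^ j) (by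
          refine .trans (H28.toLin'_aeval b.1.1 _).symm ?_
          rw [map_pow, map_sub, Polynomial.aeval_X, Polynomial.aeval_C]
          exact (congrArg _ hj).trans (map_zero _))
        exact sub_eq_zero.1 (pow_eq_zero_iff'.1 (by simpa using this)).1
      obtain ⟨y, hy⟩ := Multiset.card_pos_iff_exists_mem.1
        (H28.card_rts (H13.tg _ b) ▸ Module.finrank_pos)
      have h6 := h5 _ (H28.map_rts_of_pres (H12.sd_uB hK n) ((H13.rl_GU hK n).pres b) ρ hρ ▸
        Multiset.mem_map_of_mem _ hy)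
      rw [h5 y hy, hρ, ← map_inv₀, (algebraMap K _).injective.eq_iff, H12.frobq_apply] at h6
      simpa [pow_succ] using mul_eq_one_iff_eq_inv₀ h0 |>.2 (inv_eq_iff_eq_inv.1 h6)
    · simpa [hd] using congrArg Units.val h
  · intro u
    rw [H13.isConj_GU_iff hK]
    refine ⟨fun ⟨h5, h6⟩ => (H13.isConj_iff_jt h1 ⟨_, h5⟩).mpr (h2.trans ?_), fun h => ⟨?_,
      (H13.rank_sub_one_of_isConj h).symm.trans h4⟩⟩
    · rw [H13.jt_of_regular (H13.isNilpotent_toLin'.mpr ⟨_, h5⟩) (by simp; omega)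
        ((H13.rank_sub_one _).symm.trans (by simpa))]
      simp
    · have h5 := (H28.isConj_iff_sim.mp h).isNilpotent h3
      refine H13.toLin'_pow_eq_zero.mp ((H13.pow_eq_zero_iff_jt h5 _).mpr ?_)
      rw [← (H13.sim_iff_jt h3 h5).mp (H28.isConj_iff_sim.mp h), h2]
      simp

end Cfsg.Agent.S2643
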