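import Cfsg.Statements.S2645
import Cfsg.Agent.H13.Wall2

set_option autoImplicit false
open Cfsg

namespace Cfsg.Agent.S2645

/-- Number of conjugacy classes of elements of odd prime order r, r different from the characteristic, in the symplectic group Sp_2m(q): let i be the multiplicative order of q modulo r and t = (r − 1)/i. If i is odd the eigenvalue orbits pair off (Λ ≠ Λ⁻¹) and the classes correspond to the non-zero (t/2)-tuples (a_j) with 2i Σ a_j ≤ 2m, giving C(⌊m/i⌋ + t/2, t/2) − 1 classes; if i is even (Λ = Λ⁻¹) they correspond to the non-zero t-tuples with i Σ a_j ≤ 2m, giving C(⌊2m/i⌋ + t, t) − 1 classes. -/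
theorem result {F : Type*} [Field F] [Fintype F] {p q : ℕ} [Fact p.Prime] [CharP F p] (hF : Fintype.card F = q) (m r i t : ℕ) (hr : r.Prime) (hr2 : r ≠ 2) (hrp : r ≠ p) (hi : i = orderOf (q : ZMod r)) (ht : t * i = r - 1) : Nat.card {C : ConjClasses ↥(Matrix.symplecticGroup (Fin m) F) // ∃ g : Matrix.symplecticGroup (Fin m) F, ConjClasses.mk g = C ∧ orderOf g = r} = if Odd i then Nat.choose (m / i + t / 2) (t / 2) - 1 else Nat.choose (2 * m / i + t) t - 1 := by
  subst hF
  rw [H13.card_classes_bil H13.rl_sp H12.sd_spB.wittData hr hr2 hrp hi ht False (by simp) (by simp)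
    fun n B a hB ha h1 h2 h3 _ => ?_]
  · by_cases h : Odd i <;> simp [h, ← two_mul, Nat.mul_div_mul_left]
  · obtain ⟨k, hk⟩ := hB.even_finrank
    obtain ⟨e, he⟩ := H13.sp_equiv (H28.sd_sumB hB (H12.sd_spB (l := Fin (m - k))))
      (H12.sd_spB (l := Fin m)) (by simp at h3 hk ⊢; omega)
    obtain ⟨g, hg⟩ := H13.rl_sp.exists_sim e (c := 1) (d := 1) (N' := fun _ => 0)
      (by simpa using he) (by simp) (ha.prodMap (b := 1) fun _ _ => rfl) (by simp)
    exact ⟨g, H13.nr_of_sim H13.rl_sp.inj hg h1 h2⟩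

end Cfsg.Agent.S2645
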