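import Cfsg.Statements.S2646
import Cfsg.Agent.H13.UCentU

set_option autoImplicit false
open Cfsg

namespace Cfsg.Agent.S2646

/-- Order of the centraliser in the general unitary group GU_n(q) of a unipotent element of given Jordan type: if u ∈ GU_n(q) (isometries of Σ u_i v_i^q over the field with q² elements) is similar to the unipotent matrix with a_i Jordan blocks of size i (all sizes at least 1), then its centraliser in GU_n(q) has order q^γ · Π_i |GU_(a_i)(q)| with γ = 2 Σ_(i<j) i a_i a_j + Σ_i (i − 1) a_i², the same exponent as in GL_n(q), where |GU_a(q)| = q^(a(a−1)/2) Π_(k=1)^a (q^k − (−1)^k). -/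
theorem result {K : Type*} [Field K] [Fintype K] {q n t : ℕ} (hK : Fintype.card K = q ^ 2) (d : Fin t → ℕ) (hd : ∀ k, 1 ≤ d k) (e : ((k : Fin t) × Fin (d k)) ≃ Fin n) (u : ↥(Cfsg.GU n K q)) (hu : IsConj (Matrix.reindex e e (Cfsg.jordanTypeMatrix d K)) ((u : GL (Fin n) K) : Matrix (Fin n) (Fin n) K)) : (Nat.card ↥(Subgroup.centralizer ({u} : Set ↥(Cfsg.GU n K q))) : ℤ) = (q : ℤ) ^ (2 * (∑ i ∈ Finset.range (Finset.univ.sup d + 1), ∑ j ∈ Finset.range (Finset.univ.sup d + 1), if i < j then i * (Finset.univ.filter (fun k : Fin t => d k = i)).card * (Finset.univ.filter (fun k : Fin t => d k = j)).card else 0) + ∑ i ∈ Finset.range (Finset.univ.sup d + 1), (i - 1) * (Finset.univ.filter (fun k : Fin t => d k = i)).card ^ 2) * ∏ i ∈ Finset.range (Finset.univ.sup d + 1), ((q : ℤ) ^ ((Finset.univ.filter (fun k : Fin t => d k = i)).card * ((Finset.univ.filter (fun k : Fin t => d k = i)).card - 1) / 2) * ∏ j : Fin (Finset.univ.filter (fun k : Fin t => d k = i)).card, ((q : ℤ) ^ ((j :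 ℕ) + 1) - (-1) ^ ((j : ℕ) + 1))) := by
  open H28 H12 H13 in
  have h1 : ed (Matrix.toLin' (u : GL (Fin n) K).1) = (Finset.univ.val.map d).map (upp K) := by
    rw [← med_jordanTypeMatrix d hd, ← med_reindex e, isConj_iff_med.1 hu, med]
  have h2 := card_cU_jt (frobq_ne_id hK) (Finset.univ.sup d + 1) _ (fun k hk => by
      obtain ⟨i, -, rfl⟩ := Multiset.mem_map.1 hk
      exact ⟨hd i, Nat.lt_succ_of_le (Finset.le_sup (Finset.mem_univ i))⟩) (sd_uB hK n) (guEquiv hK n u).2 h1
  have h : ∀ i, (Finset.univ.val.map d).count i = (Finset.univ.filter fun k => d k = i).card := fun i => by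
    rw [Multiset.count_map]; simp [eq_comm, Finset.card, Finset.filter]
  have h3 : ∀ a, (guOrd q a : ℤ) = q ^ (a * (a - 1) / 2) * ∏ j : Fin a, ((q : ℤ) ^ ((j : ℕ) + 1) - (-1) ^ ((j : ℕ) + 1)) :=
    fun a => by
      have := two_le_of_card_eq_sq hK
      rw [guOrd, Fin.prod_univ_eq_prod_range fun j => (q : ℤ) ^ (j + 1) - (-1) ^ (j + 1)]
      push_cast
      refine congrArg _ (Finset.prod_congr rfl fun j _ => ?_)
      split_ifs with h
      · rw [h.add_one.neg_one_pow]; simp
      · rw [Nat.cast_sub (Nat.one_le_pow _ _ (by omega)), (Nat.not_even_iff_odd.1 h).add_one.neg_one_pow]; simp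
  simp only [h, q0_frobq] at h2
  simp only [← h3]
  rw [← Nat.cast_prod, ← Nat.cast_pow, ← Nat.cast_mul, ← h2]
  refine congrArg _ (Nat.card_congr ⟨fun g => ⟨(guEquiv hK n g).1, (guEquiv hK n g).2, fun v => ?_⟩,
    fun g => ⟨(guEquiv hK n).symm ⟨g.1, g.2.1⟩, Subgroup.mem_centralizer_singleton_iff.2 ((guEquiv hK n).injective
      (UG_ext fun v => by simpa using g.2.2 v))⟩, fun g => by simp, fun g => by simp⟩)
  simpa using congrArg (fun x => (guEquiv hK n x).1 v) (Subgroup.mem_centralizer_singleton_iff.1 g.2)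

end Cfsg.Agent.S2646
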