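import Cfsg.Statements.S2671
import Cfsg.Agent.H13.Wall2

set_option autoImplicit false
open Cfsg

namespace Cfsg.Agent.S2671

open H28 H13

theorem orderOf_neg_even {r : ℕ} [Fact r.Prime] {x : ZMod r} {j : ℕ} (hj : 0 < j)
    (h : orderOf x = 2 * j) : orderOf (-x) = if Odd j then j else 2 * j := by
  rw [← neg_one_mul, ← pow_half_eq hj h, ← pow_succ, orderOf_pow' _ j.succ_ne_zero, h,
    (Nat.Coprime.gcd_mul_right_cancel 2 (by simp : j.Coprime (j + 1)))]
  split_ifs with h1
  · rw [Nat.gcd_eq_left h1.add_one.two_dvd]; simp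
  · rw [(Nat.coprime_two_left.2 (Nat.not_odd_iff_even.1 h1).add_one).gcd_eq_one]; simp

/-- Number of conjugacy classes of elements of odd prime order r in the general unitary group GU_n(q), for r not dividing q(q + 1): let i be the multiplicative order of q modulo r, b = i if i is odd and b = i/2 if i is even, and s = (r − 1)/b. If i ≢ 2 (mod 4) the eigenvalue orbits pair off into dual pairs of totally isotropic blocks and there are C(⌊n/(2b)⌋ + s/2, s/2) − 1 classes; if i ≡ 2 (mod 4) each orbit gives a non-degenerate block of dimension i/2 and there are C(⌊2n/i⌋ + s, s) − 1 classes. -/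
theorem result {K : Type*} [Field K] [Fintype K] {p q n r i b s : ℕ} [Fact p.Prime] [CharP K p] (hK : Fintype.card K = q ^ 2) (hr : r.Prime) (hr2 : r ≠ 2) (hrp : r ≠ p) (hi : i = orderOf (q : ZMod r)) (hi2 : i ≠ 2) (hb : b = if Odd i then i else i / 2) (hs : s * b = r - 1) : Nat.card {C : ConjClasses ↥(Cfsg.GU n K q) // ∃ g : ↥(Cfsg.GU n K q), ConjClasses.mk g = C ∧ orderOf g = r} = if i % 4 = 2 then Nat.choose (2 * n / i + s) s - 1 else Nat.choose (n / (2 * b) + s / 2) (s / 2) - 1 := by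
  have := Fact.mk hr
  obtain ⟨p', a, hp, _, hq⟩ := H12.exists_pow_of_card_eq_sq hK
  obtain rfl := CharP.eq K ‹CharP K p'› ‹CharP K p›
  let ρ := iterateFrobenius (AlgebraicClosure K) p' a
  have hρ : (fun x => (ρ x)⁻¹) = fun x => x ^ (-q : ℤ) := funext fun x => by
    rw [iterateFrobenius_def, ← hq, zpow_neg, zpow_natCast]
  have hρ' (c : K) : ρ (algebraMap K _ c) = algebraMap K _ (H12.frobq hK c) := by
    rw [iterateFrobenius_def, ← hq, H12.frobq_apply, map_pow]
  have hq0 : (q : ZMod r) ≠ 0 := fun h => card_ne_zero_zmod (F := K) hr hrp (by simp [hK, h])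
  have hz : ((-q : ℤ) : ZMod r) ≠ 0 := by simpa using hq0
  have hr0 := cast_ne_zero_of_ne (F := K) hr hrp
  have hσ := H12.frobq_ne_id hK
  have h0 := orderOf_pos_zmod hz
  rw [card_prime_classes (rl_GU hK n).inj hr hr0 (fun x y _ => ((rl_GU hK n).isConj_iff_u
    (H12.sd_uB hK n) hσ).2) hz (fun k => k ≤ n ∧ ¬ (k = n ∧ False)) (fun g hg => ?_)
    fun M hM hM' hP => ?_, card_multiset_fin (Nat.div_pos (Nat.le_of_dvd (by have := hr.two_le; omega)
      (orderOf_dvd_of_pow_eq_one (ZMod.pow_card_sub_one_eq_one hz))) h0) h0 False (by simp), ← hs]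
  · have h1 := hi ▸ orderOf_pos_zmod hq0
    simp only [Int.cast_neg, Int.cast_natCast, and_false, if_false, Nat.sub_zero]
    by_cases h2 : Odd i
    · rw [orderOf_neg_odd hr2 (hi ▸ h2), ← hi, hb, if_pos h2, Nat.mul_div_mul_right _ _ h1,
        if_neg (by obtain ⟨k, hk⟩ := h2; omega)]
    · obtain ⟨j, hj⟩ := Nat.not_odd_iff_even.1 h2
      obtain rfl : b = j := by rw [hb, if_neg h2]; omega
      rw [orderOf_neg_even (j := b) (by omega) (by omega), hj, ← two_mul]
      by_cases h3 : Odd b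
      · rw [if_pos h3, if_pos (by obtain ⟨k, hk⟩ := h3; omega), Nat.mul_div_cancel _ (by omega),
          Nat.mul_div_mul_left _ _ two_pos]
      · rw [if_neg h3, if_neg (by rw [Nat.odd_iff] at h3; omega), Nat.mul_div_mul_right _ _ (by omega)]
  · exact ⟨hρ ▸ map_rts_of_pres (H12.sd_uB hK n) ((rl_GU hK n).pres g) ρ hρ',
      by simpa using card_nr_le (tg _ g)⟩
  · obtain ⟨B, a, hB, ha, ha', h5⟩ := exists_sd_rts (H12.frobq_frobq hK) ρ hρ' (by
      simpa using map_zpow_of_eq hr.ne_zero (fun x hx => (hM x hx).1) hM' (w := Fintype.card K) (j := 2)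
        (by simp [hK])) (hρ ▸ hM') hr0 (fun x hx => (hM x hx).1) (.inl hσ)
    obtain ⟨e, he⟩ := (sd_sumB hB (H12.sd_uB hK (n - M.card))).exists_equiv_std hσ (H12.skw_ne hK)
      (H12.frobq_skw hK) (n := n) (by simp [hP.1])
    obtain ⟨g, hg⟩ := (rl_GU hK n).exists_sim e (c := 1) (d := 1) (N' := fun _ => 0)
      (by simpa using he) (by simp) (ha.prodMap (b := 1) fun _ _ => rfl) (by simp)
    exact ⟨g, h5 ▸ nr_of_sim (rl_GU hK n).inj hg ha' fun x hx => (hM x (h5 ▸ hx)).2⟩

end Cfsg.Agent.S2671
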