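import Cfsg.Statements.S2673
import Cfsg.Agent.H13.Wall3

set_option autoImplicit false
open Cfsg

namespace Cfsg.Agent.S2673

/-- Number of conjugacy classes of elements of odd prime order r ≠ p in the orthogonal group O_(2m+1)(q) of x_0² + Σ x_j y_j, q odd: with i the multiplicative order of q mod r and t = (r − 1)/i, there are C(⌊m/i⌋ + t/2, t/2) − 1 classes if i is odd (dual pairs of totally singular i-blocks) and C(⌊(2m+1)/i⌋ + t, t) − 1 if i is even (elliptic i-blocks). -/
theorem result {F : Type*} [Field F] [Fintype F] {p q : ℕ} [Fact p.Prime] [CharP F p] (hF : Fintype.card F = q) (hq : Odd q) (m r i t : ℕ) (hr : r.Prime) (hr2 : r ≠ 2) (hrp : r ≠ p) (hi : i = orderOf (q : ZMod r)) (ht : t * i = r - 1) : Nat.card {C : ConjClasses ↥(Cfsg.isometryGroup F (Cfsg.quadFormOdd m F)) // ∃ g : ↥(Cfsg.isometryGroup F (Cfsg.quadFormOdd m F)), ConjClasses.mk g = C ∧ orderOf g = r} = if Odd i then Nat.choose (m / i + t / 2) (t / 2) - 1 else Nat.choose ((2 * m +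 1) / i + t) t - 1 := by
  subst hF
  have h0 : (2 : F) ≠ 0 := Ring.two_ne_zero fun h => by
    have := FiniteField.even_card_of_char_two h
    rw [Nat.odd_iff] at hq; omega
  have hQ := H13.nd_QOdd (m := m) h0
  rw [← H13.coe_QOdd, H13.card_classes_bil (H13.rl_O hQ) (H13.wittData_quad _ hQ) hr hr2 hrp hi ht
    False (by simp) (by simp) fun n B a hB ha h1 h2 h3 _ => ?_]
  · by_cases h : Odd i
    · simp [h, ← two_mul, ← Nat.div_div_eq_div_mul, show (1 + 2 * m) / 2 = m by omega]
    · simp [h, ← two_mul, add_comm]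
  · obtain ⟨k, hk⟩ := hB.even_finrank
    obtain ⟨S, hS, hS'⟩ := H13.exists_quad hB ha (H13.inj_sq_of_prime hr hr2 h1 h2)
    obtain ⟨e, c, -, he⟩ := (hS.prod (H13.nd_QOdd (m := m - k) h0)).equiv_QOdd (m := m)
      (by simp at h3 hk ⊢; omega)
    obtain ⟨g, hg⟩ := (H13.rl_O hQ).exists_sim_quad e he (a := a.prodMap 1) (by simp [hS'])
    exact ⟨g, H13.nr_of_sim (H13.rl_O hQ).inj hg h1 h2⟩

end Cfsg.Agent.S2673
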