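import Cfsg.Statements.S2676
import Cfsg.Agent.H7.WX4
-- import your own Cfsg.Agent.* helpers here

set_option autoImplicit false
open Classical
open Cfsg

namespace Cfsg.Agent.S2676


/-- Number of conjugacy classes of elements of order p in Sp_2m(q), q a power of the odd prime p: the classes correspond to the signed partitions of 2m — partitions with all parts at most p in which every odd part has even multiplicity, each even part size that occurs carrying a sign — other than the all-ones partition; so the count is the sum over such partitions of 2^(number of distinct even parts), minus one. -/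
theorem result {F : Type*} [Field F] [Fintype F] {p : ℕ} [Fact p.Prime] [CharP F p] (hp : p ≠ 2) (m : ℕ) : Nat.card {C : ConjClasses ↥(Matrix.symplecticGroup (Fin m) F) // ∃ g : Matrix.symplecticGroup (Fin m) F, ConjClasses.mk g = C ∧ orderOf g = p} = (∑ μ ∈ Finset.univ.filter (fun μ : Nat.Partition (2 * m) => (∀ a ∈ μ.parts, a ≤ p) ∧ ∀ j : ℕ, Odd j → Even (μ.parts.count j)), 2 ^ ((μ.parts.toFinset.filter (fun j : ℕ => Even j)).card)) - 1 := by
  have h2 : (2 : F) ≠ 0 := fun h => hp ((Nat.prime_dvd_prime_iff_eq Fact.out Nat.prime_two).1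
    ((CharP.cast_eq_zero_iff F p 2).1 h))
  have h := H7.WU.card_unip h2 (H13.rl_sp (ι := Fin m)) H12.sd_spB (n := 2 * m) (by simp [two_mul]) p
  have h1 : ∀ g, (H13.tsp (Fin m) F g - 1) ^ p = 0 ↔ g ^ p = 1 := fun g => by
    have := H13.sub_one_pow_char (F := F) p (H13.tsp (Fin m) F g) 1
    rw [pow_one] at this
    rw [this, sub_eq_zero, ← map_pow, map_eq_one_iff _ H13.rl_sp.inj]
  refine Nat.eq_sub_of_add_eq (Eq.trans ?_ h)
  refine (Set.ncard_insert_of_notMem (a := ConjClasses.mk 1) ?_ (Set.toFinite _)).symm.trans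
    (congrArg Set.ncard (Set.ext fun c => ⟨?_, ?_⟩))
  · rintro ⟨g, h3, h4⟩
    rw [ConjClasses.mk_eq_mk_iff_isConj, isConj_one_left] at h3
    exact (Fact.out : p.Prime).ne_one (by rw [← h4, h3, orderOf_one])
  · rintro (rfl | ⟨g, rfl, rfl⟩)
    exacts [⟨1, rfl, (h1 _).2 (one_pow _)⟩, ⟨g, rfl, (h1 _).2 (pow_orderOf_eq_one g)⟩]
  · rintro ⟨g, rfl, h3⟩
    by_cases e : g = 1
    exacts [.inl (congrArg _ e), .inr ⟨g, rfl, orderOf_eq_prime ((h1 g).1 h3) e⟩]

end Cfsg.Agent.S2676
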