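import Cfsg.Statements.S2686
import Cfsg.Agent.H28.BalM

set_option autoImplicit false
open Cfsg

namespace Cfsg.Agent.S2686

open H28 Matrix Subgroup
open scoped MatrixGroups

variable {F : Type*} [Field F] [Fintype F] {n : ℕ}

lemma surj_of_gam {α : MulAut PSL(n, F)} (h : α ∈ gamPSL (Fin n) F) :
    ∃ g τ, α = (dataSL (Fin n) F).d g * (dataSL (Fin n) F).f τ :=
  let ⟨g, τ, h⟩ := h; ⟨⟨g, trivial⟩, τ, h⟩

lemma mem_gam_of_odd (hn : 2 ≤ n) {α : MulAut PSL(n, F)} (h : (orderOf α).Coprime 2) :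
    α ∈ gamPSL (Fin n) F := by
  obtain ⟨k, hk⟩ := exists_sq_of_coprime h
  obtain ⟨g, σ, e | e⟩ := aut_PSL hn (α ^ k) <;> rw [hk, e]
  · exact mul_mem ⟨g, σ, rfl⟩ ⟨g, σ, rfl⟩
  · rw [mul_assoc, ← mul_assoc (iPSL _ F), ← mul_assoc (iPSL _ F), iPSL_mul_dPSL, mul_assoc,
      mul_assoc, mul_assoc, ← mul_assoc (iPSL _ F), (iPSL_commute_fPSL σ).eq, mul_assoc,
      iPSL_mul_iPSL, mul_one]
    exact mul_mem (dPSL_mem_gam g) (mul_mem (fPSL_mem_gam σ) ⟨_, σ, rfl⟩)

lemma mem_gam_of_fix (hn : 2 ≤ n) {α : MulAut PSL(n, F)} (h : ∀ i l : Fin n, i ≠ l →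
    α (tvP (Pi.single i 1) (Pi.single l 1)) = tvP (Pi.single i 1) (Pi.single l 1)) :
    α ∈ gamPSL (Fin n) F := by
  rcases hn.eq_or_lt with rfl | hn'
  · exact aut_PSL_two α
  obtain ⟨g, σ, e | rfl⟩ := aut_PSL hn α
  · exact ⟨g, σ, e⟩
  have key : ∀ i l m : Fin n, i ≠ l → i ≠ m → g.1 m l = 0 := fun i l m h1 h2 => by
    have h0 : (Pi.single l 1 : Fin n → F) ⬝ᵥ Pi.single i 1 = 0 := by simp [h1]
    have h3 : (-Pi.single i 1 : Fin n → F) ⬝ᵥ Pi.single l 1 = 0 := by simp [h1.symm]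
    have h4 := (comp_dot_comp σ _ _).trans (congrArg σ h3)
    rw [map_zero] at h4
    have := h i l h1
    rw [MulAut.mul_apply, MulAut.mul_apply, iPSL_tvP h0, fPSL_tvP σ h3, dPSL_tvP g h4,
      tvP_eq_iff (by rw [vecMul_inv_dot_mulVec, h4]) h0] at this
    have h5 := congrFun (congrFun this i) l
    have h6 := congrFun (congrFun this m) l
    simp only [vecMulVec_apply, Pi.single_eq_same, mul_one, Pi.single_eq_of_ne h2.symm] at h5 h6
    simpa [mulVec, dotProduct, Pi.single_apply, apply_ite σ] using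
      (mul_eq_zero.1 h6).resolve_right (right_ne_zero_of_mul_eq_one h5)
  refine absurd (Matrix.ext fun m l => ?_) (have : NeZero n := ⟨by omega⟩; g.ne_zero)
  obtain ⟨i, h1, h2⟩ := H12.exists_third (i := l) (j := m) (by simpa using hn'.succ_le)
  exact key i l m h1 h2

lemma cj_id (u : GL (Fin n) F) : cj (RingHom.id F) 1 u = u := by simp [cj_apply]

lemma graph (hn : 3 ≤ n) [IsSimpleGroup PSL(n, F)] (h2 : (2 : F) ≠ 0) (g : GL (Fin n) F)
    (e : (dPSL _ F g * iPSL _ F) ^ 2 = 1) (P : Prop) : Bal 2 (dPSL _ F g * iPSL _ F) P := by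
  have : Nontrivial (Fin n) := Fin.nontrivial_iff_two_le.2 (by omega)
  have h1 : ∀ a, Commute (dPSL _ F a) (dPSL _ F g * iPSL _ F) ↔
      πGL _ F (trGL a * g⁻¹ * a) = πGL _ F g⁻¹ := fun a => by
    rw [Commute, SemiconjBy, mul_assoc, iPSL_mul_dPSL, ← mul_assoc, ← mul_assoc, mul_left_inj,
      ← map_mul, ← map_mul, dPSL_eq_iff, ← πGL_eq_iff, invT_apply, trGL_inv]
    simp only [map_mul, map_inv]
    exact ⟨fun h => by rw [eq_mul_inv_iff_mul_eq.2 h.symm]; group, fun h => by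
      rw [eq_mul_inv_iff_mul_eq.2 (eq_mul_inv_iff_mul_eq.2 h)]; group⟩
  rw [mul_pow_eq_nrm _ iPSL_mul_dPSL, pow_two, iPSL_mul_iPSL, mul_one, nrm_two, dPSL_eq_one_iff,
    ← πGL_eq_one_iff, map_mul, ← eq_inv_iff_mul_eq_one, ← inv_eq_iff_eq_inv, ← map_inv, eq_comm,
    πGL_eq_iff] at e
  obtain ⟨c, hc⟩ := e
  obtain ⟨L, e1, e2, e3, e4⟩ := exists_form_group h2 (by simpa) g⁻¹ (c := c)
    ((congrArg Units.val hc).trans (coe_scalar_mul _ _))
  refine triv_SL.bal (RingHom.id F) 1 L.subtype L.subtype_injective e1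
    (fun s => mem_range_toGL.2 (by rw [cj_id]; exact (e3 s s.2).1))
    (fun τ h => by rw [show τ = 1 from RingEquiv.ext h, one_pow])
    (fun s a ha => (h1 a).2 (congrArg _ (Units.ext ?_))) (fun _ => e2) (fun a ha => ?_)
    fun α h _ => surj_of_gam (mem_gam_of_odd (by omega) h)
  · rw [ha, cj_id]; exact (e3 s s.2).2
  · obtain ⟨b, hb⟩ := πGL_eq_iff.1 ((h1 a).1 ha)
    exact ⟨1, a, by simp [cj_id], fun s =>
      ⟨⟨_, e4 a b ((congrArg Units.val hb).trans (coe_scalar_mul _ _)) s s.2⟩, rfl⟩⟩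

lemma graphField (hn : 3 ≤ n) [IsSimpleGroup PSL(n, F)] (hr : Nat.Coprime 2 (ringChar F))
    {σ : F ≃+* F} (ho : orderOf σ = 2) (P : Prop) : Bal 2 (fPSL (Fin n) F σ * iPSL _ F) P := by
  have : Nontrivial (Fin n) := Fin.nontrivial_iff_two_le.2 (by omega)
  have hF : Fintype.card F = Nat.card (fixF σ) ^ 2 := by
    rw [← ho, card_fixF_pow, Nat.card_eq_fintype_card]
  have h1 := comap_centralizer_fiPSL (n := n) ho (apply_eq_pow_of_orderOf_two hF ho)
  refine triv_SL.bal (RingHom.id F) 1 (jSU n F _) jSU_injective (schurM_SU hF hn)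
    (fun s => ⟨s.1, (cj_id _).symm⟩) (fun τ h => by rw [show τ = 1 from RingEquiv.ext h, one_pow])
    (fun s a ha => mem_centralizer_singleton_iff.1 (h1.ge (mem_sup_right ?_)))
    (fun _ => core_PSU hF (by omega) hr (dvd_card_PSU hF hn ?_)) (fun a ha => ?_)
    fun α h _ => surj_of_gam (mem_gam_of_odd (by omega) h)
  · rw [coe_subtype, ha, cj_id]; exact s.2
  · have := H13.odd_card_of_two_ne_zero (two_ne_zero_of_coprime hr)
    rw [hF, pow_two] at this
    exact (Nat.Odd.of_mul_left this).add_one.two_dvd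
  · obtain ⟨_, hz, u, hu, e⟩ := mem_sup_of_normal_left.1
      (h1.le (mem_centralizer_singleton_iff.2 ha))
    obtain ⟨z, rfl⟩ := mem_center_GL_iff.1 hz
    exact ⟨z, u, by rw [cj_id, e]; rfl, (dataSU n hF).conj_mem u hu⟩

/-- A criterion for the failure of local balance in almost simple groups with linear socle. Let F be a finite field of characteristic r and K = PSL_n(F) (n ≥ 2) simple. Let A be a group of automorphisms of K containing all inner automorphisms (an almost simple group with socle K), and β ∈ A an automorphism of prime order p ≠ r that is not inner-diagonal (not induced by conjugation by an invertible matrix). Then the largest normal subgroup of C_A(β) of order prime to p is nontrivial if and only if β is the composite of an inner-diagonal automorphism with the automorphism induced by a field automorphism applied entrywise (β is of field type) and p does not divide the number of fixed points of β on K. -/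
theorem result
    (F : Type*) [Field F] [Fintype F] (r : ℕ) [Fact r.Prime] [CharP F r] (n : ℕ) (hn : 2 ≤ n)
    (hK : IsSimpleGroup (Matrix.ProjectiveSpecialLinearGroup (Fin n) F))
    (𝒢 : Subgroup (MulAut (Matrix.ProjectiveSpecialLinearGroup (Fin n) F))) (hinn : ∀ k : Matrix.ProjectiveSpecialLinearGroup (Fin n) F, MulAut.conj k ∈ 𝒢)
    (p : ℕ) [Fact p.Prime] (hpr : p ≠ r) (β : MulAut (Matrix.ProjectiveSpecialLinearGroup (Fin n) F)) (hβ : β ∈ 𝒢) (hord : orderOf β = p)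
    (hnot : ¬ Cfsg.IsInnerDiagonalAutPSL β) :
    Cfsg.pPrimeCore p ↥(𝒢 ⊓ Subgroup.centralizer {β}) ≠ ⊥ ↔
      ((∃ γ φ : MulAut (Matrix.ProjectiveSpecialLinearGroup (Fin n) F), Cfsg.IsInnerDiagonalAutPSL γ ∧ Cfsg.IsFieldAutPSL φ ∧ β = φ.trans γ) ∧
        Nat.Coprime p (Nat.card ↥(MonoidHom.eqLocus β.toMonoidHom (MonoidHom.id (Matrix.ProjectiveSpecialLinearGroup (Fin n) F))))) := by
  have : Nontrivial (Fin n) := Fin.nontrivial_iff_two_le.2 hn
  have hr := coprime_ringChar (F := F) hpr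
  have e0 := hord ▸ pow_orderOf_eq_one β
  rw [isInnerDiagonalAutPSL_iff] at hnot
  by_cases hβ : β ∈ gamPSL (Fin n) F
  · obtain ⟨g, σ, rfl⟩ := hβ
    have hσ : σ ≠ 1 := fun e => hnot ⟨g, by simp [e]⟩
    obtain ⟨ho, -⟩ := triv_SL.orderOf_σ (g := ⟨g, trivial⟩) e0 hσ
    have := Fintype.ofFinite (fixF σ)
    obtain ⟨j, hj⟩ := exists_ringHom_range_fixF σ (fixF σ) rfl
    obtain ⟨u, -, hu⟩ := lang_fPSL σ ⟨g, rfl⟩ (ho ▸ e0)
    refine Bal.conj u⁻¹ ?_ 𝒢 hinn
    rw [show u⁻¹ * (dPSL _ F g * fPSL _ F σ) * u⁻¹⁻¹ = fPSL _ F σ by rw [hu]; group]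
    refine triv_SL.bal_field triv_SL hj ho schur_SL (fun s => mem_range_toGL.2 ?_)
      (((GeneralLinearGroup.map j).comp (Subgroup.subtype _)).codRestrict _ fun _ => trivial)
      (fun _ => rfl) ?_ (core_PSL hn (ringChar_eq_of_hom j ▸ hr)) (fun u => ?_) (dvd_card_PSL hn)
      (fun α _ h => surj_of_gam (mem_gam_of_fix hn fun i l hl => h (tvSL (Pi.single i 1)
        (Pi.single l 1)) _ (Units.ext ?_))) ⟨_, _, isInnerDiagonalAutPSL_iff.2 ⟨g, rfl⟩,
        isFieldAutPSL_iff.2 ⟨σ, rfl⟩, rfl⟩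
    · rw [← GeneralLinearGroup.val_det_apply, GeneralLinearGroup.map_det]
      exact (congrArg j s.2).trans (map_one j)
    · refine le_antisymm (fun a ha => ?_) (sup_le (ker_le_comap _ _) ?_)
      · obtain ⟨z, hz, _, ⟨u, rfl⟩, e⟩ := mem_sup_of_normal_left.1
          ((comap_centralizer_fPSL j hj).le ha)
        rw [show a = ⟨z, trivial⟩ * ⟨_, trivial⟩ from Subtype.ext e.symm]
        exact mul_mem_sup (dPSL_eq_one_iff.2 hz) ⟨⟨u, trivial⟩, rfl⟩
      · rintro _ ⟨u, rfl⟩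
        exact (comap_centralizer_fPSL j hj).ge (mem_sup_right ⟨u, rfl⟩)
    · rw [inn_PSL_eq', dataSL_d, ← map_pow]
      exact ⟨_, MonoidHom.mem_ker.2 (by
        rw [map_pow, ← Nat.card_eq_fintype_card, ← Nat.card_units, pow_card_eq_one']), rfl⟩
    · change (tvSL _ _).1 = (tvSL _ _).1.map j
      rw [coe_tvSL (by simp [hl]), coe_tvSL (by simp [hl])]
      ext; simp [vecMulVec_apply, one_apply, Pi.single_apply, apply_ite j]
  have hn' : 3 ≤ n := hn.lt_of_ne (by rintro rfl; exact hβ (aut_PSL_two β))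
  obtain rfl : p = 2 := by_contra fun h => hβ (mem_gam_of_odd hn
    (hord ▸ (Nat.coprime_primes Fact.out Nat.prime_two).2 h))
  obtain ⟨g, σ, e | rfl⟩ := aut_PSL hn β
  · exact absurd ⟨g, σ, e⟩ hβ
  by_cases hσ : σ = 1
  · subst hσ
    rw [map_one, mul_one] at e0 ⊢
    exact graph hn' (two_ne_zero_of_coprime hr) g e0 _ 𝒢 hinn
  rw [mul_assoc] at e0 ⊢
  have ho : orderOf σ = 2 := by
    obtain ⟨τ, h1, h2⟩ := exists_typ_PSL (F := F) hn'
    have := congrArg τ e0
    rw [map_pow, map_mul, show τ (dPSL _ F g) = 1 from h1.ge ⟨g, rfl⟩, one_mul, ← fiPSL_ofAdd, h2,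
      map_one τ] at this
    exact orderOf_eq_prime (congrArg Prod.fst this) hσ
  obtain ⟨u, -, hu⟩ := lang_fiPSL ho ⟨g, rfl⟩ e0
  refine Bal.conj u⁻¹ ?_ 𝒢 hinn
  rw [show u⁻¹ * (dPSL _ F g * (fPSL _ F σ * iPSL _ F)) * u⁻¹⁻¹ = fPSL _ F σ * iPSL _ F by
    rw [hu]; group]
  exact graphField hn' hr ho _

end Cfsg.Agent.S2686
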