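import Cfsg.Statements.S2687
import Cfsg.Agent.H28.BalM
import Cfsg.Agent.S0282

set_option autoImplicit false
open Cfsg

namespace Cfsg.Agent.S2687

open H28 Matrix Subgroup

lemma graph {F : Type*} [Field F] [Fintype F] {n q : ℕ} (hF : Fintype.card F = q ^ 2) (hn : 3 ≤ n)
    [IsSimpleGroup (PSU n F q)] (hS : (dataSU n hF).Surj) (h2 : (2 : F) ≠ 0) {θ : F ≃+* F}
    (ho : orderOf θ = 2) (g : (dataSU n hF).Δ)
    (e : nrm (fieldGL _ F θ) g.1 (orderOf θ) ∈ center _) (P : Prop) :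
    Bal 2 ((dataSU n hF).d g * (dataSU n hF).f θ) P := by
  have : Nontrivial (Fin n) := Fin.nontrivial_iff_two_le.2 (by omega)
  have hT := triv_SU hF hn
  have hθ := apply_eq_pow_of_orderOf_two hF ho
  have hU : ∀ a : (dataSU n hF).Δ, uniT _ θ a.1 = a := fun a => (mem_GU_iff_uniT hθ).1 a.2
  have := Fintype.ofFinite (fixF θ)
  obtain ⟨j, hj⟩ := exists_ringHom_range_fixF θ (fixF θ) rfl
  obtain ⟨k, z, h0⟩ := h90_PGL θ g.1 e
  have h1 : fieldGL _ F θ k = g.1⁻¹ * (GeneralLinearGroup.scalar _ z * k) := by rw [← h0]; simp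
  obtain ⟨z1, M, h3⟩ := exists_map_of_πGL_eq hj (g := (uniT _ θ k)⁻¹ * k) (by
    rw [map_mul (fieldGL _ F θ), map_inv (fieldGL _ F θ), ← uniT_fieldGL, h1]
    simp [hU, uniT_scalar])
  have h4 : πGL _ F (GeneralLinearGroup.map j M) = πGL _ F ((uniT _ θ k)⁻¹ * k) := by
    rw [h3]; simp
  have h5 : ∀ u : GL (Fin n) (fixF θ), GeneralLinearGroup.map j (trGL u) =
      (uniT _ θ (GeneralLinearGroup.map j u))⁻¹ := fun u => by
    rw [uniT_map (τ := 1) fun a => (hj _).1 ⟨a, rfl⟩, ← map_inv, ← map_inv]; rfl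
  have h6 : ∀ u v : GL (Fin n) (fixF θ), πGL _ F (GeneralLinearGroup.map j u) =
      πGL _ F (GeneralLinearGroup.map j v) → ∃ c : (fixF θ), u.1 = c • v.1 := fun u v h => by
    obtain ⟨c, hc⟩ := πGL_eq_iff.1 ((πGL_map_eq_iff j).1 h)
    exact ⟨c, by rw [hc, coe_scalar_mul]⟩
  obtain ⟨c, hc⟩ := h6 (trGL M) M (by
    rw [h5, map_inv, πGL_aut, h4, ← πGL_aut]
    simp [uniT_uniT (apply_apply_of_orderOf_two ho)])
  obtain ⟨L, e1, e2, e3, e4⟩ := exists_form_group (by rwa [← map_ofNat j, map_ne_zero] at h2)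
    (by simpa) M hc
  refine hT.bal j k L.subtype L.subtype_injective e1 (fun s => mem_range_jSU.2 ⟨?_, ?_⟩)
    (fun τ h => ho ▸ pow_eq_one_of_fix fun x hx => by obtain ⟨a, rfl⟩ := (hj x).2 hx; exact h a)
    (fun s a ha => hT.commute_iff.2 ?_) (fun _ => e2) (fun a ha => ?_) fun α _ _ => hS α
  · have h7 := congrArg (GeneralLinearGroup.map j) (show trGL s.1 * M * s = M from
      Units.ext (e3 s s.2).2)
    rw [map_mul, map_mul, h5, mul_assoc, inv_mul_eq_iff_eq_mul, ← mul_inv_eq_iff_eq_mul] at h7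
    rw [mem_GU_iff_uniT hθ, cj_apply, map_mul, map_mul, map_inv, coe_subtype, ← h7]
    generalize uniT _ θ k = U at h3 ⊢
    rw [inv_mul_eq_iff_eq_mul.1 h3, GeneralLinearGroup.scalar_commute, ← mul_assoc U _
      (GeneralLinearGroup.scalar _ z1), mul_assoc _ (GeneralLinearGroup.scalar _ z1),
      GeneralLinearGroup.scalar_commute]
    group
  · rw [cj_apply, Units.val_mul, Units.val_mul, det_mul, det_mul, det_coe_inv,
      ← GeneralLinearGroup.val_det_apply (GeneralLinearGroup.map j _), GeneralLinearGroup.map_det]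
    simp [(e3 s s.2).1, k.det_ne_zero]
  · rw [ha, cj_apply, map_mul (fieldGL _ F θ), map_mul (fieldGL _ F θ), map_inv (fieldGL _ F θ),
      h1, fieldGL_map hj]
    simp [mul_assoc]
  · rw [hT.commute_iff, map_mul, map_mul] at ha
    obtain ⟨w, u, hu⟩ := exists_map_of_πGL_eq hj (g := k⁻¹ * a.1 * k) (by
      rw [map_mul (fieldGL _ F θ), map_mul (fieldGL _ F θ), map_inv (fieldGL _ F θ), h1]
      simp [mul_assoc, eq_mul_inv_iff_mul_eq.2 ha])
    have h7 : πGL _ F (GeneralLinearGroup.map j u) = πGL _ F (k⁻¹ * a.1 * k) := by rw [hu]; simp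
    obtain ⟨b, hb⟩ := h6 (trGL u * M * u) M (by
      rw [map_mul, map_mul, map_mul, map_mul, h5, map_inv, πGL_aut, h4, h7, ← πGL_aut]
      simp [hU, mul_assoc])
    refine ⟨w, u, ?_, fun s => ⟨⟨_, e4 u b hb s s.2⟩, rfl⟩⟩
    rw [cj_apply, ← mul_assoc, ← mul_assoc, GeneralLinearGroup.scalar_commute, mul_assoc k, ← hu]
    simp [mul_assoc]

/-- A criterion for the failure of local balance in almost simple groups with unitary socle. Let F be a finite field of characteristic r with q² elements and K = PSU_n(q) (n ≥ 3, the central quotient of the determinant-one isometries of the standard Hermitian form) simple. Let A be a group of automorphisms of K containing all inner automorphisms, and β ∈ A an automorphism of prime order p ≠ r that is not inner-diagonal (not induced by conjugation by a matrix of the general unitary group). Then the largest normal subgroup of C_A(β) of order prime to p is nontrivial if and only if β is the composite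 of an inner-diagonal automorphism with the automorphism induced by a field automorphism of F applied entrywise and p does not divide the number of fixed points of β on K. -/
theorem result
    (F : Type*) [Field F] [Fintype F] (r : ℕ) [Fact r.Prime] [CharP F r] (q : ℕ) (hF : Fintype.card F = q ^ 2)
    (n : ℕ) (hn : 3 ≤ n) (hK : IsSimpleGroup (Cfsg.PSU n F q))
    (𝒢 : Subgroup (MulAut (Cfsg.PSU n F q))) (hinn : ∀ k : Cfsg.PSU n F q, MulAut.conj k ∈ 𝒢)
    (p : ℕ) [Fact p.Prime] (hpr : p ≠ r) (β : MulAut (Cfsg.PSU n F q)) (hβ : β ∈ 𝒢) (hord : orderOf β = p)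
    (hnot : ¬ Cfsg.IsInnerDiagonalAutPSU β) :
    Cfsg.pPrimeCore p ↥(𝒢 ⊓ Subgroup.centralizer {β}) ≠ ⊥ ↔
      ((∃ γ φ : MulAut (Cfsg.PSU n F q), Cfsg.IsInnerDiagonalAutPSU γ ∧ (∃ σ : F ≃+* F, Cfsg.IsFieldAutPSUOf σ φ) ∧ β = φ.trans γ) ∧
        Nat.Coprime p (Nat.card ↥(MonoidHom.eqLocus β.toMonoidHom (MonoidHom.id (Cfsg.PSU n F q))))) := by
  have hs : ¬ (n = 3 ∧ q = 2) := by
    rintro ⟨rfl, rfl⟩
    obtain ⟨h1, h2⟩ := S0282.result hF
    have : IsMulCommutative (PSU 3 F 2) := ⟨⟨IsSimpleGroup.comm_iff_isSolvable.2 h2⟩⟩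
    exact absurd (h1 ▸ Group.is_simple_iff_prime_card.1 hK) (by decide)
  have : Nontrivial (Fin n) := Fin.nontrivial_iff_two_le.2 (by omega)
  have hT := triv_SU hF hn
  have hS := surj_SU hF hn hs
  have hr := coprime_ringChar (F := F) hpr
  obtain ⟨g, σ, rfl⟩ := hS β
  have hσ : σ ≠ 1 := fun e => hnot ((isInnerDiagonalAutPSU_iff hF).2 ⟨g, by simp [e]⟩)
  have e0 := hord ▸ pow_orderOf_eq_one _
  obtain ⟨ho, e⟩ := hT.orderOf_σ e0 hσ
  by_cases h2 : p = 2
  · subst h2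
    exact graph hF hn hS (two_ne_zero_of_coprime hr) ho g (ho ▸ e) _ 𝒢 hinn
  have ho' : Odd (orderOf σ) := ho ▸ (Fact.out : p.Prime).odd_of_ne_two h2
  obtain ⟨r', f, hr', _, hq⟩ := H12.exists_pow_of_card_eq_sq hF
  have := Fact.mk hr'
  obtain ⟨h1, h2⟩ := card_fixF (p := r') (f := 2 * f) (by rw [hF, hq, ← pow_mul, mul_comm]) σ
  have h3 : orderOf σ ∣ f := (Nat.coprime_two_right.2 ho').dvd_of_dvd_mul_left h1
  have := Fintype.ofFinite (fixF σ)
  obtain ⟨j, hj⟩ := exists_ringHom_range_fixF σ (fixF σ) rfl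
  have hK : Fintype.card (fixF σ) = (r' ^ (f / orderOf σ)) ^ 2 := by
    rw [← Nat.card_eq_fintype_card, h2, ← pow_mul, Nat.mul_div_assoc _ h3, mul_comm]
  have h4 : ∀ a : fixF σ, a ^ q = a ^ r' ^ (f / orderOf σ) := fun a => by
    rw [← pow_pow_odd hK ho', ← pow_mul, Nat.div_mul_cancel h3, hq]
  obtain ⟨u, -, hu⟩ := hT.lang σ (lang_GU hF hK h4 hj) ⟨g, rfl⟩ (ho ▸ e0)
  refine Bal.conj u⁻¹ ?_ 𝒢 hinn
  generalize_proofs
  rw [show u⁻¹ * ((dataSU n hF).d g * (dataSU n hF).f σ) * u⁻¹⁻¹ = (dataSU n hF).f σ by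
    rw [hu]; group]
  refine hT.bal_field (triv_SU hK hn) hj ho (schurM_SU hK hn) (fun s => mem_range_jSU.2
    ⟨(mapGU n hF hK j h4 ⟨_, s.2⟩).2, ?_⟩) _ (fun _ => rfl) (comap_centralizer_SU hF hK hn h4 hj)
    (core_PSU hK (by omega) (ringChar_eq_of_hom j ▸ hr)) (fun u => ?_) (dvd_card_PSU hK hn)
    (fun α _ _ => hS α) ⟨_, _, (isInnerDiagonalAutPSU_iff hF).2 ⟨g, rfl⟩,
      ⟨σ, (isFieldAutPSUOf_iff hF).2 rfl⟩, rfl⟩
  · rw [← GeneralLinearGroup.val_det_apply, GeneralLinearGroup.map_det]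
    exact (congrArg j s.1.2).trans (map_one j)
  · rw [(dataSU n hK).inn_eq, ← ker_detGU hK, ← map_pow]
    exact ⟨_, MonoidHom.mem_ker.2 ((map_pow _ _ _).trans (Subtype.ext (detGU hK n u).2)), rfl⟩

end Cfsg.Agent.S2687
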