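import Cfsg.Statements.S2718
import Cfsg.Agent.H13.GA6

set_option autoImplicit false
open Cfsg

namespace Cfsg.Agent.S2718

/-- Let T = PΩ⁺_{2m}(F) with m ≥ 4 and |F| = q odd, G = Inndiag(T), and γ an involutory graph automorphism of T induced by a similarity (one interchanging the two classes of maximal totally singular subspaces). Then the G-class of γ is either a single T-class or the union of exactly two T-classes, and it is the union of two unless m is odd and q ≡ 3 (mod 4). -/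
theorem result {F : Type*} [Field F] [Fintype F] (hodd : Odd (Fintype.card F)) {m : ℕ} (hm : 4 ≤ m) (γ : MulAut (Cfsg.POmega F (Cfsg.quadFormPlus m F))) (hγ : Cfsg.IsSimilarityGraphAutPOmegaPlus m γ) (hγ2 : orderOf γ = 2) :
    (Cfsg.splitClassCount (Cfsg.inndiagPOmegaPlus m F) (Cfsg.Inn (Cfsg.POmega F (Cfsg.quadFormPlus m F))) γ = 1 ∨ Cfsg.splitClassCount (Cfsg.inndiagPOmegaPlus m F) (Cfsg.Inn (Cfsg.POmega F (Cfsg.quadFormPlus m F))) γ = 2) ∧ (¬ (Odd m ∧ Fintype.card F % 4 = 3) → Cfsg.splitClassCount (Cfsg.inndiagPOmegaPlus m F) (Cfsg.Inn (Cfsg.POmega F (Cfsg.quadFormPlus m F))) γ = 2) := by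
  have h := H28.ev_QPlus (F := F) (m := m) (by omega)
  obtain ⟨g, ⟨c, hc⟩, h1, h2⟩ := hγ
  let s : H28.OSim (H13.QPlus m F) :=
    ⟨H13.SemiSim.ofLinear (H13.glEquiv _ F g) c c.ne_zero hc, rfl⟩
  obtain rfl := (H28.induced_iff (s := s) fun _ => rfl).1 h2
  have := H13.split_graph (H13.two_ne_zero_of_odd_card hodd) h (s := s)
    ((Int.units_eq_one_or _).resolve_left fun e =>
      h1 ((h.preserves_iff (H13.isPlus_QPlus m) fun _ => rfl).2 e)) (H28.ker_aut h.nd h.five) hγ2
  rw [← H28.inn_eq_ZΩ h.nd h.five, ← H28.inndiagPlus_eq h] at this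
  exact ⟨this.1, fun H => this.2 (.inl ((H28.disc_QPlus_eq_one_iff hodd).2 H))⟩

end Cfsg.Agent.S2718
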