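import Cfsg.Statements.S2719
import Cfsg.Agent.H13.GA6

set_option autoImplicit false
open Cfsg

namespace Cfsg.Agent.S2719

/-- Let T = PΩ⁻_{2m+2}(F) with m ≥ 3 and |F| = q odd (form with anisotropic binary part z₁² + a z₁ z₂ + b z₂²), G = Inndiag(T), and γ an involutory graph automorphism of T (an automorphism in the image of the semisimilarity group, not inner-diagonal, of order 2). Then the G-class of γ is either a single T-class or the union of exactly two T-classes, and it is the union of two unless m is even and q ≡ 1 (mod 4). -/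
theorem result {F : Type*} [Field F] [Fintype F] (hodd : Odd (Fintype.card F)) {m : ℕ} (hm : 3 ≤ m) (a b : F) (hab : (∀ z₁ z₂ : F, z₁ ^ 2 + a * z₁ * z₂ + b * z₂ ^ 2 = 0 → z₁ = 0 ∧ z₂ = 0)) (γ : MulAut (Cfsg.POmega F (Cfsg.quadFormMinus m F a b))) (hγ : Cfsg.IsGraphAutClassPOmegaMinus m a b γ) (hγ2 : orderOf γ = 2) :
    (Cfsg.splitClassCount (Cfsg.inndiagPOmegaMinus m F a b) (Cfsg.Inn (Cfsg.POmega F (Cfsg.quadFormMinus m F a b))) γ = 1 ∨ Cfsg.splitClassCount (Cfsg.inndiagPOmegaMinus m F a b) (Cfsg.Inn (Cfsg.POmega F (Cfsg.quadFormMinus m F a b))) γ = 2) ∧ (¬ (Even m ∧ Fintype.card F % 4 = 1) → Cfsg.splitClassCount (Cfsg.inndiagPOmegaMinus m F a b) (Cfsg.Inn (Cfsg.POmega F (Cfsg.quadFormMinus m F a b))) γ = 2) := by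
  have h := H28.ev_QMinus (F := F) (m := m) (by omega) hab
  obtain ⟨s, rfl⟩ := H28.aut_surjective h.nd (by rw [h.dim]; omega)
    (fun _ => H13.not_isPlus_QMinus hab) γ
  have hA := H28.ker_aut h.nd h.five
  have h1 : s.σ = 1 := by
    by_contra h1
    obtain ⟨h2, h3⟩ := H28.orderOf_σ hA Nat.prime_two (s := s)
      ((congrArg _ hγ2.symm).trans (pow_orderOf_eq_one _)) h1
    obtain ⟨z, R, D, e1, -⟩ := H28.exists_desc h.nd s h3 (H28.fixF s.σ).subtype
      (by simp [H28.mem_fixF])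
    have hP := H13.not_isPlus_QMinus (m := m) hab
    obtain ⟨a', b', hab'⟩ := H13.exists_anisotropic_binary (H28.fixF s.σ)
    obtain ⟨e, he⟩ := (D.nd h.nd).equiv_QMinus (mt D.isPlus hP) (m := m)
      (by rw [← D.dim, h.dim]; omega) hab'
    obtain ⟨e', -, he'⟩ := ((H28.descMinus m D.j a' b').pre
      (H13.SemiSim.ofIsometry e he)).exists_sim D rfl
    obtain ⟨t, ht⟩ := (H28.exists_root_iff (K := F) hab').2 (by rw [H28.finrank_fixF, h2])
    exact hP (H13.IsPlus.of_semiSim (H13.SemiSim.ofLinear e' _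
      (div_ne_zero D.b_ne (H28.Desc.b_ne _)) he') (H28.isPlus_QMinus_of_root (t := t) (e1 ▸ ht)))
  have := H13.split_graph (H13.two_ne_zero_of_odd_card hodd) h (s := ⟨s, h1⟩)
    ((Int.units_eq_one_or _).resolve_left fun e =>
      hγ.2.1 ((H28.inndiagMinus_eq hab h).ge ⟨s, (h.mem_Sp (s := ⟨s, h1⟩)).2 e, rfl⟩)) hA hγ2
  rw [← H28.inn_eq_ZΩ h.nd h.five, ← H28.inndiagMinus_eq hab h] at this
  refine ⟨this.1, fun H => this.2 ?_⟩
  rw [H28.disc_QMinus_eq_one_iff hodd hab, Nat.even_add_one]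
  have := Nat.odd_iff.1 hodd
  by_cases h2 : Even m
  · exact .inl ⟨h2, by simp only [h2, true_and] at H; omega⟩
  · exact .inr h2

end Cfsg.Agent.S2719
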