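import Cfsg.Statements.S2730
import Cfsg.Agent.H28.Sp4A

set_option autoImplicit false
open Cfsg

namespace Cfsg.Agent.S2730

open H28 Matrix Subgroup

/-- A criterion for the failure of local balance in almost simple groups whose socle is a projective symplectic group PSp_{2m}(F) (m ≥ 2, (2m, |F|) ≠ (4, 2)). Let F be a finite field of characteristic r and K the (simple) group in question; let A be a group of automorphisms of K containing all inner automorphisms, and x ∈ A an automorphism of prime order p ≠ r that is not inner-diagonal (not induced by a conformal symplectic matrix). Then the largest normal subgroup of C_A(x) of order prime to p is nontrivial if and only if x is a field automorphism of K (conjugate under Aut(K) to a non-identity standard field automorphism) and p does not divide the number of fixed points of x on K. -/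
theorem result {F : Type*} [Field F] [Fintype F] {r : ℕ} [Fact r.Prime] [CharP F r] {m : ℕ} (hm : 2 ≤ m) (hs : m = 2 → 3 ≤ Fintype.card F) (hK : IsSimpleGroup (Cfsg.PSp m F)) (A : Subgroup (MulAut (Cfsg.PSp m F))) (hinn : ∀ k : Cfsg.PSp m F, MulAut.conj k ∈ A) {p : ℕ} [Fact p.Prime] (hpr : p ≠ r) (x : MulAut (Cfsg.PSp m F)) (hxA : x ∈ A) (hord : orderOf x = p) (hnot : ¬ Cfsg.IsInnerDiagonalAutPSp x) :
    Cfsg.pPrimeCore p ↥(A ⊓ Subgroup.centralizer {x}) ≠ ⊥ ↔ (Cfsg.IsFieldAutClassPSp x ∧ Nat.Coprime p (Nat.card ↥(MonoidHom.eqLocus x.toMonoidHom (MonoidHom.id (Cfsg.PSp m F))))) := by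
  have : Nontrivial (Fin m ⊕ Fin m) := ⟨.inl ⟨0, by omega⟩, .inr ⟨0, by omega⟩, by simp⟩
  have hT := triv_Sp (F := F) hm
  have hr := coprime_ringChar (F := F) hpr
  obtain ⟨g, σ, rfl⟩ : x ∈ (dataSp m F).gam := by
    by_cases h2 : m = 2 ∧ (2 : F) = 0
    · obtain ⟨rfl, h2⟩ := h2
      refine mem_gamSp_of_odd h2 (hord ▸ ?_)
      rwa [CharP.ringChar_of_prime_eq_zero Nat.prime_two (by exact_mod_cast h2)] at hr
    · exact surj_Sp hm (fun e e' => h2 ⟨e, e'⟩) x
  have hσ : σ ≠ 1 := fun e => hnot (isInnerDiagonalAutPSp_iff.2 ⟨g, by simp [e]⟩)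
  have e0 := hord ▸ pow_orderOf_eq_one _
  obtain ⟨ho, -⟩ := hT.orderOf_σ e0 hσ
  have := Fintype.ofFinite (fixF σ)
  obtain ⟨j, hj⟩ := exists_ringHom_range_fixF σ (fixF σ) rfl
  obtain ⟨u, -, hu⟩ := hT.lang σ (lang_GSp σ) ⟨g, rfl⟩ (ho ▸ e0)
  replace hu : u⁻¹ * ((dataSp m F).d g * (dataSp m F).f σ) * u⁻¹⁻¹ = (dataSp m F).f σ := by
    rw [hu]; group
  refine Bal.conj u⁻¹ ?_ A hinn
  rw [hu]
  have hr' := ringChar_eq_of_hom j ▸ hr
  refine hT.bal_field (triv_Sp hm) hj ho (schurM_Sp hm) (fun s => mem_range_jSp.2 ?_) _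
    (fun _ => rfl) (comap_centralizer_Sp hm hj) (core_PSp (by omega) hr') (e := 2) (fun u => ?_)
    (fun h => ?_) (fun α _ h => ?_) ⟨u⁻¹, σ, hσ, isStdFieldAutPSp_iff.2 hu⟩
  · exact (fieldGL_J j ((mem_range_jSp.1 ⟨s, rfl⟩).trans (one_smul _ _).symm)).trans (by simp)
  · obtain ⟨k, h1, h2⟩ : multSp (by omega) u ^ 2 ∈
        (dataSp m (fixF σ)).d.ker.map (multSp (by omega)) := (map_ker_Sp hm).ge ⟨_, rfl⟩
    rw [(dataSp m _).inn_eq, ← ker_multSp (by omega)]
    exact ⟨k⁻¹ * u ^ 2, by simp [h2], by simp [MonoidHom.mem_ker.1 h1]⟩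
  · obtain rfl := (Nat.prime_dvd_prime_iff_eq Fact.out Nat.prime_two).1 h
    exact two_dvd_card_PSp (by omega) (two_ne_zero_of_coprime hr')
  · by_cases h2 : m = 2 ∧ (2 : F) = 0
    · obtain ⟨rfl, h2⟩ := h2
      refine mem_gamSp_of_fix h2 (h (t4 _) _ (Units.ext ?_))
      change (t4 F).1 = (t4 _).1.map j
      ext; simp [t4, one_apply, single, apply_ite j]
    · exact surj_Sp hm (fun e e' => h2 ⟨e, e'⟩) α

end Cfsg.Agent.S2730
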