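import Cfsg.Statements.S2731
import Cfsg.Agent.H28.BalO

set_option autoImplicit false
open Cfsg

namespace Cfsg.Agent.S2731



/-- A criterion for the failure of local balance in almost simple groups whose socle is an odd-dimensional orthogonal group Ω_{2m+1}(F) (m ≥ 3, |F| odd; the form x₀² + Σ xᵢ yᵢ). Let F be a finite field of characteristic r and K the (simple) group in question; let A be a group of automorphisms of K containing all inner automorphisms, and x ∈ A an automorphism of prime order p ≠ r that is not inner-diagonal (not induced by a similarity of the form). Then the largest normal subgroup of C_A(x) of order prime to p is nontrivial if and only if x is a field automorphism of K (conjugate under Aut(K) to a non-identity standard field automorphism) and p does not divide the number of fixed points of x on K. -/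
theorem result {F : Type*} [Field F] [Fintype F] {r : ℕ} [Fact r.Prime] [CharP F r] (hodd : Odd (Fintype.card F)) {m : ℕ} (hm : 3 ≤ m) (hK : IsSimpleGroup (Cfsg.POmega F (Cfsg.quadFormOdd m F))) (A : Subgroup (MulAut (Cfsg.POmega F (Cfsg.quadFormOdd m F)))) (hinn : ∀ k : Cfsg.POmega F (Cfsg.quadFormOdd m F), MulAut.conj k ∈ A) {p : ℕ} [Fact p.Prime] (hpr : p ≠ r) (x : MulAut (Cfsg.POmega F (Cfsg.quadFormOdd m F))) (hxA : x ∈ A) (hord : orderOf x = p) (hnot : ¬ Cfsg.IsInnerDiagonalAutPOmegaOdd m x) :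
    Cfsg.pPrimeCore p ↥(A ⊓ Subgroup.centralizer {x}) ≠ ⊥ ↔ (Cfsg.IsFieldAutClassPOmega (Cfsg.quadFormOdd m F) x ∧ Nat.Coprime p (Nat.card ↥(MonoidHom.eqLocus x.toMonoidHom (MonoidHom.id (Cfsg.POmega F (Cfsg.quadFormOdd m F)))))) := by
  have : IsSimpleGroup (POmega F (H13.QOdd m F)) := hK
  have hQ := H13.nd_QOdd (m := m) (H13.two_ne_zero_of_odd_card hodd)
  have hn : Module.finrank F (Unit ⊕ (Fin m ⊕ Fin m) → F) = 2 * m + 1 := by simp; ring
  have hk := H28.ker_aut hQ (by omega)
  have hS := H28.aut_surjective hQ (by omega) (by omega)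
  obtain ⟨s, rfl⟩ := hS x
  have hs : s.σ ≠ 1 := fun e => hnot (H28.isSimInduced_iff.2 ⟨s, e, rfl⟩)
  have e0 := hord ▸ pow_orderOf_eq_one _
  obtain ⟨rfl, e⟩ := H28.orderOf_σ hk Fact.out e0 hs
  obtain ⟨z, R, D, e1, h3⟩ := H28.exists_desc hQ s e (H28.fixF s.σ).subtype (by simp [H28.mem_fixF])
  rw [← H28.map_eq_of_scalar hk z]
  refine H28.bal_O_field hk hS (H28.inn_eq_ZΩ hQ (by omega)) hQ (by omega)
    (H28.coprime_ringChar hpr) D h3 (by simp [e1, H28.mem_fixF]; exact fun _ => Iff.rfl) rfl (fun _ => ?_) A hinn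
  have h4 : ∀ v, H13.QOdd m F (fun i => s.σ (v i)) = s.σ (H13.QOdd m F v) := fun v => by
    simp [H13.QOdd_apply]
  obtain ⟨u, -, hu⟩ := H28.lang_odd_dim (s := H13.SemiSim.coord s.σ h4) hQ hn hk (by
    rw [← map_pow, H28.coord_pow h4 (n := orderOf (H13.SemiSim.coord s.σ h4).σ)
      (pow_orderOf_eq_one s.σ), map_one])
    (δ := H28.aut _ (s * (H13.SemiSim.coord s.σ h4)⁻¹)) ⟨_, mul_inv_cancel s.σ, rfl⟩
    (by rwa [← map_mul, inv_mul_cancel_right])
  rw [← map_mul, inv_mul_cancel_right] at hu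
  have h5 : u⁻¹ * H28.aut _ (H13.SemiSim.scalar _ z * s) * u⁻¹⁻¹ =
      H28.aut _ (H13.SemiSim.coord s.σ h4) := by rw [H28.map_eq_of_scalar hk, hu]; group
  exact ⟨u⁻¹, _, s.σ, hs, (H28.isFieldAut_iff h4).2 rfl, h5⟩

end Cfsg.Agent.S2731
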