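import Cfsg.Statements.S2733
import Cfsg.Agent.H28.BalO

set_option autoImplicit false
open Cfsg

namespace Cfsg.Agent.S2733

lemma aux {F : Type*} [Field F] {m : ℕ} {a b a' b' : F} {σ : F ≃+* F}
    (ψ : POmega F (H13.QMinus m F a b) ≃* POmega F (H13.QMinus m F a' b'))
    (h1 : ∀ z₁ z₂ : F, z₁ ^ 2 + a' * z₁ * z₂ + b' * z₂ ^ 2 = 0 → z₁ = 0 ∧ z₂ = 0) (h2 : σ ≠ 1)
    (h3 : σ a' = a') (h4 : σ b' = b') {β : MulAut (POmega F (H13.QMinus m F a b))}
    (h5 : IsFieldAutPOmegaOf (H13.QMinus m F a' b') σ ((ψ.symm.trans β).trans ψ)) :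
    IsFieldAutClassPOmegaMinus m β := ⟨a', b', ψ, σ, h1, h2, h3, h4, h5⟩

/-- A criterion for the failure of local balance in almost simple groups whose socle is a minus-type orthogonal group PΩ⁻_{2m+2}(F) (m ≥ 3; the form Σ xᵢ yᵢ + z₁² + a z₁ z₂ + b z₂² with anisotropic binary part). Let F be a finite field of characteristic r and K the (simple) group in question; let A be a group of automorphisms of K containing all inner automorphisms, and x ∈ A an automorphism of prime order p ≠ r that is not inner-diagonal (not induced by a class-preserving similarity, classes read over a quadratic extension). Then the largest normal subgroup of C_A(x) of order prime to p is nontrivial if and only if x is a field automorphism of K (conjugate under Aut(K) to a non-identity standard field automorphism) and p does not divide the number of fixed points of x on K. -/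
theorem result {F : Type*} [Field F] [Fintype F] {r : ℕ} [Fact r.Prime] [CharP F r] {m : ℕ} (hm : 3 ≤ m) (a b : F) (hab : (∀ z₁ z₂ : F, z₁ ^ 2 + a * z₁ * z₂ + b * z₂ ^ 2 = 0 → z₁ = 0 ∧ z₂ = 0)) (hK : IsSimpleGroup (Cfsg.POmega F (Cfsg.quadFormMinus m F a b))) (A : Subgroup (MulAut (Cfsg.POmega F (Cfsg.quadFormMinus m F a b)))) (hinn : ∀ k : Cfsg.POmega F (Cfsg.quadFormMinus m F a b), MulAut.conj k ∈ A) {p : ℕ} [Fact p.Prime] (hpr : p ≠ r) (x : MulAut (Cfsg.POmega F (Cfsg.quadFormMinus m F a b))) (hxA : x ∈ A) (hord : orderOf x = p) (hnot : ¬ Cfsg.IsInnerDiagonalAutPOmegaMinus m a b x) :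
    Cfsg.pPrimeCore p ↥(A ⊓ Subgroup.centralizer {x}) ≠ ⊥ ↔ (Cfsg.IsFieldAutClassPOmegaMinus m x ∧ Nat.Coprime p (Nat.card ↥(MonoidHom.eqLocus x.toMonoidHom (MonoidHom.id (Cfsg.POmega F (Cfsg.quadFormMinus m F a b)))))) := by
  have : IsSimpleGroup (POmega F (H13.QMinus m F a b)) := hK
  have h := H28.ev_QMinus (m := m) (by omega) hab
  have hk := H28.ker_aut h.nd h.five
  have hS := H28.aut_surjective h.nd (by rw [h.dim]; omega) fun _ => H13.not_isPlus_QMinus hab
  have hI := H28.inn_eq_ZΩ h.nd h.five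
  have hr := H28.coprime_ringChar (F := F) hpr
  obtain ⟨s, rfl⟩ := hS x
  have e0 : H28.aut _ s ^ p = 1 := hord ▸ pow_orderOf_eq_one (H28.aut _ s)
  replace hnot : s ∉ h.Sp := fun e => hnot ((H28.isInnDiagMinus_iff hab h).2 ⟨s, e, rfl⟩)
  suffices H : H28.Bal p (H28.aut _ s) (IsFieldAutClassPOmegaMinus m (H28.aut _ s)) from H A hinn
  clear hinn hxA hord A hK
  by_cases hs : s.σ = 1
  · refine H28.bal_O_graph hk hS hI h hr (s := ⟨s, hs⟩) e0 (mt (h.mem_Sp (s := ⟨s, hs⟩)).2 hnot)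
      (fun h2 e => ?_) _
    have := H28.fact_of_aniso hab
    have : Finite (QuadraticAlgebra F (-b) a) := Module.finite_of_finite F
    let j := algebraMap F (QuadraticAlgebra F (-b) a)
    exact h.dk_of_anti' h2 (Q' := H13.QMinus m _ (j a) (j b)) ⟨H13.nd_QMinus' (by
      simpa [map_ofNat] using (map_ne_zero j).2 (H13.disc_ne_zero_of_anisotropic hab)),
        by simp; ring, h.three⟩
      (H28.descMinus m j a b)
      (by rw [Module.natCard_eq_pow_finrank (K := F), QuadraticAlgebra.finrank_eq_two]) e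
  obtain ⟨e2, e⟩ := H28.orderOf_σ hk (r := p) Fact.out e0 hs
  have hj : ∀ x, x ∈ Set.range (H28.fixF s.σ).subtype ↔ s.σ x = x := by simp [H28.mem_fixF]
  obtain ⟨z, R, D, e1, h3⟩ := H28.exists_desc h.nd s e (H28.fixF s.σ).subtype hj
  rw [← H28.map_eq_of_scalar hk z]
  refine H28.bal_O_field hk hS hI h.nd h.five hr D h3 (e1 ▸ hj) e2 fun h2 => ?_
  have ho := (Fact.out : p.Prime).eq_two_or_odd'.resolve_left h2
  obtain ⟨a₀, b₀, hab₀⟩ := H13.exists_anisotropic_binary (H28.fixF s.σ)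
  obtain ⟨g, hg⟩ := (D.nd h.nd).equiv_QMinus (fun H => H13.not_isPlus_QMinus hab (D.isPlus H))
    (m := m) (h.desc D).dim hab₀
  have h4 : ∀ v, H13.QMinus m F a₀ b₀ (fun i => s.σ (v i)) = s.σ (H13.QMinus m F a₀ b₀ v) :=
    fun v => by simp [H13.QMinus_apply, H28.mem_fixF.1 a₀.2, H28.mem_fixF.1 b₀.2]
  obtain ⟨ψ, hψ⟩ := H28.exists_pomIso h.nd (D.pre (H13.SemiSim.ofIsometry g hg).symm)
    (H28.descMinus m (H28.fixF s.σ).subtype a₀ b₀) (RingHom.ext fun x => (RingHom.congr_fun e1 x).symm)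
    (s := H13.SemiSim.scalar _ z * s) (u := H13.SemiSim.coord s.σ h4) (fun _ => rfl) (fun v => h3 _) fun v => funext fun i => (v i).2
  refine aux ψ (H28.aniso_of_no_root fun u hu => ?_) hs a₀.2 b₀.2 ((H28.isFieldAut_iff h4).2 hψ)
  have := (H28.exists_root_iff hab₀).1 ⟨u, hu⟩
  rw [H28.finrank_fixF, e2, ← even_iff_two_dvd, ← Nat.not_odd_iff_even] at this
  exact this ho

end Cfsg.Agent.S2733
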