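import Cfsg.Statements.S2991
import Cfsg.Agent.H24.PU11

set_option autoImplicit false
universe u
open scoped Pointwise
open Cfsg

namespace Cfsg.Agent.S2991

/-- Let p be a prime and S a nontrivial finite p-group; write J(S) for the subgroup generated by the abelian subgroups of S of largest order and J̃(S) = C_S(Z(J(S))), and call a subgroup R of a p-group X centrally large in X if |R|·|Z(R)| is as large as possible among subgroups of X. Unless S satisfies all of: S is non-abelian; J(S) = S; Z(S) and Φ(S) are elementary abelian; Φ(S) ≤ Z(S) if p = 2, Φ(S) ≤ Z₂(S) if p = 3, Φ(S) ≤ Z(S) with S of exponent p if p > 3; and for all abelian subgroups A, B of largest order and all subgroups Q of S, |A|² = |S|·|Z(S)| ≥ |Q|·|Z(Q)| and ⟨A, B⟩ = AB = C_S(A ∩ B) — there exist nontrivial characteristic subgroups S₁ ≤ Z(S) and S₂ ≤ J̃(S) of S, S₂ characteristic in J̃(S) and containing a centrally large subgroup of J̃(S) (the largest value of |R|·|Z(R)| over subgroups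 R of S₂ equals that over subgroups of J̃(S)), such that whenever S is embedded as a Sylow p-subgroup of a finite group G in the basic pushing-up situation, the image of S₁ or of S₂ is normal in G. -/
theorem result {p : ℕ} [Fact p.Prime] (S : Type u) [Group S] [Finite S] [Nontrivial S] (hS : IsPGroup p S) (hexc : ¬ (¬ IsMulCommutative S ∧ Cfsg.thompsonSubgroupA S = ⊤ ∧ Cfsg.IsElementaryAbelian p (Subgroup.center S) ∧ Cfsg.IsElementaryAbelian p (frattini S) ∧ (p = 2 → frattini S ≤ Subgroup.center S) ∧ (p = 3 → frattini S ≤ Subgroup.upperCentralSeries S 2) ∧ (3 < p → frattini S ≤ Subgroup.center S ∧ Monoid.exponent S = p) ∧ (∀ A ∈ Cfsg.maxAbelianSubgroups S, ∀ B ∈ Cfsg.maxAbelianSubgroups S, ∀ Q : Subgroup S, Nat.card ↥A ^ 2 = Nat.card S * Nat.card ↥(Subgroup.center S) ∧ Nat.card ↥Q * Nat.card ↥(Subgroup.center ↥Q) ≤ Nat.card S * Nat.card ↥(Subgroup.center S) ∧ ((A ⊔ B : Subgroup S) : Set S) = (A : Set S) * (B : Set S) ∧ A ⊔ B = Subgroup.centralizer ((A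 ⊓ B : Subgroup S) : Set S)))) : ∃ S₁ S₂ : Subgroup S, S₁ ≠ ⊥ ∧ S₂ ≠ ⊥ ∧ S₁.Characteristic ∧ S₂.Characteristic ∧ S₁ ≤ Subgroup.center S ∧ S₂ ≤ Subgroup.centralizer ((Cfsg.thompsonSubgroupA S ⊓ Subgroup.centralizer (Cfsg.thompsonSubgroupA S : Set S) : Subgroup S) : Set S) ∧ (S₂.subgroupOf (Subgroup.centralizer ((Cfsg.thompsonSubgroupA S ⊓ Subgroup.centralizer (Cfsg.thompsonSubgroupA S : Set S) : Subgroup S) : Set S))).Characteristic ∧ Cfsg.maxCentralProduct ↥S₂ = Cfsg.maxCentralProduct ↥(Subgroup.centralizer ((Cfsg.thompsonSubgroupA S ⊓ Subgroup.centralizer (Cfsg.thompsonSubgroupA S : Set S) : Subgroup S) : Set S)) ∧ ∀ (G : Type u) [Group G] [Finite G] (P : Subgroup G) (e : S ≃* ↥P), Cfsg.IsPushingUpSituation p P → ((S₁).map ((P.subtype).comp (e : S ≃* ↥P).toMonoidHom)).Normal ∨ ((S₂).map ((P.subtype).comp (e : S ≃* ↥P).toMonoidHom)).Normal := by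
  open Subgroup Cfsg.Agent.H24 in
  open scoped commutatorElement in
  open Cfsg.Agent.H10 (SubnormalIn OqOf) in
  open Cfsg.Agent.H9 (maxEA) in
  have hT : IsPGroup p (⊤ : Subgroup S) := hS.to_subgroup ⊤
  have ne : ∀ A : Subgroup S, A.Normal → A ≠ ⊥ → A ⊓ 𝐂[(⊤ : Subgroup S)] ≠ ⊥ := fun A _ =>
    inf_centralizer_ne_bot (hS.to_subgroup A) hT (top_le_normalizer A)
  have inj : ∀ {G : Type u} [Group G] {P : Subgroup G} (e : S ≃* P), Function.Injective (P.subtype.comp e.toMonoidHom) :=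
    fun e => (subtype_injective _).comp e.injective
  have mt : ∀ {G : Type u} [Group G] {P : Subgroup G} (e : S ≃* P), map (P.subtype.comp e.toMonoidHom) ⊤ = P :=
    fun e => by rw [← map_map, map_top_of_surjective _ e.surjective, map_subtype_top]
  rw [centerThompsonA_top]
  haveI : (centerThompsonOf 0 (⊤ : Subgroup S)).Characteristic :=
    characteristic_of_map (Φ := centerThompsonOf 0) fun _ hf => H9.map_centerThompsonOf hf 0
  by_cases h1 : ⁅centerThompsonOf 0 (⊤ : Subgroup S), (⊤ : Subgroup S)⁆ = ⊥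
  swap
  · refine ⟨_, _, ne _ inferInstance h1, fun e => ne ⊤ inferInstance top_ne_bot (le_bot_iff.1 (e ▸ inf_le_right.trans
      (centralizer_anti le_top))), inferInstance, inferInstance, inf_le_right.trans centralizer_top'.le, le_rfl,
      by rw [subgroupOf_self]; infer_instance, rfl, fun G _ _ P e hE => ?_⟩
    obtain ⟨M, h⟩ := r1_of_situation hE
    rw [map_centralizer_inf (inj e), map_commutator, ← top_inf_eq 𝐂[centerThompsonOf 0 ⊤], map_centralizer_inf (inj e),
      H9.map_centerThompsonOf (inj e), mt]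
    exact h.case_thompson.imp normal_of_le_centralizer_top top_le_normalizer_iff.1
  have hJ : 𝐂[centerThompsonOf 0 (⊤ : Subgroup S)] = ⊤ := top_le_iff.1 (le_centralizer_iff_commutator'.2 h1)
  have hJ' : ∀ {G : Type u} [Group G] {P : Subgroup G} (e : S ≃* P), P ≤ 𝐂[centerThompsonAOf P] := fun e => by
    have := map_le_centralizer_map (MonoidHom.comp (Subgroup.subtype _) e.toMonoidHom) hJ.ge
    rwa [H9.map_centerThompsonOf (inj e), mt, ← H9.centerThompsonAOf_eq] at this
  suffices ∃ S₁ S₂ : Subgroup S, S₁ ≠ ⊥ ∧ S₁.Characteristic ∧ S₂.Characteristic ∧ S₁ ≤ 𝐂[(⊤ : Subgroup S)] ∧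
      (∃ Y ≤ S₂, CL Y) ∧ ∀ (G : Type u) [Group G] [Finite G] (P : Subgroup G) (e : S ≃* P) (M : Subgroup G), R1 p ⊤ P M →
        S₁.map (P.subtype.comp e.toMonoidHom) ≤ 𝐂[(⊤ : Subgroup G)] ∨ (S₂.map (P.subtype.comp e.toMonoidHom)).Normal by
    obtain ⟨S₁, S₂, a1, a2, a3, a4, ⟨Y, a5, a6⟩, a7⟩ := this
    refine ⟨S₁, S₂, a1, fun e => a1 (le_bot_iff.1 ((a4.trans (centralizer_anti le_top)).trans (a6.le.trans (a5.trans e.le)))),
      a2, a3, a4.trans centralizer_top'.le, le_top.trans hJ.ge, characteristic_subgroupOf_of_eq_top hJ,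
      (maxCentralProduct_eq a6 a5).trans (maxCentralProduct_eq a6 (le_top.trans hJ.ge)).symm, fun G _ _ P e hE => ?_⟩
    obtain ⟨M, h⟩ := r1_of_situation hE
    exact (a7 G P e M h).imp_left normal_of_le_centralizer_top
  obtain ⟨Y, hY⟩ := exists_cl S
  by_cases h2 : IsMulCommutative S
  · refine ⟨⊤, ⊤, top_ne_bot, inferInstance, inferInstance, fun a _ b _ => mul_comm' b a, ⟨Y, le_top, hY⟩,
      fun G _ _ P e M h => (h.not_comm ?_).elim⟩
    simpa only [mt] using map_le_centralizer_map (P.subtype.comp e.toMonoidHom)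
      (H := ⊤) (A := ⊤) fun a _ b _ => mul_comm' b a
  by_cases h3 : IsElementaryAbelian p (center S)
  swap
  · refine ⟨powerClosure p 1 (⊤ ⊓ 𝐂[(⊤ : Subgroup S)]), ⊤, fun e => h3 (isEA_iff.2 ⟨center_le_centralizer _, fun a ha =>
      mem_bot.1 (e ▸ subset_closure ⟨a, ⟨mem_top a, centralizer_top'.ge ha⟩, by rw [pow_one]⟩)⟩),
      characteristic_of_map (Φ := fun A => powerClosure p 1 (A ⊓ 𝐂[A])) fun f hf A => by
        rw [map_powerClosure, map_centralizer_inf hf], inferInstance, (closure_le _).2 ?_, ⟨Y, le_top, hY⟩,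
      fun G _ _ P e M h => .inl ?_⟩
    · rintro _ ⟨x, hx, rfl⟩; exact pow_mem hx.2 _
    · rw [map_powerClosure, map_centralizer_inf (inj e), mt]; exact h.case_power (hJ' e)
  obtain ⟨Q, -, hQ⟩ := hY.exists_mcl
  by_cases h4 : ⁅Q, Q⁆ = ⊥
  swap
  · haveI := hQ.characteristic
    refine ⟨_, _, ne _ inferInstance h4, inferInstance, mclJoin_characteristic, inf_le_right,
      ⟨Q, le_sSup (isMinimalCentrallyLarge_iff.2 hQ), hQ.cl⟩, fun G _ _ P e M h => ?_⟩
    have := (rmc_top.2 hQ).map_injective (inj e)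
    rw [mt] at this
    rw [map_centralizer_inf (inj e), mt, map_commutator, ← map_map (minimalCentrallyLargeJoin S), map_mclJoin_equiv,
      map_mclJoin]
    exact (h.case_mcl (hJ' e) this).imp (le_trans (le_inf (le_inf (inf_le_left.trans (commutator_le_of_le this.cd.le
      this.cd.le)) inf_le_right) inf_le_left)) top_le_normalizer_iff.1
  obtain ⟨j1, j2, j3⟩ := cd_of_mcl_comm (H9.centerThompsonAOf_eq (⊤ : Subgroup S) ▸ hJ.ge) hQ
    (isMulCommutative_iff_le_centralizer.2 (le_centralizer_iff_commutator.2 h4))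
  have c : CDH p (⊤ : Subgroup S) := ⟨rcd_top.2 j2, j1.ge.trans (sSup_le_sSup fun A hA =>
    ⟨rcd_top.2 (j3 A hA).1, by rw [top_inf_eq, (j3 A hA).2]⟩), fun a ha => mem_omegaOneCenter.2
      ⟨ha.1, ha.2, (isEA_iff.1 h3).2 a (centralizer_top'.le ha.2)⟩⟩
  have h5 : sZero p (⊤ : Subgroup S) ≠ ⊥ := fun e => by
    obtain ⟨e1, e2, e3, e4⟩ := (sZero_eq_bot_iff hS).1 e
    have e5 : ∀ Q : Subgroup S, cdm Q ≤ Nat.card S * Nat.card (center S) := fun Q => by
      simpa only [cdm, centralizer_top', card_top] using j2 Q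
    refine hexc ⟨h2, j1, h3, e1, e2, e3, fun h => ⟨(e4 h).1, (Monoid.exponent_eq_prime_iff Fact.out).2 fun g hg =>
      orderOf_eq_prime ((e4 h).2 g) hg⟩, fun A hA B hB Q => ⟨?_, le_trans (Nat.mul_le_mul_left _
        (card_center_eq Q ▸ card_le_of_le' inf_le_right)) (e5 Q), H2.fac_iff_coe.1 ((j3 A hA).1.fac (j3 B hB).1), ?_⟩⟩
    · simpa only [cdm, centralizer_top', card_top, (j3 A hA).2, sq] using (j3 A hA).1.eq j2
    · rw [(j3 A hA).1.centralizer_inf (j3 B hB).1, (j3 A hA).2, (j3 B hB).2]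
  haveI : (sZero p (⊤ : Subgroup S)).Characteristic := characteristic_of_map (Φ := sZero p) fun _ => map_sZero
  obtain ⟨R, r1, r2, r3⟩ := exists_char_cl p S
  refine ⟨_, R, ne _ inferInstance h5, inferInstance, r1, inf_le_right, r2, fun G _ _ P e M h => ?_⟩
  have := c.map (inj e)
  rw [mt] at this
  rw [map_centralizer_inf (inj e), map_sZero (inj e), mt]
  refine (h.case_good (hJ' e) this).imp (le_trans (le_inf (le_inf ?_ inf_le_right) inf_le_left)) fun h' =>
    r3 G _ (inj e) (by rwa [MonoidHom.range_eq_map, mt])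
  rw [← mt e, ← map_sZero (inj e)]; exact inf_le_left.trans (map_mono le_top)

end Cfsg.Agent.S2991
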