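import Cfsg.Statements.S2896
import Cfsg.Agent.H24.Misc1

set_option autoImplicit false
open Cfsg

namespace Cfsg.Agent.S2896

/-- Let p be a prime dividing the order of the finite group G, S a Sylow p-subgroup of G and X a subgroup of S. (i) If some nontrivial element z of the centre of X has F*(C_G(z)) = O_p(C_G(z)), then F*(N_G(X)) = O_p(N_G(X)). (ii) G has parabolic characteristic p if and only if F*(C_G(z)) = O_p(C_G(z)) for every nontrivial z ∈ Ω₁(Z(S)). (iii) If F*(C_G(z)) = O_p(C_G(z)) for every element z of S of order p, then G has local characteristic p. -/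
theorem result {G : Type*} [Group G] [Finite G] {p : ℕ} [Fact p.Prime] (hdiv : p ∣ Nat.card G) (S : Sylow p G) (X : Subgroup G) (hX : X ≤ (S : Subgroup G)) : (∀ z : G, z ≠ 1 → z ∈ X → (∀ x ∈ X, x * z = z * x) → Cfsg.generalizedFittingSubgroup ↥(Subgroup.centralizer ({z} : Set G)) = Cfsg.pCore p ↥(Subgroup.centralizer ({z} : Set G)) → Cfsg.generalizedFittingSubgroup ↥(Subgroup.normalizer (X : Set G)) = Cfsg.pCore p ↥(Subgroup.normalizer (X : Set G))) ∧ (Cfsg.IsOfParabolicCharacteristic p G ↔ ∀ z : G, z ≠ 1 → z ∈ Cfsg.omegaOne p ((S : Subgroup G) ⊓ Subgroup.centralizer ((S : Subgroup G) : Set G)) → Cfsg.generalizedFittingSubgroup ↥(Subgroup.centralizer ({z} : Set G)) = Cfsg.pCore p ↥(Subgroup.centralizer ({z} : Set G))) ∧ ((∀ z : G, z ∈ (S : Subgroup G) → orderOf z = p → Cfsg.generalizedFittingSubgroup ↥(Subgroup.centralizer ({z} : Set G)) = Cfsg.pCore p ↥(Subgroup.centralizer ({z} : Set G))) → Cfsg.IsOfLocalCharacteristic p G) := by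
  open Subgroup Cfsg.Agent.H24 in
  open scoped commutatorElement in
  open Cfsg.Agent.H10 (SubnormalIn OqOf) in
  open Cfsg.Agent.H9 (maxEA) in
  refine ⟨fun z h1 h2 h3 h4 => charP_iff_fstar.mp (charP_normalizer_of_central (S.2.to_le hX) h2 h3 (charP_iff_fstar.mpr h4)), ⟨fun h z h1 h2 => ?_, fun h => parabolic_of_forall (sylIn_top S) fun z h1 h2 => charP_iff_fstar.mpr (h z h2 h1)⟩, fun h => ⟨hdiv, fun T hT h0 => ?_⟩⟩
  · rw [← omegaOneCenter_def] at h2
    exact charP_iff_fstar.mp (charP_centralizer_of_parabolic h (sylIn_top S) (omegaOneCenter_le _ _ h2) (omegaOneCenter_le_centralizer _ _ h2) h1)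
  · obtain ⟨z, hz, hz1⟩ := exists_mem_ne_one (omegaOneCenter_ne_bot hT h0)
    obtain ⟨hz2, hz3, hz4⟩ := mem_omegaOneCenter.mp hz
    refine charP_iff.mp (charP_normalizer_of_central hT hz2 hz3 ?_)
    obtain ⟨g, -, hg⟩ := (sylIn_top S).exists_cj_le hT le_top
    have := (charP_iff_fstar.mpr (h _ (cj_le_iff'.mp hg z hz2) (by rw [orderOf_conj', orderOf_eq_prime hz4 hz1]))).cj g⁻¹
    rwa [← cj_centralizer_singleton, cj_cj_inv] at this

end Cfsg.Agent.S2896
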