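import Cfsg.Statements.S2898
import Cfsg.Agent.H24.Misc1

set_option autoImplicit false
open Cfsg

namespace Cfsg.Agent.S2898

/-- Let G be a finite group of even order with parabolic characteristic 2. If the centre of G ⧸ O(G) is trivial, then O(G) = 1. -/
theorem result {G : Type*} [Group G] [Finite G] (h2 : 2 ∣ Nat.card G) (hG : Cfsg.IsOfParabolicCharacteristic 2 G) [hN : (Cfsg.oddCore G).Normal] (hZ : Subgroup.center (G ⧸ Cfsg.oddCore G) = ⊥) : Cfsg.oddCore G = ⊥ := by
  open Subgroup Cfsg.Agent.H24 in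
  open scoped commutatorElement in
  open Cfsg.Agent.H10 (SubnormalIn OqOf) in
  open Cfsg.Agent.H9 (maxEA) in
  obtain ⟨S⟩ : Nonempty (Sylow 2 G) := inferInstance
  have hS := sylIn_top S
  have hO := H10.pPrimeCore_coprime 2 G
  have h1 : ∀ z ∈ omegaOneCenter 2 (S : Subgroup G), z ≠ 1 → centralizer {z} ⊓ oddCore G = ⊥ := fun z hz hz1 =>
    (charP_centralizer_of_parabolic hG hS (omegaOneCenter_le _ _ hz) (omegaOneCenter_le_centralizer _ _ hz) hz1).eq_bot_of_coprime inf_le_left (le_normalizer_inf le_normalizer (le_top.trans (top_le_normalizer _))) (H10.coprime_card_of_le inf_le_right hO)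
  by_contra h0
  have h2' : (Nat.card (centralizer (oddCore G : Set G))).Coprime 2 := coprime_of_not_dvd fun hd => by
    have h3 := hS.inf_normal le_top (top_le_normalizer (centralizer (oddCore G : Set G)))
    obtain ⟨z, hz, hz1⟩ := exists_mem_ne_one (inf_omegaOneCenter_ne_bot S.2 inf_le_left (le_normalizer_inf le_normalizer (le_top.trans (top_le_normalizer _))) (h3.ne_bot hd))
    refine h0 (eq_bot_iff.mpr (h1 z hz.2 hz1 ▸ le_inf (fun y hy => mem_centralizer_singleton_iff.mpr (hz.1.2 y hy)) le_rfl))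
  obtain ⟨z, hz, hz1⟩ := exists_mem_ne_one (omegaOneCenter_ne_bot S.2 (hS.ne_bot (by simpa using h2)))
  have hz2 : z * z = 1 := by rw [← sq]; exact (mem_omegaOneCenter.mp hz).2.2
  have hinv : ∀ y ∈ oddCore G, z * y * z⁻¹ = y⁻¹ := by
    let φ : oddCore G ≃* oddCore G := MulAut.conjNormal z
    have hf : MonoidHom.FixedPointFree φ := fun y hy => by
      have : (y : G) ∈ centralizer {z} ⊓ oddCore G := ⟨mem_centralizer_singleton_iff.mpr (by
        have := congrArg Subtype.val hy
        simp only [φ, MulAut.conjNormal_apply] at this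
        rw [← mul_inv_eq_iff_eq_mul.mp this]), y.2⟩
      rw [h1 z hz hz1] at this
      exact Subtype.ext this
    have := hf.coe_eq_inv_of_involutive (fun y => Subtype.ext (by
      simp only [φ, MulAut.conjNormal_apply]
      calc z * (z * y * z⁻¹) * z⁻¹ = (z * z) * y * (z * z)⁻¹ := by group
        _ = y := by rw [hz2]; group))
    intro y hy
    simpa [φ] using congrArg Subtype.val (congrFun this ⟨y, hy⟩)
  have h4 : (QuotientGroup.mk z : G ⧸ oddCore G) ∈ center _ := by
    rw [mem_center_iff]
    intro g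
    induction g using QuotientGroup.induction_on with
    | H g =>
      rw [← QuotientGroup.mk_mul, ← QuotientGroup.mk_mul, QuotientGroup.eq]
      refine H10.le_pPrimeCore h2' fun y hy => ?_
      have h5 := hinv _ (hN.conj_mem _ hy g)
      have h6 := hinv _ (hN.conj_mem _ (inv_mem hy) g⁻¹)
      have h7 := hinv y hy
      symm
      calc (g * z)⁻¹ * (z * g) * y = z⁻¹ * g⁻¹ * (z * (g * y * g⁻¹) * z⁻¹) * z * g := by group
        _ = z⁻¹ * y⁻¹ * z * (z⁻¹ * g⁻¹ * z * g) := by rw [h5]; group
        _ = _ := by rw [← h7]; group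
  rw [hZ, mem_bot, QuotientGroup.eq_one_iff] at h4
  have : z ∈ centralizer {z} ⊓ oddCore G := ⟨mem_centralizer_singleton_iff.mpr rfl, h4⟩
  rw [h1 z hz hz1] at this
  exact hz1 this

end Cfsg.Agent.S2898
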