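import Cfsg.Statements.S2905
import Cfsg.Agent.H24.PMin

set_option autoImplicit false
open Cfsg

namespace Cfsg.Agent.S2905

/-- Let P be a finite p-minimal group (a Sylow p-subgroup S is not normal and lies in a unique maximal subgroup M of P) and let F be the normal core of M. Then: every subnormal subgroup N of P contained in M satisfies N ∩ S ≤ O_p(P); if O^p(P) has a normal Sylow p-subgroup then the order of P has at most two prime divisors; every normal subgroup N of P either contains O^p(P) or is contained in F; and O^p(P)F ⧸ F is a minimal normal subgroup of P ⧸ F. -/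
theorem result {P : Type*} [Group P] [Finite P] {p : ℕ} [Fact p.Prime] (hP : Cfsg.IsPMinimal p P) (S : Sylow p P) (M : Subgroup P) (hM : IsCoatom M) (hSM : (S : Subgroup P) ≤ M) [hF : M.normalCore.Normal] : (∀ N : Subgroup P, N.IsSubnormal → N ≤ M → N ⊓ (S : Subgroup P) ≤ Cfsg.pCore p P) ∧ ((∀ T : Sylow p ↥(Cfsg.pResidual p P), (T : Subgroup ↥(Cfsg.pResidual p P)).Normal) → (Nat.card P).primeFactors.card ≤ 2) ∧ (∀ N : Subgroup P, N.Normal → Cfsg.pResidual p P ≤ N ∨ N ≤ M.normalCore) ∧ (∀ N : Subgroup P, N.Normal → M.normalCore ≤ N → N ≤ Cfsg.pResidual p P ⊔ M.normalCore → N = M.normalCore ∨ N = Cfsg.pResidual p P ⊔ M.normalCore) ∧ M.normalCore < Cfsg.pResidual p P ⊔ M.normalCore := by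
  open Subgroup Cfsg.Agent.H24 in
  open scoped commutatorElement in
  open Cfsg.Agent.H10 (SubnormalIn OqOf) in
  open Cfsg.Agent.H9 (maxEA) in
  have hS := sylIn_top S
  have h := IsPMinimal.minOver hP hS hM hSM
  have h3 : ∀ N : Subgroup P, N.Normal → pResidual p P ≤ N ∨ N ≤ M.normalCore := fun N _ => by
    by_cases h1 : N ≤ M
    · exact Or.inr (normal_le_normalCore.mpr h1)
    · exact Or.inl (pResidualOf_top (G := P) p ▸ h.pResidualOf_le hS.pgrp le_top
        (le_top.trans (top_le_normalizer N)) h1)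
  refine ⟨fun N h1 h2 => ?_, fun hT => ?_, h3, fun N hN h1 h2 => ?_, lt_of_le_of_ne le_sup_right
    fun he => h.not_pResidualOf_le hS ?_⟩
  · rw [← pCoreOf_top]
    exact (h.pClosed_of_le hS (h.ncl_le_of_subnormal (H10.subnormalIn_top.mpr h1) h2)
      (le_normalizer_ncl _ _)).le_pCoreOf (H10.SubnormalIn.of_normal le_top (le_normalizer_ncl _ _))
      hS.pgrp.to_inf_right (inf_le_left.trans (le_ncl _ _))
  · obtain ⟨T⟩ : Nonempty (Sylow p (pResidual p P)) := inferInstance
    have := hT T
    obtain ⟨t, ht, R, h1, h2, h4⟩ := h.exists_prime hS (by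
      rw [pResidualOf_top]; exact pClosed_of_sylIn (sylIn_map T) (map_subtype_le_normalizer _))
    have : Fact t.Prime := ⟨ht⟩
    refine le_trans (Finset.card_le_card (t := {p, t}) fun q hq => ?_) Finset.card_le_two
    have hq' := Nat.prime_of_mem_primeFactors hq
    have h5 : Nat.card P ∣ Nat.card (S : Subgroup P) * (Nat.card R * Nat.card (pCoreOf p (pResidualOf p ⊤ : Subgroup P))) := by
      rw [← card_top (G := P)]
      refine (card_dvd_of_le (hS.pResidualOf_sup.ge.trans (sup_comm _ _).le)).trans <| (card_sup_dvd (hS.le.trans (le_normalizer_pResidualOf p ⊤))).trans (mul_dvd_mul_left _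
        ((card_dvd_of_le (h4.trans (sup_comm _ _).le)).trans (card_sup_dvd
          (h2.trans (le_normalizer_pCoreOf p _)))))
    obtain ⟨a, ha⟩ := exists_card_eq_pow hS.pgrp
    obtain ⟨b, hb⟩ := exists_card_eq_pow h1
    obtain ⟨c, hc⟩ := exists_card_eq_pow (isPGroup_pCoreOf p (pResidualOf p (⊤ : Subgroup P)))
    rw [ha, hb, hc] at h5
    have h6 := (Nat.dvd_of_mem_primeFactors hq).trans h5
    simp only [hq'.dvd_mul] at h6
    have hp : p.Prime := Fact.out
    rcases h6 with h6 | h6 | h6
    · simp [(Nat.prime_dvd_prime_iff_eq hq' hp).mp (hq'.dvd_of_dvd_pow h6)]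
    · simp [(Nat.prime_dvd_prime_iff_eq hq' ht).mp (hq'.dvd_of_dvd_pow h6)]
    · simp [(Nat.prime_dvd_prime_iff_eq hq' hp).mp (hq'.dvd_of_dvd_pow h6)]
  · exact (h3 N hN).symm.imp (fun h => le_antisymm h h1) fun h => le_antisymm h2 (sup_le h h1)
  · rw [pResidualOf_top]
    exact (le_sup_left.trans he.ge).trans (normalCore_le M)

end Cfsg.Agent.S2905
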