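import Cfsg.Statements.S2906
import Cfsg.Agent.H24.PMin
import Cfsg.Agent.H10.Misc

set_option autoImplicit false
open Cfsg

namespace Cfsg.Agent.S2906

/-- Let P be a finite p-minimal group with O_p(P) = 1, S a Sylow p-subgroup of P and K a component of P. Then O^p(P) = F*(P) = E(P) is generated by the S-conjugates of K, and the subgroup K·N_S(K) is again p-minimal. -/
theorem result {P : Type*} [Group P] [Finite P] {p : ℕ} [Fact p.Prime] (hP : Cfsg.IsPMinimal p P) (hOp : Cfsg.pCore p P = ⊥) (S : Sylow p P) (K : Subgroup P) (hK : Cfsg.IsComponent K) : Cfsg.pResidual p P = Cfsg.generalizedFittingSubgroup P ∧ Cfsg.generalizedFittingSubgroup P = Cfsg.layer P ∧ Cfsg.layer P = ⨆ s : ↥(S : Subgroup P), K.map (MulAut.conj (s : P)).toMonoidHom ∧ Cfsg.IsPMinimal p ↥(K ⊔ ((S : Subgroup P) ⊓ Subgroup.normalizer (K : Set P))) := by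
  open Subgroup Cfsg.Agent.H24 in
  open scoped commutatorElement in
  open Cfsg.Agent.H10 (SubnormalIn OqOf) in
  open Cfsg.Agent.H9 (maxEA) in
  have hS := sylIn_top S
  obtain ⟨M, h⟩ := (isPMinimal_iff_top hS).mp hP
  replace hK := H10.compOf_top.mpr hK
  rw [← pCoreOf_top] at hOp
  have hKR : K ≤ pResidualOf p ⊤ := (pResidualOf_eq_self_of_perfect hK.perfect).ge.trans
    (pResidualOf_mono le_top)
  have hd : p ∣ Nat.card K ∨ ¬ PClosed p (pResidualOf p (⊤ : Subgroup P)) := Or.inr fun hc => by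
    obtain ⟨t, ht, R, h1, -, h2⟩ := h.exists_prime hS hc
    have : Fact t.Prime := ⟨ht⟩
    rw [SubnormalIn.pCoreOf_eq_bot (H10.SubnormalIn.of_normal le_top (le_normalizer_pResidualOf p ⊤)) hOp,
      bot_sup_eq] at h2
    exact H10.QS.not_le_solvable hK.qs (isSolvable_of_isPGroup h1) (hKR.trans h2)
  have hKM : ¬ K ≤ M := fun hc => by
    have h1 := h.ncl_le_of_subnormal hK.subnormalIn hc
    set N := ncl K ⊤
    have hn : ∀ X : Subgroup P, X ≤ 𝐍[N] := fun X => le_top.trans (top_le_normalizer N)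
    have h2 := (h.pClosed_of_le hS h1 (hn _)).coprime_relIndex
    rw [SubnormalIn.pCoreOf_eq_bot (H10.SubnormalIn.of_normal le_top (hn _)) hOp, relIndex_bot_left] at h2
    refine H10.QS.not_le_solvable hK.qs (H10.FitOf_solvable (H := ⊤)) ((le_ncl K ⊤).trans
      (le_of_forall_sylIn fun t ht => ?_))
    have : Fact t.Prime := ⟨ht⟩
    obtain ⟨R, h3, h4⟩ := H1.exists_invariant_isSylowIn t (hn S)
      (coprime_card_of_isPGroup hS.pgrp h2).symm (Or.inl (isSolvable_of_isPGroup hS.pgrp))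
    replace h3 := sylIn_iff_H1.mpr h3
    refine ⟨R, h3, H10.le_FitOf le_top (h.eq_of_not_le h4 le_top fun h5 => h.lt.not_ge ?_).ge
      h3.pgrp.isNilpotent⟩
    exact (h3.frattini_sup le_top (hn _)).ge.trans (sup_le h1 (inf_le_right.trans h5))
  have h1 : pResidualOf p ⊤ ≤ ncl K S := h.pResidualOf_le hS.pgrp le_top (le_normalizer_ncl _ _)
    fun he => hKM ((le_ncl _ _).trans he)
  have h2 : ncl K S ≤ H10.LayOf ⊤ := ncl_le hK.le_LayOf (H10.le_normalizer_LayOf (le_top.trans le_normalizer))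
  have h3 : H10.LayOf ⊤ ≤ pResidualOf p (⊤ : Subgroup P) :=
    (pResidualOf_eq_self_of_perfect H10.LayOf_perfect).ge.trans (pResidualOf_mono le_top)
  have h4 : H10.FstarOf (⊤ : Subgroup P) = H10.LayOf ⊤ := by
    rw [H10.FstarOf_eq, sup_eq_left]
    exact (le_pResidualOf_of_coprime le_top (coprime_FitOf hOp)).trans (h1.trans h2)
  rw [← pResidualOf_top, ← H10.FstarOf_top, ← H10.LayOf_top, h4]
  refine ⟨le_antisymm (h1.trans h2) h3, rfl, le_antisymm (h3.trans h1) h2, ?_⟩
  have h5 := SubnormalIn.sylIn_inf hK.subnormalIn hS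
  have h6 : SylIn p ((S : Subgroup P) ⊓ 𝐍[K]) (K ⊔ (S : Subgroup P) ⊓ 𝐍[K]) := by
    have := (sylIn_self (hS.pgrp.to_inf_left (K := 𝐍[K]))).sup h5 inf_le_right
      (hS.pgrp.to_le (sup_le inf_le_left inf_le_left))
    rwa [sup_eq_left.mpr (inf_le_inf_left _ le_normalizer), sup_comm] at this
  have h7 : ∀ X, X ≤ K → (S : Subgroup P) ⊓ 𝐍[K] ≤ 𝐍[X] → ¬ X ≤ M → K ≤ X := fun X a1 a2 a3 => by
    have a4 : K ≤ X ⊔ 𝐂[K] := hKR.trans ((h.pResidualOf_le hS.pgrp le_top (le_normalizer_ncl X S)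
      fun he => a3 ((le_ncl _ _).trans he)).trans (ncl_le_iff.mpr fun s hs => by
        by_cases hn : s ∈ 𝐍[K]
        · exact (cj_eq_of_mem_normalizer (a2 ⟨hs, hn⟩)).le.trans le_sup_left
        · exact ((cj_mono a1 s).trans (le_centralizer_iff_commutator'.mpr (hK.commutator_eq_bot
            (hK.conj (le_normalizer (mem_top s))) fun he => hn (cj_eq_self_iff.mp he.symm)))).trans
            le_sup_right))
    have a5 : K ≤ X ⊔ (𝐂[K] ⊓ K) := by
      rw [← sup_inf_of_le_normalizer_right (a1.trans (le_normalizer_centralizer le_normalizer)) a1]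
      exact le_inf a4 le_rfl
    rw [← hK.perfect]
    refine (commutator_mono a5 a5).trans ?_
    rw [H10.commutator_sup_centralizing (inf_le_left.trans (centralizer_anti a1))
      (inf_le_left.trans (centralizer_anti inf_le_right))]
    exact commutator_le_of_le le_rfl le_rfl
  refine (isPMinimal_iff h6).mpr ⟨_ ⊓ M, minOver_of h6 (le_inf h6.le (inf_le_left.trans h.le))
    (lt_of_le_of_ne inf_le_left fun he => hKM (le_sup_left.trans (he.ge.trans inf_le_right)))
    (fun X a1 a2 => le_inf a2.le ?_) fun he => ?_⟩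
  · have a3 : X = (S : Subgroup P) ⊓ 𝐍[K] ⊔ K ⊓ X := by
      rw [← sup_inf_of_le_normalizer_right inf_le_right a1, sup_comm, inf_eq_right.mpr a2.le]
    rw [a3]
    refine sup_le (inf_le_left.trans h.le) ?_
    by_contra a4
    exact a2.not_ge (sup_le ((h7 _ inf_le_left (le_normalizer_inf inf_le_right
      (a1.trans le_normalizer)) a4).trans inf_le_right) a1)
  · have a1 : (S : Subgroup P) ⊓ K = ⊥ := eq_bot_iff.mpr (SubnormalIn.pCoreOf_eq_bot hK.subnormalIn hOp ▸
      le_pCoreOf inf_le_right h5.pgrp (by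
        have := le_normalizer_inf (le_sup_left.trans he) (le_normalizer (H := K))
        rwa [inf_assoc, inf_eq_right.mpr le_normalizer] at this))
    refine hd.elim (h5.eq_bot_iff.mp a1) fun hc => hc (pClosed_of_coprime (H10.coprime_card_of_le h1
      (H10.coprime_card_of_le (ncl_le (hK.subnormalIn.le_OqOf (coprime_of_not_dvd (h5.eq_bot_iff.mp a1)))
        (H10.le_normalizer_OqOf (le_top.trans le_normalizer))) H10.OqOf_coprime)))

end Cfsg.Agent.S2906
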