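import Cfsg.Statements.S2907


set_option autoImplicit false
open Cfsg

namespace Cfsg.Agent.S2907

open Subgroup
open scoped commutatorElement

/-- Let X be a finite semi-extraspecial p-group and x an element of X outside the centre. Then the index of C_X(x) in X equals the order of Z(X), and the commutators [x, y], y ∈ X, form exactly the centre Z(X). -/
theorem result {X : Type*} [Group X] [Finite X] {p : ℕ} [Fact p.Prime] (hX : Cfsg.IsSemiExtraspecial p X) (x : X) (hx : x ∉ Subgroup.center X) : (Subgroup.centralizer ({x} : Set X)).index = Nat.card ↥(Subgroup.center X) ∧ {z : X | ∃ y : X, z = x * y * x⁻¹ * y⁻¹} = (Subgroup.center X : Set X) := by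
  classical
  obtain ⟨⟨hp, hF, hC⟩, hY⟩ := hX
  have hcz : ∀ a b : X, a * b * a⁻¹ * b⁻¹ ∈ center X := fun a b => by
    rw [← hC]
    exact commutator_mem_commutator (mem_top a) (mem_top b)
  let f : X →* center X :=
    { toFun := fun y => ⟨x * y * x⁻¹ * y⁻¹, hcz x y⟩
      map_one' := Subtype.ext (by simp)
      map_mul' := fun a b => Subtype.ext (by
        have h := mem_center_iff.mp (hcz x b) a
        simp only [coe_mul]
        calc x * (a * b) * x⁻¹ * (a * b)⁻¹ = x * a * x⁻¹ * (x * b * x⁻¹ * b⁻¹) * a⁻¹ := by group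
          _ = x * a * x⁻¹ * a⁻¹ * (a * (x * b * x⁻¹ * b⁻¹)) * a⁻¹ := by group
          _ = x * a * x⁻¹ * a⁻¹ * (x * b * x⁻¹ * b⁻¹) := by rw [h]; group) }
  have hker : f.ker = centralizer ({x} : Set X) := by
    ext y
    rw [MonoidHom.mem_ker, mem_centralizer_singleton_iff, Subtype.ext_iff]
    show x * y * x⁻¹ * y⁻¹ = 1 ↔ _
    constructor
    · intro h
      calc y * x = (x * y * x⁻¹ * y⁻¹)⁻¹ * (x * y) := by group
        _ = x * y := by rw [h]; simp
    · intro h
      rw [← h]; group
  have hr : f.range = ⊤ := by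
    by_contra hne
    obtain ⟨W, hW, hle⟩ := (eq_top_or_exists_le_coatom f.range).resolve_left hne
    have hWe : (W.map (center X).subtype).subgroupOf (center X) = W := by
      ext y
      simp [mem_subgroupOf]
    obtain ⟨hN, hE⟩ := hY (W.map (center X).subtype) (map_subtype_le W) (by rw [hWe]; exact hW)
    have h1 : (QuotientGroup.mk' (W.map (center X).subtype)) x ∈ center (X ⧸ W.map (center X).subtype) := by
      rw [mem_center_iff]
      intro g
      obtain ⟨y, rfl⟩ := QuotientGroup.mk'_surjective _ g
      rw [← map_mul, ← map_mul, QuotientGroup.mk'_apply, QuotientGroup.mk'_apply, QuotientGroup.eq]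
      have h2 : f y ∈ W := hle ⟨y, rfl⟩
      have h3 : x * y * x⁻¹ * y⁻¹ ∈ W.map (center X).subtype := ⟨f y, h2, rfl⟩
      have := hN.conj_mem _ h3 (y * x)⁻¹
      convert this using 1
      group
    rw [← hE.1.2.2, _root_.commutator_def, ← map_top_of_surjective _ (QuotientGroup.mk'_surjective (W.map (center X).subtype)), ← map_commutator, ← _root_.commutator_def, hC] at h1
    obtain ⟨z, hz, e⟩ := h1
    rw [QuotientGroup.mk'_apply, QuotientGroup.mk'_apply, QuotientGroup.eq] at e
    have := map_subtype_le W e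
    apply hx
    have h4 := (center X).mul_mem hz this
    simpa using h4
  refine ⟨?_, ?_⟩
  · rw [← hker, index_ker, hr, card_top]
  · ext z
    constructor
    · rintro ⟨y, rfl⟩
      exact hcz x y
    · intro hz
      obtain ⟨y, hy⟩ := (hr ▸ mem_top _ : (⟨z, hz⟩ : center X) ∈ f.range)
      exact ⟨y, (congrArg Subtype.val hy).symm⟩

end Cfsg.Agent.S2907
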