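import Cfsg.Statements.S2909
import Cfsg.Agent.H24.Misc1

set_option autoImplicit false
open Cfsg

namespace Cfsg.Agent.S2909

/-- Let p be a prime, E a normal p-subgroup of the finite group G, and U a non-cyclic elementary abelian p-subgroup of G such that either C_E(U) = C_E(u) for every nontrivial u ∈ U, or [E, U] = [E, ⟨u⟩] for every nontrivial u ∈ U. If R is a subgroup of order prime to p normalized by U, then [R, U] centralizes E. -/
theorem result {G : Type*} [Group G] [Finite G] {p : ℕ} [Fact p.Prime] (E : Subgroup G) [E.Normal] (hE : IsPGroup p ↥E) (U : Subgroup G) (hU : Cfsg.IsElementaryAbelian p U) (hnc : ¬ IsCyclic ↥U) (hcond : (∀ u ∈ U, u ≠ 1 → E ⊓ Subgroup.centralizer (U : Set G) = E ⊓ Subgroup.centralizer ({u} : Set G)) ∨ (∀ u ∈ U, u ≠ 1 → ⁅E, U⁆ = ⁅E, Subgroup.zpowers u⁆)) (R : Subgroup G) (hR : ¬ p ∣ Nat.card ↥R) (hRU : U ≤ Subgroup.normalizer (R : Set G)) : ⁅R, U⁆ ≤ Subgroup.centralizer (E : Set G) := by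
  open Subgroup Cfsg.Agent.H24 in
  open scoped commutatorElement in
  open Cfsg.Agent.H10 (SubnormalIn OqOf) in
  open Cfsg.Agent.H9 (maxEA) in
  have := hU.1
  have hUp := isPGroup_of_isElementaryAbelian hU
  have hR' := coprime_of_not_dvd hR
  refine H1.commutator_le_of_forall_centralizer hRU (coprime_card_of_isPGroup hUp hR').symm fun B hB ⟨a, ha, hBa⟩ => ?_
  have hB0 : B ≠ ⊥ := by
    rintro rfl
    rw [bot_sup_eq] at hBa
    exact hnc (hBa ▸ inferInstance)
  obtain ⟨u, hu, hu1⟩ := exists_mem_ne_one hB0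
  refine le_trans (commutator_mono (inf_le_inf_left R (centralizer_anti (zpowers_le_of_mem hu))) le_rfl) ?_
  have hUu : U ≤ centralizer (zpowers u : Set G) := (isEA_iff.mp hU).1.trans (centralizer_anti (zpowers_le_of_mem (hB hu)))
  set Q := ⁅R ⊓ centralizer (zpowers u : Set G), U⁆ with hQ
  have hQ1 : Q ≤ R ⊓ centralizer (zpowers u : Set G) := commutator_le_left_of_le_normalizer (le_normalizer_inf hRU (le_normalizer_of_le hUu))
  have hQ2 : (Nat.card Q).Coprime p := H10.coprime_card_of_le (hQ1.trans inf_le_left) hR'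
  have hup := isPGroup_zpowers_of_mem hUp (hB hu)
  have hnE : ∀ K : Subgroup G, K ≤ normalizer (E : Set G) := fun K => le_top.trans (top_le_normalizer E)
  have hQ3 : Q ≤ ncl U (R ⊓ centralizer (zpowers u : Set G)) := by rw [ncl_eq_sup_commutator, hQ, commutator_comm]; exact le_sup_right
  rcases hcond with h | h
  · refine pxq hE hup (pResidualOf_eq_self_of_coprime hQ2) (hnE _) (hnE _) (le_centralizer_iff.mp (hQ1.trans inf_le_right)) (hQ3.trans (ncl_le ?_ ?_))
    · rw [centralizer_zpowers, ← h u (hB hu) hu1]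
      exact le_centralizer_iff.mp inf_le_right
    · exact le_normalizer_centralizer (le_normalizer_inf (hnE _) (le_normalizer_of_le inf_le_right))
  · refine le_centralizer_iff_commutator'.mpr (commutator_eq_bot_of_le_commutator hE hup hQ2 (hnE _) (hnE _) (le_centralizer_iff.mp (hQ1.trans inf_le_right)) ?_)
    have hn2 : centralizer (zpowers u : Set G) ≤ normalizer ((⁅E, zpowers u⁆ : Subgroup G) : Set G) := le_normalizer_commutator (hnE _) (centralizer_le_normalizer' _)
    refine le_trans (commutator_mono le_rfl (hQ3.trans (ncl_mono le_rfl inf_le_right))) (le_centMod_of_ncl hUu (hnE _) hn2 (h u (hB hu) hu1).le)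

end Cfsg.Agent.S2909
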