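import Cfsg.Statements.S2910
import Cfsg.Agent.H3.Action

set_option autoImplicit false
open Cfsg

namespace Cfsg.Agent.S2910

open Cfsg.Agent.H3

/-- Let p be an odd prime dividing the order of the finite group G and P a Sylow p-subgroup of G. If Ω₁(P) (generated by the elements of order dividing p) is contained in the centre of G, then G has a normal p-complement. In particular, if G is quasisimple then Ω₁(P) is not central in G. -/
theorem result {G : Type*} [Group G] [Finite G] {p : ℕ} [Fact p.Prime] (hp : p ≠ 2) (hdiv : p ∣ Nat.card G) (P : Sylow p G) (hZ : Cfsg.omegaOne p (P : Subgroup G) ≤ Subgroup.center G) : Cfsg.HasNormalPComplement p G ∧ ¬ Cfsg.IsQuasisimple G := by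
  have h1 : HasNormalPComplement p G := by
    by_contra hne
    obtain ⟨B, A, q, hB, -, -, -, -, -, hm⟩ := exists_minAct_of_not P hne
    exact hm.not_le fun a _ b hb => (Subgroup.mem_center_iff.mp
      (hZ (Subgroup.subset_closure ⟨hB hb, hm.pow_eq_one_of_ne_two hp hb⟩)) a).symm
  refine ⟨h1, fun h2 => ?_⟩
  have h3 := pResidual_eq_top_of_le_commutator P (h2.1.commutator_eq_top ▸ le_top)
  rw [hasNormalPComplement_iff_not_dvd, h3, Subgroup.card_top] at h1
  exact h1 hdiv

end Cfsg.Agent.S2910
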