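import Cfsg.Statements.S2911
import Cfsg.Agent.L0.FOl3
import Cfsg.Agent.H11.Fus

set_option autoImplicit false
open Cfsg

namespace Cfsg.Agent.S2911

open Subgroup Cfsg.FusionSystem Cfsg.Agent.H23 Cfsg.Agent.H23.LF
open scoped commutatorElement

abbrev K := Multiplicative (ZMod 2) × DihedralGroup 4

def U : Subgroup K where
  carrier := {x | (∀ y, y * x = x * y) ∨ x * x ≠ 1}
  one_mem' := Or.inl (by simp)
  mul_mem' := by
    intro a b
    simp only [Set.mem_ofPred_eq]
    revert a b
    decide +kernel
  inv_mem' := by
    intro a
    simp only [Set.mem_ofPred_eq]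
    revert a
    decide +kernel

def c : K := (1, DihedralGroup.r 2)

theorem cardK : Nat.card K = 2 ^ 4 := by simp [DihedralGroup.card]

theorem cardZ : Nat.card (center K) = 4 := by
  rw [← Nat.card_congr (Equiv.subtypeEquivRight (p := fun x : K => ∀ y, y * x = x * y)
    fun x => mem_center_iff.symm), Nat.card_eq_fintype_card]
  decide +kernel

theorem cm_le : commutator K ≤ zpowers c := commutator_le.2 fun a _ b _ => by
  have : ∀ a b : K, ⁅a, b⁆ = 1 ∨ ⁅a, b⁆ = c := by decide +kernel
  rcases this a b with h | h <;> rw [h]
  exacts [one_mem _, mem_zpowers _]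

theorem card_c : Nat.card (zpowers c) = 2 := by
  rw [Nat.card_zpowers]
  exact orderOf_eq_prime (by decide) (by decide)

theorem autK : IsPGroup 2 (MulAut K) := by
  by_contra h
  have hK : IsPGroup 2 K := IsPGroup.of_card cardK
  have hU : Nat.card U = 8 := by
    change Nat.card {x : K // (∀ y, y * x = x * y) ∨ x * x ≠ 1} = 8
    rw [Nat.card_eq_fintype_card]
    decide +kernel
  refine L0.nc_of_aut hK h U (center K) (characteristic_iff_le_comap.2 fun φ x hx => ?_) inferInstance
    (fun x hx => Or.inl (mem_center_iff.1 hx)) (H3.frattini_le_of_commutator_le (p := 2) (cm_le.trans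
      (zpowers_le.2 (mem_center_iff.2 (by decide +kernel)))) fun x => mem_center_iff.2 (by revert x; decide +kernel))
    (by rw [cardK, hU]; norm_num) (by rw [cardZ, hU]) ?_
  · rcases hx with hx | hx
    · exact Or.inl fun y => by
        obtain ⟨y, rfl⟩ := φ.surjective y
        change φ y * φ x = φ x * φ y
        rw [← map_mul, hx, map_mul]
    · exact Or.inr fun e => hx (φ.injective (by rw [map_mul, map_one]; exact e))
  · have : c ∈ frattini K := by
      have := H3.pow_mem_frattini hK (1, DihedralGroup.r 1)
      rwa [show ((1, DihedralGroup.r 1) : K) ^ 2 = c by decide] at this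
    have := card_le_of_le (zpowers_le.2 this)
    rw [card_c] at this
    rw [cardZ]
    omega



/-- A finite group whose Sylow 2-subgroups are isomorphic to the direct product of a group of order 2 and a dihedral group of order 8 has a subgroup of index two. -/
theorem result {G : Type*} [Group G] [Finite G] (S : Sylow 2 G) (hS : Nonempty (↥(S : Subgroup G) ≃* Multiplicative (ZMod 2) × DihedralGroup 4)) : ∃ H : Subgroup G, H.index = 2 := by
  obtain ⟨e⟩ := hS
  by_contra! h
  have h1 := Sat.le_eight (sat_group S) ?_ (pmod_autF (autK.of_equiv (MulAut.congr e).symm)) ?_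
    (by rw [hyper_group, H11.no_index_two_iff.1 h, inf_top_eq])
  · rw [Nat.card_congr e.toEquiv, cardK] at h1
    omega
  · rw [← ucs_one, ucs, H24.card_map_subtype, Subgroup.upperCentralSeries_one, Nat.card_congr e.toEquiv, cardK,
      Nat.card_congr (centerCongr e).toEquiv, cardZ]
    norm_num
  · rw [← map_subtype_commutator, H24.card_map_subtype,
      ← card_map_of_injective (f := e.toMonoidHom) e.injective]
    refine (card_le_of_le (le_trans ?_ cm_le)).trans card_c.le
    rw [commutator_def, map_commutator]
    exact commutator_mono le_top le_top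

end Cfsg.Agent.S2911
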