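import Cfsg.Statements.S2924
import Cfsg.Agent.H9.SFT5
import Cfsg.Agent.H11.FTDep
import Cfsg.Agent.H11.ElC

set_option autoImplicit false
open Cfsg

namespace Cfsg.Agent.S2924

open Subgroup Cfsg.Agent.H10 Cfsg.Agent.H9S in
theorem play {X : Type*} [Group X] [Finite X] {H : Subgroup X} {z : X} (hz : z * z = 1)
    (hzH : z ∈ H) (hE : LayOf H = ⊥) (hX : XOf 2 (H ⊓ centralizer {z}) = ⊥) : PLayOf 2 H = ⊥ := by
  haveI : Fact (Nat.Prime 2) := ⟨Nat.prime_two⟩
  have hHO : H ≤ normalizer (OqOf 2 H : Set X) := le_normalizer_OqOf le_normalizer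
  have hi := H11.inverts_of_fixedPointFree (D := OqOf 2 H) hz (hHO hzH) fun d hd hc => by
    have h1 : d ∈ OqOf 2 (H ⊓ centralizer {z}) := by
      have := OqOf_inf_le_OqOf_inf (p := 2) H (centralizer {z})
        ⟨hd, mem_centralizer_singleton_iff.2 hc.symm⟩
      rwa [inf_comm] at this
    have h2 := OqOf_le_XOf h1
    rwa [hX, mem_bot] at h2
  have hD : H ≤ normalizer ((H ⊓ centralizer (OqOf 2 H : Set X) : Subgroup X) : Set X) :=
    le_normalizer_inf le_normalizer (le_normalizer_centralizer hHO)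
  have hc : ⁅zpowers z, H⁆ ≤ H ⊓ centralizer (OqOf 2 H : Set X) := by
    refine commutator_zpowers_le (hD hzH) fun k hk =>
      ⟨H.mul_mem (H.mul_mem (H.mul_mem hzH hk) (H.inv_mem hzH)) (H.inv_mem hk), fun d hd => ?_⟩
    have h1 := hi _ ((mem_normalizer_iff.1 (hHO (H.inv_mem hk)) d).1 hd)
    have h2 := hi _ ((OqOf 2 H).inv_mem hd)
    have hzi : z⁻¹ = z := inv_eq_of_mul_eq_one_right hz
    rw [hzi] at h1 h2 ⊢
    calc _ = (z * d⁻¹ * z) * z * k * z * k⁻¹ := by rw [h2]; group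
      _ = z * k * (k⁻¹ * d * k⁻¹⁻¹)⁻¹ * z * k⁻¹ := by rw [mul_assoc _ z z, hz]; group
      _ = z * k * z * (k⁻¹ * d * k⁻¹⁻¹) * (z * z) * k⁻¹ := by rw [← h1]; group
      _ = _ := by rw [hz]; group
  rw [PLayOf_eq_bot_iff]
  intro K hK
  have nc : ¬ K ≤ H ⊓ centralizer (OqOf 2 H : Set X) := fun h =>
    LayOf_eq_bot_iff.1 hE K (hK.compOf_iff.2 (comm_of_le_cent (le_cent_comm.1
      ((h.trans inf_le_right).trans (centralizer_anti hK.subnormalIn.OqOf_le)))))
  have h1 := (hK.le_or_of_normalizes inf_le_left (hK.le.trans hD)).resolve_left nc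
  have hz' : zpowers z ≤ H := zpowers_le.2 hzH
  have h2 : ⁅K, zpowers z⁆ ≤ OqOf 2 H := by
    refine commutator_le_of_perfect ?_ ?_ ?_ ?_ |> fun h => (commutator_comm _ _).le.trans h
    · exact hK.perfect
    · exact hK.le.trans hHO
    · exact hz'.trans hHO
    · rw [commutator_comm]
      exact (commutator_mono le_rfl ((commutator_mono le_rfl hK.le).trans hc)).trans h1
  have h3 := hK.le_normalizer_of_commutator_le (hz'.trans le_normalizer) h2
  have h4 := hK.pqs.le_PLayOf_inf_centralizer_sup (isPGroup_zpowers_of_pow (by rw [pow_two, hz]))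
    h3 (hK.commutator_le_OqOf (hz'.trans le_normalizer) ((commutator_comm _ _).le.trans h2))
  have h5 : PLayOf 2 (K ⊓ centralizer (zpowers z : Set X)) = ⊥ := by
    rw [centralizer_zpowers]
    exact le_bot_iff.1 (((hK.subnormalIn.inf_right _).PLayOf_le.trans PLayOf_le_XOf).trans hX.le)
  rw [h5, bot_sup_eq] at h4
  exact hK.not_le_OqOf h4

/-- Let X be a finite group and Y an elementary abelian 2-subgroup of X of order at least 8 such that C_X(x) has no components (E(C_X(x)) = 1) for every nontrivial x ∈ Y, and F*(C_X(z)) = O₂(C_X(z)) for some nontrivial z ∈ Y. Then the subgroup generated by the cores O(C_X(y)), y ∈ Y nontrivial, has odd order and is normalized by N_X(Y). -/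
theorem result {X : Type*} [Group X] [Finite X] (Y : Subgroup X) (hY : Cfsg.IsElementaryAbelian 2 Y) (h8 : 8 ≤ Nat.card ↥Y) (hE : ∀ x ∈ Y, x ≠ 1 → Cfsg.layer ↥(Subgroup.centralizer ({x} : Set X)) = ⊥) (hz : ∃ z ∈ Y, z ≠ 1 ∧ Cfsg.generalizedFittingSubgroup ↥(Subgroup.centralizer ({z} : Set X)) = Cfsg.pCore 2 ↥(Subgroup.centralizer ({z} : Set X))) : Odd (Nat.card ↥(⨆ y : {y : X // y ∈ Y ∧ y ≠ 1}, (Cfsg.oddCore ↥(Subgroup.centralizer ({(y : X)} : Set X))).map (Subgroup.centralizer ({(y : X)} : Set X)).subtype)) ∧ Subgroup.normalizer (Y : Set X) ≤ Subgroup.normalizer ((⨆ y : {y : X // y ∈ Y ∧ y ≠ 1}, (Cfsg.oddCore ↥(Subgroup.centralizer ({(y : X)} : Set X))).map (Subgroup.centralizer ({(y : X)} : Set X)).subtype : Subgroup X) : Set X) := by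
  open Subgroup Cfsg.Agent.H10 Cfsg.Agent.H9S in
  haveI : Fact (Nat.Prime 2) := ⟨Nat.prime_two⟩
  obtain ⟨z, hzY, -, hz⟩ := hz
  refine ⟨(sft2 (sf_core_of_PLayOf hY fun a ha h1 => play (z := z) (by rw [← pow_two, hY.2 z hzY])
    (le_centralizer_singleton_of_ea hY ha hzY) (LayOf_eq_bot_iff'.2 (hE a ha h1)) ?_) h8).1,
    H11.normalizer_le_normalizer_Wc Y⟩
  rw [inf_comm, ← centralizer_zpowers a]
  exact XOf_inf_centralizer_eq_bot (isPGroup_zpowers_of_pow (hY.2 a ha)) (le_normalizer_of_le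
    (zpowers_le.2 (le_centralizer_singleton_of_ea hY hzY ha))) (XOf_eq_bot_iff_abs.2 hz)

end Cfsg.Agent.S2924
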