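import Cfsg.Statements.S2925
import Cfsg.Agent.H10.Misc

set_option autoImplicit false
open Cfsg

namespace Cfsg.Agent.S2925

/-- Let K be a component of the finite group X and T a Sylow 2-subgroup of X. If some abelian normal subgroup Y of T does not normalize K, then K ⧸ Z(K) has abelian Sylow 2-subgroups. -/
theorem result {X : Type*} [Group X] [Finite X] (K : Subgroup X) (hK : Cfsg.IsComponent K) (T : Sylow 2 X) (Y : Subgroup X) (hYT : Y ≤ (T : Subgroup X)) (hYn : (Y.subgroupOf (T : Subgroup X)).Normal) (hYab : IsMulCommutative ↥Y) (hnot : ¬ Y ≤ Subgroup.normalizer (K : Set X)) (P : Sylow 2 (↥K ⧸ Subgroup.center ↥K)) : IsMulCommutative ↥(P : Subgroup (↥K ⧸ Subgroup.center ↥K)) := by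
  open Subgroup Cfsg.Agent.H10 in
  haveI : Fact (Nat.Prime 2) := ⟨Nat.prime_two⟩
  have hK' := compOf_top.2 hK
  obtain ⟨y, hy, hyK⟩ := SetLike.not_le_iff_exists.1 hnot
  have hcomm : ⁅K, K.map (MulAut.conj y).toMonoidHom⁆ = ⊥ :=
    hK'.commutator_eq_bot (hK'.conj (le_normalizer (mem_top y)))
      (fun h => hyK (mem_normalizer_iff_conj_eq.2 h.symm))
  have hc2 := commutator_eq_bot_iff_le_centralizer.1 (commutator_eq_bot_comm hcomm)
  have hS := IsSylowIn_inf_of_subnormal (H1.isSylowIn_top T) hK'.subnormalIn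
  obtain ⟨S, hS'⟩ := hS.exists_sylow
  have hTY := (normal_subgroupOf_iff_le_normalizer hYT).1 hYn
  have h1 : ∀ s ∈ (T : Subgroup X) ⊓ K, s * (y * s⁻¹ * y⁻¹) ∈ Y := fun s hs => by
    have := mul_mem ((mem_normalizer_iff.1 (hTY hs.1) y).1 hy) (inv_mem hy)
    convert this using 1
    group
  have h2 : ∀ s ∈ S, ∀ t ∈ S, (t * s)⁻¹ * (s * t) ∈ center K := by
    intro s hs t ht
    have hs' : (s : X) ∈ (T : Subgroup X) ⊓ K := hS' ▸ mem_map_of_mem _ hs
    have ht' : (t : X) ∈ (T : Subgroup X) ⊓ K := hS' ▸ mem_map_of_mem _ ht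
    have e := mul_comm_of_mem hYab (h1 s hs') (h1 t ht')
    have hs2 := conj_mem_conj y (inv_mem s.2)
    have ht2 := conj_mem_conj y (inv_mem t.2)
    set s' := y * (s : X)⁻¹ * y⁻¹
    set t' := y * (t : X)⁻¹ * y⁻¹
    have e1 : t * s' = s' * t := hc2 hs2 t t.2
    have e2 : s * t' = t' * s := hc2 ht2 s s.2
    have e3 : ((t : X) * s)⁻¹ * (s * t) = (t' * s') * (s' * t')⁻¹ := by
      calc ((t : X) * s)⁻¹ * (s * t) = ((t : X) * s)⁻¹ * (s * (t * s') * t') * (s' * t')⁻¹ := by group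
        _ = ((t : X) * s)⁻¹ * (s * s' * (t * t')) * (s' * t')⁻¹ := by rw [e1]; group
        _ = ((t : X) * s)⁻¹ * (t * (t' * s) * s') * (s' * t')⁻¹ := by rw [e]; group
        _ = _ := by rw [← e2]; group
    have e4 := hc2 (mul_mem (mul_mem ht2 hs2) (inv_mem (mul_mem hs2 ht2)))
    rw [← e3] at e4
    rw [mem_center_iff]
    intro k
    exact Subtype.ext (e4 k k.2)
  have h3 := (H1.isSylowIn_top S).map (QuotientGroup.mk' (center K))
  rw [map_top_of_surjective _ (QuotientGroup.mk'_surjective _)] at h3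
  obtain ⟨k, -, hk⟩ := h3.exists_conj_eq (H1.isSylowIn_top P)
  rw [← hk]
  refine isMulCommutative_map (isMulCommutative_of_forall ?_) (MulAut.conj k).toMonoidHom
  rintro _ ⟨s, hs, rfl⟩ _ ⟨t, ht, rfl⟩
  rw [← map_mul, ← map_mul]
  exact (QuotientGroup.eq.2 (h2 s hs t ht)).symm

end Cfsg.Agent.S2925
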