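import Cfsg.Statements.S2930
import Cfsg.Agent.H22.Tm

set_option autoImplicit false
set_option linter.style.haveILetI false
open Cfsg

namespace Cfsg.Agent.S2930

/-- Let X be a finite 3-minimal group (a Sylow 3-subgroup is not normal and lies in a unique maximal subgroup) whose generalized Fitting subgroup is isomorphic to an alternating group of degree n ≥ 5. Then X = F*(X), and n = 6, n = 9, or n = 3ᵃ + 1 for some a ≥ 2. -/
theorem result {X : Type*} [Group X] [Finite X] (hX : Cfsg.IsPMinimal 3 X) (n : ℕ) (hn : 5 ≤ n) (hF : Nonempty (↥(Cfsg.generalizedFittingSubgroup X) ≃* ↥(alternatingGroup (Fin n)))) : Cfsg.generalizedFittingSubgroup X = ⊤ ∧ (n = 6 ∨ n = 9 ∨ ∃ a : ℕ, 2 ≤ a ∧ n = 3 ^ a + 1) := by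
  haveI : Fact (Nat.Prime 3) := ⟨Nat.prime_three⟩
  obtain ⟨e⟩ := hF
  have h5 : 5 ≤ Fintype.card (Fin n) := by rw [Fintype.card_fin]; exact hn
  have h1 : Cfsg.generalizedFittingSubgroup X = ⊤ := by
    obtain ⟨P⟩ : Nonempty (Sylow 3 X) := inferInstance
    obtain ⟨hP, M, -, hu⟩ := hX P
    have hle : (P : Subgroup X) ≤ Cfsg.generalizedFittingSubgroup X := fun x hx => by
      obtain ⟨k, hk⟩ := P.isPGroup' ⟨x, hx⟩
      exact H22.Tm.mem_of_odd (H10.centralizer_fstar_le X) h5 e
        ((Odd.pow (by decide : Odd 3)).of_dvd_nat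
          (orderOf_dvd_of_pow_eq_one (congrArg Subtype.val hk)))
    by_contra h
    obtain ⟨A, hA, h2⟩ := (eq_top_or_exists_le_coatom _).resolve_left h
    obtain ⟨B, hB, h3⟩ := (eq_top_or_exists_le_coatom _).resolve_left
      fun h => hP (Subgroup.normalizer_eq_top_iff.1 h)
    obtain rfl := hu A ⟨hA, hle.trans h2⟩
    obtain rfl := hu B ⟨hB, Subgroup.le_normalizer.trans h3⟩
    exact hB.1 (eq_top_iff.2 ((P.normalizer_sup_eq_top' hle).ge.trans (sup_le h3 h2)))
  have := H22.Tm.alt_case h5 hX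
    ((Subgroup.topEquiv.symm.trans (MulEquiv.subgroupCongr h1.symm)).trans e)
  rw [Fintype.card_fin] at this
  exact ⟨h1, this⟩

end Cfsg.Agent.S2930
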