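import Cfsg.Statements.S2939
import Cfsg.Agent.H24.SylCtl

set_option autoImplicit false
open Cfsg

namespace Cfsg.Agent.S2939

/-- Let p be a prime dividing the order of the finite group G and 𝓕 a family of subgroups of G closed under conjugation, with conjugates taken as X^g = g⁻¹Xg. Then 𝓕 controls Sylow p-intersections in G (any two distinct Sylow p-subgroups S and T with S ∩ T ≠ 1 are joined by a chain S = S₀, S₁, …, Sₙ = T of Sylow p-subgroups where, for each i, some member Xᵢ of 𝓕 meets both S_{i-1} and Sᵢ in Sylow p-subgroups of Xᵢ, satisfies S ∩ T ≤ Sᵢ ∩ Xᵢ, and contains an element xᵢ with Sᵢ^{xᵢ} = S_{i-1}) if and only if 𝓕 strongly controls p-fusion in G (whenever A is a subset of a Sylow p-subgroup S, A contains an element other than 1, and A^g ⊆ S, the element g factorises as g = y₁⋯yₙy with y ∈ N_G(S) and each yᵢ in a member Yᵢ of 𝓕 that meets S in a Sylow p-subgroup of Yᵢ, with A^{y₁⋯yᵢ} ⊆ S ∩ Yᵢ for each i). -/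
theorem result {G : Type*} [Group G] [Finite G] {p : ℕ} [Fact p.Prime] (hdiv : p ∣ Nat.card G) (𝓕 : Set (Subgroup G)) (h𝓕 : Cfsg.IsNormalSet 𝓕) : Cfsg.ControlsSylowIntersections p 𝓕 ↔ Cfsg.FamilyStronglyControlsFusion p 𝓕 := by
  open Subgroup Cfsg.Agent.H24 in
  open scoped commutatorElement in
  open Cfsg.Agent.H10 (SubnormalIn OqOf) in
  open Cfsg.Agent.H9 (maxEA) in
  rw [controls_iff]
  have hn := isNormalSet_iff.mp h𝓕
  constructor
  · intro h S A g hA ⟨a, ha, ha1⟩ hg
    have h1 := h S (cj S g) (closure A) (sylIn_top S) ((sylIn_top S).cj_of_mem trivial)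
      ((closure_le _).mpr hA) (conjRight_subset_iff.mp hg) fun he =>
        ha1 (mem_bot.mp (he ▸ subset_closure ha))
    let r : G → G → Prop := fun h h' => ∃ Y ∈ sylowMembers p 𝓕 S, h⁻¹ * h' ∈ Y ∧
      closure A ≤ cj (S ⊓ Y) h'
    have h2 : ∀ T, Link p 𝓕 (closure A) S T → ∃ h, Relation.ReflTransGen r 1 h ∧ cj S h = T := by
      intro T hT
      induction hT with
      | refl => exact ⟨1, .refl, cj_one _⟩
      | tail _ h3 ih =>
        obtain ⟨h, h4, rfl⟩ := ih
        obtain ⟨X, hX, h5, x, hx, rfl, h6⟩ := h3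
        refine ⟨x * h, h4.tail ⟨cj X h⁻¹, mem_sylowMembers.mpr ⟨hn X hX _, ?_⟩, ?_, ?_⟩, (cj_cj _ _ _).symm⟩
        · have := h5.cj h⁻¹
          rwa [cj_inf, cj_cj_inv] at this
        · simpa [mul_assoc] using conj_mem_cj hx h⁻¹
        · rwa [cj_inf, cj_cj, mul_inv_cancel_right, cj_eq_of_mem hx, ← cj_cj]
    obtain ⟨h, h3, h4⟩ := h2 _ h1
    obtain ⟨n, c, h5, h6, h7⟩ := rtg_iff_fin.mp h3
    choose Y hY h8 h9 using h7
    have h10 := Fin.partialProd_left_inv c
    rw [h5, one_smul] at h10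
    refine ⟨n, Y, fun i => (c i.castSucc)⁻¹ * c i.succ, h⁻¹ * g, ?_, fun i => ⟨hY i, h8 i⟩, ?_, fun i => ?_⟩
    · rw [← cj_eq_self_iff, ← cj_cj, ← h4, cj_cj_inv]
    · have := congrFun h10 (Fin.last n)
      rw [Fin.partialProd, List.take_of_length_le (by simp), h6] at this
      rw [this, mul_inv_cancel_left]
    · have := congrFun h10 i.succ
      rw [Fin.partialProd, Fin.val_succ] at this
      rw [this]
      exact (conjRight_subset_iff (S := S ⊓ Y i)).mpr (h9 i)
  · intro h S T D hS hT h1 h2 h0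
    obtain ⟨g, -, rfl⟩ := hS.exists_cj_eq hT
    obtain ⟨S, rfl⟩ := sylIn_top_iff.mp hS
    obtain ⟨n, Y, y, y₀, h3, h4, h5, h6⟩ := h S D g h1 (exists_mem_ne_one h0)
      (conjRight_subset_iff.mpr (by rwa [closure_eq]))
    refine rtg_iff_fin.mpr ⟨n, fun i => cj S (Fin.partialProd y i), by simp [cj_one], ?_, fun i =>
      ⟨_, hn _ (h4 i).1.1 (Fin.partialProd y i.castSucc), ?_, _, conj_mem_cj (h4 i).2 _, ?_, ?_⟩⟩
    · beta_reduce
      rw [h5, ← cj_cj, cj_eq_of_mem_normalizer h3, Fin.partialProd, List.take_of_length_le (by simp)]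
    · exact cj_inf S (Y i) _ ▸ (mem_sylowMembers.mp (h4 i).1).2.cj _
    · beta_reduce
      rw [cj_cj, inv_mul_cancel_right, Fin.partialProd_succ]
    · have := (conjRight_subset_iff (S := S ⊓ Y i)).mp (h6 i)
      rw [closure_eq, cj_inf, ← Fin.val_succ, ← Fin.partialProd] at this
      refine this.trans (inf_le_inf_left _ ?_)
      rw [Fin.partialProd_succ, ← cj_cj, cj_eq_of_mem (h4 i).2]

end Cfsg.Agent.S2939
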