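import Cfsg.Statements.S2955
import Cfsg.Agent.H24.SylCtl

set_option autoImplicit false
open Cfsg

namespace Cfsg.Agent.S2955

/-- Let p be a prime dividing the order of the finite group G and 𝓕 a conjugation-closed family of subgroups that controls Sylow p-intersections in G. Suppose the Sylow p-subgroups of G are chain-connected: any two of them are joined by a chain of Sylow p-subgroups, consecutive ones distinct with nontrivial intersection, all containing the intersection of the two ends (equivalently, the graph on the Sylow p-subgroups whose edges are the distinct pairs meeting nontrivially is connected). Then for every Sylow p-subgroup S, G is generated by N_G(S) together with the members of 𝓕 that meet S in a Sylow p-subgroup of themselves. -/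
theorem result {G : Type*} [Group G] [Finite G] (p : ℕ) [Fact p.Prime] (hdiv : p ∣ Nat.card G)
    (𝓕 : Set (Subgroup G)) (h𝓕 : Cfsg.IsNormalSet 𝓕) (hc : Cfsg.ControlsSylowIntersections p 𝓕)
    (hconn : Cfsg.IsSylowChainConnected p G) (S : Sylow p G) :
    (⨆ X ∈ Cfsg.sylowMembers p 𝓕 (S : Subgroup G), X) ⊔ Subgroup.normalizer ((S : Subgroup G) : Set G) = ⊤ := by
  open Subgroup Cfsg.Agent.H24 in
  open scoped commutatorElement in
  open Cfsg.Agent.H10 (SubnormalIn OqOf) in
  open Cfsg.Agent.H9 (maxEA) in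
  have hn := isNormalSet_iff.mp h𝓕
  set H := (⨆ X ∈ sylowMembers p 𝓕 (S : Subgroup G), X) ⊔ 𝐍[(S : Subgroup G)] with hH
  have h1 : ∀ D A B, Link p 𝓕 D A B → (∃ h ∈ H, cj S h = A) → ∃ h ∈ H, cj S h = B := by
    intro D A B hAB hA
    induction hAB with
    | refl => exact hA
    | tail _ h3 ih =>
      obtain ⟨h, h4, rfl⟩ := ih
      obtain ⟨X, hX, h5, x, hx, rfl, -⟩ := h3
      have h6 : cj X h⁻¹ ≤ H := by
        refine le_trans (le_iSup₂_of_le (f := fun X (_ : X ∈ sylowMembers p 𝓕 (S : Subgroup G)) => X)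
          _ (mem_sylowMembers.mpr ⟨hn X hX _, ?_⟩) le_rfl) le_sup_left
        have := h5.cj h⁻¹
        rwa [cj_inf, cj_cj_inv] at this
      refine ⟨x * h, ?_, (cj_cj _ _ _).symm⟩
      simpa [mul_assoc] using H.mul_mem h4 (h6 (conj_mem_cj hx h⁻¹))
  refine eq_top_iff.mpr fun g _ => ?_
  obtain ⟨n, c, h2, h3, -, h4⟩ := hconn S ((sylIn_top S).cj_of_mem (mem_top g)).toSylowTop
  have h5 : ∀ i, ∃ h ∈ H, cj S h = c i := fun i => Fin.inductionOn i ⟨1, one_mem _, by rw [h2, cj_one]⟩
    fun j ih => h1 _ _ _ (controls_iff.mp hc _ _ _ (sylIn_top _) (sylIn_top _) inf_le_left inf_le_right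
      (h4 j).2) ih
  obtain ⟨h, h6, h7⟩ := h5 (Fin.last n)
  rw [h3, SylIn.coe_toSylowTop] at h7
  have h8 : h⁻¹ * g ∈ 𝐍[(S : Subgroup G)] := by rw [← cj_eq_self_iff, ← cj_cj, ← h7, cj_cj_inv]
  simpa using H.mul_mem h6 (mem_sup_right h8)

end Cfsg.Agent.S2955
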