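import Cfsg.Statements.S2956
import Cfsg.Agent.H24.SylCtl

set_option autoImplicit false
open Cfsg

namespace Cfsg.Agent.S2956

/-- Let p be a prime dividing the order of the finite group G, and f an assignment to every p-subgroup P of a set f(P) of subgroups of P, each normalized by N_G(P), compatible with conjugation, such that for P ≠ 1 the members of f(P) are nontrivial. Let 𝓕 be the family of the normalizers N_G(F) of the members F of f(S) over the Sylow p-subgroups S of G, and 𝓕' the family of the maximal p-local subgroups M of G that are singular for f (the corresponding family of normalizers inside M does not control Sylow p-intersections in M). Then 𝓕 ∪ 𝓕' controls Sylow p-intersections in G. -/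
theorem result {G : Type*} [Group G] [Finite G] (p : ℕ) [Fact p.Prime] (hdiv : p ∣ Nat.card G)
    (f : Subgroup G → Set (Subgroup G)) (hf : Cfsg.IsNormalizerFunctor p f)
    (hf1 : ∀ P : Subgroup G, IsPGroup p ↥P → P ≠ ⊥ → ∀ F ∈ f P, F ≠ ⊥)
    (𝓕 𝓕' : Set (Subgroup G)) (h𝓕 : 𝓕 = Cfsg.functorFamily p f ⊤)
    (h𝓕' : 𝓕' = {M | Cfsg.IsMaximalPLocal p M ∧ ¬ Cfsg.IsFunctorRegular p f M}) :
    Cfsg.ControlsSylowIntersections p (𝓕 ∪ 𝓕') := by
  open Subgroup Cfsg.Agent.H24 in
  open scoped commutatorElement in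
  open Cfsg.Agent.H10 (SubnormalIn OqOf) in
  open Cfsg.Agent.H9 (maxEA) in
  subst h𝓕 h𝓕'
  set 𝓖 := functorFamily p f ⊤ ∪ {M | IsMaximalPLocal p M ∧ ¬ IsFunctorRegular p f M} with h𝓖
  have main : ∀ n (D : Subgroup G), Nat.card G ≤ Nat.card D + n → D ≠ ⊥ → ∀ S T, SylIn p S ⊤ →
      SylIn p T ⊤ → D ≤ S → D ≤ T → Link p 𝓖 D S T := by
    intro n
    induction n with
    | zero =>
      intro D hD _ S T hS hT h1 h2
      have : D = ⊤ := eq_of_le_of_card_le le_top (by simpa using hD)
      rw [this, top_le_iff] at h1 h2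
      rw [h1, h2]
    | succ n ih =>
    intro D hD h0
    have hA : ∀ P S T, D < P → SylIn p S ⊤ → SylIn p T ⊤ → P ≤ S → P ≤ T → Link p 𝓖 D S T :=
      fun P S T h1 hS hT h2 h3 => (ih P (by have := card_lt_of_lt h1; omega) (ne_bot_of_gt h1) S T hS
        hT h2 h3).mono h1.le le_rfl
    have hB : ∀ (k : ℕ) (M P Q : Subgroup G), IsPLocal p M → IsPGroup p P → IsPGroup p Q → P ≤ M → Q ≤ M → D < P → D < Q →
        (∀ R, SylIn p R M → Nat.card G < Nat.card R + k) → ∀ S T, SylIn p S ⊤ → SylIn p T ⊤ → P ≤ S →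
          Q ≤ T → Link p 𝓖 D S T := by
      intro k
      induction k with
      | zero =>
        intro M _ _ _ _ _ _ _ _ _ h
        obtain ⟨R, hR⟩ := exists_sylIn p M
        exact absurd (h R hR) (not_lt.mpr (Subgroup.card_le_card_group R))
      | succ k ihk =>
      intro M₀ P₀ Q₀ hM₀ hP₀ hQ₀ hPM hQM hDP hDQ hk S T hS hT hPS hQT
      obtain ⟨M, ⟨hM, hM'⟩, hmax⟩ := (wellFounded_gt (α := Subgroup G)).has_min
        {M | IsPLocal p M ∧ M₀ ≤ M} ⟨M₀, hM₀, le_rfl⟩
      have hMM : IsMaximalPLocal p M := ⟨hM, fun N hN h => by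
        by_contra hne
        exact hmax N ⟨hN, hM'.trans h⟩ (lt_of_le_of_ne h (Ne.symm hne))⟩
      have hk' : ∀ R, SylIn p R M → Nat.card G < Nat.card R + (k + 1) := fun R hR => by
        obtain ⟨R₀, hR₀⟩ := exists_sylIn p M₀
        have := hR.card_le hR₀.pgrp (hR₀.le.trans hM')
        have := hk R₀ hR₀
        omega
      obtain ⟨P, hP, h1⟩ := exists_sylIn_le hP₀ (hPM.trans hM')
      obtain ⟨Q, hQ, h2⟩ := exists_sylIn_le hQ₀ (hQM.trans hM')
      obtain ⟨S', hS', h3⟩ := exists_sylIn_le hP.pgrp le_top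
      obtain ⟨T', hT', h4⟩ := exists_sylIn_le hQ.pgrp le_top
      refine (hA P₀ S S' hDP hS hS' hPS (h1.trans h3)).trans (.trans ?_
        (hA Q₀ T' T hDQ hT' hT (h2.trans h4) hQT))
      replace hDP := hDP.trans_le h1
      replace hDQ := hDQ.trans_le h2
      by_cases hreg : IsFunctorRegular p f M
      · have h5 := isFunctorRegular_iff.mp hreg P Q D hP hQ hDP.le hDQ.le h0
        have h6 : ∀ Q, Link p (functorFamily p f M) D P Q → SylIn p Q M ∧ D < Q ∧
            ∀ T', SylIn p T' ⊤ → Q ≤ T' → Link p 𝓖 D S' T' := by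
          intro Q hQ
          induction hQ with
          | refl => exact ⟨hP, hDP, fun T' hT' h => hA P S' T' hDP hS' hT' h3 h⟩
          | @tail A _ _ h7 ih' =>
            obtain ⟨hA1, hA2, hA3⟩ := ih'
            obtain ⟨R, hR, F, hF, h8, x, hx, rfl, h9⟩ := h7.functor hf hA1
            have h10 : D < cj A x := lt_of_le_of_ne h9 fun he => by
              have := card_lt_of_lt hA2
              rw [he, card_cj] at this
              exact lt_irrefl _ this
            refine ⟨hA1.cj_of_mem hx.1, h10, fun U hU h11 => ?_⟩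
            by_cases hRG : SylIn p R ⊤
            · have h12 := hRG.of_card_le hA1.pgrp le_top (hA1.card_eq hR).ge
              rw [(h12.cj_of_mem (mem_top x)).max _ hU.pgrp h11 le_top]
              exact (hA3 A h12 le_rfl).tail
                ((step_top_of_functor hRG hF h12 h8 hx.2 h9).mono le_rfl Set.subset_union_left)
            · obtain ⟨V, hV, h12⟩ := exists_sylIn_le hA1.pgrp le_top
              refine (hA3 V hV h12).trans (ihk 𝐍[F] A (cj A x) ⟨F, hR.pgrp.to_le ((hf R hR.pgrp).1 F hF).1,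
                hf1 R hR.pgrp (fun he => ?_) F hF, rfl⟩ hA1.pgrp (IsPGroup.cj hA1.pgrp x) h8
                (cj_le_of_mem h8 hx.2) hA2 h10 (fun W hW => ?_) V U hV hU h12 h11)
              · have := card_lt_of_lt hA2
                rw [hA1.card_eq hR, he, card_bot] at this
                have := card_pos' D
                omega
              · obtain ⟨R', hR', h13⟩ := exists_sylIn_le hR.pgrp (le_inf le_top le_normalizer)
                have h14 : R < R' := lt_of_le_of_ne h13 fun he =>
                  hRG (sylIn_of_sylIn_inf_normalizer (he ▸ hR'))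
                have := card_lt_of_lt h14
                have := hW.card_le hR'.pgrp (hR'.le.trans (inf_le_right.trans ((hf R hR.pgrp).1 F hF).2))
                have := hk' R hR
                omega
        exact (h6 Q h5).2.2 T' hT' h4
      · obtain ⟨x, hx, rfl⟩ := hP.exists_cj_eq hQ
        have h5 : S' ⊓ M = P := hP.max _ hS'.pgrp.to_inf_left (le_inf h3 hP.le) inf_le_right
        refine .head (b := cj S' x) ⟨M, Or.inr ⟨hMM, hreg⟩, h5 ▸ hP, x, hx, rfl,
          le_inf (hDQ.le.trans (cj_mono h3 x)) (hDP.le.trans hP.le)⟩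
          (hA _ _ _ hDQ (hS'.cj_of_mem trivial) hT' (cj_mono h3 x) h4)
    intro S T hS hT h1 h2
    by_cases h3 : D = S
    · subst h3
      rw [hS.max _ hT.pgrp h2 le_top]
    by_cases h4 : D = T
    · subst h4
      rw [hT.max _ hS.pgrp h1 le_top]
    exact hB (Nat.card G + 1) 𝐍[D] _ _ ⟨D, hS.pgrp.to_le h1, h0, rfl⟩ hS.pgrp.to_inf_left
      hT.pgrp.to_inf_left inf_le_right inf_le_right (lt_inf_normalizer hS.pgrp (lt_of_le_of_ne h1 h3))
      (lt_inf_normalizer hT.pgrp (lt_of_le_of_ne h2 h4)) (fun _ _ => by omega) S T hS hT inf_le_left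
      inf_le_left
  exact controls_iff.mpr fun S T D hS hT h1 h2 h0 => main (Nat.card G) D (by omega) h0 S T hS hT h1 h2

end Cfsg.Agent.S2956
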