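import Cfsg.Statements.S2957
import Cfsg.Agent.H24.SylCtl

set_option autoImplicit false
open Cfsg

namespace Cfsg.Agent.S2957

/-- Let p be a prime dividing the order of the finite group G, f an equivariant assignment of a set of subgroups f(P) of P to every p-subgroup P, each normalized by N_G(P), and S a Sylow p-subgroup. If G = G₁G₂ for subgroups G₁, G₂ both containing S and both regular for f (in each Gᵢ, the family of normalizers in Gᵢ of the members of f(P), P a Sylow p-subgroup of Gᵢ, controls Sylow p-intersections), then G itself is regular for f. -/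
theorem result {G : Type*} [Group G] [Finite G] (p : ℕ) [Fact p.Prime] (hdiv : p ∣ Nat.card G)
    (f : Subgroup G → Set (Subgroup G)) (hf : Cfsg.IsNormalizerFunctor p f) (S : Sylow p G)
    (G₁ G₂ : Subgroup G) (h₁ : (S : Subgroup G) ≤ G₁) (h₂ : (S : Subgroup G) ≤ G₂)
    (hprod : ∀ g : G, ∃ g₁ ∈ G₁, ∃ g₂ ∈ G₂, g = g₁ * g₂)
    (hr₁ : Cfsg.IsFunctorRegular p f G₁) (hr₂ : Cfsg.IsFunctorRegular p f G₂) :
    Cfsg.IsFunctorRegular p f ⊤ := by
  open Subgroup Cfsg.Agent.H24 in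
  open scoped commutatorElement in
  open Cfsg.Agent.H10 (SubnormalIn OqOf) in
  open Cfsg.Agent.H9 (maxEA) in
  have hn := cj_mem_functorFamily_top hf
  refine isFunctorRegular_iff.mpr fun A B D hA hB hDA hDB h0 => ?_
  have hS := sylIn_top S
  have key : ∀ (M : Subgroup G) (U D : Subgroup G), (S : Subgroup G) ≤ M → IsFunctorRegular p f M →
      SylIn p U ⊤ → U ≤ M → D ≤ S → D ≤ U → D ≠ ⊥ → Link p (functorFamily p f ⊤) D S U ∧
        Link p (functorFamily p f ⊤) D U S := fun M U D h1 h2 hU h3 h4 h5 h6 =>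
    ⟨((isFunctorRegular_iff.mp h2 _ _ D (hS.of_le h1 le_top) (hU.of_le h3 le_top) h4 h5 h6).functor_top
      hf hS h1).1, ((isFunctorRegular_iff.mp h2 _ _ D (hU.of_le h3 le_top) (hS.of_le h1 le_top) h5 h4
        h6).functor_top hf hU h3).1⟩
  obtain ⟨a, -, rfl⟩ := hS.exists_cj_eq hA
  obtain ⟨g, -, hg⟩ := hS.exists_cj_eq (hB.cj_of_mem (mem_top a⁻¹))
  obtain ⟨U, hU, h3, h4⟩ := exists_sylow_of_factor hS h₁ h₂ hprod g
  have h5 : cj D a⁻¹ ≤ S := le_cj_iff.mp hDA
  have h6 : cj D a⁻¹ ≤ cj S g := hg ▸ cj_mono hDB _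
  have h7 : cj D a⁻¹ ≠ ⊥ := by rwa [Ne, cj_eq_bot_iff]
  have h8 := (key G₁ U _ h₁ hr₁ hU (h4.trans inf_le_left) h5 ((le_inf h5 h6).trans h3) h7).1
  have h9 := ((key G₂ (cj U g⁻¹) _ h₂ hr₂ (hU.cj_of_mem trivial) (le_cj_iff.mp (h4.trans inf_le_right))
    (le_cj_iff.mp h6) (cj_mono ((le_inf h5 h6).trans h3) _) (by rwa [Ne, cj_eq_bot_iff])).2).cj hn g
  rw [cj_inv_cj, cj_inv_cj] at h9
  have := Link.cj (h8.trans h9) hn a
  rwa [cj_inv_cj, hg, cj_inv_cj] at this

end Cfsg.Agent.S2957
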