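import Cfsg.Statements.S2958
import Cfsg.Agent.H24.Misc1

set_option autoImplicit false
open Cfsg

namespace Cfsg.Agent.S2958

/-- Let X, A, B be subgroups of a group G such that G is generated by the conjugates of X and every conjugate of X is contained in A or in B. Then A = G or B = G. -/
theorem result {G : Type*} [Group G] (X A B : Subgroup G) (hgen : (⨆ g : G, X.map (MulAut.conj g).toMonoidHom) = ⊤) (hcover : ∀ g : G, X.map (MulAut.conj g).toMonoidHom ≤ A ∨ X.map (MulAut.conj g).toMonoidHom ≤ B) : A = ⊤ ∨ B = ⊤ := by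
  open Subgroup Cfsg.Agent.H24 in
  open scoped commutatorElement in
  open Cfsg.Agent.H10 (SubnormalIn OqOf) in
  open Cfsg.Agent.H9 (maxEA) in
  by_contra hc
  push Not at hc
  simp only [map_conj_eq_cj] at hgen hcover
  let B₀ : Subgroup G := ⨆ g : {g : G // ¬ cj X g ≤ A}, cj X g
  have h1 : A ≤ normalizer (B₀ : Set G) := le_normalizer_iff_cj_le.mpr fun a ha => by
    rw [cj_iSup, iSup_le_iff]
    rintro ⟨g, hg⟩
    rw [cj_cj]
    exact le_iSup (fun g : {g : G // ¬ cj X g ≤ A} => cj X g) ⟨a * g, fun h => hg (le_of_cj_le_of_mem (by rwa [cj_cj]) ha)⟩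
  have h2 : ⊤ ≤ normalizer (B₀ : Set G) := by
    rw [← hgen, iSup_le_iff]
    intro g
    by_cases h : cj X g ≤ A
    · exact h.trans h1
    · exact le_normalizer_of_le (le_iSup (fun g : {g : G // ¬ cj X g ≤ A} => cj X g) ⟨g, h⟩)
  obtain ⟨g, hg⟩ : ∃ g, ¬ cj X g ≤ A := by
    by_contra h
    push Not at h
    exact hc.1 (top_le_iff.mp (hgen ▸ iSup_le h))
  refine hc.2 (top_le_iff.mp (le_trans ?_ (iSup_le fun g => (hcover g).resolve_left g.2 : B₀ ≤ B)))
  rw [← hgen, iSup_le_iff]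
  intro k
  have := cj_le_of_mem_normalizer (le_iSup (fun g : {g : G // ¬ cj X g ≤ A} => cj X g) ⟨g, hg⟩) (h2 (mem_top (k * g⁻¹)))
  simpa [cj_cj] using this

end Cfsg.Agent.S2958
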