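import Cfsg.Statements.S2959
import Cfsg.Agent.H24.Misc1

set_option autoImplicit false
open Cfsg

namespace Cfsg.Agent.S2959

/-- Let G be a finite group of characteristic p, that is C_G(O_p(G)) ≤ O_p(G), with p prime, and let L be a subgroup of G normalized by O_p(G). Then L has characteristic p: C_L(O_p(L)) ≤ O_p(L). -/
theorem result {G : Type*} [Group G] [Finite G] {p : ℕ} [Fact p.Prime] (hG : Subgroup.centralizer (Cfsg.pCore p G : Set G) ≤ Cfsg.pCore p G) (L : Subgroup G) (hL : Cfsg.pCore p G ≤ Subgroup.normalizer (L : Set G)) : Subgroup.centralizer (Cfsg.pCore p ↥L : Set ↥L) ≤ Cfsg.pCore p ↥L := by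
  open Subgroup Cfsg.Agent.H24 in
  open scoped commutatorElement in
  open Cfsg.Agent.H10 (SubnormalIn OqOf) in
  open Cfsg.Agent.H9 (maxEA) in
  rw [← H24.charP_iff]
  refine charP_of_forall fun E h1 h2 h3 _ => (charP_top_iff.mpr hG).eq_bot_of_le_centralizer h1 le_top ?_
  rw [pCoreOf_top]
  refine le_centralizer_of_stabilizes h1 (isPGroup_pCoreOf p L) ?_ h3
  refine le_trans (le_inf ((commutator_mono le_rfl h2).trans (commutator_le_right_of_le_normalizer hL)) (commutator_le_left _ _)) ?_
  exact le_pCoreOf inf_le_left (isPGroup_pCore p G).to_inf_right (le_normalizer_inf le_normalizer (le_top.trans (top_le_normalizer _)))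

end Cfsg.Agent.S2959
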