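import Cfsg.Statements.S2961
import Cfsg.Agent.H24.Misc1

set_option autoImplicit false
open Cfsg

namespace Cfsg.Agent.S2961

/-- Let G be a finite group of characteristic p (C_G(O_p(G)) ≤ O_p(G)), p prime, T a Sylow p-subgroup of G and Q a normal subgroup of T with C_T(Q) ≤ Q. Then every subgroup L of G containing Q has characteristic p: C_L(O_p(L)) ≤ O_p(L). -/
theorem result {G : Type*} [Group G] [Finite G] {p : ℕ} [Fact p.Prime] (hG : Subgroup.centralizer (Cfsg.pCore p G : Set G) ≤ Cfsg.pCore p G) (T : Sylow p G) (Q : Subgroup G) (hQT : Q ≤ (T : Subgroup G)) (hQn : (T : Subgroup G) ≤ Subgroup.normalizer (Q : Set G)) (hC : (T : Subgroup G) ⊓ Subgroup.centralizer (Q : Set G) ≤ Q) (L : Subgroup G) (hQL : Q ≤ L) : Subgroup.centralizer (Cfsg.pCore p ↥L : Set ↥L) ≤ Cfsg.pCore p ↥L := by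
  open Subgroup Cfsg.Agent.H24 in
  open scoped commutatorElement in
  open Cfsg.Agent.H10 (SubnormalIn OqOf) in
  open Cfsg.Agent.H9 (maxEA) in
  have hCQ := (le_inf le_top le_rfl).trans ((charP_top_iff.mpr hG).inf_centralizer_le_of_sylIn (sylIn_top T) hQT hQn hC)
  rw [← H24.charP_iff]
  refine charP_of_forall fun E h1 h2 h3 h4 => ?_
  have hO := isPGroup_pCore p G
  have hn : ∀ K : Subgroup G, K ≤ normalizer (pCore p G : Set G) := fun K => le_top.trans (top_le_normalizer _)
  have h5 : ⁅pCore p G, Q⁆ ≤ pCore p G ⊓ centralizer (E : Set G) := by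
    refine le_inf (commutator_le_left _ _) (le_trans ?_ (le_centralizer_iff.mp h3))
    refine le_trans (le_inf ((commutator_le_right_of_le_normalizer ((pCore_le_sylow T).trans hQn)).trans hQL) (commutator_le_left _ _)) ?_
    exact le_pCoreOf inf_le_left hO.to_inf_right (le_normalizer_inf le_normalizer (hn _))
  have h6 := le_centMod_of_ncl hQL (hn _) (le_normalizer_inf (hn _) (le_normalizer_centralizer h4)) h5
  have h7 : ⁅Q, E⁆ ≤ ncl Q L := by rw [ncl_eq_sup_commutator]; exact (commutator_mono le_rfl h2).trans le_sup_right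
  have h8 : ⁅Q, E⁆ ≤ E := commutator_le_right_of_le_normalizer (hQL.trans h4)
  have h9 : pResidualOf p ⁅Q, E⁆ = ⊥ := (charP_top_iff.mpr hG).eq_bot_of_le_centralizer (pResidualOf_idem _ _) le_top (by
    rw [pCoreOf_top]
    exact le_centralizer_of_stabilizes (pResidualOf_idem _ _) hO.to_inf_left ((commutator_mono le_rfl ((pResidualOf_le _ _).trans h7)).trans h6) ((pResidualOf_le _ _).trans (h8.trans (le_centralizer_iff.mp inf_le_right))))
  rw [pResidualOf_eq_bot_iff] at h9
  have h10 : ⁅Q, E⁆ ≤ pCoreOf p L := (le_pCoreOf h8 h9 (right_le_normalizer_commutator Q E)).trans (pCoreOf_le_of_normal h2 h4)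
  exact eq_bot_of_pResidual h1 ((T.2.to_le hQT).to_le ((le_centralizer_of_stabilizes h1 (isPGroup_pCoreOf p L) h10 h3).trans hCQ))

end Cfsg.Agent.S2961
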