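import Cfsg.Statements.S2962
import Cfsg.Agent.H6.ZStar2
import Cfsg.Agent.FT
import Cfsg.Agent.H3.Tate
import Cfsg.Agent.H1.FrobCompl

set_option autoImplicit false
open Cfsg

namespace Cfsg.Agent.S2962

open Subgroup
open scoped commutatorElement Pointwise

variable {G : Type*} [Group G] [Finite G] {N Q : Subgroup G} [N.Normal]

omit [Finite G] in
theorem decomp (hG : Q ⊔ N = ⊤) (x : G) : ∃ q ∈ Q, q⁻¹ * x ∈ N := by
  obtain ⟨q, hq, n, hn, rfl⟩ : x ∈ (Q : Set G) * N := by rw [← mul_normal, hG]; trivial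
  exact ⟨q, hq, by simpa using hn⟩

theorem stepA (hG : Q ⊔ N = ⊤) (hd : Q ⊓ N = ⊥) {t : G} (ht : t ∈ ⁅Q, Q⁆)
    (hC : N ⊓ centralizer {t} ≤ centralizer (Q : Set G)) {S : Subgroup G} (hS : IsPGroup 2 S) (h : Q ≤ S) :
    S ⊓ N ≤ centralizer (Q : Set G) := by
  let C := S ⊓ N ⊓ centralizer (Q : Set G)
  have h1 : (Q ⊔ C) ⊓ N ≤ centralizer (Q : Set G) := by
    rintro x ⟨hx, hx'⟩
    obtain ⟨q, hq, c, hc, rfl⟩ := (coe_mul_of_left_le_normalizer_right Q C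
      ((le_centralizer_iff.mp inf_le_right).trans (centralizer_le_normalizer _))).le hx
    obtain rfl : q = 1 := hd.le ⟨hq, (N.mul_mem_cancel_right hc.1.2).mp hx'⟩
    simpa using hc.2
  let Y := S ⊓ N ⊓ normalizer ((Q ⊔ C : Subgroup G) : Set G)
  have h2 : ⁅⁅Y, Q⁆, Q⁆ = ⊥ := commutator_eq_bot_iff_le_centralizer.mpr (le_trans (le_inf
    (commutator_le.mpr fun y hy q hq => mul_mem ((mem_normalizer_iff.mp hy.2 q).mp (mem_sup_left hq))
      (inv_mem (mem_sup_left hq))) ((commutator_mono (inf_le_left.trans inf_le_right) le_rfl).trans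
        (commutator_le_left N Q))) h1)
  have h3 : Y ≤ C := fun y hy => ⟨hy.1, hC ⟨hy.1.2, fun _ e => e ▸ (commutator_eq_bot_iff_le_centralizer.mp
    (commutator_commutator_eq_bot_of_rotate (commutator_comm Y Q ▸ h2) h2) ht y hy).symm⟩⟩
  refine le_trans (inf_le_inf_right _ ?_) h1
  by_contra h4
  obtain ⟨y, hy, hy'⟩ := SetLike.exists_of_lt (H1.lt_normalizer_inf_of_isNilpotent hS.isNilpotent
    (lt_of_le_not_ge (sup_le h (inf_le_left.trans inf_le_left)) h4))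
  obtain ⟨q, hq, hq'⟩ := decomp hG y
  exact hy' ((mul_mem_cancel_left (inv_mem (mem_sup_left hq))).mp (mem_sup_right (h3
    ⟨⟨S.mul_mem (S.inv_mem (h hq)) hy.2, hq'⟩, Subgroup.mul_mem _ (Subgroup.inv_mem _
      (le_normalizer (mem_sup_left hq))) hy.1⟩)))

/-- Let G be a finite group with G = QN, where N is a normal subgroup of G and Q is a non-abelian 2-subgroup with Q ∩ N = 1. Suppose that some nontrivial element t of Z(Q) ∩ [Q, Q] satisfies C_N(Q) = C_N(t). Then [N, Q] is solvable of odd order. -/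
theorem result {G : Type*} [Group G] [Finite G] (N Q : Subgroup G) [N.Normal] (hG : Q ⊔ N = ⊤) (hQ : IsPGroup 2 ↥Q) (hQna : ¬ IsMulCommutative ↥Q) (hdisj : Q ⊓ N = ⊥) (t : G) (ht1 : t ≠ 1) (htZ : t ∈ Q ⊓ Subgroup.centralizer (Q : Set G)) (htQ : t ∈ ⁅Q, Q⁆) (hC : N ⊓ Subgroup.centralizer (Q : Set G) = N ⊓ Subgroup.centralizer ({t} : Set G)) : Group.IsSolvable ↥⁅N, Q⁆ ∧ Odd (Nat.card ↥⁅N, Q⁆) := by
  have hA := fun S => stepA hG hdisj htQ (hC.ge.trans inf_le_right) (S := S)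
  have h0 : ∀ g : G, t⁻¹ * (g * t * g⁻¹) ∈ N := fun g => by
    obtain ⟨q, hq, hn⟩ := decomp hG g
    rw [← QuotientGroup.eq, QuotientGroup.mk_mul, QuotientGroup.mk_mul, QuotientGroup.mk_inv,
      ← QuotientGroup.eq.mpr hn, ← QuotientGroup.mk_mul, htZ.2 q hq]
    simp
  obtain ⟨S, hS⟩ := hQ.exists_le_sylow
  have h1 := hA S S.isPGroup' hS
  have h2 : ∀ a ∈ (S : Subgroup G), ∃ q ∈ Q, ∃ z ∈ (S : Subgroup G) ⊓ N, a = q * z := fun a ha =>
    let ⟨q, hq, hn⟩ := decomp hG a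
    ⟨q, hq, _, mem_inf.mpr ⟨mul_mem (inv_mem (hS hq)) ha, hn⟩, by simp⟩
  have h3 := H6.zstar_closed S (hS htZ.1) fun g hg => by
    obtain ⟨c, hc, h4⟩ := ((H3.sylowIn_of_le (g • S) (H := centralizer {g * t * g⁻¹}) (by
      rintro _ ⟨s, hs, rfl⟩ _ rfl
      obtain ⟨q, hq, z, hz, rfl⟩ := h2 s hs
      have : Commute t (q * z) := Commute.mul_right (htZ.2 q hq).symm (h1 hz t htZ.1)
      exact (this.map (MulAut.conj g)).eq))).exists_conj_le hQ fun q hq _ e => by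
      rw [e, ← mul_inv_cancel_left t (g * t * g⁻¹)]
      exact (Commute.mul_right (htZ.2 q hq) (h1 (mem_inf.mpr ⟨mul_mem (inv_mem (hS htZ.1)) hg, h0 g⟩) q hq)).symm.eq
    have h5 : Q.map (MulAut.conj (g⁻¹ * c)).toMonoidHom ≤ S := by
      rintro _ ⟨q, hq, rfl⟩
      obtain ⟨s, hs, e⟩ := h4 ⟨q, hq, rfl⟩
      have e' : g * s * g⁻¹ = c * q * c⁻¹ := e
      have : g⁻¹ * c * q * (g⁻¹ * c)⁻¹ = s := calc
        _ = g⁻¹ * (c * q * c⁻¹) * g := by group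
        _ = s := by rw [← e']; group
      exact (congrArg (· ∈ (S : Subgroup G)) this).mpr hs
    have h6 : (S : Subgroup G) ⊓ N ≤ centralizer (Q.map (MulAut.conj (g⁻¹ * c)).toMonoidHom : Set G) := by
      rintro z hz _ ⟨q, hq, rfl⟩
      have := hA ((g⁻¹ * c)⁻¹ • S : Sylow 2 G) (Sylow.isPGroup' _) (fun q hq => ⟨_, h5 ⟨q, hq, rfl⟩, by simp [mul_assoc]⟩)
        ⟨⟨z, hz.1, rfl⟩, Normal.conj_mem ‹_› z hz.2 _⟩ q hq
      simpa [mul_assoc] using congrArg (MulAut.conj (g⁻¹ * c)) this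
    have h7 : g⁻¹ * c * t * (g⁻¹ * c)⁻¹ ∈ Q := by
      refine commutator_le.mpr (fun a ha b hb => ?_) ((map_commutator _ _ _).le
        ⟨t, htQ, rfl⟩ : (MulAut.conj (g⁻¹ * c)).toMonoidHom t ∈ _)
      obtain ⟨q, hq, z, hz, rfl⟩ := h2 a (h5 ha)
      obtain ⟨r, hr, w, hw, rfl⟩ := h2 b (h5 hb)
      have e1 : Commute (r * w) z := h6 hz _ hb
      have e2 : Commute q w := h1 hw q hq
      convert mul_mem (mul_mem (mul_mem hq hr) (inv_mem hq)) (inv_mem hr) using 1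
      calc _ = q * (z * (r * w)) * z⁻¹ * (q⁻¹ * w⁻¹) * r⁻¹ := by rw [commutatorElement_def]; group
        _ = _ := by rw [← e1.eq, e2.inv_inv.eq]; group
    have h8 : t⁻¹ * (g⁻¹ * c * t * (g⁻¹ * c)⁻¹) = 1 := hdisj.le (mem_inf.mpr ⟨mul_mem (inv_mem htZ.1) h7, h0 _⟩)
    have h9 : g * t * g⁻¹ * c = c * (g * t * g⁻¹) := hc _ rfl
    calc _ = c⁻¹ * (g * t * g⁻¹ * c) := by rw [h9]; group
      _ = c⁻¹ * g * t * (t⁻¹ * (g⁻¹ * c * t * (g⁻¹ * c)⁻¹)) * (g⁻¹ * c) := by rw [h8]; group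
      _ = _ := by group
  have hO := H1.coprime_card_pPrimeCore 2 G
  have h4 : pPrimeCore 2 G ≤ N := fun x hx => by
    obtain ⟨q, hq, hn⟩ := decomp hG x
    obtain ⟨k, hk⟩ := hQ ⟨q, hq⟩
    rw [← QuotientGroup.eq_one_iff, ← orderOf_eq_one_iff]
    refine Nat.eq_one_of_dvd_coprimes (hO.pow_right k) ((orderOf_map_dvd (QuotientGroup.mk' N) x).trans
      (Subgroup.orderOf_dvd_natCard _ hx)) (orderOf_dvd_of_pow_eq_one ?_)
    rw [← QuotientGroup.eq.mpr hn, ← QuotientGroup.mk_pow, show q ^ 2 ^ k = 1 from congrArg Subtype.val hk]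
    rfl
  have h5 : ⁅N, Q⁆ ≤ pPrimeCore 2 G := by
    refine commutator_le.mpr fun n hn q hq => ?_
    obtain ⟨c, hc, e⟩ := (H1.centralizer_map_mk'_eq (A := zpowers t) (N := pPrimeCore 2 G)
      (H21.coprime_of_isPGroup (hQ.to_le (zpowers_le.mpr htZ.1)) hO)
      (Or.inl inferInstance)).le (x := n) (by
        rintro _ ⟨_, ⟨k, rfl⟩, rfl⟩
        rw [map_zpow]
        exact (Commute.zpow_left (commutatorElement_eq_one_iff_mul_comm.mp
          ((QuotientGroup.eq_one_iff ⁅t, n⁆).mpr (h3 n))) k).eq)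
    have e' : (c : G ⧸ pPrimeCore 2 G) = n := e
    have hc' := (hC.ge ⟨(N.mul_mem_cancel_right (h4 (QuotientGroup.eq.mp e'))).mp (by simpa using hn),
      fun _ e => e ▸ hc t (mem_zpowers t)⟩).2 q hq
    rw [← QuotientGroup.eq_one_iff, ← QuotientGroup.mk'_apply, map_commutatorElement,
      commutatorElement_eq_one_iff_mul_comm, QuotientGroup.mk'_apply _ n, ← e, ← map_mul, ← map_mul, hc']
  have h6 : Odd (Nat.card ↥⁅N, Q⁆) := Nat.coprime_two_right.mp (hO.coprime_dvd_left (card_dvd_of_le h5))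
  exact ⟨FT.solvable_of_odd h6, h6⟩

end Cfsg.Agent.S2962
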