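import Cfsg.Statements.S2963
import Cfsg.Agent.H24.PMin
import Cfsg.Agent.H24.Misc2

set_option autoImplicit false
open Cfsg

namespace Cfsg.Agent.S2963

/-- Let n be odd. If the symmetric group of degree n is a minimal parabolic group for the prime 2, that is, a Sylow 2-subgroup is not normal and lies in exactly one maximal subgroup, then n = 2^m + 1 for some natural number m. -/
theorem result (n : ℕ) (hn : Odd n) (h : Cfsg.IsPMinimal 2 (Equiv.Perm (Fin n))) : ∃ m : ℕ, n = 2 ^ m + 1 := by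
  open Subgroup Cfsg.Agent.H24 in
  open scoped commutatorElement in
  open Cfsg.Agent.H10 (SubnormalIn OqOf) in
  open Cfsg.Agent.H9 (maxEA) in
  open scoped Pointwise in
  by_contra hne
  obtain ⟨S⟩ : Nonempty (Sylow 2 (Equiv.Perm (Fin n))) := inferInstance
  obtain ⟨M, hM⟩ := (isPMinimal_iff_top (sylIn_top S)).mp h
  obtain ⟨k, rfl⟩ := hn
  have hk : k ≠ 0 := by
    rintro rfl
    have : Subsingleton (Equiv.Perm (Fin (2 * 0 + 1))) := inferInstanceAs (Subsingleton (Equiv.Perm (Fin 1)))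
    exact hM.lt.not_ge fun x _ => Subsingleton.elim 1 x ▸ one_mem M
  obtain ⟨j, h1, h2⟩ : ∃ j ∈ Finset.Icc 1 (k - 1), ¬ k.choose j ≡ 0 [MOD 2] := by
    by_contra hc
    push Not at hc
    exact hne ⟨multiplicity 2 k + 1, by
      rw [pow_succ', ← Choose.eq_pow_multiplicity_of_choose_modEq_zero_nat (Nat.pos_of_ne_zero hk) hc]⟩
  rw [Finset.mem_Icc] at h1
  have h3 : ¬ 2 ∣ (2 * k + 1).choose (2 * j) := by
    have := Choose.choose_modEq_choose_mod_mul_choose_div_nat (n := 2 * k + 1) (k := 2 * j) (p := 2)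
    rw [show (2 * k + 1) % 2 = 1 by omega, show (2 * j) % 2 = 0 by omega,
      show (2 * k + 1) / 2 = k by omega, show (2 * j) / 2 = j by omega, Nat.choose_zero_right,
      one_mul] at this
    exact fun h => h2 (this.symm.trans (Nat.modEq_zero_iff_dvd.mpr h))
  obtain ⟨s, hs⟩ := S.isPGroup'.nonempty_fixed_point_of_prime_not_dvd_card
    (Set.powersetCard (Fin (2 * k + 1)) (2 * j)) (by rwa [Set.powersetCard.card, Nat.card_fin])
  obtain ⟨i, hi⟩ := S.isPGroup'.nonempty_fixed_point_of_prime_not_dvd_card (Fin (2 * k + 1))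
    (by simp)
  have hsc : (s : Finset (Fin (2 * k + 1))).card = 2 * j := s.2
  obtain ⟨a, ha⟩ : (s : Finset (Fin (2 * k + 1))).Nonempty := Finset.card_pos.mp (by omega)
  obtain ⟨b, hb⟩ : (s : Finset (Fin (2 * k + 1)))ᶜ.Nonempty := Finset.card_pos.mp (by
    rw [Finset.card_compl, Fintype.card_fin]; omega)
  obtain ⟨c, hci, hc⟩ : ∃ c, c ≠ i ∧ (c ∈ (s : Finset (Fin (2 * k + 1))) ↔ i ∈ (s : Finset (Fin (2 * k + 1)))) := by
    by_cases h : i ∈ (s : Finset (Fin (2 * k + 1)))
    · obtain ⟨c, h4, h5⟩ := Finset.exists_mem_ne (by omega : 1 < (s : Finset (Fin (2 * k + 1))).card) i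
      exact ⟨c, h5, by simp [h4, h]⟩
    · obtain ⟨c, h4, h5⟩ := Finset.exists_mem_ne (s := (s : Finset (Fin (2 * k + 1)))ᶜ) (by
        rw [Finset.card_compl, Fintype.card_fin]; omega) i
      exact ⟨c, h5, by simpa [h] using h4⟩
  have h4 : MulAction.stabilizer (Equiv.Perm (Fin (2 * k + 1))) i ≤ M := hM.max _
    (fun g hg => hi ⟨g, hg⟩) (lt_top_iff_ne_top.mpr fun he => hci (by
      simpa using (he.ge (mem_top (Equiv.swap i c)))))
  have h5 : MulAction.stabilizer (Equiv.Perm (Fin (2 * k + 1))) (s : Finset (Fin (2 * k + 1))) ≤ M :=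
    hM.max _ (fun g hg => congrArg Subtype.val (hs ⟨g, hg⟩)) (lt_top_iff_ne_top.mpr fun he => by
      have h6 : Equiv.swap a b • (s : Finset (Fin (2 * k + 1))) = s := he.ge (mem_top (Equiv.swap a b))
      have := Finset.smul_mem_smul_finset (a := Equiv.swap a b) ha
      rw [h6] at this
      simp at this hb
      exact hb this)
  have h6 : Equiv.swap i c ∈ M := h5 (by
    rw [MulAction.mem_stabilizer_iff]
    ext x
    rw [← Finset.inv_smul_mem_iff, Equiv.swap_inv, Equiv.Perm.smul_def, Equiv.swap_apply_def]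
    split_ifs with e1 e2
    · rw [e1, hc]
    · rw [e2, hc]
    · rfl)
  have h7 : ∀ x y, x ≠ i → y ≠ i → Equiv.swap x y ∈ M := fun x y hx hy =>
    h4 (Equiv.swap_apply_of_ne_of_ne hx.symm hy.symm)
  have h8 : ∀ y, Equiv.swap i y ∈ M := fun y => by
    by_cases hy : y = i
    · rw [hy, Equiv.swap_self]; exact one_mem _
    have := M.mul_mem (M.mul_mem (h7 c y hci hy) h6) (M.inv_mem (h7 c y hci hy))
    rwa [← Equiv.swap_apply_apply, Equiv.swap_apply_left,
      Equiv.swap_apply_of_ne_of_ne hci.symm (Ne.symm hy)] at this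
  refine hM.lt.not_ge (Equiv.Perm.closure_isSwap.ge.trans ((closure_le _).mpr ?_))
  rintro _ ⟨x, y, -, rfl⟩
  by_cases hx : x = i
  · exact hx ▸ h8 y
  by_cases hy : y = i
  · rw [Equiv.swap_comm]; exact hy ▸ h8 x
  · exact h7 x y hx hy

end Cfsg.Agent.S2963
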