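import Cfsg.Statements.S2998
import Cfsg.Agent.H24.Misc2

set_option autoImplicit false
open Cfsg

namespace Cfsg.Agent.S2998

/-- Let G be a finite group, p a prime, P a Sylow p-subgroup of G and x ∈ P an element such that N_G(R) ≤ C_G(x) for every nontrivial subgroup R of P. Then P ≤ C_G(x); every G-conjugate of x lying in P equals x (so g ∈ C_G(x) whenever g x g⁻¹ ∈ P); and for every normal subgroup N of G, the image of x in G ⧸ N has the same property with respect to the image of P: the normalizer of every nontrivial subgroup of the image of P centralizes the image of x. -/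
theorem result {G : Type*} [Group G] [Finite G] {p : ℕ} [Fact p.Prime] (P : Sylow p G) (x : G) (hxP : x ∈ (P : Subgroup G)) (hlc : ∀ R : Subgroup G, R ≤ (P : Subgroup G) → R ≠ ⊥ → Subgroup.normalizer (R : Set G) ≤ Subgroup.centralizer ({x} : Set G)) : (P : Subgroup G) ≤ Subgroup.centralizer ({x} : Set G) ∧ (∀ g : G, g * x * g⁻¹ ∈ (P : Subgroup G) → g * x * g⁻¹ = x) ∧ ∀ (N : Subgroup G) [N.Normal], ∀ R : Subgroup (G ⧸ N), R ≤ (P : Subgroup G).map (QuotientGroup.mk' N) → R ≠ ⊥ → Subgroup.normalizer (R : Set (G ⧸ N)) ≤ Subgroup.centralizer ({(QuotientGroup.mk x : G ⧸ N)} : Set (G ⧸ N)) := by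
  open Subgroup Cfsg.Agent.H24 in
  open scoped commutatorElement in
  open Cfsg.Agent.H10 (SubnormalIn OqOf) in
  open Cfsg.Agent.H9 (maxEA) in
  have hP := sylIn_top P
  have h1 : (P : Subgroup G) ≤ centralizer {x} := by
    by_cases h0 : (P : Subgroup G) = ⊥
    · rw [h0]; exact bot_le
    · exact le_normalizer.trans (hlc _ le_rfl h0)
  refine ⟨h1, fun g hg => ?_, fun N _ R hR h0 => ?_⟩
  · by_cases hx : x = 1
    · rw [hx]; group
    by_cases hM : centralizer {x} = ⊤
    · exact mem_cent_iff_conj.mp (hM.ge (mem_top g))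
    have h0 : (P : Subgroup G) ≠ ⊥ := fun he => hx (mem_bot.mp (he ▸ hxP))
    refine mem_cent_iff_conj.mp ((se_top_of_normalizer_le hP h0 hM hlc).mem_of_dvd (mem_top g) ?_)
    refine (dvd_card_of_ne_bot (isPGroup_zpowers_of_mem hP.pgrp hg) ?_).trans (card_dvd_of_le
      (zpowers_le_of_mem ⟨⟨trivial, h1 hg⟩, conj_mem_cj (mem_centralizer_singleton_iff.mpr rfl) g⟩))
    rwa [Ne, zpowers_eq_bot, conj_eq_one_iff']
  · set R' := R.comap (QuotientGroup.mk' N) with hR'
    have hN : N ≤ R' := by
      conv_lhs => rw [← QuotientGroup.ker_mk' N]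
      exact ker_le_comap _ _
    have h2 : (P : Subgroup G) ⊓ R' ⊔ N = R' := by
      have h3 : R' ≤ N ⊔ P := by
        refine (comap_mono hR).trans ?_
        rw [comap_map_eq, QuotientGroup.ker_mk', sup_comm]
      rw [sup_comm, ← sup_inf_of_le_normalizer_left (le_top.trans (top_le_normalizer N)) hN]
      exact inf_eq_right.mpr h3
    have h3 := (sylIn_self (hP.pgrp.to_inf_left (K := R'))).sup
      (hP.inf_normal le_top (top_le_normalizer N)) (le_top.trans (top_le_normalizer N))
      (hP.pgrp.to_le (sup_le inf_le_left inf_le_left))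
    rw [h2, sup_eq_left.mpr (inf_le_inf_left _ hN)] at h3
    have h4 : (P : Subgroup G) ⊓ R' ≠ ⊥ := fun he => h0 (by
      rw [he, bot_sup_eq] at h2
      rw [← map_comap_eq_self_of_surjective (QuotientGroup.mk'_surjective N) R, ← hR', ← h2,
        Subgroup.map_eq_bot_iff, QuotientGroup.ker_mk'])
    intro g hg
    induction g using QuotientGroup.induction_on with
    | H g =>
    obtain ⟨n, hn, y, hy, rfl⟩ := h3.frattini (g := g) (comap_le_normalizer_comap _ le_rfl hg)
    rw [← h2, sup_comm] at hn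
    obtain ⟨a, ha, b, hb, rfl⟩ := (mem_sup_of_le_normalizer_left (le_top.trans (top_le_normalizer N))).mp hn
    have h5 := mem_centralizer_singleton_iff.mp (mul_mem (h1 hb.1) (hlc _ inf_le_left h4 hy))
    rw [mem_centralizer_singleton_iff, mul_assoc, QuotientGroup.mk_mul,
      (QuotientGroup.eq_one_iff a).mpr ha, one_mul, ← QuotientGroup.mk_mul, h5, QuotientGroup.mk_mul]

end Cfsg.Agent.S2998
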