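import Cfsg.Statements.S3003
import Cfsg.Agent.H24.Misc1

set_option autoImplicit false
open Cfsg

namespace Cfsg.Agent.S3003

/-- Let G be a finite group, p a prime and Q a large p-subgroup of G: C_G(Q) ≤ Q and N_G(U) ≤ N_G(Q) for every nontrivial subgroup U of C_G(Q). Let Q ≤ G₁ ≤ G, let R be a subgroup of order prime to p normalized by G₁, and let U ≤ G₁ be a p-subgroup. If U contains a nontrivial element which is G₁-conjugate to an element of Z(Q), then C_R(U) = 1. In particular, if U is elementary abelian of order at least p² and every maximal subgroup of U contains a nontrivial element G₁-conjugate into Z(Q), then R = 1. -/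
theorem result {G : Type*} [Group G] [Finite G] {p : ℕ} [Fact p.Prime] (Q : Subgroup G) (hQp : IsPGroup p ↥Q) (hlarge : Cfsg.IsLarge Q) (G₁ : Subgroup G) (hQG : Q ≤ G₁) (R : Subgroup G) (hR : (Nat.card ↥R).Coprime p) (hGR : G₁ ≤ Subgroup.normalizer (R : Set G)) (U : Subgroup G) (hUG : U ≤ G₁) (hUp : IsPGroup p ↥U) : ((∃ x ∈ U, x ≠ 1 ∧ ∃ g ∈ G₁, g * x * g⁻¹ ∈ Q ⊓ Subgroup.centralizer (Q : Set G)) → R ⊓ Subgroup.centralizer (U : Set G) = ⊥) ∧ (Cfsg.IsElementaryAbelian p U → p ^ 2 ≤ Nat.card ↥U → (∀ U₀ : Subgroup G, U₀ ≤ U → IsCoatom (U₀.subgroupOf U) → ∃ x ∈ U₀, x ≠ 1 ∧ ∃ g ∈ G₁, g * x * g⁻¹ ∈ Q ⊓ Subgroup.centralizer (Q : Set G)) → R = ⊥) := by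
  open Subgroup Cfsg.Agent.H24 in
  open scoped commutatorElement in
  open Cfsg.Agent.H10 (SubnormalIn OqOf) in
  open Cfsg.Agent.H9 (maxEA) in
  have key : ∀ U ≤ G₁, (∃ x ∈ U, x ≠ 1 ∧ ∃ g ∈ G₁, g * x * g⁻¹ ∈ Q ⊓ centralizer (Q : Set G)) → R ⊓ centralizer (U : Set G) = ⊥ := by
    rintro U hU ⟨x, hx, hx1, g, hg, h⟩
    have h1 : R ⊓ centralizer (zpowers (g * x * g⁻¹) : Set G) ≤ normalizer (Q : Set G) := inf_le_right.trans (IsLarge.centralizer_le hlarge (zpowers_le_of_mem h.2) (by simpa [conj_eq_one_iff'] using hx1))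
    have h2 : R ⊓ centralizer (zpowers (g * x * g⁻¹) : Set G) ≤ Q ⊓ R := by
      refine le_inf (le_trans (le_centralizer_iff_commutator.mpr (eq_bot_iff.mpr ?_)) hlarge.1) inf_le_left
      rw [← inf_eq_bot_of_isPGroup_of_coprime hQp hR]
      exact le_inf (commutator_le_right_of_le_normalizer h1) ((commutator_mono inf_le_left le_rfl).trans (commutator_le_left_of_le_normalizer (hQG.trans hGR)))
    rw [inf_eq_bot_of_isPGroup_of_coprime hQp hR, ← cj_zpowers, ← cj_centralizer, ← cj_eq_of_mem_normalizer (hGR hg), ← cj_inf, le_bot_iff, cj_eq_bot_iff] at h2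
    exact eq_bot_iff.mpr (h2 ▸ inf_le_inf_left R (centralizer_anti (zpowers_le_of_mem hx)))
  refine ⟨key U hUG, fun h1 h2 h3 => eq_bot_iff.mpr ?_⟩
  have := h1.1
  refine H1.le_of_forall_centralizer_le (hUG.trans hGR) (coprime_card_of_isPGroup hUp hR).symm fun B hB ⟨a, ha, hBa⟩ => ?_
  have hU0 : ⊥ < U := bot_lt_iff_ne_bot.mpr fun he => by
    rw [he, card_bot] at h2
    have := (Fact.out : p.Prime).one_lt
    nlinarith
  obtain ⟨M, hM, hMB⟩ : ∃ M, M ⋖ U ∧ M ≤ B := by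
    rcases hB.eq_or_lt with rfl | hlt
    · obtain ⟨M, -, hM⟩ := exists_covBy_of_lt hU0
      exact ⟨M, hM, hM.le⟩
    · refine ⟨B, ⟨hlt, fun Z h4 h5 => ?_⟩, le_rfl⟩
      obtain ⟨z, hz, hzB⟩ := SetLike.exists_of_lt h4
      rw [← hBa] at h5
      have hz' := h5.le hz
      rw [mem_sup_of_le_normalizer_right (le_normalizer_of_le_centralizer ((hB.trans (isEA_iff.mp h1).1).trans (centralizer_anti (zpowers_le_of_mem ha))))] at hz'
      obtain ⟨b, hb, c, hc, rfl⟩ := hz'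
      have h6 : c ∈ Z := by simpa using Z.mul_mem (Z.inv_mem (h4.le hb)) hz
      have hc1 : c ≠ 1 := by rintro rfl; exact hzB (by simpa using hb)
      have ha1 : a ≠ 1 := by rintro rfl; exact hc1 (by simpa using hc)
      have h7 : a ∈ zpowers c := mem_zpowers_of_prime_card (p := p) (G := zpowers a) (by rw [Nat.card_zpowers, orderOf_eq_prime (h1.2 a ha) ha1]) (g := ⟨c, hc⟩) (g' := ⟨a, mem_zpowers a⟩) (fun he => hc1 (congrArg Subtype.val he)) |>.imp fun k hk => congrArg Subtype.val hk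
      exact h5.not_ge (sup_le h4.le (zpowers_le_of_mem (zpowers_le_of_mem h6 h7)))
  exact (inf_le_inf_left R (centralizer_anti hMB)).trans (key M (hM.le.trans hUG) (h3 M hM.le ((isCoatom_subgroupOf_iff hM.le).mpr hM))).le

end Cfsg.Agent.S3003
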