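import Cfsg.Statements.S3006
import Cfsg.Agent.H24.CD

set_option autoImplicit false
open scoped Pointwise
open Cfsg

namespace Cfsg.Agent.S3006

/-- Let P be a finite p-group, Q a centrally large subgroup of P (|Q|·|Z(Q)| maximal among subgroups of P) and A an abelian subgroup of P of largest order. Then QA = AQ is a centrally large subgroup of P, C_{QA}(Q ∩ A) = Z(Q)·A, and the subgroup generated by all centrally large subgroups of P contains C_P(Z(J(P))), where J(P) is generated by the abelian subgroups of largest order. -/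
theorem result {p : ℕ} [Fact p.Prime] (P : Type*) [Group P] [Finite P] (hP : IsPGroup p P) (Q A : Subgroup P) (hQ : Cfsg.IsCentrallyLarge Q) (hA : A ∈ Cfsg.maxAbelianSubgroups P) : ((Q ⊔ A : Subgroup P) : Set P) = (Q : Set P) * (A : Set P) ∧ Cfsg.IsCentrallyLarge (Q ⊔ A) ∧ (Q ⊔ A) ⊓ Subgroup.centralizer ((Q ⊓ A : Subgroup P) : Set P) = (Q ⊓ Subgroup.centralizer (Q : Set P)) ⊔ A ∧ (((Q ⊓ Subgroup.centralizer (Q : Set P)) ⊔ A : Subgroup P) : Set P) = ((Q ⊓ Subgroup.centralizer (Q : Set P)) : Set P) * (A : Set P) ∧ Subgroup.centralizer ((Cfsg.thompsonSubgroupA P ⊓ Subgroup.centralizer (Cfsg.thompsonSubgroupA P : Set P) : Subgroup P) : Set P) ≤ Cfsg.centrallyLargeJoin P := by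
  open Subgroup Cfsg.Agent.H24 in
  open scoped commutatorElement in
  open Cfsg.Agent.H10 (SubnormalIn OqOf) in
  open Cfsg.Agent.H9 (maxEA) in
  rw [isCentrallyLarge_iff] at hQ ⊢
  obtain ⟨h1, h2, h3⟩ := hQ.sup_maxAbelian hA
  have hAc := isMulCommutative_iff_le_centralizer.mp hA.1
  have h4 := h2.inf_of_right_le (hAc.trans (centralizer_anti (inf_le_right : Q ⊓ A ≤ A)))
  have h5 : Q ⊓ centralizer ((Q ⊓ A : Subgroup P) : Set P) = centralizer (Q : Set P) ⊔ (Q ⊓ A) := by
    refine le_antisymm ?_ (sup_le (le_inf hQ.le (centralizer_anti inf_le_left)) (le_inf inf_le_left (inf_le_right.trans (hAc.trans (centralizer_anti inf_le_right)))))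
    rw [← centralizer_eq_of_maxAbelian h3, H24.centralizer_sup, hQ.cdl.centralizer_centralizer]
  rw [h5] at h4
  have h6 : H2.Fac ((Q ⊔ A) ⊓ centralizer ((Q ⊓ A : Subgroup P) : Set P)) (centralizer (Q : Set P)) A := by
    refine ⟨le_sup_left.trans h4.left_le, h4.right_le, fun g hg => ?_⟩
    obtain ⟨a, ha, b, hb, rfl⟩ := h4.exists_mul g hg
    obtain ⟨c, hc, d, hd, rfl⟩ := (mem_sup_of_le_normalizer_right (le_normalizer_of_le_centralizer (centralizer_anti inf_le_left))).mp ha
    exact ⟨c, hc, d * b, A.mul_mem hd.2 hb, mul_assoc _ _ _⟩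
  rw [show ((Q : Set P) ⊓ (centralizer (Q : Set P) : Set P)) = (centralizer (Q : Set P) : Set P) from inf_eq_right.mpr hQ.le, inf_eq_right.mpr hQ.le]
  refine ⟨H2.fac_iff_coe.mp h2, h1, h6.eq_sup, H2.fac_iff_coe.mp h6.sup, hQ.centralizer_centerA_le.trans (le_sSup (isCentrallyLarge_iff.mpr hQ.sup_thompsonA))⟩

end Cfsg.Agent.S3006
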