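import Cfsg.Statements.S3008
import Cfsg.Agent.H24.CD

set_option autoImplicit false
open Cfsg

namespace Cfsg.Agent.S3008

/-- Let P be a finite p-group, with J(P) generated by its abelian subgroups of largest order and J̃(P) = C_P(Z(J(P))); call R ≤ P centrally large if |R|·|Z(R)| is as large as possible, and let P_MCL be generated by the minimal centrally large subgroups. Then: for every centrally large Q, Q·J(P) ⊇ J̃(P); some minimal centrally large subgroup of P is normalized by both J(P) and P_MCL; if P = J(P) and d(P)² = |P|·|Z(P)|, where d(P) is the largest order of an abelian subgroup, then every minimal centrally large subgroup of P is abelian; and if every minimal centrally large subgroup is abelian then J̃(P) = J(P). -/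
theorem result {p : ℕ} [Fact p.Prime] (P : Type*) [Group P] [Finite P] (hP : IsPGroup p P) : (∀ Q : Subgroup P, Cfsg.IsCentrallyLarge Q → Subgroup.centralizer ((Cfsg.thompsonSubgroupA P ⊓ Subgroup.centralizer (Cfsg.thompsonSubgroupA P : Set P) : Subgroup P) : Set P) ≤ Q ⊔ Cfsg.thompsonSubgroupA P) ∧ (∃ Q : Subgroup P, Cfsg.IsMinimalCentrallyLarge Q ∧ Cfsg.thompsonSubgroupA P ≤ Subgroup.normalizer (Q : Set P) ∧ Cfsg.minimalCentrallyLargeJoin P ≤ Subgroup.normalizer (Q : Set P)) ∧ (Cfsg.thompsonSubgroupA P = ⊤ → (∀ A ∈ Cfsg.maxAbelianSubgroups P, Nat.card ↥A ^ 2 = Nat.card P * Nat.card ↥(Subgroup.center P)) → ∀ Q : Subgroup P, Cfsg.IsMinimalCentrallyLarge Q → IsMulCommutative ↥Q) ∧ ((∀ Q : Subgroup P, Cfsg.IsMinimalCentrallyLarge Q → IsMulCommutative ↥Q) → Subgroup.centralizer ((Cfsg.thompsonSubgroupA P ⊓ Subgroup.centralizer (Cfsg.thompsonSubgroupA P : Set P) : Subgroup P) : Set P) = Cfsg.thompsonSubgroupA P) := by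
  open Subgroup Cfsg.Agent.H24 in
  open scoped commutatorElement in
  open Cfsg.Agent.H10 (SubnormalIn OqOf) in
  open Cfsg.Agent.H9 (maxEA) in
  simp only [isMinimalCentrallyLarge_iff, isCentrallyLarge_iff]
  obtain ⟨Q₀, hQ₀⟩ := exists_cl P
  obtain ⟨Q₁, -, hQ₁⟩ := hQ₀.exists_mcl
  obtain ⟨A, hA⟩ := exists_maxAbelian P
  refine ⟨fun Q h => h.centralizer_centerA_le, ?_, fun h1 h2 Q hQ => ?_, fun h => ?_⟩
  · have := hP.isNilpotent
    obtain ⟨Q, hQ, h⟩ := exists_mcl_normalized (G := P)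
    refine ⟨Q, hQ, sSup_le fun B hB => h B hB.1 ?_, sSup_le fun R hR => ?_⟩
    · obtain ⟨h1, h2, h3⟩ := hQ.cl.sup_maxAbelian hB
      have hBc := isMulCommutative_iff_le_centralizer.mp hB.1
      have h4 := h2.inf_of_right_le (hBc.trans (centralizer_anti (inf_le_right : Q ⊓ B ≤ B)))
      have h5 : Q ⊓ centralizer ((Q ⊓ B : Subgroup P) : Set P) ≤ centralizer (Q : Set P) ⊔ (Q ⊓ B) := by
        rw [← centralizer_eq_of_maxAbelian h3, H24.centralizer_sup, hQ.cl.cdl.centralizer_centralizer]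
      refine H2.Fac.sup (L := (Q ⊔ B) ⊓ centralizer ((Q ⊓ B : Subgroup P) : Set P)) ⟨le_inf (hQ.cl.le.trans le_sup_left) (centralizer_anti inf_le_left), h4.right_le, fun g hg => ?_⟩
      obtain ⟨a, ha, b, hb, rfl⟩ := h4.exists_mul g hg
      obtain ⟨c, hc, d, hd, rfl⟩ := (mem_sup_of_le_normalizer_right (le_normalizer_of_le_centralizer (centralizer_anti inf_le_left))).mp (h5 ha)
      exact ⟨c, hc, d * b, B.mul_mem hd.2 hb, mul_assoc _ _ _⟩
    · have hR' := isMinimalCentrallyLarge_iff.mp hR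
      rw [← (hR'.inf_sup hQ.cl).1]
      exact sup_le (le_normalizer_of_le inf_le_right) (h _ hR'.cl.comm (hQ.cl.cdl.centralizer.fac hR'.cl.cdl.centralizer))
  · have h3 := hQ.cl.sup_thompsonA
    rw [h1, sup_top_eq] at h3
    have h4 : CL A := ⟨h3.cdl.of_le (by rw [cdm, cdm, centralizer_eq_of_maxAbelian hA, centralizer_top', card_top, ← h2 A hA, sq]), (centralizer_eq_of_maxAbelian hA).le⟩
    exact (((mcl_of_comm h4 hA.1).iff_maxAbelian hA.1).mp hQ).1
  · have h1 := (hQ₁.iff_maxAbelian (h Q₁ hQ₁)).mp hQ₁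
    have h2 := hQ₁.cl.centralizer_centerA_le
    exact le_antisymm (h2.trans (sup_le (le_sSup h1) le_rfl)) (le_centralizer_iff.mp inf_le_right)

end Cfsg.Agent.S3008
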