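import Cfsg.Statements.S3011
import Cfsg.Agent.H24.Sidki

set_option autoImplicit false
open Cfsg

namespace Cfsg.Agent.S3011

/-- Let G be a finite group and V a nontrivial elementary abelian 2-subgroup of G of order at most 4 such that, whenever an element of V inverts an element h of G of odd order, some nontrivial element of V commutes with h. Then V meets O₂(G) nontrivially. (The case of order at most 4 has a short argument from the Baer–Suzuki theorem.) -/
theorem result {G : Type*} [Group G] [Finite G] (V : Subgroup G) (hV : Cfsg.IsElementaryAbelian 2 V) (hV1 : V ≠ ⊥) (hS : Cfsg.IsSidkiPair V) (h4 : Nat.card V ≤ 4) : V ⊓ Cfsg.pCore 2 G ≠ ⊥ := by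
  open Subgroup Cfsg.Agent.H24 in
  open scoped commutatorElement in
  open Cfsg.Agent.H10 (SubnormalIn OqOf) in
  open Cfsg.Agent.H9 (maxEA) in
  intro h0
  have inv : ∀ v ∈ V, v ≠ 1 → ∃ x, x ≠ 1 ∧ Odd (orderOf x) ∧ v * x * v⁻¹ = x⁻¹ ∧
      ∃ w ∈ V, w ≠ 1 ∧ w ≠ v ∧ w * x = x * w := fun v hv h1 => by
    obtain ⟨x, -, h2, h3, h5⟩ := exists_inverted (mem_top v) (sq_eq_one_of_isEA hV hv) fun h =>
      h1 (mem_bot.mp (h0 ▸ (⟨hv, by rwa [pCoreOf_top] at h⟩ : v ∈ V ⊓ pCore 2 G)))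
    obtain ⟨w, hw, h6, h7⟩ := hS x v hv h3 h5
    exact ⟨x, h2, h3, h5, w, hw, h6, fun he => h2 (eq_one_of_inverts_of_commute h3 h5 (he ▸ h7)), h7⟩
  obtain ⟨v, hv, hv1⟩ := exists_mem_ne_one hV1
  obtain ⟨x, hx1, hx, hvx, a, ha, ha1, hav, hax⟩ := inv v hv hv1
  obtain ⟨y, hy1, hy, hay, b, hb, hb1, hba, hby⟩ := inv a ha ha1
  have sq1 := fun w (hw : w ∈ V) => sq_eq_one_of_isEA hV hw
  have ord := fun w (hw : w ∈ V) (h : w ≠ 1) => orderOf_eq_prime (p := 2) (by rw [sq, sq1 w hw]) h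
  have hV4 : zpowers a ⊔ zpowers b = V := eq_of_le_of_card_le
    (sup_le (zpowers_le_of_mem ha) (zpowers_le_of_mem hb)) (by
      rw [card_sup_zpowers_zpowers (ord a ha ha1) (ord b hb hb1) (comm_of_isEA hV ha hb) fun h =>
        (mem_zpowers_of_sq (sq1 b hb) h).elim ha1 hba.symm]
      exact h4)
  have cases : ∀ w ∈ V, w ≠ 1 → w = a ∨ w = b ∨ w = a * b := fun w hw h1 => by
    obtain ⟨c, hc, d, hd, rfl⟩ := (mem_sup_of_le_normalizer_right (le_normalizer_of_le_centralizer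
      (zpowers_le_centralizer_zpowers (comm_of_isEA hV ha hb)))).mp (hV4 ▸ hw)
    rcases mem_zpowers_of_sq (sq1 a ha) hc with rfl | rfl <;>
      rcases mem_zpowers_of_sq (sq1 b hb) hd with rfl | rfl <;> simp_all
  have hax' : a * x * a⁻¹ = x := by rw [hax, mul_inv_cancel_right]
  have hby' : b * y * b⁻¹ = y := by rw [hby, mul_inv_cancel_right]
  have hbx : b * x * b⁻¹ = x⁻¹ := by
    rcases cases v hv hv1 with rfl | rfl | rfl
    · exact absurd rfl hav
    · exact hvx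
    · calc b * x * b⁻¹ = b * (a * x * a⁻¹) * b⁻¹ := by rw [hax']
        _ = (b * a) * x * (b * a)⁻¹ := by group
        _ = _ := by rw [← comm_of_isEA hV ha hb, hvx]
  have hxi : a * x⁻¹ * a⁻¹ = x⁻¹ := by rw [← conj_inv, hax']
  have hbxi : b * x⁻¹ * b⁻¹ = x := by rw [← conj_inv, hbx, inv_inv]
  have hxy : x * y = y * x := by
    have h1 : a * (x * y * x⁻¹) * a⁻¹ = (x * y * x⁻¹)⁻¹ := by
      calc a * (x * y * x⁻¹) * a⁻¹ = (a * x * a⁻¹) * (a * y * a⁻¹) * (a * x⁻¹ * a⁻¹) := by group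
        _ = _ := by rw [hax', hay, hxi]; group
    have h2 : b * (x * y * x⁻¹) * b⁻¹ = x⁻¹ * y * x := by
      calc b * (x * y * x⁻¹) * b⁻¹ = (b * x * b⁻¹) * (b * y * b⁻¹) * (b * x⁻¹ * b⁻¹) := by group
        _ = _ := by rw [hbx, hby', hbxi]
    have ho : Odd (orderOf (x * y * x⁻¹)) := by rwa [orderOf_conj']
    obtain ⟨w, hw, h3, h5⟩ := hS _ a ha ho h1
    rcases cases w hw h3 with rfl | rfl | rfl
    · exact absurd (conj_eq_one_iff'.mp (eq_one_of_inverts_of_commute ho h1 h5)) hy1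
    · rw [h5, mul_inv_cancel_right] at h2
      refine (commute_of_odd_of_sq hx ?_).symm
      calc y * (x * x) = x * (x⁻¹ * y * x) * x := by group
        _ = _ := by rw [← h2]; group
    · have h6 : x * x * y * (x * x)⁻¹ = y⁻¹ := by
        have h7 : b * (a * (x * y * x⁻¹) * a⁻¹) * b⁻¹ = x * y * x⁻¹ := by
          calc _ = (b * a) * (x * y * x⁻¹) * (b * a)⁻¹ := by group
            _ = _ := by rw [← comm_of_isEA hV ha hb, h5, mul_inv_cancel_right]
        rw [h1] at h7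
        calc x * x * y * (x * x)⁻¹ = x * (x * y * x⁻¹) * x⁻¹ := by group
          _ = x * (b * (x * y * x⁻¹) * b⁻¹)⁻¹ * x⁻¹ := by rw [conj_inv, h7]
          _ = _ := by rw [h2]; group
      have h8 : x * x * (x * x) ∈ centralizer {y} := by
        refine mem_cent_iff_conj.mpr ?_
        calc x * x * (x * x) * y * (x * x * (x * x))⁻¹ = x * x * (x * x * y * (x * x)⁻¹) * (x * x)⁻¹ := by
              group
          _ = _ := by rw [h6, ← conj_inv, h6, inv_inv]
      exact mem_centralizer_singleton_iff.mp (mem_of_pow_mem_of_coprime (n := 2 ^ 2)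
        (by convert h8 using 1; rw [sq, pow_mul, sq, sq]) ((odd_iff_coprime_two.mp hx).pow_right 2))
  have ho := odd_orderOf_mul hx hy hxy
  have h1 : a * (x * y) * a⁻¹ = x * y⁻¹ := by rw [← conj_mul, hax', hay]
  have h2 : b * (x * y) * b⁻¹ = x⁻¹ * y := by rw [← conj_mul, hbx, hby']
  have h3 : a * b * (x * y) * (a * b)⁻¹ = (x * y)⁻¹ := by
    calc _ = a * (b * (x * y) * b⁻¹) * a⁻¹ := by group
      _ = (a * x⁻¹ * a⁻¹) * (a * y * a⁻¹) := by rw [h2]; group
      _ = _ := by rw [hxi, hay, hxy, mul_inv_rev]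
  obtain ⟨w, hw, h5, h6⟩ := hS _ _ (V.mul_mem ha hb) ho h3
  rcases cases w hw h5 with rfl | rfl | rfl
  · rw [h6, mul_inv_cancel_right, mul_right_inj] at h1
    exact hy1 (eq_one_of_odd_of_inv hy h1)
  · rw [h6, mul_inv_cancel_right, mul_left_inj] at h2
    exact hx1 (eq_one_of_odd_of_inv hx h2)
  · have h7 := eq_one_of_inverts_of_commute ho h3 h6
    rw [h7, mul_one, mul_inv_cancel] at h1
    refine hy1 (eq_one_of_odd_of_inv hy ?_)
    rw [← eq_inv_of_mul_eq_one_left h7, eq_inv_of_mul_eq_one_left h1.symm, inv_inv]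

end Cfsg.Agent.S3011
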