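import Cfsg.Statements.S3013
import Cfsg.Agent.H24.Sidki

set_option autoImplicit false
open Cfsg

namespace Cfsg.Agent.S3013

/-- Let G be a finite group and V a nontrivial elementary abelian 2-subgroup of G satisfying the Sidki pair condition. Let v ∈ V and let x be an element of odd order inverted by v, and put C = C_G(v) ∩ C_G(x), the centralizer of the dihedral subgroup generated by v and x. Then C ∩ V is nontrivial and satisfies the Sidki pair condition inside C: every odd-order element of C inverted by an element of C ∩ V commutes with a nontrivial element of C ∩ V. -/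
theorem result {G : Type*} [Group G] [Finite G] (V : Subgroup G) (hV : Cfsg.IsElementaryAbelian 2 V) (hV1 : V ≠ ⊥) (hS : Cfsg.IsSidkiPair V) (v x : G) (hv : v ∈ V) (hx : Odd (orderOf x)) (hinv : v * x * v⁻¹ = x⁻¹) (C : Subgroup G) (hC : C = Subgroup.centralizer ({v} : Set G) ⊓ Subgroup.centralizer ({x} : Set G)) : C ⊓ V ≠ ⊥ ∧ Cfsg.IsSidkiPair ((C ⊓ V).subgroupOf C) := by
  open Subgroup Cfsg.Agent.H24 in
  open scoped commutatorElement in
  open Cfsg.Agent.H10 (SubnormalIn OqOf) in
  open Cfsg.Agent.H9 (maxEA) in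
  subst hC
  obtain ⟨w, hw, h1, h2⟩ := hS x v hv hx hinv
  have h3 : centralizer {v} ⊓ centralizer {x} ⊓ V = V ⊓ centralizer {x} :=
    le_antisymm (le_inf inf_le_right (inf_le_left.trans inf_le_right)) (le_inf (le_inf
      (fun y hy => mem_centralizer_singleton_iff.mpr (comm_of_isEA hV hy.1 hv)) inf_le_right) inf_le_left)
  refine ⟨fun he => h1 (mem_bot.mp (he ▸ h3 ▸ (⟨hw, mem_centralizer_singleton_iff.mpr h2⟩ :
    w ∈ V ⊓ centralizer {x}))), (isSidkiPair_subgroupOf_iff inf_le_left).mpr ?_⟩
  rw [h3]
  exact ((sid_top_iff.mpr hS).centralizer (isEA_iff.mp hV).1 hv trivial hx hinv).mono (le_inf le_top le_rfl)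

end Cfsg.Agent.S3013
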