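import Cfsg.Statements.S3014
import Cfsg.Agent.H24.Sidki

set_option autoImplicit false
open Cfsg

namespace Cfsg.Agent.S3014

/-- Let G be a finite group and H ≤ M ≤ G subgroups such that for every g ∈ G the subgroup generated by H and g H g⁻¹ meets M exactly in H. If H is a maximal subgroup of M and M is a maximal subgroup of G, then the normal closure of H in G meets M exactly in H. -/
theorem result {G : Type*} [Group G] [Finite G] (H M : Subgroup G) (hHM : H ≤ M) (hcl : ∀ g : G, (H ⊔ H.map (MulAut.conj g).toMonoidHom) ⊓ M = H) (hmaxH : IsCoatom (H.subgroupOf M)) (hmaxM : IsCoatom M) : Subgroup.normalClosure (H : Set G) ⊓ M = H := by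
  open Subgroup Cfsg.Agent.H24 in
  open scoped commutatorElement in
  open Cfsg.Agent.H10 (SubnormalIn OqOf) in
  open Cfsg.Agent.H9 (maxEA) in
  simp only [map_conj_eq_cj] at hcl
  have hcov := (isCoatom_subgroupOf_iff hHM).mp hmaxH
  have hn : M ≤ 𝐍[H] := le_normalizer_iff_cj_le.mpr fun m hm =>
    (le_inf le_sup_right (cj_le_of_mem hHM hm)).trans (hcl m).le
  have key : ∀ T : Subgroup G, T.Normal → H ≤ T → T ⊓ M = H → normalClosure (H : Set G) ⊓ M = H :=
    fun T _ h1 h2 => le_antisymm ((inf_le_inf_right M (normalClosure_le_normal h1)).trans h2.le)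
      (le_inf le_normalClosure hHM)
  have nrm : ∀ (T : Subgroup G) (g : G), g ∉ M → M ≤ 𝐍[T] → g ∈ 𝐍[T] → T.Normal := fun T g h1 h2 h3 =>
    top_le_normalizer_iff.mp (hmaxM.2 _ (lt_of_le_of_ne h2 fun he => h1 (he ▸ h3))).ge
  by_cases h : ∀ g : G, g ∉ M → ∀ x ∈ M, g * x * g⁻¹ ∈ M → x ∈ H
  · obtain ⟨N, h1, h2, -⟩ := H4.frobenius_wielandt M H
      (fun h hh l _ hl => conj_mem_of_mem_normalizer (hn hh) hl) h
    rw [inf_eq_left.mpr hHM] at h2
    exact key N h1 (h2.ge.trans inf_le_left) h2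
  push Not at h
  obtain ⟨g, hg, x, hx, h1, h2⟩ := h
  have h3 : H ⊔ zpowers x = M := (hcov.eq_or_eq le_sup_left (sup_le hHM (zpowers_le_of_mem hx))).resolve_left
    fun he => h2 (he ▸ mem_sup_right (mem_zpowers x))
  have h4 : M ≤ 𝐍[H ⊔ cj H g⁻¹] := by
    rw [← h3]
    refine sup_le (le_normalizer_of_le le_sup_left) (zpowers_le_of_mem (le_normalizer_sup
      (zpowers_le_of_mem (hn hx)) (zpowers_le_of_mem ?_) (mem_zpowers x)))
    rw [← cj_normalizer, mem_cj, inv_inv]
    exact hn h1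
  by_cases h5 : H ⊔ cj H g⁻¹ ≤ M
  · have h6 : cj H g⁻¹ ≤ H := (le_inf le_sup_right (le_sup_right.trans h5)).trans (hcl _).le
    exact key H (nrm H g⁻¹ (by simpa using hg) hn (mem_normalizer_of_cj_le h6)) le_rfl (inf_eq_left.mpr hHM)
  · obtain ⟨t, ht, h6⟩ := SetLike.not_le_iff_exists.mp h5
    exact key _ (nrm _ t h6 h4 (le_normalizer ht)) le_sup_left (hcl _)

end Cfsg.Agent.S3014
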