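import Cfsg.Statements.S3015
import Cfsg.Agent.H24.Sidki

set_option autoImplicit false
open Cfsg

namespace Cfsg.Agent.S3015

/-- Let G be a finite non-abelian simple group, M a maximal subgroup of G and H a normal subgroup of M of prime index in M. Then G is generated by H together with one of its conjugates. -/
theorem result {G : Type*} [Group G] [Finite G] [IsSimpleGroup G] (hG : ¬ IsMulCommutative G) (M H : Subgroup G) (hmaxM : IsCoatom M) (hHM : H ≤ M) (hHn : (H.subgroupOf M).Normal) (hidx : (H.relIndex M).Prime) : ∃ g : G, H ⊔ H.map (MulAut.conj g).toMonoidHom = ⊤ := by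
  open Subgroup Cfsg.Agent.H24 in
  open scoped commutatorElement in
  open Cfsg.Agent.H10 (SubnormalIn OqOf) in
  open Cfsg.Agent.H9 (maxEA) in
  by_contra hc
  push Not at hc
  simp only [map_conj_eq_cj] at hc
  set p := H.relIndex M with hp
  have : Fact p.Prime := ⟨hidx⟩
  have hn : M ≤ 𝐍[H] := (normal_subgroupOf_iff_le_normalizer hHM).mp hHn
  have hne : H ≠ M := fun he => hidx.ne_one (relIndex_eq_one.mpr he.ge)
  have nrm : ∀ (T : Subgroup G) (g : G), g ∉ M → M ≤ 𝐍[T] → g ∈ 𝐍[T] → T ≠ ⊤ → T = ⊥ :=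
    fun T g h1 h2 h3 h4 => ((top_le_normalizer_iff.mp (hmaxM.2 _ (lt_of_le_of_ne h2 fun he =>
      h1 (he ▸ h3))).ge).eq_bot_or_eq_top).resolve_right h4
  have ntop : ∀ T : Subgroup G, T ≤ M → T ≠ ⊤ := fun T h he => hmaxM.1 (top_le_iff.mp (he ▸ h))
  have h : ∀ g : G, g ∉ M → ∀ x ∈ M, g * x * g⁻¹ ∈ M → x ∈ H := by
    intro g hg x hx h1
    by_contra h2
    replace hg : g⁻¹ ∉ M := by simpa using hg
    have hx' : x ∈ cj M g⁻¹ := by rwa [mem_cj, inv_inv]
    have h3 : H ⊔ zpowers x = M := (le_of_relIndex_prime hp.symm le_sup_left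
      (sup_le hHM (zpowers_le_of_mem hx))).resolve_left fun he => h2 (he ▸ mem_sup_right (mem_zpowers x))
    have hn' : cj M g⁻¹ ≤ 𝐍[cj H g⁻¹] := cj_normalizer H g⁻¹ ▸ cj_mono hn _
    have h4 : M ≤ 𝐍[H ⊔ cj H g⁻¹] := by
      rw [← h3]
      exact sup_le (le_normalizer_of_le le_sup_left) (le_normalizer_sup
        (zpowers_le_of_mem (hn hx)) (zpowers_le_of_mem (hn' hx')))
    have h5 : cj H g⁻¹ ≤ M := by
      by_contra h5
      obtain ⟨t, ht, h6⟩ := SetLike.not_le_iff_exists.mp h5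
      exact h5 (le_sup_right.trans ((nrm _ t h6 h4 (le_normalizer (mem_sup_right ht)) (hc _)).le.trans bot_le))
    have h6 : pResidualOf p H = pResidualOf p M := pResidualOf_eq_of_le
      (pGrpMod_of_relIndex hn (k := 1) (by rw [pow_one])).pResidualOf_le hHM
    have h7 : cj (pResidualOf p M) g⁻¹ ≤ pResidualOf p M := by
      rw [← h6, cj_pResidualOf, h6]; exact pResidualOf_mono h5
    have h8 := pResidualOf_eq_bot_iff.mp (nrm _ _ hg (le_normalizer_pResidualOf p M)
      (mem_normalizer_of_cj_le h7) (ntop _ (pResidualOf_le p M)))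
    have hM0 : M ≠ ⊥ := fun he => hne (le_antisymm hHM (he.le.trans bot_le))
    have h9 : ¬ cj M g⁻¹ ≤ M := fun h => hM0 (nrm M _ hg le_normalizer (mem_normalizer_of_cj_le h) hmaxM.1)
    obtain ⟨t, ht, h10⟩ := SetLike.not_le_iff_exists.mp h9
    have h11 : (cj H g⁻¹).relIndex M = p := by
      have e1 := card_mul_relIndex h5
      rw [card_cj, ← card_mul_relIndex hHM] at e1
      exact Nat.eq_of_mul_eq_mul_left (card_pos' H) e1
    have h12 : cj H g⁻¹ < M := lt_of_le_of_ne h5 fun he => hidx.ne_one (h11 ▸ relIndex_eq_one.mpr he.ge)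
    have h13 := lt_inf_normalizer h8 h12
    have h14 := cj_eq_bot_iff.mp (nrm _ t h10 (inf_eq_left.mp ((le_of_relIndex_prime h11 h13.le
      inf_le_left).resolve_left h13.ne')) (hn' ht) (ntop _ h5))
    rw [h14, bot_sup_eq] at h3
    exact h9 (eq_of_le_of_card_le (h3.ge.trans (zpowers_le_of_mem hx')) (card_cj M _).le).ge
  obtain ⟨N, h1, h2, h3, -⟩ := H4.frobenius_wielandt M H
    (fun h hh l _ hl => conj_mem_of_mem_normalizer (hn hh) hl) h
  rcases h1.eq_bot_or_eq_top with rfl | rfl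
  · exact hmaxM.1 (by rwa [bot_sup_eq] at h3)
  · rw [top_inf_eq, inf_eq_left.mpr hHM] at h2
    exact hne h2.symm

end Cfsg.Agent.S3015
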