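import Cfsg.Statements.S3017
import Cfsg.Agent.H6.ZStar2
import Cfsg.Agent.BG.S01b
import Cfsg.Agent.H11.Invol
import Cfsg.Agent.H11.Count
import Cfsg.Agent.H2.Basic
import Cfsg.Agent.H11.Iso
import Cfsg.Agent.H1.Cores
import Cfsg.Agent.H21.Base4
import Cfsg.Agent.H10.Local2

set_option autoImplicit false
open Cfsg

namespace Cfsg.Agent.S3017

open Subgroup Cfsg.Agent.H20 Cfsg.Agent.H21
open scoped commutatorElement

universe u

variable {G : Type u} [Group G] [Finite G] {H : Subgroup G}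

instance : Fact (Nat.Prime 2) := ⟨Nat.prime_two⟩

structure EC (H : Subgroup G) : Prop where
  two : IsPGroup 2 H
  comm : IsMulCommutative H
  le : ∀ g, (H ⊔ cj g H) ⊓ N⟦H⟧ ≤ H

theorem odd_iff {x : G} : Odd (orderOf x) ↔ IsPiElt {2}ᶜ x :=
  Nat.not_even_iff_odd.symm.trans (by rw [isPiElt_iff, PiNat.compl_singleton_iff Nat.prime_two, even_iff_two_dvd])

theorem EC.sylow (h : EC H) (g : G) : SylowOf 2 H (H ⊔ cj g H) :=
  Hall.of_inf_norm ((sylowOf_self h.two).trans_relIndex (le_inf le_sup_left le_normalizer)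
    (relIndex_eq_one.mpr (h.le g) ▸ PiNat.one _))

theorem EC.sub (h : EC H) {M : Subgroup G} (hM : H ≤ M) : EC (H.subgroupOf M) :=
  ⟨h.two.comap_subtype, have := h.comm; inferInstance, fun g x hx => h.le g ⟨by
    have := mem_map_of_mem M.subtype hx.1
    rwa [Subgroup.map_sup, map_cj, map_subgroupOf_eq_of_le hM] at this, by
    have := norm_map M.subtype le_rfl (mem_map_of_mem M.subtype hx.2)
    rwa [map_subgroupOf_eq_of_le hM] at this⟩⟩

theorem EC.map (h : EC H) {G' : Type u} [Group G'] [Finite G'] {f : G →* G'} (hf : Function.Surjective f) :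
    EC (H.map f) := ⟨h.two.map f, comm_map h.comm f, fun g x hx => by
  obtain ⟨g, rfl⟩ := hf g
  obtain ⟨h1, h2⟩ := mem_inf.mp hx
  rw [← map_cj, ← Subgroup.map_sup] at h1
  obtain ⟨x, h1, rfl⟩ := h1
  have h3 : cj x H ≤ (H ⊔ cj g H) ⊓ f.ker ⊔ H := fun y hy => by
    obtain ⟨z, hz, e⟩ := (map_cj f x H).trans (mem_norm_iff_cj.mp h2) |>.le (mem_map_of_mem f hy)
    rw [← inv_mul_cancel_right y z]
    exact mul_mem_sup (mem_inf.mpr ⟨mul_mem (cj_le_of_mem h1 le_sup_left hy) (mem_sup_left (inv_mem hz)),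
      by simp [e]⟩) hz
  obtain ⟨n, hn, e⟩ := ((h.sylow g).of_le le_sup_right (sup_le inf_le_left le_sup_left)).exists_cj_eq
    (((h.sylow g).cj_of_mem h1).of_le h3 (sup_le inf_le_left le_sup_left))
  obtain ⟨k, hk, z, hz, rfl⟩ := (mem_sup_of_norm' (norm_inf (le_sup_left.trans le_normalizer)
    le_normalizer_of_normal)).mp hn
  have h4 := h.le g (mem_inf.mpr ⟨mul_mem (inv_mem hk.1) h1, mem_norm_iff_cj.mpr (by
    rw [cj_mul, ← e, cj_mul, cj_inv_cj, cj_eq_of_mem hz])⟩)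
  exact ⟨_, h4, by simp [show f k = 1 from hk.2]⟩⟩

/-- the normal complement in the join of two conjugates -/
theorem EC.exists_Y (h : EC H) (g : G) : ∃ K Y : Subgroup G, H ≤ K ∧ cj g H ≤ K ∧ Y ⊴ K ∧ IsPi {2}ᶜ Y ∧
    (∀ x ∈ K, Odd (orderOf x) → x ∈ Y) ∧ (∀ x ∈ K, ∀ y ∈ K, ⁅x, y⁆ ∈ Y) ∧ ∃ k ∈ Y, k⁻¹ * g ∈ N⟦H⟧ := by
  have h1 := BG.Burnside_normal_complement (h.sylow g) ((h.le g).trans (have := h.comm; le_centralizer H))
  have h2 := piCoreOf_normalIn {2}ᶜ (H ⊔ cj g H)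
  have h3 := (h1.isComplIn' (h.sylow g)).prod
  refine ⟨_, _, le_sup_left, le_sup_right, h2, h1.isPi, fun x hx e => h1.mem_of_normalIn h2 hx (odd_iff.mp e),
    fun x hx y hy => commg_le_of_prod h2.norm h3 h2.le le_sup_left (commg_le_left h2.norm)
      ((commutator_comm _ _).trans_le (commg_le_of_prod h2.norm h3 h2.le le_sup_left
        (commg_le_left (le_sup_left.trans h2.norm)) ((commg_eq_bot.mpr (have := h.comm; le_centralizer H)).trans_le bot_le)))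
      (commutator_mem_commutator hx hy), ?_⟩
  obtain ⟨n, hn, e⟩ := (h.sylow g).exists_cj_eq ((h.sylow g).of_card le_sup_right (card_cj _ _))
  obtain ⟨k, hk, z, hz, rfl⟩ := h3 n hn
  exact ⟨k, hk, mem_norm_iff_cj.mpr (by rw [cj_mul, ← e, cj_mul, cj_inv_cj, cj_eq_of_mem hz])⟩

theorem EC.mul_comm (h : EC H) {a b : G} (ha : a ∈ H) (hb : b ∈ H) : a * b = b * a :=
  have := h.comm; le_centralizer H hb a ha

theorem EC.claimB (h : EC H) {b c y z : G} (hb : b ∈ H) (hc : c ∈ H) (hy : y ∈ C₁⟦b⟧) (hz : z ∈ C₁⟦c⟧)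
    (h1 : Odd (orderOf (c * (y * c * y⁻¹)))) (h2 : Odd (orderOf (b * (z * b * z⁻¹)))) :
    Odd (orderOf (b * c * (y * z * (b * c) * (y * z)⁻¹))) := by
  obtain ⟨K, Y, k1, k2, k3, k4, k5, k6, -⟩ := h.exists_Y (y * z)
  have b' := k2 (conj_mem_cj.mpr hb)
  have c' := k2 (conj_mem_cj.mpr hc)
  have e1 : y * z * c * (y * z)⁻¹ = y * c * y⁻¹ := by rw [mul_assoc y, mem_cent1.mp hz]; group
  have e2 : b * (y * z * b * (y * z)⁻¹) = y * (b * (z * b * z⁻¹)) * y⁻¹ := by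
    rw [← mul_assoc y b, mem_cent1.mp hy]; group
  refine odd_iff.mpr (k4.elt ?_)
  convert mul_mem (mul_mem (k5 _ (mul_mem (k1 hb) b') (by rwa [e2, H10.orderOf_conj]))
    (k6 _ (inv_mem b') _ (k1 hc))) (k5 _ (mul_mem (k1 hc) c') (by rwa [e1])) using 1
  group

theorem EC.claimA (h : EC H) {b c s g : G} (hb : b ∈ H) (hc : c ∈ H) (b2 : b * b = 1) (c2 : c * c = 1)
    (hs : s ∈ cj g H) (s2 : s * s = 1) (h1 : Odd (orderOf (b * c * s))) : ∃ y ∈ C₁⟦b⟧, ∃ z ∈ C₁⟦c⟧,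
      Odd (orderOf (c * (y * c * y⁻¹))) ∧ Odd (orderOf (b * (z * b * z⁻¹))) ∧ y * z * (b * c) * (y * z)⁻¹ = s := by
  obtain ⟨K, Y, k1, k2, k3, k4, k5, k6, -⟩ := h.exists_Y g
  have o : ∀ {x}, x ∈ Y → Odd (orderOf x) := fun hx => odd_iff.mpr (k4.elt hx)
  have o' : ∀ {v x}, v ∈ H → v * v = 1 → x ∈ Y → Odd (orderOf (v * (x * v * x⁻¹))) := fun {v x} hv v2 hx => o (by
    rw [← mul_assoc, ← mul_assoc]
    nth_rw 2 [← inv_eq_of_mul_eq_one_right v2]
    exact mul_mem (conj_mem_of_norm (k3.norm (k1 hv)) hx) (inv_mem hx))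
  have bc := h.mul_comm hb hc
  have a2 : b * c * (b * c) = 1 := by rw [bc, mul_assoc, ← bc, ← mul_assoc b, b2, one_mul, c2]
  have h2 := k5 _ (mul_mem (mul_mem (k1 hb) (k1 hc)) (k2 hs)) h1
  have h3 : (s * b) ^ 2 ∈ Y := by
    have := k6 _ (k2 hs) _ (k1 hb)
    rwa [commutatorElement_def, inv_eq_of_mul_eq_one_right s2, inv_eq_of_mul_eq_one_right b2, mul_assoc, ← sq] at this
  obtain ⟨j, hj⟩ := o h3
  have w2 : (s * b) ^ (2 * j + 1) * (s * b) ^ (2 * j + 1) = 1 := by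
    rw [← pow_add, ← two_mul, pow_mul, ← hj, pow_orderOf_eq_one]
  have h4 : ∀ {v}, v * (s * b) * v⁻¹ = (s * b)⁻¹ → v * (s * b) ^ (2 * j + 1) = (s * b) ^ (2 * j + 1) * v :=
    fun e => by rw [← mul_inv_eq_iff_eq_mul, ← conj_pow, e, inv_pow, inv_eq_of_mul_eq_one_right w2]
  have h5 := h4 (H11.invol_inverts_left s2 b2)
  have h6 := h4 (H11.invol_inverts_right s2 b2)
  have h7 : (s * b) ^ (2 * j + 1) * c ∈ Y := by
    rw [pow_succ, pow_mul, mul_assoc, mul_assoc]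
    refine mul_mem (pow_mem h3 j) ?_
    simpa [inv_eq_of_mul_eq_one_right s2, inv_eq_of_mul_eq_one_right a2] using inv_mem h2
  generalize (s * b) ^ (2 * j + 1) = w at *
  replace h7 : c * w ∈ Y := by
    simpa [inv_eq_of_mul_eq_one_right w2, inv_eq_of_mul_eq_one_right c2] using inv_mem h7
  obtain ⟨m, hm⟩ := H11.exists_pow_conj_of_odd c2 w2 (o h7)
  have h8 : (c * w) ^ m ∈ C₁⟦b⟧ := pow_mem (mul_mem (mem_cent1.mpr bc.symm) (mem_cent1.mpr h6.symm)) m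
  have h9 := pow_mem h7 m
  generalize (c * w) ^ m = y at *
  have h10 : b * c * (y⁻¹ * s * y) ∈ Y := by
    convert mul_mem (mul_mem h2 (conj_mem_of_norm' (k3.norm (k2 hs)) (inv_mem h9))) h9 using 1
    group
  obtain ⟨n, hn⟩ := H11.exists_pow_conj_of_odd a2 (by rw [show y⁻¹ * s * y * (y⁻¹ * s * y) =
    y⁻¹ * (s * s) * y by group, s2, mul_one, inv_mul_cancel]) (o h10)
  refine ⟨y, h8, _, pow_mem (mul_mem (mul_mem (mem_cent1.mpr bc) (mem_cent1.mpr rfl)) (mem_cent1.mpr ?_)) n,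
    o' hc c2 h9, o' hb b2 (pow_mem h10 n), ?_⟩
  · calc _ = y⁻¹ * (s * (y * c * y⁻¹)) * y := by group
      _ = _ := by rw [hm, h5, ← hm]; group
  · calc _ = y * ((b * c * (y⁻¹ * s * y)) ^ n * (b * c) * ((b * c * (y⁻¹ * s * y)) ^ n)⁻¹) * y⁻¹ := by group
      _ = _ := by rw [hn]; group

theorem aux (G : Type u) [Group G] [Finite G] : ∀ H : Subgroup G, EC H → N⟦H⟧ ⊔ pPrimeCore 2 G = ⊤ := by
  refine H2.card_induction (P := fun G _ _ => ∀ H : Subgroup G, EC H → N⟦H⟧ ⊔ pPrimeCore 2 G = ⊤)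
    (fun G _ _ ih H h => ?_) G
  have hq : ∀ (N : Subgroup G) [N.Normal], N ≠ ⊥ → pPrimeCore 2 (G ⧸ N) = ⊥ → (N ⊔ H).Normal := fun N _ h1 h2 => by
    have := ih (G ⧸ N) (by
      rw [← N.card_mul_index]
      exact lt_mul_left (Nat.pos_of_ne_zero index_ne_zero_of_finite) (one_lt_card_iff_ne_bot N |>.mpr h1)) _
      (h.map (QuotientGroup.mk'_surjective N))
    rw [h2, sup_bot_eq, normalizer_eq_top_iff] at this
    have := this.comap (QuotientGroup.mk' N)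
    rwa [comap_map_eq, QuotientGroup.ker_mk', sup_comm] at this
  by_cases hO : pPrimeCore 2 G = ⊥
  swap
  · have h1 := hq _ hO (H1.pPrimeCore_quotient_pPrimeCore 2)
    have h2 := (Hall.of_sup_right (isPi_singleton_iff.mpr h.two) (pPrimeCore_eq_top (G := G) 2 ▸ isPi_piCoreOf _ _)
      (.inl le_normalizer_of_normal)).frattini (normalIn_top_iff.mpr h1)
    exact eq_top_iff.mpr (h2.ge.trans (sup_le (sup_le le_sup_right (le_normalizer.trans le_sup_left))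
      (inf_le_right.trans le_sup_left)))
  rw [hO, sup_bot_eq]
  by_contra hH
  have hZ : ∀ t ∈ H, t ≠ 1 → t ∉ center G := fun t ht h1 h2 => hH (by
    haveI : (zpowers t).Normal := ⟨fun n hn g => by rwa [mem_center_iff.mp (zpowers_le.mpr h2 hn), mul_inv_cancel_right]⟩
    have := hq (zpowers t) (by simpa) (H6.pPrimeCore_quotient_of_le_center hO _ (zpowers_le.mpr h2))
    rwa [sup_eq_right.mpr (zpowers_le.mpr ht), ← normalizer_eq_top_iff] at this)
  have loc : ∀ M, H ≤ M → M ≠ ⊤ → M ≤ piCoreOf {2}ᶜ M ⊔ (M ⊓ N⟦H⟧) := fun M h1 h2 => by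
    have := congrArg (map M.subtype) (ih M (card_lt (lt_top_iff_ne_top.mpr h2) |>.trans_eq card_top) _ (h.sub h1))
    rw [Subgroup.map_sup, map_pPrimeCore, map_norm M.subtype_injective, ← MonoidHom.range_eq_map, range_subtype,
      map_subgroupOf_eq_of_le h1, sup_comm] at this
    exact this.ge
  have hmul : ∀ b ∈ H, b ≠ 1 → ∀ c ∈ H, c * c = 1 → ∀ x ∈ C₁⟦b⟧, ∀ y ∈ C₁⟦b⟧, Odd (orderOf (c * (x * c * x⁻¹))) →
      Odd (orderOf (c * (y * c * y⁻¹))) → Odd (orderOf (c * (x * y * c * (x * y)⁻¹))) :=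
    fun b hb b1 c hc c2 x hx y hy e1 e2 => by
      have h1 : H ≤ C₁⟦b⟧ := fun a ha => mem_cent1.mpr (h.mul_comm ha hb)
      have hn := piCoreOf_normalIn {2}ᶜ C₁⟦b⟧
      have h2 : ∀ x ∈ C₁⟦b⟧, Odd (orderOf (c * (x * c * x⁻¹))) → c * (x * c * x⁻¹) ∈ piCoreOf {2}ᶜ C₁⟦b⟧ :=
        fun x hx e => (Hall.of_sup_left (isPi_piCoreOf _ _) (by rw [compl_compl]; exact isPi_singleton_iff.mpr h.two)
          (.inr (h1.trans hn.norm))).mem_of_normalIn ⟨le_sup_left, sup_le le_normalizer (h1.trans hn.norm)⟩ (by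
            obtain ⟨o, ho, n, h3, rfl⟩ := (mem_sup_of_norm' (inf_le_left.trans hn.norm)).mp (loc _ h1 (fun e =>
              hZ b hb b1 (mem_center_iff.mpr fun g => mem_cent1.mp (e.ge (mem_top g)))) hx)
            rw [show o * n * c * (o * n)⁻¹ = o * (n * c * n⁻¹) * o⁻¹ by group]
            exact mul_mem (mem_sup_right hc) (mul_mem (mul_mem_sup ho (conj_mem_of_norm h3.2 hc))
              (mem_sup_left (inv_mem ho)))) (odd_iff.mp e)
      refine odd_iff.mpr ((isPi_piCoreOf _ C₁⟦b⟧).elt ?_)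
      convert mul_mem (h2 x hx e1) (conj_mem_of_norm (hn.norm hx) (h2 y hy e2)) using 1
      calc _ = c * x * (c * c) * y * c * y⁻¹ * x⁻¹ := by rw [c2]; group
        _ = _ := by group
  let V : Subgroup G := ⟨⟨⟨{v | v ∈ H ∧ v * v = 1}, fun {a b} ha hb => ⟨mul_mem ha.1 hb.1, by
    rw [mul_assoc, ← mul_assoc b, ← h.mul_comm ha.1 hb.1, mul_assoc, hb.2, mul_one, ha.2]⟩⟩, one_mem H, one_mul 1⟩,
    fun {a} ha => ⟨inv_mem ha.1, by rw [← mul_inv_rev, ha.2, inv_one]⟩⟩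
  let R : G → Prop := fun x => ∀ v ∈ V, ∀ s, s * s = 1 → (∃ g, s ∈ cj g H) → Odd (orderOf (v * s)) →
    Odd (orderOf (v * (x * s * x⁻¹)))
  have hc : ∀ {s} (x : G), s * s = 1 → x * s * x⁻¹ * (x * s * x⁻¹) = 1 := fun {s} x e => by
    rw [conj_mul, e]; group
  have hRmul : ∀ {x y}, R x → R y → R (x * y) := fun {x y} hx hy v hv s s2 ⟨g, hg⟩ e => by
    simpa only [mul_assoc, mul_inv_rev] using hx v hv _ (hc y s2) ⟨y * g, cj_mul y g H ▸ conj_mem_cj.mpr hg⟩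
      (hy v hv s s2 ⟨g, hg⟩ e)
  let L : Subgroup G := ⟨⟨⟨{x | R x ∧ R x⁻¹}, fun {a b} ha hb => ⟨hRmul ha.1 hb.1, mul_inv_rev a b ▸ hRmul hb.2 ha.2⟩⟩,
    by constructor <;> exact fun _ _ _ _ _ e => by simpa using e⟩, fun {a} ha => ⟨ha.2, (inv_inv a).symm ▸ ha.1⟩⟩
  have hR0 : ∀ {x v s : G}, x * v = v * x → Odd (orderOf (v * s)) → Odd (orderOf (v * (x * s * x⁻¹))) :=
    fun {x v s} e1 e2 => by rwa [← mul_assoc, ← mul_assoc, ← e1, mul_assoc x, H10.orderOf_conj]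
  have hR1 : ∀ b ∈ V, b ≠ 1 → ∀ x ∈ C₁⟦b⟧, (∀ v ∈ V, Odd (orderOf (v * (x * v * x⁻¹)))) → R x :=
    fun b hb b1 x hx h1 v hv s s2 ⟨g, hg⟩ e => by
      obtain ⟨c, rfl⟩ : ∃ c, v = b * c := ⟨b⁻¹ * v, by group⟩
      have hc := (mul_mem_cancel_left hb).mp hv
      obtain ⟨y, hy, z, hz, e1, e2, rfl⟩ := h.claimA hb.1 hc.1 hb.2 hc.2 hg s2 e
      simpa only [mul_assoc, mul_inv_rev] using h.claimB hb.1 hc.1 (mul_mem hx hy) hz
        (hmul b hb.1 b1 c hc.1 hc.2 x hx y hy (h1 c hc) e1) e2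
  have hHL : H ≤ L := fun x hx => ⟨fun v hv _ _ _ => hR0 (h.mul_comm hx hv.1),
    fun v hv _ _ _ => hR0 (h.mul_comm (inv_mem hx) hv.1)⟩
  have hNL : N⟦H⟧ ≤ N⟦L⟧ := fun n hn => mem_norm_of_forall fun x hx => by
    have : ∀ {x}, R x → R (n * x * n⁻¹) := fun {x} hx v hv s s2 ⟨g, hg⟩ e => by
      have := hx (n⁻¹ * v * n) ⟨conj_mem_of_norm' hn hv.1, by simpa using hc n⁻¹ hv.2⟩ _ (hc n⁻¹ s2)
        ⟨n⁻¹ * g, cj_mul _ g H ▸ conj_mem_cj.mpr hg⟩ (by rw [← H10.orderOf_conj' n] at e; convert e using 2; group)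
      rw [← H10.orderOf_conj n] at this
      convert this using 2
      group
    exact ⟨this hx.1, by simpa only [mul_inv_rev, inv_inv, mul_assoc] using this hx.2⟩
  obtain ⟨t, ht⟩ := exists_prime_orderOf_dvd_card' (G := H) 2 (dvd_card_of_isPGroup h.two fun e => hH (by simp [e]))
  have t2 := (orderOf_coe t).trans ht
  obtain ⟨S, hS⟩ := h.two.exists_le_sylow
  have hSN : (S : Subgroup G) ≤ N⟦H⟧ := inf_eq_left.mp (eq_of_nilpotent_of_inf_norm_le S.isPGroup'.isNilpotent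
    inf_le_left fun x hx => ⟨hx.1, mem_norm_of_cj_le fun y hy => h.le x ⟨mem_sup_right hy,
      (cj_le_of_mem_norm hx.2 (le_inf hS le_normalizer) hy).2⟩⟩)
  obtain ⟨g, h1, h2⟩ : ∃ g : G, g * t * g⁻¹ ∈ V ∧ g * t * g⁻¹ ≠ t := by
    by_contra h1
    push Not at h1
    exact hZ t t.2 (H11.orderOf_two_iff.mp t2).1 (H6.mem_center_of_closed hO S (hS t.2) fun g hg => h1 g
      ⟨h.le g ⟨mem_sup_right (conj_mem_cj.mpr t.2), hSN hg⟩, hc g (H11.mul_self_of_orderOf_two t2)⟩)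
  have ht' : (t : G) ∈ V := ⟨t.2, H11.mul_self_of_orderOf_two t2⟩
  have hG : L ⊔ N⟦H⟧ = ⊤ := eq_top_iff.mpr fun x _ => by
    obtain ⟨K, Y, k1, -, k3, k4, -, -, k, hk, e⟩ := h.exists_Y x
    have hV : V ≤ H := fun _ h => h.1
    have h3 : Y ≤ L := BG.coprime_abelian_gen_cent1 (A := V) (comm_of_le hV h.comm) (fun e => h2
      (H11.invol_unique_of_isCyclic e ((H10.orderOf_conj _ _).trans t2) t2 h1 ht')) ((hV.trans k1).trans k3.norm)
      (k4.coprime' (isPi_singleton_iff.mpr (h.two.to_le hV))) fun b hb b1 y hy => by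
        have : ∀ y ∈ Y ⊓ C₁⟦b⟧, R y := fun y hy => hR1 b hb b1 y hy.2 fun v hv => odd_iff.mpr (k4.elt (by
          rw [← mul_assoc, ← mul_assoc]
          nth_rw 2 [← inv_eq_of_mul_eq_one_right hv.2]
          exact mul_mem (conj_mem_of_norm (k3.norm (k1 hv.1)) hy.1) (inv_mem (mem_inf.mp hy).1)))
        exact ⟨this y hy, this _ (inv_mem hy)⟩
    simpa using mul_mem_sup (h3 hk) e
  by_cases hL : L = ⊤
  · have h3 := odd_iff.mp ((hL.ge (mem_top g)).1 t ht' t ht'.2 ⟨1, (cj_one H).ge t.2⟩ (by simp [ht'.2]))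
    have h4 := (isPi_zpowers.mpr h3).inf_eq_bot' (isPi_singleton_iff.mpr h.two) |>.le
      (mem_inf.mpr ⟨mem_zpowers _, mul_mem t.2 h1.1⟩)
    exact h2 ((eq_inv_of_mul_eq_one_right h4).trans (inv_eq_of_mul_eq_one_right ht'.2))
  have h3 : piCoreOf {2}ᶜ L = ⊥ := eq_bot_iff.mpr ((piCoreOf_le_of_normalIn ⟨le_top, hG.ge.trans
    (sup_le le_normalizer hNL)⟩).trans ((pPrimeCore_eq_top 2).symm.trans hO).le)
  exact hH (eq_top_iff.mpr (hG.ge.trans (sup_le ((loc L hHL hL).trans (by simp [h3])) le_rfl)))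

/-- Let G be a finite group and H an abelian 2-subgroup of G that is extremely closed (for every g, the subgroup generated by H and g H g⁻¹ meets N_G(H) exactly in H). Then G = N_G(H) O(G), where O(G) is the largest normal subgroup of odd order. For H of order 2 this is Glauberman's Z*-statement. -/
theorem result {G : Type*} [Group G] [Finite G] (H : Subgroup G) (hH2 : IsPGroup 2 H) (hHab : IsMulCommutative H) (hcl : Cfsg.IsExtremelyClosed H) : Subgroup.normalizer (H : Set G) ⊔ Cfsg.oddCore G = ⊤ := by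
  exact aux G H ⟨hH2, hHab, fun g => (hcl g).le⟩

end Cfsg.Agent.S3017
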