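import Cfsg.Statements.S3020
import Cfsg.Agent.H24.Sidki

set_option autoImplicit false
open Cfsg

namespace Cfsg.Agent.S3020

/-- Let G be a finite group, p a prime and H an abelian p-subgroup of G that is extremely closed (for every g, the subgroup generated by H and g H g⁻¹ meets N_G(H) exactly in H). Then for every g ∈ G, the subgroup T generated by H and g H g⁻¹ is the product of H with O_{p'}(T), and H meets O_{p'}(T) trivially; that is, O_{p'}(T) is a normal p-complement of H in T. -/
theorem result {G : Type*} [Group G] [Finite G] {p : ℕ} [Fact p.Prime] (H : Subgroup G) (hHp : IsPGroup p H) (hHab : IsMulCommutative H) (hcl : Cfsg.IsExtremelyClosed H) (g : G) (T : Subgroup G) (hT : T = H ⊔ H.map (MulAut.conj g).toMonoidHom) : H ⊔ (Cfsg.pPrimeCore p ↥T).map T.subtype = T ∧ H ⊓ (Cfsg.pPrimeCore p ↥T).map T.subtype = ⊥ := by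
  open Subgroup Cfsg.Agent.H24 in
  open scoped commutatorElement in
  open Cfsg.Agent.H10 (SubnormalIn OqOf) in
  open Cfsg.Agent.H9 (maxEA) in
  have h1 := hcl g
  rw [← hT] at h1
  have hH : H ≤ T := hT ▸ le_sup_left
  have hS : SylIn p H T := sylIn_of_sylIn_inf_normalizer (by rw [h1]; exact sylIn_self hHp)
  have h2 : HasNormalPComplement p T := H3.hasNormalPComplement_of_normalizer_le_centralizer hS.toSylow (by
    change 𝐍[H.subgroupOf T] ≤ 𝐂[H.subgroupOf T]
    rw [← map_subtype_le_map_subtype', map_subtype_normalizer, map_subtype_centralizer,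
      map_subgroupOf_eq_of_le hH, h1]
    exact le_inf hH (isMulCommutative_iff_le_centralizer.mp hHab))
  obtain ⟨K, h3, h4, h5, -, h6, -⟩ := (sylIn_iff_H3.mp hS).exists_complement h2
  change H ⊔ OqOf p T = T ∧ H ⊓ OqOf p T = ⊥
  refine ⟨le_antisymm (sup_le hH H10.OqOf_le) ?_, inf_eq_bot_of_isPGroup_of_coprime hHp H10.OqOf_coprime⟩
  conv_lhs => rw [← h6, sup_comm]
  exact sup_le_sup_left (H10.le_OqOf h3 (le_normalizer.trans h5) h4) _

end Cfsg.Agent.S3020
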