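import Cfsg.Statements.S3021
import Cfsg.Agent.H24.Sidki

set_option autoImplicit false
open Cfsg

namespace Cfsg.Agent.S3021

/-- Let G be a finite group, p a prime and H a p-subgroup of G that is extremely closed (for every g, the subgroup generated by H and g H g⁻¹ meets N_G(H) exactly in H). Then every p-subgroup Q of G containing H has N_G(Q) ≤ N_G(H); in particular every Sylow p-subgroup P of G containing H normalizes H, and H is strongly closed in P with respect to G. -/
theorem result {G : Type*} [Group G] [Finite G] {p : ℕ} [Fact p.Prime] (H : Subgroup G) (hHp : IsPGroup p H) (hcl : Cfsg.IsExtremelyClosed H) : (∀ Q : Subgroup G, IsPGroup p Q → H ≤ Q → Subgroup.normalizer (Q : Set G) ≤ Subgroup.normalizer (H : Set G)) ∧ ∀ P : Sylow p G, H ≤ (P : Subgroup G) → (P : Subgroup G) ≤ Subgroup.normalizer (H : Set G) ∧ Cfsg.IsStronglyClosed H (P : Subgroup G) := by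
  open Subgroup Cfsg.Agent.H24 in
  open scoped commutatorElement in
  open Cfsg.Agent.H10 (SubnormalIn OqOf) in
  open Cfsg.Agent.H9 (maxEA) in
  simp only [IsExtremelyClosed, map_conj_eq_cj] at hcl
  have h1 : ∀ Q : Subgroup G, IsPGroup p Q → H ≤ Q → 𝐍[Q] ≤ 𝐍[H] := fun Q hQ h g hg =>
    mem_normalizer_of_cj_le (le_sup_right.trans (le_of_inf_normalizer_le
      (hQ.to_le (sup_le h (cj_le_of_mem_normalizer h hg))) le_sup_left (hcl g).le))
  refine ⟨h1, fun P hP => ?_⟩
  have h2 := le_normalizer.trans (h1 P P.isPGroup' hP)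
  exact ⟨h2, hP, fun x hx g hg => (hcl g).le ⟨mem_sup_right (conj_mem_cj hx g), h2 hg⟩⟩

end Cfsg.Agent.S3021
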