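import Cfsg.Statements.S3025
import Cfsg.Agent.H21.Base5
import Cfsg.Agent.H1.Quaternion

set_option autoImplicit false
open Cfsg

namespace Cfsg.Agent.S3025

open Subgroup Cfsg.Agent.H20 Cfsg.Agent.H21

/-- Let F be a finite group and H a nontrivial subgroup of F that is contained in every nontrivial subgroup of F which H normalizes. Then F has a nontrivial normal subgroup N contained in every nontrivial normal subgroup of F (a unique minimal normal subgroup), N is simple, and one of the following holds: C_F(N) = 1; or H = N has prime order p, C_F(N) is cyclic of order a power of p, and F/C_F(N) is cyclic of order dividing p − 1; or H = N has order 2, N is central in F, and F is a generalized quaternion group. -/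
theorem result {F : Type*} [Group F] [Finite F] (H : Subgroup F) (hH : H ≠ ⊥)
    (hmin : ∀ R : Subgroup F, R ≠ ⊥ → H ≤ Subgroup.normalizer (R : Set F) → H ≤ R) :
    ∃ N : Subgroup F, N.Normal ∧ N ≠ ⊥ ∧ (∀ M : Subgroup F, M.Normal → M ≠ ⊥ → N ≤ M) ∧ IsSimpleGroup ↥N ∧
      (Subgroup.centralizer (N : Set F) = ⊥ ∨
       (H = N ∧ (Nat.card N).Prime ∧ IsCyclic ↥(Subgroup.centralizer (N : Set F)) ∧
          (∃ k : ℕ, 1 ≤ k ∧ Nat.card ↥(Subgroup.centralizer (N : Set F)) = Nat.card N ^ k) ∧
          (∃ g : F, Subgroup.centralizer (N : Set F) ⊔ Subgroup.zpowers g = ⊤) ∧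
          (Subgroup.centralizer (N : Set F)).index ∣ Nat.card N - 1) ∨
       (H = N ∧ Nat.card N = 2 ∧ Subgroup.centralizer (N : Set F) = ⊤ ∧
          ∃ k : ℕ, 1 ≤ k ∧ Nonempty (F ≃* QuaternionGroup (2 ^ k)))) := by
  classical
  set N := normalClosure (H : Set F) with hNd
  have hHN : H ≤ N := le_normalClosure
  have hN1 : N ≠ ⊥ := fun h => hH (le_bot_iff.mp (h ▸ hHN))
  have hnt : ∀ M : Subgroup F, M.Normal → N⟦M⟧ = ⊤ := fun M _ => normalizer_eq_top M
  have hNmin : ∀ M : Subgroup F, M.Normal → M ≠ ⊥ → N ≤ M := fun M hM h =>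
    normalClosure_le_normal (hmin M h (by rw [hnt M hM]; exact le_top))
  have hs : IsSimpleGroup N := by
    haveI : Nontrivial N := (nontrivial_iff_ne_bot N).mpr hN1
    refine ⟨fun T hT => ?_⟩
    by_cases h : T = ⊥
    · exact Or.inl h
    right
    have h1 : T.map N.subtype ⊴ N := NormalIn.of_map_subtype T hT
    have h2 : T.map N.subtype ≠ ⊥ := fun e => h ((map_eq_bot_iff_of_injective _ N.subtype_injective).mp e)
    have h3 : ∀ g : F, H ≤ cj g (T.map N.subtype) := fun g => by
      have := h1.cj g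
      rw [cj_eq_of_mem_norm (H := N) (by rw [hnt N inferInstance]; trivial)] at this
      exact hmin _ (by simpa using h2) (hHN.trans this.norm)
    have h4 : N ≤ T.map N.subtype := by
      refine (closure_le _).mpr ?_
      intro x hx
      obtain ⟨y, hy, hxy⟩ := Group.mem_conjugatesOfSet_iff.mp hx
      obtain ⟨g, rfl⟩ := isConj_iff.mp hxy
      have := mem_cj.mp (h3 g⁻¹ hy)
      simpa using this
    rw [eq_top_iff]
    intro x _
    obtain ⟨y, hy, e⟩ := h4 x.2
    rwa [← Subtype.ext e]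
  refine ⟨N, inferInstance, hN1, hNmin, hs, ?_⟩
  by_cases hC : C⟦N⟧ = ⊥
  · exact Or.inl hC
  right
  have hNC : N ≤ C⟦N⟧ := hNmin _ inferInstance hC
  haveI : IsMulCommutative N := comm_iff_le_cent.mpr hNC
  have hp : (♯N).Prime := by
    open scoped IsMulCommutative in exact IsSimpleGroup.prime_card
  haveI : Fact (♯N).Prime := ⟨hp⟩
  have hHe : H = N := eq_of_le_of_card_prime hp hHN hH
  have hsub : ∀ R ≤ C⟦N⟧, R ≠ ⊥ → N ≤ R := fun R hR h =>
    hHe ▸ hmin R h (hHe ▸ norm_of_cent (cent_symm hR))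
  have hpg : IsPGroup (♯N) C⟦N⟧ := by
    refine isPi_singleton_iff.mp fun q hq hd => ?_
    obtain ⟨X, hX, hXc⟩ := exists_prime_subgroup hq hd
    have := card_dvd (hsub X hX (ne_bot_of_card_prime (hXc ▸ hq)))
    rw [hXc] at this
    exact ((Nat.prime_dvd_prime_iff_eq hp hq).mp this).symm
  have huniq : ∀ x y : C⟦N⟧, orderOf x = ♯N → y ^ ♯N = 1 → y ∈ zpowers x := by
    have key : ∀ x : C⟦N⟧, orderOf x = ♯N → zpowers (x : F) = N := by
      intro x hx
      have hc : ♯(zpowers (x : F)) = ♯N := by rw [Nat.card_zpowers, Subgroup.orderOf_coe, hx]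
      exact (eq_of_le_card (hsub _ (zpowers_le.mpr x.2) (ne_bot_of_card_prime (hc ▸ hp))) hc.le).symm
    intro x y hx hy
    by_cases h1 : y = 1
    · rw [h1]; exact one_mem _
    have := (key y (orderOf_eq_prime hy h1)).trans (key x hx).symm
    obtain ⟨k, hk⟩ := this ▸ mem_zpowers (y : F)
    exact ⟨k, Subtype.ext (by simpa using hk)⟩
  haveI : IsCyclic N := isCyclic_of_card_prime hp
  let φ : F →* MulAut N := MulAut.conjNormal
  have hker : φ.ker = C⟦N⟧ := by
    ext g
    rw [MonoidHom.mem_ker, mem_cent]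
    constructor
    · intro h a ha
      have : g * a * g⁻¹ = a := by
        rw [← MulAut.conjNormal_apply g ⟨a, ha⟩]
        show ((φ g) ⟨a, ha⟩ : F) = a
        rw [h]; rfl
      exact (mul_inv_eq_iff_eq_mul.mp this).symm
    · intro h
      ext a
      rw [MulAut.conjNormal_apply, ← h a a.2]; simp
  have hidx : (C⟦N⟧).index ∣ ♯N - 1 := by
    rw [← hker, index_ker, ← Nat.totient_prime hp, ← IsCyclic.card_mulAut]
    exact card_dvd_card _
  rcases H1.isCyclic_or_quaternion hpg huniq with hc | ⟨h2, n, hn, ⟨e⟩⟩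
  · left
    refine ⟨hHe, hp, hc, ?_, ?_, hidx⟩
    · obtain ⟨k, hk⟩ := hpg.exists_card_eq
      refine ⟨k, Nat.one_le_iff_ne_zero.mpr ?_, hk⟩
      rintro rfl
      exact hC (eq_bot_of_card hk)
    · haveI : IsCyclic (MulAut N) :=
        haveI := ZMod.isCyclic_units_prime hp
        isCyclic_of_surjective (IsCyclic.mulAutMulEquiv N).symm (IsCyclic.mulAutMulEquiv N).symm.surjective
      obtain ⟨⟨_, g, rfl⟩, hg⟩ := IsCyclic.exists_generator (α := φ.range)
      refine ⟨g, ?_⟩
      rw [eq_top_iff]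
      intro x _
      obtain ⟨k, hk⟩ := hg ⟨φ x, x, rfl⟩
      have h1 : φ (g ^ k) = φ x := by rw [map_zpow]; exact congrArg Subtype.val hk
      have h3 : x * (g ^ k)⁻¹ ∈ C⟦N⟧ := by
        rw [← hker, MonoidHom.mem_ker, map_mul, map_inv, h1, mul_inv_cancel]
      have := mul_mem_sup h3 (zpow_mem_zpowers g k)
      simpa using this
  · right
    have ht : C⟦N⟧ = ⊤ := by
      rw [h2] at hidx
      exact index_eq_one.mp (Nat.dvd_one.mp hidx)
    exact ⟨hHe, h2, ht, n, hn, ⟨(topEquiv.symm.trans (MulEquiv.subgroupCongr ht.symm)).trans e⟩⟩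

end Cfsg.Agent.S3025
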