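import Cfsg.Statements.S3027
import Cfsg.Agent.H24.Misc1

set_option autoImplicit false
open Cfsg

namespace Cfsg.Agent.S3027

/-- Let G be a finite group and D a normal subgroup of G such that G/D is perfect (that is, G = G′D). Then among the subnormal subgroups B of G with BD = G there is a least one, and it is normal in G. -/
theorem result {G : Type*} [Group G] [Finite G] (D : Subgroup G) [D.Normal] (hperf : ⁅(⊤ : Subgroup G), (⊤ : Subgroup G)⁆ ⊔ D = ⊤) :
    ∃ B : Subgroup G, B.Normal ∧ B ⊔ D = ⊤ ∧ ∀ B' : Subgroup G, B'.IsSubnormal → B' ⊔ D = ⊤ → B ≤ B' := by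
  open Subgroup Cfsg.Agent.H24 in
  open scoped commutatorElement in
  open Cfsg.Agent.H10 (SubnormalIn OqOf) in
  open Cfsg.Agent.H9 (maxEA) in
  have key : ∀ X Y : Subgroup G, X ⊔ D = ⊤ → Y ⊔ D = ⊤ → ⁅X, Y⁆ ⊔ D = ⊤ := fun X Y hX hY => by
    have h : ∀ X : Subgroup G, X ⊔ D = ⊤ ↔ X.map (QuotientGroup.mk' D) = ⊤ := fun X => by
      constructor
      · intro h
        have := congrArg (map (QuotientGroup.mk' D)) h
        rwa [Subgroup.map_sup, (Subgroup.map_eq_bot_iff D).mpr (QuotientGroup.ker_mk' D).ge, sup_bot_eq, map_top_of_surjective _ (QuotientGroup.mk'_surjective D)] at this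
      · intro h
        have := comap_map_eq (QuotientGroup.mk' D) X
        rw [h, comap_top, QuotientGroup.ker_mk'] at this
        exact this.symm
    rw [h] at hX hY hperf ⊢
    rw [map_commutator, map_top_of_surjective _ (QuotientGroup.mk'_surjective D)] at hperf
    rw [map_commutator, hX, hY, hperf]
  obtain ⟨B, ⟨h1, h2⟩, h3⟩ := (wellFounded_lt (α := Subgroup G)).has_min {B | B.Normal ∧ B ⊔ D = ⊤} ⟨⊤, inferInstance, top_sup_eq D⟩
  obtain ⟨B₀, ⟨h4, h5, h6⟩, h7⟩ := (wellFounded_lt (α := Subgroup G)).has_min {N | N ≤ B ∧ B ≤ normalizer (N : Set G) ∧ N ⊔ D = ⊤} ⟨B, le_rfl, le_normalizer, h2⟩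
  have h8 : ∀ N : Subgroup G, B ≤ normalizer (N : Set G) → B₀ ≤ normalizer (N : Set G) → ⁅B₀, N⁆ ≤ B₀ → N ⊔ D = ⊤ → B₀ ≤ N := fun N h9 h10 h11 h12 => by
    by_contra hc
    refine h7 (B₀ ⊓ N) ⟨inf_le_left.trans h4, le_normalizer_inf h5 h9, top_le_iff.mp ((key _ _ h6 h12).ge.trans (sup_le_sup_right (le_inf h11 (commutator_le_right_of_le_normalizer h10)) D))⟩ (inf_lt_left.mpr hc)
  have h9 : B₀.Normal := normal_of_forall_cj_le fun g => by
    rw [cj_le_iff]
    have h10 : B ≤ normalizer (cj B₀ g⁻¹ : Set G) := by rw [← cj_normalizer, ← cj_eq_of_normal (H := B) g⁻¹]; exact cj_mono h5 _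
    refine h8 _ h10 (h4.trans h10) (commutator_le_left_of_le_normalizer (le_trans ?_ h5)) ?_
    · rw [← cj_eq_of_normal (H := B) g⁻¹]; exact cj_mono h4 _
    · rw [← cj_eq_of_normal (H := D) g⁻¹, ← cj_sup, h6, cj_top]
  have h10 : B₀ = B := by
    by_contra hc
    exact h3 B₀ ⟨h9, h6⟩ (lt_of_le_of_ne h4 hc)
  subst h10
  refine ⟨B₀, h1, h2, fun B' h => H10.subnormal_induction (P := fun X => X ⊔ D = ⊤ → B₀ ≤ X) h (fun _ => le_top) fun X Y hXY hn _ ih hX => ?_⟩
  have h11 := (ih (top_le_iff.mp (hX.ge.trans (sup_le_sup_right hXY D)))).trans hn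
  exact h8 X h11 h11 (commutator_le_left _ _) hX

end Cfsg.Agent.S3027
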