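import Cfsg.Statements.S3043
import Cfsg.Agent.L0.BT3

set_option autoImplicit false
open Cfsg

namespace Cfsg.Agent.S3043

open Cfsg.Agent.L0 Subgroup MulAction


/-- Let M be a nontrivial subgroup of a finite group G meeting each of its other conjugates trivially, with N_G(M) = M · C_{N_G(M)}(z) for some involution z ∈ N_G(M), and with C_G(x) of odd order for every nontrivial x ∈ M. Then one of the following holds: M is normal in G; the number of involutions of G is at most |G : M|; G is isomorphic to PGL₂(F) or to PSL₂(F) for a finite field F with |F| = |M|, M is an elementary abelian p-group for the characteristic p of F, and |F| ≡ 1 (mod 4) in the PSL₂ case; G is isomorphic to PSL₂(F) with |F| = 2^e, e > 1, and M is cyclic of order 2^e + 1; or for some d ≥ 1, G has an elementary abelian normal subgroup of order 2^{2d} complemented by N_G(M), and N_G(M) is dihedral of order 2(2^d + 1). -/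
theorem result {G : Type*} [Group G] [Finite G] (M : Subgroup G) (hM1 : M ≠ ⊥)
    (hTI : ∀ g : G, M ⊓ M.map (MulAut.conj g).toMonoidHom ≠ ⊥ → M.map (MulAut.conj g).toMonoidHom = M)
    (z : G) (hz : orderOf z = 2) (hzN : z ∈ Subgroup.normalizer (M : Set G))
    (hfac : M ⊔ (Subgroup.normalizer (M : Set G) ⊓ Subgroup.centralizer ({z} : Set G)) = Subgroup.normalizer (M : Set G))
    (hodd : ∀ x ∈ M, x ≠ 1 → Odd (Nat.card ↥(Subgroup.centralizer ({x} : Set G)))) :
    M.Normal ∨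
    Nat.card {g : G // orderOf g = 2} ≤ M.index ∨
    (∃ (F : Type) (_ : Field F) (_ : Fintype F) (p : ℕ) (_ : Fact p.Prime) (_ : CharP F p), Fintype.card F = Nat.card M ∧ Cfsg.IsElementaryAbelian p M ∧
        (Nonempty (G ≃* (GL (Fin 2) F ⧸ Subgroup.center (GL (Fin 2) F))) ∨
         (Fintype.card F % 4 = 1 ∧ Nonempty (G ≃* Matrix.ProjectiveSpecialLinearGroup (Fin 2) F)))) ∨
    (∃ (F : Type) (_ : Field F) (_ : Fintype F) (e : ℕ), 1 < e ∧ Fintype.card F = 2 ^ e ∧ IsCyclic ↥M ∧ Nat.card M = 2 ^ e + 1 ∧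
        Nonempty (G ≃* Matrix.ProjectiveSpecialLinearGroup (Fin 2) F)) ∨
    (∃ (d : ℕ) (E : Subgroup G), 1 ≤ d ∧ E.Normal ∧ Cfsg.IsElementaryAbelian 2 E ∧ Nat.card E = 2 ^ (2 * d) ∧
        E ⊓ Subgroup.normalizer (M : Set G) = ⊥ ∧ E ⊔ Subgroup.normalizer (M : Set G) = ⊤ ∧
        Nonempty (↥(Subgroup.normalizer (M : Set G)) ≃* DihedralGroup (2 ^ d + 1))) := by
  refine or_iff_not_imp_left.2 fun hn => or_iff_not_imp_left.2 fun hJ => ?_
  have h := bt_of hM1 (fun x hx e g hg => mem_normalizer_fintype fun y hy => (hTI g fun e' => e (by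
      simpa using mem_bot.1 (e'.le ⟨hg, x, hx, rfl⟩))).le ⟨y, hy, rfl⟩)
    (fun x hx u hu e => by_contra fun e' => Nat.not_even_iff_odd.2 (hodd x hx e') (even_iff_two_dvd.2
      (iv_iff.1 hu ▸ orderOf_dvd_natCard _ (mem_centralizer_singleton_iff.2 e)))) (iv_iff.2 hz) hzN hfac
    (not_le.1 hJ)
  have h1 : cjM M (1 : G) = M := Subgroup.ext fun x => by simp [mem_cjM]
  have h2 : stabilizer G ((1 : G) : G ⧸ normalizer (M : Set G)) = normalizer (M : Set G) := stabilizer_quotient _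
  have : Nontrivial (G ⧸ normalizer (M : Set G)) :=
    QuotientGroup.nontrivial_iff.2 fun e => hn (normalizer_eq_top_iff.1 e)
  obtain ⟨b, hb⟩ := exists_ne ((1 : G) : G ⧸ normalizer (M : Set G))
  by_cases hI : ∀ u : G, Iv u → ∀ a b c : G ⧸ normalizer (M : Set G), a ≠ b → b ≠ c → a ≠ c → u • a = a →
    u • b = b → u • c ≠ c
  · exact Or.inl (h1 ▸ h.caseI hb.symm hI)
  push Not at hI
  obtain ⟨u, hu, a, b, c, hab, hbc, hac, e1, e2, e3⟩ := hI
  have h3 := (Set.two_lt_ncard_iff (s := fixedBy (G ⧸ normalizer (M : Set G)) u)).2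
    ⟨a, b, c, e1, e2, e3, hab, hac, hbc⟩
  have hS := h.hS_of hu e1 h3
  have h4 := h2.ge hzN
  rw [← h.ncard_fix hu (iv_iff.2 hz) e1 h4] at h3
  rcases h.nums hS (iv_iff.2 hz) h4 h3 with ⟨e4, e5⟩ | ⟨e4, e5, e6⟩
  · exact Or.inr (Or.inl (h1 ▸ h.caseA hS (iv_iff.2 hz) h4 h3 e4 e5))
  · exact Or.inr (Or.inr (h2 ▸ h.caseB hS (iv_iff.2 hz) h4 e4 e5 e6))

end Cfsg.Agent.S3043
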