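import Cfsg.Statements.S3044
import Cfsg.Agent.H24.PMin

set_option autoImplicit false
open Cfsg

namespace Cfsg.Agent.S3044

/-- Let G be a finite group, p a prime, S a Sylow p-subgroup of G and P a p-minimal subgroup of G containing S (S is not normal in P and lies in exactly one maximal subgroup of P). Let L be the subgroup generated by N_G(S) and all p-minimal subgroups of G containing S other than P, and suppose P is isolated: O_p(L) is not contained in O_p(P). Put Y for the normal closure of O^p(P) in G. Then G = YL; P is again isolated in the subgroup YS (the subgroup L₀ generated by N_{YS}(S) and the p-minimal subgroups of YS containing S other than P has O_p(L₀) not contained in O_p(P)); and either Y = O^p(P), or p divides |Y/O_p(Y)|, Y/O_p(Y) is generated by its components (a central product of quasisimple groups), and S permutes these components transitively by conjugation. -/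
theorem result {G : Type*} [Group G] [Finite G] {p : ℕ} [Fact p.Prime] (S : Sylow p G) (P : Subgroup G) (hSP : (S : Subgroup G) ≤ P) (hPmin : Cfsg.IsPMinimal p ↥P)
    (L Y : Subgroup G)
    (hL : L = Subgroup.normalizer ((S : Subgroup G) : Set G) ⊔ ⨆ P' : {P' : Subgroup G // (S : Subgroup G) ≤ P' ∧ Cfsg.IsPMinimal p ↥P' ∧ P' ≠ P}, (P' : Subgroup G))
    (hiso : ¬ (Cfsg.pCore p ↥L).map L.subtype ≤ (Cfsg.pCore p ↥P).map P.subtype)
    (hY : Y = Subgroup.normalClosure (((Cfsg.pResidual p ↥P).map P.subtype : Subgroup G) : Set G)) :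
    Y ⊔ L = ⊤ ∧
    ¬ (Cfsg.pCore p ↥((Subgroup.normalizer ((S : Subgroup G) : Set G) ⊓ (Y ⊔ (S : Subgroup G))) ⊔
          ⨆ P' : {P' : Subgroup G // (S : Subgroup G) ≤ P' ∧ P' ≤ Y ⊔ (S : Subgroup G) ∧ Cfsg.IsPMinimal p ↥P' ∧ P' ≠ P}, (P' : Subgroup G))).map
        (Subgroup.subtype _) ≤ (Cfsg.pCore p ↥P).map P.subtype ∧
    ((Cfsg.pResidual p ↥P).map P.subtype = Y ∨
     ∃ _ : (Cfsg.pCore p ↥Y).Normal,
       p ∣ Nat.card (↥Y ⧸ Cfsg.pCore p ↥Y) ∧ Cfsg.layer (↥Y ⧸ Cfsg.pCore p ↥Y) = ⊤ ∧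
       ∀ K₁ K₂ : Subgroup (↥Y ⧸ Cfsg.pCore p ↥Y), Cfsg.IsComponent K₁ → Cfsg.IsComponent K₂ →
         ∃ s ∈ (S : Subgroup G), ((K₂.comap (QuotientGroup.mk' (Cfsg.pCore p ↥Y))).map Y.subtype) = (((K₁.comap (QuotientGroup.mk' (Cfsg.pCore p ↥Y))).map Y.subtype)).map (MulAut.conj s).toMonoidHom) := by
  open Subgroup Cfsg.Agent.H24 in
  open scoped commutatorElement in
  open Cfsg.Agent.H10 (SubnormalIn OqOf) in
  open Cfsg.Agent.H9 (maxEA) in
  have hS := sylIn_top S
  rw [map_pResidual_subtype, ← ncl_top] at hY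
  simp only [map_pCore_subtype, map_pResidual_subtype] at hiso ⊢
  have h1 : 𝐍[(S : Subgroup G)] ≤ L := hL ▸ le_sup_left
  obtain ⟨h2, h3⟩ := isoMin_of hS hSP hPmin h1 (fun P' a b c => hL ▸ le_sup_of_le_right
    (le_iSup_of_le ⟨P', a, b, c⟩ le_rfl)) hiso
  subst hY
  refine ⟨h2, fun he => hiso (le_trans (pCoreOf_le_pCoreOf_of_le ?_ ?_) he), ?_⟩
  · rw [hL]
    exact sup_le_sup inf_le_left (iSup_le fun ⟨P', a, _, b, c⟩ => le_iSup_of_le ⟨P', a, b, c⟩ le_rfl)
  · exact (hS.of_le (le_normalizer.trans h1) le_top).pCoreOf_le.trans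
      (le_sup_of_le_left (le_inf le_normalizer le_sup_right))
  rcases h3.main with ⟨h4, -⟩ | ⟨h4, h5, h6⟩
  · exact Or.inl (ncl_pResidualOf_eq ((pCore_le_sylow S).trans hSP) h4)
  obtain ⟨ψ, h7, h8, -, h9⟩ := exists_quot_emb (ncl (pResidualOf p P) ⊤) (pCore p G) _
    (pCore_eq_subgroupOf _)
  rw [map_ncl, map_top_of_surjective _ (QuotientGroup.mk'_surjective _)] at h8
  rw [← h8] at h4 h5 h6
  refine Or.inr ⟨inferInstance, by rwa [card_map_of_injective h7, card_top] at h4, ?_,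
    fun K₁ K₂ a1 a2 => ?_⟩
  · rw [← H10.map_LayOf_of_injective _ h7, H10.LayOf_top] at h5
    exact map_injective h7 h5
  · obtain ⟨_, ⟨s, hs, rfl⟩, a3⟩ := h6 _ _ ((H10.compOf_top.mpr a1).map_of_injective h7)
      ((H10.compOf_top.mpr a2).map_of_injective h7)
    refine ⟨s, hs, ?_⟩
    rw [h9, h9, a3, map_conj_eq_cj, cj_inf, cj_eq_of_normal (H := ncl _ _)]
    congr 1
    ext x
    simp only [mem_comap, mem_cj, map_mul, map_inv]

end Cfsg.Agent.S3044
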