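import Cfsg.Statements.S3045
import Cfsg.Agent.H24.PMin

set_option autoImplicit false
open Cfsg

namespace Cfsg.Agent.S3045

/-- Let G be a finite group, p a prime, S a Sylow p-subgroup of G and P a p-minimal subgroup of G containing S. Let L be the subgroup generated by N_G(S) and all p-minimal subgroups of G containing S other than P, and suppose O_p(L) is not contained in O_p(P). Put Y for the normal closure of O^p(P) in G. Then O^p(P) is contained in the preimage in G of F*(G/O_p(G)); and if Y is solvable, then Y = O^p(P) and Y/O_p(Y) is a t-group of nilpotency class at most 2 for some prime t ≠ p. -/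
theorem result {G : Type*} [Group G] [Finite G] {p : ℕ} [Fact p.Prime] (S : Sylow p G) (P : Subgroup G) (hSP : (S : Subgroup G) ≤ P) (hPmin : Cfsg.IsPMinimal p ↥P)
    (L Y : Subgroup G)
    (hL : L = Subgroup.normalizer ((S : Subgroup G) : Set G) ⊔ ⨆ P' : {P' : Subgroup G // (S : Subgroup G) ≤ P' ∧ Cfsg.IsPMinimal p ↥P' ∧ P' ≠ P}, (P' : Subgroup G))
    (hiso : ¬ (Cfsg.pCore p ↥L).map L.subtype ≤ (Cfsg.pCore p ↥P).map P.subtype)
    (hY : Y = Subgroup.normalClosure (((Cfsg.pResidual p ↥P).map P.subtype : Subgroup G) : Set G)) [hn : (Cfsg.pCore p G).Normal] :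
    (Cfsg.pResidual p ↥P).map P.subtype ≤ (Cfsg.generalizedFittingSubgroup (G ⧸ Cfsg.pCore p G)).comap (QuotientGroup.mk' (Cfsg.pCore p G)) ∧
    (Group.IsSolvable ↥Y → (Cfsg.pResidual p ↥P).map P.subtype = Y ∧
       ∃ _ : (Cfsg.pCore p ↥Y).Normal, ∃ t : ℕ, t.Prime ∧ t ≠ p ∧ IsPGroup t (↥Y ⧸ Cfsg.pCore p ↥Y) ∧
         ∃ _ : Group.IsNilpotent (↥Y ⧸ Cfsg.pCore p ↥Y), Group.nilpotencyClass (↥Y ⧸ Cfsg.pCore p ↥Y) ≤ 2) := by
  open Subgroup Cfsg.Agent.H24 in
  open scoped commutatorElement in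
  open Cfsg.Agent.H10 (SubnormalIn OqOf) in
  open Cfsg.Agent.H9 (maxEA) in
  have hS := sylIn_top S
  rw [map_pResidual_subtype, ← ncl_top] at hY
  simp only [map_pCore_subtype, map_pResidual_subtype] at hiso ⊢
  have h1 : 𝐍[(S : Subgroup G)] ≤ L := hL ▸ le_sup_left
  obtain ⟨h2, h3⟩ := isoMin_of hS hSP hPmin h1 (fun P' a b c => hL ▸ le_sup_of_le_right
    (le_iSup_of_le ⟨P', a, b, c⟩ le_rfl)) hiso
  subst hY
  refine ⟨map_le_iff_le_comap.mp (H10.FstarOf_top (G := G ⧸ pCore p G) ▸ h3.le_fstar), fun hs => ?_⟩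
  obtain ⟨ψ, h7, h8, -, h9⟩ := exists_quot_emb (ncl (pResidualOf p P) ⊤) (pCore p G) _
    (pCore_eq_subgroupOf _)
  have h10 := H10.isSolvable_map _ (QuotientGroup.mk' (pCore p G)) hs
  rw [map_ncl, map_top_of_surjective _ (QuotientGroup.mk'_surjective _)] at h8 h10
  rcases h3.main with ⟨h4, t, ht, h5, h6, h11⟩ | ⟨-, h5, -⟩
  · rw [← h8] at h6 h11
    rw [← map_commutator, ← map_commutator, map_eq_bot_iff_of_injective _ h7] at h11
    have h12 : Subgroup.lowerCentralSeries ⊤ 2 = ⊥ := h11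
    have hnil := Subgroup.nilpotent_iff_lowerCentralSeries.mpr ⟨2, h12⟩
    exact ⟨ncl_pResidualOf_eq ((pCore_le_sylow S).trans hSP) h4, inferInstance, t, ht, h5,
      ((H10.isPGroup_map_iff h7 ⊤).mp h6).of_equiv topEquiv, hnil,
      Subgroup.lowerCentralSeries_eq_bot_iff_nilpotencyClass_le.mp h12⟩
  · exact absurd (ncl_eq_bot_iff.mp (h5 ▸ H10.LayOf_eq_bot_of_solvable h10)) h3.ne

end Cfsg.Agent.S3045
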