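import Cfsg.Statements.S3048
import Cfsg.Agent.H24.Sidki

set_option autoImplicit false
universe u
open Cfsg

namespace Cfsg.Agent.S3048

/-- Minimal counterexample reduction for the Sidki pair problem. Let G be a finite group and V a nontrivial elementary abelian 2-subgroup satisfying the Sidki pair condition with V ∩ O₂(G) = 1. Suppose that for every finite group H of smaller order, every nontrivial elementary abelian 2-subgroup W of H satisfying the Sidki pair condition meets O₂(H) nontrivially, and that the same holds in G for every such subgroup W of order smaller than that of V. Then the generalized Fitting subgroup F*(G) is a non-abelian simple group and G = V F*(G). -/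
theorem result {G : Type u} [Group G] [Finite G] (V : Subgroup G) (hV : Cfsg.IsElementaryAbelian 2 V) (hV1 : V ≠ ⊥) (hS : Cfsg.IsSidkiPair V) (hVO : V ⊓ Cfsg.pCore 2 G = ⊥) (hminG : ∀ (H : Type u) [Group H] [Finite H] (W : Subgroup H), Nat.card H < Nat.card G → Cfsg.IsElementaryAbelian 2 W → W ≠ ⊥ → Cfsg.IsSidkiPair W → W ⊓ Cfsg.pCore 2 H ≠ ⊥) (hminV : ∀ W : Subgroup G, Nat.card W < Nat.card V → Cfsg.IsElementaryAbelian 2 W → W ≠ ⊥ → Cfsg.IsSidkiPair W → W ⊓ Cfsg.pCore 2 G ≠ ⊥) : IsSimpleGroup ↥(Cfsg.generalizedFittingSubgroup G) ∧ ¬ IsMulCommutative ↥(Cfsg.generalizedFittingSubgroup G) ∧ V ⊔ Cfsg.generalizedFittingSubgroup G = ⊤ := by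
  open Subgroup Cfsg.Agent.H24 in
  open scoped commutatorElement in
  open Cfsg.Agent.H10 (SubnormalIn OqOf) in
  open Cfsg.Agent.H9 (maxEA) in
  have sub : ∀ H W : Subgroup G, H ≠ ⊤ → W ≤ H → W ≤ V → W ≠ ⊥ → Sid H W →
      ∃ w ∈ W, w ≠ 1 ∧ w ∈ pCoreOf 2 H := fun H W h1 h2 h3 h4 h5 => by
    obtain ⟨w, hw, h6⟩ := exists_mem_ne_one (hminG H (W.subgroupOf H) (H10.card_lt_card_of_ne_top h1)
      (isEA_map_subtype_iff.mp (by rw [map_subgroupOf_eq_of_le h2]; exact isEA_of_le h3 hV))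
      (fun he => h4 (by rw [← map_subgroupOf_eq_of_le h2, he, Subgroup.map_bot]))
      ((isSidkiPair_subgroupOf_iff h2).mpr h5))
    exact ⟨w, hw.1, fun he => h6 (Subtype.ext he), ⟨w, hw.2, rfl⟩⟩
  have quo : ∀ (N : Subgroup G) [N.Normal], N ≠ ⊥ → V ⊓ N = ⊥ →
      ∃ w ∈ V, w ≠ 1 ∧ w ∈ pCoreMod 2 ⊤ N := fun N _ h1 h2 => by
    obtain ⟨_, ⟨⟨w, hw, rfl⟩, h3⟩, h4⟩ := exists_mem_ne_one (hminG (G ⧸ N) (V.map (QuotientGroup.mk' N))
      (H10.card_quotient_lt_of_ne_bot h1) (isEA_map _ hV) (fun he => hV1 (by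
        rw [Subgroup.map_eq_bot_iff, QuotientGroup.ker_mk'] at he
        rw [← h2, inf_eq_left.mpr he]))
      (sidki_map _ (QuotientGroup.mk'_surjective N) hV hS (by rwa [QuotientGroup.ker_mk'])))
    exact ⟨w, hw, fun he => h4 (by rw [he, map_one]), (mk_mem_pCore_iff' w).mp h3⟩
  have hO : pCoreOf 2 (⊤ : Subgroup G) = ⊥ := by
    by_contra h
    obtain ⟨w, hw, h1, h2⟩ := quo _ h (pCoreOf_top (G := G) 2 ▸ hVO)
    have := pCoreMod_le_pCoreOf (top_le_normalizer _) (isPGroup_pCoreOf 2 ⊤).to_inf_right h2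
    rw [pCoreOf_top] at this
    exact h1 (mem_bot.mp (hVO ▸ (⟨hw, this⟩ : w ∈ V ⊓ pCore 2 G)))
  have hO' : ∀ N : Subgroup G, SubnormalIn N ⊤ → pCoreOf 2 N = ⊥ := fun N hN =>
    SubnormalIn.pCoreOf_eq_bot hN hO
  have hVp := isPGroup_of_isElementaryAbelian hV
  have cen : ∀ (N H : Subgroup G) (w : G), SubnormalIn N ⊤ → N ≤ H → H ≤ 𝐍[N] → w ∈ pCoreOf 2 H →
      w ∈ 𝐂[N] := fun N H w h1 h2 h3 h4 => by
    have h5 : ⁅pCoreOf 2 H, N⁆ ≤ N ⊓ pCoreOf 2 H := le_inf
      (commutator_le_right_of_le_normalizer ((pCoreOf_le 2 H).trans h3))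
      (commutator_le_left_of_le_normalizer (h2.trans (le_normalizer_pCoreOf 2 H)))
    rw [← pCoreOf_eq_inf_of_normal h2 h3, hO' N h1, le_bot_iff] at h5
    exact le_centralizer_iff_commutator.mpr h5 h4
  have hZ : center G = ⊥ := by
    by_contra h
    have hc : (Nat.card (center G)).Coprime 2 := coprime_of_forall_isPGroup fun P h1 h2 =>
      eq_bot_iff.mpr (hO ▸ le_pCoreOf le_top h2 (le_normalizer_of_le_centralizer
        (le_centralizer_iff.mp (h1.trans (center_le_centralizer _)))))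
    obtain ⟨w, hw, h1, h2⟩ := quo _ h (inf_eq_bot_of_isPGroup_of_coprime hVp hc)
    obtain ⟨T, hT, h3⟩ := exists_sylIn_le (isPGroup_zpowers_of_mem hVp hw) (zpowers_le_of_mem h2)
    have h4 := hT.sup_eq_of_pGrpMod ((le_inf le_top le_rfl).trans (inf_le_pCoreMod (top_le_normalizer _)))
      (le_top.trans (top_le_normalizer _)) (pGrpMod_pCoreMod (top_le_normalizer _))
    have h5 := hT.pCoreOf_eq_of_normal (h4.ge.trans (sup_le (le_normalizer_of_le_centralizer
      (center_le_centralizer _)) le_normalizer))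
    have h6 := hO' _ (H10.SubnormalIn.of_normal le_top (le_normalizer_pCoreMod (p := 2) (H := ⊤)
      (C := center G) le_normalizer (top_le_normalizer _)))
    exact h1 (mem_bot.mp (h6 ▸ h5 ▸ h3 (mem_zpowers w)))
  have hA : ∀ (M : Subgroup G) [M.Normal], M ≠ ⊥ → V ⊓ 𝐂[M] = ⊥ := fun M _ h0 => by
    by_contra h
    have h1 : 𝐂[M] ≠ ⊤ := fun he => h0 (eq_bot_iff.mpr (hZ ▸ centralizer_top' (G := G) ▸
      le_centralizer_iff.mp he.ge))
    have h2 : ¬ Sid 𝐂[M] (V ⊓ 𝐂[M]) := fun hs => by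
      obtain ⟨w, -, h2, h3⟩ := sub _ _ h1 inf_le_right inf_le_left h hs
      rw [hO' _ (H10.SubnormalIn.of_normal le_top (top_le_normalizer _))] at h3
      exact h2 h3
    simp only [Sid, not_forall, not_exists, not_and] at h2
    obtain ⟨x, hx, u, hu, ho, hi, h2⟩ := h2
    obtain ⟨w, hw, hw1, hwx⟩ := hS x u hu.1 ho hi
    have h3 : M ≤ ⊤ ⊓ (centralizer {u} ⊓ centralizer {x}) := fun m hm => ⟨trivial,
      mem_centralizer_singleton_iff.mpr (hu.2 m hm), mem_centralizer_singleton_iff.mpr (hx m hm)⟩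
    obtain ⟨z, hz, hz1⟩ := exists_mem_ne_one h
    obtain ⟨y, hy, h4, h5⟩ := sub (⊤ ⊓ (centralizer {u} ⊓ centralizer {x})) (V ⊓ centralizer {x})
      (fun he => h2 z hz hz1 (mem_centralizer_singleton_iff.mp (he.ge (mem_top z)).2.2)) (fun y hy => ⟨trivial,
        mem_centralizer_singleton_iff.mpr (comm_of_isEA hV hy.1 hu.1), hy.2⟩) inf_le_left
      (fun he => hw1 (mem_bot.mp (he ▸ (⟨hw, mem_centralizer_singleton_iff.mpr hwx⟩ :
        w ∈ V ⊓ centralizer {x}))))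
      ((sid_top_iff.mpr hS).centralizer (isEA_iff.mp hV).1 hu.1 trivial ho hi)
    exact h2 y ⟨hy.1, cen M _ y (H10.SubnormalIn.of_normal le_top (top_le_normalizer _)) h3
        (le_top.trans (top_le_normalizer _)) h5⟩ h4 (mem_centralizer_singleton_iff.mp hy.2)
  have hB : ∀ (M : Subgroup G) [M.Normal], M ≠ ⊥ → V ⊔ M = ⊤ := fun M _ h0 => by
    by_contra h
    obtain ⟨w, hw, h1, h2⟩ := sub _ V h le_sup_left le_rfl hV1 ((sid_top_iff.mpr hS).mono le_top)
    exact h1 (mem_bot.mp (hA M h0 ▸ (⟨hw, cen M _ w (H10.SubnormalIn.of_normal le_top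
      (top_le_normalizer _)) le_sup_right (le_top.trans (top_le_normalizer _)) h2⟩ : w ∈ V ⊓ 𝐂[M])))
  obtain ⟨v, hv, hv1⟩ := exists_mem_ne_one hV1
  have hF : H10.FitOf (⊤ : Subgroup G) = ⊥ := by
    by_contra h
    have hn : (H10.FitOf (⊤ : Subgroup G)).Normal := by rw [H10.FitOf_top]; infer_instance
    set M := H10.FitOf (⊤ : Subgroup G) ⊓ 𝐂[H10.FitOf (⊤ : Subgroup G)] with hM
    have h0 : M ≠ ⊥ := by
      have : Group.IsNilpotent (H10.FitOf (⊤ : Subgroup G)) := H10.FitOf_nilpotent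
      have : Nontrivial (H10.FitOf (⊤ : Subgroup G)) := (nontrivial_iff_ne_bot _).mpr h
      rw [hM, ← map_subtype_center, Ne, map_subtype_eq_bot_iff]
      exact Group.IsNilpotent.center_ne_bot _
    have hc : M ≤ 𝐂[M] := inf_le_right.trans (centralizer_anti inf_le_left)
    have h1 : ∀ w ∈ V, w ≠ 1 → M ⊓ centralizer {w} = ⊥ := fun w hw hw1 => by
      by_contra h1
      have : (M ⊓ centralizer {w}).Normal := top_le_normalizer_iff.mp ((hB M h0).ge.trans (sup_le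
        (le_normalizer_inf (le_top.trans (top_le_normalizer M)) (centralizer_zpowers w ▸
          le_normalizer_centralizer (le_normalizer_of_le_centralizer (centralizer_zpowers w ▸
            fun y hy => mem_centralizer_singleton_iff.mpr (comm_of_isEA hV hy hw)))))
        (le_normalizer_of_le_centralizer (hc.trans (centralizer_anti inf_le_left)))))
      exact hw1 (mem_bot.mp (hA _ h1 ▸ (⟨hw, fun y hy => mem_centralizer_singleton_iff.mp hy.2⟩ :
        w ∈ V ⊓ 𝐂[M ⊓ centralizer {w}])))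
    obtain ⟨x, hx, hx1⟩ := exists_mem_ne_one h0
    have h2 : v * x * v⁻¹ ∈ M := conj_mem_of_mem_normalizer (top_le_normalizer M trivial) hx
    have h3 : x * (v * x * v⁻¹) = 1 := mem_bot.mp (h1 v hv hv1 ▸ (⟨M.mul_mem hx h2,
      mem_centralizer_singleton_iff.mpr (by
        rw [← hc hx _ h2]
        calc v * x * v⁻¹ * x * v = v * (x * ((v * v)⁻¹ * (v * x * v⁻¹) * (v * v))) := by group
          _ = _ := by rw [sq_eq_one_of_isEA hV hv, hc hx _ h2]; group)⟩ :
        x * (v * x * v⁻¹) ∈ M ⊓ centralizer {v}))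
    obtain ⟨w, hw, h4, h5⟩ := hS x v hv (odd_iff_coprime_two.mpr ((coprime_FitOf hO).coprime_dvd_left
      (orderOf_dvd_natCard _ hx.1))) (eq_inv_of_mul_eq_one_right h3)
    exact hx1 (mem_bot.mp (h1 w hw h4 ▸ (⟨hx, mem_centralizer_singleton_iff.mpr h5.symm⟩ :
      x ∈ M ⊓ centralizer {w})))
  obtain ⟨K, hK⟩ := exists_comp hF fun he => hV1 (eq_bot_iff.mpr (he ▸ le_top))
  have hE : (H10.LayOf (⊤ : Subgroup G)).Normal :=
    top_le_normalizer_iff.mp (H10.le_normalizer_LayOf le_normalizer)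
  have hE1 := hB (H10.LayOf ⊤) fun he => hK.ne_bot (le_bot_iff.mp (he ▸ hK.le_LayOf))
  have hKZ : K ⊓ 𝐂[K] = ⊥ := eq_bot_iff.mpr (hF ▸ hK.subnormalIn.center_le_FitOf)
  have hC : V ⊓ 𝐂[K] = ⊥ := by
    refine eq_bot_iff.mpr ((hA (ncl K ⊤) (by rw [Ne, ncl_eq_bot_iff]; exact hK.ne_bot)) ▸
      le_inf inf_le_left ?_)
    have h1 : ncl K ⊤ ≤ ncl K V := ncl_le_iff.mpr fun g _ => by
      obtain ⟨a, ha, b, hb, rfl⟩ := (mem_sup_of_le_normalizer_right
        (le_top.trans (top_le_normalizer _))).mp (hE1.ge (mem_top g))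
      rw [← cj_cj, cj_eq_of_mem_normalizer (hK.LayOf_le_normalizer hb)]
      exact cj_le_ncl ha
    refine le_trans ?_ (centralizer_anti h1)
    exact le_centralizer_ncl inf_le_right (le_normalizer_of_le_centralizer
      ((isEA_iff.mp hV).1.trans (centralizer_anti inf_le_left)))
  have mv : ∀ w, w ∉ 𝐍[K] → K ≤ 𝐂[cj K w] := fun w hw => le_centralizer_iff_commutator.mpr
    (hK.commutator_eq_bot (hK.conj (le_normalizer (mem_top w))) fun he => hw (cj_eq_self_iff.mp he.symm))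
  have h1 : V ⊓ 𝐍[K] ⊔ K = ⊤ := by
    by_contra h
    by_cases hU : V ⊓ 𝐍[K] = ⊥
    · obtain ⟨x, hx, hx1, ho⟩ : ∃ x ∈ K, x ≠ 1 ∧ Odd (orderOf x) := by
        by_contra hc
        push Not at hc
        refine hK.ne_bot (eq_bot_iff.mpr (pResidualOf_eq_self_of_perfect (p := 2) hK.perfect ▸
          pResidualOf_le_iff_forall.mpr fun x hx h => ?_))
        by_contra h1
        exact hc x hx h1 (odd_iff_coprime_two.mpr h)
      have nn : ∀ w ∈ V, w ≠ 1 → w ∉ 𝐍[K] := fun w hw h1 h2 =>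
        h1 (mem_bot.mp (hU ▸ (⟨hw, h2⟩ : w ∈ V ⊓ 𝐍[K])))
      have h2 := mv v (nn v hv hv1) hx _ (conj_mem_cj (K.inv_mem hx) v)
      have ho' : Odd (orderOf (x * (v * x⁻¹ * v⁻¹))) :=
        odd_orderOf_mul ho (by rwa [orderOf_conj', orderOf_inv]) h2.symm
      have hi : v * (x * v * x⁻¹ * v⁻¹) * v⁻¹ = (x * v * x⁻¹ * v⁻¹)⁻¹ :=
        inverts_commutator (sq_eq_one_of_isEA hV hv) x
      simp only [← mul_assoc] at ho'
      obtain ⟨w, hw, h3, h4⟩ := hS _ v hv ho' hi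
      refine hx1 (mem_bot.mp (hKZ ▸ (⟨hx, ?_⟩ : x ∈ K ⊓ 𝐂[K])))
      have c := fun u (hu : u ∈ V) (h : u ≠ 1) y (hy : y ∈ K) =>
        le_centralizer_iff.mp (mv u (nn u hu h)) (conj_mem_cj hy u)
      by_cases hwv : w = v
      · have := eq_one_of_inverts_of_commute ho' hi (hwv ▸ h4)
        have h5 : x = v * x * v⁻¹ := by
          calc x = (x * v * x⁻¹ * v⁻¹) * (v * x * v⁻¹) := by group
            _ = _ := by rw [this, one_mul]
        exact h5 ▸ c v hv hv1 x hx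
      · have h5 : x = w * x * w⁻¹ * (w * v * x⁻¹ * (w * v)⁻¹) * (v * x * v⁻¹) := by
          calc x = (x * v * x⁻¹ * v⁻¹) * w * w⁻¹ * (v * x * v⁻¹) := by group
            _ = w * (x * v * x⁻¹ * v⁻¹) * w⁻¹ * (v * x * v⁻¹) := by rw [h4]
            _ = _ := by group
        rw [h5]
        refine mul_mem (mul_mem (c w hw h3 x hx) (c _ (V.mul_mem hw hv) (fun he => hwv ?_) _
          (K.inv_mem hx))) (c v hv hv1 x hx)
        rw [eq_inv_of_mul_eq_one_left he, inv_eq_of_mul_eq_one_right (sq_eq_one_of_isEA hV hv)]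
    · obtain ⟨w, hw, h2, h3⟩ := sub _ _ h le_sup_left inf_le_left hU fun x hx u hu ho hi => by
        by_cases hx1 : x = 1
        · obtain ⟨w, hw, h2⟩ := exists_mem_ne_one hU
          exact ⟨w, hw, h2, by rw [hx1, mul_one, one_mul]⟩
        have hxK : x ∈ K := ((pGrpMod_of_isPGroup hVp.to_inf_left ⊥).sup_left inf_le_right).mem_of_coprime
          hx (odd_iff_coprime_two.mp ho) |> (bot_sup_eq K).le
        obtain ⟨w, hw, h2, h3⟩ := hS x u hu.1 ho hi
        refine ⟨w, ⟨hw, ?_⟩, h2, h3⟩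
        by_contra hn
        refine hx1 (mem_bot.mp (hKZ ▸ (⟨hxK, ?_⟩ : x ∈ K ⊓ 𝐂[K])))
        have := le_centralizer_iff.mp (mv w hn) (conj_mem_cj hxK w)
        rwa [h3, mul_inv_cancel_right] at this
      exact h2 (mem_bot.mp (hC ▸ (⟨hw.1, cen K _ w hK.subnormalIn le_sup_right
        (sup_le inf_le_right le_normalizer) h3⟩ : w ∈ V ⊓ 𝐂[K])))
  have h2 : H10.LayOf (⊤ : Subgroup G) = K := le_antisymm (le_of_le_sup_of_pResidual
    (pResidualOf_eq_self_of_perfect H10.LayOf_perfect) hVp.to_inf_left inf_le_right (le_top.trans h1.ge))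
    hK.le_LayOf
  rw [← H10.FstarOf_top, H10.FstarOf_eq, hF, sup_bot_eq, hE1, h2]
  exact ⟨(isSimpleGroup_of_qs hK.qs hKZ).1, (isSimpleGroup_of_qs hK.qs hKZ).2, rfl⟩

end Cfsg.Agent.S3048
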