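import Cfsg.Statements.S3049
import Cfsg.Agent.H24.Misc2

set_option autoImplicit false
open Cfsg

namespace Cfsg.Agent.S3049

/-- Let G be a finite group and p an odd prime with O_{p'}(G) = 1. Suppose that G has p-rank at most 2 (no elementary abelian subgroup of order p³) and that some element x of order p is isolated in G (no G-conjugate of x other than x commutes with x) and not central. Then the generalized Fitting subgroup F*(G) is a non-abelian simple group. Since O_{p'}(G) = 1, such an x is not central modulo O_{p'}(G): the hypotheses describe a counterexample to the Z*_p statement in p-rank at most 2. -/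
theorem result {G : Type*} [Group G] [Finite G] {p : ℕ} [Fact p.Prime] (hp : p ≠ 2) (hcore : Cfsg.pPrimeCore p G = ⊥)
    (hrank : Cfsg.PRankLE p 2 G) (x : G) (hx : orderOf x = p) (hiso : Cfsg.IsIsolated x) (hnc : x ∉ Subgroup.center G) :
    IsSimpleGroup ↥(Cfsg.generalizedFittingSubgroup G) ∧ ¬ IsMulCommutative ↥(Cfsg.generalizedFittingSubgroup G) := by
  open Subgroup Cfsg.Agent.H24 in
  open scoped commutatorElement in
  open Cfsg.Agent.H10 (SubnormalIn OqOf) in
  open Cfsg.Agent.H9 (maxEA) in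
  have hx1 : x ^ p = 1 := by rw [← hx, pow_orderOf_eq_one]
  obtain ⟨T, hT, h1⟩ := exists_sylIn_le (isPGroup_zpowers (k := 1) (by rwa [pow_one])) (le_top (a := zpowers x))
  have hxT := h1 (mem_zpowers x)
  have hc := IsIsolated.le_cent hiso hT.pgrp hxT
  have hF : H10.FitOf (⊤ : Subgroup G) = pCoreOf p ⊤ := by
    rw [H10.FitOf_top, H10.fitting_eq_pCore hcore, pCoreOf_top]
  obtain ⟨K, hK, hKx⟩ : ∃ K, H10.CompOf K (⊤ : Subgroup G) ∧ ¬ K ≤ centralizer {x} := by
    by_contra hn
    push Not at hn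
    have h2 : H10.FstarOf (⊤ : Subgroup G) ≤ centralizer {x} := by
      rw [H10.FstarOf_eq, hF]
      exact sup_le (H10.LayOf_le_iff.mpr hn) (hT.pCoreOf_le.trans hc)
    have h3 : x ∈ pCoreOf p ⊤ := hF ▸ H10.inf_centralizer_FstarOf_le_FitOf ⊤
      ⟨trivial, fun y hy => mem_centralizer_singleton_iff.mp (h2 hy)⟩
    refine hnc (mem_center_iff.mpr fun g => mem_centralizer_singleton_iff.mp (mem_cent_iff_conj.mpr ?_))
    exact IsIsolated.eq_of_mem hiso (isPGroup_pCoreOf p ⊤) h3
      (conj_mem_of_mem_normalizer (le_normalizer_pCoreOf p ⊤ trivial) h3)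
  have hd := fun L (hL : H10.CompOf L (⊤ : Subgroup G)) =>
    dvd_card_of_subnormal hcore hL.subnormalIn hL.ne_bot
  have key : T ⊓ 𝐂[K] = ⊥ := by
    by_contra h0
    obtain ⟨y, hy, ho⟩ := exists_orderOf_eq_prime (dvd_card_of_ne_bot hT.pgrp.to_inf_left h0)
    have hy1 : y ^ p = 1 := by rw [← ho, pow_orderOf_eq_one]
    obtain ⟨w, hw, n, hn, h3, h4, h5⟩ := exists_fusion_of_not_pnil hp
      (SubnormalIn.sylIn_inf hK.subnormalIn hT) fun h => not_dvd_of_perfect_of_pnil hK.perfect h (hd K hK)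
    have ea := fun (a : G) (h : a ^ p = 1) => isEA_zpowers h
    have cz := fun (a b : G) (h : a * b = b * a) => zpowers_le_centralizer_zpowers h
    have two := fun (a b : G) (ha : orderOf a = p) (hb : orderOf b = p) hab h =>
      (card_sup_zpowers_zpowers ha hb hab h).ge
    have h6 : IsElementaryAbelian p (zpowers w ⊔ (zpowers x ⊔ zpowers y) : Subgroup G) :=
      isEA_sup (ea w h3) (isEA_sup (ea x hx1) (ea y hy1)
        (cz x y (mem_centralizer_singleton_iff.mp (hc hy.1)).symm)) (le_centralizer_sup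
          (cz w x (mem_centralizer_singleton_iff.mp (hc hw.1))) (cz w y (hy.2 w hw.2)))
    have h7 := hrank _ h6.1 h6.2
    have hw1 : w ≠ 1 := fun he => h5 (by rw [he]; group)
    have hnc' : ∀ a ∈ zpowers y, a ∈ 𝐂[K] := fun a ha => zpowers_le_of_mem hy.2 ha
    have h8 := eq_of_le_of_card_le (le_sup_right : zpowers x ⊔ zpowers y ≤ _) (h7.trans (two x y hx ho
      (mem_centralizer_singleton_iff.mp (hc hy.1)).symm fun h => hKx fun k hk =>
        mem_centralizer_singleton_iff.mpr (hnc' x h k hk)))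
    have h9 := eq_of_le_of_card_le (sup_le_sup_left le_sup_right _ : zpowers w ⊔ zpowers y ≤ _)
      (h7.trans (two w y (orderOf_eq_prime h3 hw1) ho (hy.2 w hw.2) fun h => h5 (by
        rw [hnc' w h n hn]; group)))
    have hny : n ∈ 𝐂[zpowers y] := by
      rw [centralizer_zpowers]; exact mem_centralizer_singleton_iff.mpr (hy.2 n hn)
    have h10 : n * x * n⁻¹ ∈ T := by
      have : cj (zpowers w ⊔ zpowers y) n ≤ T := by
        rw [cj_sup, cj_zpowers, cj_eq_of_mem_normalizer (centralizer_le_normalizer' _ hny)]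
        exact sup_le (zpowers_le_of_mem h4.1) (zpowers_le_of_mem hy.1)
      exact this (conj_mem_cj (h9 ▸ mem_sup_right (mem_sup_left (mem_zpowers x))) n)
    have h11 := mem_cent_iff_conj.mpr (IsIsolated.eq_of_mem hiso hT.pgrp hxT h10)
    rw [← centralizer_zpowers] at h11
    have h12 : n ∈ 𝐂[zpowers x ⊔ zpowers y] := by rw [H24.centralizer_sup]; exact ⟨h11, hny⟩
    exact h5 (mem_centralizer_iff_conj.mp h12 w (h8 ▸ mem_sup_left (mem_zpowers w)))
  have hF0 : H10.FitOf (⊤ : Subgroup G) = ⊥ := eq_bot_iff.mpr (key ▸ le_inf (hF ▸ hT.pCoreOf_le)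
    (le_centralizer_iff_commutator'.mpr hK.commutator_FitOf))
  have hE : H10.LayOf (⊤ : Subgroup G) = K := by
    refine le_antisymm (H10.LayOf_le_iff.mpr fun L hL => ?_) hK.le_LayOf
    by_contra hLK
    refine (SubnormalIn.sylIn_inf hL.subnormalIn hT).ne_bot (hd L hL) (eq_bot_iff.mpr (key ▸
      inf_le_inf_left _ (le_centralizer_iff_commutator'.mpr (hK.commutator_eq_bot hL fun he => hLK he.ge))))
  rw [← H10.FstarOf_top, H10.FstarOf_eq, hF0, hE, sup_bot_eq]
  exact isSimpleGroup_of_qs hK.qs (eq_bot_iff.mpr (hF0 ▸ hK.subnormalIn.center_le_FitOf))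

end Cfsg.Agent.S3049
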