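import Cfsg.Statements.S4226
import Cfsg.Agent.H3.Wielandt

set_option autoImplicit false
open Cfsg

namespace Cfsg.Agent.S4226


/-- Let `P` be a Sylow `p`-subgroup of the finite group `G` with nilpotency class less than `p` (the term of index `p - 1` of the lower central series of `P`, indexed from `0`, is trivial), and let `N` be its normalizer. Then `O^p(N) = O^p(G) ∩ N`, where `O^p` denotes the subgroup generated by the elements of order prime to `p`; so the largest `p`-factor groups of `G` and of `N` are isomorphic. -/
theorem result {G : Type*} [Group G] [Finite G] {p : ℕ} [Fact p.Prime] (P : Sylow p G) (hcl : (P : Subgroup G).lowerCentralSeries (p - 1) = ⊥) : Cfsg.pResidualOf p (Subgroup.normalizer ((P : Subgroup G) : Set G)) = Cfsg.pResidual p G ⊓ Subgroup.normalizer ((P : Subgroup G) : Set G) := by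
  refine H3.pResidual_inf_eq_of_not_wObstruction P (H3.isWeaklyClosed_self _) ?_
  rintro ⟨v, z, R, K, hv, hz, -, hR, hP, -, -, -, -, -, h⟩
  have hvP : v ∈ (P : Subgroup G) := hP (hR.le hv)
  have key : ∀ j : ℕ, (fun y : G => y⁻¹ * z⁻¹ * y * z)^[j] v ∈ (P : Subgroup G).lowerCentralSeries j := by
    intro j
    induction j with
    | zero => exact hvP
    | succ j ih =>
      rw [Function.iterate_succ_apply', Subgroup.lowerCentralSeries_succ]
      have := Subgroup.commutator_mem_commutator (Subgroup.inv_mem _ ih) ((P : Subgroup G).inv_mem hz)
      simpa [commutatorElement_def] using this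
  have := key (p - 1)
  rw [hcl, Subgroup.mem_bot] at this
  exact h (this ▸ K.one_mem)

end Cfsg.Agent.S4226
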