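import Cfsg.Statements.S3053
import Cfsg.Agent.H26.ES4
import Cfsg.Agent.S4226
import Cfsg.Agent.H3.Fusion

set_option autoImplicit false
open Cfsg

namespace Cfsg.Agent.S3053

open scoped commutatorElement

theorem aut_fix {E : Type*} [Group E] [Finite E] {p : ℕ} [hp : Fact p.Prime] (hp2 : p ≠ 2) (hE : Cfsg.IsExtraspecial p E)
    (hcard : Nat.card E = p ^ 3) {a : E} (ha : a ^ p ≠ 1) (α : MulAut E) {y : E} (hy : y ^ p = 1) :
    α y * y⁻¹ ∈ Subgroup.center E := by
  obtain ⟨n, c, hc⟩ := H26.exists_ES_of_isExtraspecial hE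
  have hfin : Module.finrank (ZMod p) (Fin n → ZMod p) = 2 := by
    have := c.card_eq_pow
    rw [hcard] at this
    have := Nat.pow_right_injective hp.out.two_le this
    omega
  rw [c.nd_iff.1 hc, c.mem_Z, c.π_mul, c.π_inv, ← sub_eq_add_neg, sub_eq_zero]
  by_cases h0 : c.π y = 0
  · rw [h0]; exact c.mem_Z.1 (hc.map_mem_Z α _ (c.mem_Z.2 h0))
  obtain ⟨l, hl⟩ := c.mem_Z'.1 (hc.map_mem_Z α _ (c.ζ_mem_Z 1))
  have hζ : ∀ b, α (c.ζ b) = c.ζ (b * l) := by
    intro b
    have : c.ζ b = c.ζ 1 ^ b.val := by rw [c.ζ_pow]; simp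
    rw [this, map_pow, ← hl, c.ζ_pow]; simp
  have hl0 : l ≠ 0 := by
    rintro rfl
    rw [c.ζ_zero, eq_comm, map_eq_one_iff _ α.injective, c.ζ_eq_one] at hl
    exact one_ne_zero hl
  have hpw : ∀ x, c.pwL hp2 (c.π (α x)) = c.pwL hp2 (c.π x) * l := by
    intro x
    apply c.ζ_inj
    show c.ζ (c.pw _) = c.ζ (c.pw _ * l)
    rw [← c.pow_eq, ← hζ, ← c.pow_eq, map_pow]
  have hB : ∀ x w, c.B (c.π (α x)) (c.π (α w)) = c.B (c.π x) (c.π w) * l := by
    intro x w
    apply c.ζ_inj
    rw [← c.commutator_eq, ← hζ, ← c.commutator_eq, map_commutatorElement]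
  have hya : c.pwL hp2 (c.π y) = 0 := c.pow_eq_one_iff.1 hy
  have haa : c.pwL hp2 (c.π a) ≠ 0 := fun h => ha (c.pow_eq_one_iff.2 h)
  have hli : LinearIndependent (ZMod p) ![c.π y, c.π a] := by
    rw [LinearIndependent.pair_iff]
    intro s t h
    have h1 := congrArg (c.pwL hp2) h
    rw [map_add, map_smul, map_smul, hya, smul_zero, zero_add, map_zero, smul_eq_mul, mul_eq_zero] at h1
    have ht := h1.resolve_right haa
    rw [ht, zero_smul, add_zero, smul_eq_zero] at h
    exact ⟨h.resolve_right h0, ht⟩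
  have hsp : ∀ v, ∃ s t : ZMod p, s • c.π y + t • c.π a = v := by
    intro v
    have := hli.span_eq_top_of_card_eq_finrank' (by rw [hfin]; simp)
    rw [← Submodule.mem_span_pair]
    rw [Matrix.range_cons_cons_empty] at this
    rw [this]; trivial
  have hBya : c.B (c.π y) (c.π a) ≠ 0 := by
    intro h
    apply h0
    apply hc
    intro w
    obtain ⟨s, t, rfl⟩ := hsp w
    rw [map_add, map_smul, map_smul, h, c.B_self]; simp
  obtain ⟨μ, t, h1⟩ := hsp (c.π (α y))
  obtain ⟨s, t', h2⟩ := hsp (c.π (α a))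
  have ht : t = 0 := by
    have := hpw y
    rw [← h1, map_add, map_smul, map_smul, hya, smul_zero, zero_add, zero_mul, smul_eq_mul, mul_eq_zero] at this
    exact this.resolve_right haa
  have ht' : t' = l := by
    have := hpw a
    rw [← h2, map_add, map_smul, map_smul, hya, smul_zero, zero_add, smul_eq_mul, mul_comm] at this
    exact mul_left_cancel₀ haa this
  have h3 := hB y a
  rw [← h1, ← h2, ht, ht', zero_smul, add_zero] at h3
  simp only [map_add, map_smul, LinearMap.smul_apply, c.B_self, smul_eq_mul, mul_zero, zero_add] at h3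
  have hμ : μ = 1 := by
    apply mul_left_cancel₀ (mul_ne_zero hl0 hBya)
    linear_combination h3
  rw [← h1, ht, hμ]; simp

/-- Let p be an odd prime and G a finite group with a Sylow p-subgroup P that is extraspecial of order p³ and exponent p². Then the centre of P is strongly closed in P with respect to G: a G-conjugate of an element of Z(P) that lies in P already lies in Z(P). In particular a nontrivial central element of P is conjugate in G to no noncentral element of P. -/
theorem result {G : Type*} [Group G] [Finite G]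
    {p : ℕ} [Fact p.Prime] (hp : p ≠ 2) (P : Sylow p G) (hE : Cfsg.IsExtraspecial p ↥P)
    (hcard : Nat.card P = p ^ 3) (hexp : Monoid.exponent ↥P = p ^ 2) :
    Cfsg.IsStronglyClosed ((Subgroup.center ↥P).map (P : Subgroup G).subtype) (P : Subgroup G) := by
  change Cfsg.IsExtraspecial p ↥(P : Subgroup G) at hE
  change Monoid.exponent ↥(P : Subgroup G) = p ^ 2 at hexp
  change Cfsg.IsStronglyClosed ((Subgroup.center ↥(P : Subgroup G)).map (P : Subgroup G).subtype) (P : Subgroup G)
  refine ⟨Subgroup.map_subtype_le _, ?_⟩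
  rintro _ ⟨x, hx, rfl⟩ g hg
  set y := g * (P : Subgroup G).subtype x * g⁻¹ with hy
  obtain ⟨a, ha⟩ : ∃ a : (P : Subgroup G), a ^ p ≠ 1 := by
    by_contra h
    push Not at h
    have := Monoid.exponent_dvd_of_forall_pow_eq_one h
    rw [hexp] at this
    have h2 := (Nat.pow_dvd_pow_iff_le_right (Fact.out : p.Prime).one_lt (k := 2) (l := 1)).1 (by rwa [pow_one])
    omega
  have hxp : x ^ p = 1 := by
    have := pow_card_eq_one' (x := (⟨x, hx⟩ : Subgroup.center (P : Subgroup G)))
    rw [hE.2] at this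
    exact congrArg Subtype.val this
  set N := Subgroup.normalizer ((P : Subgroup G) : Set G) with hN
  have hPN : (P : Subgroup G) ≤ N := Subgroup.le_normalizer
  have hcl : (P : Subgroup G).lowerCentralSeries (p - 1) = ⊥ := by
    have h2 : (P : Subgroup G).lowerCentralSeries 2 = ⊥ := by
      rw [← Subgroup.top_subtype_lowerCentralSeries, Subgroup.lowerCentralSeries_succ_eq_bot, Subgroup.map_bot]
      rw [Subgroup.top_lowerCentralSeries_one, hE.1.2.2]
    have := (Fact.out : p.Prime).two_le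
    exact le_bot_iff.1 (h2 ▸ Subgroup.lowerCentralSeries_antitone _ (by omega))
  have hc := H3.inf_commutator_eq_of_pResidual P hPN (S4226.result P hcl)
  set w := y * (x : G)⁻¹ with hw
  have hwP : w ∈ (P : Subgroup G) := Subgroup.mul_mem _ hg (Subgroup.inv_mem _ x.2)
  have hw1 : w ∈ ⁅N, N⁆ := by
    have : w ∈ (P : Subgroup G) ⊓ commutator G :=
      ⟨hwP, Subgroup.commutator_mem_commutator (Subgroup.mem_top g) (Subgroup.mem_top (x : G))⟩
    rw [hc] at this; exact this.2
  have hwp : (⟨w, hwP⟩ : (P : Subgroup G)) ^ p = 1 := by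
    apply Subtype.ext
    have h1 : Commute y (x : G)⁻¹ := (Commute.inv_right
      (congrArg Subtype.val (Subgroup.mem_center_iff.1 hx ⟨y, hg⟩)))
    have h2 : (x : G) ^ p = 1 := congrArg Subtype.val hxp
    show w ^ p = 1
    rw [hw, h1.mul_pow, inv_pow, h2, hy, conj_pow]
    simp [h2]
  set Z := (Subgroup.center (P : Subgroup G)).map (P : Subgroup G).subtype with hZ
  suffices h : w ∈ Z by
    have := Z.mul_mem h (⟨x, hx, rfl⟩ : (x : G) ∈ Z)
    rwa [hw, inv_mul_cancel_right] at this
  have hZn : N ≤ Subgroup.normalizer (Z : Set G) := by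
    intro n hn
    apply Subgroup.mem_normalizer_fintype
    rintro _ ⟨z, hz, rfl⟩
    refine ⟨(P : Subgroup G).normalizerMonoidHom ⟨n, hn⟩ z, ?_, rfl⟩
    rw [SetLike.mem_coe, Subgroup.mem_center_iff]
    intro b
    obtain ⟨b, rfl⟩ := ((P : Subgroup G).normalizerMonoidHom ⟨n, hn⟩).surjective b
    rw [← map_mul, ← map_mul, Subgroup.mem_center_iff.1 hz b]
  haveI : (Z.subgroupOf N).Normal := (Subgroup.normal_subgroupOf_iff_le_normalizer ((Subgroup.map_subtype_le _).trans hPN)).2 hZn
  let f := QuotientGroup.mk' (Z.subgroupOf N)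
  have hf : Function.Surjective f := QuotientGroup.mk'_surjective _
  let Q := (P.subtype hPN).mapSurjective hf
  have hQ : IsMulCommutative (Q : Subgroup (N ⧸ Z.subgroupOf N)) := by
    rw [H3.isMulCommutative_iff_mem]
    rintro _ ⟨s, hs, rfl⟩ _ ⟨t, ht, rfl⟩
    rw [← map_mul, ← map_mul, QuotientGroup.mk'_apply, QuotientGroup.mk'_apply, QuotientGroup.eq, Subgroup.mem_subgroupOf,
      hZ, ← hE.1.2.2]
    refine ⟨⁅(⟨t, ht⟩ : (P : Subgroup G))⁻¹, (⟨s, hs⟩ : (P : Subgroup G))⁻¹⁆, Subgroup.commutator_mem_commutator trivial trivial, ?_⟩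
    simp [commutatorElement_def, mul_assoc]
  have h2 := H3.inf_commutator_inf_center_eq_bot _ hQ Q.card_coprime_index
  have h3 : f ⟨w, hPN hwP⟩ ∈ (Q : Subgroup (N ⧸ Z.subgroupOf N)) ⊓ commutator _ ⊓ Subgroup.center _ := by
    refine ⟨⟨⟨_, hwP, rfl⟩, ?_⟩, Subgroup.mem_center_iff.2 fun n => ?_⟩
    · rw [← Subgroup.map_subtype_commutator] at hw1
      obtain ⟨w', hw', hw''⟩ := hw1
      have : (⟨w, hPN hwP⟩ : N) = w' := Subtype.ext hw''.symm
      rw [this]
      have := Subgroup.mem_map_of_mem f hw'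
      rw [commutator_def, Subgroup.map_commutator] at this
      exact Subgroup.commutator_mono le_top le_top this
    · obtain ⟨n, rfl⟩ := hf n
      rw [← mul_inv_eq_iff_eq_mul, ← mul_inv_eq_one, ← map_inv, ← map_mul, ← map_inv, ← map_mul, ← map_mul,
        QuotientGroup.mk'_apply, QuotientGroup.eq_one_iff, Subgroup.mem_subgroupOf]
      exact ⟨_, aut_fix hp hE hcard ha ((P : Subgroup G).normalizerMonoidHom n) hwp, rfl⟩
  rw [h2, Subgroup.mem_bot, QuotientGroup.mk'_apply, QuotientGroup.eq_one_iff] at h3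
  exact h3

end Cfsg.Agent.S3053
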