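import Cfsg.Statements.S3054
import Cfsg.Agent.L0.XP

set_option autoImplicit false
open Cfsg

namespace Cfsg.Agent.S3054

open Subgroup Cfsg.Agent.H24 Cfsg.Agent.L0


/-- Let p be an odd prime and G a finite group with a Sylow p-subgroup P that is extraspecial of order p³ and exponent p. Suppose P contains three distinct subgroups A of order p² (each is elementary abelian of rank 2) such that every automorphism of A of order p is induced by conjugation by an element of G; equivalently the automorphism group induced on A by its normalizer contains the special linear group of A. Then p ≤ 13. -/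
theorem result {G : Type*} [Group G] [Finite G]
    {p : ℕ} [Fact p.Prime] (hp : p ≠ 2) (P : Sylow p G) (hE : Cfsg.IsExtraspecial p ↥P)
    (hcard : Nat.card P = p ^ 3) (hexp : Monoid.exponent ↥P = p)
    (A : Fin 3 → Subgroup G) (hA : Function.Injective A) (hAP : ∀ i, A i ≤ (P : Subgroup G))
    (hAcard : ∀ i, Nat.card ↥(A i) = p ^ 2)
    (hSL : ∀ i, ∀ φ : MulAut ↥(A i), orderOf φ = p → ∃ g : G, ∀ a : ↥(A i), (φ a : G) = g * (a : G) * g⁻¹) :
    p ≤ 13 := by
  have h := xp_of P hE hcard hexp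
  obtain ⟨H, θ, a1, a2, -, a3, a4⟩ := h.exists_pgl
  have hp' : p.Prime := Fact.out
  have k : ∀ i, ∃ w ∈ A i, w ∉ _ := fun i => exists_not_mem_of_card (by
    rw [h.cZ, hAcard]; nlinarith [hp'.two_le])
  choose w w1 w2 using k
  have e : ∀ i, A i = _ ⊔ zpowers (w i) := fun i => eq_sup_zpowers_of_card (IsPGroup.of_card (hAcard i))
    (h.Z_le (hAP i) (hAcard i)) (by rw [hAcard, h.cZ, sq]) (w1 i) (w2 i)
  have w3 : ∀ i, θ (w i) ≠ 0 := fun i k => w2 i ((a2 _ (hAP i (w1 i))).1 k)
  choose t t1 t2 t3 using fun i => a4 _ (hAP i (w1 i)) (w3 i) (e i ▸ h.mv_of_aut (hAP i) (hAcard i) (hSL i))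
  have hne : ∀ i j, i ≠ j → Projectivization.mk (ZMod p) (θ (w i)) (w3 i) ≠
      Projectivization.mk (ZMod p) (θ (w j)) (w3 j) := fun i j hij k => by
    obtain ⟨c, hc⟩ := (Projectivization.mk_eq_mk_iff' _ _ _ _ _).1 k
    refine hij (hA (eq_of_le_of_card_le ?_ (by rw [hAcard, hAcard])))
    rw [e i, e j]
    exact sup_le le_sup_left (zpowers_le.2 (a3 _ (hAP j (w1 j)) _ (hAP i (w1 i)) c hc.symm))
  by_contra! hlt
  have h16 : 16 ≤ p - 1 := by
    by_contra h'
    have : p ≤ 16 := by omega
    interval_cases p <;> exact absurd hp' (by decide)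
  have k2 : ∀ i k, 0 < k → k ≤ 5 → t i ^ k ≠ 1 := fun i k h1 h2 h3 => by
    have := Nat.le_of_dvd (by omega) (t3 i k h3)
    omega
  rcases (pgl_three p a1 (hne 0 1 (by decide)) (hne 0 2 (by decide)) (hne 1 2 (by decide)) (t1 0) (t1 1) (t1 2)
    (t2 0) (t2 1) (t2 2) (k2 _ _ (by omega) (by omega)) (k2 _ _ (by omega) (by omega))
    (k2 _ _ (by omega) (by omega))).1 _ (t1 0) with k | k | k <;> exact k2 _ _ (by omega) (by omega) k

end Cfsg.Agent.S3054
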