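import Cfsg.Statements.S3057
import Cfsg.Agent.H24.SPE

set_option autoImplicit false
open Cfsg

namespace Cfsg.Agent.S3057

/-- Let p be a prime and G a finite p-solvable group of order divisible by p, with Sylow p-subgroup P. Then the Sylow p-subgroups of G fail to be chain-connected through nontrivial intersections (equivalently, G has a strongly p-embedded subgroup) if and only if O_p(G) = 1 and P is cyclic or, for p = 2, generalized quaternion. -/
theorem result {G : Type*} [Group G] [Finite G]
    (p : ℕ) [Fact p.Prime] (hdiv : p ∣ Nat.card G) (hsol : Cfsg.IsPSolvable p G) (P : Sylow p G) :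
    ¬ Cfsg.IsSylowChainConnected p G ↔
      Cfsg.pCore p G = ⊥ ∧ (IsCyclic ↥P ∨ (p = 2 ∧ ∃ n : ℕ, Nonempty (↥P ≃* QuaternionGroup (2 ^ n)))) := by
  open Subgroup Cfsg.Agent.H24 in
  open scoped commutatorElement in
  open Cfsg.Agent.H10 (SubnormalIn OqOf) in
  open Cfsg.Agent.H9 (maxEA) in
  rw [not_isSylowChainConnected_iff]
  have hP0 : (P : Subgroup G) ≠ ⊥ := (sylIn_top P).ne_bot (by simpa using hdiv)
  constructor
  · rintro ⟨M, h⟩
    refine ⟨by rw [← pCoreOf_top, h.pCoreOf_eq_bot], ?_⟩
    have hU : UniqP p (P : Subgroup G) := uniqP_of_forall_isCyclic P.2 fun A hA hc => by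
      by_contra hA'
      obtain ⟨T, h1, h2, -⟩ := h.exists_sylIn
      obtain ⟨g, -, hg⟩ := h1.exists_cj_eq (sylIn_top P)
      have h3 := h.cj g
      rw [cj_top] at h3
      have h4 : (P : Subgroup G) ≤ cj M g := hg ▸ cj_mono h2 g
      have h5 : pPrimeCore p G ≤ cj M g := h3.le_of_not_isCyclic le_top (hA.trans h4) (P.2.to_le hA) hc hA' le_top (le_top.trans (top_le_normalizer _)) (H10.pPrimeCore_coprime p G)
      have hn : ⊤ ≤ normalizer (pCoreMod p ⊤ (pPrimeCore p G) : Set G) := le_normalizer_pCoreMod le_normalizer (top_le_normalizer _)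
      refine h3.not_le_of_normal le_top hn ?_ (((pGrpMod_pCoreMod (top_le_normalizer _)).le_sup_of_sylIn (le_top.trans (top_le_normalizer _)) ((sylIn_top P).inf_normal le_top hn)).trans (sup_le h5 (inf_le_left.trans h4)))
      by_contra hc
      have := top_le_normalizer_iff.mp hn
      have h6 := pCore_quotient_eq_bot_iff'.mpr (H10.le_pPrimeCore ((Nat.Prime.coprime_iff_not_dvd Fact.out).mpr hc).symm)
      have h7 : Nontrivial (G ⧸ pPrimeCore p G) := by
        rw [QuotientGroup.nontrivial_iff]
        intro he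
        have := H10.pPrimeCore_coprime p G
        rw [he, card_top] at this
        exact (Nat.Prime.coprime_iff_not_dvd Fact.out).mp this.symm hdiv
      rcases H9.core_ne_bot_of_isPSolvable (H9.isPSolvable_quotient hsol (pPrimeCore p G)) with h8 | h8
      · exact h8 h6
      · exact h8 (H10.pPrimeCore_quotient_pPrimeCore p G)
    rcases hU.isCyclic_or P.2 with h | ⟨h, n, -, h'⟩
    · exact Or.inl h
    · exact Or.inr ⟨h, n, h'⟩
  · rintro ⟨h1, h2⟩
    have h : UniqP p (P : Subgroup G) := by
      rcases h2 with h | ⟨-, n, ⟨e⟩⟩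
      · exact uniqP_of_isCyclic h
      · exact uniqP_of_quaternion P.2 e
    exact ⟨_, h.se_of_pCoreOf (sylIn_top P) hP0 (by rwa [pCoreOf_top])⟩

end Cfsg.Agent.S3057
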