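import Cfsg.Statements.S3060
import Cfsg.Agent.H24.DStar

set_option autoImplicit false
open Cfsg

namespace Cfsg.Agent.S3060

/-- The D*-Theorem. For a finite p-group S let D*(S) be the subgroup generated by the abelian subgroups A of S such that every x ∈ S with ⟨A, x⟩ of nilpotency class at most two centralizes A. Let p be an odd prime and H a finite p-stable group with Sylow p-subgroup S. Here H is p-stable in the following sense: the largest normal p-subgroup O_p(H) contains its centralizer in H, and for every normal p-subgroup P of H, every element acting quadratically on P has image in O_p(H/C_H(P)). Then D*(S) is a normal subgroup of H. -/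
theorem result {G : Type*} [Group G] [Finite G] {p : ℕ} [Fact p.Prime] (hp : p ≠ 2)
    (hc : Subgroup.centralizer (Cfsg.pCore p G : Set G) ≤ Cfsg.pCore p G)
    (hst : ∀ (P : Subgroup G) [P.Normal], IsPGroup p P → Cfsg.IsPStableOn p P) (S : Sylow p G) :
    (Cfsg.dStarOf (S : Subgroup G)).Normal := by
  open Subgroup Cfsg.Agent.H24 in
  open scoped commutatorElement in
  open Cfsg.Agent.H10 (SubnormalIn OqOf) in
  open Cfsg.Agent.H9 (maxEA) in
  have hS := sylIn_top S
  have hP : IsPGroup p (pCore p G) := H1.isPGroup_pCore p G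
  have hPS : pCore p G ≤ S := L0.pCore_le_of_sylowIn (H3.sylowIn_top S)
  have hD := dFam_dStarOf S.isPGroup'
  have hn : (S : Subgroup G) ≤ normalizer (dStarOf (S : Subgroup G) : Set G) :=
    le_normalizer.trans normalizer_le_normalizer_dStarOf
  have h1 : dStarOf (S : Subgroup G) ≤ pCore p G := by
    rw [← H9.opMod_eq_pCore (hP.to_le hc)]
    refine H9.le_opMod_of_isPStableOn (hst _ hP) (le_centralizer_iff_commutator.1 ?_)
    exact (commutator_le_right_of_le_normalizer (hPS.trans hn)).trans
      (isMulCommutative_iff_le_centralizer.1 hD.2.1)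
  have h2 : ncl (dStarOf (S : Subgroup G)) ⊤ ≤ dStarOf (pCore p G) :=
    ncl_le (hD.mono h1 hPS).le_dStarOf ((top_le_normalizer _).trans normalizer_le_normalizer_dStarOf)
  set W := ncl (dStarOf (S : Subgroup G)) ⊤ with hW
  have hWc := isMulCommutative_of_le h2 (isMulCommutative_dStarOf hP)
  have hWP : W ≤ pCore p G := h2.trans dStarOf_le
  have hDW : dStarOf (S : Subgroup G) ≤ W := le_ncl _ _
  have h3 : DFam S W := by
    refine ⟨hWP.trans hPS, hWc, fun x hx _ h4 => ?_⟩
    have h5 : x ∈ H9.opMod p (centralizer (W : Set G)) :=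
      hst W (hP.to_le hWP) x (le_centralizer_iff_commutator.1 h4)
    have h6 := (hS.inf_normal (N := H9.opMod p (centralizer (W : Set G))) le_top
      (top_le_normalizer _)).sup_eq_of_pGrpMod (H9.le_opMod p _) (le_top.trans (top_le_normalizer _))
      fun y hy => H9.pow_mem_of_mem_opMod hy
    rw [← zpowers_le, le_centralizer_iff]
    refine ncl_le_iff.2 fun g _ => ?_
    rw [cj_le_iff, cj_centralizer, cj_zpowers, le_centralizer_iff, zpowers_le]
    have h7 : g⁻¹ * x * g⁻¹⁻¹ ∈ H9.opMod p (centralizer (W : Set G)) :=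
      conj_mem_of_mem_normalizer (top_le_normalizer _ (mem_top _)) h5
    have h8 : ⁅W, zpowers (g⁻¹ * x * g⁻¹⁻¹)⁆ ≤ centralizer (zpowers (g⁻¹ * x * g⁻¹⁻¹) : Set G) := by
      have := cj_mono h4 g⁻¹
      rwa [cj_commutator, cj_centralizer, cj_zpowers, cj_eq_of_normal] at this
    rw [← h6, sup_comm, mem_sup_of_le_normalizer_right (le_top.trans (top_le_normalizer _))] at h7
    obtain ⟨r, hr, c, hc', e⟩ := h7
    have er : r = (g⁻¹ * x * g⁻¹⁻¹) * c⁻¹ := by rw [e]; group
    have h9 : ⁅W, zpowers r⁆ ≤ ⁅W, zpowers (g⁻¹ * x * g⁻¹⁻¹)⁆ := by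
      rw [← commutator_sup_centralizer (A := W) (B := zpowers (g⁻¹ * x * g⁻¹⁻¹))
        (C := centralizer (W : Set G)) le_rfl
        (le_normalizer_of_le_centralizer (centralizer_anti (commutator_le_left_of_le_normalizer
          (le_top.trans (top_le_normalizer _)))))]
      exact commutator_mono le_rfl (zpowers_le.2 (er ▸ mul_mem_sup (mem_zpowers _) (inv_mem hc')))
    have h10 : ⁅W, zpowers (g⁻¹ * x * g⁻¹⁻¹)⁆ ≤ W :=
      commutator_le_left_of_le_normalizer (le_top.trans (top_le_normalizer _))
    rw [e]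
    refine mul_mem (hD.2.2 r hr.1 ?_ ?_) (centralizer_anti hDW hc')
    · exact (commutator_le_left_of_le_normalizer (zpowers_le.2 (hn hr.1))).trans
        (isMulCommutative_iff_le_centralizer.1 hD.2.1)
    · refine ((commutator_mono hDW le_rfl).trans h9).trans (le_centralizer_iff.1 (zpowers_le.2 ?_))
      rw [er]
      exact mul_mem (le_centralizer_iff.1 h8 (mem_zpowers _)) (inv_mem (centralizer_anti h10 hc'))
  rw [le_antisymm hDW h3.le_dStarOf]
  infer_instance

end Cfsg.Agent.S3060
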