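import Cfsg.Statements.S3062
import Cfsg.Agent.H24.DStar

set_option autoImplicit false
open Cfsg

namespace Cfsg.Agent.S3062

/-- Let S be a finite p-group, J(S) the subgroup generated by the abelian subgroups of S of largest order and Z(J(S)) its centre. Then Z(S) ≤ D*(S) ≤ Z(J(S)), and every maximal normal abelian subgroup of S contains D*(S). -/
theorem result {S : Type*} [Group S] [Finite S] {p : ℕ} [Fact p.Prime]
    (hS : IsPGroup p S) :
    Subgroup.center S ≤ Cfsg.dStar S ∧
    Cfsg.dStar S ≤ Cfsg.thompsonSubgroupA S ⊓ Subgroup.centralizer (Cfsg.thompsonSubgroupA S : Set S) ∧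
    ∀ A : Subgroup S, A.Normal → IsMulCommutative A →
      (∀ B : Subgroup S, B.Normal → IsMulCommutative B → A ≤ B → B = A) → Cfsg.dStar S ≤ A := by
  open Subgroup Cfsg.Agent.H24 in
  open scoped commutatorElement in
  open Cfsg.Agent.H10 (SubnormalIn OqOf) in
  open Cfsg.Agent.H9 (maxEA) in
  have hT := hS.to_subgroup ⊤
  rw [← dStarOf_top, H9.thompsonSubgroupA_eq, ← H9.thompsonOf_top]
  refine ⟨DFam.le_dStarOf ⟨le_top, inferInstance, fun x _ _ _ a ha => (mem_center_iff.1 ha x).symm⟩,
    ?_, fun A h1 h2 h3 => ?_⟩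
  · obtain ⟨A, hA⟩ := H9.exists_maxEA 0 (⊤ : Subgroup S)
    refine le_inf (le_trans (H9.le_of_mem_maxEA_of_centralizes hA le_top (fun _ _ => pow_zero _)
      (le_centralizer_iff.1 (dStarOf_le_centralizer_maxEA hT hA))) (H9.le_thompsonOf hA)) ?_
    exact le_centralizer_iff.1 (H9.thompsonOf_le_iff.2 fun B hB => dStarOf_le_centralizer_maxEA hT hB)
  · exact (le_inf le_top (dStarOf_le_centralizer hT h2 le_top (top_le_normalizer _))).trans
      (inf_centralizer_le_of_maximal hT h2 le_top (top_le_normalizer _) fun D _ a b c =>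
        (h3 D (top_le_normalizer_iff.1 a) b c).le)

end Cfsg.Agent.S3062
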