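import Cfsg.Statements.S3063
import Cfsg.Agent.H24.DStar

set_option autoImplicit false
open Cfsg

namespace Cfsg.Agent.S3063

/-- A weak replacement Theorem for metabelian p-groups: let S be a finite p-group whose derived subgroup is abelian and A an abelian subgroup of S of largest possible order. Then the normal closure of A in S contains an abelian subgroup B of the same order as A that is normal in S. -/
theorem result {S : Type*} [Group S] [Finite S] {p : ℕ} [Fact p.Prime]
    (hS : IsPGroup p S) (hmeta : IsMulCommutative ↥(commutator S))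
    (A : Subgroup S) (hA : A ∈ Cfsg.maxAbelianSubgroups S) :
    ∃ B ∈ Cfsg.maxAbelianSubgroups S, B.Normal ∧ B ≤ Subgroup.normalClosure (A : Set S) := by
  open Subgroup Cfsg.Agent.H24 in
  open scoped commutatorElement in
  open Cfsg.Agent.H10 (SubnormalIn OqOf) in
  open Cfsg.Agent.H9 (maxEA) in
  rw [H9.maxAbelianSubgroups_eq, ← H9.maxEA_top] at hA ⊢
  set D := commutator S with hD
  obtain ⟨_, ⟨B, h1, h2, rfl⟩, h3⟩ := (wellFounded_lt (α := Subgroup S)).has_min
    {X | ∃ B ∈ maxEA 0 (⊤ : Subgroup S), B ≤ normalClosure (A : Set S) ∧ X = B ⊔ D}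
    ⟨_, A, hA, subset_normalClosure, rfl⟩
  refine ⟨B, h1, normal_of_forall_cj_le fun g => ?_, h2⟩
  have hB := isMulCommutative_iff_le_centralizer.1 h1.2.1.1
  have hB' : cj B g ≤ centralizer (cj B g : Set S) := by rw [← cj_centralizer]; exact cj_mono hB g
  set I := B ⊓ cj B g with hI
  set X := closure {x | ∃ a ∈ B, x = ⁅a, g⁆} with hX
  have hXD : X ≤ D := (closure_le _).2 (by
    rintro _ ⟨a, _, rfl⟩; exact commutator_mem_commutator (mem_top a) (mem_top g))
  have hIc : B ⊔ cj B g ≤ centralizer (I : Set S) :=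
    sup_le (hB.trans (centralizer_anti inf_le_left)) (hB'.trans (centralizer_anti inf_le_right))
  have hXB : X ≤ B ⊔ cj B g := (closure_le _).2 (by
    rintro _ ⟨a, ha, rfl⟩
    have := mul_mem_sup ha (conj_mem_cj (inv_mem ha) g)
    simpa [commutatorElement_def, mul_assoc] using this)
  have h4 : I ⊔ X ∈ maxEA 0 (⊤ : Subgroup S) := by
    refine H9.mem_maxEA_of_card_le h1 le_top (H9.isEA_zero.2 (isMulCommutative_sup
      (isMulCommutative_of_le inf_le_left h1.2.1.1) (isMulCommutative_of_le hXD hmeta)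
      (le_centralizer_iff.1 (hXB.trans hIc)))) ?_
    rw [← card_mul_relIndex (inf_le_left : I ≤ B), ← card_mul_relIndex (le_sup_left : I ≤ I ⊔ X)]
    refine Nat.mul_le_mul_left _ (H9.relIndex_le_of_forall (fun a => ⁅a, g⁆)
      (fun a ha => mem_sup_right (subset_closure ⟨a, ha, rfl⟩)) fun a ha b hb h =>
        mem_inf.2 ⟨B.mul_mem (B.inv_mem ha) hb, ?_⟩)
    have := (cj B g).mul_mem ((cj B g).mul_mem (conj_mem_cj (inv_mem ha) g) h.2) (conj_mem_cj hb g)
    convert this using 1
    simp only [commutatorElement_def]; group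
  have h5 : I ⊔ X ⊔ D = B ⊔ D := eq_of_le_of_not_lt
    (sup_le (sup_le (inf_le_left.trans le_sup_left) (hXD.trans le_sup_right)) le_sup_right)
    (h3 _ ⟨_, h4, sup_le (inf_le_left.trans h2) (hXB.trans (sup_le h2
      (cj_le_of_mem_normalizer h2 (top_le_normalizer _ (mem_top g))))), rfl⟩)
  have h6 : B ⊔ D ≤ I ⊔ D := h5.ge.trans (sup_le (sup_le le_sup_left (hXD.trans le_sup_right))
    le_sup_right)
  have h7 : cj B g ≤ I ⊔ D := (cj_le_of_mem_normalizer le_sup_left (le_normalizer_of_commutator_le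
    (A := B ⊔ D) (B := ⊤) le_rfl ((commutator_mono le_top le_rfl).trans le_sup_right)
    (mem_top g))).trans h6
  have h8 : ∀ Y, I ≤ Y → Y ≤ I ⊔ D → Y ≤ I ⊔ (D ⊓ Y) := fun Y a b => by
    rw [← sup_inf_of_le_normalizer_right (le_top.trans (top_le_normalizer D)) a]
    exact le_inf b le_rfl
  refine H9.le_of_mem_maxEA_of_centralizes h1 le_top (fun _ _ => pow_zero _)
    ((h8 _ inf_le_right h7).trans (sup_le (inf_le_left.trans hB) (le_centralizer_iff.1
      ((h8 _ inf_le_left (le_sup_left.trans h6)).trans (sup_le ?_ ?_)))))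
  · exact le_centralizer_iff.1 (inf_le_right.trans (le_sup_right.trans hIc))
  · exact H9.le_centralizer_of_le_of_comm hmeta inf_le_left inf_le_left

end Cfsg.Agent.S3063
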