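import Cfsg.Statements.S3067
import Cfsg.Agent.H25.CInv2

set_option autoImplicit false
open Cfsg

namespace Cfsg.Agent.S3067

open Subgroup Cfsg.Agent.H20 Cfsg.Agent.H21

/-- Let G be a finite non-abelian simple group, τ an involution of G, and α a nontrivial automorphism of G whose order is coprime to the order of G. Then α moves some element of the centralizer of τ: α does not fix C_G(τ) elementwise. -/
theorem result {G : Type*} [Group G] [Finite G] [IsSimpleGroup G]
    (hG : ¬ IsMulCommutative G) (τ : G) (hτ : orderOf τ = 2) (α : MulAut G) (hα : α ≠ 1)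
    (hcop : (orderOf α).Coprime (Nat.card G)) :
    ∃ c ∈ Subgroup.centralizer ({τ} : Set G), α c ≠ c := by
  by_contra hn
  push Not at hn
  obtain ⟨β, hβ, hr⟩ : ∃ β ∈ zpowers α, (orderOf β).Prime := by
    obtain ⟨p, hp, hd⟩ := exists_prime_dvd_card (A := zpowers α) (fun e => hα (zpowers_eq_bot.1 e))
    obtain ⟨β, h1, h2⟩ := exists_prime_order_mem hp hd
    exact ⟨β, h1, h2 ▸ hp⟩
  have hfix : ∀ c ∈ centralizer ({τ} : Set G), β c = c := fun c hc =>
    (zpowers_le.2 (show α ∈ MulAction.stabilizer (MulAut G) c from hn c hc)) hβ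
  let φ : MulAut G →* MulAut G := MonoidHom.id _
  haveI : Finite (G ⋊[φ] MulAut G) := Finite.of_equiv _ SemidirectProduct.equivProd.symm
  let ι : G →* G ⋊[φ] MulAut G := SemidirectProduct.inl
  let b : G ⋊[φ] MulAut G := SemidirectProduct.inr β
  have hι : Function.Injective ι := SemidirectProduct.inl_injective
  have hb : ∀ g, b * ι g * b⁻¹ = ι (β g) := fun g => by
    rw [← map_inv]; exact (SemidirectProduct.inl_aut (φ := φ) β g).symm
  have ho : orderOf b = orderOf β := orderOf_injective _ SemidirectProduct.inr_injective β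
  have hc : ♯ι.range = Nat.card G := (Nat.card_congr (MonoidHom.ofInjective hι).toEquiv).symm
  haveI : ι.range.Normal := by
    rw [show ι.range = _ from SemidirectProduct.range_inl_eq_ker_rightHom]; infer_instance
  have h : H25.CInv.Hyp ι.range (zpowers b) (ι τ) :=
    { rp := by rw [Nat.card_zpowers, ho]; exact hr
      cop := by
        rw [Nat.card_zpowers, ho, hc]
        exact (hcop.coprime_dvd_left (orderOf_dvd_of_mem_zpowers hβ)).symm
      nG := le_normalizer_of_normal
      tG := ⟨τ, rfl⟩
      ord := (orderOf_injective ι hι τ).trans hτ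
      cen := by
        rintro _ ⟨⟨g, rfl⟩, hg⟩
        rw [cent_zpowers, mem_cent1]
        have := hb g
        rw [hfix g (mem_cent1.2 (hι (by simpa using mem_cent1.1 hg))), mul_inv_eq_iff_eq_mul] at this
        exact this.symm }
  have hodd := h.odd
  have hle : ⁅ι.range, zpowers b⁆ ≤ ι.range := commg_le_left h.nG
  have hN : (⁅ι.range, zpowers b⁆.comap ι).Normal := ⟨fun x hx g => by
    rw [mem_comap, map_mul, map_mul, map_inv]
    exact conj_mem_of_norm (sup_le_norm_commg _ _ (mem_sup_left ⟨g, rfl⟩)) hx⟩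
  rcases hN.eq_bot_or_eq_top with e | e
  · have h0 : ⁅ι.range, zpowers b⁆ = ⊥ := by
      rw [← map_comap_eq_self hle, e, Subgroup.map_bot]
    refine hr.ne_one (orderOf_eq_one_iff.2 (MulEquiv.ext fun g => hι ?_))
    rw [← hb, mem_cent.1 (commg_eq_bot.1 h0 ⟨g, rfl⟩) b (mem_zpowers b), mul_inv_cancel_right]
    rfl
  · have := orderOf_dvd_card_of_mem (show ι τ ∈ ⁅ι.range, zpowers b⁆ from
      (e.ge : ⊤ ≤ _) (mem_top τ))
    rw [h.ord] at this
    exact Nat.not_even_iff_odd.2 hodd (even_iff_two_dvd.2 this)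

end Cfsg.Agent.S3067
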