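import Cfsg.Statements.S3068
import Cfsg.Agent.H24.Glau2
import Cfsg.Agent.H3.Tate

set_option autoImplicit false
open Cfsg

namespace Cfsg.Agent.S3068

section
open Subgroup Cfsg.Agent.H24
open scoped commutatorElement
open Cfsg.Agent.H10 (SubnormalIn OqOf)
open Cfsg.Agent.H9 (maxEA)

theorem jtf {p : ℕ} [Fact p.Prime] (hp : 7 ≤ p) {X : Type*} [Group X] [Finite X] :
    ∀ T : Subgroup X, H3.SylowIn p T ⊤ → L0.TF (L0.charSys {L0.jF 0} X T) T ⊤ := by
  have hW := L0.isCharPFunctor_jF (p := p) (dvd_zero p)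
  refine L0.tf_of_constrained (G := X) (L0.locSys_char (by simpa using hW))
    (fun Y _ _ _ _ ih T hT => L0.tf_of_engel hW ih hT fun hn => ?_) X (L0.Sec.refl X)
  rw [L0.ind_jF] at hn
  have hP : IsPGroup p (pCore p Y) := hT.isPGroup.to_le (L0.pCore_le_of_sylowIn hT)
  obtain ⟨C, h1, h2, h3, h4, -⟩ := L0.exists_critical hP
  obtain ⟨g, h5, h6, h7, h8⟩ := thompson_local (by omega) hT.isPGroup (L0.pCore_le_of_sylowIn hT)
    h2 h3 hn
  refine ⟨g, h5, h6, fun U V h hU => ?_⟩
  have := h.2.2.1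
  exact L0.iter_le_of_le (L0.le_norm_of_normal _ _) (by omega)
    (L0.engel_of_critical hP h2 h3 h4 (by omega) h7 h8 h hU)

end

/-- Let p ≥ 7 be a prime, S a Sylow p-subgroup of the finite group G, J(S) the subgroup generated by the abelian subgroups of S of largest order and M = N_G(J(S)). Then G/O^p(G) ≅ M/O^p(M): the largest p-factor group of G is that of M (here O^p(X) is the subgroup generated by the elements of X of order prime to p). -/
theorem result {G : Type*} [Group G] [Finite G] {p : ℕ} [Fact p.Prime]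
    (hp : 7 ≤ p) (S : Sylow p G)
    [hn : (Cfsg.pResidual p G).Normal]
    [hm : (Cfsg.pResidual p ↥(Subgroup.normalizer (Cfsg.thompsonSubgroupAOf (S : Subgroup G) : Set G))).Normal] :
    Nonempty (G ⧸ Cfsg.pResidual p G ≃*
      ↥(Subgroup.normalizer (Cfsg.thompsonSubgroupAOf (S : Subgroup G) : Set G)) ⧸
        Cfsg.pResidual p ↥(Subgroup.normalizer (Cfsg.thompsonSubgroupAOf (S : Subgroup G) : Set G))) := by
  open Subgroup Cfsg.Agent.H24 in
  open scoped commutatorElement in
  open Cfsg.Agent.H10 (SubnormalIn OqOf) in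
  open Cfsg.Agent.H9 (maxEA) in
  have h1 := jtf hp _ (H3.sylowIn_top S)
  rw [L0.charSys_singleton, L0.TF, L0.tr_singleton, L0.ind_jF, ← H9.thompsonSubgroupAOf_eq] at h1
  have h2 : (S : Subgroup G) ≤ normalizer (thompsonSubgroupAOf (S : Subgroup G) : Set G) := by
    rw [H9.thompsonSubgroupAOf_eq]
    exact le_normalizer_thompsonOf le_normalizer
  generalize normalizer (thompsonSubgroupAOf (S : Subgroup G) : Set G) = N at *
  have h3 := H3.pResidual_inf_eq_of_commutator S h2 (h1.trans inf_le_right)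
  let f : N →* G ⧸ pResidual p G := (QuotientGroup.mk' _).comp N.subtype
  have hf : Function.Surjective f := by
    intro x
    obtain ⟨g, rfl⟩ := QuotientGroup.mk_surjective x
    obtain ⟨n, hn, y, hy, rfl⟩ := H3.exists_eq_pResidual_mul_sylow S g
    refine ⟨⟨y, h2 hy⟩, ?_⟩
    show ((y : G) : G ⧸ pResidual p G) = _
    rw [QuotientGroup.mk_mul, (QuotientGroup.eq_one_iff n).2 hn, one_mul]
  have hk : f.ker = pResidual p N := by
    rw [← map_subtype_inj', h3]
    ext x
    simp only [mem_map, MonoidHom.mem_ker, f, MonoidHom.comp_apply, QuotientGroup.mk'_apply,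
      QuotientGroup.eq_one_iff, coe_subtype, mem_inf]
    exact ⟨fun ⟨y, h, e⟩ => e ▸ ⟨h, y.2⟩, fun h => ⟨⟨x, h.2⟩, h.1, rfl⟩⟩
  exact ⟨(QuotientGroup.quotientKerEquivOfSurjective f hf).symm.trans
    (QuotientGroup.quotientMulEquivOfEq hk)⟩

end Cfsg.Agent.S3068
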