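import Cfsg.Statements.S3069
import Cfsg.Agent.H24.Glau1

set_option autoImplicit false
open Cfsg

namespace Cfsg.Agent.S3069

/-- Let p ≥ 7 be a prime and S a nontrivial Sylow p-subgroup of the finite group G. If N_G(S)/C_G(S) is a p-group (every element of N_G(S) of order prime to p centralizes S), then O^p(G) < G, i.e. G has a nontrivial p-factor group. -/
theorem result {G : Type*} [Group G] [Finite G] {p : ℕ} [Fact p.Prime]
    (hp : 7 ≤ p) (S : Sylow p G) (hS : (S : Subgroup G) ≠ ⊥)
    (hN : ∀ g ∈ Subgroup.normalizer ((S : Subgroup G) : Set G), (orderOf g).Coprime p →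
      g ∈ Subgroup.centralizer ((S : Subgroup G) : Set G)) :
    Cfsg.pResidual p G ≠ ⊤ := by
  open Subgroup Cfsg.Agent.H24 in
  open scoped commutatorElement in
  open Cfsg.Agent.H10 (SubnormalIn OqOf) in
  open Cfsg.Agent.H9 (maxEA) in
  intro h
  have h1 := L0.not_le_commutator_of_tf (G := G) (L0.isCharPFunctor_kInf (p := p) (Or.inl rfl))
    (fun X _ _ _ => L0.kinf_tf (by omega) (Or.inl rfl)) G (L0.Sec.refl G) S (H3.sylowIn_top S) hS
    (pResidualOf_le_iff_forall.2 hN)
  exact h1 (H3.le_commutator_of_pResidual_eq_top h S.isPGroup')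

end Cfsg.Agent.S3069
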