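import Cfsg.Statements.S3070
import Cfsg.Agent.H24.Glau2

set_option autoImplicit false
open Cfsg

namespace Cfsg.Agent.S3070

/-- Let p ≥ 5 be a prime, S a Sylow p-subgroup of the finite group G and J(S) the subgroup generated by the abelian subgroups of S of largest order. Then G has a normal p-complement if and only if N_G(J(S))/C_G(J(S)) is a p-group (every element of N_G(J(S)) of order prime to p centralizes J(S)). -/
theorem result {G : Type*} [Group G] [Finite G] {p : ℕ} [Fact p.Prime]
    (hp : 5 ≤ p) (S : Sylow p G) :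
    Cfsg.HasNormalPComplement p G ↔
      ∀ g ∈ Subgroup.normalizer (Cfsg.thompsonSubgroupAOf (S : Subgroup G) : Set G), (orderOf g).Coprime p →
        g ∈ Subgroup.centralizer (Cfsg.thompsonSubgroupAOf (S : Subgroup G) : Set G) := by
  open Subgroup Cfsg.Agent.H24 in
  open scoped commutatorElement in
  open Cfsg.Agent.H10 (SubnormalIn OqOf) in
  open Cfsg.Agent.H9 (maxEA) in
  have hW := L0.isCharPFunctor_jF (p := p) (dvd_zero p)
  rw [H9.thompsonSubgroupAOf_eq]
  refine ⟨fun h g hg hc => H3.mem_centralizer_of_hasNormalPComplement h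
    (S.isPGroup'.to_le (H9.thompsonOf_le _ _)) hg hc, fun h => ?_⟩
  refine L0.pnil_of_char hW (fun X _ _ _ h1 _ T hT h4 => ?_) (H3.sylowIn_top S) ?_
  · rw [L0.ind_jF]
    by_contra hn
    have hP : IsPGroup p (pCore p X) := hT.isPGroup.to_le (L0.pCore_le_of_sylowIn hT)
    obtain ⟨C, h1', h2, h3, -, h9⟩ := L0.exists_critical hP
    obtain ⟨g, h5, h6, h7, -⟩ := thompson_local (by omega) hT.isPGroup (L0.pCore_le_of_sylowIn hT)
      h2 h3 hn
    have h10 : pResidualOf p (⊤ : Subgroup X) ≤ centralizer (C : Set X) :=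
      L0.le_centralizer_of_chief (hP.to_le h2) (pResidualOf_idem _ _) fun U V h hU => by
        have := h.2.2.1
        exact (commutator_mono le_rfl le_top).trans (L0.commutator_le_of_engel_of_coatom hT h4 h5 h6 h
          (hP.to_le (hU.trans h2)) (L0.iter_le_of_le (L0.le_norm_of_normal _ _) (by omega)
            (h7 U V h hU)))
    have h11 : pResidual p X ≤ T := (closure_le _).2 fun x hx =>
      L0.pCore_le_of_sylowIn hT (h1 (h9 x hx (h10 (mem_pResidualOf (mem_top x) hx))))
    have h12 := H3.pResidual_sup_sylow hT.toSylowTop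
    rw [H3.SylowIn.coe_toSylowTop, sup_eq_right.2 h11] at h12
    exact h4.1 h12
  · rw [L0.ind_jF]
    refine pnil_normalizer_of_centric S (H9.thompsonOf_le _ _)
      (le_normalizer_thompsonOf le_normalizer) ?_ h
    obtain ⟨A, hA⟩ := H9.exists_maxEA 0 (S : Subgroup G)
    have := H9.omegaOne_centralizer_thompsonOf_le hA
    rw [H9.omegaOne_zero] at this
    exact this.trans (H9.le_thompsonOf hA)

end Cfsg.Agent.S3070
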