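import Cfsg.Statements.S3072
import Cfsg.Agent.H3.Essential

set_option autoImplicit false
open Cfsg

namespace Cfsg.Agent.S3072

open Cfsg.Agent.H3

open scoped Pointwise

/-- A strong form of the Alperin–Goldschmidt fusion Theorem. Let P be a Sylow p-subgroup of the finite group G, A a subset of P containing a nonidentity element, and g an element with g⁻¹Ag ⊆ P. Then g = c·x₁⋯xₙ·y with c ∈ C_G(A), y ∈ N_G(P) and, for each i, an element xᵢ and a subgroup Hᵢ ≤ P such that: N_P(Hᵢ) is a Sylow p-subgroup of N_G(Hᵢ); C_P(Hᵢ) ≤ Hᵢ; O_{p',p}(N_G(Hᵢ)) = Hᵢ·C_G(Hᵢ); the Sylow p-subgroups of N_G(Hᵢ)/Hᵢ are not chain-connected through nontrivial intersections (the quotient has a strongly p-embedded subgroup); xᵢ lies in O^p(Xᵢ), where Xᵢ/Hᵢ is the smallest normal subgroup of N_G(Hᵢ)/Hᵢ of order divisible by p; and (x₁⋯xᵢ₋₁)⁻¹A(x₁⋯xᵢ₋₁) ⊆ Hᵢ. -/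
theorem result {G : Type*} [Group G] [Finite G] {p : ℕ} [Fact p.Prime]
    (P : Sylow p G) (A : Set G) (hA : A ⊆ (P : Set G)) (hA1 : ∃ a ∈ A, a ≠ 1)
    (g : G) (hAg : (fun a => g⁻¹ * a * g) '' A ⊆ (P : Set G)) :
    ∃ (n : ℕ) (H X : Fin n → Subgroup G) (x : Fin n → G) (c y : G),
      c ∈ Subgroup.centralizer A ∧ y ∈ Subgroup.normalizer ((P : Subgroup G) : Set G) ∧
      g = c * (List.ofFn x).prod * y ∧
      ∀ i : Fin n,
        H i ≤ (P : Subgroup G) ∧
        ¬ p ∣ ((P : Subgroup G) ⊓ Subgroup.normalizer (H i : Set G)).relIndex (Subgroup.normalizer (H i : Set G)) ∧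
        (P : Subgroup G) ⊓ Subgroup.centralizer (H i : Set G) ≤ H i ∧
        (Cfsg.pPrimePCore p ↥(Subgroup.normalizer (H i : Set G))).map (Subgroup.normalizer (H i : Set G)).subtype =
          H i ⊔ Subgroup.centralizer (H i : Set G) ∧
        ¬ Cfsg.IsSylowChainConnected p
            (↥(Subgroup.normalizer (H i : Set G)) ⧸ (H i).subgroupOf (Subgroup.normalizer (H i : Set G))) ∧
        (H i ≤ X i ∧ X i ≤ Subgroup.normalizer (H i : Set G) ∧
          ((X i).subgroupOf (Subgroup.normalizer (H i : Set G))).Normal ∧ p ∣ (H i).relIndex (X i) ∧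
          ∀ Y : Subgroup G, H i ≤ Y → Y ≤ Subgroup.normalizer (H i : Set G) →
            (Y.subgroupOf (Subgroup.normalizer (H i : Set G))).Normal → p ∣ (H i).relIndex Y → X i ≤ Y) ∧
        x i ∈ (Cfsg.pResidual p ↥(X i)).map (X i).subtype ∧
        (fun a => (((List.ofFn x).take i.val).prod)⁻¹ * a * ((List.ofFn x).take i.val).prod) '' A ⊆ (H i : Set G) := by
  let F : Subgroup G → G → Prop := fun D x => (D < P ∧ FullyNormalized p P D ∧ ∃ H, EssLike P D H ∧
    Subgroup.centralizer (D : Set G) ≤ H ∧ ¬ Subgroup.normalizer (D : Set G) ≤ H) ∧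
    ∀ Y : Subgroup G, D ≤ Y → Y ≤ Subgroup.normalizer (D : Set G) →
      Subgroup.normalizer (D : Set G) ≤ Subgroup.normalizer (Y : Set G) → p ∣ D.relIndex Y →
      x ∈ (pResidual p Y).map Y.subtype
  have hFn : ∀ D x, F D x → x ∈ Subgroup.normalizer (D : Set G) := by
    rintro D x ⟨⟨h1, h2, H, h3, -, h4⟩, h5⟩
    obtain ⟨X, h6, h7, h8, h9, -⟩ := h3.exists_least h1 h2 h4
    exact h7 (Subgroup.map_subtype_le _ (h5 X h6 h7
      ((Subgroup.normal_subgroupOf_iff_le_normalizer h7).mp h8) h9))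
  obtain ⟨c, hc, y, hy, rfl⟩ := exists_chain_of_essLike P
    (F := fun D x => x ∈ Subgroup.normalizer (D : Set G) ∧
      (F D x ∨ x ∈ Subgroup.normalizer (P : Set G)))
    (fun D x h => ⟨h.1, inv_mem h.1, h.2.imp
      (fun h => ⟨h.1, fun Y h1 h2 h3 h4 => inv_mem (h.2 Y h1 h2 h3 h4)⟩) inv_mem⟩)
    (fun n hn => ⟨hn, Or.inr hn⟩)
    (fun B H hB hfn hE hC hF => by
      by_contra hne
      obtain ⟨X, h6, h7, h8, h9, h10⟩ := hE.exists_least hB hfn hne
      have h11 := (Subgroup.normal_subgroupOf_iff_le_normalizer h7).mp h8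
      have h12 := SylowIn.inf_of_le_normalizer hfn h7 h11
      refine hne fun g hg => ?_
      obtain ⟨k, hk, m, hm, rfl⟩ := hE.exists_eq_mul hfn h7 h11
        (lt_of_le_of_ne (le_inf hB.le h6) fun he => h12.not_dvd (by
          rwa [inf_assoc, inf_eq_right.mpr h7, ← he])) hg
      obtain ⟨a, ha, s, hs, rfl⟩ := h12.exists_eq_mul (K := H) (fun x hx hc =>
        hF x ⟨h7 hx, Or.inl ⟨⟨hB, hfn, H, hE, hC, hne⟩, fun Y h1 h2 h3 h4 =>
          ⟨⟨x, h10 Y h1 h2 ((Subgroup.normal_subgroupOf_iff_le_normalizer h2).mpr h3) h4 hx⟩,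
            mem_pResidual_of_coprime (by rwa [Subgroup.orderOf_mk]), rfl⟩⟩⟩) hk
      exact mul_mem (mul_mem ha (hE.inf_normalizer_le hB hs.1)) hm) hA hAg
  obtain ⟨w, hw, z, hz, rfl⟩ := Chain.exists_mul_normalizer (F := F) (P := P) (by
    rintro D x ⟨⟨h1, h2, H, h3, h4, h5⟩, h6⟩ y hy
    have hP := mem_normalizer_iff_conj_smul.mp hy
    refine ⟨⟨?_, hP ▸ h2.conj y, MulAut.conj y • H, hP ▸ h3.conj y, ?_, fun h => h5 ?_⟩,
      fun Y h7 h8 h9 h10 => ?_⟩
    · refine lt_of_le_of_ne (hP ▸ conj_smul_mono y h1.le) fun he => h1.ne ?_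
      rw [← conj_inv_smul_conj_smul D y, he, mem_normalizer_iff_conj_smul.mp (inv_mem hy)]
    · rw [centralizer_conj_smul]
      exact conj_smul_mono y h4
    · simpa only [normalizer_conj_smul, conj_inv_smul_conj_smul] using conj_smul_mono y⁻¹ h
    · have h11 := conj_smul_map_pResidual _ y (conj_mem_conj_smul.mpr (h6 (MulAut.conj y⁻¹ • Y)
        (by simpa only [conj_inv_smul_conj_smul] using conj_smul_mono y⁻¹ h7)
        (by simpa only [normalizer_conj_smul, conj_inv_smul_conj_smul] using conj_smul_mono y⁻¹ h8)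
        (by simpa only [normalizer_conj_smul, conj_inv_smul_conj_smul] using conj_smul_mono y⁻¹ h9)
        (by rwa [← conj_inv_smul_conj_smul D y, Subgroup.relIndex_pointwise_smul])))
      rwa [conj_smul_conj_inv_smul] at h11) (hy.imp fun D x h => h.2)
  obtain ⟨n, D, x, rfl, h1, h2⟩ := hz.exists_fin
  choose H h3 h4 h5 using fun i => (h1 i).1.2.2
  choose X h6 h7 h8 h9 h10 using fun i => (h3 i).exists_least (h1 i).1.1 (h1 i).1.2.1 (h5 i)
  refine ⟨n, D, X, x, c, w, hc, hw, (mul_assoc _ _ _).symm, fun i => ?_⟩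
  obtain ⟨⟨h11, h12, -⟩, h13⟩ := h1 i
  have h14 := (h3 i).radical h11 h12 (h4 i) (h5 i)
  exact ⟨h11.le, h12.not_dvd, h14.centric, (h14.map_pPrimePCore h11.le h12).2,
    ((h3 i).spe h11.le h12).not_isSylowChainConnected (h12.quotSylow_ne_bot h11)
      (map_mk'_subgroupOf_ne_top ((le_inf h11.le Subgroup.le_normalizer).trans
        ((h3 i).inf_normalizer_le h11)) (h5 i)),
    ⟨h6 i, h7 i, h8 i, h9 i, h10 i⟩, h13 _ (h6 i) (h7 i)
      ((Subgroup.normal_subgroupOf_iff_le_normalizer (h7 i)).mp (h8 i)) (h9 i), h2 i⟩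

end Cfsg.Agent.S3072
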