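import Cfsg.Statements.S3073
import Cfsg.Agent.H24.Glau1

set_option autoImplicit false
universe u
open Cfsg

namespace Cfsg.Agent.S3073

/-- For an odd prime p, every finite p-group S has a characteristic subgroup K with C_S(K) ≤ K such that, whenever S is (isomorphic to) a Sylow p-subgroup of a finite group G, G has a normal p-complement if and only if N_G(K)/C_G(K) is a p-group, i.e. every element of N_G(K) of order prime to p centralizes K (K transported into G along the isomorphism). -/
theorem result (p : ℕ) [Fact p.Prime] (hp : p ≠ 2)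
    (S : Type u) [Group S] [Finite S] (hS : IsPGroup p S) :
    ∃ K : Subgroup S, K.Characteristic ∧ Subgroup.centralizer (K : Set S) ≤ K ∧
      ∀ (G : Type u) [Group G] [Finite G] (P : Sylow p G) (e : ↥(P : Subgroup G) ≃* S),
        Cfsg.HasNormalPComplement p G ↔
          ∀ g ∈ Subgroup.normalizer (((K.comap (e : ↥(P : Subgroup G) →* S)).map (P : Subgroup G).subtype : Subgroup G) : Set G),
            (orderOf g).Coprime p →
              g ∈ Subgroup.centralizer (((K.comap (e : ↥(P : Subgroup G) →* S)).map (P : Subgroup G).subtype : Subgroup G) : Set G) := by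
  open Subgroup Cfsg.Agent.H24 in
  open scoped commutatorElement in
  open Cfsg.Agent.H10 (SubnormalIn OqOf) in
  open Cfsg.Agent.H9 (maxEA) in
  have hW := L0.isCharPFunctor_kInf.{u} (p := p) (W := kInfLower) (Or.inl rfl)
  refine ⟨kInfLower S, characteristic_iff_map_eq.2 fun φ => hW.2 S S hS φ, ?_, ?_⟩
  · have := (L0.centralizer_kInf (p := p) (S := (⊤ : Subgroup S)) (hS.to_subgroup ⊤)).1
    rw [← L0.kInfLower_eq, top_inf_eq] at this
    exact this
  intro G _ _ P e
  have h1 : ((kInfLower S).comap (e : ↥(P : Subgroup G) →* S)).map (P : Subgroup G).subtype =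
      inducedFunctor kInfLower (P : Subgroup G) := by
    rw [← hW.2 _ _ P.isPGroup' e]
    unfold inducedFunctor
    congr 1
    exact comap_map_eq_self_of_injective e.injective _
  rw [h1]
  refine ⟨fun h g hg hc => H3.mem_centralizer_of_hasNormalPComplement h
    (P.isPGroup'.to_le (L0.ind_le _ _)) hg hc, fun h => ?_⟩
  refine L0.pnil_of_char hW (fun X _ _ _ h1 h2 T h3 h4 => L0.kinf_normal (Or.inl rfl) h1
    (fun V _ => L0.pStable_of_sylow_two_comm hp (L0.sylow_comm_of_sec
      (L0.sylow_comm_of_reduced hp h2 h3 h4) (L0.Sec.quotient V))) h3) (H3.sylowIn_top P) ?_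
  refine pnil_normalizer_of_centric P (L0.ind_le _ _)
    (le_normalizer.trans (L0.cf_normalizer_le (L0.ind_isCF hW) P.isPGroup')) ?_ h
  rw [L0.ind_kInfLower]
  exact (L0.centralizer_kInf P.isPGroup').1

end Cfsg.Agent.S3073
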