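import Cfsg.Statements.S3074
import Cfsg.Agent.H26.ES4
import Cfsg.Agent.H9.Involves
import Cfsg.Agent.H12.Lin

set_option autoImplicit false
open Cfsg

namespace Cfsg.Agent.S3074

open Matrix MatrixGroups in
/-- the unitriangular embedding -/
def emb (p : ℕ) [Fact p.Prime] : H26.Heis (H26.stdβ p 1) →* qd p :=
  MonoidHom.mk' (fun g => ⟨⟨!![1, g.v.1 0, g.a; 0, 1, g.v.2 0; 0, 0, 1], by simp [det_fin_three]⟩,
    H9.mem_qd_iff.mpr ⟨rfl, rfl, rfl⟩⟩) fun g h => Subtype.ext (Subtype.ext (by
      change (!![_, _, _; _, _, _; _, _, _] : Matrix (Fin 3) (Fin 3) (ZMod p)) =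
        !![_, _, _; _, _, _; _, _, _] * !![_, _, _; _, _, _; _, _, _]
      ext i j
      fin_cases i <;> fin_cases j <;> simp [Matrix.mul_apply, Fin.sum_univ_three, dotProduct] <;> ring))

theorem emb_inj (p : ℕ) [Fact p.Prime] : Function.Injective (emb p) := by
  refine (injective_iff_map_eq_one _).mpr fun g hg => ?_
  have h := congrArg (fun x : qd p => (x.1 : Matrix (Fin 3) (Fin 3) (ZMod p))) hg
  refine H26.Heis.ext (Prod.ext (funext fun i => ?_) (funext fun i => ?_)) ?_
  · rw [Subsingleton.elim i 0]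
    simpa [emb] using congrFun (congrFun h 0) 1
  · rw [Subsingleton.elim i 0]
    simpa [emb] using congrFun (congrFun h 1) 2
  · simpa [emb] using congrFun (congrFun h 0) 2

open Matrix MatrixGroups in
theorem card_qd (p : ℕ) [Fact p.Prime] : Nat.card (qd p) = p ^ 2 * (p * (p ^ 2 - 1)) := by
  have h : Function.Bijective (fun x : Multiplicative (Fin 2 → ZMod p) × SL(2, ZMod p) =>
      H9.qdTHom p x.1 * H9.qdLHom p x.2) := by
    refine ⟨?_, fun x => ?_⟩
    · rintro ⟨c, A⟩ ⟨d, B⟩ h
      have h := congrArg (fun x : qd p => (x.1 : Matrix (Fin 3) (Fin 3) (ZMod p))) h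
      have h1 := fun i j => congrFun (congrFun h i) j
      have e1 := h1 0 0
      have e2 := h1 0 1
      have e3 := h1 0 2
      have e4 := h1 1 0
      have e5 := h1 1 1
      have e6 := h1 1 2
      simp [H9.qdTHom, H9.qdLHom, H9.coe_qdT, H9.coe_qdL, Matrix.mul_apply, Fin.sum_univ_three]
        at e1 e2 e3 e4 e5 e6
      refine Prod.ext (Multiplicative.toAdd.injective (funext fun i => ?_)) (Subtype.ext ?_)
      · fin_cases i <;> simpa
      · ext i j
        fin_cases i <;> fin_cases j <;> simpa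
    · obtain ⟨c, A, rfl⟩ := H9.exists_qd_eq x
      exact ⟨(c, A), rfl⟩
  rw [← Nat.card_congr (Equiv.ofBijective _ h), Nat.card_prod, H12.card_SL2 (ZMod.card p)]
  simp

/-- Let p be an odd prime. A Sylow p-subgroup of Qd(p), the split extension of an elementary abelian group of order p² by SL₂(p) acting naturally, is extraspecial of order p³ and exponent p. -/
theorem result (p : ℕ) [Fact p.Prime] (hp : p ≠ 2) (P : Sylow p ↥(Cfsg.qd p)) :
    Cfsg.IsExtraspecial p ↥P ∧ Nat.card P = p ^ 3 ∧ Monoid.exponent ↥P = p := by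
  have hp' : p.Prime := Fact.out
  have h1 : Nat.card (emb p).range = p ^ 3 := by
    rw [← Nat.card_congr (MonoidHom.ofInjective (emb_inj p)).toEquiv, H26.card_stdβ]
  have h2 : ¬ p ∣ (emb p).range.index := by
    have := (emb p).range.card_mul_index
    rw [h1, card_qd, ← mul_assoc, ← pow_succ] at this
    rw [Nat.eq_of_mul_eq_mul_left (pow_pos hp'.pos 3) this]
    intro h
    have h3 : p ∣ p ^ 2 - (p ^ 2 - 1) := Nat.dvd_sub (dvd_pow_self p two_ne_zero) h
    rw [Nat.sub_sub_self (Nat.one_le_pow _ _ hp'.pos)] at h3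
    exact hp'.one_lt.ne' (Nat.dvd_one.mp h3)
  let Q : Sylow p (qd p) := (IsPGroup.of_card h1).toSylow h2
  have e : H26.Heis (H26.stdβ p 1) ≃* P := (MonoidHom.ofInjective (emb_inj p)).trans (Q.equiv P)
  have h3 := H26.isExtraspecial_congr (H26.isExtraspecial_stdβ p le_rfl) e
  have h4 : Nat.card P = p ^ 3 := by rw [← Nat.card_congr e.toEquiv, H26.card_stdβ]
  refine ⟨h3, h4, ?_⟩
  have : Nontrivial P := Finite.one_lt_card_iff_nontrivial.mp (h4 ▸ Nat.one_lt_pow (by norm_num) hp'.one_lt)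
  refine (Monoid.exponent_eq_prime_iff hp').mpr fun g hg => orderOf_eq_prime ?_ hg
  obtain ⟨x, rfl⟩ := e.surjective g
  rw [← map_pow, H26.Heis.pow_p hp, map_one]

end Cfsg.Agent.S3074
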