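import Cfsg.Statements.S3075
import Cfsg.Agent.H24.Glau1
import Cfsg.Agent.H2.SS
import Cfsg.Agent.H1.Coprime
import Cfsg.Agent.H9.Offender

set_option autoImplicit false
open Cfsg

namespace Cfsg.Agent.S3075

/-- Let p be an odd prime and N a finite group with a normal elementary abelian subgroup A of order p² that is its own centralizer in N, such that N/A is isomorphic to SL₂(p) (over any field F with p elements). Then N splits over A: some subgroup U of N satisfies A ∩ U = 1 and AU = N. -/
theorem result {N : Type*} [Group N] [Finite N] {p : ℕ} [Fact p.Prime] (hp : p ≠ 2)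
    (A : Subgroup N) [A.Normal] (hAcomm : IsMulCommutative A) (hAcard : Nat.card A = p ^ 2) (hAexp : Monoid.exponent ↥A = p)
    (hAself : Subgroup.centralizer (A : Set N) = A)
    {F : Type*} [Field F] [Fintype F] (hF : Fintype.card F = p) (e : N ⧸ A ≃* Matrix.SpecialLinearGroup (Fin 2) F) :
    ∃ U : Subgroup N, A ⊓ U = ⊥ ∧ A ⊔ U = ⊤ := by
  open Subgroup Cfsg.Agent.H24 in
  open scoped commutatorElement in
  open Cfsg.Agent.H10 (SubnormalIn OqOf) in
  open Cfsg.Agent.H9 (maxEA) in
  have hp' : p.Prime := Fact.out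
  have hAp : ∀ a ∈ A, a ^ p = 1 := fun a ha => by
    have := Monoid.pow_exponent_eq_one (⟨a, ha⟩ : A)
    rw [hAexp] at this
    exact congrArg Subtype.val this
  have hA : IsPGroup p A := IsPGroup.of_card hAcard
  have h2 : (2 : F) ≠ 0 := by
    intro h
    have h1 : ((p : ℕ) : F) = 0 := by rw [← hF]; exact FiniteField.cast_card_eq_zero F
    obtain ⟨k, hk⟩ := hp'.odd_of_ne_two hp
    rw [hk] at h1
    simp [h] at h1
  obtain ⟨z, hz⟩ := QuotientGroup.mk_surjective (e.symm (-1))
  have hz2 : ((z : N ⧸ A)) ^ 2 = 1 := by rw [hz, ← map_pow]; simp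
  have ht2 : (z ^ p) ^ 2 = 1 := by
    rw [← pow_mul, mul_comm, pow_mul]
    exact hAp _ ((QuotientGroup.eq_one_iff _).1 (by rw [QuotientGroup.mk_pow, hz2]))
  have ht : ((z ^ p : N) : N ⧸ A) = e.symm (-1) := by
    obtain ⟨k, hk⟩ := hp'.odd_of_ne_two hp
    rw [QuotientGroup.mk_pow, hk, pow_succ, pow_mul, hz2, one_pow, one_mul, hz]
  generalize z ^ p = t at ht ht2
  have htA : t ∉ A := fun h => by
    rw [(QuotientGroup.eq_one_iff _).2 h, eq_comm, e.symm_apply_eq, map_one] at ht
    have := congrArg (fun M : Matrix.SpecialLinearGroup (Fin 2) F => M 0 0) ht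
    simp at this
    exact h2 (by linear_combination -this)
  have hT : IsPGroup 2 (zpowers t) := isPGroup_zpowers (k := 1) (by simpa using ht2)
  have hcop : (Nat.card (zpowers t)).Coprime (Nat.card A) := by
    obtain ⟨k, hk⟩ := exists_card_eq_pow hT
    rw [hk, hAcard]
    exact Nat.Coprime.pow _ _ ((Nat.coprime_primes Nat.prime_two hp').2 hp.symm)
  have hTA : zpowers t ≤ normalizer (A : Set N) := le_top.trans (top_le_normalizer A)
  have h3 : ⊤ ≤ A ⊔ (⊤ ⊓ centralizer (zpowers t : Set N)) := by
    refine le_sup_inf_centralizer hTA le_top hcop (Or.inl inferInstance)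
      (commutator_zpowers_right_le (hTA (mem_zpowers t)) fun g _ => ?_)
    rw [← QuotientGroup.eq_one_iff, ← QuotientGroup.mk'_apply, map_commutatorElement,
      QuotientGroup.mk'_apply, QuotientGroup.mk'_apply, ht, ← e.symm_apply_apply (g : N ⧸ A),
      ← map_commutatorElement, commutatorElement_eq_one_iff_mul_comm.2 (by simp), map_one]
  rw [top_inf_eq] at h3
  refine ⟨centralizer (zpowers t : Set N), ?_, top_le_iff.1 h3⟩
  by_contra h0
  have h4 := H1.inf_centralizer_inf_commutator_eq_bot hTA hcop
  have h5 := commutator_sup_inf_centralizer hTA hcop (Or.inl inferInstance)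
  have n0 : ∀ X : Subgroup N, X ≤ A → centralizer (zpowers t : Set N) ≤ normalizer (X : Set N) →
      X ≠ A → commutator N ≤ centralizer (X : Set N) := fun X h1 h6 h7 => by
    have : X.Normal := top_le_normalizer_iff.1
      (h3.trans (sup_le (H9.le_normalizer_of_le_of_comm hAcomm le_rfl h1) h6))
    have h8 : Nat.card X ∣ p ^ 2 := hAcard ▸ card_dvd_of_le h1
    obtain ⟨k, hk, h9⟩ := (Nat.dvd_prime_pow hp').1 h8
    have : IsCyclic X := by
      refine isCyclic_of_card_dvd_prime (p := p) ?_
      rw [h9]
      interval_cases k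
      · simp
      · simp
      · exact absurd (eq_of_le_of_card_le h1 (by rw [h9, hAcard])) h7
    exact H2.commutator_le_centralizer_of_isCyclic X
  have h6 : commutator N ≤ A := by
    rw [← hAself, ← h5, centralizer_sup]
    refine le_inf (n0 _ (commutator_le_left_of_le_normalizer hTA) (le_normalizer_commutator
      (le_top.trans (top_le_normalizer A)) (centralizer_le_normalizer' _)) fun h => h0 ?_)
      (n0 _ inf_le_left (le_normalizer_inf (le_top.trans (top_le_normalizer A)) le_normalizer)
        fun h => htA ?_)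
    · rw [← h4, h, inf_eq_left.2 inf_le_left]
    · rw [← hAself]
      exact le_centralizer_iff.1 (h.ge.trans inf_le_right) (mem_zpowers t)
  let u : Matrix.SpecialLinearGroup (Fin 2) F := ⟨!![1, 1; 0, 1], by simp [Matrix.det_fin_two]⟩
  let v : Matrix.SpecialLinearGroup (Fin 2) F := ⟨!![1, 0; 1, 1], by simp [Matrix.det_fin_two]⟩
  obtain ⟨x, hx⟩ := QuotientGroup.mk_surjective (e.symm u)
  obtain ⟨y, hy⟩ := QuotientGroup.mk_surjective (e.symm v)
  have h7 := (QuotientGroup.eq_one_iff _).2 (h6 (commutator_mem_commutator (mem_top x) (mem_top y)))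
  rw [← QuotientGroup.mk'_apply, map_commutatorElement, QuotientGroup.mk'_apply,
    QuotientGroup.mk'_apply, hx, hy, ← map_commutatorElement, e.symm_apply_eq, map_one,
    commutatorElement_eq_one_iff_mul_comm] at h7
  have := congrArg (fun M : Matrix.SpecialLinearGroup (Fin 2) F => M 0 0) h7
  simp only [Matrix.SpecialLinearGroup.coe_mul] at this
  simp [u, v, Matrix.mul_apply, Fin.sum_univ_two] at this

end Cfsg.Agent.S3075
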