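import Cfsg.Statements.S3076
import Cfsg.Agent.H24.Glau1

set_option autoImplicit false
open Cfsg

namespace Cfsg.Agent.S3076

section
open Subgroup Cfsg.Agent.H24
open scoped commutatorElement
open Cfsg.Agent.H10 (SubnormalIn OqOf)
open Cfsg.Agent.H9 (maxEA)

theorem aux {G : Type*} [Group G] {p : ℕ} (N K : Subgroup G) (K' : Subgroup N) [K'.Normal]
    (h : K.subgroupOf N = K') :
    ((pCore p (N ⧸ K')).comap (QuotientGroup.mk' _)).map N.subtype = pCoreMod p N K := by
  subst h
  exact pCoreMod_eq.symm

end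

/-- Let P be a Sylow p-subgroup of the finite group G and H ≤ P a subgroup with N_P(H) a Sylow p-subgroup of N_G(H). Let N be the preimage in N_G(H) of O_p(N_G(H)/C_G(H)). Then H is a Sylow p-subgroup of N if and only if C_P(H) ≤ H and O_{p',p}(N_G(H)) = H·C_G(H). -/
theorem result {G : Type*} [Group G] [Finite G] {p : ℕ} [Fact p.Prime]
    (P : Sylow p G) (H : Subgroup G) (hHP : H ≤ (P : Subgroup G))
    (hSyl : ¬ p ∣ ((P : Subgroup G) ⊓ Subgroup.normalizer (H : Set G)).relIndex (Subgroup.normalizer (H : Set G)))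
    [hC : ((Subgroup.centralizer (H : Set G)).subgroupOf (Subgroup.normalizer (H : Set G))).Normal] :
    (H ≤ ((Cfsg.pCore p (↥(Subgroup.normalizer (H : Set G)) ⧸
              (Subgroup.centralizer (H : Set G)).subgroupOf (Subgroup.normalizer (H : Set G)))).comap
            (QuotientGroup.mk' _)).map (Subgroup.normalizer (H : Set G)).subtype ∧
      ¬ p ∣ H.relIndex (((Cfsg.pCore p (↥(Subgroup.normalizer (H : Set G)) ⧸
              (Subgroup.centralizer (H : Set G)).subgroupOf (Subgroup.normalizer (H : Set G)))).comap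
            (QuotientGroup.mk' _)).map (Subgroup.normalizer (H : Set G)).subtype)) ↔
    ((P : Subgroup G) ⊓ Subgroup.centralizer (H : Set G) ≤ H ∧
      (Cfsg.pPrimePCore p ↥(Subgroup.normalizer (H : Set G))).map (Subgroup.normalizer (H : Set G)).subtype =
        H ⊔ Subgroup.centralizer (H : Set G)) := by
  open Subgroup Cfsg.Agent.H24 in
  open scoped commutatorElement in
  open Cfsg.Agent.H10 (SubnormalIn OqOf) in
  open Cfsg.Agent.H9 (maxEA) in
  set N := normalizer (H : Set G) with hN
  set C := centralizer (H : Set G) with hC'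
  set K := (pPrimeCore p N).map N.subtype with hK
  rw [← pCoreMod_eq, pPrimePCore, aux N K _ (subgroupOf_map_subtype' _)]
  have hHN : H ≤ N := le_normalizer
  have hCN : C ≤ N := centralizer_le_normalizer' H
  have hNC : N ≤ normalizer (C : Set G) := normalizer_le_normalizer_centralizer H
  have hNK : N ≤ normalizer (K : Set G) := map_subtype_le_normalizer _
  have hH : IsPGroup p H := P.isPGroup'.to_le hHP
  have hKc : (Nat.card K).Coprime p := by
    rw [hK, card_map_subtype]; exact H1.coprime_card_pPrimeCore p N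
  have hKC : K ≤ C := le_centralizer_iff_commutator.2 (le_bot_iff.1 ((le_inf
    (commutator_le_right_of_le_normalizer (map_subtype_le _))
    (commutator_le_left_of_le_normalizer (hHN.trans hNK))).trans
    (inf_eq_bot_of_isPGroup_of_coprime hH hKc).le))
  have hR : SylIn p ((P : Subgroup G) ⊓ N) N :=
    sylIn_of_not_dvd inf_le_right P.isPGroup'.to_inf_left hSyl
  have hCD : C ≤ pCoreMod p N C := (le_inf hCN le_rfl).trans (inf_le_pCoreMod hNC)
  have hED : pCoreMod p N K ≤ pCoreMod p N C := le_pCoreMod (pCoreMod_le _ _ _)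
    (le_normalizer_pCoreMod le_normalizer hNK) ((pGrpMod_pCoreMod hNK).mono le_rfl hKC)
  constructor
  · rintro ⟨h1, h2⟩
    have h3 := sylIn_of_not_dvd h1 hH h2
    have h4 : (P : Subgroup G) ⊓ C ≤ H := h3.le_of_le_normalizer P.isPGroup'.to_inf_left
      (inf_le_right.trans hCD) (inf_le_right.trans hCN)
    refine ⟨h4, le_antisymm (hED.trans ?_) ?_⟩
    · rw [sup_comm]
      exact (pGrpMod_pCoreMod hNC).le_sup_of_sylIn ((pCoreMod_le _ _ _).trans hNC) h3
    · have h5 := sylIn_iff_H3.1 (hR.inf_normal hCN hNC)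
      have h6 : (P : Subgroup G) ⊓ N ⊓ C ≤ H := (inf_le_inf_right _ inf_le_left).trans h4
      obtain ⟨L, l1, l2, l3, -, l5, -⟩ := h5.exists_complement
        (h5.hasNormalPComplement_of_le_centralizer (h6.trans (le_centralizer_centralizer H)))
      have l6 : L ≤ K := by
        rw [← map_subgroupOf_eq_of_le (l1.trans hCN)]
        refine map_mono (le_sSup ⟨normal_subgroupOf_of_le_normalizer' (hNC.trans l3), ?_⟩)
        rwa [card_subgroupOf (l1.trans hCN)]
      refine le_pCoreMod (sup_le hHN hCN) (le_normalizer_sup le_rfl hNC) ?_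
      refine ((pGrpMod_of_isPGroup hH ⊥).sup_left (B := K) (hHN.trans hNK)).mono ?_ (by simp)
      exact sup_le le_sup_left (l5.ge.trans (sup_le (l6.trans le_sup_right) (h6.trans le_sup_left)))
  · rintro ⟨h1, h2⟩
    have h3 : pCoreMod p N C ≤ H ⊔ C := by
      rw [← h2]
      refine le_pCoreMod (pCoreMod_le _ _ _) (le_normalizer_pCoreMod le_normalizer hNC) ?_
      exact (pGrpMod_pCoreMod hNC).trans' ((pGrpMod_pCoreMod hNK).mono (le_sup_right.trans h2.ge) le_rfl)
    refine ⟨le_sup_left.trans (h2.ge.trans hED), fun h => ?_⟩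
    have h4 : pCoreMod p N C = C ⊔ H := le_antisymm (h3.trans (sup_comm _ _).le)
      (sup_le hCD (le_sup_left.trans (h2.ge.trans hED)))
    rw [h4, relIndex_sup_of_le_normalizer hCN] at h
    refine (hR.inf_normal hCN hNC).not_dvd_relIndex (h.trans (relIndex_dvd_of_le_left _ ?_))
    exact (inf_le_inf_right _ inf_le_left).trans h1

end Cfsg.Agent.S3076
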