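import Cfsg.Statements.S3078
import Cfsg.Agent.H24.Glau1
import Cfsg.Agent.H9.Repl
import Cfsg.Agent.H9.Offender

set_option autoImplicit false
open Cfsg

namespace Cfsg.Agent.S3078

/-- A replacement Theorem for abelian subgroups of p-groups, p odd. Let G be a finite p-group with p odd, A an abelian subgroup of G, and B a subgroup of nilpotency class at most 2 with [B, B] ≤ A, such that A normalizes B but B does not normalize A. Then there is an abelian subgroup A* of G of the same order as A with A ∩ B strictly contained in A* ∩ B, A* contained in N_G(A) and in the normal closure of A, the exponent of A* dividing the exponent of A, and with the subgroup generated by the elements of order dividing p in A of order at most that of the corresponding subgroup of A* (the rank of A is at most the rank of A*). -/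
theorem result {G : Type*} [Group G] [Finite G] {p : ℕ} [Fact p.Prime] (hp : p ≠ 2) (hG : IsPGroup p G) (A B : Subgroup G) (hA : IsMulCommutative A) (hB2 : ⁅⁅B, B⁆, B⁆ = ⊥) (hBA : ⁅B, B⁆ ≤ A) (hAB : A ≤ Subgroup.normalizer (B : Set G)) (hBnA : ¬ B ≤ Subgroup.normalizer (A : Set G)) : ∃ Astar : Subgroup G, IsMulCommutative Astar ∧ Nat.card Astar = Nat.card A ∧ A ⊓ B < Astar ⊓ B ∧ Astar ≤ Subgroup.normalizer (A : Set G) ∧ Astar ≤ Subgroup.normalClosure (A : Set G) ∧ Monoid.exponent Astar ∣ Monoid.exponent A ∧ Nat.card (Cfsg.omegaOne p A) ≤ Nat.card (Cfsg.omegaOne p Astar) := by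
  open Subgroup Cfsg.Agent.H24 in
  open scoped commutatorElement in
  open Cfsg.Agent.H10 (SubnormalIn OqOf) in
  open Cfsg.Agent.H9 (maxEA) in
  have hS : IsPGroup p (A ⊔ B : Subgroup G) := hG.to_subgroup _
  set N := (A ⊔ B) ⊓ normalizer (A : Set G) with hN
  have hAN : A ≤ N := le_inf le_sup_left le_normalizer
  have hNB : N ≤ normalizer (B : Set G) := inf_le_left.trans (sup_le hAB le_normalizer)
  obtain ⟨b, hb, hbN, hbn⟩ := H9.exists_repl_elt hS (le_sup_right : B ≤ A ⊔ B)
    (inf_le_left : N ≤ A ⊔ B) hNB fun h => hBnA (h.trans inf_le_right)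
  have hbA : b ∉ normalizer (A : Set G) := fun h => hbn ⟨mem_sup_right hb, h⟩
  obtain ⟨h1, h2, -, h4, h5, -, -, h8⟩ := H9.glauberman_replacement hA hBA hb hAN inf_le_right hNB
    hbN hbA (Or.inr fun x hx h => H9.eq_one_of_sq_eq_one_of_isPGroup hp (hG.to_subgroup B) hx h)
  have hodd : Odd p := (Fact.out : p.Prime).odd_of_ne_two hp
  refine ⟨H9.replStar A b, h2, h1, h4, h5.trans inf_le_right,
    H9.replStar_le subset_normalClosure (top_le_normalizer _ (mem_top b)), ?_, ?_⟩
  · refine Monoid.exponent_dvd_of_forall_pow_eq_one fun x => Subtype.ext (h8 _ ?_ ?_ x.1 x.2)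
    · obtain ⟨k, hk⟩ := IsPGroup.iff_card.1 (hG.to_subgroup A)
      exact Odd.of_dvd_nat (hk ▸ hodd.pow) Group.exponent_dvd_nat_card
    · intro a ha
      exact congrArg Subtype.val (Monoid.pow_exponent_eq_one (⟨a, ha⟩ : A))
  set I := A ⊓ A.map (MulAut.conj (b⁻¹)).toMonoidHom with hI
  have hIs : I ≤ H9.replStar A b := le_sup_left
  have key := H9.relIndex_le_of_forall (A := omegaOne p A) (B := I) (C := I)
    (X := omegaOne p (H9.replStar A b)) (fun a => a * b⁻¹ * a⁻¹ * b) (fun a ha => ?_)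
    (fun a ha a' ha' h => ?_)
  · have e : I ⊓ omegaOne p A = I ⊓ omegaOne p (H9.replStar A b) := by
      ext x
      simp only [mem_inf, H9.mem_omegaOne_of_comm hA, H9.mem_omegaOne_of_comm h2]
      exact ⟨fun h => ⟨h.1, hIs h.1, h.2.2⟩, fun h => ⟨h.1, h.1.1, h.2.2⟩⟩
    rw [H3.card_eq_card_inf_mul_relIndex I (omegaOne p A),
      H3.card_eq_card_inf_mul_relIndex I (omegaOne p (H9.replStar A b)), e]
    exact Nat.mul_le_mul_left _ key
  · obtain ⟨ha, hap⟩ := (H9.mem_omegaOne_of_comm hA).1 ha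
    refine H9.mem_omegaOne_of (mem_sup_right (subset_closure ⟨a, ha, rfl⟩)) ?_
    have c1 : b⁻¹ * a⁻¹ * b ∈ N := H9.conj_mem_of_mem_normalizer' hbN (hAN (inv_mem ha))
    have c2 : b * a * b⁻¹ ∈ N := H9.conj_mem_of_mem_normalizer hbN (hAN ha)
    have z1 : ⁅b⁻¹ * a⁻¹ * b, a⁆ ∈ A := by
      have := A.mul_mem (H9.conj_mem_of_mem_normalizer c1.2 ha) (A.inv_mem ha)
      simpa [commutatorElement_def, mul_assoc] using this
    have z2 : b * ⁅b⁻¹ * a⁻¹ * b, a⁆ * b⁻¹ ∈ A := by
      have := A.mul_mem (A.inv_mem ha) (H9.conj_mem_of_mem_normalizer c2.2 ha)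
      simpa [commutatorElement_def, mul_assoc] using this
    have e1 := H9.isMulCommutative_iff'.1 hA _ z2 _ (inv_mem ha)
    have := H9.mul_pow_eq_one_of_odd (a := a) (c := b⁻¹ * a⁻¹ * b) (n := p) ?_
      (H9.isMulCommutative_iff'.1 hA _ z1 _ ha) hodd hap (by
        rw [show b⁻¹ * a⁻¹ * b = b⁻¹ * a⁻¹ * b⁻¹⁻¹ by group, conj_pow, inv_pow, hap]; simp)
    · simpa [mul_assoc] using this
    · show _ * _ = _ * _
      calc ⁅b⁻¹ * a⁻¹ * b, a⁆ * (b⁻¹ * a⁻¹ * b)
          = b⁻¹ * (b * ⁅b⁻¹ * a⁻¹ * b, a⁆ * b⁻¹ * a⁻¹) * b := by group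
        _ = _ := by rw [e1]; group
  · have ha1 := H9.omegaOne_le _ _ ha
    have ha2 := H9.omegaOne_le _ _ ha'
    refine ⟨A.mul_mem (A.inv_mem ha1) ha2, ?_⟩
    have h3 := H9.mem_map_conj.1 h.2
    refine H9.mem_map_conj.2 ?_
    have := A.mul_mem (A.mul_mem (A.inv_mem ha1) h3) ha2
    convert this using 1
    group

end Cfsg.Agent.S3078
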