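import Cfsg.Statements.S3087
import Cfsg.Agent.H24.CD

set_option autoImplicit false
open Cfsg

namespace Cfsg.Agent.S3087

/-- Let p be a prime, G a finite group acting linearly on a finite vector space V over the field with p elements, W a G-invariant subspace, and A a subgroup of G with |A|·|C_V(A)| ≥ |B|·|C_V(B)| for every subgroup B of A. Then |A|·|C_W(A)| ≥ |B|·|C_W(B)| for every subgroup B of A that contains C_A(W); that is, the image of A in the group induced on W satisfies the same maximality condition. -/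
theorem result {G V : Type*} [Group G] [Finite G] [AddCommGroup V] [Finite V] (p : ℕ) [Fact p.Prime] [Module (ZMod p) V]
    (ρ : Representation (ZMod p) G V) (W : Submodule (ZMod p) V) (hW : ∀ g : G, ∀ w ∈ W, ρ g w ∈ W)
    (A : Subgroup G)
    (hP : ∀ B : Subgroup G, B ≤ A →
      Nat.card ↥B * Nat.card {v : V // ∀ b ∈ B, ρ b v = v} ≤ Nat.card ↥A * Nat.card {v : V // ∀ a ∈ A, ρ a v = v})
    (B : Subgroup G) (hBA : B ≤ A) (hCB : ∀ a ∈ A, (∀ w ∈ W, ρ a w = w) → a ∈ B) :
    Nat.card ↥B * Nat.card {w : W // ∀ b ∈ B, ρ b w = w} ≤ Nat.card ↥A * Nat.card {w : W // ∀ a ∈ A, ρ a w = w} := by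
  open Subgroup Cfsg.Agent.H24 in
  open scoped commutatorElement in
  open Cfsg.Agent.H10 (SubnormalIn OqOf) in
  open Cfsg.Agent.H9 (maxEA) in
  let F : Subgroup G → AddSubgroup V := fun K =>
    { carrier := {v | ∀ b ∈ K, ρ b v = v}
      zero_mem' := fun b _ => map_zero _
      add_mem' := fun hx hy b hb => by rw [map_add, hx b hb, hy b hb]
      neg_mem' := fun hx b hb => by rw [map_neg, hx b hb] }
  have h1 : ∀ K, Nat.card {v : V // ∀ b ∈ K, ρ b v = v} = Nat.card (F K) := fun K => rfl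
  have h2 : ∀ K : Subgroup G, Nat.card {w : W // ∀ b ∈ K, ρ b w = w} = Nat.card (F K ⊓ W.toAddSubgroup : AddSubgroup V) := fun K =>
    Nat.card_congr ⟨fun w => ⟨w.1, w.2, w.1.2⟩, fun w => ⟨⟨w.1, w.2.2⟩, w.2.1⟩, fun _ => rfl, fun _ => rfl⟩
  rw [h2, h2]
  have h3 := hP B hBA
  rw [h1, h1] at h3
  have h4 : F A ≤ F B := fun v hv b hb => hv b (hBA hb)
  have h5 := H2.card_mul_card_le (G := Multiplicative V) (L := (F B).toSubgroup) (H := (F A).toSubgroup) (K := (F B ⊓ W.toAddSubgroup).toSubgroup) h4 (fun v hv => hv.1)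
  have h6 : (F A).toSubgroup ⊓ (F B ⊓ W.toAddSubgroup).toSubgroup = (F A ⊓ W.toAddSubgroup).toSubgroup := by
    ext v
    exact ⟨fun h => ⟨h.1, h.2.2⟩, fun h => ⟨h.1, h4 h.1, h.2⟩⟩
  rw [h6] at h5
  change Nat.card (F A) * Nat.card (F B ⊓ W.toAddSubgroup : AddSubgroup V) ≤ Nat.card (F B) * Nat.card (F A ⊓ W.toAddSubgroup : AddSubgroup V) at h5
  have p1 : 0 < Nat.card (F A) := Nat.card_pos
  have p2 : 0 < Nat.card (F B) := Nat.card_pos
  refine Nat.le_of_mul_le_mul_left ?_ (Nat.mul_pos p1 p2)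
  have := Nat.mul_le_mul h3 h5
  nlinarith

end Cfsg.Agent.S3087
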