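import Cfsg.Statements.S3117
import Cfsg.Agent.H11.T3

set_option autoImplicit false
open Cfsg Subgroup Cfsg.Agent.H4 Cfsg.Agent.H11

namespace Cfsg.Agent.S3117

/-- If X is a finite 2-group containing exactly three involutions, then the automorphism group of X is solvable. -/
theorem result {X : Type*} [Group X] [Finite X] (h2 : IsPGroup 2 X) (h3 : Nat.card {x : X // orderOf x = 2} = 3) : Group.IsSolvable (MulAut X) := by
  classical
  have ho : ∀ {x : X}, x ≠ 1 → x * x = 1 → orderOf x = 2 := fun h1 h2 =>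
    orderOf_eq_prime ((sq _).trans h2) h1
  have hs : {x : X | orderOf x = 2}.ncard = 3 := h3
  obtain ⟨t₀, ht₀⟩ := Set.nonempty_of_ncard_ne_zero (s := {x : X | orderOf x = 2}) (by omega)
  haveI : Nontrivial X := ⟨t₀, 1, fun e => by simp [e] at ht₀⟩
  haveI := h2.center_nontrivial
  obtain ⟨⟨y, hy⟩, hy1⟩ := exists_ne (1 : center X)
  obtain ⟨k, z1, z2⟩ := exists_invol_pow h2 (show y ≠ 1 from fun e => hy1 (Subtype.ext e))
  have hz := pow_mem hy k
  generalize y ^ k = z at *
  obtain ⟨t, ht, htz⟩ := Set.exists_ne_of_one_lt_ncard (s := {x : X | orderOf x = 2}) (by omega) z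
  have t1 : t ≠ 1 := fun e => by simp [e] at ht
  have hV := isKleinFour_closure (ho z1 z2) ht htz.symm (mem_center_iff.1 hz t).symm
  have zV : z ∈ closure ({z, t} : Set X) := subset_closure (by simp)
  have tV : t ∈ closure ({z, t} : Set X) := subset_closure (by simp)
  generalize closure ({z, t} : Set X) = V at *
  have hmem : ∀ x, x ∈ V ↔ x * x = 1 := fun x => ⟨klein_sq hV, fun e => by
    have : (V : Set X) \ {1} = {x : X | orderOf x = 2} := Set.eq_of_subset_of_ncard_le
      (fun x hx => klein_orderOf hV hx.1 hx.2) (by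
        rw [hs, Set.ncard_diff_singleton_of_mem (one_mem V)]
        exact (congrArg (· - 1) hV.card_four).ge)
    by_cases h1 : x = 1
    · rw [h1]; exact one_mem V
    · exact (this.ge (ho h1 e)).1⟩
  have hc := fun {x} => klein_mem_iff hV zV tV z1 t1 htz.symm (x := x)
  haveI : V.Characteristic := L0.char_of_forall fun φ x hx =>
    (hmem _).2 (by rw [← map_mul, (hmem x).1 hx, map_one])
  have hC : ∀ g, g ∈ centralizer (V : Set X) ↔ g * t * g⁻¹ = t := fun g =>
    ⟨fun e => by rw [← e t tV]; group, fun e v hv => by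
      have e1 := mem_center_iff.1 hz g
      have e2 := mul_inv_eq_iff_eq_mul.1 e
      rcases hc.1 hv with rfl | rfl | rfl | rfl
      exacts [by simp, e1.symm, e2.symm, by rw [← mul_assoc, e1, mul_assoc, mul_assoc, e2]]⟩
  have hT : T3 (centralizer (V : Set X)) := by
    have e : ∀ x : centralizer (V : Set X), x * x = 1 → x ∈ center _ := fun x hx =>
      mem_center_iff.2 fun g => Subtype.ext (g.2 x ((hmem _).2 (congrArg Subtype.val hx))).symm
    refine ⟨h2.to_subgroup _, e, hV.card_four ▸ Nat.card_congr ⟨fun x => ⟨x.1, (hmem _).2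
      (congrArg Subtype.val x.2.2)⟩, fun x => ⟨⟨x, fun v hv => klein_comm hV hv x.2⟩, e _ ?_, ?_⟩,
        fun _ => rfl, fun _ => rfl⟩⟩ <;> exact Subtype.ext (klein_sq hV x.2)
  let K := (MulAut.characteristic V).ker
  let r := MulAut.characteristic (centralizer (V : Set X))
  have key : ∀ p : ℕ, p.Prime → p ≠ 2 → p ∣ Nat.card K → ∃ a, orderOf (r a) = p ∧
      ∀ z ∈ Om (centralizer (V : Set X)), r a z = z := by
    intro p hp hp2 hd
    haveI := Fact.mk hp
    obtain ⟨⟨a, ha⟩, hap⟩ := exists_prime_orderOf_dvd_card' p hd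
    rw [orderOf_mk] at hap
    have hf : ∀ v ∈ V, a v = v := fun v hv => congrArg Subtype.val (DFunLike.congr_fun ha (⟨v, hv⟩ : V))
    refine ⟨a, orderOf_eq_prime (by rw [← map_pow, ← hap, pow_orderOf_eq_one, map_one]) fun e => ?_,
      fun z hz => Subtype.ext (hf _ ((hmem _).2 (congrArg Subtype.val hz.2)))⟩
    have e1 : ∀ x ∈ centralizer (V : Set X), a x = x := fun x hx =>
      congrArg Subtype.val (DFunLike.congr_fun e (⟨x, hx⟩ : centralizer (V : Set X)))
    refine hp.ne_one (hap.symm.trans (orderOf_eq_one_iff.2 (MulEquiv.ext fun x => ?_)))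
    have e2 : x⁻¹ * a x ∈ centralizer (V : Set X) := (hC _).2 (by
      have := hf _ (Normal.conj_mem inferInstance t tV x)
      rw [map_mul, map_mul, map_inv, hf t tV] at this
      calc _ = x⁻¹ * (a x * t * (a x)⁻¹) * x := by group
        _ = t := by rw [this]; group)
    have e3 : ∀ n : ℕ, (a ^ n) x = x * (x⁻¹ * a x) ^ n := fun n => by
      induction n with
      | zero => simp
      | succ n ih => rw [pow_succ', MulAut.mul_apply, ih, map_mul, e1 _ (pow_mem e2 n), pow_succ',
          ← mul_assoc, mul_inv_cancel_left]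
    have e4 := e3 p
    rw [← hap, pow_orderOf_eq_one, hap] at e4
    obtain ⟨j, hj⟩ := h2 (x⁻¹ * a x)
    have := (pow_eq_one_iff_of_coprime ((Nat.coprime_primes hp Nat.prime_two).2 hp2 |>.pow_right j)).1
      ⟨by simpa using e4.symm, hj⟩
    exact (inv_mul_eq_one.1 this).symm
  haveI : Group.IsSolvable K := by
    have e : ∀ p : ℕ, p.Prime → p ≠ 2 → p ∣ Nat.card K → p = 3 ∨ p = 5 ∧ ¬ 3 ∣ Nat.card K :=
      fun p hp hp2 hd => by
        obtain ⟨a, a1, a2⟩ := key p hp hp2 hd
        refine (hT.prime_cases hp hp2 a1 a2).imp_right fun e => ⟨e.1, fun e3 => ?_⟩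
        obtain ⟨b, b1, b2⟩ := key 3 Nat.prime_three (by norm_num) e3
        exact e.2 _ b1 b2
    by_cases h : 3 ∣ Nat.card K
    · exact isSolvable_of_forall_prime_dvd Nat.prime_two Nat.prime_three fun p hp hd =>
        or_iff_not_imp_left.2 fun e2 => (e p hp e2 hd).resolve_right fun e => e.2 h
    · exact isSolvable_of_forall_prime_dvd Nat.prime_two Nat.prime_five fun p hp hd =>
        or_iff_not_imp_left.2 fun e2 => ((e p hp e2 hd).resolve_left fun e => h (e ▸ hd)).1
  haveI : Group.IsSolvable (MulAut V) :=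
    isSolvable_of_forall_prime_dvd Nat.prime_two Nat.prime_three fun p hp hd => by
      have := hd.trans (card_dvd_of_injective (MulAut.toPerm V) fun a b e =>
        MulEquiv.ext fun x => DFunLike.congr_fun e x)
      rw [Nat.card_perm, hV.card_four, show (4 : ℕ).factorial = 2 ^ 3 * 3 by norm_num [Nat.factorial],
        hp.dvd_mul] at this
      exact this.imp (fun e => (Nat.prime_dvd_prime_iff_eq hp Nat.prime_two).1 (hp.dvd_of_dvd_pow e))
        (Nat.prime_dvd_prime_iff_eq hp Nat.prime_three).1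
  exact solvable_of_ker_le_range K.subtype (MulAut.characteristic V) (range_subtype K).ge

end Cfsg.Agent.S3117
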