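import Cfsg.Statements.S3153
import Cfsg.Agent.H10.FTRows
import Cfsg.Agent.H10.FT
import Cfsg.Agent.H10.Four
import Cfsg.Agent.GW.PG2

set_option autoImplicit false
open Cfsg

namespace Cfsg.Agent.S3153

open Subgroup Cfsg.Agent.H10 Cfsg.Agent.H11
open scoped commutatorElement

/-- Let X be a finite group and P a standard subgroup of X whose centralizer has 2-rank at most 1 and whose centre has odd order. Let S be a Sylow 2-subgroup of N_X(P) and t an involution of S centralizing P. Suppose some element g of X normalizes S, does not lie in S, has its square in S, and conjugates t into P·C_X(P). Then P commutes elementwise with the largest normal odd-order subgroup O(X) of X; consequently every t-invariant 2-component of X containing P is quasisimple. -/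
theorem result {X : Type*} [Group X] [Finite X] (P : Subgroup X) (hP : Cfsg.IsStandardSubgroup P)
    (hr : Cfsg.PRankLE 2 1 ↥(Subgroup.centralizer (P : Set X))) (hZ : Odd (Nat.card ↥(Subgroup.center ↥P)))
    (S : Sylow 2 ↥(Subgroup.normalizer (P : Set X))) (t : X) (ht : orderOf t = 2) (htS : t ∈ (S : Subgroup ↥(Subgroup.normalizer (P : Set X))).map (Subgroup.normalizer (P : Set X)).subtype)
    (htP : t ∈ Subgroup.centralizer (P : Set X))
    (g : X) (hgN : ∀ s ∈ (S : Subgroup ↥(Subgroup.normalizer (P : Set X))).map (Subgroup.normalizer (P : Set X)).subtype, g * s * g⁻¹ ∈ (S : Subgroup ↥(Subgroup.normalizer (P : Set X))).map (Subgroup.normalizer (P : Set X)).subtype)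
    (hgS : g ∉ (S : Subgroup ↥(Subgroup.normalizer (P : Set X))).map (Subgroup.normalizer (P : Set X)).subtype) (hg2 : g ^ 2 ∈ (S : Subgroup ↥(Subgroup.normalizer (P : Set X))).map (Subgroup.normalizer (P : Set X)).subtype)
    (hgt : g * t * g⁻¹ ∈ P ⊔ Subgroup.centralizer (P : Set X)) :
    ⁅P, Cfsg.oddCore X⁆ = ⊥ ∧
      ∀ L : Subgroup X, Cfsg.IsPComponent 2 L → P ≤ L → (∀ l ∈ L, t * l * t⁻¹ ∈ L) → Cfsg.IsQuasisimple ↥L := by
  have hS := isSylIn_map S
  generalize (S : Subgroup ↥(normalizer (P : Set X))).map (normalizer (P : Set X)).subtype = T at *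
  have t2 := mul_self_of_orderOf_two ht
  have t1 := ne_one_of_orderOf_two ht
  have u : ∀ c ∈ centralizer (P : Set X), ∀ d ∈ centralizer (P : Set X), orderOf c = 2 → orderOf d = 2 →
      c * d = d * c → c = d := fun c hc d hd c2 d2 e => by_contra fun e' => not_pRankLE_one_iff.2
    ⟨_, (closure_le _).2 (Set.pair_subset hc hd), isKleinFour_closure c2 d2 e' e⟩ hr
  have n : centralizer {t} ≤ normalizer (P : Set X) := le_trans (fun g hg => cj_eq_iff.1 (by
      rw [cj_zpowers, mul_inv_eq_iff_eq_mul.2 (mem_cent1.1 hg)]))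
    (le_normalizer_of_standard hP (zpowers_le.2 htP) (by rw [Nat.card_zpowers, ht]))
  have o := (H11.orderOf_conj g t).trans ht
  have s1 : g * t * g⁻¹ ≠ t := fun e => hgS (by
    obtain ⟨k, hk⟩ := hS.pg ⟨_, hg2⟩
    obtain ⟨j, -, hj⟩ := (Nat.dvd_prime_pow Nat.prime_two).1 (orderOf_dvd_of_pow_eq_one
      (show g ^ 2 ^ (k + 1) = 1 by rw [pow_succ', pow_mul]; exact congrArg Subtype.val hk))
    exact hS.mem_of_normalizes hj (n (mem_cent1.2 (mul_inv_eq_iff_eq_mul.1 e)))
      (mem_normalizer_of_forall hgN))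
  have sT := hgN t htS
  have c0 : Nat.card (pPrimeCore 2 X ⊓ centralizer {g * t * g⁻¹} : Subgroup X) ≤
      Nat.card (pPrimeCore 2 X ⊓ centralizer {t} : Subgroup X) := by
    rw [← cj_cent1, ← card_cj g (_ ⊓ centralizer {t}), cj_inf, cj_eq_of_normal (H := pPrimeCore 2 X)]
  generalize g * t * g⁻¹ = s at *
  have s2 := mul_self_of_orderOf_two o
  have st : t * s = s * t := by
    obtain ⟨z, z1, z2, z3⟩ := exists_orderOf_eq_centralizer_of_normalized hS.pg
      (hS.pg.to_inf_left (K := centralizer (P : Set X))) (fun e => t1 (mem_bot.1 (e.le ⟨htS, htP⟩)))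
      ((le_inf le_normalizer (hS.le.trans hP.2.2.2.le)).trans inf_normalizer_le_normalizer_inf)
    rw [u t htP z z1.2 ht z2 (z3 t htS), z3 s sT]
  have oZ : ∀ x ∈ P, x ∈ centralizer (P : Set X) → Odd (orderOf x) := fun x h1 h2 =>
    orderOf_mk x h1 ▸ odd_orderOf_of_odd_card hZ (mem_center_iff.2 fun y => Subtype.ext (h2 y y.2))
  obtain ⟨a, ha, a2, e⟩ : ∃ a ∈ P, a * a = 1 ∧ (s = a ∨ s = a * t) := by
    obtain ⟨a, ha, c, hc, rfl⟩ := (mem_sup_iff_of_right_le_normalizer (centralizer_le_normalizer _)).1 hgt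
    have k : Commute a c := hc a ha
    have e : a * a * (c * c) = 1 := by rw [← s2, k.mul_mul_mul_comm, k.eq]
    have h1 := oZ _ (mul_mem ha ha) (eq_inv_of_mul_eq_one_left e ▸ inv_mem (mul_mem hc hc))
    set m := orderOf (a * a)
    have h2 : a ^ m * a ^ m = 1 := by rw [← (Commute.refl a).mul_pow, pow_orderOf_eq_one]
    have h3 : a ^ m * c ^ m = a * c := by
      obtain ⟨j, hj⟩ := h1
      rw [← k.mul_pow, hj, pow_succ, pow_mul, pow_two, s2, one_pow, one_mul]
    have h4 : c ^ m * c ^ m = 1 := by
      rw [← s2, ← h3, (k.pow_pow m m).symm.mul_mul_mul_comm, h2, one_mul]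
    refine ⟨_, pow_mem ha m, h2, ?_⟩
    by_cases c1 : c ^ m = 1
    · exact .inl (by rw [← h3, c1, mul_one])
    refine .inr (by
      rw [← u _ (pow_mem hc m) t htP (orderOf_two_of c1 h4) ht (mul_left_cancel (a := a ^ m) (by
        rw [← mul_assoc, h3, ← st, ← h3, ← mul_assoc, ← mul_assoc, htP _ (pow_mem ha m)])), h3])
  have aK : a ∉ centralizer (P : Set X) := fun h => by
    obtain rfl := eq_one_of_odd_of_sq (oZ a ha h) a2
    rcases e with e | e
    · exact ne_one_of_orderOf_two o e
    · exact s1 (by rw [e, one_mul])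
  have hW := isKleinFour_closure ht o s1.symm st
  have At : P ≤ centralizer {t} := fun a ha => mem_cent1.2 (htP a ha)
  have cA : CompOf P (centralizer {t}) := ⟨.of_normal At n, hP.1⟩
  have oO : Odd (Nat.card (pPrimeCore 2 X)) :=
    Nat.coprime_two_right.1 (OqOf_top (G := X) 2 ▸ OqOf_coprime)
  set O := pPrimeCore 2 X
  have h1 : O ⊓ centralizer {t} ≤ centralizer (P : Set X) := commutator_eq_bot_iff_le_centralizer.1
    (commutator_eq_bot_comm (cA.commutator_solvable inf_le_right
      ((le_inf le_normalizer_of_normal (At.trans le_normalizer)).trans inf_normalizer_le_normalizer_inf)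
      (isSolvable_of_le inf_le_left (FT.solvable_of_odd oO))))
  have h2 : O ⊓ centralizer {t} ≤ centralizer {s} := fun x hx => mem_cent1.2 (by
    rcases e with rfl | rfl
    · exact (h1 hx s ha).symm
    · rw [← mul_assoc, ← h1 hx a ha, mul_assoc, mem_cent1.1 hx.2, mul_assoc])
  have h3 : O ⊓ centralizer {t} = O ⊓ centralizer {s} := eq_of_le_of_card_ge (le_inf inf_le_left h2) c0
  have h5 : O ⊓ centralizer {t} ≤ centralizer {t * s} := fun x hx => mem_cent1.2 (by
    rw [← mul_assoc, mem_cent1.1 hx.2, mul_assoc, mem_cent1.1 (h2 hx), mul_assoc])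
  have h4 : O ≤ centralizer {t * s} := GW.le_of_klein_gen hW le_normalizer_of_normal oO fun v hv v1 => by
    rcases (klein_mem_iff hW (subset_closure (by simp)) (subset_closure (by simp)) t1
      (ne_one_of_orderOf_two o) s1.symm).1 hv with e | e | e | e
    · exact absurd e v1
    · exact e ▸ h5
    · rw [e, ← h3]; exact h5
    · exact e ▸ inf_le_right
  have h6 : P ≤ centralizer (O : Set X) := inf_eq_left.1 ((QS.normal_cases hP.1 inf_le_left
    ((le_inf le_normalizer le_normalizer_of_normal).trans inf_normalizer_le_normalizer_inf)).resolve_left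
      fun h => aK fun p (hp : p ∈ P) => by
        have k0 : t * s ∈ centralizer (O : Set X) := fun x hx => mem_cent1.1 (h4 hx)
        have k1 : p * (t * s) * p⁻¹ * (t * s)⁻¹ = p * a * p⁻¹ * a⁻¹ := by
          rcases e with rfl | rfl
          · rw [← mul_assoc, htP p hp, mul_assoc t, mul_assoc t, ← htP _ (mul_mem (mul_mem hp ha) (inv_mem hp)),
              ← htP s ha]
            group
          · rw [htP a ha, ← mul_assoc t, t2, one_mul]

        have k2 := mul_mem (mul_mem (mul_mem hp ha) (inv_mem hp)) (inv_mem ha)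
        have k3 := commutator_eq_bot_iff_le_centralizer.1 h (mem_inf.2 ⟨k2, k1 ▸ mul_mem
          (Subgroup.Normal.conj_mem inferInstance _ k0 p) (inv_mem k0)⟩)
        have k4 := eq_one_of_odd_of_sq (oZ _ k2 k3) (by
          have a3 : a⁻¹ = a := inv_eq_of_mul_eq_one_left a2
          calc _ = p * a * p⁻¹ * (a * (p * a * p⁻¹ * a⁻¹)) := by rw [a3]; group
            _ = p * (a * a) * p⁻¹ * (a⁻¹ * a) := by rw [k3 a ha]; group
            _ = 1 := by rw [a2]; group)
        calc p * a = p * a * p⁻¹ * a⁻¹ * (a * p) := by group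
          _ = _ := by rw [k4, one_mul])
  refine ⟨commutator_eq_bot_iff_le_centralizer.2 h6, fun L hL hPL _ => ?_⟩
  have hL' := pcompOf_top.2 hL
  have k : OqOf 2 L ≤ O := (OqOf_eq_of_subnormal hL.1).le.trans inf_le_right
  rcases hL'.2.subnormal_cases (.of_normal (inf_le_left (b := centralizer (O : Set X)))
    ((le_inf le_normalizer le_normalizer_of_normal).trans inf_normalizer_le_normalizer_inf)) with h | h
  · exact absurd ((QS.perfect hP.1).ge.trans ((commutator_mono (le_inf hPL h6) hPL).trans (h.trans k)))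
      (QS.not_le_solvable hP.1 (FT.solvable_of_odd oO))
  · exact hL'.2.isQuasisimple (commutator_eq_bot_comm (commutator_eq_bot_iff_le_centralizer.2
      ((inf_eq_left.1 h).trans (centralizer_le k))))

end Cfsg.Agent.S3153
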