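import Cfsg.Statements.S3154
import Cfsg.Agent.S0380
import Cfsg.Agent.H6.MSubD
import Cfsg.Agent.H16.Abs
import Cfsg.Agent.H1.Gaschutz
import Cfsg.Agent.BG.Rank
-- import your own Cfsg.Agent.* helpers here

set_option autoImplicit false
open Cfsg

namespace Cfsg.Agent.S3154

open Cfsg.Agent

open Cfsg.Agent.H16 Cfsg.Agent.H6.MSub Subgroup Matrix

section abs
variable {X G : Type*} [Group X] [Group G]

theorem elem (π : X →* G) {K E : Subgroup G} (hker : ∀ x, π x = 1 ↔ x ∈ center X)
    (hs : ∀ y ∈ K, ∃ x, π x = y) (hZ : ∀ z ∈ center X, z ^ 2 = 1) (hE : E ≤ K)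
    (hc : Nat.card E = 16) (h2 : ∀ x ∈ E, x * x = 1)
    {z : G} (hcj : ∀ x ∈ K, x * x = 1 → x ≠ 1 → ∃ c ∈ K, c * x * c⁻¹ = z) :
    IsElementaryAbelian 2 (E.comap π) := by
  classical
  have cz : ∀ u, π u ∈ E → u * u ∈ center X := fun u hu => (hker _).mp (by rw [map_mul, h2 _ hu])
  have sq : ∀ u v : X, π u ∈ E → π v ∈ E → π u ≠ 1 → π v ≠ 1 → u * u = v * v := by
    intro u v hu hv nu nv
    obtain ⟨c, hc, e1⟩ := hcj _ (hE hu) (h2 _ hu) nu
    obtain ⟨d, hd, e2⟩ := hcj _ (hE hv) (h2 _ hv) nv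
    obtain ⟨c, rfl⟩ := hs c hc
    obtain ⟨d, rfl⟩ := hs d hd
    have a : ∀ u c : X, π u ∈ E → (c * u * c⁻¹) * (c * u * c⁻¹) = u * u := fun u c hu => by
      calc _ = c * (u * u) * c⁻¹ := by group
        _ = _ := by rw [mem_center_iff.mp (cz u hu) c]; group
    rw [← a u c hu, ← a v d hv]
    have t : (c * u * c⁻¹)⁻¹ * (d * v * d⁻¹) ∈ center X := (hker _).mp (by
      simp only [map_mul, map_inv, e1, e2, inv_mul_cancel])
    generalize c * u * c⁻¹ = p at t ⊢
    generalize d * v * d⁻¹ = q at t ⊢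
    calc p * p = p * p * (p⁻¹ * q) ^ 2 := by rw [hZ _ t, mul_one]
      _ = p * (p * (p⁻¹ * q)) * (p⁻¹ * q) := by rw [pow_two]; group
      _ = _ := by rw [mem_center_iff.mp t p]; group
  have ex : ∀ s : Finset G, s.card < 16 → ∃ x : X, π x ∈ E ∧ π x ∉ s := fun s h => by
    by_contra! hh
    have : (E : Set G) ⊆ s := fun y hy => by obtain ⟨x, rfl⟩ := hs y (hE hy); exact hh x hy
    have := Set.ncard_le_ncard this s.finite_toSet
    rw [Set.ncard_coe_finset, ← Nat.card_coe_set_eq] at this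
    exact absurd (hc ▸ this : 16 ≤ s.card) (by omega)
  obtain ⟨x, hx, nx⟩ := ex {1} (by simp)
  obtain ⟨y, hy, ny⟩ := ex {1, (π x)⁻¹} (Finset.card_le_two.trans_lt (by norm_num))
  obtain ⟨w, hw, nw⟩ := ex {1, (π x)⁻¹, (π y)⁻¹, (π x * π y)⁻¹} (Finset.card_le_four.trans_lt (by norm_num))
  simp only [Finset.mem_insert, Finset.mem_singleton, not_or] at nx ny nw
  have cc : x * x * (x * x) = 1 := by rw [← pow_two (x * x)]; exact hZ _ (cz x hx)
  have cm : ∀ v, π v ∈ E → π v ≠ 1 → π v ≠ (π x)⁻¹ → v * x = x * x * (x * v) := fun v hv n1 n2 => by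
    have h1 := sq v x hv hx n1 nx
    have h3 := sq (x * v) x (by rw [map_mul]; exact E.mul_mem hx hv) hx
      (by rw [map_mul]; exact fun e => n2 (eq_inv_of_mul_eq_one_right e)) nx
    calc v * x = x⁻¹ * (x * v * (x * v)) * v⁻¹ := by group
      _ = x⁻¹ * (x * x) * (x * x) * (v * v) * v⁻¹ := by rw [h3, h1, mul_assoc (x⁻¹ * (x * x)), cc, mul_one]
      _ = _ := by group
  have c1 : x * x = 1 := by
    have h1 := cm y hy ny.1 ny.2
    have h2 := cm w hw nw.1 nw.2.1
    have h3 := cm (y * w) (by rw [map_mul]; exact E.mul_mem hy hw)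
      (by rw [map_mul]; exact fun e => nw.2.2.1 (eq_inv_of_mul_eq_one_right e))
      (by rw [map_mul]; exact fun e => nw.2.2.2 (eq_inv_of_mul_eq_one_right (by rw [mul_assoc, e, mul_inv_cancel])))
    rw [mul_assoc y w x, h2, ← mul_assoc y, mem_center_iff.mp (cz x hx) y, mul_assoc (x * x), ← mul_assoc y, h1,
      mul_assoc (x * x), ← mul_assoc (x * x), cc, one_mul, mul_assoc] at h3
    exact (mul_eq_right.mp h3.symm)
  have all : ∀ u, π u ∈ E → u * u = 1 := fun u hu => by
    by_cases h : π u = 1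
    · rw [← pow_two]; exact hZ _ ((hker u).mp h)
    · rw [sq u x hu hx h nx, c1]
  refine ⟨⟨⟨fun a b => Subtype.ext ?_⟩⟩, fun a ha => by rw [pow_two]; exact all a ha⟩
  have h1 := inv_eq_of_mul_eq_one_right (all _ a.2)
  have h2 := inv_eq_of_mul_eq_one_right (all _ b.2)
  have h3 := inv_eq_of_mul_eq_one_right (all _ (a * b).2)
  rw [coe_mul, _root_.mul_inv_rev, h1, h2] at h3
  exact h3.symm

theorem comm_of {H : Subgroup X} (h : IsElementaryAbelian 2 H) {a b : X} (ha : a ∈ H) (hb : b ∈ H) : a * b = b * a :=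
  congrArg Subtype.val (h.1.is_comm.comm (⟨a, ha⟩ : H) ⟨b, hb⟩)

theorem cen (π : X →* G) {K E E' : Subgroup G} (hs : ∀ y ∈ K, ∃ x, π x = y) (hr : ∀ x, π x ∈ K)
    (hE : E ≤ K) (hE' : E' ≤ K) (hH : IsElementaryAbelian 2 (E.comap π)) (hH' : IsElementaryAbelian 2 (E'.comap π))
    (c1 : ∀ g ∈ K, (∀ x ∈ E, g * x = x * g) → g ∈ E) (c2 : ∀ g ∈ K, (∀ x ∈ E', g * x = x * g) → g ∈ E') :
    E.comap π ⊓ E'.comap π = (center ↥(E.comap π ⊔ E'.comap π)).map (E.comap π ⊔ E'.comap π).subtype := by
  refine le_antisymm (fun w hw => ?_) ?_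
  · refine ⟨⟨w, mem_sup_left hw.1⟩, mem_center_iff.mpr fun g => Subtype.ext ?_, rfl⟩
    have : E.comap π ⊔ E'.comap π ≤ centralizer {w} :=
      sup_le (fun a ha => mem_centralizer_singleton_iff.mpr (comm_of hH ha hw.1))
        (fun a ha => mem_centralizer_singleton_iff.mpr (comm_of hH' ha hw.2))
    exact mem_centralizer_singleton_iff.mp (this g.2)
  · rintro _ ⟨w, hw, rfl⟩
    have a : ∀ u ∈ E.comap π ⊔ E'.comap π, π w * π u = π u * π w := fun u hu => by
      rw [← map_mul, ← map_mul]; exact congrArg π (congrArg Subtype.val (mem_center_iff.mp hw ⟨u, hu⟩)).symm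
    exact ⟨c1 _ (hr _) fun y hy => by obtain ⟨u, rfl⟩ := hs y (hE hy); exact a u (mem_sup_left hy),
      c2 _ (hr _) fun y hy => by obtain ⟨u, rfl⟩ := hs y (hE' hy); exact a u (mem_sup_right hy)⟩

theorem cpl [Finite X] [Finite G] (π : X →* G) {K E E' N : Subgroup G} {A : Type*} [Group A]
    (hs : ∀ y ∈ K, ∃ x, π x = y) (hr : ∀ x, π x ∈ K)
    (hH : IsElementaryAbelian 2 (E.comap π)) (hH' : IsElementaryAbelian 2 (E'.comap π))
    (hN : K ⊓ normalizer (E : Set G) = N) (hEN : E ≤ N) (hE'N : E' ≤ N) (h64 : Nat.card (E ⊔ E' : Subgroup G) = 64)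
    (hcN : Nat.card N = 960) (ψ : N →* A) (hψ : Function.Surjective ψ) (hk : ∀ g : N, ψ g = 1 ↔ (g : G) ∈ E) :
    ∃ C : Subgroup X, C ≤ normalizer (E.comap π : Set X) ∧ C ⊓ E.comap π = ⊥ ∧
      E.comap π ⊔ C = normalizer (E.comap π : Set X) ∧ Nonempty (C ≃* A) := by
  have : Fact (Nat.Prime 2) := ⟨Nat.prime_two⟩
  have hNK : N ≤ K := hN ▸ inf_le_left
  have hNr : N ≤ π.range := fun y hy => hs y (hNK hy)
  have hM : normalizer (E.comap π : Set X) = N.comap π := by
    ext g
    rw [mem_comap, ← hN]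
    refine ⟨fun h => ⟨hr g, mem_normalizer_fintype (S := (E : Set G)) fun y hy => ?_⟩,
      fun h => mem_normalizer_fintype (S := (E.comap π : Set X)) fun y hy => ?_⟩
    · obtain ⟨u, rfl⟩ := hs y (hNK (hEN hy))
      have := (mem_normalizer_iff.mp h u).mp hy
      rwa [mem_comap, map_mul, map_mul, map_inv] at this
    · rw [SetLike.mem_coe, mem_comap, map_mul, map_mul, map_inv]
      exact (mem_normalizer_iff.mp h.2 _).mp hy
  obtain ⟨B, -, b2, b3, b4⟩ := BG.elem_exists_compl hH' (inf_le_right : E.comap π ⊓ E'.comap π ≤ _)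
  have hHM : E.comap π ≤ N.comap π := comap_mono hEN
  have hBM : B ≤ N.comap π := b2.trans (comap_mono hE'N)
  have : ((E.comap π).subgroupOf (N.comap π)).Normal := by rw [← hM]; infer_instance
  have : IsMulCommutative ((E.comap π).subgroupOf (N.comap π)) :=
    ⟨⟨fun a b => Subtype.ext (Subtype.ext (comm_of hH a.2 b.2))⟩⟩
  have hsup : E.comap π ⊔ B = (E ⊔ E').comap π := by
    rw [← comap_sup_eq_of_le_range π (hEN.trans hNr) (hE'N.trans hNr)]
    refine le_antisymm (sup_le_sup_left b2 _) (sup_le le_sup_left fun m hm => ?_)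
    obtain ⟨a, ha, b, hb, rfl⟩ := b4 m hm
    exact mul_mem (mem_sup_left ha.1) (mem_sup_right hb)
  have hidx : (((E ⊔ E').comap π).subgroupOf (N.comap π)).index = 15 := by
    change ((E ⊔ E').comap π).relIndex (N.comap π) = 15
    rw [relIndex_comap, map_comap_eq_self hNr]
    have := ((E ⊔ E').subgroupOf N).card_mul_index
    rw [Nat.card_congr (subgroupOfEquivOfLe (sup_le hEN hE'N)).toEquiv, h64, hcN] at this
    exact Nat.eq_of_mul_eq_mul_left (by norm_num : 0 < 64) (this.trans (by norm_num))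
  obtain ⟨k, hk2⟩ := IsPGroup.iff_card.mp (show IsPGroup 2 ((E.comap π).subgroupOf (N.comap π)) from
    fun g => ⟨1, Subtype.ext (Subtype.ext (by simpa using hH.2 _ g.2))⟩)
  obtain ⟨C, hC⟩ := H1.gaschutz_exists (K := (E.comap π).subgroupOf (N.comap π)) (A := B.subgroupOf (N.comap π))
    (U := ((E ⊔ E').comap π).subgroupOf (N.comap π)) (by rw [hk2, hidx]; exact Nat.Coprime.pow_left _ (by norm_num))
    (eq_bot_iff.mpr fun g hg => Subtype.ext (by
      have : (g : X) ∈ E.comap π ⊓ E'.comap π ⊓ B := ⟨⟨hg.2, b2 hg.1⟩, hg.1⟩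
      rwa [b3] at this))
    (by rw [← subgroupOf_sup hHM hBM, hsup])
  rw [hM]
  refine ⟨C.map (N.comap π).subtype, map_subtype_le _, eq_bot_iff.mpr ?_, ?_, ?_⟩
  · rintro _ ⟨⟨g, hg, rfl⟩, h⟩
    exact congrArg Subtype.val (disjoint_def.mp hC.disjoint h hg)
  · have := congrArg (Subgroup.map (N.comap π).subtype) hC.sup_eq_top
    rwa [Subgroup.map_sup, map_subgroupOf_eq_of_le hHM, ← MonoidHom.range_eq_map, range_subtype] at this
  · refine ⟨(equivMapOfInjective C _ (N.comap π).subtype_injective).symm.trans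
      (MulEquiv.ofBijective ((ψ.comp (π.subgroupComap N)).comp C.subtype)
        ⟨(injective_iff_map_eq_one _).mpr fun g hg => Subtype.ext (disjoint_def.mp hC.disjoint ((hk _).mp hg) g.2), fun a => ?_⟩)⟩
    obtain ⟨n, rfl⟩ := hψ a
    obtain ⟨u, hu⟩ := hNr n.2
    obtain ⟨⟨h, c⟩, e⟩ := hC.existsUnique (⟨u, by rw [mem_comap, hu]; exact n.2⟩ : N.comap π) |>.exists
    refine ⟨c, ?_⟩
    have e1 : π.subgroupComap N (h * c) = n := by rw [show (h : N.comap π) * c = _ from e]; exact Subtype.ext hu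
    have e2 : ψ (π.subgroupComap N h) = 1 := (hk _).mpr h.2
    rw [← e1, map_mul, map_mul, e2, one_mul]; rfl
end abs

abbrev S2 := SpecialLinearGroup (Fin 2) F4
theorem card_S2 : Nat.card S2 = 60 := by
  have := H12.card_SL_fin card_F4 2 (by norm_num)
  rw [Fin.prod_univ_two] at this
  exact Nat.eq_of_mul_eq_mul_left (by norm_num) (this.trans (by norm_num))
theorem gS2 : Gen (vecPt el4 4 2) (4 ^ 2) 4 (⊤ : Subgroup S2) [15924353938491912720, 16263739861523539440, pid 4 (4 ^ 2)] :=
  gen_top (G := S2) (pt := vecPt el4 4 2) (w := 4) (by norm_num) (inj_vecPt inj_el4 2) card_S2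
    [(⟨!![⟨1, 0⟩, ⟨1, 1⟩; ⟨0, 0⟩, ⟨1, 0⟩], by decide +kernel⟩, 15924353938491912720), (⟨!![⟨1, 1⟩, ⟨0, 0⟩; ⟨1, 1⟩, ⟨0, 1⟩], by decide +kernel⟩, 16263739861523539440), (1, pid 4 (4 ^ 2))]
    (by decide +kernel) [[1, 0, 1, 1, 0, 1, 0, 1, 1, 0, 1]] [1, 4] (by decide) (by decide +kernel)
theorem in21 {S : List ℕ} (h : allL S (fixAll [bit 23, bit 0, bit 1]) = true) : ∀ p ∈ S, InK gpt 24 K21 (get 5 p) :=
  inK_of_fixAll h fun _ h => ⟨⟨fix_bit h (by norm_num) (by simp), fix_bit h (by norm_num) (by simp)⟩, fix_bit h (by norm_num) (by simp)⟩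

def Dat (ES ES' : List ℕ) (E : Subgroup M24) : Prop :=
  Gen gpt 24 5 E ES ∧ E ≤ K21 ∧ Nat.card E = 16 ∧ (∀ x ∈ E, x * x = 1) ∧
    (∀ g ∈ K21, (∀ x ∈ E, g * x = x * g) → g ∈ E) ∧ ∃ N : Subgroup M24, K21 ⊓ normalizer (E : Set M24) = N ∧ E ≤ N ∧
      Nat.card N = 960 ∧ (∀ p ∈ ES', InK gpt 24 N (get 5 p)) ∧
      ∃ ψ : N →* (⊤ : Subgroup S2), Function.Surjective ψ ∧ ∀ g : N, ψ g = 1 ↔ (g : M24) ∈ E

theorem dat {a b e : ℕ} {pr : List (List ℕ)} {ES ES' : List ℕ}
    (h1 : allL [a, b, e] (fixAll [bit 23, bit 0, bit 1]) = true)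
    (h2 : withSS mul24 5 24 [2, 3, 4, 5] (slp 5 24 pr [a, b, e]) (fun lv => Nat.beq (cntLv 5 24 lv) 960) = true)
    (h3 : withLv mul24 5 24 [2, 3, 4, 5] (slp 5 24 pr [a, b, e]) 960
      (fun lv => allL (ES ++ ES') fun p => memB mul24 5 24 lv p (pid 5 24)) = true)
    (h4 : normChk mul24 5 24 [2, 3, 4, 5] [a, b, e] ES 16 = true)
    (h5 : subChk mul24 5 24 [2, 3, 4, 5] m21S 20160 (preCent 5 24 ES) (qCent 5 24 ES) (commAll mul24 5 24 ES)
      (commAll mul24 5 24 ES) ES 16 = true)
    (h6 : homChk 5 24 4 (4 ^ 2) 6 [(a, 15924353938491912720), (b, 16263739861523539440), (e, pid 4 (4 ^ 2))] (ES.map fun p => (p, pid 4 (4 ^ 2))) pr [2, 3, 4, 5] = true)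
    (h7 : abelChk 5 24 2 ES = true) : ∃ E, Dat ES ES' E := by
  have gN := gen_clos (faith_M24 K21) (in21 h1)
  have hNK : clos gpt 24 5 K21 [a, b, e] ≤ K21 := clos_le
  generalize clos gpt 24 5 K21 [a, b, e] = N at gN hNK
  have cN := card_ss (gN.slp five_le pr) [2, 3, 4, 5] (by decide) h2
  have i1 := inK_of_memB mulOk24 gpt_inj (B := [2, 3, 4, 5]) (by decide) (gN.slp five_le pr).1 cN.le h3
  have i2 : ∀ p ∈ ES, InK gpt 24 N (get 5 p) := fun p hp => i1 p (List.mem_append_left _ hp)
  obtain ⟨cE, nE⟩ := normal_clos mulOk24 gpt_inj (faith_M24 N) gN i2 (B := [2, 3, 4, 5]) (by decide) h4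
  have gE := gen_clos (faith_M24 N) i2
  have hEN : clos gpt 24 5 N ES ≤ N := clos_le
  generalize clos gpt 24 5 N ES = E at gE hEN cE nE
  obtain ⟨-, gC⟩ := cent_gen mulOk24 gpt_inj (faith_M24 ⊤) (B := [2, 3, 4, 5]) (by decide) le_top m21S_inK card_K21.le
    (C := centralizer (E : Set M24)) (fun g hg p hp => let ⟨x, hx, rx⟩ := gE.1 p hp; ⟨x, rx, (hg x hx).symm⟩)
    (InK.mon gE.1 le_top) (fun g _ h x hx => mem_centralizer_singleton_iff.mp (gE.le (H := centralizer {g})
      (fun p hp y _ ry => mem_centralizer_singleton_iff.mpr (h p hp y trivial ry).symm) hx)) h5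
  obtain ⟨ψ, s1, s2⟩ := exists_surj (w := 6) gpt_inj (inj_vecPt inj_el4 2) (by decide) (faith_M24 N) (faith_SL surj_el4 2 ⊤)
    [(a, 15924353938491912720), (b, 16263739861523539440), (e, pid 4 (4 ^ 2))] _ gN gS2 pr [2, 3, 4, 5] (by decide) h6
  have l1 : N ≤ K21 ⊓ normalizer (E : Set M24) := fun g hg =>
    ⟨hNK hg, mem_normalizer_fintype (S := (E : Set M24)) (nE g hg)⟩
  refine ⟨E, gE, hEN.trans hNK, cE, fun x hx => ?_, fun g hg h => gen_le gC gE.1 ⟨hg, fun x hx => (h x hx).symm⟩,
    N, ?_, hEN, cN, fun p hp => i1 p (List.mem_append_right _ hp), ψ, s1, fun g => ?_⟩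
  · rw [← pow_two]; exact (gE.comm_pow five_le (faith_M24 E) h7).2 x hx
  · have := simple_K21
    obtain ⟨k, hk⟩ := card_dvd_of_le l1
    have ci := ((K21 ⊓ normalizer (E : Set M24)).subgroupOf K21).card_mul_index
    rw [Nat.card_congr (subgroupOfEquivOfLe inf_le_left).toEquiv, hk, cN, card_K21] at ci
    generalize hn : ((K21 ⊓ normalizer (E : Set M24)).subgroupOf K21).index = n at ci
    have hkn : k * n = 21 := Nat.eq_of_mul_eq_mul_left (by norm_num : 0 < 960) (by rw [← mul_assoc, ci])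
    by_cases n1 : n = 1
    · have : K21 ≤ K21 ⊓ normalizer (E : Set M24) := subgroupOf_eq_top.mp (index_eq_one.mp (hn.trans n1))
      rcases NormBy.of_simple (hEN.trans hNK) (fun g hg x hx => (mem_normalizer_iff.mp (this hg).2 x).mp hx) with h | h
      · rw [h, card_bot] at cE; omega
      · rw [h, card_K21] at cE; omega
    · have : NeZero n := ⟨by rintro rfl; omega⟩
      obtain ⟨P, ⟨f⟩, -⟩ := exists_perm_rep _ hn n1
      have d := P.card_subgroup_dvd_card
      rw [← Nat.card_congr f.toEquiv, card_K21, Nat.card_eq_fintype_card, Fintype.card_perm, Fintype.card_fin] at d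
      have : k = 1 := by
        have : n ≤ 21 := Nat.le_of_dvd (by norm_num) (Dvd.intro_left k hkn)
        interval_cases n <;> first | omega | exact absurd d (by decide)
      exact (eq_of_le_of_card_ge l1 (by rw [hk, this, mul_one])).symm
  · have l2 : E.subgroupOf N ≤ ψ.ker := fun x hx => by
      obtain ⟨y, hy, e⟩ := gE.le (H := ψ.ker.map N.subtype) (fun p hp g _ rg => by
        obtain ⟨y, r1, r2⟩ := s2 _ (List.mem_append_right _ (List.mem_map_of_mem hp))
        exact ⟨y, Subtype.ext (r2.eq_one (by norm_num) (faith_SL surj_el4 2 ⊤) trivial),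
          Rep.eq_of_faith (faith_M24 ⊤) trivial trivial r1 rg⟩) hx
      rwa [← Subtype.ext e]
    have ck := card_ker_mul ψ s1
    rw [card_top, card_S2, cN] at ck
    have := eq_of_le_of_card_ge l2 (by rw [Nat.card_congr (subgroupOfEquivOfLe hEN).toEquiv, cE]; omega)
    rw [← MonoidHom.mem_ker, ← this]; rfl

def s1 : List ℕ := [nat_lit 976448692869377735270425038196672544, nat_lit 972512676110088067912772961567868960, nat_lit 984202951082164080105044112956360736, nat_lit 984724508489452699215480746259449888]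
def s2 : List ℕ := [nat_lit 965128854020860192151391391390468128, nat_lit 963721886883755259286232606933354528, nat_lit 979121071158219704299181131031480352, nat_lit 968708902336673183175954409307867168]
theorem d1 : ∃ E, Dat s1 s2 E := dat (a := 979463059671913328358098609083353120) (b := 984806319146137709197768910323550240) (e := 976448692869377735270425038196672544) (pr := [[0, 2, 1, 0, 0, 0], [3, 1, 1, 0, 2, 2, 1]]) (ES := s1) (ES' := s2)
    (by decide +kernel) (by decide +kernel) (by decide +kernel) (by decide +kernel) (by decide +kernel) (by decide +kernel) (by decide +kernel)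
theorem d2 : ∃ E, Dat s2 s1 E := dat (a := 980785969990893616695325690776032288) (b := 966320096358733541442380578386184224) (e := 965128854020860192151391391390468128) (pr := [[1, 1, 0, 2, 0], [0, 3, 0, 3, 0, 1, 0]]) (ES := s2) (ES' := s1)
    (by decide +kernel) (by decide +kernel) (by decide +kernel) (by decide +kernel) (by decide +kernel) (by decide +kernel) (by decide +kernel)

theorem invol : ∃ z : M24, ∀ x ∈ K21, x * x = 1 → x ≠ 1 → ∃ c ∈ K21, c * x * c⁻¹ = z := by
  obtain ⟨z, -, rz⟩ := in21 (S := [984202951082164080105044112956360736]) (by decide +kernel) _ List.mem_cons_self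
  refine ⟨z, fun x hx h1 h2 => ?_⟩
  obtain ⟨r, hr, c, hc, h⟩ := classify mulOk24 gpt_inj (faith_M24 K21) Nat.prime_two (k := 6) (m := 315) card_K21 (by norm_num)
    (T := fixAll [bit 23, bit 0, bit 1]) (fun q hq => in21 (S := [q]) (allL_iff.mpr (by simpa using hq)) q List.mem_cons_self)
    (B := [2, 3, 4, 5]) (S := s1 ++ s2) (reps := [984202951082164080105044112956360736]) (by decide)
    (CL := [(nat_lit 984202951082164080105044112956360736, nat_lit 984818244535754528103549039458486304), (nat_lit 984724508489452699215480746259449888, nat_lit 972606645568131968584696805283956768), (nat_lit 984235865005994746954145143334668320, nat_lit 961034301344520262986493821937354784), (nat_lit 976448692869377735270425038196672544, nat_lit 983106628972214293427927936646154272), (nat_lit 976934804572108675034832543981668384, nat_lit 970499966350631336865513127433832480), (nat_lit 976420838754479978627774237199763488, nat_lit 982132167227327194473266876696070176), (nat_lit 977023451795203591179182037798520864,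 nat_lit 974462553972873920662736279029712928), (nat_lit 972512676110088067912772961567868960, nat_lit 967803520226861438166084911118157856), (nat_lit 973122887587861701392823884636653600, nat_lit 963721886883755259286232606933354528), (nat_lit 972560815420533050926679905878345760, nat_lit 968621477650857569167789942210922528), (nat_lit 973054518210042674313238929715267616, nat_lit 966039336168793943308839874394687520), (nat_lit 965128854020860192151391391390468128, nat_lit 980508136583185241367587044891711520), (nat_lit 963721886883755259286232606933354528, nat_lit 968835146938190068770626584122700832), (nat_lit 979121071158219704299181131031480352, nat_lit 980541018825164243066104208226277408), (nat_lit 968708902336673183175954409307867168, nat_lit 968861122566773677427373384482183200), (nat_lit 961365507626256404119956257276790816, nat_lit 977793876369166546894896027312588832), (nat_lit 960884477435128931241433760505432096, nat_lit 970501000854492906506907132606646304),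 (nat_lit 961438956620049001677386430328277024, nat_lit 975756943178644731593179060683573280), (nat_lit 960831283963798152912375878980765728, nat_lit 962293394058910103839053343018813472), (nat_lit 983548720921252936276249910206105632, nat_lit 979239221597967492524677964798955552), (nat_lit 980224387687010295957922729495201824, nat_lit 963801933168782644503499636547803168), (nat_lit 971592882964418941354553515258775584, nat_lit 973701728164641045985977884284633120), (nat_lit 981818691054096003685363657089320992, nat_lit 959729691037395748385628225409275936), (nat_lit 970499966350631336865513127433832480, nat_lit 977906619220310554426819546445460512), (nat_lit 975346028712660580592452217730074656, nat_lit 975266405612138588799750805795199008), (nat_lit 966182099583441531322624363496310816, nat_lit 962169055710588224527396465088288800), (nat_lit 967812279691448225500382947153381408, nat_lit 981571376595234483815488291376673824)])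
    (by decide +kernel) hx (by rwa [pow_two]) h2
  rw [List.mem_singleton.mp hr] at h
  exact ⟨c, hc, Rep.eq_of_faith (faith_M24 ⊤) trivial trivial h rz⟩

theorem Dat.mem {S S' : List ℕ} {E : Subgroup M24} (h : Dat S S' E) {g : M24} (hg : g ∈ K21) {p : ℕ}
    (r : Rep gpt 24 g (get 5 p)) (hc : commAll mul24 5 24 S p = true) : g ∈ E :=
  h.2.2.2.2.1 g hg fun _ hx => (mem_centralizer_singleton_iff.mp (h.1.le (H := centralizer {g})
    (fun q hq _ _ ry => mem_centralizer_singleton_iff.mpr
      (eqM (r.mulP mulOk24 ry) (ry.mulP mulOk24 r) (allL_iff.mp (by rwa [commAll] at hc) q hq)).symm) hx)).symm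

theorem syl {E1 E2 : Subgroup M24} (h1 : Dat s1 s2 E1) (h2 : Dat s2 s1 E2) :
    Nat.card (E1 ⊔ E2 : Subgroup M24) = 64 ∧ ∀ A ≤ E1 ⊔ E2, Nat.card A = 16 → (∀ x ∈ A, x * x = 1) → A = E1 ∨ A = E2 := by
  have g : Gen gpt 24 5 (E1 ⊔ E2) (s1 ++ s2) := ⟨InK.app (InK.mon h1.1.1 le_sup_left) (InK.mon h2.1.1 le_sup_right),
    fun _ _ h => sup_le (gen_le h1.1 fun p hp => h p (List.mem_append_left _ hp))
      (gen_le h2.1 fun p hp => h p (List.mem_append_right _ hp))⟩
  obtain ⟨c, he⟩ := enum_gen mulOk24 gpt_inj (B := [2, 3, 4, 5]) (by decide) (faith_M24 _) g (M := 64)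
    (L := fun p => orB (notB (eqP 5 24 (mul24 p p) (pid 5 24))) (orB (commAll mul24 5 24 s1 p) (commAll mul24 5 24 s2 p)))
    (by decide +kernel)
  refine ⟨c, fun A hA cA sA => ?_⟩
  have : (A : Set M24) ⊆ E1 ∪ E2 := fun x hx => by
    obtain ⟨p, r, hp⟩ := he x (hA hx)
    have hK := sup_le h1.2.1 h2.2.1 (hA hx)
    rcases orB_iff.mp hp with h | h
    · exact absurd (eqP_of_rep gpt_inj (r.mulP mulOk24 r) (by rw [sA x hx]; exact Rep.pid five_le)) (notB_iff.mp h)
    · exact (orB_iff.mp h).imp (h1.mem hK r) (h2.mem hK r)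
  exact (SubgroupClass.subset_union.mp this).imp (fun h => eq_of_le_of_card_ge h (by rw [cA, h1.2.2.1]))
    (fun h => eq_of_le_of_card_ge h (by rw [cA, h2.2.2.1]))

theorem half {X : Type*} [Group X] [Finite X] (π : X →* M24) (hker : ∀ x, π x = 1 ↔ x ∈ center X)
    (hs : ∀ y ∈ K21, ∃ x, π x = y) (hr : ∀ x, π x ∈ K21) (hZ : ∀ z ∈ center X, z ^ 2 = 1) {S S' : List ℕ}
    {E E' : Subgroup M24} (h : Dat S S' E) (h' : Dat S' S E') (h64 : Nat.card (E ⊔ E' : Subgroup M24) = 64)
    {A : Type*} [Group A] (f : (⊤ : Subgroup S2) ≃* A) : IsElementaryAbelian 2 (E.comap π) ∧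
    E.comap π ⊓ E'.comap π = (center ↥(E.comap π ⊔ E'.comap π)).map (E.comap π ⊔ E'.comap π).subtype ∧
    ∃ C : Subgroup X, C ≤ normalizer (E.comap π : Set X) ∧ C ⊓ E.comap π = ⊥ ∧
      E.comap π ⊔ C = normalizer (E.comap π : Set X) ∧ Nonempty (C ≃* A) := by
  obtain ⟨z, hz⟩ := invol
  have a := elem π hker hs hZ h.2.1 h.2.2.1 h.2.2.2.1 hz
  have b := elem π hker hs hZ h'.2.1 h'.2.2.1 h'.2.2.2.1 hz
  obtain ⟨N, n1, n2, n3, n4, ψ, n5, n6⟩ := h.2.2.2.2.2
  exact ⟨a, cen π hs hr h.2.1 h'.2.1 a b h.2.2.2.2.1 h'.2.2.2.2.1,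
    cpl π hs hr a b n1 n2 (gen_le h'.1 n4) h64 n3 (f.toMonoidHom.comp ψ) (f.surjective.comp n5)
      fun g => (map_eq_one_iff f f.injective).trans (n6 g)⟩


/-- Let X be a finite quasisimple group whose centre is an elementary abelian 2-group and whose central quotient is isomorphic to the projective special linear group of dimension 3 over the field with 4 elements. Let T be a Sylow 2-subgroup of X and H ≠ K subgroups of T containing the centre Z(X) whose images in X/Z(X) are elementary abelian of order 16 (the two such subgroups of a Sylow 2-subgroup of the quotient). Then H and K are elementary abelian, H ∩ K is the centre of the subgroup they generate, and each of N_X(H), N_X(K) is a split extension of H, respectively K, by the projective special linear group of dimension 2 over the field with 4 elements (there is a complement isomorphic to that group). -/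
theorem result {X : Type*} [Group X] [Finite X] (hq : Cfsg.IsQuasisimple X) (hZ : Cfsg.IsElementaryAbelian 2 (Subgroup.center X))
    {F : Type*} [Field F] [Fintype F] (hF : Fintype.card F = 4) (hXL : Nonempty ((X ⧸ Subgroup.center X) ≃* Matrix.ProjectiveSpecialLinearGroup (Fin 3) F))
    (T : Sylow 2 X) (H K : Subgroup X) (hHK : H ≠ K) (hHT : H ≤ T) (hKT : K ≤ T) (hZH : Subgroup.center X ≤ H) (hZK : Subgroup.center X ≤ K)
    (hH : Cfsg.IsElementaryAbelian 2 (H.map (QuotientGroup.mk' (Subgroup.center X))) ∧ Nat.card ↥(H.map (QuotientGroup.mk' (Subgroup.center X))) = 16)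
    (hK : Cfsg.IsElementaryAbelian 2 (K.map (QuotientGroup.mk' (Subgroup.center X))) ∧ Nat.card ↥(K.map (QuotientGroup.mk' (Subgroup.center X))) = 16) :
    Cfsg.IsElementaryAbelian 2 H ∧ Cfsg.IsElementaryAbelian 2 K ∧
      H ⊓ K = (Subgroup.center ↥(H ⊔ K)).map (H ⊔ K).subtype ∧
      (∃ C : Subgroup X, C ≤ Subgroup.normalizer (H : Set X) ∧ C ⊓ H = ⊥ ∧ H ⊔ C = Subgroup.normalizer (H : Set X) ∧
        Nonempty (↥C ≃* Matrix.ProjectiveSpecialLinearGroup (Fin 2) F)) ∧
      (∃ C : Subgroup X, C ≤ Subgroup.normalizer (K : Set X) ∧ C ⊓ K = ⊥ ∧ K ⊔ C = Subgroup.normalizer (K : Set X) ∧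
        Nonempty (↥C ≃* Matrix.ProjectiveSpecialLinearGroup (Fin 2) F)) := by
  obtain ⟨e⟩ := hXL
  obtain ⟨φ⟩ := S0380.base
  obtain ⟨r⟩ := H12.nonempty_ringEquiv_of_natCard_eq (F := F4) (K := F)
    (by rw [Nat.card_eq_fintype_card, Nat.card_eq_fintype_card, hF, card_F4])
  obtain ⟨E1, h1⟩ := d1
  obtain ⟨E2, h2⟩ := d2
  obtain ⟨c64, hA⟩ := syl h1 h2
  have hz : center S2 = ⊥ := card_eq_one.mp (by rw [H12.card_center_SL, Nat.card_eq_fintype_card, card_F4]; rfl)
  let f : (⊤ : Subgroup S2) ≃* ProjectiveSpecialLinearGroup (Fin 2) F := topEquiv.trans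
    ((((QuotientGroup.quotientMulEquivOfEq hz).trans QuotientGroup.quotientBot).symm).trans (H12.pslCongr _ r))
  let e0 := (e.trans (H12.pslCongr _ r).symm).trans φ.symm
  obtain ⟨c, hc, hT⟩ := exists_conj_mem_of_sylow (sup_le h1.2.1 h2.2.1) Nat.prime_two (k := 6) (m := 315) c64 card_K21
    (by norm_num) (P := (T : Subgroup X).map ((K21.subtype.comp e0.toMonoidHom).comp (QuotientGroup.mk' _)))
    (by rintro _ ⟨x, -, rfl⟩; exact Subtype.prop _) (T.isPGroup'.map _)
  let e1 := e0.trans (MulAut.conj (⟨c, hc⟩ : K21))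
  let ι := K21.subtype.comp e1.toMonoidHom
  have hι : Function.Injective ι := K21.subtype_injective.comp e1.injective
  let π := ι.comp (QuotientGroup.mk' (center X))
  have hker : ∀ x, π x = 1 ↔ x ∈ center X := fun x => (map_eq_one_iff ι hι).trans (QuotientGroup.eq_one_iff x)
  have hs : ∀ y ∈ K21, ∃ x, π x = y := fun y hy => by
    obtain ⟨x, hx⟩ := QuotientGroup.mk'_surjective (center X) (e1.symm ⟨y, hy⟩)
    exact ⟨x, by
      change ((e1 (QuotientGroup.mk' _ x) : K21) : M24) = y
      rw [hx, MulEquiv.apply_symm_apply]⟩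
  have hr : ∀ x, π x ∈ K21 := fun x => Subtype.prop _
  have key : ∀ H : Subgroup X, H ≤ T → center X ≤ H → IsElementaryAbelian 2 (H.map (QuotientGroup.mk' (center X))) ∧
      Nat.card ↥(H.map (QuotientGroup.mk' (center X))) = 16 → H = E1.comap π ∨ H = E2.comap π := fun H a b c => by
    have k : (H.map π).comap π = H := comap_map_eq_self fun x hx => b ((hker x).mp hx)
    refine (hA (H.map π) ?_ ?_ ?_).imp (fun h => by rw [← h, k]) (fun h => by rw [← h, k])
    · rintro _ ⟨x, hx, rfl⟩; exact hT _ ⟨x, a hx, rfl⟩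
    · rw [← Subgroup.map_map, card_map_of_injective hι, c.2]
    · rintro _ ⟨x, hx, rfl⟩
      have := congrArg ι (c.1.2 _ ⟨x, hx, rfl⟩)
      rwa [pow_two, map_mul, map_one] at this
  obtain ⟨a1, a2, a3⟩ := half π hker hs hr hZ.2 h1 h2 c64 f
  obtain ⟨b1, b2, b3⟩ := half π hker hs hr hZ.2 h2 h1 (sup_comm E1 E2 ▸ c64) f
  rcases key H hHT hZH hH with rfl | rfl <;> rcases key K hKT hZK hK with rfl | rfl
  · exact absurd rfl hHK
  · exact ⟨a1, b1, a2, a3, b3⟩
  · exact ⟨b1, a1, b2, b3, a3⟩
  · exact absurd rfl hHK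

end Cfsg.Agent.S3154
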