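import Cfsg.Statements.S3156
import Cfsg.Agent.H11.U3Aut

set_option autoImplicit false
open Cfsg

namespace Cfsg.Agent.S3156

/-- If a finite group T is isomorphic to a Sylow 2-subgroup of the projective special unitary group of dimension 3 with parameter 4 (realised over the field with 16 elements), then no subgroup of the automorphism group of T is isomorphic to the symmetric group of degree 3. -/
theorem result {T : Type*} [Group T] [Finite T] (hT : (∃ (F : Type) (_ : Field F) (_ : Fintype F), Fintype.card F = 16 ∧ ∃ S : Sylow 2 (Cfsg.PSU 3 F 4), Nonempty (T ≃* ↥(S : Subgroup (Cfsg.PSU 3 F 4))))) (H : Subgroup (MulAut T)) : ¬ Nonempty (↥H ≃* Equiv.Perm (Fin 3)) := by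
  obtain ⟨F, _, _, hF, S, ⟨e⟩⟩ := hT
  have hE : Fintype.card F = 4 ^ 2 := hF
  obtain ⟨X, Y, h⟩ := H11.exists_uc_PSU hE (by decide) S
  rintro ⟨f⟩
  let g := H.subtype.comp f.symm.toMonoidHom
  have := (h.comp e).no_S3 (by rw [Nat.card_eq_fintype_card, hF]) (fun _ => rfl)
    (ρ := g (finRotate 3)) (τ := g (Equiv.swap 0 1))
    (by rw [← map_pow, show finRotate 3 ^ 3 = 1 by decide, map_one])
    (fun p => by rw [← MulAut.mul_apply, ← map_mul, Equiv.swap_mul_self, map_one, MulAut.one_apply])
    (fun p => by rw [← MulAut.mul_apply, ← MulAut.mul_apply, ← map_mul, ← map_mul,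
      show finRotate 3 * Equiv.swap 0 1 * finRotate 3 = Equiv.swap 0 1 by decide])
  exact absurd ((H.subtype_injective.comp f.symm.injective) (this.trans g.map_one.symm)) (by decide)

end Cfsg.Agent.S3156
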