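import Cfsg.Statements.S3161
import Cfsg.Agent.L0.HG5

set_option autoImplicit false
open Cfsg

namespace Cfsg.Agent.S3161

open Subgroup Cfsg.Agent.L0.HG


/-- Let Q be a non-abelian finite 2-group admitting commuting automorphisms α of order 2 and ρ of order 2^n − 1, where n ≥ 2, such that the fixed points of α form an elementary abelian subgroup of order 2^n on whose nonidentity elements the group generated by ρ acts transitively. Then Q is isomorphic to a Sylow 2-subgroup of the projective special unitary group of dimension 3 with parameter 2^n (realised over the field with 4^n elements) or of the projective special linear group of dimension 3 over the field with 2^n elements. -/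
theorem result {Q : Type*} [Group Q] [Finite Q] (hQ : IsPGroup 2 Q) (hna : ¬ IsMulCommutative Q) (n : ℕ) (hn : 2 ≤ n)
    (α ρ : MulAut Q) (hα : orderOf α = 2) (hρ : orderOf ρ = 2 ^ n - 1) (hc : Commute α ρ)
    (C : Subgroup Q) (hC : ∀ x : Q, x ∈ C ↔ α x = x) (hCE : Cfsg.IsElementaryAbelian 2 C ∧ Nat.card ↥C = 2 ^ n)
    (htr : ∀ x y : Q, x ∈ C → y ∈ C → x ≠ 1 → y ≠ 1 → ∃ k : ℕ, (ρ ^ k) x = y) :
    (∃ (F : Type) (_ : Field F) (_ : Fintype F), Fintype.card F = 4 ^ n ∧
        ∃ S : Sylow 2 (Cfsg.PSU 3 F (2 ^ n)), Nonempty (Q ≃* ↥(S : Subgroup (Cfsg.PSU 3 F (2 ^ n))))) ∨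
      (∃ (F : Type) (_ : Field F) (_ : Fintype F), Fintype.card F = 2 ^ n ∧
        ∃ S : Sylow 2 (Matrix.ProjectiveSpecialLinearGroup (Fin 3) F), Nonempty (Q ≃* ↥(S : Subgroup (Matrix.ProjectiveSpecialLinearGroup (Fin 3) F)))) := by
  obtain ⟨E, _, _, _, hE⟩ := H4.exists_field_two_pow (n := n * 2) (by omega)
  rw [pow_mul] at hE
  have : Fintype (FF (H12.frobq hE)) := Fintype.ofFinite _
  have hF := card_FF hE
  have hC' : C = Cc α := Subgroup.ext hC
  have h4 : 2 ^ 2 ≤ 2 ^ n := Nat.pow_le_pow_right (by norm_num) hn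
  have hρ' : ρ ^ (Fintype.card (FF (H12.frobq hE)) - 1) = 1 := by rw [hF, ← hρ, pow_orderOf_eq_one]
  obtain ⟨d, l, A, h⟩ := exists_HB hQ (α := α) (ρ := ρ) (F := FF (H12.frobq hE))
    (fun x => by rw [← MulAut.mul_apply, ← pow_two, ← hα, pow_orderOf_eq_one]; rfl)
    (fun x => by rw [← MulAut.mul_apply, hc.eq]; rfl) (by omega) hρ'
    (fun x hx => by rw [← pow_two]; exact hCE.1.2 x (hC' ▸ hx)) (by rw [← hC', hCE.2, hF])
    fun x hx y hy => htr x y (hC' ▸ hx) (hC' ▸ hy)
  rcases h.nonab_cases hE ((Nat.even_pow' (by omega)).2 even_two) hρ' (by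
    by_contra hz
    push Not at hz
    exact hna ⟨⟨fun a b => commutatorElement_eq_one_iff_mul_comm.1 (hz a b)⟩⟩) with h1 | h1
  · exact Or.inr ⟨_, _, _, hF, default, h1 _⟩
  · exact Or.inl ⟨E, _, _, by rw [hE, ← pow_mul, mul_comm, pow_mul]; norm_num, default, h1 _⟩

end Cfsg.Agent.S3161
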