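import Cfsg.Statements.S3162
import Cfsg.Agent.H11.U3Aut

set_option autoImplicit false
open Cfsg

namespace Cfsg.Agent.S3162

/-- Let S be a Sylow 2-subgroup of the special unitary group of dimension 3 with parameter q = 2^n (n ≥ 2; realised over the field with q² elements). Then the largest normal 2-subgroup of the automorphism group of S is elementary abelian of order 2^(2n²), and the automorphism group has order 2^(2n²) · 2n(q² − 1). -/
theorem result {S : Type*} [Group S] [Finite S] (n : ℕ) (hn : 2 ≤ n) {F : Type*} [Field F] [Fintype F] (hF : Fintype.card F = 4 ^ n)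
    (P : Sylow 2 ↥(Cfsg.SU 3 F (2 ^ n))) (hS : Nonempty (S ≃* ↥(P : Subgroup ↥(Cfsg.SU 3 F (2 ^ n))))) :
    Cfsg.IsElementaryAbelian 2 (Cfsg.pCore 2 (MulAut S)) ∧ Nat.card ↥(Cfsg.pCore 2 (MulAut S)) = 2 ^ (2 * n ^ 2) ∧
      Nat.card (MulAut S) = 2 ^ (2 * n ^ 2) * (2 * n * ((2 ^ n) ^ 2 - 1)) := by
  haveI : Fact (Nat.Prime 2) := ⟨Nat.prime_two⟩
  have hE : Fintype.card F = (2 ^ n) ^ 2 := by rw [hF, ← pow_mul, mul_comm, pow_mul]; rfl
  obtain ⟨X, Y, h⟩ := H11.exists_uc_SU hE (Nat.even_pow.2 ⟨even_two, by omega⟩) P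
  obtain ⟨e⟩ := hS
  have h' := h.comp e
  have h1 := h'.card_cK (m := 2 * n) (by rw [Nat.card_eq_fintype_card, hF, pow_mul]; rfl)
  rw [H12.q0_frobq, ← pow_mul, show n * (2 * n) = 2 * n ^ 2 by ring] at h1
  rw [h'.pCore_eq, ← (H11.cK fun p => X (e p)).card_mul_index, h'.index_cK, h1,
    H28.card_ringAut (p := 2) (f := 2 * n) (by rw [hF, pow_mul]; rfl), Nat.card_eq_fintype_card (α := F), hE,
    mul_comm (2 * n)]
  exact ⟨h'.cK_elem, rfl, rfl⟩

end Cfsg.Agent.S3162
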