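import Cfsg.Statements.S3174
import Cfsg.Agent.H15T.Ru2

set_option autoImplicit false
open Cfsg

namespace Cfsg.Agent.S3174

/-- Let T be a finite 2-group of order at least 2^14 in which the fourth term of the upper central series has order 16. Let W be the centralizer in T of the third term Z₃(T), and suppose the Frattini subgroup of W has order at most 8 and lies in every subgroup of W of index at most 16. Then T has order exactly 2^14; the derived subgroup of W and the Frattini subgroup of W both equal Z₃(T), which is elementary abelian of order 8; the centre of W has order 8; W is normal in T with quotient dihedral of order 8; and W modulo its derived subgroup is elementary abelian of order 2^8. -/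
theorem result {T : Type*} [Group T] [Finite T]
    (hT : IsPGroup 2 T) (ha : 2 ^ 14 ≤ Nat.card T) (hb : Nat.card ↥(Subgroup.upperCentralSeries T 4) = 16)
    (W : Subgroup T) (hW : W = Subgroup.centralizer ((Subgroup.upperCentralSeries T 3 : Subgroup T) : Set T))
    (hc : Nat.card ↥(frattini ↥W) ≤ 8) (hd : ∀ U : Subgroup ↥W, U.index ≤ 16 → frattini ↥W ≤ U) :
    Nat.card T = 2 ^ 14 ∧
      (commutator ↥W).map W.subtype = Subgroup.upperCentralSeries T 3 ∧
      (frattini ↥W).map W.subtype = Subgroup.upperCentralSeries T 3 ∧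
      Nat.card ↥(Subgroup.center ↥W) = 8 ∧
      Nat.card ↥(Subgroup.upperCentralSeries T 3) = 8 ∧ (∀ z ∈ Subgroup.upperCentralSeries T 3, z ^ 2 = 1) ∧
      (∃ (_ : W.Normal), Nonempty (T ⧸ W ≃* DihedralGroup 4)) ∧
      Nat.card (↥W ⧸ commutator ↥W) = 2 ^ 8 ∧ (∀ x : ↥W ⧸ commutator ↥W, x ^ 2 = 1) := by
  have h : H15T.RH W := ⟨hT, ha, hb, hW, hc, hd⟩
  haveI := h.normal
  have h1 : (commutator W).map W.subtype = Subgroup.upperCentralSeries T 3 := by
    rw [Subgroup.map_subtype_commutator]; exact h.der
  have h2 : Nat.card (commutator W) = 8 := by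
    rw [← Subgroup.card_map_of_injective (f := W.subtype) W.subtype_injective, h1]; exact h.card_all.2.2.2
  refine ⟨h.cards.2.2.2, h1, h.cards.1, ?_, h.card_all.2.2.2, fun z hz => by rw [pow_two]; exact h.elem hz,
    ⟨inferInstance, ⟨h.d8.choose⟩⟩, ?_, fun x => ?_⟩
  · rw [← Subgroup.card_map_of_injective (f := W.subtype) W.subtype_injective, ← h.card_all.2.2.2, ← h.cent]
    congr 2
    ext x
    constructor
    · rintro ⟨w, hw, rfl⟩
      exact ⟨w.2, Subgroup.mem_centralizer_iff.2 fun y hy =>
        congrArg Subtype.val (Subgroup.mem_center_iff.1 hw ⟨y, hy⟩)⟩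
    · rintro ⟨a, b⟩
      exact ⟨⟨x, a⟩, Subgroup.mem_center_iff.2 fun y => Subtype.ext (Subgroup.mem_centralizer_iff.1 b y y.2), rfl⟩
  · have := Subgroup.card_eq_card_quotient_mul_card_subgroup (commutator W)
    rw [h2, h.cards.2.1] at this
    omega
  · obtain ⟨w, rfl⟩ := QuotientGroup.mk_surjective x
    rw [pow_two, ← QuotientGroup.mk_mul, QuotientGroup.eq_one_iff]
    have := h.sq w.2
    rw [H15T.ZZ, ← h1] at this
    obtain ⟨y, hy, e⟩ := this
    rwa [← show y = w * w from Subtype.ext e]

end Cfsg.Agent.S3174
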