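import Cfsg.Statements.S3181
import Cfsg.Agent.CI.G

set_option autoImplicit false
open Cfsg

namespace Cfsg.Agent.S3181

/-- Structure of finite groups with central Sylow 2-intersections. Let G be a finite group in which the intersection of any two distinct Sylow 2-subgroups is contained in the centre of some Sylow 2-subgroup. Then one of the following holds: G is solvable of 2-length at most one; the Sylow 2-subgroups of G are abelian; G has normal subgroups N < M with N of odd order and M of odd index such that M/N is a central product of an abelian 2-group and a group isomorphic to SL(2, 5); or G has a normal subgroup M of odd index which is either the direct product of an abelian 2-group with a group isomorphic to a Suzuki group Sz(2^(2m+1)) for some m ≥ 1, or to PSU(3, q) or SU(3, q) for some q = 2^n ≥ 4, or a central product of an abelian 2-group with a perfect group L with nontrivial centre whose central quotient is isomorphic to the Suzuki group Sz(8).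 -/
theorem result {G : Type*} [Group G] [Finite G]
    (hCI : ∀ S T : Sylow 2 G, S ≠ T → ∃ U : Sylow 2 G,
      (S : Subgroup G) ⊓ (T : Subgroup G) ≤ (Subgroup.center ↥(U : Subgroup G)).map (U : Subgroup G).subtype) :
    (Group.IsSolvable G ∧ Cfsg.PLengthLE 2 1 G) ∨
    (∀ S : Sylow 2 G, IsMulCommutative ↥(S : Subgroup G)) ∨
    (∃ (N M : Subgroup G) (_ : N.Normal) (_ : M.Normal) (_ : (N.subgroupOf M).Normal), N < M ∧ Odd (Nat.card ↥N) ∧ Odd M.index ∧
      ∃ A L : Subgroup (↥M ⧸ N.subgroupOf M), IsMulCommutative ↥A ∧ IsPGroup 2 ↥A ∧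
        Nonempty (↥L ≃* Matrix.SpecialLinearGroup (Fin 2) (ZMod 5)) ∧ (∀ a ∈ A, ∀ l ∈ L, a * l = l * a) ∧ A ⊔ L = ⊤) ∨
    (∃ (M : Subgroup G), M.Normal ∧ Odd M.index ∧ ∃ A L : Subgroup G, IsMulCommutative ↥A ∧ IsPGroup 2 ↥A ∧
      ((Cfsg.IsInternalDirectProduct A L M ∧
          ((∃ (m : ℕ) (F : Type) (_ : Field F) (_ : Fintype F), 1 ≤ m ∧ Fintype.card F = 2 ^ (2 * m + 1) ∧
              Nonempty (↥L ≃* ↥(Cfsg.Lie.Sz F (2 ^ (m + 1))))) ∨
            (∃ (n : ℕ) (F : Type) (_ : Field F) (_ : Fintype F), 2 ≤ n ∧ Fintype.card F = 4 ^ n ∧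
              (Nonempty (↥L ≃* Cfsg.PSU 3 F (2 ^ n)) ∨ Nonempty (↥L ≃* ↥(Cfsg.SU 3 F (2 ^ n))))))) ∨
        (A ≤ M ∧ L ≤ M ∧ (∀ a ∈ A, ∀ l ∈ L, a * l = l * a) ∧ A ⊔ L = M ∧ Group.IsPerfect ↥L ∧
          Subgroup.center ↥L ≠ ⊥ ∧
          ∃ (F : Type) (_ : Field F) (_ : Fintype F), Fintype.card F = 8 ∧
            Nonempty (↥L ⧸ Subgroup.center ↥L ≃* ↥(Cfsg.Lie.Sz F 4))))) := by
  obtain ⟨S⟩ : Nonempty (Sylow 2 G) := inferInstance
  by_cases hS : IsMulCommutative (S : Subgroup G)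
  · exact Or.inr (Or.inl (CI.comm_all hS))
  have hf := QuotientGroup.mk'_surjective (oddCore G)
  by_cases h1 : ∀ T : Sylow 2 G, S.mapSurjective hf = T.mapSurjective hf
  · exact Or.inl (CI.sol_case h1)
  obtain ⟨T, hT⟩ := not_forall.1 h1
  have hk : ∀ x ∈ (S : Subgroup G), QuotientGroup.mk' (oddCore G) x = 1 → x = 1 := fun x hx e =>
    (CI.el2 hx).eq_one (BS.Bd.odd_ord BS.Bd.odd_oddCore' ((QuotientGroup.eq_one_iff x).1 e))
  by_cases el : ∀ x ∈ (S : Subgroup G).map (QuotientGroup.mk' (oddCore G)),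
    x * x ∈ (T.mapSurjective hf : Subgroup (G ⧸ oddCore G))
  · obtain ⟨L, ⟨e⟩, h2, h3⟩ := (CI.CIG.hy_quot hCI hS).lin hT (fun h => hS (H21.comm_iff.2 fun a ha b hb => by
      have := H21.comm_iff.1 h _ (Subgroup.mem_map_of_mem _ ha) _ (Subgroup.mem_map_of_mem _ hb)
      refine mul_inv_eq_one.1 (hk _ (mul_mem (mul_mem ha hb) (inv_mem (mul_mem hb ha))) ?_)
      rw [map_mul, map_inv, map_mul, map_mul, this, mul_inv_cancel])) el
    have h4 : (S : Subgroup G) ≤ (CI.MM _).comap (QuotientGroup.mk' (oddCore G)) :=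
      Subgroup.map_le_iff_le_comap.1 (CI.le_Mx (T := S.mapSurjective hf) le_top)
    refine Or.inr (Or.inr (Or.inl ⟨oddCore G, _, inferInstance, inferInstance, inferInstance,
      lt_of_le_of_ne (QuotientGroup.le_comap_mk' _ _) fun e => hS (H21.comm_iff.2 fun a ha b _ => ?_),
      BS.Bd.odd_oddCore', CI.odd_index_of_le h4,
      CI.pull_back e ((S.mapSurjective hf).2.to_le inf_le_left) h2 h3⟩))
    rw [hk a ha ((QuotientGroup.eq_one_iff a).2 (e.ge (h4 ha))), one_mul, mul_one]
  · exact Or.inr (Or.inr (Or.inr ⟨CI.MM G, inferInstance, CI.odd_index_of_le (S := S) (CI.le_Mx le_top),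
      (CI.CIG.hy hCI hS hT el).nonlin (S := S) (T := T) (fun e => hT (e ▸ rfl)) fun h => el (by
        rintro _ ⟨x, hx, rfl⟩
        exact map_mul (QuotientGroup.mk' (oddCore G)) x x ▸ Subgroup.mem_map_of_mem _ (h x hx))⟩))

end Cfsg.Agent.S3181
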