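import Cfsg.Statements.S3184
import Cfsg.Agent.H6.ZStar2
-- import your own Cfsg.Agent.* helpers here

set_option autoImplicit false
open Cfsg

namespace Cfsg.Agent.S3184

open Cfsg.Agent.H4 Cfsg.Agent.H6


/-- Let G be a finite group in which the intersection of any two distinct Sylow 2-subgroups is contained in the centre of some Sylow 2-subgroup, and let S be a Sylow 2-subgroup. If C is a nontrivial cyclic characteristic subgroup of S, then the involution of C is central modulo the largest normal subgroup of odd order of G: each of its conjugates has the same image in G/O(G). -/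
theorem result {G : Type*} [Group G] [Finite G]
    (hCI : ∀ S T : Sylow 2 G, S ≠ T → ∃ U : Sylow 2 G,
      (S : Subgroup G) ⊓ (T : Subgroup G) ≤ (Subgroup.center ↥(U : Subgroup G)).map (U : Subgroup G).subtype)
    (S : Sylow 2 G) (C : Subgroup ↥(S : Subgroup G)) (hC : C ≠ ⊥) (hCc : IsCyclic ↥C) (hCh : C.Characteristic)
    (c : ↥(S : Subgroup G)) (hc : c ∈ C) (hc2 : orderOf c = 2) :
    ∀ g : G, (QuotientGroup.mk (s := Cfsg.oddCore G) (g * (c : G) * g⁻¹)) =
      QuotientGroup.mk (s := Cfsg.oddCore G) (c : G) := by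
  have hfix : ∀ n ∈ Subgroup.normalizer ((S : Subgroup G) : Set G), n * c * n⁻¹ = c := by
    intro n hn
    let φ : MulAut (S : Subgroup G) := (S : Subgroup G).normalizerMonoidHom ⟨n, hn⟩
    have h1 : φ c ∈ C := by
      have := hCh.fixed φ
      rw [← this] at hc
      exact hc
    have h2 : orderOf (φ c) = 2 := (orderOf_injective φ.toMonoidHom φ.injective c).trans hc2
    have h3 : (⟨φ c, h1⟩ : C) = ⟨c, hc⟩ := by
      haveI := Fintype.ofFinite C
      classical
      have h4 := IsCyclic.card_orderOf_eq_totient (α := C) (d := 2) 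
        (((Subgroup.orderOf_mk c hc).trans hc2).symm.dvd.trans orderOf_dvd_card)
      refine Finset.card_le_one.1 h4.le _ ?_ _ ?_ <;> simp [h2, hc2]
    exact congrArg Subtype.val (congrArg Subtype.val h3)
  have hcZ : ∀ s ∈ (S : Subgroup G), s * c = c * s := fun s hs =>
    mul_inv_eq_iff_eq_mul.1 (hfix s (Subgroup.le_normalizer hs))
  have hc2' : orderOf (c : G) = 2 := by rw [Subgroup.orderOf_coe, hc2]
  have key : ∀ g : G, g * c * g⁻¹ ∈ (S : Subgroup G) → g * c * g⁻¹ = c := by
    intro g hg
    have hd : ∀ s ∈ (S : Subgroup G), s * (g * c * g⁻¹) = g * c * g⁻¹ * s := by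
      set d := g * c * g⁻¹ with hd
      obtain ⟨T, hT, hle⟩ := H11.exists_isSylIn_le (p := 2)
        (Q := (S : Subgroup G) ⊓ Subgroup.centralizer {d}) (H := Subgroup.centralizer {d})
        (S.isPGroup'.to_le inf_le_left) inf_le_right
      have h1 : H11.IsSylIn 2 ((g • S : Sylow 2 G) : Subgroup G) (Subgroup.centralizer {d}) :=
        H11.isSylIn_of_sylow_le _ fun x hx => H11.mem_cent1.2 (by
          have := hcZ _ (H11.mem_sylow_smul.1 hx)
          calc x * d = g * (g⁻¹ * x * g * c) * g⁻¹ := by rw [hd]; group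
            _ = d * x := by rw [this, hd]; group)
      obtain ⟨T', rfl⟩ := ((H11.isSylIn_top (g • S)).of_card_ge hT.pg le_top
        (h1.card_eq hT).le).exists_sylow_top
      by_cases h2 : S = T'
      · subst h2
        exact fun s hs => H11.mem_cent1.1 (hT.le hs)
      obtain ⟨U, hU⟩ := hCI S T' h2
      have h3 : (Subgroup.center (S : Subgroup G)).map (S : Subgroup G).subtype =
          (Subgroup.center (U : Subgroup G)).map (U : Subgroup G).subtype := by
        refine Subgroup.eq_of_le_of_card_ge (le_trans ?_ hU) ?_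
        · rintro _ ⟨x, hx, rfl⟩
          exact ⟨x.2, hle ⟨x.2, H11.mem_cent1.2 (congrArg Subtype.val
            (Subgroup.mem_center_iff.1 hx ⟨d, hg⟩)).symm⟩⟩
        · rw [Subgroup.card_map_of_injective (Subgroup.subtype_injective _),
            Subgroup.card_map_of_injective (Subgroup.subtype_injective _)]
          exact (Nat.card_congr (Subgroup.centerCongr (Sylow.equiv S U)).toEquiv).ge
      have h4 := hU ⟨hg, hle ⟨hg, H11.mem_cent1.2 rfl⟩⟩
      rw [← h3] at h4
      obtain ⟨x, hx, h5⟩ := h4
      intro s hs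
      rw [← h5]
      exact congrArg Subtype.val (Subgroup.mem_center_iff.1 hx ⟨s, hs⟩)
    obtain ⟨n, -, hn, h1⟩ := (H11.isSylIn_top S).exists_normalizer_conj (Subgroup.mem_top g) hcZ hd
    rw [← h1, hfix n hn]
  intro g
  have := Subgroup.mem_center_iff.1 (mk_mem_center_of_closed S c.2 key) g
  rw [QuotientGroup.mk_mul, QuotientGroup.mk_mul, this, QuotientGroup.mk_inv,
    mul_inv_cancel_right]

end Cfsg.Agent.S3184
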