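import Cfsg.Statements.S3189
import Cfsg.Agent.H11.AbS

set_option autoImplicit false
open Cfsg

namespace Cfsg.Agent.S3189

/-- Let G be a non-abelian finite simple group whose Sylow 2-subgroup S is elementary abelian of order 8, and suppose the centralizer of every involution of G is solvable. Then the normalizer of S modulo the centralizer of S has order 7. -/
theorem result {G : Type*} [Group G] [Finite G]
    [IsSimpleGroup G] (hG : ¬ IsMulCommutative G) (S : Sylow 2 G)
    (hS : Cfsg.IsElementaryAbelian 2 (S : Subgroup G)) (hS8 : Nat.card ↥(S : Subgroup G) = 8)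
    (hC : ∀ t : G, orderOf t = 2 → Group.IsSolvable ↥(Subgroup.centralizer ({t} : Set G))) :
    (Subgroup.centralizer ((S : Subgroup G) : Set G)).relIndex (Subgroup.normalizer ((S : Subgroup G) : Set G)) = 7 := by
  have hr : ¬ PRankLE 2 2 (S : Subgroup G) := H1.not_pRankLE_iff.2 ⟨_, le_rfl, hS, hS8.ge⟩
  have hse := H11.se_of_rank S hS.1 hC hG hr
  obtain ⟨t, htS, ht⟩ := H11.exists_invol_of_even (H := (S : Subgroup G)) (by rw [hS8]; decide)
  have h1 := le_antisymm (H11.OpOf_cent_eq S hS.1 hC (H11.oddCore_eq_bot_of_simple hG) hr htS ht).2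
    (haveI := hS.1; Subgroup.le_centralizer _)
  obtain ⟨F, _, _, ⟨n, hn, hF⟩, ⟨e⟩⟩ := (BS.Bd.isBender_of_se hse).psl2_of_comm S hS.1
  have h2 := H12.card_PSL2 hF
  obtain ⟨m, rfl⟩ := Nat.exists_eq_add_of_le' (show 1 ≤ n by omega)
  have hp := Nat.two_pow_pos m
  rw [← Nat.card_congr e.toEquiv, Nat.Coprime.gcd_eq_one (Nat.coprime_two_left.2
    (Nat.odd_iff.2 (by omega))), one_mul] at h2
  have h3 : Nat.card G = 504 := by
    have a1 := S.card_eq_multiplicity
    have a2 : ¬ 2 ∣ (2 ^ (m + 1)) ^ 2 - 1 := by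
      rw [← pow_mul, mul_two, ← add_assoc, pow_succ]
      have := Nat.two_pow_pos (m + 1 + m)
      omega
    have ne_zero_of_not_dvd : ∀ {a : ℕ}, ¬ 2 ∣ a → a ≠ 0 := fun h e => h (e ▸ dvd_zero 2)
    rw [hS8, h2, Nat.factorization_mul (Nat.two_pow_pos _).ne' (ne_zero_of_not_dvd a2),
      Finsupp.add_apply, Nat.factorization_eq_zero_of_not_dvd a2, Nat.factorization_pow_self
      Nat.prime_two, add_zero] at a1
    rw [h2, ← a1]; norm_num
  let N := Subgroup.normalizer ((S : Subgroup G) : Set G)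
  have h4 : 7 ∣ Nat.card N := by
    have a1 : (MulAction.orbit N (⟨t, htS⟩ : (S : Subgroup G))).ncard = 7 := by
      rw [show MulAction.orbit N (⟨t, htS⟩ : (S : Subgroup G)) = {1}ᶜ from Set.ext fun x => ⟨?_, fun hx => ?_⟩,
        Set.ncard_compl, hS8, Set.ncard_singleton]
      · rintro ⟨g, rfl⟩ h
        exact H11.ne_one_of_orderOf_two ht (conj_eq_one_iff.1 (congrArg Subtype.val h))
      · obtain ⟨g, hg, h⟩ := H11.SE.exists_conj_eq hse (Subgroup.le_normalizer htS) ht
          (Subgroup.le_normalizer x.2) (H11.orderOf_two_of (fun e => hx (Subtype.ext e))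
            ((sq _).symm.trans (hS.2 x x.2)))
        exact ⟨⟨g, hg⟩, Subtype.ext h⟩
    rw [← MulAction.index_stabilizer] at a1
    exact a1 ▸ Subgroup.index_dvd_card _
  have h5 := H11.card_mul_relIndex (Subgroup.le_normalizer (H := (S : Subgroup G)))
  have h6 := N.card_mul_index
  have h7 := H11.card_dvd_factorial_of_simple hse.1
  rw [h1]
  change _ = Nat.card N at h5
  change _ ∣ N.index.factorial at h7
  rw [hS8] at h5
  rw [h3] at h7
  rw [h3, ← h5] at h6
  rw [← h5] at h4
  obtain ⟨k, hk⟩ := (Nat.Coprime.dvd_mul_left (by norm_num)).1 h4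
  rw [hk] at h6 ⊢
  have : N.index ≤ 9 := by nlinarith [Nat.pos_of_ne_zero (show k ≠ 0 by rintro rfl; simp at h6)]
  interval_cases N.index <;> first | omega | simp [Nat.factorial] at h7

end Cfsg.Agent.S3189
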