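import Cfsg.Statements.S3190
import Cfsg.Agent.H11.Klein
import Cfsg.Agent.H1.Basic

set_option autoImplicit false
open Cfsg

namespace Cfsg.Agent.S3190

open Cfsg.Agent.H11



/-- Let p be an odd prime and, inside a finite group, let P be a p-subgroup normalized by a Klein four-group T. Let R be a subgroup of P, normal in P and normalized by T, such that P is the product of R with the centralizer of T in P. If T centralizes the centre of P, then T centralizes the centre of R. -/
theorem result {X : Type*} [Group X] [Finite X]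
    {p : ℕ} (hp : p.Prime) (hodd : Odd p) (P T R : Subgroup X) (hP : IsPGroup p ↥P) (hT : IsKleinFour ↥T)
    (hTP : T ≤ Subgroup.normalizer (P : Set X)) (hRP : R ≤ P) (hRn : (R.subgroupOf P).Normal)
    (hTR : T ≤ Subgroup.normalizer (R : Set X)) (hfac : R ⊔ (P ⊓ Subgroup.centralizer (T : Set X)) = P)
    (hZ : T ≤ Subgroup.centralizer (((Subgroup.center ↥P).map P.subtype : Subgroup X) : Set X)) :
    T ≤ Subgroup.centralizer (((Subgroup.center ↥R).map R.subtype : Subgroup X) : Set X) := by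
  haveI := Fact.mk hp
  intro t ht
  rw [Subgroup.mem_centralizer_iff]
  set Z := (Subgroup.center ↥R).map R.subtype with hZdef
  have hZmem : ∀ z, z ∈ Z ↔ z ∈ R ∧ ∀ r ∈ R, r * z = z * r := by
    intro z
    constructor
    · rintro ⟨y, hy, rfl⟩
      exact ⟨y.2, fun r hr => congrArg Subtype.val (Subgroup.mem_center_iff.1 hy ⟨r, hr⟩)⟩
    · rintro ⟨h1, h2⟩
      exact ⟨⟨z, h1⟩, Subgroup.mem_center_iff.2 fun r => Subtype.ext (h2 r r.2), rfl⟩
  have hNZ : Subgroup.normalizer (R : Set X) ≤ Subgroup.normalizer (Z : Set X) :=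
    H1.normalizer_le_normalizer_map_subtype_of_characteristic R _
  have htt : t * t = 1 := klein_sq hT ht
  let W : Subgroup X :=
    { carrier := {z | z ∈ Z ∧ t * z * t⁻¹ = z⁻¹}
      one_mem' := ⟨Z.one_mem, by simp⟩
      inv_mem' := by
        rintro z ⟨h1, h2⟩
        exact ⟨Z.inv_mem h1, by rw [← congrArg Inv.inv h2]; group⟩
      mul_mem' := by
        rintro a b ⟨h1, h2⟩ ⟨h3, h4⟩
        refine ⟨Z.mul_mem h1 h3, ?_⟩
        rw [((hZmem b).1 h3).2 a ((hZmem a).1 h1).1, mul_inv_rev, ← h2, ← h4,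
          ← ((hZmem b).1 h3).2 a ((hZmem a).1 h1).1]
        group }
  have hWP : W ≤ P := fun z hz => hRP ((hZmem z).1 hz.1).1
  have hPR : P ≤ Subgroup.normalizer (R : Set X) :=
    (Subgroup.normal_subgroupOf_iff_le_normalizer hRP).1 hRn
  have hPW : P ≤ Subgroup.normalizer (W : Set X) := by
    rw [← hfac]
    refine sup_le (fun r hr => ?_) (fun c hc => ?_)
    · apply mem_normalizer_of_forall
      intro z hz
      rw [((hZmem z).1 hz.1).2 r hr, mul_inv_cancel_right]; exact hz
    · apply mem_normalizer_of_forall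
      intro z hz
      refine ⟨conj_mem_of_mem_normalizer (hNZ (hPR hc.1)) hz.1, ?_⟩
      have h1 : t * c = c * t := Subgroup.mem_centralizer_iff.1 hc.2 t ht
      have h2 : t * (c * z * c⁻¹) * t⁻¹ = (t * c) * z * (t * c)⁻¹ := by group
      rw [h2, h1]
      have h3 : (c * t) * z * (c * t)⁻¹ = c * (t * z * t⁻¹) * c⁻¹ := by group
      rw [h3, hz.2]; group
  have hW : W = ⊥ := by
    by_contra hne
    obtain ⟨z, hz, hz1, hzc⟩ := exists_mem_centralizer_of_normalized hP (hP.to_le hWP) hne hPW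
    have h1 : z * t = t * z := Subgroup.mem_centralizer_iff.1 (hZ ht) z
      ⟨⟨z, hWP hz⟩, Subgroup.mem_center_iff.2 fun r => Subtype.ext (hzc r r.2), rfl⟩
    have h2 := hz.2
    rw [← h1, mul_inv_cancel_right] at h2
    obtain ⟨k, hk⟩ := hP.exists_card_eq
    refine hz1 (eq_one_of_odd_of_sq (odd_orderOf_of_odd_card (by rw [hk]; exact hodd.pow) (hWP hz)) ?_)
    nth_rw 1 [h2]; simp
  intro z hz
  have hz' : t * z * t⁻¹ ∈ Z := conj_mem_of_mem_normalizer (hNZ (hTR ht)) hz
  have h1 : z⁻¹ * (t * z * t⁻¹) ∈ W := by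
    refine ⟨Z.mul_mem (Z.inv_mem hz) hz', ?_⟩
    have h2 : t * (z⁻¹ * (t * z * t⁻¹)) * t⁻¹ = (t * z * t⁻¹)⁻¹ * ((t * t) * z * (t * t)⁻¹) := by group
    rw [h2, htt]; group
  rw [hW, Subgroup.mem_bot, inv_mul_eq_one, eq_mul_inv_iff_mul_eq] at h1
  exact h1

end Cfsg.Agent.S3190
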