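import Cfsg.Statements.S3195
import Cfsg.Agent.H11.Klein
import Cfsg.Agent.H11.Iso
import Cfsg.Agent.H1.Cores
import Cfsg.Agent.S0200

set_option autoImplicit false
open Cfsg

namespace Cfsg.Agent.S3195

open Cfsg.Agent.H11

theorem step {G : Type*} [Group G] [Finite G] {A : Subgroup G}
    (h : ∀ a ∈ A, a ≠ 1 → ∀ g : G, A ⊓ Subgroup.centralizer ({g * a * g⁻¹} : Set G) ≠ ⊥)
    (hA : IsKleinFour A) {a b : G} (ha : a ∈ A) (hb : b ∈ A) (ha1 : a ≠ 1) (hb1 : b ≠ 1) (hab : a ≠ b)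
    {d : G} (hd : d ∈ A) (hd1 : d ≠ 1) (g k : G) :
    Commute (k * a * k⁻¹) (g * d * g⁻¹) ∨ Commute (k * b * k⁻¹) (g * d * g⁻¹) ∨
      Commute (k * (a * b) * k⁻¹) (g * d * g⁻¹) := by
  obtain ⟨⟨u, huA, huc⟩, hu1⟩ := Subgroup.ne_bot_iff_exists_ne_one.1 (h d hd hd1 (k⁻¹ * g))
  have hu1' : u ≠ 1 := fun h => hu1 (Subtype.ext h)
  have e : Commute (k * u * k⁻¹) (g * d * g⁻¹) := by
    have := mem_cent1.1 huc
    show _ = _
    calc k * u * k⁻¹ * (g * d * g⁻¹) = k * (u * (k⁻¹ * g * d * (k⁻¹ * g)⁻¹)) * k⁻¹ := by group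
      _ = _ := by rw [this]; group
  rcases (klein_mem_iff hA ha hb ha1 hb1 hab).1 huA with h | h | h | h
  · exact absurd h hu1'
  · exact Or.inl (h ▸ e)
  · exact Or.inr (Or.inl (h ▸ e))
  · exact Or.inr (Or.inr (h ▸ e))

theorem comm_of_conj {G : Type*} [Group G] {a x y : G} (hx : Odd (orderOf x))
    (hinv : a * x * a⁻¹ = x⁻¹) (h1 : Commute y a) (h2 : Commute y (x * a * x⁻¹)) : Commute y x := by
  rw [conj_eq_sq_mul hinv] at h2
  have h3 : Commute y (x ^ 2) := by simpa using h2.mul_right h1.inv_right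
  exact (commute_of_sq_of_odd hx h3.symm).symm

theorem not_comm {G : Type*} [Group G] {a x : G} (hx : Odd (orderOf x)) (hx1 : x ≠ 1)
    (hinv : a * x * a⁻¹ = x⁻¹) : ¬ Commute a x := fun h => by
  rw [h.eq, mul_inv_cancel_right] at hinv
  exact hx1 (eq_one_of_odd_of_sq hx (by nth_rw 1 [hinv]; simp))

theorem cent_one {G : Type*} [Group G] [Finite G] {A : Subgroup G}
    (h : ∀ a ∈ A, a ≠ 1 → ∀ g : G, A ⊓ Subgroup.centralizer ({g * a * g⁻¹} : Set G) ≠ ⊥)
    (hA : IsKleinFour A) {a b : G} (ha : a ∈ A) (hb : b ∈ A) (ha1 : a ≠ 1) (hb1 : b ≠ 1) (hab : a ≠ b)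
    {x : G} (hx : Odd (orderOf x)) (hx1 : x ≠ 1) (hinv : a * x * a⁻¹ = x⁻¹) :
    Commute b x ∨ Commute (a * b) x := by
  rcases step h hA ha hb ha1 hb1 hab ha ha1 x 1 with h1 | h1 | h1 <;> simp only [one_mul, inv_one, mul_one] at h1
  · exact absurd (comm_of_conj hx hinv (Commute.refl a) h1) (not_comm hx hx1 hinv)
  · exact Or.inl (comm_of_conj hx hinv (klein_comm hA hb ha) h1)
  · exact Or.inr (comm_of_conj hx hinv (klein_comm hA (A.mul_mem ha hb) ha) h1)

theorem main {G : Type*} [Group G] [Finite G] {A : Subgroup G}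
    (h : ∀ a ∈ A, a ≠ 1 → ∀ g : G, A ⊓ Subgroup.centralizer ({g * a * g⁻¹} : Set G) ≠ ⊥)
    (hA : IsKleinFour A) {a b : G} (ha : a ∈ A) (hb : b ∈ A) (ha1 : a ≠ 1) (hb1 : b ≠ 1) (hab : a ≠ b)
    {x y : G} (hx : Odd (orderOf x)) (hx1 : x ≠ 1) (hinv : a * x * a⁻¹ = x⁻¹) (hbx : Commute b x)
    (hy : Odd (orderOf y)) (hy1 : y ≠ 1) (hinv' : b * y * b⁻¹ = y⁻¹) (hay : Commute a y) : False := by
  have cab : Commute a b := klein_comm hA ha hb
  have hab1 : a * b ≠ 1 := fun h => hab (by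
    rw [← inv_eq_of_mul_eq_one_right h, inv_eq_of_mul_eq_one_right (klein_sq hA ha)])
  have hinvc' : (a * b) * y * (a * b)⁻¹ = y⁻¹ := by
    rw [cab.eq]
    calc b * a * y * (b * a)⁻¹ = b * (a * y * a⁻¹) * b⁻¹ := by group
      _ = _ := by rw [hay.eq, mul_inv_cancel_right, hinv']
  have key : ∀ x : G, Odd (orderOf x) → x ≠ 1 → a * x * a⁻¹ = x⁻¹ → Commute b x →
      Commute x y ∨ Commute y (x * (a * b) * x⁻¹) := by
    intro x hx hx1 hinv hbx
    have ey : y * a * y⁻¹ = a := by rw [← hay.eq, mul_inv_cancel_right]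
    have ex : x * b * x⁻¹ = b := by rw [← hbx.eq, mul_inv_cancel_right]
    have eyc : y * (a * b) * y⁻¹ = a * (y * b * y⁻¹) := by conv_rhs => rw [← ey]
                                                           group
    have exc : x * (a * b) * x⁻¹ = (x * a * x⁻¹) * b := by conv_rhs => rw [← ex]
                                                           group
    have cay : Commute (y * b * y⁻¹) a := by
      rw [← ey]; exact cab.symm.conj y
    have cbx : Commute (x * a * x⁻¹) b := by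
      rw [← ex]; exact cab.conj x
    have nb : ¬ Commute b (y * b * y⁻¹) := fun h1 =>
      not_comm hy hy1 hinv' (comm_of_conj hy hinv' (Commute.refl b) h1)
    have na : ¬ Commute a (x * a * x⁻¹) := fun h1 =>
      not_comm hx hx1 hinv (comm_of_conj hx hinv (Commute.refl a) h1)
    rcases step h hA ha hb ha1 hb1 hab ha ha1 x y with h1 | h1 | h1
    · rw [ey] at h1; exact absurd h1 na
    · left
      have h2 := comm_of_conj hx hinv cay h1
      exact comm_of_conj hy hinv' hbx.symm h2.symm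
    · right
      rcases step h hA ha hb ha1 hb1 hab (A.mul_mem ha hb) hab1 x y with h2 | h2 | h2
      · exfalso; apply na
        rw [ey, exc] at h2
        simpa using h2.mul_right cab.inv_right
      · refine (comm_of_conj hy hinv' ?_ h2.symm).symm
        rw [exc]; exact (cbx.mul_left (Commute.refl b))
      · exfalso; apply nb
        rw [exc] at h2
        have h3 : Commute (y * (a * b) * y⁻¹) b := by simpa [mul_assoc] using h1.inv_right.mul_right h2
        rw [eyc] at h3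
        have h4 := cab.inv_left.mul_left h3
        simpa using h4.symm
  have hxy : Commute x y := by
    have hinvc : (a * b) * x * (a * b)⁻¹ = x⁻¹ := by
      calc a * b * x * (a * b)⁻¹ = a * (b * x * b⁻¹) * a⁻¹ := by group
        _ = _ := by rw [hbx.eq, mul_inv_cancel_right, hinv]
    have hx2 : Odd (orderOf (x ^ 2)) := odd_orderOf_pow hx 2
    have hinv2 : a * x ^ 2 * a⁻¹ = (x ^ 2)⁻¹ := by rw [← conj_pow, hinv, inv_pow]
    have hinvc2 : (a * b) * x ^ 2 * (a * b)⁻¹ = (x ^ 2)⁻¹ := by rw [← conj_pow, hinvc, inv_pow]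
    rcases key x hx hx1 hinv hbx with h1 | h1
    · exact h1
    rcases key (x ^ 2) hx2 (fun h => hx1 (eq_one_of_odd_of_sq hx (by rw [← pow_two, h]))) hinv2
      (hbx.pow_right 2) with h2 | h2
    · exact commute_of_sq_of_odd hx h2
    · rw [conj_eq_sq_mul hinvc] at h1
      rw [conj_eq_sq_mul hinvc2] at h2
      have h3 := h2.mul_right h1.inv_right
      have e : (x ^ 2) ^ 2 * (a * b) * (x ^ 2 * (a * b))⁻¹ = x ^ 2 := by group
      rw [e] at h3
      exact commute_of_sq_of_odd hx h3.symm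
  have hinvc : (a * b) * x * (a * b)⁻¹ = x⁻¹ := by
    calc a * b * x * (a * b)⁻¹ = a * (b * x * b⁻¹) * a⁻¹ := by group
      _ = _ := by rw [hbx.eq, mul_inv_cancel_right, hinv]
  have ho : Odd (orderOf (x * y)) := Odd.of_dvd_nat (hx.mul hy) hxy.orderOf_mul_dvd_mul_orderOf
  have h1 : x * y ≠ 1 := fun h => by
    rw [← inv_eq_of_mul_eq_one_right h] at hay
    exact not_comm hx hx1 hinv (by simpa using hay)
  have hi : (a * b) * (x * y) * (a * b)⁻¹ = (x * y)⁻¹ := by
    rw [← conj_mul, hinvc, hinvc', hxy.eq, mul_inv_rev]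
  have haa := klein_sq hA ha
  rcases cent_one h hA (A.mul_mem ha hb) ha hab1 ha1 (fun h => hb1 (by simpa using h)) ho h1 hi with h2 | h2
  · exact not_comm hx hx1 hinv (by simpa using h2.mul_right hay.inv_right)
  · have e : a * b * a = b := by rw [cab.eq, mul_assoc, haa, mul_one]
    rw [e] at h2
    exact not_comm hy hy1 hinv' (by simpa using hbx.inv_right.mul_right h2)

/-- Let A be a Klein four-subgroup of a finite group G. If every G-conjugate of every involution of A commutes with some involution of A (its centralizer meets A nontrivially), then A meets the largest normal 2-subgroup O₂(G) nontrivially. -/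
theorem result {G : Type*} [Group G] [Finite G]
    (A : Subgroup G) (hA : IsKleinFour ↥A)
    (h : ∀ a ∈ A, a ≠ 1 → ∀ g : G, A ⊓ Subgroup.centralizer ({g * a * g⁻¹} : Set G) ≠ ⊥) :
    A ⊓ Cfsg.pCore 2 G ≠ ⊥ := by
  intro hbot
  have hinv : ∀ a ∈ A, a ≠ 1 → ∃ x : G, x ≠ 1 ∧ Odd (orderOf x) ∧ a * x * a⁻¹ = x⁻¹ := by
    intro a ha ha1
    refine S0200.result a (klein_orderOf hA ha ha1) fun N hN hp haN => ha1 ?_
    have : a ∈ A ⊓ Cfsg.pCore 2 G := ⟨ha, H1.le_pCore hp haN⟩
    rwa [hbot, Subgroup.mem_bot] at this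
  have main2 : ∀ a ∈ A, ∀ b ∈ A, a ≠ 1 → b ≠ 1 → a ≠ b → ∀ x : G, Odd (orderOf x) → x ≠ 1 →
      a * x * a⁻¹ = x⁻¹ → Commute b x → False := by
    intro a ha b hb ha1 hb1 hab x hx hx1 hi hbx
    obtain ⟨y, hy1, hy, hi'⟩ := hinv b hb hb1
    rcases cent_one h hA hb ha hb1 ha1 hab.symm hy hy1 hi' with h1 | h1
    · exact main h hA ha hb ha1 hb1 hab hx hx1 hi hbx hy hy1 hi' h1
    · refine main h hA (A.mul_mem hb ha) hb (fun h => hab ?_) hb1 (fun h => ha1 (by simpa using h))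
        hx hx1 ?_ hbx hy hy1 hi' h1
      · rw [← inv_eq_of_mul_eq_one_right h, inv_eq_of_mul_eq_one_right (klein_sq hA hb)]
      · calc b * a * x * (b * a)⁻¹ = b * (a * x * a⁻¹) * b⁻¹ := by group
          _ = _ := by rw [hi, hbx.inv_right.eq, mul_inv_cancel_right]
  obtain ⟨a, ha, b, hb, ha1, hb1, hab⟩ := klein_exists_gens hA
  obtain ⟨x, hx1, hx, hi⟩ := hinv a ha ha1
  rcases cent_one h hA ha hb ha1 hb1 hab hx hx1 hi with h1 | h1
  · exact main2 a ha b hb ha1 hb1 hab x hx hx1 hi h1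
  · refine main2 a ha _ (A.mul_mem ha hb) ha1 (fun h => hab ?_) (fun h => hb1 (by simpa using h)) x hx hx1 hi h1
    rw [← inv_eq_of_mul_eq_one_right h, inv_eq_of_mul_eq_one_right (klein_sq hA ha)]

end Cfsg.Agent.S3195
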