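import Cfsg.Statements.S3196
import Cfsg.Agent.H11.Klein
import Cfsg.Agent.H1.Cores
import Cfsg.Agent.H3.PGroup1

set_option autoImplicit false
open Cfsg

namespace Cfsg.Agent.S3196

open Cfsg.Agent.H11

open Subgroup

/-- The point-line geometry attached to the family. -/
structure Geo {G : Type*} [Group G] (P : G → Prop) : Prop where
  ne : ∀ x, P x → x ≠ 1
  line : ∀ x y, P x → P y → Commute x y → ∀ t ∈ closure ({x, y} : Set G), t ≠ 1 → P t
  one : ∀ x y w, P x → P y → P w → Commute x y → y ∉ zpowers x →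
    ∃ t ∈ closure ({x, y} : Set G), t ≠ 1 ∧ Commute t w
  gen : ∀ x y, P x → P y → Commute x y → ∀ s ∈ closure ({x, y} : Set G), ∀ t ∈ closure ({x, y} : Set G),
    s ≠ 1 → t ∉ zpowers s → closure ({x, y} : Set G) ≤ closure ({s, t} : Set G)
  symm : ∀ x y, P x → P y → y ∉ zpowers x → x ∉ zpowers y

theorem comm_closure {G : Type*} [Group G] {s t u v : G} (h1 : Commute s u) (h2 : Commute t u)
    (hv : v ∈ closure ({s, t} : Set G)) : Commute v u := by
  have : closure ({s, t} : Set G) ≤ centralizer {u} := by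
    rw [closure_le]
    rintro _ (rfl | rfl)
    exacts [mem_cent1.2 h1, mem_cent1.2 h2]
  exact mem_cent1.1 (this hv)

theorem comm_zpowers {G : Type*} [Group G] {s u v : G} (h1 : Commute s u)
    (hv : v ∈ zpowers s) : Commute v u := by
  obtain ⟨k, rfl⟩ := hv
  exact h1.zpow_left k

theorem mem_l {G : Type*} [Group G] (s t : G) : s ∈ closure ({s, t} : Set G) := subset_closure (by simp)
theorem mem_r {G : Type*} [Group G] (s t : G) : t ∈ closure ({s, t} : Set G) := subset_closure (by simp)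

/-- If `u` commutes with `s` and `t` on a line, and `v` commutes with `s` but not `t`,
then `u` commutes with the whole line. -/
theorem Geo.all {G : Type*} [Group G] {P : G → Prop} (h : Geo P) {x y s t u v w : G} (hx : P x) (hy : P y)
    (hc : Commute x y) (hs : s ∈ closure ({x, y} : Set G)) (ht : t ∈ closure ({x, y} : Set G)) (hs1 : s ≠ 1)
    (hsu : Commute s u) (htu : Commute t u) (hsv : Commute s v) (htv : ¬ Commute t v)
    (hw : w ∈ closure ({x, y} : Set G)) : Commute w u :=
  comm_closure hsu htu (h.gen x y hx hy hc s hs t ht hs1 (fun h' => htv (comm_zpowers hsv h')) hw)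

theorem Geo.perp {G : Type*} [Group G] {P : G → Prop} (h : Geo P)
    (nd : ∀ x, P x → ∃ w, P w ∧ ¬ Commute x w) {p q : G} (hp : P p) (hq : P q) (hc : Commute p q)
    (hne : q ∉ zpowers p) (hsub : ∀ u, P u → Commute p u → Commute q u) : False := by
  obtain ⟨r, hr, hpr⟩ := nd p hp
  obtain ⟨s, hs, hs1, hsr⟩ := h.one p q r hp hq hr hc hne
  have hPs := h.line p q hp hq hc s hs hs1
  have hsp : Commute s p := comm_closure (Commute.refl p) hc.symm hs
  obtain ⟨u, hu, hsu⟩ := nd s hPs
  have hrs : r ∉ zpowers s := fun h' => hpr (comm_zpowers hsp h').symm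
  obtain ⟨m, hm, hm1, hmu⟩ := h.one s r u hPs hr hu hsr hrs
  have hPm := h.line s r hPs hr hsr m hm hm1
  have hms : Commute m s := comm_closure (Commute.refl s) hsr.symm hm
  have hmp : ¬ Commute m p := fun h' =>
    hpr (h.all hPs hr hsr hm (mem_l s r) hm1 h' hsp hmu hsu (mem_r s r)).symm
  have hum : u ∉ zpowers m := fun h' => hsu (comm_zpowers hms h').symm
  obtain ⟨w, hw, hw1, hwp⟩ := h.one m u p hPm hu hp hmu hum
  have hPw := h.line m u hPm hu hmu w hw hw1
  have hws : Commute w s := (comm_closure hwp.symm (hsub w hPw hwp.symm) hs).symm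
  exact hsu (h.all hPm hu hmu hw (mem_l m u) hw1 hws hms hwp hmp (mem_r m u)).symm

theorem Geo.main {G : Type*} [Group G] {P : G → Prop} (h : Geo P)
    (hconj : ∀ x g, P x → P (g * x * g⁻¹))
    (hnorm : ∀ x w, P x → P w → x * w * x⁻¹ ∈ zpowers w → Commute x w)
    {x y : G} (hx : P x) (hy : P y) (hc : Commute x y) (hne : y ∉ zpowers x) :
    ∃ v, P v ∧ ∀ w, P w → Commute v w := by
  by_contra hcon
  push Not at hcon
  obtain ⟨w, hw, hxw⟩ := hcon x hx
  obtain ⟨z, hz, hz1, hzw⟩ := h.one x y w hx hy hw hc hne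
  have hPz := h.line x y hx hy hc z hz hz1
  have hzx : Commute z x := comm_closure (Commute.refl x) hc.symm hz
  have hy1 : x * z ≠ 1 := fun h' => hxw (by
    rw [eq_inv_of_mul_eq_one_left h']; exact hzw.inv_left)
  have hPy : P (x * z) := h.line x y hx hy hc _ (mul_mem (mem_l x y) hz) hy1
  have hw' : x * w * x⁻¹ = (x * z) * w * (x * z)⁻¹ := by
    rw [mul_assoc x z w, hzw.eq]; group
  have c1 : ∀ g t : G, Commute g t → Commute w t → Commute (g * w * g⁻¹) t := fun g t h1 h2 =>
    (h1.mul_left h2).mul_left h1.inv_left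
  -- every point collinear with `w` lies on a line through `w` meeting the perp of `x`
  have hline : ∀ v : G, Commute v w → (∀ t, P t → Commute w t → Commute x t → Commute v t) →
      ∀ u, P u → Commute w u → Commute v u := by
    intro v hvw hv u hu hwu
    by_cases hm : u ∈ zpowers w
    · exact (comm_zpowers hvw.symm hm).symm
    obtain ⟨t, ht, ht1, htx⟩ := h.one w u x hw hu hx hwu hm
    have hPt := h.line w u hw hu hwu t ht ht1
    have htw : Commute t w := comm_closure (Commute.refl w) hwu.symm ht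
    exact (h.all hw hu hwu ht (mem_l w u) ht1 (hv t hPt htw.symm htx.symm).symm hvw.symm htx
      (fun h' => hxw h'.symm) (mem_r w u)).symm
  by_cases hA : ∀ t, P t → Commute w t → Commute x t → Commute (x * z) t
  · refine h.perp hcon hw hPz hzw.symm (h.symm z w hPz hw fun h' => hxw (comm_zpowers hzx h').symm) ?_
    refine hline z hzw fun t ht h1 h2 => ?_
    simpa using h2.inv_left.mul_left (hA t ht h1 h2)
  · push Not at hA
    obtain ⟨t, ht, hwt, hxt, hyt⟩ := hA
    have htw : t ∉ zpowers w := h.symm t w ht hw fun h' => hxw (comm_zpowers hxt.symm h').symm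
    obtain ⟨t', ht', ht1, hty⟩ := h.one w t (x * z) hw ht hPy hwt htw
    have hwt' : Commute t' w := comm_closure (Commute.refl w) hwt.symm ht'
    have e1 : Commute t' (x * w * x⁻¹) := by rw [hw']; exact (c1 _ _ hty.symm hwt'.symm).symm
    have e2 : Commute w (x * w * x⁻¹) :=
      h.all hw ht hwt ht' (mem_r w t) ht1 e1 (c1 _ _ hxt hwt).symm hty (fun h' => hyt h'.symm) (mem_l w t)
    refine h.perp hcon hw (hconj w x hw) e2 (fun h' => hxw (hnorm x w hx hw h')) ?_
    exact hline _ e2.symm fun t _ h1 h2 => c1 _ _ h2 h1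

theorem eq_zpowers {G : Type*} [Group G] [Finite G] {p : ℕ} (hp : p.Prime) {X : Subgroup G}
    (hX : Nat.card X = p) {x : G} (hx : x ∈ X) (h1 : x ≠ 1) : zpowers x = X := by
  haveI := Fact.mk hp
  have hle : zpowers x ≤ X := zpowers_le.2 hx
  rcases (Nat.dvd_prime hp).1 (hX ▸ card_dvd_of_le hle) with h | h
  · exact absurd (zpowers_eq_bot.1 (card_eq_one.1 h)) h1
  · exact eq_of_le_of_card_ge hle (by rw [h, hX])

/-- Let p be a prime and K a set of subgroups of order p of a finite group G, closed under conjugation, such that at least two distinct members of K commute elementwise, and whenever two distinct members X, Y of K commute: every subgroup of order p of the group XY they generate belongs to K, and every member W of K has centralizer meeting XY nontrivially. Then some member V of K commutes elementwise with every member of K and lies in O_p(G); in particular G is not simple. -/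
theorem result {G : Type*} [Group G] [Finite G]
    {p : ℕ} (hp : p.Prime) (K : Set (Subgroup G)) (hK : ∀ X ∈ K, Nat.card ↥X = p)
    (hKc : ∀ X ∈ K, ∀ g : G, X.map (MulAut.conj g).toMonoidHom ∈ K)
    (hex : ∃ X ∈ K, ∃ Y ∈ K, X ≠ Y ∧ ∀ x ∈ X, ∀ y ∈ Y, x * y = y * x)
    (ha : ∀ X ∈ K, ∀ Y ∈ K, X ≠ Y → (∀ x ∈ X, ∀ y ∈ Y, x * y = y * x) →
      ∀ Z : Subgroup G, Z ≤ X ⊔ Y → Nat.card ↥Z = p → Z ∈ K)
    (hb : ∀ X ∈ K, ∀ Y ∈ K, X ≠ Y → (∀ x ∈ X, ∀ y ∈ Y, x * y = y * x) →
      ∀ W ∈ K, (X ⊔ Y) ⊓ Subgroup.centralizer (W : Set G) ≠ ⊥) :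
    (∃ V ∈ K, (∀ W ∈ K, ∀ v ∈ V, ∀ w ∈ W, v * w = w * v) ∧ V ≤ Cfsg.pCore p G) ∧ ¬ IsSimpleGroup G := by
  haveI := Fact.mk hp
  let P : G → Prop := fun x => x ≠ 1 ∧ zpowers x ∈ K
  have hord : ∀ x, P x → orderOf x = p := fun x hx => by rw [← Nat.card_zpowers, hK _ hx.2]
  have hpow : ∀ x, P x → x ^ p = 1 := fun x hx => by rw [← hord x hx, pow_orderOf_eq_one]
  have hcl : ∀ x y : G, closure ({x, y} : Set G) = zpowers x ⊔ zpowers y := fun x y => by
    rw [zpowers_eq_closure, zpowers_eq_closure, ← Subgroup.closure_union]; rfl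
  have hcz : ∀ {x y : G}, Commute x y → ∀ a ∈ zpowers x, ∀ b ∈ zpowers y, a * b = b * a :=
    fun h a ha b hb => (comm_zpowers (comm_zpowers h ha).symm hb).symm
  have hnz : ∀ {x y : G}, Commute x y → y ∈ normalizer (zpowers x : Set G) := fun h =>
    mem_normalizer_of_forall fun a ha => by
      rw [← (comm_zpowers h ha).eq, mul_inv_cancel_right]; exact ha
  have hexp : ∀ x y, P x → P y → Commute x y → ∀ t ∈ closure ({x, y} : Set G), t ^ p = 1 := by
    intro x y hx hy hc t ht
    rw [hcl, H3.mem_sup_zpowers_iff (hnz hc)] at ht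
    obtain ⟨_, ⟨i, rfl⟩, k, rfl⟩ := ht
    rw [(hc.zpow_zpow i k).mul_pow, ← zpow_natCast, ← zpow_natCast, ← zpow_mul, ← zpow_mul, mul_comm i,
      mul_comm k, zpow_mul, zpow_mul, zpow_natCast, zpow_natCast, hpow x hx, hpow y hy]
    simp
  have hcard : ∀ x y : G, x ≠ 1 → x ^ p = 1 → y ^ p = 1 → Commute x y → y ∉ zpowers x →
      Nat.card (closure ({x, y} : Set G)) = p * p := by
    intro x y hx1 hx hy hc hn
    rw [hcl, H3.card_sup_zpowers (p := p) (hnz hc) hn (hy ▸ one_mem _), Nat.card_zpowers,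
      orderOf_eq_prime hx hx1]
  have hsymm : ∀ x y, P x → P y → y ∉ zpowers x → x ∉ zpowers y := fun x y hx hy h h' =>
    h (by rw [eq_zpowers hp (hK _ hy.2) h' hx.1]; exact mem_zpowers y)
  have hline : ∀ x y, P x → P y → Commute x y → ∀ t ∈ closure ({x, y} : Set G), t ≠ 1 → P t := by
    intro x y hx hy hc t ht ht1
    refine ⟨ht1, ?_⟩
    by_cases h : zpowers x = zpowers y
    · rw [hcl, h, sup_idem] at ht
      rw [eq_zpowers hp (hK _ hy.2) ht ht1]; exact hy.2
    · refine ha _ hx.2 _ hy.2 h (hcz hc) _ (by rw [← hcl]; exact zpowers_le.2 ht) ?_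
      rw [Nat.card_zpowers, orderOf_eq_prime (hexp x y hx hy hc t ht) ht1]
  have geo : Geo P := by
    refine ⟨fun x hx => hx.1, hline, ?_, ?_, hsymm⟩
    · intro x y w hx hy hw hc hn
      obtain ⟨⟨t, ht1, ht2⟩, ht⟩ := ne_bot_iff_exists_ne_one.1
        (hb _ hx.2 _ hy.2 (fun h => hn (h ▸ mem_zpowers y)) (hcz hc) _ hw.2)
      exact ⟨t, hcl x y ▸ ht1, fun h => ht (Subtype.ext h), (ht2 w (mem_zpowers w)).symm⟩
    · intro x y hx hy hc s hs t ht hs1 hts
      have hst : Commute s t := comm_closure (comm_closure (Commute.refl x) hc.symm ht).symm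
        (comm_closure hc (Commute.refl y) ht).symm hs
      have hle : closure ({s, t} : Set G) ≤ closure {x, y} := by
        rw [closure_le]; rintro _ (rfl | rfl); exacts [hs, ht]
      have h1 := hcard s t hs1 (hexp x y hx hy hc s hs) (hexp x y hx hy hc t ht) hst hts
      refine (eq_of_le_of_card_ge hle ?_).ge
      by_cases hn : y ∈ zpowers x
      · rw [h1, hcl, sup_eq_left.2 (zpowers_le.2 hn), hK _ hx.2]
        exact Nat.le_mul_self p
      · rw [h1, hcard x y hx.1 (hpow x hx) (hpow y hy) hc hn]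
  have hconj : ∀ x g, P x → P (g * x * g⁻¹) := fun x g hx =>
    ⟨by simpa using hx.1, by rw [← cj_zpowers]; exact hKc _ hx.2 g⟩
  have hnorm : ∀ x w, P x → P w → x * w * x⁻¹ ∈ zpowers w → Commute x w := by
    intro x w hx hw h
    have hpg : ∀ x, P x → IsPGroup p (zpowers x) := fun x hx =>
      isPGroup_zpowers_of_orderOf (k := 1) (by rw [hord x hx, pow_one])
    obtain ⟨z, hz, hz1, hzc⟩ := exists_mem_centralizer_of_normalized (hpg x hx) (hpg w hw)
      (fun h => hw.1 (zpowers_eq_bot.1 h)) (zpowers_le.2 (mem_normalizer_of_cj_le (by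
        rw [cj_zpowers]; exact zpowers_le.2 h)))
    have : w ∈ zpowers z := by rw [eq_zpowers hp (hK _ hw.2) hz hz1]; exact mem_zpowers w
    exact (comm_zpowers (show Commute z x from (hzc x (mem_zpowers x)).symm) this).symm
  have hgen : ∀ X ∈ K, ∃ x, P x ∧ zpowers x = X := by
    intro X hX
    obtain ⟨⟨x, hx⟩, h1⟩ := ne_bot_iff_exists_ne_one.1 (show X ≠ ⊥ from fun h => by
      have := hK X hX
      rw [h, card_bot] at this
      exact hp.one_lt.ne this)
    have h2 := eq_zpowers hp (hK X hX) hx fun h => h1 (Subtype.ext h)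
    exact ⟨x, ⟨fun h => h1 (Subtype.ext h), h2.symm ▸ hX⟩, h2⟩
  obtain ⟨X, hX, Y, hY, hXY, hc⟩ := hex
  obtain ⟨x, hx, rfl⟩ := hgen X hX
  obtain ⟨y, hy, rfl⟩ := hgen Y hY
  have hne : y ∉ zpowers x := fun h => hXY (eq_zpowers hp (hK _ hX) h hy.1).symm
  obtain ⟨v, hv, hvc⟩ := geo.main hconj hnorm hx hy (hc x (mem_zpowers x) y (mem_zpowers y)) hne
  have h2 : ∀ a ∈ Group.conjugatesOfSet ({v} : Set G), ∀ b ∈ Group.conjugatesOfSet ({v} : Set G), a * b = b * a := by
    intro a ha b hb
    obtain ⟨_, ha', ha⟩ := Group.mem_conjugatesOfSet_iff.1 ha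
    obtain ⟨_, hb', hb⟩ := Group.mem_conjugatesOfSet_iff.1 hb
    rw [Set.mem_singleton_iff.1 ha'] at ha
    rw [Set.mem_singleton_iff.1 hb'] at hb
    obtain ⟨g, rfl⟩ := isConj_iff.1 ha
    obtain ⟨h, rfl⟩ := isConj_iff.1 hb
    have := (hvc _ (hconj v (h⁻¹ * g) hv)).eq
    calc _ = h * (h⁻¹ * g * v * (h⁻¹ * g)⁻¹ * v) * h⁻¹ := by group
      _ = _ := by rw [← this]; group
  set N := normalClosure ({v} : Set G) with hN
  have hcomm : IsMulCommutative N := isMulCommutative_closure h2
  have hcN : ∀ a ∈ N, ∀ b ∈ N, a * b = b * a := H3.isMulCommutative_iff_mem.1 hcomm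
  have hsq : ∀ a ∈ N, a ^ p = 1 := by
    intro a ha
    induction ha using closure_induction with
    | mem a ha =>
      obtain ⟨_, ha', ha⟩ := Group.mem_conjugatesOfSet_iff.1 ha
      rw [Set.mem_singleton_iff.1 ha'] at ha
      obtain ⟨g, rfl⟩ := isConj_iff.1 ha
      exact hpow _ (hconj v g hv)
    | one => simp
    | mul a b ha hb h3 h4 => rw [Commute.mul_pow (hcN a ha b hb), h3, h4, mul_one]
    | inv a ha h3 => rw [inv_pow, h3, inv_one]
  have hvN : v ∈ N := subset_normalClosure rfl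
  have hNp : IsPGroup p N := fun a => ⟨1, Subtype.ext (by simpa using hsq a a.2)⟩
  refine ⟨⟨zpowers v, hv.2, fun W hW => ?_, (zpowers_le.2 hvN).trans (H1.le_pCore hNp)⟩, fun hs => ?_⟩
  · obtain ⟨w, hw, rfl⟩ := hgen W hW
    exact hcz (hvc w hw)
  · rcases hs.eq_bot_or_eq_top_of_normal N inferInstance with h | h
    · exact hv.1 (by rw [h] at hvN; exact hvN)
    · have hn : (zpowers x).Normal := ⟨fun a ha g => by
        rw [hcN g (h ▸ trivial) a (h ▸ trivial), mul_inv_cancel_right]; exact ha⟩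
      rcases hs.eq_bot_or_eq_top_of_normal _ hn with h' | h'
      · exact hx.1 (zpowers_eq_bot.1 h')
      · exact hne (h' ▸ trivial)

end Cfsg.Agent.S3196
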