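import Cfsg.Statements.S3200
import Cfsg.Agent.H11.Invol
import Cfsg.Agent.H1.Hall
import Cfsg.Agent.S0564

set_option autoImplicit false
open Cfsg

namespace Cfsg.Agent.S3200

open Cfsg.Agent.H11

theorem compl_of_hall {K : Type*} [Group K] [Finite K] {D : Subgroup K}
    (hD : IsPiHall ({2}ᶜ : Set ℕ) D) (hc : IsMulCommutative D) :
    ∃ (P : Sylow 2 K) (D : Subgroup K), IsMulCommutative ↥D ∧
      Subgroup.IsComplement' (P : Subgroup K) D := by
  obtain ⟨h1, h2⟩ := H1.isPiHall_iff.1 hD
  rw [compl_compl, H1.isPiNum_singleton_iff Nat.prime_two Subgroup.index_ne_zero_of_finite] at h2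
  rw [H1.isPiNum_compl_singleton_iff Nat.prime_two] at h1
  obtain ⟨k, hk⟩ := h2
  let P : Sylow 2 K := default
  have hP : Nat.card (P : Subgroup K) = 2 ^ k := by
    rw [P.card_eq_multiplicity, ← D.card_mul_index, hk,
      Nat.factorization_mul Nat.card_pos.ne' (by positivity)]
    simp [Nat.factorization_eq_zero_of_not_dvd (Nat.prime_two.coprime_iff_not_dvd.1 h1.symm),
      Nat.prime_two.factorization_self]
  refine ⟨P, D, hc, Subgroup.isComplement'_of_coprime ?_ ?_⟩
  · rw [hP, ← hk, mul_comm, D.card_mul_index]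
  · rw [hP]; exact (h1.pow_right k).symm

/-- Let H be a finite group in which a Sylow 2-subgroup has an abelian complement (an abelian subgroup meeting it trivially whose product with it is all of H). Then H is solvable, and every subgroup and every quotient group of H again has a Sylow 2-subgroup with an abelian complement. -/
theorem result {H : Type*} [Group H] [Finite H]
    (S : Sylow 2 H) (C : Subgroup H) (hC : IsMulCommutative ↥C) (hSC : Subgroup.IsComplement' (S : Subgroup H) C) :
    Group.IsSolvable H ∧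
    (∀ L : Subgroup H, ∃ (P : Sylow 2 ↥L) (D : Subgroup ↥L), IsMulCommutative ↥D ∧ Subgroup.IsComplement' (P : Subgroup ↥L) D) ∧
    (∀ (N : Subgroup H) [N.Normal], ∃ (P : Sylow 2 (H ⧸ N)) (D : Subgroup (H ⧸ N)),
      IsMulCommutative ↥D ∧ Subgroup.IsComplement' (P : Subgroup (H ⧸ N)) D) := by
  have hCH : IsPiHall ({2}ᶜ : Set ℕ) C := by
    rw [H1.isPiHall_iff, compl_compl, H1.isPiNum_compl_singleton_iff Nat.prime_two,
      hSC.index_eq_card, ← hSC.symm.index_eq_card]
    exact ⟨(Nat.prime_two.coprime_iff_not_dvd.2 S.not_dvd_index).symm,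
      H1.isPiNum_singleton_card_iff.2 S.2⟩
  have hsol : Group.IsSolvable H := S0564.result (S : Subgroup H) C S.2.isNilpotent
    (by letI : CommGroup C := { mul_comm := hC.1.1 }; exact CommGroup.isNilpotent) fun g => by
      obtain ⟨⟨a, b⟩, h⟩ := hSC.2 g
      exact ⟨a, a.2, b, b.2, h.symm⟩
  refine ⟨hsol, fun L => ?_, fun N _ => ?_⟩
  · obtain ⟨D, hD⟩ := H1.exists_isPiHall ({2}ᶜ : Set ℕ) (G := L) inferInstance
    obtain ⟨g, hg⟩ := H1.exists_le_conj_isPiHall hsol (U := D.map L.subtype) (by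
      rw [Subgroup.card_map_of_injective L.subtype_injective]
      exact (H1.isPiHall_iff.1 hD).1) hCH
    refine compl_of_hall hD ⟨⟨fun a b => Subtype.ext (Subtype.ext ?_)⟩⟩
    have ha := mem_conj_smul.1 (hg ⟨a, a.2, rfl⟩)
    have hb := mem_conj_smul.1 (hg ⟨b, b.2, rfl⟩)
    have := congrArg Subtype.val (hC.1.1 ⟨_, ha⟩ ⟨_, hb⟩)
    have h2 : g⁻¹ * (a : H) * b = g⁻¹ * (b : H) * a := by simpa [← mul_assoc] using this
    simpa [mul_assoc] using h2
  · exact compl_of_hall (H1.isPiHall_map hCH (QuotientGroup.mk'_surjective N)) inferInstance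

end Cfsg.Agent.S3200
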