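import Cfsg.Statements.S3201
import Cfsg.Agent.H11.QuatQ
import Cfsg.Agent.H11.Z2n
import Cfsg.Agent.H11.Count

set_option autoImplicit false
open Cfsg

namespace Cfsg.Agent.S3201

open Cfsg.Agent.H11



/-- Let S be a finite 2-group whose centre Z(S) has n ≥ 2 distinct maximal subgroups C₁, …, Cₙ with trivial intersection such that each quotient S/Cᵢ is a non-abelian group with exactly one involution (a generalized quaternion group). Then S is the internal direct product of an elementary abelian subgroup and a non-abelian subgroup with exactly one involution. -/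
theorem result {S : Type*} [Group S] [Finite S]
    (hS : IsPGroup 2 S) (n : ℕ) (hn : 2 ≤ n) (C : Fin n → Subgroup ↥(Subgroup.center S))
    (hCmax : ∀ i, IsCoatom (C i)) (hCinj : Function.Injective C) (hCint : ⨅ i, C i = ⊥)
    (hCq : ∀ i, ∃ (_ : ((C i).map (Subgroup.center S).subtype).Normal),
      ¬ IsMulCommutative (S ⧸ (C i).map (Subgroup.center S).subtype) ∧
      ∃! x : S ⧸ (C i).map (Subgroup.center S).subtype, orderOf x = 2) :
    ∃ E Q : Subgroup S, Cfsg.IsInternalDirectProduct E Q ⊤ ∧ Cfsg.IsElementaryAbelian 2 E ∧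
      ¬ IsMulCommutative ↥Q ∧ ∃! x : ↥Q, orderOf x = 2 := by
  have hzc : ∀ {z : S}, z ∈ (Subgroup.center S) → ∀ x : S, Commute x z := fun hz x => Subgroup.mem_center_iff.1 hz x
  have hDZ : ∀ i, (C i).map (Subgroup.center S).subtype ≤ (Subgroup.center S) := fun i => Subgroup.map_subtype_le _
  have hidx : ∀ i, ((C i).map (Subgroup.center S).subtype).relIndex (Subgroup.center S) = 2 := fun i => by
    rw [Subgroup.relIndex, Subgroup.subgroupOf, Subgroup.comap_map_eq_self_of_injective
      (Subgroup.center S).subtype_injective]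
    exact index_eq_of_isCoatom (hS.to_subgroup (Subgroup.center S)) (hCmax i)
  have hint : ∀ x : S, x ∈ (Subgroup.center S) → (∀ i, x ∈ (C i).map (Subgroup.center S).subtype) → x = 1 := by
    intro x hx h
    have : (⟨x, hx⟩ : (Subgroup.center S)) ∈ ⨅ i, C i := Subgroup.mem_iInf.2 fun i => by
      obtain ⟨y, hy, e⟩ := h i
      rwa [show (⟨x, hx⟩ : (Subgroup.center S)) = y from Subtype.ext e.symm]
    rw [hCint] at this
    exact congrArg Subtype.val (Subgroup.mem_bot.1 this)
  have hZ2 : ∀ z ∈ (Subgroup.center S), z * z = 1 := fun z hz => hint _ ((Subgroup.center S).mul_mem hz hz) fun i =>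
    (mul_mem_iff_of_relIndex_two (hidx i) hz hz).2 Iff.rfl
  have hq : ∀ i (x : S), x * x ∈ (C i).map (Subgroup.center S).subtype → x ∈ (Subgroup.center S) := by
    intro i x hx
    obtain ⟨hN, -, u, -, hu⟩ := hCq i
    by_cases hxD : x ∈ (C i).map (Subgroup.center S).subtype
    · exact hDZ i hxD
    obtain ⟨z, hz, hzD⟩ : ∃ z ∈ (Subgroup.center S), z ∉ (C i).map (Subgroup.center S).subtype := by
      by_contra hc
      push Not at hc
      have := hidx i
      rw [Subgroup.relIndex_eq_one.2 hc] at this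
      omega
    have e : ∀ y : S, y ∉ (C i).map (Subgroup.center S).subtype → y * y ∈ (C i).map (Subgroup.center S).subtype →
        (y : S ⧸ (C i).map (Subgroup.center S).subtype) = u := fun y h1 h2 => hu _ (orderOf_two_of
      (by rwa [Ne, QuotientGroup.eq_one_iff]) (by
        rwa [← QuotientGroup.mk_mul, QuotientGroup.eq_one_iff]))
    have := QuotientGroup.eq.1 ((e z hzD (by rw [hZ2 z hz]; exact Subgroup.one_mem _)).trans
      (e x hxD hx).symm)
    simpa using (Subgroup.center S).mul_mem hz (hDZ i this)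
  obtain ⟨hN, hna, hu⟩ := hCq ⟨0, by omega⟩
  set D := (C ⟨0, by omega⟩).map (Subgroup.center S).subtype with hD
  obtain ⟨a, b, h1, ⟨m, d, hd, h2⟩, h3⟩ := quat_quot_gens hS D hna hu
  have hab : ¬ Commute a b := fun h => hna
    (comm_of_gens (QuotientGroup.mk' _) (QuotientGroup.mk'_surjective _) (hDZ _) (h.map _) h3)
  have hcen : ∀ x : S, Commute x a → Commute x b → x ∈ (Subgroup.center S) := by
    intro x ha hb
    rw [Subgroup.mem_center_iff]
    intro y
    obtain ⟨d', hd', j, rfl | rfl⟩ := h3 y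
    · exact ((hzc (hDZ _ hd') x).mul_right (ha.zpow_right j)).eq.symm
    · exact (hb.mul_right ((hzc (hDZ _ hd') x).mul_right (ha.zpow_right j))).eq.symm
  have hbb : b * b ∈ (Subgroup.center S) := hcen _ (by
    rw [h2]; exact (hzc (hDZ _ hd) a).symm.mul_left ((Commute.refl a).zpow_left m))
    ((Commute.refl b).mul_left (Commute.refl b))
  have hba : ∀ j : ℤ, b * a ^ j ∉ (Subgroup.center S) := fun j h => hab (by
    have := (hzc h a).mul_right ((Commute.refl a).zpow_right (-j))
    simpa using this)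
  have hb : b ∉ (Subgroup.center S) := by simpa using hba 0
  have ha : a ∉ (Subgroup.center S) := fun h => hab (hzc h b).symm
  have hinv : b * a * b⁻¹ = a⁻¹ := by
    have e : b * a * (b * a) = b * b * (b * a * b⁻¹ * a) := by
      calc b * a * (b * a) = b * a * b⁻¹ * (b * b) * a := by group
        _ = _ := by rw [(hzc hbb _).eq]; group
    rw [← mul_eq_one_iff_eq_inv]
    refine hint _ (hDZ _ h1) fun i => ?_
    have k1 : b * b ∉ (C i).map (Subgroup.center S).subtype := fun h => hb (hq i b h)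
    have k2 : b * a * (b * a) ∉ (C i).map (Subgroup.center S).subtype := fun h => hba 1 (by simpa using hq i _ h)
    rw [e, mul_mem_iff_of_relIndex_two (hidx i) hbb (hDZ _ h1)] at k2
    tauto
  obtain ⟨k, hk1, hk2⟩ := H1.exists_pow_notMem_pow_succ_mem hS ha
  have hzD : ∀ i, a ^ 2 ^ (k + 1) ∉ (C i).map (Subgroup.center S).subtype := fun i h =>
    hk1 (hq i _ (by rwa [← pow_add, ← two_mul, ← pow_succ']))
  have hzb : b * b = a ^ ((2 ^ (k + 1) : ℕ) : ℤ) := by
    rw [zpow_natCast]
    have := hint _ ((Subgroup.center S).mul_mem hbb hk2) fun i =>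
      (mul_mem_iff_of_relIndex_two (hidx i) hbb hk2).2
        ⟨fun h => absurd (hq i b h) hb, fun h => absurd h (hzD i)⟩
    rw [eq_inv_of_mul_eq_one_left this, inv_eq_of_mul_eq_one_left (hZ2 _ hk2)]
  have hzo : orderOf (a ^ 2 ^ (k + 1)) = 2 :=
    orderOf_two_of (fun h => hzD ⟨0, by omega⟩ (by rw [h]; exact Subgroup.one_mem _)) (hZ2 _ hk2)
  have haQ : a ∈ Subgroup.closure ({a, b} : Set S) := Subgroup.subset_closure (by simp)
  have hbQ : b ∈ Subgroup.closure ({a, b} : Set S) := Subgroup.subset_closure (by simp)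
  have huniq : ∀ x ∈ Subgroup.closure ({a, b} : Set S), orderOf x = 2 → x = a ^ 2 ^ (k + 1) := by
    intro x hx hxo
    have hxZ : x ∈ (Subgroup.center S) := hq ⟨0, by omega⟩ x (by
      rw [mul_self_of_orderOf_two hxo]; exact Subgroup.one_mem _)
    obtain ⟨j, rfl | rfl⟩ := (mem_closure_inv_iff hinv hzb).1 hx
    · exact invol_unique_zpowers hxo hzo (Subgroup.zpow_mem_zpowers _ _)
        (Subgroup.npow_mem_zpowers _ _)
    · exact absurd hxZ (hba j)
  refine ⟨D, Subgroup.closure {a, b}, ⟨le_top, le_top, fun x hx y _ => (hzc (hDZ _ hx) y).eq.symm,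
    ?_, ?_⟩, ⟨⟨⟨fun x y => Subtype.ext (hzc (hDZ _ y.2) x).eq⟩⟩, fun x hx => by
      rw [pow_two]; exact hZ2 x (hDZ _ hx)⟩, fun h => hab ?_, ⟨_, Subgroup.pow_mem _ haQ _⟩,
      (Subgroup.orderOf_mk _ _).trans hzo, fun y hy => Subtype.ext (huniq y y.2
        (by rw [← hy, Subgroup.orderOf_coe]))⟩
  · rw [eq_bot_iff]
    intro x hx
    by_contra hx1
    exact hzD _ (huniq x hx.2 (orderOf_two_of hx1 (hZ2 x (hDZ _ hx.1))) ▸ hx.1)
  · rw [eq_top_iff]
    intro x _
    obtain ⟨d', hd', j, rfl | rfl⟩ := h3 x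
    · exact Subgroup.mul_mem_sup hd' (Subgroup.zpow_mem _ haQ j)
    · exact Subgroup.mul_mem _ (Subgroup.mem_sup_right hbQ)
        (Subgroup.mul_mem_sup hd' (Subgroup.zpow_mem _ haQ j))
  · exact congrArg Subtype.val (h.1.1 ⟨a, haQ⟩ ⟨b, hbQ⟩)

end Cfsg.Agent.S3201
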