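import Cfsg.Statements.S3202
import Cfsg.Agent.H11.QuatQ
import Cfsg.Agent.H11.Syl

set_option autoImplicit false
open Cfsg

namespace Cfsg.Agent.S3202

open Cfsg.Agent.H11



/-- Let S be a finite 2-group of 2-rank exactly 2 and D a maximal subgroup of the centre of S such that S/D is a non-abelian group with exactly one involution (a generalized quaternion group). Then S has a nontrivial cyclic characteristic subgroup. -/
theorem result {S : Type*} [Group S]
    [Finite S] (hS : IsPGroup 2 S) (hr2 : Cfsg.PRankLE 2 2 S) (hr1 : ¬ Cfsg.PRankLE 2 1 S)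
    (D : Subgroup ↥(Subgroup.center S)) (hD : IsCoatom D)
    (hq : ∃ (_ : (D.map (Subgroup.center S).subtype).Normal),
      ¬ IsMulCommutative (S ⧸ D.map (Subgroup.center S).subtype) ∧
      ∃! x : S ⧸ D.map (Subgroup.center S).subtype, orderOf x = 2) :
    ∃ C : Subgroup S, C ≠ ⊥ ∧ IsCyclic ↥C ∧ C.Characteristic := by
  obtain ⟨hN, hna, hu⟩ := hq
  have hDZ : D.map (Subgroup.center S).subtype ≤ Subgroup.center S := Subgroup.map_subtype_le _
  obtain ⟨a, b, h1, ⟨i, d, hd, h2⟩, h3⟩ := quat_quot_gens hS _ hna hu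
  have hz : ∀ {z : S}, z ∈ D.map (Subgroup.center S).subtype → ∀ x : S, Commute x z :=
    fun hz x => Subgroup.mem_center_iff.1 (hDZ hz) x
  set c := b * a * b⁻¹ * a⁻¹ with hc
  have e1 : b * a * b⁻¹ = (b * a * b⁻¹ * a) * a⁻¹ := by group
  have hca : Commute a (b * a * b⁻¹) := by
    rw [e1]; exact (hz h1 a).mul_right (Commute.refl a).inv_right
  have hac : Commute a c := hca.mul_right (Commute.refl a).inv_right
  have hbb : Commute (b * b) a := by
    rw [h2]; exact (hz hd a).symm.mul_left ((Commute.refl a).zpow_left i)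
  have hbc : b * c * b⁻¹ = c⁻¹ := by
    calc b * c * b⁻¹ = ((b * b) * a * (b * b)⁻¹) * (b * a * b⁻¹)⁻¹ := by rw [hc]; group
      _ = a * (b * a * b⁻¹)⁻¹ := by rw [hbb.eq]; group
      _ = c⁻¹ := by rw [hc]; group
  have hNn : (Subgroup.zpowers c).Normal := by
    rw [← Subgroup.normalizer_eq_top_iff, eq_top_iff]
    intro x _
    have hb' : b ∈ Subgroup.normalizer (Subgroup.zpowers c : Set S) :=
      mem_normalizer_of_cj_le (by rw [cj_zpowers, hbc]; simp)
    have hc' : ∀ y : S, Commute y c → y ∈ Subgroup.normalizer (Subgroup.zpowers c : Set S) :=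
      fun y hy => mem_normalizer_of_cj_le (by rw [cj_zpowers, hy.eq]; simp)
    obtain ⟨d', hd', j, rfl | rfl⟩ := h3 x
    · exact hc' _ ((hz hd' c).symm.mul_left (hac.zpow_left j))
    · exact Subgroup.mul_mem _ hb' (hc' _ ((hz hd' c).symm.mul_left (hac.zpow_left j)))
  have hcomm : IsMulCommutative (S ⧸ Subgroup.zpowers c) :=
    comm_of_gens (QuotientGroup.mk' _) (QuotientGroup.mk'_surjective _) hDZ (by
      rw [Commute, SemiconjBy, ← map_mul, ← map_mul, eq_comm]
      simp only [QuotientGroup.mk'_apply]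
      rw [QuotientGroup.eq_iff_div_mem, div_eq_mul_inv, mul_inv_rev, ← mul_assoc]
      exact Subgroup.mem_zpowers c) h3
  have hle : commutator S ≤ Subgroup.zpowers c :=
    (Subgroup.Normal.quotient_commutative_iff_commutator_le).1 hcomm
  refine ⟨commutator S, fun h0 => hna ?_, Subgroup.isCyclic_of_le hle, inferInstance⟩
  exact (Subgroup.Normal.quotient_commutative_iff_commutator_le).2 (by rw [h0]; exact bot_le)

end Cfsg.Agent.S3202
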