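import Cfsg.Statements.S3208
import Cfsg.Agent.H11.Count
import Cfsg.Agent.H1.Basic

set_option autoImplicit false
open Cfsg

namespace Cfsg.Agent.S3208

open Cfsg.Agent.H11



/-- Let j be an involution of a finite group G, H a subgroup of G, and T a Sylow 2-subgroup of H ∩ C_G(j) containing j such that ⟨j⟩ is a characteristic subgroup of T. Then T is a Sylow 2-subgroup of H. -/
theorem result {G : Type*} [Group G] [Finite G]
    (j : G) (hj : orderOf j = 2) (H T : Subgroup G) (hT : T ≤ H ⊓ Subgroup.centralizer ({j} : Set G)) (h2 : IsPGroup 2 ↥T)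
    (hSyl : ¬ 2 ∣ T.relIndex (H ⊓ Subgroup.centralizer ({j} : Set G))) (hjT : j ∈ T)
    (hchar : ((Subgroup.zpowers j).subgroupOf T).Characteristic) :
    ¬ 2 ∣ T.relIndex H := by
  have hS : IsSylIn 2 T (H ⊓ Subgroup.centralizer ({j} : Set G)) := isSylIn_of_not_dvd hT h2 hSyl
  refine (hS.of_normalizer_le (K := H) (hT.trans inf_le_left) ?_).not_dvd_relIndex
  intro x hx hn
  refine ⟨hx, ?_⟩
  have h1 := H1.normalizer_le_normalizer_map_subtype_of_characteristic T ((Subgroup.zpowers j).subgroupOf T) hn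
  rw [Subgroup.subgroupOf_map_subtype, inf_eq_left.2 ((Subgroup.zpowers_le).2 hjT)] at h1
  have h3 := conj_mem_of_mem_normalizer h1 (Subgroup.mem_zpowers j)
  have h4 : x * j * x⁻¹ = j :=
    invol_unique_zpowers (by rw [orderOf_conj, hj]) hj h3 (Subgroup.mem_zpowers j)
  exact mem_cent1.2 (by rw [mul_inv_eq_iff_eq_mul] at h4; exact h4)

end Cfsg.Agent.S3208
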