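import Cfsg.Statements.S3209
import Cfsg.Agent.H11.Invol
import Cfsg.Agent.H12.DicksonSL

set_option autoImplicit false
open Cfsg

namespace Cfsg.Agent.S3209

open Cfsg.Agent.H11

theorem sl2_facts {G : Type*} [Group G] {F : Type*} [Field F] [Fintype F]
    (hF : Odd (Fintype.card F)) {L : Subgroup G}
    (e : ↥L ≃* Matrix.SpecialLinearGroup (Fin 2) F) {j : G} (hj : orderOf j = 2) (hjL : j ∈ L) :
    (∀ x ∈ L, x * x = 1 → x = 1 ∨ x = j) ∧ (∃ x ∈ L, x * x = j) ∧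
      ∀ x ∈ L, ∀ y ∈ L, x * x = j → y * y = j → ∃ g ∈ L, g * x * g⁻¹ = y := by
  have h2 : (2 : F) ≠ 0 := H12.two_ne_zero_of_odd_card hF
  have hej : e ⟨j, hjL⟩ = -1 := by
    refine (H12.sl2_eq_of_mul_self h2 ?_).resolve_left fun h => ne_one_of_orderOf_two hj ?_
    · rw [← map_mul, ← map_one e]
      congr 1
      exact Subtype.ext (mul_self_of_orderOf_two hj)
    · exact congrArg Subtype.val (e.map_eq_one_iff.1 h)
  have hsq : ∀ x (hx : x ∈ L), x * x = j → (e ⟨x, hx⟩).1.trace = 0 := fun x hx h =>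
    H12.sl2_trace_of_mul_self (by
      rw [← map_mul, ← hej]; congr 1; exact Subtype.ext h)
  refine ⟨fun x hx h => ?_, ⟨e.symm (H12.comp 0), Subtype.prop _, ?_⟩, fun x hx y hy h1 h3 => ?_⟩
  · rcases H12.sl2_eq_of_mul_self h2 (g := e ⟨x, hx⟩) (by
      rw [← map_mul, ← map_one e]; congr 1; exact Subtype.ext h) with h' | h'
    · exact Or.inl (congrArg Subtype.val (e.map_eq_one_iff.1 h'))
    · exact Or.inr (congrArg Subtype.val (e.injective (h'.trans hej.symm)))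
  · have : e.symm (H12.comp 0) * e.symm (H12.comp 0) = ⟨j, hjL⟩ := by
      rw [← map_mul, H12.sl2_mul_self_of_trace (by simp [H12.comp, Matrix.trace_fin_two]), ← hej]
      simp
    exact congrArg Subtype.val this
  · obtain ⟨P, hP⟩ := H12.exists_conj_of_trace_eq (g := e ⟨x, hx⟩) (h := e ⟨y, hy⟩) (by
      rw [hsq x hx h1]
      intro h
      have : (2 : F) * 2 = 0 := by rw [show (2 : F) * 2 = 4 by norm_num, ← h]; simp
      exact h2 (by simpa using this)) (by rw [hsq x hx h1, hsq y hy h3])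
    refine ⟨e.symm P, Subtype.prop _, ?_⟩
    have : e.symm P * ⟨x, hx⟩ * (e.symm P)⁻¹ = ⟨y, hy⟩ := e.injective (by simpa using hP)
    exact congrArg Subtype.val this

/-- Let L₁ ≅ SL₂(q₁) and L₂ ≅ SL₂(q₂), q₁ and q₂ odd, be elementwise-commuting subgroups of a finite group meeting in ⟨j⟩ for an involution j. Then L₁L₂ has exactly two conjugacy classes of involutions: the central involution j, and one further class (there is an involution x ≠ j in L₁L₂, and every involution of L₁L₂ other than j is conjugate to x by an element of L₁L₂). -/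
theorem result {G : Type*} [Group G] [Finite G]
    {F₁ : Type*} [Field F₁] [Fintype F₁] {F₂ : Type*} [Field F₂] [Fintype F₂]
    (hF₁ : Odd (Fintype.card F₁)) (hF₂ : Odd (Fintype.card F₂)) (L₁ L₂ : Subgroup G)
    (e₁ : ↥L₁ ≃* Matrix.SpecialLinearGroup (Fin 2) F₁) (e₂ : ↥L₂ ≃* Matrix.SpecialLinearGroup (Fin 2) F₂)
    (hc : ∀ x ∈ L₁, ∀ y ∈ L₂, x * y = y * x) (j : G) (hj : orderOf j = 2) (hm : L₁ ⊓ L₂ = Subgroup.zpowers j) :
    ∃ x ∈ L₁ ⊔ L₂, orderOf x = 2 ∧ x ≠ j ∧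
      ∀ y ∈ L₁ ⊔ L₂, orderOf y = 2 → y = j ∨ ∃ g ∈ L₁ ⊔ L₂, g * x * g⁻¹ = y := by
  have hjm : j ∈ L₁ ⊓ L₂ := hm ▸ Subgroup.mem_zpowers j
  obtain ⟨a1, ⟨u, hu, hu2⟩, a3⟩ := sl2_facts hF₁ e₁ hj hjm.1
  obtain ⟨b1, ⟨v, hv, hv2⟩, b3⟩ := sl2_facts hF₂ e₂ hj hjm.2
  have hjj := mul_self_of_orderOf_two hj
  have hj1 := ne_one_of_orderOf_two hj
  have hsq : ∀ x ∈ L₁, ∀ y ∈ L₂, x * y * (x * y) = x * x * (y * y) := fun x hx y hy =>
    (show Commute y x from (hc x hx y hy).symm).mul_mul_mul_comm x y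
  have hzj : ∀ x ∈ L₁ ⊓ L₂, x * x = 1 := by
    rw [hm]
    rintro x ⟨k, rfl⟩
    rw [← (Commute.refl j).mul_zpow, hjj, one_zpow]
  have huv : ∀ w ∈ L₂, u * v ≠ w := fun w hw h => hj1 (by
    rw [← hu2]
    refine hzj u ⟨hu, ?_⟩
    rw [eq_mul_inv_of_mul_eq h]
    exact L₂.mul_mem hw (L₂.inv_mem hv))
  refine ⟨u * v, Subgroup.mul_mem_sup hu hv, orderOf_two_of (huv 1 L₂.one_mem) (by
    rw [hsq u hu v hv, hu2, hv2, hjj]), huv j hjm.2, fun y hy hyo => ?_⟩
  have hn : L₁ ≤ Subgroup.normalizer (L₂ : Set G) := fun x hx => by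
    rw [Subgroup.mem_normalizer_iff]
    intro y
    constructor
    · intro h; rw [hc x hx y h]; simpa using h
    · intro h
      have := hc x hx _ h
      have e : y = x * y * x⁻¹ := by
        calc y = x⁻¹ * (x * y * x⁻¹ * x) := by group
          _ = _ := by rw [← this]; group
      rw [e]; exact h
  have hy' : y ∈ ((L₁ ⊔ L₂ : Subgroup G) : Set G) := hy
  rw [Subgroup.coe_mul_of_left_le_normalizer_right _ _ hn] at hy'
  obtain ⟨x, hx, z, hz, rfl⟩ := hy'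
  have hyy := mul_self_of_orderOf_two hyo
  dsimp only at hyy hyo ⊢
  rw [hsq x hx z hz] at hyy
  have hxm : x * x ∈ L₁ ⊓ L₂ := ⟨L₁.mul_mem hx hx, by
    rw [eq_inv_of_mul_eq_one_left hyy]; exact L₂.inv_mem (L₂.mul_mem hz hz)⟩
  rcases a1 _ hxm.1 (hzj _ hxm) with h | h
  · left
    have hx2 : x ∈ L₂ := by
      rcases a1 x hx h with rfl | rfl
      · exact L₂.one_mem
      · exact hjm.2
    exact (b1 _ (L₂.mul_mem hx2 hz) (mul_self_of_orderOf_two hyo)).resolve_left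
      (ne_one_of_orderOf_two hyo)
  · right
    have hz2 : z * z = j := by
      rw [h] at hyy
      rw [eq_inv_of_mul_eq_one_right hyy, inv_eq_of_orderOf_two hj]
    obtain ⟨g, hg, e1⟩ := a3 u hu x hx hu2 h
    obtain ⟨k, hk, e2⟩ := b3 v hv z hz hv2 hz2
    refine ⟨g * k, Subgroup.mul_mem_sup hg hk, ?_⟩
    rw [← e1, ← e2]
    have c1 := hc u hu k hk
    have c2 := hc g⁻¹ (L₁.inv_mem hg) _ (L₂.mul_mem (L₂.mul_mem hk hv) (L₂.inv_mem hk))
    calc g * k * (u * v) * (g * k)⁻¹ = g * (k * u) * v * k⁻¹ * g⁻¹ := by group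
      _ = g * u * (k * v * k⁻¹ * g⁻¹) := by rw [← c1]; group
      _ = _ := by rw [← c2]; group

end Cfsg.Agent.S3209
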