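import Cfsg.Statements.S3211
import Cfsg.Agent.H6.ZStar2
-- import your own Cfsg.Agent.* helpers here

set_option autoImplicit false
open Cfsg

namespace Cfsg.Agent.S3211

open Cfsg.Agent.H4 Cfsg.Agent.H6

open Matrix in
theorem sl_facts {F : Type*} [Field F] [Fintype F] (hF : Odd (Fintype.card F)) :
    (∀ s : SpecialLinearGroup (Fin 2) F, s * s = 1 → s = 1 ∨ s = -1) ∧
    (∀ x : SpecialLinearGroup (Fin 2) F, x * x = -1 → ∃ b, b * x * b⁻¹ = x⁻¹) ∧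
    (∀ x c : SpecialLinearGroup (Fin 2) F, x * x = -1 → c * x * c⁻¹ = x⁻¹ → c * c = -1) := by
  have h2 : (2 : F) ≠ 0 := fun h => by
    have h3 : ringChar F = 2 := (Nat.prime_dvd_prime_iff_eq (CharP.char_is_prime F _)
      Nat.prime_two).1 ((ringChar.spec F 2).1 (by exact_mod_cast h))
    have := FiniteField.even_card_iff_char_two.1 h3
    rw [Nat.odd_iff] at hF
    omega
  have hent : ∀ {a b : SpecialLinearGroup (Fin 2) F}, a = b → ∀ i j, a.1 i j = b.1 i j :=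
    fun h i j => by rw [h]
  have hdet : ∀ s : SpecialLinearGroup (Fin 2) F, s.1 0 0 * s.1 1 1 - s.1 0 1 * s.1 1 0 = 1 :=
    fun s => by rw [← Matrix.det_fin_two]; exact s.2
  have htr : ∀ x : SpecialLinearGroup (Fin 2) F, x * x = -1 → x.1 1 1 = - x.1 0 0 := by
    intro x hx
    have e0 := hent hx 0 0
    have e1 := hent hx 1 1
    have e2 := hent hx 0 1
    have d := hdet x
    simp [Matrix.mul_apply, Fin.sum_univ_two] at e0 e1 e2
    have h3 : (x.1 0 0 + x.1 1 1) ^ 2 = 0 := by linear_combination e0 + e1 + 2 * d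
    linear_combination pow_eq_zero_iff two_ne_zero |>.1 h3
  have hinv : ∀ x : SpecialLinearGroup (Fin 2) F, x * x = -1 → x⁻¹ = -x := fun x hx => by
    rw [inv_eq_iff_mul_eq_one, mul_neg, hx, neg_neg]
  refine ⟨fun s hs => ?_, fun x hx => ?_, fun x c hx hc => ?_⟩
  · have e0 := hent hs 0 0
    have e1 := hent hs 1 1
    have e2 := hent hs 0 1
    have e3 := hent hs 1 0
    have d := hdet s
    simp [Matrix.mul_apply, Fin.sum_univ_two] at e0 e1 e2 e3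
    have h3 : (s.1 0 0 + s.1 1 1) ≠ 0 := fun h => h2 (by
      have : (2 : F) ^ 2 = 0 := by
        linear_combination (s.1 0 0 + s.1 1 1) * h - e0 - e1 - 2 * d
      exact pow_eq_zero_iff two_ne_zero |>.1 this)
    have h4 : s.1 0 1 = 0 := (mul_eq_zero.1 (by linear_combination e2)).resolve_left h3
    have h5 : s.1 1 0 = 0 := (mul_eq_zero.1 (by linear_combination e3)).resolve_left h3
    have h6 : s.1 1 1 = s.1 0 0 := by
      have : (s.1 0 0 + s.1 1 1) * (s.1 1 1 - s.1 0 0) = 0 := by linear_combination e1 - e0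
      linear_combination (mul_eq_zero.1 this).resolve_left h3
    rcases mul_self_eq_one_iff.1 (show s.1 0 0 * s.1 0 0 = 1 by
      linear_combination e0 - s.1 1 0 * h4) with h | h
    · left; ext i j; fin_cases i <;> fin_cases j <;> simp [h, h4, h5, h6]
    · right; ext i j; fin_cases i <;> fin_cases j <;> simp [h, h4, h5, h6]
  · have t := htr x hx
    have d := hdet x
    rw [t] at d
    have key : ∃ u v w : F, 2 * x.1 0 0 * u + x.1 0 1 * w + x.1 1 0 * v = 0 ∧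
        u * u + v * w = -1 := by
      by_cases hc : x.1 1 0 = 0
      · refine ⟨x.1 0 0 * x.1 0 1 / 2, -1 - (x.1 0 0 * x.1 0 1 / 2) ^ 2, 1, ?_, by ring⟩
        rw [hc] at d ⊢
        linear_combination (-x.1 0 1) * d + x.1 0 0 ^ 2 * x.1 0 1 * mul_inv_cancel₀ h2
      · obtain ⟨s, r, h⟩ : ∃ s r : F, s ^ 2 + r ^ 2 = -1 := by
          obtain ⟨s, r, h⟩ := FiniteField.exists_root_sum_quadratic
            (f := Polynomial.X ^ 2 + 1) (g := (Polynomial.X ^ 2 : Polynomial F))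
            (Polynomial.degree_X_pow_add_C (by norm_num) 1) (Polynomial.degree_X_pow 2)
            (Nat.odd_iff.1 hF)
          exact ⟨s, r, by simp at h; linear_combination h⟩
        refine ⟨s + x.1 0 0 * r, (r - 2 * x.1 0 0 * s - x.1 0 0 ^ 2 * r) / x.1 1 0,
          x.1 1 0 * r, ?_, ?_⟩
        · field_simp
          linear_combination (-r) * d
        · field_simp
          linear_combination h
    obtain ⟨u, v, w, h3, h4⟩ := key
    obtain ⟨b, hb⟩ : ∃ b : SpecialLinearGroup (Fin 2) F, b.1 = !![u, v; w, -u] :=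
      ⟨⟨!![u, v; w, -u], by rw [Matrix.det_fin_two_of]; linear_combination -h4⟩, rfl⟩
    refine ⟨b, ?_⟩
    rw [mul_inv_eq_iff_eq_mul, hinv x hx]
    ext i j
    fin_cases i <;> fin_cases j <;> simp [Matrix.mul_apply, Fin.sum_univ_two, t, hb]
    · linear_combination h3
    · ring
    · ring
    · linear_combination h3
  · rw [mul_inv_eq_iff_eq_mul, hinv x hx] at hc
    have t := htr x hx
    have d := hdet x
    have d' := hdet c
    have e0 := hent hc 0 0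
    have e1 := hent hc 1 1
    have e2 := hent hc 0 1
    have e3 := hent hc 1 0
    simp [Matrix.mul_apply, Fin.sum_univ_two, t] at e0 e1 e2 e3 d
    have h3 : c.1 0 0 + c.1 1 1 = 0 := mul_left_cancel₀ h2 (by
      linear_combination (-x.1 0 0) * (e0 - e1) - 2 * x.1 1 0 * e2 +
        2 * (c.1 0 0 + c.1 1 1) * (-d))
    ext i j
    fin_cases i <;> fin_cases j <;> simp [Matrix.mul_apply, Fin.sum_univ_two]
    · linear_combination c.1 0 0 * h3 - d'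
    · linear_combination c.1 0 1 * h3
    · linear_combination c.1 1 0 * h3
    · linear_combination c.1 1 1 * h3 - d'


section
variable {G : Type*} [Group G]

/-- the properties of `SL₂(q)` that are used. -/
structure Good (L : Subgroup G) (j : G) : Prop where
  uniq : ∀ s ∈ L, s * s = 1 → s = 1 ∨ s = j
  inv : ∀ x ∈ L, x * x = j → ∃ b ∈ L, b * x * b⁻¹ = x⁻¹
  sq : ∀ x ∈ L, ∀ c ∈ L, x * x = j → c * x * c⁻¹ = x⁻¹ → c * c = j

theorem good_of_equiv {F : Type*} [Field F] [Fintype F] (hF : Odd (Fintype.card F))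
    {L : Subgroup G} (e : L ≃* Matrix.SpecialLinearGroup (Fin 2) F) {j : G} (hj : orderOf j = 2)
    (hjL : j ∈ L) : Good L j := by
  obtain ⟨h1, h2, h3⟩ := sl_facts hF
  have hj1 : e ⟨j, hjL⟩ = -1 := (h1 _ (by
    rw [← map_mul, ← map_one e]
    exact congrArg e (Subtype.ext (H11.mul_self_of_orderOf_two hj)))).resolve_left fun h =>
      H11.ne_one_of_orderOf_two hj (congrArg Subtype.val (e.map_eq_one_iff.1 h))
  have hsq : ∀ x (hx : x ∈ L), x * x = j ↔ e ⟨x, hx⟩ * e ⟨x, hx⟩ = -1 := fun x hx => by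
    rw [← map_mul, ← hj1, e.apply_eq_iff_eq, Subtype.ext_iff]; rfl
  refine ⟨fun s hs h => ?_, fun x hx h => ?_, fun x hx c hc h h' => ?_⟩
  · refine (h1 (e ⟨s, hs⟩) (by
      rw [← map_mul, ← map_one e]; exact congrArg e (Subtype.ext h))).imp
      (fun h => congrArg Subtype.val (e.map_eq_one_iff.1 h)) fun h => ?_
    rw [← hj1] at h
    exact congrArg Subtype.val (e.injective h)
  · obtain ⟨b, hb⟩ := h2 _ ((hsq x hx).1 h)
    obtain ⟨b, rfl⟩ := e.surjective b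
    rw [← map_inv, ← map_inv, ← map_mul, ← map_mul] at hb
    exact ⟨b, b.2, congrArg Subtype.val (e.injective hb)⟩
  · refine (hsq c hc).2 (h3 _ _ ((hsq x hx).1 h) ?_)
    rw [← map_inv, ← map_inv, ← map_mul, ← map_mul]
    exact congrArg e (Subtype.ext h')

def D (j t : G) : Subgroup G :=
  Subgroup.closure {s | s * s = 1 ∧ s * j = j * s ∧ s * t = t * s}

theorem D_comm (j t : G) : D j t = D t j := by
  simp only [D, and_comm]

theorem conj_mem_D {j t y : G} (g : G) (hy : y ∈ D j t) :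
    g * y * g⁻¹ ∈ D (g * j * g⁻¹) (g * t * g⁻¹) := by
  refine (Subgroup.closure_le ((D _ _).comap (MulAut.conj g).toMonoidHom)).2 ?_ hy
  rintro s ⟨h1, h2, h3⟩
  refine Subgroup.subset_closure ⟨?_, ?_, ?_⟩ <;>
    simp only [MulEquiv.toMonoidHom_eq_coe, MonoidHom.coe_coe, MulAut.conj_apply, conj_mul]
  · rw [h1]; simp
  · rw [h2]
  · rw [h3]

theorem main {L₁ L₂ : Subgroup G} {j t : G} (hc : ∀ x ∈ L₁, ∀ y ∈ L₂, x * y = y * x)
    (hj : orderOf j = 2) (hm : L₁ ⊓ L₂ = Subgroup.zpowers j) (g₁ : Good L₁ j) (g₂ : Good L₂ j)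
    (hK : ∀ s, s * s = 1 → s * j = j * s → ∃ x ∈ L₁, ∃ y ∈ L₂, x * y = s)
    (ht : orderOf t = 2) (htj : t * j = j * t) (hne : t ≠ j) :
    (∃ x ∈ D j t, orderOf x = 4) ∧ ∀ N, Even N → (∀ z ∈ D j t, z ^ (2 * N) = 1) →
      ∀ y ∈ D j t, y ^ N = 1 ∨ y ^ N = j := by
  have hjj := H11.mul_self_of_orderOf_two hj
  have hj1 := H11.ne_one_of_orderOf_two hj
  have hjL : j ∈ L₁ ⊓ L₂ := hm ▸ Subgroup.mem_zpowers j
  have hinf : ∀ a ∈ L₁, ∀ b ∈ L₂, a * b = 1 → (a = 1 ∧ b = 1) ∨ (a = j ∧ b = j) := by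
    intro a ha b hb h
    have h1 : a ∈ L₁ ⊓ L₂ := ⟨ha, by rw [eq_inv_of_mul_eq_one_left h]; exact L₂.inv_mem hb⟩
    rw [hm] at h1
    rcases (H11.mem_zpowers_invol hjj).1 h1 with rfl | rfl
    · exact Or.inl ⟨rfl, by simpa using h⟩
    · exact Or.inr ⟨rfl, mul_left_cancel (h.trans hjj.symm)⟩
  have cj1 : ∀ a ∈ L₁, Commute a j := fun a ha => hc a ha j hjL.2
  have cj2 : ∀ a ∈ L₂, Commute a j := fun a ha => (hc j hjL.1 a ha).symm
  have cc : ∀ a ∈ L₁, ∀ b ∈ L₂, Commute a b := hc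
  obtain ⟨x₁, h₁, x₂, h₂, rfl⟩ := hK t (H11.mul_self_of_orderOf_two ht) htj
  obtain ⟨s₁, s₂⟩ : x₁ * x₁ = j ∧ x₂ * x₂ = j := by
    refine (hinf _ (L₁.mul_mem h₁ h₁) _ (L₂.mul_mem h₂ h₂) (by
      rw [← (cc _ h₁ _ h₂).symm.mul_mul_mul_comm, H11.mul_self_of_orderOf_two ht])).resolve_left
      fun h => ?_
    rcases g₁.uniq _ h₁ h.1 with rfl | rfl <;> rcases g₂.uniq _ h₂ h.2 with rfl | rfl
    · simp at ht
    · simp at hne
    · simp at hne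
    · rw [hjj] at ht; simp at ht
  obtain ⟨b₁, hb₁, e₁⟩ := g₁.inv _ h₁ s₁
  obtain ⟨b₂, hb₂, e₂⟩ := g₂.inv _ h₂ s₂
  have hconj : ∀ y₁ ∈ L₁, ∀ y₂ ∈ L₂, y₁ * y₂ * (x₁ * x₂) * (y₁ * y₂)⁻¹ =
      y₁ * x₁ * y₁⁻¹ * (y₂ * x₂ * y₂⁻¹) := fun y₁ a₁ y₂ a₂ => by
    rw [(cc _ a₁ _ a₂).eq, (cc _ (L₁.mul_mem (L₁.mul_mem a₁ h₁) (L₁.inv_mem a₁)) _
      (L₂.mul_mem (L₂.mul_mem a₂ h₂) (L₂.inv_mem a₂))).eq, (cc _ h₁ _ h₂).eq]
    calc y₂ * y₁ * (x₂ * x₁) * (y₂ * y₁)⁻¹ = y₂ * (y₁ * x₂) * (x₁ * y₁⁻¹ * y₂⁻¹) := by group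
      _ = y₂ * (x₂ * y₁) * (x₁ * y₁⁻¹ * y₂⁻¹) := by rw [(cc _ a₁ _ h₂).eq]
      _ = y₂ * x₂ * (y₁ * x₁ * y₁⁻¹ * y₂⁻¹) := by group
      _ = _ := by
        rw [(cc _ (L₁.mul_mem (L₁.mul_mem a₁ h₁) (L₁.inv_mem a₁)) _ (L₂.inv_mem a₂)).eq]; group
  have htinv : x₁⁻¹ * x₂⁻¹ = x₁ * x₂ := by
    rw [← mul_inv_rev, ← (cc _ h₁ _ h₂).eq, H11.inv_eq_of_orderOf_two ht]
  have hD : ∀ y₁ ∈ L₁, ∀ y₂ ∈ L₂, y₁ * x₁ * y₁⁻¹ = x₁⁻¹ → y₂ * x₂ * y₂⁻¹ = x₂⁻¹ →
      y₁ * y₂ * (y₁ * y₂) = 1 ∧ y₁ * y₂ ∈ D j (x₁ * x₂) := fun y₁ a₁ y₂ a₂ c₁ c₂ => by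
    have h1 : y₁ * y₂ * (y₁ * y₂) = 1 := by
      rw [(cc _ a₁ _ a₂).symm.mul_mul_mul_comm, g₁.sq _ h₁ _ a₁ s₁ c₁, g₂.sq _ h₂ _ a₂ s₂ c₂, hjj]
    refine ⟨h1, Subgroup.subset_closure ⟨h1, (cj1 _ a₁).mul_left (cj2 _ a₂), ?_⟩⟩
    rw [← mul_inv_eq_iff_eq_mul, hconj _ a₁ _ a₂, c₁, c₂, htinv]
  have hb := (hD _ hb₁ _ hb₂ e₁ e₂).2
  have hD₁ : ∀ y ∈ L₁, y * x₁ * y⁻¹ = x₁ → y ∈ D j (x₁ * x₂) := fun y a c => by
    have := (hD _ (L₁.mul_mem hb₁ a) _ hb₂ (by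
      rw [← e₁, ← c]; simp only [c]; conv_rhs => rw [← c]
      group) e₂).2
    rw [mul_assoc, (cc _ a _ hb₂).eq, ← mul_assoc] at this
    exact (Subgroup.mul_mem_cancel_left _ hb).1 this
  have hD₂ : ∀ y ∈ L₂, y * x₂ * y⁻¹ = x₂ → y ∈ D j (x₁ * x₂) := fun y a c => by
    have := (hD _ hb₁ _ (L₂.mul_mem hb₂ a) e₁ (by
      rw [← e₂, ← c]; simp only [c]; conv_rhs => rw [← c]
      group)).2
    rw [← mul_assoc] at this
    exact (Subgroup.mul_mem_cancel_left _ hb).1 this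
  refine ⟨⟨x₁, hD₁ _ h₁ (by group), ?_⟩, fun N hN hz y hy => ?_⟩
  · refine orderOf_eq_prime_pow (p := 2) (n := 1) (by rw [pow_one, sq, s₁]; exact hj1) ?_
    rw [show 2 ^ (1 + 1) = 2 * 2 by norm_num, pow_mul, sq, sq, s₁, hjj]
  have hy' : y ∈ (L₁ ⊔ L₂) ⊓ Subgroup.centralizer {x₁ * x₂} := by
    refine (Subgroup.closure_le _).2 ?_ hy
    rintro s ⟨a1, a2, a3⟩
    obtain ⟨u, hu, v, hv, rfl⟩ := hK s a1 a2
    exact ⟨mul_mem (Subgroup.mem_sup_left hu) (Subgroup.mem_sup_right hv), H11.mem_cent1.2 a3⟩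
  obtain ⟨hy1, hy2⟩ := hy'
  rw [Subgroup.coe_toSubmonoid, Subgroup.coe_mul_of_right_le_normalizer_left _ _ fun r hr =>
    Subgroup.mem_normalizer_iff.2 fun q => ⟨fun hq => by
      rwa [← hc q hq r hr, mul_inv_cancel_right], fun hq => by
      have := hc _ hq r hr
      rw [inv_mul_cancel_right, mul_right_inj] at this
      exact this ▸ hq⟩] at hy1
  obtain ⟨y₁, a₁, y₂, a₂, rfl⟩ := hy1
  have h3 := mul_inv_eq_iff_eq_mul.2 (H11.mem_cent1.1 hy2)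
  dsimp only at h3 hy ⊢
  rw [hconj _ a₁ _ a₂] at h3
  rcases hinf (x₁⁻¹ * (y₁ * x₁ * y₁⁻¹)) (L₁.mul_mem (L₁.inv_mem h₁) (L₁.mul_mem (L₁.mul_mem a₁ h₁)
    (L₁.inv_mem a₁))) (y₂ * x₂ * y₂⁻¹ * x₂⁻¹) (L₂.mul_mem (L₂.mul_mem (L₂.mul_mem a₂ h₂)
    (L₂.inv_mem a₂)) (L₂.inv_mem h₂)) (by
      rw [mul_assoc, ← mul_assoc (y₁ * x₁ * y₁⁻¹), h3]; group) with ⟨c₁, c₂⟩ | ⟨c₁, c₂⟩
  · have d₁ := hz _ (hD₁ _ a₁ (inv_mul_eq_one.1 c₁).symm)
    have d₂ := hz _ (hD₂ _ a₂ (mul_inv_eq_one.1 c₂))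
    rw [two_mul, pow_add] at d₁ d₂
    rw [(cc _ a₁ _ a₂).mul_pow]
    rcases g₁.uniq _ (L₁.pow_mem a₁ N) d₁ with h | h <;>
      rcases g₂.uniq _ (L₂.pow_mem a₂ N) d₂ with h' | h' <;> simp [h, h', hjj]
  · left
    obtain ⟨k, rfl⟩ := hN
    rw [← two_mul, pow_mul, sq, (hD _ a₁ _ a₂ ?_ ?_).1, one_pow]
    · rw [inv_mul_eq_iff_eq_mul.1 c₁, eq_inv_iff_mul_eq_one, mul_assoc, ← (cj1 _ h₁).eq,
        ← mul_assoc, s₁, hjj]
    · rw [mul_inv_eq_iff_eq_mul.1 c₂, eq_inv_iff_mul_eq_one, mul_assoc, s₂, hjj]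

end

/-- Let G be a finite group with subgroups L₁ ≅ SL₂(q₁) and L₂ ≅ SL₂(q₂), q₁ and q₂ odd prime powers, which commute elementwise and meet in ⟨j⟩ for an involution j, and suppose L₁L₂ has index 2 in C_G(j). If some n ∈ C_G(j) with n² = j interchanges L₁ and L₂ under conjugation (so that C_G(j) = L₁L₂⟨n⟩), then G = C_G(j)O(G). -/
theorem result {G : Type*} [Group G] [Finite G]
    {F₁ : Type*} [Field F₁] [Fintype F₁] {F₂ : Type*} [Field F₂] [Fintype F₂]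
    (hF₁ : Odd (Fintype.card F₁)) (hF₂ : Odd (Fintype.card F₂)) (L₁ L₂ : Subgroup G)
    (e₁ : ↥L₁ ≃* Matrix.SpecialLinearGroup (Fin 2) F₁) (e₂ : ↥L₂ ≃* Matrix.SpecialLinearGroup (Fin 2) F₂)
    (hc : ∀ x ∈ L₁, ∀ y ∈ L₂, x * y = y * x) (j : G) (hj : orderOf j = 2) (hm : L₁ ⊓ L₂ = Subgroup.zpowers j)
    (hle : L₁ ⊔ L₂ ≤ Subgroup.centralizer ({j} : Set G)) (hi : (L₁ ⊔ L₂).relIndex (Subgroup.centralizer ({j} : Set G)) = 2) (n : G) (hn : n ∈ Subgroup.centralizer ({j} : Set G))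
    (hn2 : n ^ 2 = j) (hswap : L₁.map (MulAut.conj n).toMonoidHom = L₂) :
    Subgroup.centralizer ({j} : Set G) ⊔ Cfsg.oddCore G = ⊤ := by
  have hjj := H11.mul_self_of_orderOf_two hj
  have hjL : j ∈ L₁ ⊓ L₂ := hm ▸ Subgroup.mem_zpowers j
  have g₁ := good_of_equiv hF₁ e₁ hj hjL.1
  have g₂ := good_of_equiv hF₂ e₂ hj hjL.2
  have hnj := H11.mem_cent1.1 hn
  have hmem : ∀ s ∈ L₁ ⊔ L₂, ∃ x ∈ L₁, ∃ y ∈ L₂, x * y = s := fun s hs => by
    rw [← SetLike.mem_coe, Subgroup.coe_mul_of_right_le_normalizer_left _ _ fun r hr =>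
      H3.mem_normalizer_of_conj_mem fun q hq => by
        rwa [← hc q hq r hr, mul_inv_cancel_right]] at hs
    exact hs
  have hs1 : ∀ x ∈ L₁, n * x * n⁻¹ ∈ L₂ := fun x hx => hswap ▸ H11.conj_mem_map_conj n hx
  have hs2 : ∀ y ∈ L₂, n⁻¹ * y * n ∈ L₁ := fun y hy => H11.mem_map_conj.1 (hswap ▸ hy)
  have hnn : ∀ y ∈ L₂, n * y * n⁻¹ = n⁻¹ * y * n := fun y hy => by
    calc n * y * n⁻¹ = n⁻¹ * (n ^ 2 * y) * n⁻¹ := by group
      _ = n⁻¹ * (y * n ^ 2) * n⁻¹ := by rw [hn2, hc j hjL.1 y hy]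
      _ = _ := by group
  have hj1 := H11.ne_one_of_orderOf_two hj
  have hout : ∀ x ∈ L₁, ∀ y ∈ L₂, x * y * n * (x * y * n) ≠ 1 := fun x hx y hy h => by
    have h1 : x * y * n * (x * y * n) =
        x * (n * y * n⁻¹) * (y * (n * x * n⁻¹) * j) := by
      have e1 := hc _ (hnn y hy ▸ hs2 y hy) _ (L₂.mul_mem hy (hs1 x hx))
      calc x * y * n * (x * y * n) = x * (y * (n * x * n⁻¹) * (n * y * n⁻¹)) * n ^ 2 := by group
        _ = _ := by rw [← e1, hn2]; group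
    rw [h1] at h
    have h2 : x * (n * y * n⁻¹) ∈ L₁ ⊓ L₂ := ⟨L₁.mul_mem hx (hnn y hy ▸ hs2 y hy), by
      rw [eq_inv_of_mul_eq_one_left h]
      exact L₂.inv_mem (L₂.mul_mem (L₂.mul_mem hy (hs1 x hx)) hjL.2)⟩
    rw [hm] at h2
    have h3 : y * (n * x * n⁻¹) = x * (n * y * n⁻¹) := by
      have e1 : n * x * n⁻¹ = n⁻¹ * x * n := by
        calc n * x * n⁻¹ = n⁻¹ * (n ^ 2 * x) * n⁻¹ := by group
          _ = n⁻¹ * (x * n ^ 2) * n⁻¹ := by rw [hn2, hc x hx j hjL.2]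
          _ = _ := by group
      have e2 : y * (n * x * n⁻¹) = n⁻¹ * x⁻¹ * (x * (n * y * n⁻¹)) * x * n := by rw [e1]; group
      have e3 := hc x hx j hjL.2
      rw [e2]
      rcases (H11.mem_zpowers_invol hjj).1 h2 with h4 | h4 <;> rw [h4]
      · group
      · calc n⁻¹ * x⁻¹ * j * x * n = n⁻¹ * x⁻¹ * (j * x) * n := by group
          _ = n⁻¹ * (j * n) := by rw [← e3]; group
          _ = j := by rw [← hnj]; group
    rw [h3, ← mul_assoc] at h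
    rcases (H11.mem_zpowers_invol hjj).1 h2 with h4 | h4 <;> rw [h4] at h
    · exact hj1 (by simpa using h)
    · exact hj1 (by simpa [hjj] using h)
  have hK : ∀ s, s * s = 1 → s * j = j * s → ∃ x ∈ L₁, ∃ y ∈ L₂, x * y = s := by
    intro s h1 h2
    by_contra h3
    have hs : s ∈ Subgroup.centralizer {j} := H11.mem_cent1.2 h2
    have h4 := (Subgroup.mul_mem_iff_of_index_two hi (a := ⟨s, hs⟩) (b := ⟨n, hn⟩⁻¹)).2 (by
      refine iff_of_false (fun h => h3 (hmem s h)) fun h => ?_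
      obtain ⟨x, hx, y, hy, h5⟩ := hmem _ h
      have h6 : x * y * n = 1 := by rw [h5]; simp
      exact hout x hx y hy (by rw [h6, one_mul]))
    obtain ⟨x, hx, y, hy, h5⟩ := hmem _ h4
    refine hout x hx y hy ?_
    rw [h5]
    simpa using h1
  rw [sup_comm]
  refine pPrimeCore_sup_centralizer hj fun g hg => ?_
  by_contra hne
  have ht : orderOf (g * j * g⁻¹) = 2 := (orderOf_conj' _ _).trans hj
  obtain ⟨⟨x, hx, hx4⟩, h1⟩ := main hc hj hm g₁ g₂ hK ht hg.symm.eq hne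
  have e1 : g * (g⁻¹ * j * g⁻¹⁻¹) * g⁻¹ = j := by group
  have h2 := (main (t := g⁻¹ * j * g⁻¹⁻¹) hc hj hm g₁ g₂ hK ((orderOf_conj' _ _).trans hj) (by
    have := (hg.map (MulAut.conj g⁻¹)).eq
    simpa [mul_assoc] using this) fun h => hne (by rwa [h] at e1)).2
  set E := D j (g * j * g⁻¹) with hE
  have h4 : 4 ∣ Monoid.exponent E := by
    rw [← hx4, ← Subgroup.orderOf_mk x hx]; exact Monoid.order_dvd_exponent _
  obtain ⟨k, hk⟩ := h4
  have hz : ∀ z ∈ E, z ^ (2 * (2 * k)) = 1 := fun z hz => by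
    rw [show 2 * (2 * k) = Monoid.exponent E by rw [hk]; ring]
    exact congrArg Subtype.val (Monoid.pow_exponent_eq_one (⟨z, hz⟩ : E))
  have h5 : Monoid.exponent E ∣ 2 * k := Monoid.exponent_dvd_of_forall_pow_eq_one fun y => by
    apply Subtype.ext
    rcases h1 _ (even_two_mul k) hz y y.2 with h | h
    · exact h
    have h6 := conj_mem_D g⁻¹ y.2
    rw [show g⁻¹ * (g * j * g⁻¹) * g⁻¹⁻¹ = j by group, D_comm] at h6
    rcases h2 _ (even_two_mul k) (fun z hz' => by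
      have h7 := conj_mem_D g hz'
      rw [e1, D_comm] at h7
      have h8 := hz _ h7
      rwa [conj_pow, conj_eq_one_iff] at h8) _ h6 with h7 | h7
    · rw [conj_pow, conj_eq_one_iff] at h7
      exact h7
    · rw [conj_pow, h] at h7
      exact absurd (by rwa [h7] at e1) hne
  have h6 := Nat.le_of_dvd (by
    have := Monoid.exponent_ne_zero_of_finite (G := E)
    omega) h5
  have := Monoid.exponent_ne_zero_of_finite (G := E)
  omega

end Cfsg.Agent.S3211
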