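import Cfsg.Statements.S3213
import Mathlib
import Cfsg.Agent.H9.Nilp

set_option autoImplicit false
open Cfsg

namespace Cfsg.Agent.S3213

open Matrix Module

theorem ex5 : ∀ a b c d : ZMod 5, a * d - b * c = 1 → !![a, b; c, d] ^ 3 = 1 → !![a, b; c, d] ≠ 1 →
    ∃ s : ZMod 5, ((!![a, b; c, d] * (!![1, s; 0, 1] * !![a, b; c, d] * !![1, -s; 0, 1])) ^ 2) ^ 5 = 1 ∧
      (!![a, b; c, d] * (!![1, s; 0, 1] * !![a, b; c, d] * !![1, -s; 0, 1])) ^ 2 ≠ 1 := by
  decide +kernel

theorem ex5' (x : SpecialLinearGroup (Fin 2) (ZMod 5)) (hx : orderOf x = 3) :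
    ∃ g, ((x * (g * x * g⁻¹)) ^ 2) ^ 5 = 1 ∧ (x * (g * x * g⁻¹)) ^ 2 ≠ 1 := by
  have e := eta_fin_two x.1
  obtain ⟨s, h1, h2⟩ := ex5 _ _ _ _ ((det_fin_two _).symm.trans x.2)
    (e ▸ congrArg Subtype.val (hx ▸ pow_orderOf_eq_one x)) fun h => by
      rw [show x = 1 from Subtype.ext (e.trans h)] at hx; simp at hx
  rw [← e] at h1 h2
  let g : SpecialLinearGroup (Fin 2) (ZMod 5) := ⟨!![1, s; 0, 1], by simp⟩
  let g' : SpecialLinearGroup (Fin 2) (ZMod 5) := ⟨!![1, -s; 0, 1], by simp⟩
  have : g⁻¹ = g' := inv_eq_of_mul_eq_one_right (Subtype.ext (by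
    change !![1, s; 0, 1] * !![1, -s; 0, 1] = 1
    simp [one_fin_two]))
  exact ⟨g, this ▸ Subtype.ext h1, this ▸ fun h => h2 (congrArg Subtype.val h)⟩

/-- Let F be the field with 3 elements and K the field with 5 elements. For every injective homomorphism φ from SL₂(K) into the symplectic group Sp₄(F) (4 × 4 matrices g with g J gᵀ = J for the standard alternating matrix J) and every element x of order 3 of SL₂(K), the vectors of F⁴ fixed by φ(x) form a 2-dimensional subspace that is totally isotropic for the alternating form defined by J. -/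
theorem result {F : Type*} [Field F] [Fintype F] (hF : Fintype.card F = 3)
    {K : Type*} [Field K] [Fintype K] (hK : Fintype.card K = 5)
    (φ : Matrix.SpecialLinearGroup (Fin 2) K →* ↥(Matrix.symplecticGroup (Fin 2) F)) (hφ : Function.Injective φ)
    (x : Matrix.SpecialLinearGroup (Fin 2) K) (hx : orderOf x = 3) :
    Module.finrank F ↥(LinearMap.ker (Matrix.toLin' ((φ x : Matrix (Fin 2 ⊕ Fin 2) (Fin 2 ⊕ Fin 2) F)) - LinearMap.id)) = 2 ∧
      ∀ v w : Fin 2 ⊕ Fin 2 → F, (φ x : Matrix (Fin 2 ⊕ Fin 2) (Fin 2 ⊕ Fin 2) F).mulVec v = v →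
        (φ x : Matrix (Fin 2 ⊕ Fin 2) (Fin 2 ⊕ Fin 2) F).mulVec w = w →
          dotProduct v ((Matrix.J (Fin 2) F).mulVec w) = 0 := by
  classical
  obtain ⟨g, h1, h2⟩ : ∃ g, ((x * (g * x * g⁻¹)) ^ 2) ^ 5 = 1 ∧ (x * (g * x * g⁻¹)) ^ 2 ≠ 1 := by
    haveI : Fact (Nat.Prime 5) := ⟨by decide⟩
    let e : K ≃+* ZMod 5 := FiniteField.ringEquivOfCardEq (by rw [hK, ZMod.card])
    let f := SpecialLinearGroup.map (n := Fin 2) (e : K →+* ZMod 5)
    let f' := SpecialLinearGroup.map (n := Fin 2) (e.symm : ZMod 5 →+* K)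
    have a1 : ∀ y, f' (f y) = y := fun y => by ext i j; simp [f, f']
    have a2 : ∀ y, f (f' y) = y := fun y => by ext i j; simp [f, f']
    obtain ⟨g, h1, h2⟩ := ex5' (f x) (by
      rwa [orderOf_injective f (Function.LeftInverse.injective a1)])
    exact ⟨f' g, by simpa [a1] using congrArg f' h1, fun h => h2 (by simpa [a2] using congrArg f h)⟩
  let ρ : SpecialLinearGroup (Fin 2) K →* End F (Fin 2 ⊕ Fin 2 → F) :=
    (toLinAlgEquiv' (R := F)).toAlgHom.toMonoidHom.comp ((symplecticGroup (Fin 2) F).subtype.comp φ)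
  have hρ : ∀ y v, ρ y v = (φ y).1 *ᵥ v := fun y v => toLin'_apply _ _
  have inj : ∀ y, (∀ v, ρ y v = v) → y = 1 := fun y h => hφ (Subtype.ext (toLin'.injective
    (LinearMap.ext fun v => by simpa [hρ] using h v)))
  have mem : ∀ y v, v ∈ LinearMap.ker (ρ y - 1) ↔ ρ y v = v := fun y v => by simp [sub_eq_zero]
  change finrank F (LinearMap.ker (ρ x - 1)) = 2 ∧ _
  have d4 : finrank F (Fin 2 ⊕ Fin 2 → F) = 4 := by simp
  haveI : CharP F 3 := charP_of_card_eq_prime hF
  haveI : CharP (End F (Fin 2 ⊕ Fin 2 → F)) 3 :=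
    charP_of_injective_algebraMap (algebraMap F _).injective 3
  have t3 : (ρ x - 1) ^ 3 = 0 := by
    rw [sub_pow_char_of_commute _ (Commute.one_right _), ← map_pow, ← hx, pow_orderOf_eq_one]; simp
  have key : finrank F (LinearMap.ker (ρ x - 1)) = 2 := by
    refine le_antisymm (not_lt.1 fun h => h2 (inj _ fun v => ?_)) ?_
    · have b1 : finrank F (LinearMap.ker (ρ x - 1)) ≤ finrank F (LinearMap.ker (ρ (g * x * g⁻¹) - 1)) :=
        LinearMap.finrank_le_finrank_of_injective (f := (ρ g).restrict fun v hv => by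
          rw [mem] at hv ⊢
          rw [← End.mul_apply, ← map_mul, inv_mul_cancel_right, map_mul, End.mul_apply, hv])
          fun v w e => Subtype.ext (by
            simpa [← End.mul_apply, ← map_mul] using congrArg (fun u => ρ g⁻¹ u.1) e)
      have b2 := Submodule.finrank_sup_add_finrank_inf_eq (LinearMap.ker (ρ x - 1))
        (LinearMap.ker (ρ (g * x * g⁻¹) - 1))
      have b3 := Submodule.finrank_le (LinearMap.ker (ρ x - 1) ⊔ LinearMap.ker (ρ (g * x * g⁻¹) - 1))
      set y := (x * (g * x * g⁻¹)) ^ 2 with hy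
      have b4 := Submodule.finrank_mono (show LinearMap.ker (ρ x - 1) ⊓
          LinearMap.ker (ρ (g * x * g⁻¹) - 1) ≤ LinearMap.ker (ρ y - 1) from fun v hv => by
        rw [mem, hy, pow_two]
        simp only [map_mul _ x, map_mul _ (x * _), End.mul_apply, (mem _ _).1 hv.1, (mem _ _).1 hv.2])
      haveI : Fact (Nat.Prime 5) := ⟨by decide⟩
      have b5 := Equiv.Perm.card_fixedPoints_modEq (f := fun v => ρ y v) (p := 5) (n := 1) (by
        funext v
        change (ρ y)^[5] v = v
        rw [← End.pow_apply, ← map_pow, h1, map_one, End.one_apply])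
      rw [show Fintype.card (Function.fixedPoints fun v => ρ y v) = Fintype.card (LinearMap.ker
        (ρ y - 1)) from Fintype.card_congr (Equiv.subtypeEquivRight fun v => (mem y v).symm),
        card_eq_pow_finrank (K := F) (V := _ → F), card_eq_pow_finrank (K := F) (V := LinearMap.ker _),
        hF, d4] at b5
      have b6 := Submodule.finrank_le (LinearMap.ker (ρ y - 1))
      have : finrank F (LinearMap.ker (ρ y - 1)) = finrank F (Fin 2 ⊕ Fin 2 → F) := by
        rw [d4] at b3 b6 ⊢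
        have : 2 ≤ finrank F (LinearMap.ker (ρ y - 1)) := by omega
        generalize finrank F (LinearMap.ker (ρ y - 1)) = j at *
        interval_cases j
        exacts [absurd b5 (by decide), absurd b5 (by decide), rfl]
      exact (mem y v).1 (Submodule.eq_top_of_finrank_eq this ▸ trivial)
    · have := H9.mul_finrank_ker_pow_le (ρ x - 1) (a := 1) (s := 3) (by decide)
      rw [t3, pow_one, LinearMap.ker_zero, finrank_top, d4] at this
      omega
  refine ⟨key, fun v w hv hw => by_contra fun hn => ?_⟩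
  let B : (Fin 2 ⊕ Fin 2 → F) → (Fin 2 ⊕ Fin 2 → F) → F := fun v w => v ⬝ᵥ (J (Fin 2) F *ᵥ w)
  have hB : ∀ v w, B v w = v (.inr 0) * w (.inl 0) + v (.inr 1) * w (.inl 1) -
      v (.inl 0) * w (.inr 0) - v (.inl 1) * w (.inr 1) := fun v w => by
    simp [B, J, dotProduct, mulVec, one_apply]; ring
  have iB : ∀ v w, B (ρ x v) (ρ x w) = B v w := fun v w => by
    simp only [B, hρ]
    rw [← vecMul_transpose, ← dotProduct_mulVec, mulVec_mulVec, mulVec_mulVec,
      SymplecticGroup.mem_iff'.1 (φ x).2]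
  obtain ⟨u, u1, u2⟩ : ∃ u, (ρ x - 1) ((ρ x - 1) u) = 0 ∧ (ρ x - 1) u ≠ 0 := by
    by_contra h
    push Not at h
    rw [inj x fun v => (mem x v).1 (h v (h _ (LinearMap.congr_fun t3 v)))] at hx
    simp at hx
  have o : ∀ z, ρ x z = z → B ((ρ x - 1) u) z = 0 := fun z hz => by
    have := iB u z
    rw [hz, hB, hB] at this
    rw [hB]; simp only [LinearMap.sub_apply, End.one_apply, Pi.sub_apply]; linear_combination this
  rw [← hρ] at hv hw
  have o1 := o v hv
  have o2 := o w hw
  change B v w ≠ 0 at hn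
  have := (Fintype.linearIndependent_iff.2 fun c hc => ?_ : LinearIndependent F
    ![(⟨v, (mem x v).2 hv⟩ : LinearMap.ker (ρ x - 1)), ⟨w, (mem x w).2 hw⟩,
      ⟨_, u1⟩]).fintype_card_le_finrank
  · rw [key] at this; simp at this
  replace hc : c 0 • v + c 1 • w + c 2 • (ρ x - 1) u = 0 := by
    simpa [Fin.sum_univ_three] using congrArg Subtype.val hc
  generalize (ρ x - 1) u = t at *
  have e1 := congrArg (B · w) hc
  have e2 := congrArg (B · v) hc
  simp only [hB, Pi.add_apply, Pi.smul_apply, smul_eq_mul, Pi.zero_apply] at e1 e2 o1 o2 hn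
  have c0 : c 0 = 0 := (mul_eq_zero.1 (by linear_combination e1 - c 2 * o2)).resolve_right hn
  have c1 : c 1 = 0 := (mul_eq_zero.1 (by linear_combination c 2 * o1 - e2)).resolve_right hn
  have c2 : c 2 = 0 := by simpa [c0, c1, u2] using hc
  intro i; fin_cases i <;> assumption

end Cfsg.Agent.S3213
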