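import Cfsg.Statements.S3215
import Cfsg.Agent.H11.Syl
import Cfsg.Agent.H11.Klein
import Cfsg.Agent.H1.Generation
import Cfsg.Agent.H1.Quaternion
import Cfsg.Agent.H1.Hall
import Cfsg.Agent.H3.PNil
import Cfsg.Agent.H2.SS
import Cfsg.Agent.H10.Basic

set_option autoImplicit false
open Cfsg

namespace Cfsg.Agent.S3215

open Cfsg.Agent.H11

open scoped commutatorElement

/-- Let H be a finite solvable group with no nontrivial normal subgroup of odd order in which the centralizer of every involution has a normal 2-complement. Let X be a Hall 2'-subgroup of H (odd order, index a power of 2) and Y = O₂(H). Then no non-identity element of X commutes with a non-identity element of Y (so for X ≠ 1 the group XY is a Frobenius group with kernel Y), every Sylow subgroup of X is cyclic, XY is normal in H, and H/XY is a cyclic 2-group. -/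
theorem result {H : Type*} [Group H] [Finite H] (hsol : Group.IsSolvable H)
    (hO : Cfsg.oddCore H = ⊥)
    (hI : ∀ t : H, orderOf t = 2 → Cfsg.HasNormalPComplement 2 ↥(Subgroup.centralizer ({t} : Set H)))
    (X : Subgroup H) (hXodd : Odd (Nat.card X)) (hXidx : ∃ k : ℕ, X.index = 2 ^ k) :
    (∀ x ∈ X, x ≠ 1 → ∀ y ∈ Cfsg.pCore 2 H, y ≠ 1 → x * y ≠ y * x) ∧
      (∀ (p : ℕ) [Fact p.Prime] (P : Sylow p ↥X), IsCyclic ↥(P : Subgroup ↥X)) ∧
      (X ⊔ Cfsg.pCore 2 H).Normal ∧
      ∀ hN : (X ⊔ Cfsg.pCore 2 H).Normal, IsCyclic (H ⧸ (X ⊔ Cfsg.pCore 2 H)) ∧ IsPGroup 2 (H ⧸ (X ⊔ Cfsg.pCore 2 H)) := by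
  set Y := pCore 2 H with hY
  have hYp : IsPGroup 2 Y := H1.isPGroup_pCore 2 H
  have hCY : Subgroup.centralizer (Y : Set H) ≤ Y := H1.centralizer_pCore_le_of_isSolvable hsol hO
  have hodd2 : ∀ {K : Type _} [Group K] {P : Subgroup K} {x : K}, IsPGroup 2 P → x ∈ P →
      Odd (orderOf x) → x = 1 := by
    intro K _ P x hP hx ho
    obtain ⟨k, hk⟩ := hP ⟨x, hx⟩
    have h1 : orderOf x ∣ 2 ^ k := orderOf_dvd_of_pow_eq_one (congrArg Subtype.val hk)
    exact orderOf_eq_one_iff.1 (Nat.Coprime.eq_one_of_dvd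
      ((Nat.coprime_two_right.2 ho).pow_right k) h1)
  have hA : ∀ x u : H, Odd (orderOf x) → orderOf u = 2 → x * u = u * x →
      ∀ y ∈ Y, y * u = u * y → y * x = x * y := by
    intro x u hx hu hxu y hy hyu
    have := H3.mem_centralizer_of_hasNormalPComplement (hI u hu)
      (Q := Y.subgroupOf (Subgroup.centralizer {u})) (hYp.comap_subtype) (g := ⟨x, mem_cent1.2 hxu⟩)
      (Subgroup.le_normalizer_of_normal (Subgroup.mem_top _))
      (by rw [Subgroup.orderOf_mk]; exact Nat.coprime_two_right.2 hx)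
    exact congrArg Subtype.val (this ⟨y, mem_cent1.2 hyu⟩ hy)
  have hB : ∀ x : H, Odd (orderOf x) → x ≠ 1 → ∀ y ∈ Y, y ≠ 1 → x * y ≠ y * x := by
    intro x hx hx1 y hy hy1 hxy
    obtain ⟨u, hu, huo⟩ := exists_invol_of_even (H := Subgroup.zpowers y) (by
      rw [Nat.card_zpowers, ← Nat.not_odd_iff_even]
      exact fun h => hy1 (hodd2 hYp hy h))
    have hxu : x * u = u * x := by
      obtain ⟨k, rfl⟩ := hu
      exact ((show Commute x y from hxy).zpow_right k).eq
    have := H1.le_centralizer_of_pxq (p := 2) (P := Subgroup.zpowers u) (Q := Subgroup.zpowers x)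
      (U := Y) (isPGroup_zpowers_of_orderOf (k := 1) huo)
      (by rw [Nat.card_zpowers]; exact Nat.coprime_two_right.2 hx) hYp
      (by rw [H10.centralizer_zpowers, Subgroup.zpowers_le]; exact mem_cent1.2 hxu.symm)
      Subgroup.le_normalizer_of_normal Subgroup.le_normalizer_of_normal (by
        rw [H10.centralizer_zpowers, H10.centralizer_zpowers]
        exact fun z hz => mem_cent1.2 (hA x u hx huo hxu z hz.1 (mem_cent1.1 hz.2)))
    exact hx1 (hodd2 hYp (hCY (this (Subgroup.mem_zpowers x))) hx)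
  have hY0 : Y = ⊥ → ∀ x : H, x = 1 := fun h x => by
    have : x ∈ Y := hCY (by rw [h]; intro y hy; rw [Subgroup.mem_bot.1 hy]; simp)
    rwa [h] at this
  have hC : ∀ x u : H, Odd (orderOf x) → x ≠ 1 → orderOf u = 2 → x * u ≠ u * x := by
    intro x u hx hx1 hu hxu
    obtain ⟨y, hy, hy1, hyc⟩ := exists_mem_centralizer_of_normalized (N := Y)
      (P := Subgroup.zpowers u) (isPGroup_zpowers_of_orderOf (k := 1) hu) hYp
      (fun h => hx1 (hY0 h x)) Subgroup.le_normalizer_of_normal
    exact hB x hx hx1 y hy hy1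
      (hA x u hx hu hxu y hy (hyc u (Subgroup.mem_zpowers u)).symm).symm
  have hD : ∀ A : Subgroup H, Odd (Nat.card A) → IsMulCommutative A → IsCyclic A := by
    intro A hAo hAc
    by_contra hn
    obtain ⟨k, hk⟩ := IsPGroup.iff_card.1 hYp
    have := H1.le_of_forall_centralizer_singleton_le (K := Y) (D := ⊥) hn
      Subgroup.le_normalizer_of_normal (by rw [hk]; exact (Nat.coprime_two_right.2 hAo).pow_right k)
      fun a ha ha1 y hy => by
        by_contra hy1
        exact hB a (odd_orderOf_of_odd_card hAo ha) ha1 y hy.1 hy1 (mem_cent1.1 hy.2).symm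
    refine hn ?_
    haveI : Subsingleton H := ⟨fun a b => by rw [hY0 (eq_bot_iff.2 this) a, hY0 (eq_bot_iff.2 this) b]⟩
    infer_instance
  have hZ : ∀ (p : ℕ) [Fact p.Prime] (P : Sylow p ↥X), IsCyclic ↥(P : Subgroup ↥X) := by
    intro p _ P
    rcases H1.isCyclic_or_quaternion_of_forall_abelian_isCyclic P.2 (fun A hAc => by
      have hinj : Function.Injective (X.subtype.comp (P : Subgroup X).subtype) :=
        X.subtype_injective.comp (P : Subgroup X).subtype_injective
      have := hD (A.map (X.subtype.comp (P : Subgroup X).subtype)) (by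
        rw [Subgroup.card_map_of_injective hinj]
        exact hXodd.of_dvd_nat ((Subgroup.card_subgroup_dvd_card A).trans
          (Subgroup.card_subgroup_dvd_card _))) inferInstance
      exact (Subgroup.equivMapOfInjective A _ hinj).isCyclic.2 this) with h | ⟨-, n, -, ⟨e⟩⟩
    · exact h
    · exfalso
      have h1 := hXodd.of_dvd_nat (Subgroup.card_subgroup_dvd_card (P : Subgroup X))
      rw [Nat.card_congr e.toEquiv, Nat.card_eq_fintype_card, QuaternionGroup.card] at h1
      exact absurd h1 (by simp [parity_simps])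
  haveI : IsZGroup X := ⟨fun p hp P => by haveI := Fact.mk hp; exact hZ p P⟩
  set π := QuotientGroup.mk' Y with hπ
  have hπs : Function.Surjective π := QuotientGroup.mk'_surjective Y
  have hXH : IsPiHall ({2}ᶜ : Set ℕ) X := by
    rw [H1.isPiHall_iff, compl_compl, H1.isPiNum_compl_singleton_iff Nat.prime_two,
      H1.isPiNum_singleton_iff Nat.prime_two Subgroup.index_ne_zero_of_finite]
    exact ⟨Nat.coprime_two_right.2 hXodd, hXidx⟩
  set F := fittingSubgroup (H ⧸ Y) with hF
  have hFX : F ≤ X.map π := by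
    refine (H1.fittingSubgroup_le_pCore_sup_pPrimeCore 2).trans ?_
    rw [H1.pCore_quotient_pCore, bot_sup_eq, ← H1.piCore_compl_singleton]
    exact H1.piCore_le_of_isPiHall (H1.isPiHall_map hXH hπs)
  haveI : IsZGroup (X.map π) := IsZGroup.of_surjective (π.subgroupMap_surjective X)
  haveI : IsZGroup F := IsZGroup.of_injective (Subgroup.inclusion_injective hFX)
  haveI := H1.isNilpotent_fittingSubgroup (H ⧸ Y)
  have hFc : IsCyclic F := inferInstance
  have hCF : Subgroup.centralizer (F : Set (H ⧸ Y)) ≤ F :=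
    H1.centralizer_fittingSubgroup_le inferInstance
  have hcm : commutator (H ⧸ Y) ≤ X.map π :=
    ((H2.commutator_le_centralizer_of_isCyclic F).trans hCF).trans hFX
  have hXY : X ⊔ Y = (X.map π).comap π := by
    rw [Subgroup.comap_map_eq, hπ, QuotientGroup.ker_mk']
  have hcm' : commutator H ≤ X ⊔ Y := by
    rw [hXY, ← Subgroup.map_le_iff_le_comap, commutator_def, Subgroup.map_commutator]
    exact (Subgroup.commutator_mono le_top le_top).trans hcm
  refine ⟨fun x hx hx1 => hB x (odd_orderOf_of_odd_card hXodd hx) hx1, hZ,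
    ⟨fun x hx g => ?_⟩, fun hN => ?_⟩
  · have : g * x * g⁻¹ = ⁅g, x⁆ * x := by rw [commutatorElement_def]; group
    rw [this]
    exact Subgroup.mul_mem _ (hcm' (Subgroup.commutator_mem_commutator (Subgroup.mem_top _)
      (Subgroup.mem_top _))) hx
  have hq : IsPGroup 2 (H ⧸ (X ⊔ Y)) := by
    obtain ⟨k, hk⟩ := hXidx
    obtain ⟨j, -, hj⟩ := (Nat.dvd_prime_pow Nat.prime_two).1
      (hk ▸ Subgroup.index_dvd_of_le (le_sup_left : X ≤ X ⊔ Y))
    exact IsPGroup.of_card hj
  refine ⟨?_, hq⟩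
  let T : Sylow 2 H := default
  have hTp : IsPGroup 2 ((T : Subgroup H).map π) := T.2.map π
  have hXo : ∀ f ∈ X.map π, Odd (orderOf f) := fun f hf => odd_orderOf_of_odd_card
    (hXodd.of_dvd_nat (Subgroup.card_map_dvd _ _)) hf
  haveI hTc : IsMulCommutative ((T : Subgroup H).map π) := ⟨⟨fun a b => Subtype.ext (by
    have h1 : ⁅(a : H ⧸ Y), (b : H ⧸ Y)⁆ ∈ (T : Subgroup H).map π := by
      rw [commutatorElement_def]
      exact Subgroup.mul_mem _ (Subgroup.mul_mem _ (Subgroup.mul_mem _ a.2 b.2)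
        (Subgroup.inv_mem _ a.2)) (Subgroup.inv_mem _ b.2)
    exact commutatorElement_eq_one_iff_mul_comm.1 (hodd2 hTp h1 (hXo _ (hcm
      (Subgroup.commutator_mem_commutator (Subgroup.mem_top _) (Subgroup.mem_top _))))))⟩⟩
  have hTcy : IsCyclic ((T : Subgroup H).map π) := by
    by_contra hn
    obtain ⟨k, hk⟩ := IsPGroup.iff_card.1 hTp
    obtain ⟨l, hl⟩ := IsPGroup.iff_card.1 hYp
    have hFo : Odd (Nat.card F) := (hXodd.of_dvd_nat (Subgroup.card_map_dvd _ _)).of_dvd_nat
      (Subgroup.card_dvd_of_le hFX)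
    have := H1.le_of_forall_centralizer_singleton_le (K := F) (D := ⊥) hn
      Subgroup.le_normalizer_of_normal
      (by rw [hk]; exact ((Nat.coprime_two_right.2 hFo).pow_right k).symm)
      fun a ha ha1 f hf => by
        by_contra hf1
        obtain ⟨x, hx, rfl⟩ := hFX hf.1
        have hxo := odd_orderOf_of_odd_card hXodd hx
        have h1 := H1.centralizer_map_mk'_eq (A := Subgroup.zpowers x) (N := Y) (by
          rw [Nat.card_zpowers, hl]; exact (Nat.coprime_two_right.2 hxo).pow_right l)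
          (Or.inl (H1.isSolvable_zpowers x))
        rw [MonoidHom.map_zpowers, H10.centralizer_zpowers, H10.centralizer_zpowers] at h1
        have h2 : a ∈ (Subgroup.centralizer ({x} : Set H)).map π :=
          h1 ▸ mem_cent1.2 (mem_cent1.1 hf.2).symm
        obtain ⟨u, hu, huo⟩ := exists_invol_of_even (H := Subgroup.centralizer ({x} : Set H)) (by
          rw [← Nat.not_odd_iff_even]
          exact fun h => ha1 (hodd2 hTp ha (odd_orderOf_of_odd_card
            (h.of_dvd_nat (Subgroup.card_map_dvd _ _)) h2)))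
        exact hC x u hxo (by rintro rfl; exact hf1 (by simp)) huo (mem_cent1.1 hu).symm
    refine hn ?_
    haveI : Subsingleton (H ⧸ Y) := ⟨fun a b => by
      have h0 : ∀ c : H ⧸ Y, c = 1 := fun c => this (hCF (by
        rw [eq_bot_iff.2 this]; intro y hy; rw [Subgroup.mem_bot.1 hy]; simp))
      rw [h0 a, h0 b]⟩
    infer_instance
  obtain ⟨⟨_, t, ht, rfl⟩, hg⟩ := hTcy.exists_generator
  refine ⟨⟨(t : H ⧸ (X ⊔ Y)), fun q => ?_⟩⟩
  obtain ⟨h, rfl⟩ := QuotientGroup.mk_surjective q
  have hh : h ∈ ((X ⊔ Y ⊔ (T : Subgroup H) : Subgroup H) : Set H) := by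
    rw [H3.sup_sylow_eq_top_of_isPGroup_quotient hq T]; trivial
  rw [Subgroup.normal_mul] at hh
  obtain ⟨n, hn, s, hs, rfl⟩ := hh
  obtain ⟨k, hk⟩ := hg ⟨π s, s, hs, rfl⟩
  have hk' : π (t ^ k) = π s := by rw [map_zpow]; exact congrArg Subtype.val hk
  refine ⟨k, ?_⟩
  dsimp only
  rw [QuotientGroup.mk_mul, (QuotientGroup.eq_one_iff n).2 hn, one_mul, ← QuotientGroup.mk_zpow]
  exact QuotientGroup.eq.2 (Subgroup.mem_sup_right (QuotientGroup.eq.1 hk'))

end Cfsg.Agent.S3215
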