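import Cfsg.Statements.S3225
import Cfsg.Agent.H3.Tate
import Mathlib.GroupTheory.IndexNormal

set_option autoImplicit false
open Cfsg

namespace Cfsg.Agent.S3225

open Cfsg.Agent.H3

open scoped IsMulCommutative

/-- Let G be a finite group of even order with no subgroup of index 2, S a Sylow 2-subgroup of G and M a subgroup of index 2 in S such that, for some n ≥ 1, every element of S outside M has order greater than 2^(n−1). Then every element of S of order 2ⁿ is conjugate in G to an element of M. -/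
theorem result {G : Type*} [Group G] [Finite G] (hev : Even (Nat.card G))
    (hG : ∀ H : Subgroup G, H.index ≠ 2) (S : Sylow 2 G) (M : Subgroup G) (hMS : M ≤ (S : Subgroup G)) (hM : M.relIndex (S : Subgroup G) = 2)
    (n : ℕ) (hn : 1 ≤ n) (hord : ∀ y ∈ (S : Subgroup G), y ∉ M → 2 ^ (n - 1) < orderOf y)
    (x : G) (hx : x ∈ (S : Subgroup G)) (hxn : orderOf x = 2 ^ n) :
    ∃ g : G, g * x * g⁻¹ ∈ M := by
  by_contra hne
  push Not at hne
  set N := M.subgroupOf (S : Subgroup G)
  have hN : N.Normal := Subgroup.normal_of_index_eq_two hM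
  have hc : IsCyclic (S ⧸ N) := isCyclic_of_prime_card (p := 2) hM
  have hcm : IsMulCommutative (S ⧸ N) := IsCyclic.isMulCommutative
  have ha : (QuotientGroup.mk' N ⟨x, hx⟩) ≠ 1 := fun h =>
    hne 1 (by simpa [N, Subgroup.mem_subgroupOf] using (QuotientGroup.eq_one_iff (N := N) _).mp h)
  have hall : ∀ b : S ⧸ N, b ≠ 1 → b = QuotientGroup.mk' N ⟨x, hx⟩ := fun b hb =>
    ((Nat.card_eq_two_iff' 1).mp hM).unique hb ha
  have h2 : (QuotientGroup.mk' N ⟨x, hx⟩) ^ 2 = 1 := by
    have := pow_card_eq_one' (x := QuotientGroup.mk' N ⟨x, hx⟩)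
    rwa [show Nat.card (S ⧸ N) = 2 from hM] at this
  have h3 := transfer_eq_pow_of_forall (QuotientGroup.mk' N) x (QuotientGroup.mk' N ⟨x, hx⟩)
    fun k t ht => by
      rcases Nat.even_or_odd' k with ⟨j, rfl | rfl⟩
      · rw [pow_mul (QuotientGroup.mk' N ⟨x, hx⟩), h2, one_pow]
        by_contra h
        refine (hord _ ht fun hm => h ((QuotientGroup.eq_one_iff (N := N) _).mpr hm)).not_ge
          (Nat.le_of_dvd (by positivity) (orderOf_dvd_of_pow_eq_one ?_))
        have h4 : 2 * j * 2 ^ (n - 1) = 2 ^ n * j := by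
          obtain ⟨m, rfl⟩ := Nat.exists_eq_add_of_le' hn
          simp only [Nat.add_sub_cancel]
          ring
        rw [← inv_inv t, inv_inv t⁻¹, conj_pow, ← pow_mul, h4, pow_mul, ← hxn, pow_orderOf_eq_one]
        simp
      · rw [pow_succ (QuotientGroup.mk' N ⟨x, hx⟩), pow_mul (QuotientGroup.mk' N ⟨x, hx⟩), h2,
          one_pow, one_mul]
        refine hall _ fun h => hne t⁻¹ ?_
        have h4 : (t⁻¹ * x * t⁻¹⁻¹) ^ (2 * j + 1) ∈ M := by
          rw [conj_pow, inv_inv]
          exact (QuotientGroup.eq_one_iff (N := N) _).mp h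
        refine mem_of_pow_mem_of_coprime (n := 2 ^ n) (Nat.Coprime.pow_right _ (by simp)) h4 ?_
        rw [conj_pow, ← hxn, pow_orderOf_eq_one]
        simp
  obtain ⟨j, hj⟩ := Nat.odd_iff.mpr (Nat.two_dvd_ne_zero.mp S.not_dvd_index)
  rw [hj, pow_succ, pow_mul, h2, one_pow, one_mul] at h3
  refine hG (MonoidHom.transfer (QuotientGroup.mk' N)).ker ?_
  rw [Subgroup.index_ker, MonoidHom.range_eq_top.mpr, Subgroup.card_top]
  · exact hM
  · intro b
    by_cases hb : b = 1
    · exact ⟨1, by rw [hb, map_one]⟩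
    · exact ⟨x, by rw [h3, hall b hb]⟩

end Cfsg.Agent.S3225
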