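import Cfsg.Statements.S3244
import Cfsg.Agent.H11.Sig

set_option autoImplicit false
open Cfsg

namespace Cfsg.Agent.S3244

open Cfsg.Agent.H11



/-- Say that a finite group G is of characteristic 2 type in the early sense when a Sylow 2-subgroup S of G has a self-centralizing normal subgroup of rank at least 3, S normalizes no nontrivial subgroup of odd order, and every 2-local subgroup of G is 2-constrained. If G is a non-abelian simple group of characteristic 2 type in this sense, then for some maximal 2-local subgroup M of G the centre of O₂(M) is not cyclic. -/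
theorem result {G : Type*} [Group G] [Finite G] [IsSimpleGroup G]
    (hG : ¬ IsMulCommutative G) (S : Sylow 2 G) (A : Subgroup G) (hA : Cfsg.IsSCN (S : Subgroup G) A) (hA3 : ¬ Cfsg.PRankLE 2 2 ↥A)
    (hinv : ∀ X : Subgroup G, Odd (Nat.card ↥X) → (S : Subgroup G) ≤ Subgroup.normalizer (X : Set G) → X = ⊥)
    (hcon : ∀ T : Subgroup G, IsPGroup 2 ↥T → T ≠ ⊥ → Cfsg.IsPConstrained 2 ↥(Subgroup.normalizer (T : Set G))) :
    ∃ M : Subgroup G, Cfsg.IsMaximalTwoLocal M ∧ ¬ IsCyclic ↥(Subgroup.center ↥(Cfsg.pCore 2 ↥M)) := by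
  by_contra hcon'
  push Not at hcon'
  have hAc : ∀ a ∈ A, ∀ b ∈ A, a * b = b * a := fun a ha b hb =>
    (hA.2.2.ge hb).2 a ha
  obtain ⟨E, hES, hSE, hE, h8⟩ := exists_normalized_eight hA.1 hA.2.1 hAc hA3
  have hX : ∀ T : Subgroup G, IsPGroup 2 ↥T → T ≠ ⊥ →
      H10.XOf 2 (Subgroup.normalizer (T : Set G)) = ⊥ := by
    intro T hT hT1
    obtain ⟨z, hzT, hz, hc⟩ := H10.exists_central_orderOf hT hT Subgroup.le_normalizer hT1
    rw [H10.XOf_normalizer hT]
    exact H10.XOf_centralizer_eq_bot hT (hc.trans Subgroup.le_normalizer)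
      (H10.centralizer_le_centralizer_singleton hzT)
      (XOf_cent_eq_bot_of_early S hSE hE h8 hinv hcon hz)
  -- the key property of maximal `2`-local subgroups
  have key : ∀ M : Subgroup G, Cfsg.IsMaximalTwoLocal M → ∃ z₁ : G, ∀ R, IsSylIn 2 R M →
      ∀ P : Sylow 2 G, R ≤ P → z₁ ∈ R ∧ orderOf z₁ = 2 ∧ (∀ s ∈ (P : Subgroup G), s * z₁ = z₁ * s) ∧
        ∀ z, orderOf z = 2 → (∀ s ∈ (P : Subgroup G), s * z = z * s) → z = z₁ := by
    intro M hM
    obtain ⟨T, hT, hT1, hMT⟩ := hM.1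
    have hXM : H10.XOf 2 M = ⊥ := hMT ▸ hX T hT hT1
    set Q := H10.OpOf 2 M with hQ
    have hTQ : T ≤ Q := H10.le_OpOf (hMT ▸ Subgroup.le_normalizer) hMT.le hT
    have hQ1 : Q ≠ ⊥ := fun h => hT1 (eq_bot_iff.2 (h ▸ hTQ))
    have hcyc : IsCyclic ↥(Q ⊓ Subgroup.centralizer (Q : Set G)) := by
      have h1 := hcon' M hM
      rw [← H10.center_map_subtype]
      have e1 : Subgroup.center ↥(Cfsg.pCore 2 ↥M) ≃* Subgroup.center Q :=
        Subgroup.centerCongr ((Cfsg.pCore 2 ↥M).equivMapOfInjective M.subtype M.subtype_injective)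
      haveI := isCyclic_of_surjective e1 e1.surjective
      have e2 := (Subgroup.center Q).equivMapOfInjective Q.subtype Q.subtype_injective
      exact isCyclic_of_surjective e2 e2.surjective
    obtain ⟨z₁, hz₁Q, hz₁, hz₁c⟩ := H10.exists_central_orderOf H10.OpOf_isPGroup H10.OpOf_isPGroup
      Subgroup.le_normalizer hQ1
    have hz₁Z : z₁ ∈ Q ⊓ Subgroup.centralizer (Q : Set G) :=
      ⟨hz₁Q, H10.le_centralizer_singleton_iff.1 hz₁c⟩
    have hMQ : M ≤ Subgroup.normalizer (Q : Set G) := H10.le_normalizer_OpOf Subgroup.le_normalizer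
    have hMC : M ≤ Subgroup.centralizer {z₁} := by
      intro m hm
      have := invol_unique_of_isCyclic hcyc ((orderOf_conj m z₁).trans hz₁) hz₁
        (conj_mem_of_mem_normalizer
          (H10.le_normalizer_inf hMQ (H10.le_normalizer_centralizer hMQ) hm) hz₁Z) hz₁Z
      rw [mul_inv_eq_iff_eq_mul] at this
      exact mem_cent1.2 this
    have hp1 := isPGroup_zpowers_of_orderOf (p := 2) (k := 1) (x := z₁) hz₁
    have hMe : Subgroup.centralizer {z₁} ≤ M := by
      rw [← hM.2 _ ⟨Subgroup.zpowers z₁, hp1,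
        fun h => ne_one_of_orderOf_two hz₁ (Subgroup.zpowers_eq_bot.1 h), rfl⟩
        (hMC.trans (by rw [← H10.centralizer_zpowers]; exact Subgroup.centralizer_le_normalizer _)),
        ← H10.centralizer_zpowers]
      exact Subgroup.centralizer_le_normalizer _
    refine ⟨z₁, fun R hR P hRP => ?_⟩
    have hQR : Q ≤ R := hR.le_of_normalized H10.OpOf_isPGroup H10.OpOf_le (hR.le.trans hMQ)
    have huniq : ∀ z, orderOf z = 2 → (∀ s ∈ (P : Subgroup G), s * z = z * s) → z = z₁ := by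
      intro z hz hzc
      have h1 : z ∈ Subgroup.centralizer (Q : Set G) := fun q hq => hzc q (hRP (hQR hq))
      have h2 : z ∈ M := hMe (mem_cent1.2 (h1 z₁ hz₁Q).symm)
      exact invol_unique_of_isCyclic hcyc hz hz₁ ⟨inf_centralizer_OpOf_le hXM ⟨h2, h1⟩, h1⟩ hz₁Z
    refine ⟨hQR hz₁Q, hz₁, ?_, huniq⟩
    obtain ⟨w, -, hw, hwc⟩ := H10.exists_central_orderOf P.2 P.2 Subgroup.le_normalizer
      (fun h => hQ1 (eq_bot_iff.2 (h ▸ hQR.trans hRP)))
    have hwc' : ∀ s ∈ (P : Subgroup G), s * w = w * s := fun s hs => mem_cent1.1 (hwc hs)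
    rw [← huniq w hw hwc']
    exact hwc'
  have main : ∀ D : Subgroup G, ∀ P P' : Sylow 2 G, (P : Subgroup G) ⊓ P' = D → ∀ z z' : G,
      orderOf z = 2 → orderOf z' = 2 → (∀ s ∈ (P : Subgroup G), s * z = z * s) →
      (∀ s ∈ (P' : Subgroup G), s * z' = z' * s) → z ∈ D → z' = z := by
    intro D
    induction D using WellFoundedGT.induction with
    | ind D ih =>
    intro P P' hD z z' hz hz' hzc hzc' hzD
    have hDp : IsPGroup 2 D := P.2.to_le (hD ▸ inf_le_left)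
    have hD1 : D ≠ ⊥ := fun h => ne_one_of_orderOf_two hz (Subgroup.mem_bot.1 (h ▸ hzD))
    obtain ⟨M, hle, hM⟩ := Finite.exists_le_maximal (p := fun M : Subgroup G => Cfsg.IsTwoLocal M)
      (a := Subgroup.normalizer (D : Set G)) ⟨D, hDp, hD1, rfl⟩
    obtain ⟨z₁, hz₁⟩ := key M ⟨hM.1, fun M' h1 h3 => le_antisymm (hM.2 h1 h3) h3⟩
    have step : ∀ Q : Sylow 2 G, ∃ Q₁ : Sylow 2 G,
        (Q : Subgroup G) ⊓ Subgroup.normalizer (D : Set G) ≤ Q₁ ∧ z₁ ∈ (Q₁ : Subgroup G) ∧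
        orderOf z₁ = 2 ∧ (∀ s ∈ (Q₁ : Subgroup G), s * z₁ = z₁ * s) ∧
        ∀ z, orderOf z = 2 → (∀ s ∈ (Q₁ : Subgroup G), s * z = z * s) → z = z₁ := by
      intro Q
      obtain ⟨R, hR, hQR⟩ := exists_isSylIn_le (Q.2.to_le inf_le_left :
        IsPGroup 2 ↥((Q : Subgroup G) ⊓ Subgroup.normalizer (D : Set G))) (inf_le_right.trans hle)
      obtain ⟨Q₁, hQ₁⟩ := hR.pg.exists_le_sylow
      obtain ⟨h1, h2, h3, h4⟩ := hz₁ R hR Q₁ hQ₁
      exact ⟨Q₁, hQR.trans hQ₁, hQ₁ h1, h2, h3, h4⟩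
    obtain ⟨P₁, a1, a2, a3, a4, a5⟩ := step P
    obtain ⟨P₁', b1, b2, -, b4, -⟩ := step P'
    by_cases hPP : P = P'
    · subst hPP
      rw [inf_idem] at hD
      have : P = P₁ := Sylow.ext (P.is_maximal' P₁.2
        (le_trans (le_inf le_rfl (hD ▸ Subgroup.le_normalizer)) a1)).symm
      subst this
      rw [a5 z hz hzc, a5 z' hz' hzc']
    have l1 : D < P := lt_of_le_of_ne (hD ▸ inf_le_left) fun h =>
      hPP (Sylow.ext (P.is_maximal' P'.2 (h ▸ hD ▸ inf_le_right)).symm)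
    have l2 : D < P' := lt_of_le_of_ne (hD ▸ inf_le_right) fun h =>
      hPP (Sylow.ext (P'.is_maximal' P.2 (h ▸ hD ▸ inf_le_left)))
    have m1 := lt_inf_normalizer_of_lt P.2 l1
    have m2 := lt_inf_normalizer_of_lt P'.2 l2
    have k1 : D < (P : Subgroup G) ⊓ P₁ := m1.trans_le (le_inf inf_le_left a1)
    have k2 : D < (P₁' : Subgroup G) ⊓ P' := m2.trans_le (le_inf b1 inf_le_left)
    have e1 : z₁ = z := ih _ k1 P P₁ rfl z z₁ hz a3 hzc a4 (k1.le hzD)
    rw [← e1]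
    exact ih _ k2 P₁' P' rfl z₁ z' a3 hz' b4 hzc' (e1 ▸ k2.le hzD)
  have hS1 : (S : Subgroup G) ≠ ⊥ := by
    intro h
    rw [h, le_bot_iff] at hES
    rw [hES] at h8
    simp at h8
  obtain ⟨z, hzS, hz, hzc⟩ := H10.exists_central_orderOf S.2 S.2 Subgroup.le_normalizer hS1
  have hzc' : ∀ s ∈ (S : Subgroup G), s * z = z * s := fun s hs => mem_cent1.1 (hzc hs)
  refine not_iso_of_simple hG z (iso_of_sylow hz S fun g hg => ?_)
  refine (main _ (g • S) S rfl _ z ((orderOf_conj g z).trans hz) hz (fun s hs => ?_) hzc'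
    ⟨mem_sylow_smul.2 (by rw [show g⁻¹ * (g * z * g⁻¹) * g = z by group]; exact hzS), hg⟩).symm
  have := hzc' _ (mem_sylow_smul.1 hs)
  calc s * (g * z * g⁻¹) = g * (g⁻¹ * s * g * z) * g⁻¹ := by group
    _ = _ := by rw [this]; group

end Cfsg.Agent.S3244
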