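import Cfsg.Statements.S3245
import Cfsg.Agent.BS.BZ
import Cfsg.Agent.FT

set_option autoImplicit false
open Cfsg

namespace Cfsg.Agent.S3245

open Subgroup Cfsg.Agent.H11

theorem exists_max {G : Type*} [Group G] [Finite G] {X : Subgroup G} (hX : IsPGroup 2 X) (h0 : X ≠ ⊥) :
    ∃ M, IsMaximalTwoLocal M ∧ normalizer (X : Set G) ≤ M := by
  obtain ⟨M, hM, hmax⟩ := Set.Finite.exists_le_maximal (Set.toFinite {N : Subgroup G | IsTwoLocal N})
    (a := normalizer (X : Set G)) ⟨X, hX, h0, rfl⟩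
  exact ⟨M, ⟨hmax.1, fun N hN h => le_antisymm (hmax.2 hN h) h⟩, hM⟩

theorem eq_of_le {G : Type*} [Group G] [Finite G]
    (h1 : ∀ M M' : Subgroup G, IsMaximalTwoLocal M → IsMaximalTwoLocal M' → ∃ g : G, M' = cj g M)
    (T : Subgroup G) (hT : IsPGroup 2 T) (h0 : T ≠ ⊥) {M₁ M₂ : Subgroup G} (hM₁ : IsMaximalTwoLocal M₁)
    (hM₂ : IsMaximalTwoLocal M₂) (l₁ : T ≤ M₁) (l₂ : T ≤ M₂) : M₁ = M₂ := by
  induction hn : Nat.card G - Nat.card T using Nat.strong_induction_on generalizing T M₁ M₂ with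
  | _ n ih =>
  obtain ⟨M, hM, hNM⟩ := exists_max hT h0
  have key : ∀ M', IsMaximalTwoLocal M' → T ≤ M' → M' = M := fun M' hM' l => by
    by_cases hs : IsSylIn 2 T M'
    · obtain ⟨S, hS, hTS⟩ := exists_isSylIn_le hT (le_top (a := T))
      obtain ⟨M0, hM0, hN0⟩ := exists_max hS.pg (fun e => h0 (eq_bot_iff.2 (e ▸ hTS)))
      obtain ⟨g, rfl⟩ := h1 M0 M' hM0 hM'
      have hc := hs.card_le (IsPGroup_cj hS.pg g) (cj_mono g (le_normalizer.trans hN0))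
      rw [card_cj] at hc
      have hT' : IsSylIn 2 T ⊤ := hS.of_card_ge hT le_top hc
      obtain ⟨g', e⟩ := h1 M _ hM hM'
      rw [e] at l ⊢
      have hTM : T ≤ M := le_normalizer.trans hNM
      obtain ⟨m, hm, e2⟩ := (hT'.of_le hTM le_top).exists_cj_eq
        ((hT'.cj_of_mem (g := g'⁻¹) (by simp)).of_le (cj_le_iff'.2 (by rwa [inv_inv])) le_top)
      have h3 : g' * m ∈ normalizer (T : Set G) := cj_eq_iff.1 (by rw [cj_mul, e2, cj_cj_inv])
      exact cj_eq_of_mem ((M.mul_mem_cancel_right hm).1 (hNM h3))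
    · obtain ⟨Q, hQ, hlt, hQ1, hQ2⟩ := exists_lt_normalizer_of_not_isSylIn hT l hs
      have h2 := card_lt_of_lt hlt
      have h3 : Nat.card Q ≤ Nat.card G := card_le_card_group Q
      exact ih _ (by omega) Q hQ (fun e => h0 (eq_bot_iff.2 (e ▸ hlt.le))) hM' hM hQ1 (hQ2.trans hNM) rfl
  rw [key M₁ hM₁ l₁, key M₂ hM₂ l₂]

/-- A finite non-abelian simple group in which all maximal 2-local subgroups are conjugate is isomorphic to L₂(2ⁿ), Sz(2ⁿ) or U₃(2ⁿ) for some n ≥ 2. -/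
theorem result {G : Type*} [Group G] [Finite G] [IsSimpleGroup G] (hG : ¬ IsMulCommutative G)
    (h1 : ∀ M M' : Subgroup G, Cfsg.IsMaximalTwoLocal M → Cfsg.IsMaximalTwoLocal M' → ∃ g : G, M' = M.map (MulAut.conj g).toMonoidHom) :
    (∃ (F : Type) (_ : Field F) (_ : Fintype F) (n : ℕ), 2 ≤ n ∧ Fintype.card F = 2 ^ n ∧
        Nonempty (G ≃* Matrix.ProjectiveSpecialLinearGroup (Fin 2) F)) ∨
      Cfsg.Lie.IsoSuzuki G ∨
      (∃ (F : Type) (_ : Field F) (_ : Fintype F) (n : ℕ), 2 ≤ n ∧ Fintype.card F = (2 ^ n) ^ 2 ∧ Nonempty (G ≃* Cfsg.PSU 3 F (2 ^ n))) := by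
  obtain ⟨S, hS⟩ := exists_isSylIn 2 (⊤ : Subgroup G)
  have hS0 : S ≠ ⊥ := fun e => by
    have h2 := hS.not_dvd_relIndex
    rw [e, relIndex_bot_left, card_top] at h2
    haveI := FT.solvable_of_odd (G := G) (Nat.odd_iff.2 (by omega))
    exact hG ⟨⟨IsSimpleGroup.comm_iff_isSolvable.2 this⟩⟩
  obtain ⟨M, hM, hNM⟩ := exists_max hS.pg hS0
  have hSM : S ≤ M := le_normalizer.trans hNM
  have hne : M ≠ ⊤ := fun e => by
    obtain ⟨T, hT, hT0, e2⟩ := hM.1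
    rcases (normalizer_eq_top_iff.1 (e2.symm.trans e)).eq_bot_or_eq_top with h | h
    · exact hT0 h
    · haveI : Group.IsNilpotent G := (h ▸ hT).of_equiv topEquiv |>.isNilpotent
      exact hG ⟨⟨IsSimpleGroup.comm_iff_isSolvable.2 inferInstance⟩⟩
  have hse := isStronglyEmbedded_of_normalizers_le hne (hS.of_le hSM le_top) hS0 fun X hX hX0 => by
    obtain ⟨M', hM', hN⟩ := exists_max (hS.pg.to_le hX) hX0
    rwa [eq_of_le h1 X (hS.pg.to_le hX) hX0 hM hM' (hX.trans hSM) (le_normalizer.trans hN)]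
  rcases BS.Bd.isBender_of_se hse with ⟨F, _, _, ⟨n, h1, h2⟩, h3⟩ | h | h
  · exact Or.inl ⟨F, _, _, n, h1, h2, h3⟩
  · exact Or.inr (Or.inl h)
  · exact Or.inr (Or.inr h)

end Cfsg.Agent.S3245
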