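import Cfsg.Statements.S3246
import Cfsg.Agent.H11.PCon
import Cfsg.Agent.H1.Rank
import Cfsg.Agent.H1.Generation

set_option autoImplicit false
open Cfsg

namespace Cfsg.Agent.S3246

open Cfsg.Agent.H11



/-- Let G be a finite group whose Sylow 2-subgroup S has a self-centralizing normal subgroup of rank at least 3. Suppose that either every maximal 2-local subgroup of G is 2-constrained with no nontrivial normal subgroup of odd order, or the centralizer of every involution of G is 2-constrained with no nontrivial normal subgroup of odd order. Then S normalizes no nontrivial subgroup of G of odd order and every 2-local subgroup of G is 2-constrained. -/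
theorem result {G : Type*} [Group G] [Finite G]
    (S : Sylow 2 G) (A : Subgroup G) (hA : Cfsg.IsSCN (S : Subgroup G) A) (hA3 : ¬ Cfsg.PRankLE 2 2 ↥A)
    (h : (∀ M : Subgroup G, Cfsg.IsMaximalTwoLocal M → Cfsg.IsPConstrained 2 ↥M ∧ Cfsg.oddCore ↥M = ⊥) ∨
      (∀ t : G, orderOf t = 2 → Cfsg.IsPConstrained 2 ↥(Subgroup.centralizer ({t} : Set G)) ∧
        Cfsg.oddCore ↥(Subgroup.centralizer ({t} : Set G)) = ⊥)) :
    (∀ X : Subgroup G, Odd (Nat.card ↥X) → (S : Subgroup G) ≤ Subgroup.normalizer (X : Set G) → X = ⊥) ∧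
      (∀ T : Subgroup G, IsPGroup 2 ↥T → T ≠ ⊥ → Cfsg.IsPConstrained 2 ↥(Subgroup.normalizer (T : Set G))) := by
  have hX : ∀ T : Subgroup G, IsPGroup 2 ↥T → T ≠ ⊥ → H10.XOf 2 (Subgroup.centralizer (T : Set G)) = ⊥ := by
    intro T hT hT1
    rcases h with h | h
    · obtain ⟨M, hle, hM⟩ := Finite.exists_le_maximal (p := fun M : Subgroup G => Cfsg.IsTwoLocal M)
        (a := Subgroup.normalizer (T : Set G)) ⟨T, hT, hT1, rfl⟩
      have h1 := XOf_eq_bot_iff_con.2 (h M ⟨hM.1, fun M' h1 h3 => le_antisymm (hM.2 h1 h3) h3⟩)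
      exact H10.XOf_centralizer_eq_bot hT
        ((Subgroup.le_normalizer.trans hle).trans Subgroup.le_normalizer)
        ((Subgroup.centralizer_le_normalizer _).trans hle) h1
    · obtain ⟨z, hzT, hz, hc⟩ := H10.exists_central_orderOf hT hT Subgroup.le_normalizer hT1
      exact H10.XOf_centralizer_eq_bot hT (hc.trans Subgroup.le_normalizer)
        (H10.centralizer_le_centralizer_singleton hzT) (XOf_eq_bot_iff_con.2 (h z hz))
  refine ⟨fun X hXo hSX => ?_, fun T hT hT1 =>
    (XOf_eq_bot_iff_con.1 ((H10.XOf_normalizer hT).trans (hX T hT hT1))).1⟩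
  obtain ⟨E, hEA, hE, hEc⟩ := H1.not_pRankLE_iff.1 hA3
  obtain ⟨U, hUS, hU, hSU⟩ := exists_normalized_klein_of_eight S.2 (hEA.trans hA.1) hEc
    (fun e he => by rw [← pow_two]; exact hE.2 e he)
  have hidx := relIndex_centralizer_klein_le S.2 hU hSU
  haveI : IsMulCommutative U := H3.isMulCommutative_iff_mem.2 fun a ha b hb => klein_comm hU ha hb
  rw [eq_bot_iff]
  refine H1.le_of_forall_centralizer_singleton_le (A := U) hU.not_isCyclic (hUS.trans hSX) ?_ fun u hu hu1 => ?_
  · rw [hU.card_four]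
    exact Nat.Coprime.pow_left 2 (Nat.coprime_two_left.2 hXo)
  have huo := klein_orderOf hU hu hu1
  have hH := hX (Subgroup.zpowers u) (isPGroup_zpowers_of_orderOf (k := 1) huo)
    (fun h => hu1 (Subgroup.zpowers_eq_bot.1 h))
  rw [H10.centralizer_zpowers] at hH
  set H := Subgroup.centralizer ({u} : Set G) with hHdef
  set T := (S : Subgroup G) ⊓ Subgroup.centralizer (U : Set G) with hT
  have hTH : T ≤ H := inf_le_right.trans (H10.centralizer_le_centralizer_singleton hu)
  obtain ⟨R, hR, hTR⟩ := exists_isSylIn_le (S.2.to_le inf_le_left : IsPGroup 2 T) hTH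
  have hQR : H10.OpOf 2 H ≤ R := hR.le_of_normalized H10.OpOf_isPGroup H10.OpOf_le
    (H10.le_normalizer_OpOf (hR.le.trans Subgroup.le_normalizer))
  have h1 : T.relIndex R ≤ 2 := by
    have e1 := card_mul_relIndex hTR
    have e2 : Nat.card T * T.relIndex S = Nat.card S := card_mul_relIndex inf_le_left
    have e5 : T.relIndex S ≤ 2 := by rw [hT, Subgroup.inf_relIndex_left]; exact hidx
    have e3 := (isSylIn_top S).card_le hR.pg le_top
    have e4 : 0 < Nat.card T := Nat.card_pos
    by_contra hc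
    nlinarith
  have h2 : T.relIndex (H10.OpOf 2 H) ≤ 2 :=
    (Subgroup.relIndex_le_of_le_right hQR Subgroup.index_ne_zero_of_finite).trans h1
  have hYo : Odd (Nat.card ↥(X ⊓ H)) := hXo.of_dvd_nat (Subgroup.card_dvd_of_le inf_le_left)
  have hYn : X ⊓ H ≤ Subgroup.normalizer (H10.OpOf 2 H : Set G) :=
    H10.le_normalizer_OpOf (inf_le_right.trans Subgroup.le_normalizer)
  have hdis : H10.OpOf 2 H ⊓ X = ⊥ :=
    H10.disjoint_of_isPGroup_of_coprime H10.OpOf_isPGroup (Nat.coprime_two_right.2 hXo)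
  have h3 := le_centralizer_of_relIndex_le_two H10.OpOf_isPGroup hYo hYn h2 (by
    intro y hy q hq
    have m1 : q * (y * q⁻¹ * y⁻¹) ∈ H10.OpOf 2 H :=
      Subgroup.mul_mem _ hq.1 (conj_mem_of_mem_normalizer (hYn hy) (Subgroup.inv_mem _ hq.1))
    have m2 : (q * y * q⁻¹) * y⁻¹ ∈ X :=
      X.mul_mem (conj_mem_of_mem_normalizer (hSX hq.2.1) hy.1) (X.inv_mem hy.1)
    have m3 : q * y * q⁻¹ * y⁻¹ ∈ H10.OpOf 2 H ⊓ X := ⟨by simpa [mul_assoc] using m1, m2⟩
    rw [hdis, Subgroup.mem_bot, mul_inv_eq_one, mul_inv_eq_iff_eq_mul] at m3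
    exact m3)
  rw [← hdis]
  exact le_inf ((le_inf inf_le_right h3).trans (inf_centralizer_OpOf_le hH)) inf_le_left

end Cfsg.Agent.S3246
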