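import Cfsg.Statements.S3260
import Cfsg.Agent.H25.QC3
import Cfsg.Agent.H21.Hol
import Cfsg.Agent.H1.PiSep

set_option autoImplicit false
open Cfsg

namespace Cfsg.Agent.S3260

open Subgroup Cfsg.Agent.H20 Cfsg.Agent.H21 Cfsg.Agent.H25.QB

/-- Let p ≥ 5 be a prime, G a finite p-constrained group with Sylow p-subgroup S, and A a group of automorphisms of G of order coprime to |G| whose fixed-point subgroup has no section isomorphic to PSL₂(p). Then G = O_{p'}(G) · N_G(Z(J(S))), where J(S) is the subgroup generated by the abelian subgroups of S of largest order. -/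
theorem result {G : Type*} [Group G] [Finite G] (p : ℕ) [hp : Fact p.Prime] (hp5 : 5 ≤ p)
    (hG : Cfsg.IsPConstrained p G) (S : Sylow p G) (A : Subgroup (MulAut G)) (hA : (Nat.card ↥A).Coprime (Nat.card G))
    (C : Subgroup G) (hC : ∀ g : G, g ∈ C ↔ ∀ a ∈ A, a g = g)
    {F : Type*} [Field F] [Fintype F] (hF : Fintype.card F = p)
    (hfix : ¬ Cfsg.Involves (Matrix.ProjectiveSpecialLinearGroup (Fin 2) F) ↥C) :
    Cfsg.pPrimeCore p G ⊔ Subgroup.normalizer (Cfsg.centerThompsonAOf (S : Subgroup G) : Set G) = ⊤ := by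
  by_cases hd : p ∣ Nat.card G
  swap
  · refine top_le_iff.1 ((H1.le_pPrimeCore ?_).trans le_sup_left)
    rw [card_top]
    exact ((Nat.Prime.coprime_iff_not_dvd hp.out).2 hd).symm
  have hAp := hA.coprime_dvd_right hd
  let φ := A.subtype
  let π := QuotientGroup.mk' (pPrimeCore p (Hol φ))
  have hsurj : Function.Surjective π := QuotientGroup.mk'_surjective _
  let f := π.comp (Hol.l φ)
  set G₀ := (⊤ : Subgroup G).map (Hol.l φ) with hG₀
  set R₀ := (⊤ : Subgroup A).map (Hol.r φ) with hR₀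
  have nR : R₀ ≤ N⟦G₀⟧ := Hol.le_norm_top ⊤
  have n0 : G₀.Normal := normalizer_eq_top_iff.1 (top_le_iff.1 (Hol.l_sup_r.ge.trans (sup_le le_normalizer nR)))
  have hc : (♯G₀).Coprime (♯R₀) := by rw [Hol.card_l_top, Hol.card_r_top]; exact hA.symm
  have hs := H1.solOr_of_coprime hc
  have n1 : (G₀.map π).Normal := n0.map π hsurj
  have e : G₀.map π = f.range := by rw [hG₀, map_map, MonoidHom.range_eq_map]
  have hk : (♯f.ker).Coprime p := (H1.coprime_card_pPrimeCore p (Hol φ)).coprime_dvd_left (by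
    rw [← MonoidHom.comap_ker, QuotientGroup.ker_mk']
    exact card_comap_dvd_of_injective _ _ (Hol.l_inj φ))
  have hi : (G₀.map π).index.Coprime p := by
    refine hAp.coprime_dvd_left ((index_map_dvd _ hsurj).trans ?_)
    rw [← relIndex_top_right, ← Hol.l_sup_r (φ := φ), relIndex_sup_of_norm' (Or.inr nR), ← Hol.card_r_top φ]
    exact relIndex_dvd_card _ _
  obtain ⟨T, hT⟩ := (((sylowOf_top S).map f).trans_relIndex le_top (by
    rw [← MonoidHom.range_eq_map, ← e, relIndex_top_right]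
    exact (PiNat.compl_singleton_iff_coprime hp.out).2 hi)).exists_sylow_top
  have ch : CharP F p := by
    obtain ⟨q, hq⟩ := CharP.exists F
    obtain ⟨n, h1, h2⟩ := FiniteField.card F q
    rwa [← (Nat.prime_dvd_prime_iff_eq h1 hp.out).1 (by rw [← hF, h2]; exact dvd_pow_self q n.ne_zero)]
  have key := zj_amb (G := G₀.map π) (R := R₀.map π) (ZMod.ringEquiv F hF).symm.toRingHom
    ⟨(2 : ℕ), fun h => by have := Nat.le_of_dvd two_pos ((CharP.cast_eq_zero_iff F p 2).1 h); omega, fun h => by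
      have := Nat.le_of_dvd three_pos ((CharP.cast_eq_zero_iff F p 3).1 (by
        push_cast at h ⊢; linear_combination h))
      omega⟩ (by omega)
    (Nat.Coprime.coprime_dvd_left (card_map_dvd G₀ π) (hc.coprime_dvd_right (card_map_dvd R₀ π)))
    (hs.imp (sol_map π) (sol_map π)) (by
      rw [← coprime_map_cent π nR hc hs, show G₀ ⊓ C⟦R₀⟧ = C.map (Hol.l φ) from le_antisymm (by
        rintro _ ⟨⟨g, -, rfl⟩, h⟩
        exact ⟨g, (hC g).2 fun a ha => Hol.l_mem_cent_iff.1 h ⟨a, ha⟩ (mem_top _), rfl⟩) (by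
        rintro _ ⟨g, h, rfl⟩
        exact ⟨⟨g, mem_top _, rfl⟩, Hol.l_mem_cent_iff.2 fun a _ => (hC g).1 h a a.2⟩)]
      exact fun h => hfix (H9.involves_of_map _ _ (H9.involves_of_map π _ h))) hi
    (H1.pPrimeCore_quotient_pPrimeCore p) (by
      rw [e]
      exact (H9.isPConstrained_iff_of_surjective f.rangeRestrict_surjective (by
        rwa [MonoidHom.ker_rangeRestrict])).1 hG) T
  rw [hT, ← H9.map_centerThompsonOf_of_disjoint (inf_eq_bot_coprime (coprime_of_isPGroup S.isPGroup' hk))] at key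
  rw [H9.centerThompsonAOf_eq]
  refine H9.pPrimeCore_sup_normalizer_eq_top (S.isPGroup'.to_le (H9.centerThompsonOf_le _ _)) ?_
  have k2 := (key.comap f).map _ (QuotientGroup.mk'_surjective (pPrimeCore p G))
  rwa [comap_map_eq, Subgroup.map_sup, (Subgroup.map_eq_bot_iff f.ker).2 (by
    rw [QuotientGroup.ker_mk']; exact H1.le_pPrimeCore hk), sup_bot_eq] at k2

end Cfsg.Agent.S3260
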