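import Cfsg.Statements.S3269
import Cfsg.Agent.H6.ZStar2
import Cfsg.Agent.H11.MC2
-- import your own Cfsg.Agent.* helpers here

set_option autoImplicit false
open Cfsg

namespace Cfsg.Agent.S3269

open Cfsg.Agent.H4 Cfsg.Agent.H6


/-- Let G be a finite group whose Sylow 2-subgroup S is an internal direct product Q × R with Q generalized quaternion (of order at least 8) and R a subgroup all of whose involutions are central in R. Then G is not simple. In particular no finite simple group has a Sylow 2-subgroup that is a direct product of one or more generalized quaternion groups. -/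
theorem result {G : Type*} [Group G] [Finite G]
    (S : Sylow 2 G) (Q R : Subgroup G) (hQR : Cfsg.IsInternalDirectProduct Q R (S : Subgroup G))
    (n : ℕ) (hn : 1 ≤ n) (eQ : ↥Q ≃* QuaternionGroup (2 ^ n))
    (hR : ∀ r ∈ R, orderOf r = 2 → ∀ s ∈ R, r * s = s * r) :
    ¬ IsSimpleGroup G := by
  intro hG
  obtain ⟨hQS, hRS, hc, hdisj, hsup⟩ := hQR
  obtain ⟨X, Y, h⟩ := H11.exists_MC_of_quaternion hn eQ
  set z := X (H11.hh (n + 1)) with hz
  have hz2 : orderOf z = 2 := h.orderOf_z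
  have hzQ : z ∈ Q := h.X_mem _
  have huniq : ∀ s ∈ Q, orderOf s = 2 → s = z := fun s hs ho => by
    obtain ⟨a, rfl | rfl⟩ := (h.mem s).1 hs
    · rw [h.orderOf_X_two.1 ho]
    · have := h.orderOf_Y_two.1 ho
      rw [zero_mul, add_zero] at this
      exact absurd this (H11.hh_ne h.one_le)
  have hnc : X (H11.qq (n + 1)) * Y 0 ≠ Y 0 * X (H11.qq (n + 1)) := fun h1 =>
    (h.XY_comm_iff.1 h1).elim (H11.qq_ne h.two_le) (H11.qq_ne_hh h.two_le)
  have hRN : ∀ n ∈ Subgroup.normalizer ((S : Subgroup G) : Set G),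
      (S : Subgroup G) ≤ Subgroup.normalizer ((H11.cj n Q : Subgroup G) : Set G) := by
    intro n hn
    rw [← H11.cj_eq_iff.2 hn, ← H11.cj_normalizer]
    refine H11.cj_mono n (hsup.ge.trans (sup_le Subgroup.le_normalizer fun r hr =>
      H3.mem_normalizer_of_conj_mem fun q hq => ?_))
    rwa [← hc q hq r hr, mul_inv_cancel_right]
  have hmem : ∀ s ∈ (S : Subgroup G), ∃ q ∈ Q, ∃ r ∈ R, q * r = s := fun s hs => by
    have := hRN 1 (one_mem _)
    rw [H11.cj_one] at this
    rw [← hsup, ← SetLike.mem_coe,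
      Subgroup.coe_mul_of_right_le_normalizer_left _ _ (hRS.trans this)] at hs
    exact hs
  have hSp := S.isPGroup'
  have hinv : ∀ T : Subgroup G, T ≤ S → T ≠ ⊥ → ∃ t ∈ T, orderOf t = 2 := fun T h1 h2 => by
    obtain ⟨k, hk⟩ := (hSp.to_le h1).exists_card_eq
    refine H11.exists_invol_of_even (hk ▸ Nat.even_pow.2 ⟨even_two, ?_⟩)
    rintro rfl
    exact h2 (Subgroup.card_eq_one.1 hk)
  have hcent : ∀ t ∈ (S : Subgroup G), t * t = 1 → ∀ s ∈ (S : Subgroup G), s * t = t * s := by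
    intro t ht h2 s hs
    obtain ⟨q, hq, r, hr, rfl⟩ := hmem t ht
    obtain ⟨q', hq', r', hr', rfl⟩ := hmem s hs
    have h3 : q * q = (r * r)⁻¹ := by
      rw [eq_inv_iff_mul_eq_one, ← h2, mul_assoc, mul_assoc, ← mul_assoc r q, ← hc q hq r hr,
        mul_assoc]
    have h4 : q * q ∈ Q ⊓ R := ⟨Q.mul_mem hq hq, h3 ▸ R.inv_mem (R.mul_mem hr hr)⟩
    rw [hdisj, Subgroup.mem_bot] at h4
    have h5 : r * r = 1 := by rwa [h4, eq_comm, inv_eq_one] at h3
    have h6 : Commute q' q := by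
      by_cases h0 : q = 1
      · rw [h0]; exact Commute.one_right _
      · rw [huniq q hq (H11.orderOf_two_of h0 h4)]; exact h.z_comm hq'
    have h7 : Commute r' r := by
      by_cases h0 : r = 1
      · rw [h0]; exact Commute.one_right _
      · exact (hR r hr (H11.orderOf_two_of h0 h5) r' hr').symm
    exact (Commute.mul_right h6 (hc q' hq' r hr)).mul_left
      (Commute.mul_right (Eq.symm (hc q hq r' hr')) h7)
  have hkey : ∀ n ∈ Subgroup.normalizer ((S : Subgroup G) : Set G), n * z * n⁻¹ ∉ R →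
      n * z * n⁻¹ = z := by
    intro n hn h1
    have hQ' : H11.cj n Q ≤ S := (H11.cj_mono n hQS).trans (H11.cj_eq_iff.2 hn).le
    have hu : ∀ t ∈ H11.cj n Q, orderOf t = 2 → t = n * z * n⁻¹ := fun t ht ho => by
      rw [← huniq _ (H11.mem_cj.1 ht) (by simpa using (orderOf_conj' n⁻¹ t).trans ho)]
      group
    have h2 : R ⊓ H11.cj n Q = ⊥ := by
      by_contra h2
      obtain ⟨t, ht, ho⟩ := hinv _ (inf_le_left.trans hRS) h2
      exact h1 (hu t ht.2 ho ▸ ht.1)
    have h3 : R ⊔ H11.cj n Q = S := by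
      refine Subgroup.eq_of_le_of_card_ge (sup_le hRS hQ') (le_of_eq ?_)
      have e1 := H3.card_sup_mul_card_inf (hRS.trans (hRN n hn))
      have e2 := H3.card_sup_mul_card_inf (hRS.trans (hRN 1 (one_mem _)))
      rw [H11.cj_one, inf_comm, hdisj, sup_comm, hsup] at e2
      rw [h2, H11.card_cj] at e1
      simpa using e2.trans e1.symm
    have h4 := hQS (h.X_mem (H11.qq (_ + 1)))
    rw [← h3, sup_comm, ← SetLike.mem_coe,
      Subgroup.coe_mul_of_right_le_normalizer_left _ _ (hRS.trans (hRN n hn))] at h4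
    obtain ⟨q, hq, r, hr, h5⟩ := h4
    have h6 : Q ⊓ H11.cj n Q ≠ ⊥ := fun h6 => by
      have h7 : X (H11.qq (_ + 1)) * Y 0 * (X (H11.qq (_ + 1)))⁻¹ * (Y 0)⁻¹ ∈ Q ⊓ H11.cj n Q := by
        refine ⟨Q.mul_mem (Q.mul_mem (Q.mul_mem (h.X_mem _) (h.Y_mem _))
          (Q.inv_mem (h.X_mem _))) (Q.inv_mem (h.Y_mem _)), ?_⟩
        have h8 := (Subgroup.mem_normalizer_iff.1 (hRN n hn (hQS (h.Y_mem 0))) _).1
          (Subgroup.inv_mem _ hq)
        have h9 := Subgroup.mul_mem _ hq h8
        have h10 : q * r = X (H11.qq (_ + 1)) := h5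
        rw [← h10, mul_assoc q r, ← hc _ (h.Y_mem 0) r hr]
        simpa [mul_assoc] using h9
      rw [h6, Subgroup.mem_bot] at h7
      exact hnc (commutatorElement_eq_one_iff_commute.1 h7)
    obtain ⟨t, ht, ho⟩ := hinv _ (inf_le_left.trans hQS) h6
    rw [← hu t ht.2 ho, huniq t ht.1 ho]
  classical
  haveI := Fintype.ofFinite G
  set Z := Subgroup.center (S : Subgroup G)
  letI : CommGroup Z := { (inferInstance : Group Z) with
    mul_comm := fun a b => Subtype.ext (Subgroup.mem_center_iff.1 b.2 a) }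
  let ι : Z →* G := (S : Subgroup G).subtype.comp Z.subtype
  have hι : Function.Injective ι := (Subgroup.subtype_injective _).comp (Subgroup.subtype_injective _)
  let O : Finset Z := Finset.univ.filter fun x =>
    ∃ n ∈ Subgroup.normalizer ((S : Subgroup G) : Set G), n * z * n⁻¹ = ι x
  let z0 : Z := ⟨⟨z, hQS hzQ⟩, Subgroup.mem_center_iff.2 fun s => Subtype.ext
    (hcent z (hQS hzQ) (H11.mul_self_of_orderOf_two hz2) s s.2)⟩
  have hz0 : z0 ∈ O := Finset.mem_filter.2 ⟨Finset.mem_univ _, 1, one_mem _, by simp [ι, z0]⟩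
  set w := ∏ x ∈ O, x with hw
  have hw1 : ι w ≠ 1 := fun h1 => by
    rw [hw, ← Finset.mul_prod_erase O _ hz0, map_mul, mul_eq_one_iff_eq_inv] at h1
    have h2 : ∏ x ∈ O.erase z0, x ∈ R.comap ι := Subgroup.prod_mem _ fun x hx => by
      obtain ⟨m, hm, h3⟩ := (Finset.mem_filter.1 (Finset.mem_of_mem_erase hx)).2
      by_contra h4
      exact Finset.ne_of_mem_erase hx (hι (h3.symm.trans (hkey m hm (h3 ▸ h4))))
    have h3 : z ∈ Q ⊓ R := ⟨hzQ, by
      rw [show z = ι z0 from rfl, h1]; exact R.inv_mem h2⟩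
    rw [hdisj, Subgroup.mem_bot] at h3
    exact H11.ne_one_of_orderOf_two hz2 h3
  have hw2 : orderOf (ι w) = 2 := H11.orderOf_two_of hw1 (by
    rw [← map_mul, hw, ← Finset.prod_mul_distrib, Finset.prod_eq_one, map_one]
    intro x hx
    obtain ⟨m, hm, h3⟩ := (Finset.mem_filter.1 hx).2
    apply hι
    rw [map_mul, ← h3, map_one, conj_mul, H11.mul_self_of_orderOf_two hz2]
    simp)
  have hwN : ∀ m ∈ Subgroup.normalizer ((S : Subgroup G) : Set G), m * ι w * m⁻¹ = ι w := by
    intro m hm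
    let φ : Z ≃* Z := Subgroup.centerCongr ((S : Subgroup G).normalizerMonoidHom ⟨m, hm⟩)
    have hφ : ∀ x, ι (φ x) = m * ι x * m⁻¹ := fun x => rfl
    rw [← hφ, hw, map_prod φ]
    congr 1
    refine Finset.prod_equiv φ.toEquiv (fun x => ?_) fun _ _ => rfl
    simp only [O, Finset.mem_filter, Finset.mem_univ, true_and]
    constructor
    · rintro ⟨k, hk, h1⟩
      exact ⟨m * k, mul_mem hm hk, by
        rw [show ι (φ.toEquiv x) = ι (φ x) from rfl, hφ, ← h1]; group⟩
    · rintro ⟨k, hk, h1⟩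
      refine ⟨m⁻¹ * k, mul_mem (inv_mem hm) hk, ?_⟩
      rw [show ι (φ.toEquiv x) = ι (φ x) from rfl, hφ] at h1
      calc m⁻¹ * k * z * (m⁻¹ * k)⁻¹ = m⁻¹ * (k * z * k⁻¹) * m := by group
        _ = ι x := by rw [h1]; group
  have hwS : ι w ∈ (S : Subgroup G) := (w : (S : Subgroup G)).2
  have key := zstar_sylow S hw2 hwS fun g hg => by
    obtain ⟨m, -, hm, h1⟩ := (H11.isSylIn_top S).exists_normalizer_conj (Subgroup.mem_top g)
      (hcent _ hwS (H11.mul_self_of_orderOf_two hw2))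
      (hcent _ hg (H11.mul_self_of_orderOf_two ((orderOf_conj' _ _).trans hw2)))
    rw [← h1, hwN m hm]
  have hO : pPrimeCore 2 G = ⊥ := (hG.eq_bot_or_eq_top_of_normal _ inferInstance).resolve_right
    fun h1 => H1.not_dvd_card_pPrimeCore 2 G (by
      rw [h1, Subgroup.card_top, ← hz2]; exact orderOf_dvd_natCard z)
  have hZ := H11.center_eq_bot_of_simple (G := G) fun h1 => hnc (h1.is_comm.comm _ _)
  have h2 : ι w ∈ Subgroup.center G := Subgroup.mem_center_iff.2 fun g => by
    have := key g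
    rw [hO, Subgroup.mem_bot] at this
    exact (commutatorElement_eq_one_iff_commute.1 this).symm
  rw [hZ, Subgroup.mem_bot] at h2
  exact hw1 h2

end Cfsg.Agent.S3269
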