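import Cfsg.Statements.S3276
import Cfsg.Agent.H11.Klein

set_option autoImplicit false
open Cfsg

namespace Cfsg.Agent.S3276

open Cfsg.Agent.H11



/-- Let x and y be commuting, non-conjugate involutions of a finite group G, and suppose that for every involution u commuting with x, each conjugate of y that commutes with u also commutes with y. Then the normal closure of y is a proper, normal, elementary abelian 2-subgroup of G; and if y is the only involution of that normal closure commuting with x, it has order at most 4. -/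
theorem result {G : Type*} [Group G] [Finite G] (x y : G) (hx : orderOf x = 2) (hy : orderOf y = 2)
    (hxy : Commute x y) (hnc : ¬ IsConj x y)
    (hstar : ∀ u : G, orderOf u = 2 → Commute u x → ∀ g : G, Commute (g * y * g⁻¹) u → Commute (g * y * g⁻¹) y) :
    Subgroup.normalClosure ({y} : Set G) ≠ ⊤ ∧ Cfsg.IsElementaryAbelian 2 (Subgroup.normalClosure ({y} : Set G)) ∧
      ((∀ u ∈ Subgroup.normalClosure ({y} : Set G), orderOf u = 2 → Commute u x → u = y) →
        Nat.card ↥(Subgroup.normalClosure ({y} : Set G)) ≤ 4) := by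
  have hxx := mul_self_of_orderOf_two hx
  have hyy := mul_self_of_orderOf_two hy
  have h1 : ∀ g : G, Commute (g * y * g⁻¹) y := by
    intro g
    have hy' : (g * y * g⁻¹) * (g * y * g⁻¹) = 1 := mul_self_of_orderOf_two (by rw [orderOf_conj, hy])
    obtain ⟨z, -, hz, hz1, hz2⟩ := exists_invol_commute_of_not_isConj hxx hy'
      (fun h => hnc (h.trans (isConj_conj g y).symm))
    exact hstar z hz hz1 g hz2.symm
  have h2 : ∀ a ∈ Group.conjugatesOfSet ({y} : Set G), ∀ b ∈ Group.conjugatesOfSet ({y} : Set G), a * b = b * a := by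
    intro a ha b hb
    obtain ⟨_, ha', ha⟩ := Group.mem_conjugatesOfSet_iff.1 ha
    obtain ⟨_, hb', hb⟩ := Group.mem_conjugatesOfSet_iff.1 hb
    rw [Set.mem_singleton_iff.1 ha'] at ha
    rw [Set.mem_singleton_iff.1 hb'] at hb
    obtain ⟨g, rfl⟩ := isConj_iff.1 ha
    obtain ⟨h, rfl⟩ := isConj_iff.1 hb
    have := (h1 (h⁻¹ * g)).eq
    calc _ = h * (h⁻¹ * g * y * (h⁻¹ * g)⁻¹ * y) * h⁻¹ := by group
      _ = _ := by rw [this]; group
  set N := Subgroup.normalClosure ({y} : Set G) with hN
  have hcomm : IsMulCommutative N := Subgroup.isMulCommutative_closure h2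
  have hc : ∀ a ∈ N, ∀ b ∈ N, a * b = b * a := fun a ha b hb =>
    congrArg Subtype.val (hcomm.is_comm.comm ⟨a, ha⟩ ⟨b, hb⟩)
  have hsq : ∀ a ∈ N, a * a = 1 := by
    intro a ha
    induction ha using Subgroup.closure_induction with
    | mem a ha =>
      obtain ⟨_, ha', ha⟩ := Group.mem_conjugatesOfSet_iff.1 ha
      rw [Set.mem_singleton_iff.1 ha'] at ha
      exact mul_self_of_orderOf_two (by rw [← orderOf_eq_of_isConj ha, hy])
    | one => simp
    | mul a b ha hb h3 h4 =>
      calc a * b * (a * b) = a * (b * a) * b := by group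
        _ = (a * a) * (b * b) := by rw [← hc a ha b hb]; group
        _ = 1 := by rw [h3, h4, mul_one]
    | inv a ha h3 => rw [← mul_inv_rev, h3, inv_one]
  have hyN : y ∈ N := Subgroup.subset_normalClosure rfl
  refine ⟨fun htop => ?_, ⟨hcomm, fun a ha => by rw [pow_two, hsq a ha]⟩, fun hu => ?_⟩
  · have h3 : N ≤ Subgroup.zpowers y := by
      haveI : (Subgroup.zpowers y).Normal := ⟨fun n hn g => by
        rw [hc g (htop ▸ trivial) n (htop ▸ trivial), mul_inv_cancel_right]; exact hn⟩
      exact Subgroup.normalClosure_le_normal (by simp)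
    have := invol_unique_zpowers hx hy (h3 (htop ▸ trivial)) (Subgroup.mem_zpowers y)
    exact hnc (this ▸ IsConj.refl x)
  · have hfix : ∀ u ∈ N, x * u * x⁻¹ = u → u ∈ Subgroup.zpowers y := by
      intro u huN h
      by_cases h0 : u = 1
      · rw [h0]; exact Subgroup.one_mem _
      · rw [hu u huN (orderOf_two_of h0 (hsq u huN)) (mul_inv_eq_iff_eq_mul.1 h).symm]
        exact Subgroup.mem_zpowers y
    have hxN : ∀ u ∈ N, x * u * x⁻¹ ∈ N := fun u hu => Subgroup.normalClosure_normal.conj_mem u hu x
    let f : N →* G :=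
      { toFun := fun u => u * (x * u * x⁻¹)
        map_one' := by simp
        map_mul' := fun a b => by
          have := hc _ (hxN a a.2) _ b.2
          calc ((a * b : N) : G) * (x * (a * b : N) * x⁻¹) = a * (b * (x * a * x⁻¹)) * (x * b * x⁻¹) := by
                push_cast; group
            _ = _ := by rw [← this]; group }
    have hz : Nat.card (Subgroup.zpowers y) = 2 := by rw [Nat.card_zpowers, hy]
    have hr : f.range ≤ Subgroup.zpowers y := by
      rintro _ ⟨u, rfl⟩
      refine hfix _ (N.mul_mem u.2 (hxN u u.2)) ?_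
      show x * (u * (x * u * x⁻¹)) * x⁻¹ = u * (x * u * x⁻¹)
      calc x * (u * (x * u * x⁻¹)) * x⁻¹ = (x * u * x⁻¹) * ((x * x) * u * (x * x)⁻¹) := by group
        _ = (x * u * x⁻¹) * u := by rw [hxx]; group
        _ = _ := (hc _ u.2 _ (hxN u u.2)).symm
    have hk : f.ker.map N.subtype ≤ Subgroup.zpowers y := by
      rintro _ ⟨u, hu, rfl⟩
      refine hfix _ u.2 ?_
      have h3 : (u : G) * (x * u * x⁻¹) = 1 := hu
      exact mul_left_cancel (h3.trans (hsq u u.2).symm)
    have e1 := Subgroup.card_le_of_le hr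
    have e2 := Subgroup.card_le_of_le hk
    rw [card_map_subtype] at e2
    have e3 := Subgroup.card_eq_card_quotient_mul_card_subgroup f.ker
    rw [Nat.card_congr (QuotientGroup.quotientKerEquivRange f).toEquiv] at e3
    rw [e3]
    calc _ ≤ 2 * 2 := Nat.mul_le_mul (hz ▸ e1) (hz ▸ e2)
      _ = 4 := rfl

end Cfsg.Agent.S3276
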