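import Cfsg.Statements.S3279
import Cfsg.Agent.H11.Three

set_option autoImplicit false
open Cfsg

namespace Cfsg.Agent.S3279

open Cfsg.Agent.H11



/-- Let G be a finite simple group and x an involution of G whose centralizer contains at most three involutions. Then C_G(x) contains a Sylow 2-subgroup of G, and all involutions of G are conjugate. -/
theorem result {G : Type*} [Group G] [Finite G] [IsSimpleGroup G] (x : G) (hx : orderOf x = 2)
    (h3 : Nat.card {u : ↥(Subgroup.centralizer ({x} : Set G)) // orderOf u = 2} ≤ 3) :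
    (∃ S : Sylow 2 G, (S : Subgroup G) ≤ Subgroup.centralizer ({x} : Set G)) ∧
      ∀ u v : G, orderOf u = 2 → orderOf v = 2 → IsConj u v := by
  by_cases hna : IsMulCommutative G
  · have hc : ∀ a b : G, a * b = b * a := fun a b => hna.is_comm.comm a b
    obtain ⟨S⟩ := (inferInstance : Nonempty (Sylow 2 G))
    refine ⟨⟨S, fun s _ => mem_cent1.2 (hc _ _)⟩, fun u v hu hv => ?_⟩
    have h2 := card_eq_two_of_simple_of_central hu (Subgroup.mem_center_iff.2 fun g => hc _ _)
    haveI : Fact (Nat.Prime 2) := Nat.fact_prime_two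
    have hv' : v ∈ Subgroup.zpowers u := mem_zpowers_of_prime_card h2 (ne_one_of_orderOf_two hu)
    rw [invol_unique_zpowers hv hu hv' (Subgroup.mem_zpowers u)]
  · have h := three_of_card hx h3
    obtain ⟨S, hS⟩ := h.exists_sylow_le (no_index_two_of_simple' hna) (not_iso_of_simple hna) hx
    exact ⟨⟨S, hS⟩, fun u v hu hv => (h.isConj (not_iso_of_simple hna) hx S hS hu).symm.trans
      (h.isConj (not_iso_of_simple hna) hx S hS hv)⟩

end Cfsg.Agent.S3279
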