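import Cfsg.Statements.S3287
import Cfsg.Agent.GW.Cor2
import Cfsg.Agent.S0253
import Cfsg.Agent.S0255
import Cfsg.Agent.S0219
import Cfsg.Agent.H12.PSL2Dih

set_option autoImplicit false
open Cfsg

namespace Cfsg.Agent.S3287

open Subgroup Cfsg.Agent.GW Cfsg.Agent.H10

/-- Let G be a finite simple group whose Sylow 2-subgroups are dihedral, and suppose the centralizer of some involution of G is properly contained in a subgroup whose generalized Fitting subgroup equals its Fitting subgroup (a subgroup without components). Then G is isomorphic to the alternating group of degree 5 or 7, to PSL(3, 2), or to PSL(2, 9). -/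
theorem result {G : Type*} [Group G] [Finite G] [IsSimpleGroup G] (S : Sylow 2 G) (m : ℕ) (eS : ↥(S : Subgroup G) ≃* DihedralGroup m)
    (t : G) (ht : orderOf t = 2) (K : Subgroup G) (hlt : Subgroup.centralizer ({t} : Set G) < K)
    (hK : Cfsg.generalizedFittingSubgroup ↥K = Cfsg.fittingSubgroup ↥K) :
    Nonempty (G ≃* ↥(alternatingGroup (Fin 5))) ∨ Nonempty (G ≃* ↥(alternatingGroup (Fin 7))) ∨
      (∃ (F : Type) (_ : Field F) (_ : Fintype F), Fintype.card F = 2 ∧ Nonempty (G ≃* Matrix.ProjectiveSpecialLinearGroup (Fin 3) F)) ∨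
      (∃ (F : Type) (_ : Field F) (_ : Fintype F), Fintype.card F = 9 ∧ Nonempty (G ≃* Matrix.ProjectiveSpecialLinearGroup (Fin 2) F)) := by
  have hc : ¬ IsMulCommutative G := fun _ =>
    hlt.not_ge fun x _ => H11.mem_cent1.2 (mul_comm' x t)
  have hp := perfect_of_simple hc
  have hm : 2 ≤ m := by
    rcases m with _ | _ | m
    · exact absurd (Finite.of_equiv _ eS.toEquiv) (by infer_instance : Infinite _).not_finite
    · obtain ⟨H, hH⟩ := S0219.result (even_iff_two_dvd.2 (ht ▸ orderOf_dvd_natCard t)) S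
        (isCyclic_of_prime_card (p := 2) (by
          rw [Nat.card_congr eS.toEquiv, DihedralGroup.nat_card]))
      exact absurd hH (index_ne_two_of_perfect hp H)
    · omega
  have hKt : K ≠ ⊤ := by
    rintro rfl
    have h1 : FstarOf (⊤ : Subgroup G) = FitOf ⊤ := congrArg (map _) hK
    rcases IsSimpleGroup.eq_bot_or_eq_top_of_normal (FitOf (⊤ : Subgroup G))
      (normalizer_eq_top_iff.1 (top_le_iff.1 (le_normalizer_FitOf le_normalizer))) with h | h
    · exact FstarOf_ne_bot top_ne_bot (h1.trans h)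
    · exact not_solvable_of_perfect hp ((isSolvable_congr topEquiv).1
        (h ▸ isSolvable_of_nilpotent FitOf_nilpotent))
  rcases gw_simple hc ⟨S, m, hm, ⟨eS⟩⟩ with ⟨F, _, _, h1, h2, ⟨e⟩⟩ | h
  swap
  · exact Or.inr (Or.inl h)
  obtain ⟨n, hn, hn'⟩ := H12.exists_four_mul_eq h1
  obtain ⟨a, s, h3, h4, -⟩ :=
    H12.centralizer_invol (two_ne_zero_of_odd h1) ((e.orderOf_eq t).trans ht) hn'
  obtain ⟨p, hpc⟩ := CharP.exists F
  haveI := Fact.mk (CharP.char_is_prime F p)
  have h5 := H12.overgroup_dihedral p h3 (M := K.map e.toMonoidHom) (fun h => by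
    have h6 := H12.char_dvd_card (F := F) p
    have h7 : p ∣ 4 * n := h.trans ⟨2, by rw [h4]; ring⟩
    refine (Fact.out : p.Prime).not_dvd_one ?_
    rcases hn' with h8 | h8
    · exact (Nat.dvd_add_right h7).1 (by rwa [h8, Nat.sub_add_cancel (by omega)])
    · exact (Nat.dvd_add_right h6).1 (h8 ▸ h7)) (by omega) (by
      refine lt_of_eq_of_lt ?_ ((map_lt_map_iff_of_injective e.injective).2 hlt)
      ext x
      obtain ⟨x, rfl⟩ := e.surjective x
      simp [H11.mem_cent1, ← map_mul]) fun h => hKt (map_injective e.injective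
        (h.trans (map_top_of_surjective _ e.surjective).symm))
  obtain ⟨k, hk⟩ := id h1
  rw [show Nat.gcd 2 (Fintype.card F - 1) = 2 from Nat.gcd_eq_left ⟨k, by omega⟩, h4] at h5
  have h6 : n ≤ 2 := by
    rcases h5 with h | h | h | h | ⟨r, h6, h7, h8⟩
    iterate 4 omega
    have : r ≤ 3 := by nlinarith [show Fintype.card F ≤ 2 * r + 3 by omega]
    omega
  obtain h | h | h : Fintype.card F = 5 ∨ Fintype.card F = 7 ∨ Fintype.card F = 9 := by omega
  · exact Or.inl ((S0253.result h).map e.trans)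
  · exact Or.inr (Or.inr (Or.inl ⟨ZMod 2, _, _, ZMod.card 2,
      (S0255.result h (ZMod.card 2)).map e.trans⟩))
  · exact Or.inr (Or.inr (Or.inr ⟨F, _, _, h, ⟨e⟩⟩))

end Cfsg.Agent.S3287
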