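import Cfsg.Statements.S3305
import Cfsg.Agent.H11.Fus

set_option autoImplicit false
open Cfsg

namespace Cfsg.Agent.S3305

open Cfsg.Agent.H11



/-- If any two distinct Sylow 2-subgroups of the finite group G intersect in a cyclic group, then the same holds in every quotient group G/H, H a normal subgroup of G. -/
theorem result {G : Type*} [Group G] [Finite G]
    (hC : ∀ S T : Sylow 2 G, S ≠ T → IsCyclic ↥((S : Subgroup G) ⊓ (T : Subgroup G))) (H : Subgroup G) [H.Normal] :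
    ∀ S T : Sylow 2 (G ⧸ H), S ≠ T → IsCyclic ↥((S : Subgroup (G ⧸ H)) ⊓ (T : Subgroup (G ⧸ H))) := by
  intro S T hST
  set f := QuotientGroup.mk' H with hf
  have hs : Function.Surjective f := QuotientGroup.mk'_surjective H
  have key : ∀ (U : Sylow 2 (G ⧸ H)) (P : Subgroup G), IsPGroup 2 P → P ≤ (U : Subgroup (G ⧸ H)).comap f →
      ∃ Q : Sylow 2 G, P ≤ Q ∧ (Q : Subgroup G).map f = U := by
    intro U P hP hle
    obtain ⟨Q, hQ, hPQ⟩ := exists_isSylIn_le hP hle
    have h1 := hQ.not_dvd_relIndex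
    have h2 : ¬ 2 ∣ ((U : Subgroup (G ⧸ H)).comap f).index := by
      rw [Subgroup.index_comap_of_surjective _ hs]; exact U.not_dvd_index
    have h3 : IsSylIn 2 Q ⊤ := isSylIn_of_not_dvd le_top hQ.pg (by
      rw [Subgroup.relIndex_top_right, ← Subgroup.relIndex_mul_index hQ.le]
      exact fun h => ((Nat.Prime.dvd_mul Nat.prime_two).1 h).elim h1 h2)
    obtain ⟨Q', rfl⟩ := h3.exists_sylow_top
    refine ⟨Q', hPQ, ?_⟩
    exact ((Q'.mapSurjective hs).3 U.2 (Subgroup.map_le_iff_le_comap.2 hQ.le)).symm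
  obtain ⟨P, hP⟩ := exists_isSylIn 2 (((S : Subgroup (G ⧸ H)) ⊓ (T : Subgroup (G ⧸ H))).comap f)
  obtain ⟨S', hS1, hS2⟩ := key S P hP.pg (hP.le.trans (Subgroup.comap_mono inf_le_left))
  obtain ⟨T', hT1, hT2⟩ := key T P hP.pg (hP.le.trans (Subgroup.comap_mono inf_le_right))
  have hne : S' ≠ T' := by
    rintro rfl
    exact hST (Sylow.ext (hS2.symm.trans hT2))
  haveI := hC S' T' hne
  haveI hPc : IsCyclic P := Subgroup.isCyclic_of_le (le_inf hS1 hT1)
  have hmap : P.map f = (S : Subgroup (G ⧸ H)) ⊓ (T : Subgroup (G ⧸ H)) := by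
    refine le_antisymm (Subgroup.map_le_iff_le_comap.2 hP.le) ?_
    have h1 : ((S : Subgroup (G ⧸ H)) ⊓ (T : Subgroup (G ⧸ H))).comap f ≤ (P.map f).comap f := by
      refine le_of_sylIn_of_odd hP (Subgroup.le_comap_map _ _) fun x hx ho => ?_
      obtain ⟨k, hk⟩ := (S.2.to_le inf_le_left : IsPGroup 2 ↥((S : Subgroup (G ⧸ H)) ⊓ (T : Subgroup (G ⧸ H)))) ⟨f x, hx⟩
      have h2 : f x ^ 2 ^ k = 1 := congrArg Subtype.val hk
      have h3 : orderOf (f x) = 1 := Nat.eq_one_of_dvd_coprimes (Nat.Coprime.pow_left k (Nat.coprime_two_left.2 ho))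
        (orderOf_dvd_of_pow_eq_one h2) (orderOf_map_dvd f x)
      rw [Subgroup.mem_comap, orderOf_eq_one_iff.1 h3]; exact Subgroup.one_mem _
    intro y hy
    obtain ⟨x, rfl⟩ := hs y
    exact h1 hy
  rw [← hmap]
  exact isCyclic_of_surjective _ (f.subgroupMap_surjective P)

end Cfsg.Agent.S3305
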