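import Cfsg.Statements.S3303
import Cfsg.Agent.H11.Fus
import Cfsg.Agent.H11.Klein
import Cfsg.Agent.H1.Cores
import Cfsg.Agent.S3305

set_option autoImplicit false
open Cfsg

namespace Cfsg.Agent.S3303

open Cfsg.Agent.H11

theorem aux {Q : Type*} [Group Q] [Finite Q] (hs : Group.IsSolvable Q) (hO : Cfsg.pPrimeCore 2 Q = ⊥)
    (hC : ∀ S T : Sylow 2 Q, S ≠ T → IsCyclic ↥((S : Subgroup Q) ⊓ (T : Subgroup Q))) :
    ∃ P : Sylow 2 Q, (P : Subgroup Q).Normal := by
  obtain ⟨P⟩ : Nonempty (Sylow 2 Q) := inferInstance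
  refine ⟨P, ?_⟩
  by_contra hn
  obtain ⟨g, hg⟩ : ∃ g : Q, g • P ≠ P := by
    by_contra hcon
    push Not at hcon
    exact hn (Subgroup.normalizer_eq_top_iff.1 (eq_top_iff.2 fun g _ => Sylow.smul_eq_iff_mem_normalizer.1 (hcon g)))
  haveI := hC _ _ hg
  have hc : IsCyclic (Cfsg.pCore 2 Q) :=
    Subgroup.isCyclic_of_le (le_inf (H1.pCore_le_sylow (g • P)) (H1.pCore_le_sylow P))
  obtain ⟨a, ha⟩ := (Subgroup.isCyclic_iff_exists_zpowers_eq_top _).1 hc
  have hcent := H1.centralizer_pCore_le_of_isSolvable hs hO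
  obtain ⟨k, hk⟩ := (IsPGroup.iff_orderOf.1 (H1.isPGroup_pCore 2 Q)) ⟨a, ha ▸ Subgroup.mem_zpowers a⟩
  rw [Subgroup.orderOf_mk] at hk
  have htop : (⊤ : Subgroup Q) ≤ P := by
    refine le_of_sylIn_of_odd (isSylIn_top P) le_rfl fun x _ hx => H1.pCore_le_sylow P (hcent ?_)
    have h1 : x * a = a * x := commute_of_odd_of_zpowers hx hk
      (ha ▸ (inferInstance : (Cfsg.pCore 2 Q).Normal).conj_mem a (ha ▸ Subgroup.mem_zpowers a) x)
    rw [← ha]
    rintro _ ⟨j, rfl⟩
    exact ((Commute.zpow_right h1 j).eq).symm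
  exact hn (by rw [top_le_iff.1 htop]; infer_instance)

/-- Let G be a finite solvable group in which the intersection of any two distinct Sylow 2-subgroups is cyclic. Then G/O(G) has a normal Sylow 2-subgroup, where O(G) is the largest normal subgroup of odd order. -/
theorem result {G : Type*} [Group G] [Finite G] (hs : Group.IsSolvable G)
    (hC : ∀ S T : Sylow 2 G, S ≠ T → IsCyclic ↥((S : Subgroup G) ⊓ (T : Subgroup G))) :
    ∃ P : Sylow 2 (G ⧸ Cfsg.oddCore G), (P : Subgroup (G ⧸ Cfsg.oddCore G)).Normal := by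
  haveI := hs
  exact aux inferInstance (H1.pPrimeCore_quotient_pPrimeCore 2) (S3305.result hC (Cfsg.oddCore G))

end Cfsg.Agent.S3303
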