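import Cfsg.Statements.S3307
import Cfsg.Agent.GW.Cor2

set_option autoImplicit false
open Cfsg

namespace Cfsg.Agent.S3307

open Subgroup Cfsg.Agent.GW Cfsg.Agent.H10
open Cfsg.Agent.H11 (cj IsSylIn)
open scoped MatrixGroups

theorem sylow_eq {Q : Type*} [Group Q] [Finite Q] (h : CD (⊤ : Subgroup Q)) {L V S : Subgroup Q}
    (h1 : OneCl L) (hV : IsKleinFour V) (hVL : V ≤ L) (hS : IsSylIn 2 S ⊤) (hVS : V ≤ S)
    (hu : ∀ T, IsSylIn 2 T ⊤ → V ≤ T → T = S) : S = V := by
  obtain ⟨a, haS, ha, hc⟩ := exists_central_invol hS.pg fun e => by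
    have := hV.card_four
    rw [le_bot_iff.1 (hVS.trans e.le), card_bot] at this
    omega
  have haV := h.invol_mem_of_cent hV le_top trivial ha fun v hv => (hc v (hVS hv)).symm
  have ha1 := H11.ne_one_of_orderOf_two ha
  obtain ⟨b, hb, hb1, hab⟩ := H11.klein_exists_other hV a
  obtain ⟨g, -, h2, h3⟩ := (h.mono le_top).exists_cyc3 h1 hV hVL haV hb ha1 hb1 hab.symm
  have e := H11.klein_eq_closure hV haV hb ha1 hb1 hab.symm
  have h4 : b ∈ cj g S := h2 ▸ H11.conj_mem_map_conj g haS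
  have h5 : cj g S = S := hu _ (hS.cj_of_mem ((normalizer_eq_top ⊤).ge trivial))
    (e.le.trans (closure_pair_le (by
      simpa using mul_mem (h3 ▸ H11.conj_mem_map_conj g (hVS hb) : a * b ∈ cj g S) (inv_mem h4)) h4))
  refine le_antisymm (fun s hs => h.mem_of_cent' le_top hS.pg hV hVS hs fun v hv => ?_) hVS
  have h6 := hc _ (H11.mem_cj.1 (h5.ge hs))
  refine H11.mem_cent1.1 ((e.le.trans (closure_pair_le (K := centralizer {s}) ?_ ?_)) hv) |>.symm
  · exact H11.mem_cent1.2 (hc s hs).symm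
  · rw [H11.mem_cent1, ← h2]
    calc g * a * g⁻¹ * s = g * (a * (g⁻¹ * s * g)) * g⁻¹ := by group
      _ = s * (g * a * g⁻¹) := by rw [← h6]; group

theorem lift {G Q : Type*} [Group G] [Finite G] [Group Q] [Finite Q] {f : G →* Q}
    (hf : Function.Surjective f) {W : Subgroup G} (hW : IsPGroup 2 W) {T : Subgroup Q}
    (hT : IsSylIn 2 T ⊤) (h : W.map f ≤ T) :
    ∃ P : Sylow 2 G, W ≤ P ∧ (P : Subgroup G).map f = T := by
  obtain ⟨R, h1, h2⟩ := H11.exists_isSylIn_le hW (map_le_iff_le_comap.1 h)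
  obtain ⟨P, hP⟩ := h1.pg.exists_le_sylow
  have h3 := sylIn_map h1 f
  rw [map_comap_eq_self_of_surjective hf] at h3
  exact ⟨P, h2.trans hP, hT.eq (P.2.map f) ((h3.eq hT.pg h3.le le_rfl).le.trans (map_mono hP)) le_top⟩

theorem arith {q m : ℕ} (hq : Odd q) (hm : Odd m) (h : 2 * (4 * m) = q * (q ^ 2 - 1)) :
    q % 8 = 3 ∨ q % 8 = 5 := by
  obtain ⟨m, rfl⟩ := hm
  have h1 : 1 ≤ q ^ 2 := Nat.one_le_pow _ _ hq.pos
  have h2 : q ^ 3 % 16 = (q + 8) % 16 := by
    have : q ^ 3 = 16 * m + (q + 8) := by zify [h1] at h ⊢; linear_combination -h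
    omega
  have h3 := Nat.mod_lt q (by decide : 0 < 16)
  rw [Nat.pow_mod, Nat.add_mod] at h2
  have h4 := Nat.odd_iff.1 hq
  have h5 : q % 16 % 2 = 1 := by omega
  have h6 : q % 8 = q % 16 % 8 := by omega
  rw [h6]
  generalize q % 16 = r at *
  interval_cases r <;> simp_all

/-- Let G be a finite nonsolvable group whose Sylow 2-subgroups are generalized quaternion and in which any two distinct Sylow 2-subgroups intersect in a cyclic group. Then the Sylow 2-subgroups are quaternion of order 8, and G has a normal subgroup G₁ of odd index containing O(G) (the largest normal subgroup of odd order) with G₁/O(G) isomorphic to SL(2,q) for some prime power q > 3 with q ≡ 3 or 5 mod 8. -/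
theorem result {G : Type*} [Group G] [Finite G] (hns : ¬ Group.IsSolvable G)
    (hQ : ∀ S : Sylow 2 G, ∃ n : ℕ, Nonempty (↥(S : Subgroup G) ≃* QuaternionGroup (2 ^ (n + 1))))
    (hC : ∀ S T : Sylow 2 G, S ≠ T → IsCyclic ↥((S : Subgroup G) ⊓ (T : Subgroup G))) :
    (∀ S : Sylow 2 G, Nonempty (↥(S : Subgroup G) ≃* QuaternionGroup 2)) ∧
    ∃ (G₁ : Subgroup G) (_ : G₁.Normal) (_ : ((Cfsg.oddCore G).subgroupOf G₁).Normal),
      Odd G₁.index ∧ Cfsg.oddCore G ≤ G₁ ∧
      ∃ (F : Type) (_ : Field F) (_ : Fintype F), (Fintype.card F % 8 = 3 ∨ Fintype.card F % 8 = 5) ∧ 3 < Fintype.card F ∧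
        Nonempty (↥G₁ ⧸ (Cfsg.oddCore G).subgroupOf G₁ ≃* Matrix.SpecialLinearGroup (Fin 2) F) := by
  have hK' := no_klein_quot (no_klein_of_quat fun P => (hQ P).elim fun _ h => ⟨_, h⟩)
  obtain ⟨z, _, hz, hc, h1, h2⟩ := rank_one hK' (pPrimeCore_quotient_pPrimeCore 2 G)
    (even_quot (Nat.not_odd_iff_even.1 fun h => hns (FT.solvable_of_odd h)))
  set π := QuotientGroup.mk' (oddCore G)
  set ρ := QuotientGroup.mk' (zpowers z)
  have hπ : Function.Surjective π := QuotientGroup.mk'_surjective _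
  have hρ : Function.Surjective ρ := QuotientGroup.mk'_surjective _
  have hf : Function.Surjective (ρ.comp π) := hρ.comp hπ
  have key : ∀ L : Subgroup ((G ⧸ oddCore G) ⧸ zpowers z), commutator L = ⊤ → Nontrivial L →
      ∃ V ≤ L, IsKleinFour V ∧ IsSylIn 2 V ⊤ := fun L hp _ => by
    obtain ⟨V, -, hV⟩ := (h1.mono le_top : CD L).top.exists_klein
      (mt (isSolvable_congr topEquiv).1 (not_solvable_of_perfect hp))
    have h4 := (ds_of_cd (h1.mono le_top : CD L).top hV).oneCl (index_ne_two_of_perfect hp)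
    have h5 := H11.isKleinFour_map_subtype hV
    obtain ⟨S, hS, hVS⟩ := H11.exists_isSylIn_le (H11.klein_isPGroup h5) le_top
    obtain ⟨W, -, hW, e⟩ := exists_pgroup_map_eq (X := ⊤) (ρ.comp π)
      (le_top.trans (map_top_of_surjective _ hf).ge) (H11.klein_isPGroup h5)
    refine ⟨_, map_subtype_le V, h5, sylow_eq h1 (fun a ha b hb ha2 hb2 => ?_) h5
      (map_subtype_le V) hS hVS (fun T hT hVT => ?_) ▸ hS⟩
    · obtain ⟨x, -, hx⟩ := h4 ⟨a, ha⟩ trivial ⟨b, hb⟩ trivial ((orderOf_mk _ _).trans ha2)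
        ((orderOf_mk _ _).trans hb2)
      exact ⟨x, x.2, congrArg Subtype.val hx⟩
    obtain ⟨P, h6, rfl⟩ := lift hf hW hS (e ▸ hVS)
    obtain ⟨R, h7, rfl⟩ := lift hf hW hT (e ▸ hVT)
    by_contra h8
    haveI := hC R P fun e => h8 (e ▸ rfl)
    haveI : IsCyclic W := isCyclic_of_le (le_inf h7 h6)
    exact klein_not_cyclic h5 (e ▸ isCyclic_of_surjective _ ((ρ.comp π).subgroupMap_surjective W))
  rcases cd_cases' h1 h2 (mt solvable_of_quot hns) with ⟨F, _, _, φ, h4, h5, h6, h7⟩ | ⟨⟨e⟩⟩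
  swap
  · haveI := e.toEquiv.nontrivial
    obtain ⟨V, -, hV, hS⟩ := key ⊤ (perfect_of_surj (perfect_of_simple A7_ncomm)
      (topEquiv.trans e).symm.toMonoidHom (topEquiv.trans e).symm.surjective) inferInstance
    have := hS.card_eq_pow
    rw [hV.card_four, card_top, Nat.card_congr e.toEquiv, card_A7] at this
    exact absurd this (by decide +kernel)
  obtain ⟨e⟩ := nonempty_comap_Li h6 h7
  haveI := psl_simple h5
  obtain ⟨V, hVL, hV, hS⟩ := key _ (perfect_of_surj (psl_perfect h5) e.symm.toMonoidHom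
    e.symm.surjective) e.toEquiv.nontrivial
  obtain ⟨e'⟩ := sl2_of_comap hK' hz hc hρ (QuotientGroup.ker_mk' _) h4 h5 e
  refine ⟨fun S => ?_, (((Li F).comap φ).comap ρ).comap π, inferInstance, inferInstance, ?_,
    (QuotientGroup.ker_mk' _).ge.trans (ker_le_comap π _), F, ‹_›, ‹_›, ?_, h5, ⟨?_⟩⟩
  · obtain ⟨n, ⟨e⟩⟩ := hQ S
    have h8 := sylIn_map (H11.isSylIn_top S) π
    rw [map_top_of_surjective π hπ] at h8
    have h9 := sylIn_map h8 ρ
    rw [map_top_of_surjective ρ hρ] at h9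
    have h10 := card_map_mul_card_inf_ker ρ ((S : Subgroup G).map π)
    have h11 := card_map_mul_card_inf_ker π S
    have h12 : Nat.card ↥((S : Subgroup G).map π ⊓ ρ.ker) ≤ 2 :=
      (card_le_of_le (inf_le_right.trans (QuotientGroup.ker_mk' _).le)).trans
        (by rw [Nat.card_zpowers, hz])
    rw [QuotientGroup.ker_mk', disjoint_of_isPGroup_of_coprime S.2 (odd_iff_coprime.1 odd_oddCore),
      card_bot, Nat.card_congr e.toEquiv, Nat.card_eq_fintype_card (α := QuaternionGroup _),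
      QuaternionGroup.card] at h11
    rw [h9.card_eq hS, hV.card_four] at h10
    obtain rfl : n = 0 := by
      by_contra h
      have : 2 ^ 2 ≤ 2 ^ (n + 1) := Nat.pow_le_pow_right two_pos (by omega)
      omega
    exact ⟨e⟩
  · rw [index_comap_of_surjective _ hπ, index_comap_of_surjective _ hρ]
    refine Odd.of_dvd_nat (Nat.not_even_iff_odd.1 fun h => hS.not_dvd_relIndex h.two_dvd) ?_
    rw [relIndex_top_right]
    exact index_dvd_of_le hVL
  · have h8 := H12.card_PSL2 (F := F) rfl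
    have h9 := H11.card_mul_relIndex hVL
    obtain ⟨k, hk⟩ := id h4
    rw [show Nat.gcd 2 (Fintype.card F - 1) = 2 from Nat.gcd_eq_left ⟨k, by omega⟩,
      ← Nat.card_congr e.toEquiv, ← h9, hV.card_four] at h8
    exact arith h4 (Nat.not_even_iff_odd.1 fun h =>
      (hS.of_le hVL le_top).not_dvd_relIndex h.two_dvd) h8
  · refine ((QuotientGroup.quotientMulEquivOfEq ?_).trans (QuotientGroup.quotientKerEquivOfSurjective
      _ (π.subgroupComap_surjective_of_surjective _ hπ))).trans e'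
    ext x
    exact (Subtype.ext_iff.trans (QuotientGroup.eq_one_iff (x : G))).symm

end Cfsg.Agent.S3307
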