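import Cfsg.Statements.S3309
import Cfsg.Agent.H11.Fus
import Cfsg.Agent.H11.Klein
import Cfsg.Agent.H11.Count
import Cfsg.Agent.H11.Z2n

set_option autoImplicit false
open Cfsg

namespace Cfsg.Agent.S3309

open Cfsg.Agent.H11

abbrev K := Multiplicative (ZMod 2) × DihedralGroup 4

def z : K := (1, DihedralGroup.r 2)
def c : K := (Multiplicative.ofAdd 1, 1)
def b (i : ZMod 4) : K := (1, DihedralGroup.sr i)
def al (k : K) : ZMod 2 := Multiplicative.toAdd k.1
def be (k : K) : ZMod 2 := match k.2 with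
  | DihedralGroup.r _ => 0
  | DihedralGroup.sr _ => 1
def ga (k : K) : ZMod 2 := match k.2 with
  | DihedralGroup.r i => (i.val : ZMod 2)
  | DihedralGroup.sr i => (i.val : ZMod 2)
def ch (s t : ZMod 2) (k : K) : ZMod 2 := al k + s * be k + t * ga k

theorem ch_mul : ∀ s t : ZMod 2, ∀ x y : K, ch s t (x * y) = ch s t x + ch s t y := by decide +kernel
theorem ch_c : ∀ s t : ZMod 2, ch s t c ≠ 0 ∧ ch s t 1 = 0 ∧ ∀ x, (ch s t x = 0 ∨ ch s t (x * c) = 0) ∧ ch s t x⁻¹ = ch s t x := by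
  decide +kernel
theorem invs : ∀ v : K, v * v = 1 → v ≠ 1 → v = z ∨ v = c ∨ v = c * z ∨
    (v = b 0 ∨ v = b 0 * z) ∨ (v = c * b 0 ∨ v = c * b 0 * z) ∨ (v = b 1 ∨ v = b 1 * z) ∨
      (v = c * b 1 ∨ v = c * b 1 * z) := by decide +kernel
theorem sq : ∀ v : K, v * v = 1 ∨ v * v = z := by decide +kernel
theorem cen : ∀ v : K, v * z = z * v ∧ v * c = c * v := by decide +kernel
theorem cjz : ∀ i : ZMod 4, (1, DihedralGroup.r 1) * b i * (1, DihedralGroup.r 1)⁻¹ = b i * z ∧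
    (1, DihedralGroup.r 1) * (c * b i) * (1, DihedralGroup.r 1)⁻¹ = c * b i * z := by decide +kernel

def M (s t : ZMod 2) : Subgroup K where
  carrier := {k | ch s t k = 0}
  one_mem' := (ch_c s t).2.1
  mul_mem' := fun {x y} hx hy => by
    show ch s t (x * y) = 0
    rw [ch_mul, hx, hy, add_zero]
  inv_mem' := fun {x} hx => by
    show ch s t x⁻¹ = 0
    rw [((ch_c s t).2.2 x).2]; exact hx

/-- A finite group whose Sylow 2-subgroups are isomorphic to the direct product of a group of order 2 and the dihedral group of order 8 is not a non-abelian simple group. -/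
theorem result {G : Type*} [Group G] [Finite G] (S : Sylow 2 G) (hS : Nonempty (↥(S : Subgroup G) ≃* Multiplicative (ZMod 2) × DihedralGroup 4))
    [IsSimpleGroup G] (hG : ¬ IsMulCommutative G) : False := by
  obtain ⟨e⟩ := hS
  let φ : K →* G := (S : Subgroup G).subtype.comp e.symm.toMonoidHom
  have hinj : Function.Injective φ := (S : Subgroup G).subtype_injective.comp e.symm.injective
  have hmem : ∀ k, φ k ∈ (S : Subgroup G) := fun k => (e.symm k).2
  have hsur : ∀ s ∈ (S : Subgroup G), ∃ k, φ k = s := fun s hs => ⟨e ⟨s, hs⟩, by simp [φ]⟩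
  have hno : ∀ H : Subgroup G, H.index ≠ 2 := no_index_two_of_simple (by
    intro h
    haveI : Fact (Nat.Prime 2) := ⟨Nat.prime_two⟩
    haveI := isCyclic_of_prime_card h
    exact hG inferInstance)
  have hcen : ∀ k : K, (∀ v, v * k = k * v) → ∀ s ∈ (S : Subgroup G), s * φ k = φ k * s := by
    intro k hk s hs
    obtain ⟨v, rfl⟩ := hsur s hs
    rw [← map_mul, ← map_mul, hk]
  have hz := fun v => (cen v).1
  have hc := fun v => (cen v).2
  have hcz : ∀ v : K, v * (c * z) = (c * z) * v := fun v => by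
    rw [← mul_assoc, hc, mul_assoc, hz, mul_assoc]
  have hNz : ∀ n ∈ Subgroup.normalizer ((S : Subgroup G) : Set G), n * φ z * n⁻¹ = φ z := by
    intro n hn
    obtain ⟨v, hv⟩ := hsur _ (conj_mem_of_mem_normalizer hn (hmem (1, DihedralGroup.r 1)))
    have h1 : n * φ z * n⁻¹ = φ (v * v) := by
      rw [map_mul, hv, conj_mul, ← map_mul]; rfl
    rcases sq v with h | h
    · rw [h, map_one, conj_eq_one_iff, map_eq_one_iff _ hinj] at h1
      exact absurd h1 (by decide)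
    · rw [h1, h]
  have hB : ∀ u v : K, (∀ w, w * u = u * w) → (∀ w, w * v = v * w) → IsConj (φ u) (φ v) →
      ∃ n ∈ Subgroup.normalizer ((S : Subgroup G) : Set G), n * φ u * n⁻¹ = φ v := by
    intro u v hu hv h
    obtain ⟨g, hg⟩ := isConj_iff.1 h
    obtain ⟨n, -, hn, h⟩ := (isSylIn_top S).exists_normalizer_conj (x := φ u) (g := g) trivial
      (hcen u hu) (hg ▸ hcen v hv)
    exact ⟨n, hn, h.trans hg⟩
  have n1 : ¬ IsConj (φ z) (φ c) := fun h => by
    obtain ⟨n, hn, h⟩ := hB z c hz hc h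
    exact absurd (hinj ((hNz n hn).symm.trans h)) (by decide)
  have n2 : ¬ IsConj (φ z) (φ (c * z)) := fun h => by
    obtain ⟨n, hn, h⟩ := hB z _ hz hcz h
    exact absurd (hinj ((hNz n hn).symm.trans h)) (by decide)
  have n3 : ¬ IsConj (φ c) (φ (c * z)) := fun h => by
    obtain ⟨n, hn, h⟩ := hB c _ hc hcz h
    have h2 : n * φ (c * z) * n⁻¹ = φ c := by
      rw [map_mul, ← conj_mul, h, hNz n hn, ← map_mul]; rfl
    obtain ⟨m, k, hm, hk⟩ := exists_pow_two_part n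
    have h3 := odd_pow_swap h h2 hm
    have h4 := (isSylIn_top S).mem_of_normalizes hk trivial (Subgroup.pow_mem _ hn m)
    rw [hcen c hc _ h4, mul_inv_cancel_right] at h3
    exact absurd (hinj h3) (by decide)
  have r1 : ∀ i, IsConj (φ (b i)) (φ (b i * z)) := fun i =>
    φ.map_isConj (isConj_iff.2 ⟨_, (cjz i).1⟩)
  have r2 : ∀ i, IsConj (φ (c * b i)) (φ (c * b i * z)) := fun i =>
    φ.map_isConj (isConj_iff.2 ⟨_, (cjz i).2⟩)
  have hT : ∀ s t : ZMod 2, ∀ u : K, u * u = 1 → u ≠ 1 →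
      ∃ v : K, ch s t v = 0 ∧ v * v = 1 ∧ v ≠ 1 ∧ IsConj (φ u) (φ v) := by
    intro s t u hu hu1
    have h2 : ((M s t).map φ).relIndex S = 2 := by
      refine relIndex_eq_two_of (hmem c) (fun h => ?_) fun x hx => ?_
      · exact (ch_c s t).1 ((Subgroup.mem_map_iff_mem hinj).1 h)
      · obtain ⟨v, rfl⟩ := hsur x hx
        rw [← map_mul, Subgroup.mem_map_iff_mem hinj, Subgroup.mem_map_iff_mem hinj]
        exact ((ch_c s t).2.2 v).1
    obtain ⟨g, v, hv, hg⟩ := thompson_transfer_sylow hno S (T := (M s t).map φ)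
      (by rintro _ ⟨v, -, rfl⟩; exact hmem v) h2 (u := φ u) (by rw [← map_mul, hu, map_one])
    refine ⟨v, hv, hinj ?_, ?_, isConj_iff.2 ⟨g, hg.symm⟩⟩
    · rw [map_mul, hg, conj_mul, ← map_mul, hu]; simp
    · rintro rfl
      rw [map_one, eq_comm, conj_eq_one_iff, map_eq_one_iff _ hinj] at hg
      exact hu1 hg
  have hF : ∀ w : K, w * w = 1 → w ≠ 1 → ¬ IsConj (φ z) (φ w) → (w = c ∨ w = c * z) →
      (IsConj (φ w) (φ (b 0)) ∧ IsConj (φ w) (φ (c * b 0))) ∨
      (IsConj (φ w) (φ (b 1)) ∧ IsConj (φ w) (φ (c * b 1))) := by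
    intro w hw hw1 hzw hwc
    have key : ∀ s t : ZMod 2, (ch s t (b 0) = 0 ∧ IsConj (φ w) (φ (b 0))) ∨
        (ch s t (c * b 0) = 0 ∧ IsConj (φ w) (φ (c * b 0))) ∨ (ch s t (b 1) = 0 ∧ IsConj (φ w) (φ (b 1))) ∨
        (ch s t (c * b 1) = 0 ∧ IsConj (φ w) (φ (c * b 1))) := by
      intro s t
      have hzz : ch s t z = 0 := by revert s t; decide
      obtain ⟨v, h1, h2, h3, h4⟩ := hT s t w hw hw1
      rcases invs v h2 h3 with rfl | rfl | rfl | (rfl | rfl) | (rfl | rfl) | (rfl | rfl) | (rfl | rfl)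
      · exact absurd h4.symm hzw
      · exact absurd h1 (ch_c s t).1
      · rw [ch_mul, hzz, add_zero] at h1; exact absurd h1 (ch_c s t).1
      · exact Or.inl ⟨h1, h4⟩
      · rw [ch_mul, hzz, add_zero] at h1; exact Or.inl ⟨h1, h4.trans (r1 0).symm⟩
      · exact Or.inr (Or.inl ⟨h1, h4⟩)
      · rw [ch_mul, hzz, add_zero] at h1; exact Or.inr (Or.inl ⟨h1, h4.trans (r2 0).symm⟩)
      · exact Or.inr (Or.inr (Or.inl ⟨h1, h4⟩))
      · rw [ch_mul, hzz, add_zero] at h1; exact Or.inr (Or.inr (Or.inl ⟨h1, h4.trans (r1 1).symm⟩))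
      · exact Or.inr (Or.inr (Or.inr ⟨h1, h4⟩))
      · rw [ch_mul, hzz, add_zero] at h1; exact Or.inr (Or.inr (Or.inr ⟨h1, h4.trans (r2 1).symm⟩))
    have k1 := key 0 0
    have k2 := key 1 0
    have k3 := key 0 1
    have k4 := key 1 1
    simp only [show ¬ ch 0 0 (c * b 0) = 0 by decide, show ¬ ch 0 0 (c * b 1) = 0 by decide,
      show ¬ ch 1 0 (b 0) = 0 by decide, show ¬ ch 1 0 (b 1) = 0 by decide,
      show ¬ ch 0 1 (c * b 0) = 0 by decide, show ¬ ch 0 1 (b 1) = 0 by decide,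
      show ¬ ch 1 1 (b 0) = 0 by decide, show ¬ ch 1 1 (c * b 1) = 0 by decide,
      false_and, false_or, or_false] at k1 k2 k3 k4
    tauto
  have hmain : ∀ w w' : K, ∀ i j : ZMod 4, (∀ v, v * w = w * v) → w * w = 1 → w ≠ 1 → w' = w * z → b i ≠ w →
      (∀ v : K, v * v = 1 → v ≠ 1 → v = z ∨ v = w ∨ v = w' ∨
        (v = b i ∨ v = b i * z) ∨ (v = c * b i ∨ v = c * b i * z) ∨ (v = b j ∨ v = b j * z) ∨
          (v = c * b j ∨ v = c * b j * z)) →
      ¬ IsConj (φ z) (φ w) → ¬ IsConj (φ z) (φ w') → ¬ IsConj (φ w) (φ w') →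
      IsConj (φ w) (φ (b i)) → IsConj (φ w) (φ (c * b i)) → IsConj (φ w') (φ (b j)) →
      IsConj (φ w') (φ (c * b j)) → False := by
    intro w w' i j hwc hww hw1 hw' hbw hcl m1 m2 m3 p1 p2 p3 p4
    have hSyl : IsSylIn 2 (S : Subgroup G) (Subgroup.centralizer {φ w}) :=
      isSylIn_of_sylow_le S fun s hs => mem_cent1.2 (hcen w hwc s hs)
    obtain ⟨g, hg1, hg2⟩ := exists_conj_cent_le hSyl p1.symm
      (R := (S : Subgroup G) ⊓ Subgroup.centralizer {φ (b i)}) (S.2.to_le inf_le_left) inf_le_right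
    obtain ⟨u, hu⟩ := hsur _ (cj_le_iff.1 hg2 (φ z) ⟨hmem z, mem_cent1.2 (by rw [← map_mul, ← map_mul, hz])⟩)
    obtain ⟨v, hv⟩ := hsur _ (cj_le_iff.1 hg2 (φ w) ⟨hmem w, mem_cent1.2 (by rw [← map_mul, ← map_mul, hwc])⟩)
    have q1 : IsConj (φ z) (φ u) := isConj_iff.2 ⟨g, hu.symm⟩
    have q2 : IsConj (φ w) (φ v) := isConj_iff.2 ⟨g, hv.symm⟩
    have hinv : ∀ x y : K, x * x = 1 → x ≠ 1 → φ y = g * φ x * g⁻¹ → y * y = 1 ∧ y ≠ 1 := by
      intro x y h1 h2 h3
      refine ⟨hinj (by rw [map_mul, h3, conj_mul, ← map_mul, h1]; simp), ?_⟩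
      rintro rfl
      rw [map_one, eq_comm, conj_eq_one_iff, map_eq_one_iff _ hinj] at h3
      exact h2 h3
    have hcls : ∀ y : K, y * y = 1 → y ≠ 1 → y = z ∨ y = w ∨ IsConj (φ w') (φ y) ∨
        (IsConj (φ w) (φ y) ∧ IsConj (φ w) (φ (y * z))) := by
      intro y h1 h2
      have hzz : ∀ x : K, x * z * z = x := fun x => by rw [mul_assoc, show z * z = 1 by decide, mul_one]
      rcases hcl y h1 h2 with rfl | rfl | rfl | (rfl | rfl) | (rfl | rfl) | (rfl | rfl) | (rfl | rfl)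
      · exact Or.inl rfl
      · exact Or.inr (Or.inl rfl)
      · exact Or.inr (Or.inr (Or.inl (IsConj.refl _)))
      · exact Or.inr (Or.inr (Or.inr ⟨p1, p1.trans (r1 i)⟩))
      · exact Or.inr (Or.inr (Or.inr ⟨p1.trans (r1 i), by rw [hzz]; exact p1⟩))
      · exact Or.inr (Or.inr (Or.inr ⟨p2, p2.trans (r2 i)⟩))
      · exact Or.inr (Or.inr (Or.inr ⟨p2.trans (r2 i), by rw [hzz]; exact p2⟩))
      · exact Or.inr (Or.inr (Or.inl p3))
      · exact Or.inr (Or.inr (Or.inl (p3.trans (r1 j))))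
      · exact Or.inr (Or.inr (Or.inl p4))
      · exact Or.inr (Or.inr (Or.inl (p4.trans (r2 j))))
    obtain ⟨u1, u2⟩ := hinv z u (by decide) (by decide) hu
    obtain ⟨v1, v2⟩ := hinv w v hww hw1 hv
    have huz : u = z := by
      rcases hcls u u1 u2 with h | h | h | h
      · exact h
      · exact absurd (h ▸ q1) m1
      · exact absurd (q1.trans h.symm) m2
      · exact absurd (q1.trans h.1.symm) m1
    rcases hcls v v1 v2 with h | h | h | h
    · exact m1 (h ▸ q2).symm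
    · rw [h] at hv
      exact hbw (hinj (by simpa using hg1.trans hv))
    · exact m3 (q2.trans h.symm)
    · refine m3 (h.2.trans (isConj_iff.2 ⟨g, ?_⟩).symm)
      rw [hw', map_mul, map_mul, ← conj_mul, ← hv, ← hu, huz]
  rcases hF c (by decide) (by decide) n1 (Or.inl rfl) with h | h <;>
    rcases hF (c * z) (by decide) (by decide) n2 (Or.inr rfl) with h' | h'
  · exact n3 (h.1.trans h'.1.symm)
  · exact hmain c (c * z) 0 1 hc (by decide) (by decide) rfl (by decide) invs n1 n2 n3 h.1 h.2 h'.1 h'.2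
  · refine hmain c (c * z) 1 0 hc (by decide) (by decide) rfl (by decide) (fun v h1 h2 => ?_) n1 n2 n3 h.1 h.2 h'.1 h'.2
    have := invs v h1 h2
    tauto
  · exact n3 (h.1.trans h'.1.symm)

end Cfsg.Agent.S3309
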