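import Cfsg.Statements.S3315
import Cfsg.Agent.H11.U3Aut

set_option autoImplicit false
open Cfsg

namespace Cfsg.Agent.S3315

/-- Let S be a Sylow 2-subgroup of SU₃(2ⁿ), n ≥ 2 (realised over the field with 4ⁿ elements). If a finite 2-group R contains a subgroup S' of index 2 isomorphic to S, then the centre of S' is contained in the centre of R. -/
theorem result {R : Type*} [Group R] [Finite R]
    (hR : IsPGroup 2 R) (n : ℕ) (hn : 2 ≤ n) {F : Type*} [Field F] [Fintype F] (hF : Fintype.card F = 4 ^ n)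
    (P : Sylow 2 ↥(Cfsg.SU 3 F (2 ^ n))) (S' : Subgroup R) (hS : Nonempty (↥S' ≃* ↥(P : Subgroup ↥(Cfsg.SU 3 F (2 ^ n)))))
    (hidx : S'.index = 2) :
    (Subgroup.center ↥S').map S'.subtype ≤ Subgroup.center R := by
  have hE : Fintype.card F = (2 ^ n) ^ 2 := by rw [hF, ← pow_mul, mul_comm, pow_mul]; rfl
  obtain ⟨X, Y, h⟩ := H11.exists_uc_SU hE (Nat.even_pow.2 ⟨even_two, by omega⟩) P
  obtain ⟨e⟩ := hS
  have h' := h.comp e
  haveI := S'.normal_of_index_eq_two hidx
  rintro _ ⟨z, hz, rfl⟩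
  refine Subgroup.mem_center_iff.2 fun r => mul_inv_eq_iff_eq_mul.1 (congrArg Subtype.val
    (h'.fix_center (φ := MulAut.conjNormal r) (fun p => ?_) (h'.mem_center.1 hz)))
  have : MulAut.conjNormal r (MulAut.conjNormal r p) =
      ⟨r * r, S'.mul_self_mem_of_index_two hidx r⟩ * p * (⟨r * r, S'.mul_self_mem_of_index_two hidx r⟩)⁻¹ :=
    Subtype.ext (by simp [mul_assoc])
  rw [this, h'.addX, h'.addX, h'.X_inv, add_right_comm, h'.cj.add_self, zero_add]

end Cfsg.Agent.S3315
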