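import Cfsg.Statements.S3335
import Cfsg.Agent.H5.Pres

set_option autoImplicit false
open Cfsg

namespace Cfsg.Agent.S3335

/-- A presentation of the alternating group of degree n ≥ 3 on generators x_1, …, x_{n−2} (indexed here by 0, …, n−3): the first generator cubes to 1, every other generator squares to 1, the product of two consecutive generators has order dividing 3, and the product of two generators at distance at least 2 has order dividing 2. The group so presented is isomorphic to the alternating group of degree n. -/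
theorem result (n : ℕ) (hn : 3 ≤ n) :
    Nonempty (PresentedGroup
      ({g : FreeGroup (Fin (n - 2)) | ∃ i : Fin (n - 2), i.val = 0 ∧ g = FreeGroup.of i ^ 3} ∪
       {g | ∃ i : Fin (n - 2), 1 ≤ i.val ∧ g = FreeGroup.of i ^ 2} ∪
       {g | ∃ i j : Fin (n - 2), j.val = i.val + 1 ∧ g = (FreeGroup.of i * FreeGroup.of j) ^ 3} ∪
       {g | ∃ i j : Fin (n - 2), i.val + 1 < j.val ∧ g = (FreeGroup.of i * FreeGroup.of j) ^ 2})
      ≃* alternatingGroup (Fin n)) := by
  obtain ⟨m, rfl⟩ : ∃ m, n = m + 2 := ⟨n - 2, by omega⟩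
  generalize hR : ({g : FreeGroup (Fin (m + 2 - 2)) | ∃ i : Fin (m + 2 - 2), i.val = 0 ∧ g = FreeGroup.of i ^ 3} ∪
       {g | ∃ i : Fin (m + 2 - 2), 1 ≤ i.val ∧ g = FreeGroup.of i ^ 2} ∪
       {g | ∃ i j : Fin (m + 2 - 2), j.val = i.val + 1 ∧ g = (FreeGroup.of i * FreeGroup.of j) ^ 3} ∪
       {g | ∃ i j : Fin (m + 2 - 2), i.val + 1 < j.val ∧ g = (FreeGroup.of i * FreeGroup.of j) ^ 2}) = R
  have h1 : ∀ r ∈ R, FreeGroup.lift (fun i : Fin (m + 2 - 2) => H5.agen (n := m) i) r = 1 := by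
    rw [← hR]
    rintro _ (((⟨i, hi, rfl⟩ | ⟨i, hi, rfl⟩) | ⟨i, j, hi, rfl⟩) | ⟨i, j, hi, rfl⟩) <;>
      simp only [map_pow, map_mul, FreeGroup.lift_apply_of]
    · have := H5.agen_pow (n := m) i
      rwa [if_pos hi] at this
    · have := H5.agen_pow (n := m) i
      rwa [if_neg (by omega)] at this
    · have := H5.agen_mul_pow (n := m) (i := i) (j := j) (by omega)
      rwa [if_pos hi.symm] at this
    · have := H5.agen_mul_pow (n := m) (i := i) (j := j) (by omega)
      rwa [if_neg (by omega)] at this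
  have h2 : ∀ r ∈ R, PresentedGroup.mk R r = 1 := fun r hr => PresentedGroup.one_of_mem hr
  obtain ⟨f, hf⟩ := H5.exists_alt_hom (n := m) (fun i => (PresentedGroup.of i : PresentedGroup R))
    (fun i hi => h2 _ (hR ▸ Or.inl (Or.inl (Or.inl ⟨i, hi, rfl⟩))))
    (fun i hi => h2 _ (hR ▸ Or.inl (Or.inl (Or.inr ⟨i, hi, rfl⟩))))
    (fun i j hi => h2 _ (hR ▸ Or.inl (Or.inr ⟨i, j, hi, rfl⟩)))
    (fun i j hi => h2 _ (hR ▸ Or.inr ⟨i, j, hi, rfl⟩))
  refine ⟨MonoidHom.toMulEquiv (PresentedGroup.toGroup h1) f ?_ ?_⟩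
  · ext i
    simp [hf]
  · refine MonoidHom.eq_of_eqOn_dense (H5.closure_agen m) ?_
    rintro _ ⟨i, rfl⟩
    simp [hf]

end Cfsg.Agent.S3335
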