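import Cfsg.Statements.S3349
import Cfsg.Agent.H26.ES3
import Cfsg.Agent.H1.Coprime
import Cfsg.Agent.H3.PNil
import Cfsg.Agent.H26.HolAct

set_option autoImplicit false
open Cfsg

namespace Cfsg.Agent.S3349


/-- Let Q be a finite extraspecial p-group and α an automorphism of Q fixing every element of some maximal abelian subgroup of Q. Then the order of α is a power of p. -/
theorem result {Q : Type*} [Group Q] [Finite Q]
    (p : ℕ) [Fact p.Prime] (hQ : Cfsg.IsExtraspecial p Q) (α : MulAut Q)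
    (A : Subgroup Q) (hA : IsMulCommutative A) (hmax : ∀ B : Subgroup Q, A ≤ B → IsMulCommutative B → B = A)
    (hfix : ∀ a ∈ A, α a = a) :
    ∃ k : ℕ, orderOf α = p ^ k := by
  obtain ⟨n, c, hc⟩ := H26.exists_ES_of_isExtraspecial hQ
  have hG := c.isPGroup
  have hC : Subgroup.centralizer (A : Set Q) ≤ A := fun x hx => by
    have h1 : IsMulCommutative (A ⊔ Subgroup.zpowers x : Subgroup Q) := by
      rw [← Subgroup.le_centralizer_iff_isMulCommutative]
      have h2 : A ⊔ Subgroup.zpowers x ≤ Subgroup.centralizer (A : Set Q) :=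
        sup_le A.le_centralizer (Subgroup.zpowers_le.mpr hx)
      refine sup_le (Subgroup.le_centralizer_iff.mp h2) (Subgroup.le_centralizer_iff.mp (sup_le ?_ ?_))
      · exact Subgroup.le_centralizer_iff.mp (Subgroup.zpowers_le.mpr hx)
      · exact Subgroup.le_centralizer _
    exact hmax _ le_sup_left h1 ▸ Subgroup.mem_sup_right (Subgroup.mem_zpowers x)
  obtain ⟨k, hk⟩ := H3.exists_pow_coprime_orderOf p α
  set β := α ^ p ^ k
  have hβ : ∀ a ∈ A, β a = a := fun a ha => by
    have : α ∈ MulAction.stabilizer (MulAut Q) a := hfix a ha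
    exact Subgroup.pow_mem _ this _
  have h1 := H1.le_centralizer_of_centralizes_self_centralizing (p := p)
    (B := A.map (H26.ambL (MulAut Q) Q)) (Q := (Subgroup.zpowers β).map (H26.ambR (MulAut Q) Q))
    (U := (⊤ : Subgroup Q).map (H26.ambL (MulAut Q) Q))
    (by rw [H21.Hol.card_r, Nat.card_zpowers]; exact hk) (hG.to_subgroup ⊤ |>.map _)
    (Subgroup.map_mono le_top) (H21.Hol.le_norm_top _)
    (H21.Hol.le_cent_iff.mpr fun γ hγ a ha => by
      have : β ∈ MulAction.stabilizer (MulAut Q) a := hβ a ha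
      exact Subgroup.zpowers_le.mpr this hγ)
    (by
      rintro _ ⟨⟨x, -, rfl⟩, hx⟩
      refine Subgroup.mem_map_of_mem _ (hC fun a ha => H26.ambL_inj (A := MulAut Q) ?_)
      rw [map_mul, map_mul]
      exact hx _ (Subgroup.mem_map_of_mem _ ha))
  have h2 : β = 1 := MulEquiv.ext fun x =>
    H21.Hol.le_cent_iff.mp h1 β (Subgroup.mem_zpowers β) x trivial
  obtain ⟨m, -, hm⟩ := (Nat.dvd_prime_pow (Fact.out : p.Prime)).mp (orderOf_dvd_of_pow_eq_one h2)
  exact ⟨m, hm⟩

end Cfsg.Agent.S3349
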