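import Cfsg.Statements.S3356
import Mathlib
import Cfsg.Agent.H2.CSz

set_option autoImplicit false
open Cfsg

namespace Cfsg.Agent.S3356

open Subgroup H2 H2.CS MulAction
open scoped Pointwise commutatorElement

theorem card_dvd {L X : Type*} [Group L] [Finite L] [Finite X] [MulAction L X] {c : ℕ}
    (h : ∀ x : X, Nat.card (stabilizer L x) = c) : Nat.card L ∣ c * Nat.card X := by
  classical
  have := Fintype.ofFinite (orbitRel.Quotient L X)
  rw [Nat.card_congr (selfEquivSigmaOrbits L X), Nat.card_sigma, Finset.mul_sum]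
  refine Finset.dvd_sum fun ω _ => ?_
  rw [← h ω.out, mul_comm]
  exact (Pm.ncard_orbit_mul (G := L) ω.out).symm.dvd

theorem card_dvd' {G : Type*} [Group G] [Finite G] (L : Subgroup G) (S : Set G) {c : ℕ}
    (hS : ∀ g ∈ L, ∀ x ∈ S, g * x * g⁻¹ ∈ S)
    (h : ∀ x ∈ S, Nat.card (L ⊓ centralizer {x} : Subgroup G) = c) :
    Nat.card L ∣ c * S.ncard := by
  letI : MulAction L S :=
    { smul := fun g x => ⟨g * x * (g : G)⁻¹, hS g g.2 x x.2⟩
      one_smul := fun x => Subtype.ext (by change (1 : G) * _ * 1⁻¹ = _; simp)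
      mul_smul := fun a b x => Subtype.ext (by
        change (a * b : G) * _ * (a * b : G)⁻¹ = a * (b * _ * (b : G)⁻¹) * (a : G)⁻¹; group) }
  refine card_dvd (X := S) fun x => ?_
  rw [← h x x.2, ← Nat.card_congr (subgroupOfEquivOfLe inf_le_left).toEquiv, inf_subgroupOf_left]
  congr 2
  ext g
  rw [mem_subgroupOf, mem_cent, ← mul_inv_eq_iff_eq_mul, mem_stabilizer_iff, Subtype.ext_iff]
  rfl

/-- Let G be a finite 3/2-transitive permutation group: G acts faithfully and transitively on a finite set, the point stabilizers are non-trivial, and for each point a all orbits of G_a on the remaining points have the same size. Suppose G has a regular normal subgroup N and G is not a Frobenius group (some two-point stabilizer is non-trivial). Then N is an elementary abelian p-group for some prime p, and every non-trivial normal subgroup of G contains N (so N is the unique minimal normal subgroup). -/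
theorem result {G Ω : Type*} [Group G] [Finite G]
    [MulAction G Ω] [FaithfulSMul G Ω] [Finite Ω] (htrans : MulAction.IsPretransitive G Ω)
    (hne : ∀ a : Ω, MulAction.stabilizer G a ≠ ⊥)
    (hhalf : ∀ a b c : Ω, b ≠ a → c ≠ a →
      Nat.card (MulAction.orbit (MulAction.stabilizer G a) b) = Nat.card (MulAction.orbit (MulAction.stabilizer G a) c))
    (N : Subgroup G) [hN : N.Normal] (hNt : MulAction.IsPretransitive N Ω) (hNr : ∀ a : Ω, MulAction.stabilizer N a = ⊥)
    (hnotF : ∃ a b : Ω, a ≠ b ∧ MulAction.stabilizer G a ⊓ MulAction.stabilizer G b ≠ ⊥) :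
    (∃ p : ℕ, p.Prime ∧ IsMulCommutative N ∧ ∀ x ∈ N, x ^ p = 1) ∧
    (∀ M : Subgroup G, M.Normal → M ≠ ⊥ → N ≤ M) := by
  obtain ⟨a, b, hab, h0⟩ := hnotF
  set H := stabilizer G a
  have reg : ∀ n ∈ N, n • a = a → n = 1 := fun n hn e => by
    have : (⟨n, hn⟩ : N) ∈ stabilizer N a := e
    rw [hNr a, mem_bot] at this
    exact congrArg Subtype.val this
  have tr : ∀ b, ∃ n ∈ N, n • a = b := fun b => by
    obtain ⟨n, e⟩ := hNt.exists_smul_eq a b
    exact ⟨n, n.2, e⟩
  let A : G → Subgroup G := fun n => H ⊓ centralizer {n}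
  have hA : ∀ n ∈ N, A n = H ⊓ stabilizer G (n • a) := fun n hn => by
    ext h
    refine and_congr_right fun hh => ?_
    have hh' : h • a = a := hh
    change h ∈ centralizer _ ↔ h • n • a = n • a
    rw [mem_cent]
    refine ⟨fun e => by rw [← mul_smul, e, mul_smul, hh'], fun e => ?_⟩
    have := reg (n⁻¹ * (h * n * h⁻¹)) (mul_mem (inv_mem hn) (hN.conj_mem n hn h)) (by
      rw [mul_smul, mul_smul, mul_smul, inv_smul_eq_iff.2 hh'.symm, e, inv_smul_smul])
    rw [inv_mul_eq_one, eq_mul_inv_iff_mul_eq] at this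
    exact this.symm
  set k := Nat.card (orbit H b)
  set c := Nat.card (H ⊓ stabilizer G b : Subgroup G)
  have e1 : ∀ d : Ω, Nat.card (orbit H d) * Nat.card (H ⊓ stabilizer G d : Subgroup G) = Nat.card H :=
    fun d => by
    rw [← Pm.ncard_orbit_mul (G := H) d,
      ← Nat.card_congr (subgroupOfEquivOfLe inf_le_left).toEquiv, inf_subgroupOf_left]
    rfl
  have hk : k ≠ 0 := fun e => Nat.card_pos.ne' (by rw [← e1 b]; exact Nat.mul_eq_zero.2 (.inl e))
  have hc0 : 0 < c := Nat.card_pos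
  have hc : ∀ n ∈ N, n ≠ 1 → Nat.card (A n) = c := fun n hn h1 => by
    have := e1 (n • a)
    rw [hhalf a _ b (mt (reg n hn) h1) hab.symm, ← e1 b, ← hA n hn] at this
    exact Nat.eq_of_mul_eq_mul_left (Nat.pos_of_ne_zero hk) this
  have eq : ∀ x ∈ N, x ≠ 1 → ∀ y ∈ N, y ≠ 1 → A x ≤ centralizer {y} → A x = A y :=
    fun x hx h1 y hy h2 h => eq_of_le_of_card_ge (le_inf inf_le_left h)
      (by rw [hc x hx h1, hc y hy h2])
  have triv : ∀ h ∈ H, (∀ n ∈ N, h * n = n * h) → h = 1 := fun h hh e =>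
    eq_of_smul_eq_smul fun d : Ω => by
      obtain ⟨n, hn, rfl⟩ := tr d
      rw [← mul_smul, e n hn, mul_smul, one_smul, mem_stabilizer_iff.1 hh]
  have nt : ∀ x ∈ N, x ≠ 1 → ¬ ∀ y ∈ N, A x ≤ centralizer {y} := fun x hx h1 h => h0 (by
    have : A x = ⊥ := eq_bot_iff.2 fun g hg => triv g hg.1 fun n hn => mem_cent.1 (h n hn hg)
    have e := hc x hx h1
    rw [this, card_bot] at e
    exact eq_bot_of_card_eq _ e.symm)
  have hd : ∀ S : Set G, (∀ g ∈ H, ∀ x ∈ S, g * x * g⁻¹ ∈ S) → (∀ x ∈ S, x ∈ N ∧ x ≠ 1) →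
      k ∣ S.ncard := fun S h1 h2 => by
    have := card_dvd' H S h1 fun x hx => hc x (h2 x hx).1 (h2 x hx).2
    rwa [← e1 b, mul_comm c, Nat.mul_dvd_mul_iff_right hc0] at this
  have hd' : ∀ M : Subgroup G, M.Normal → M ≤ N → k.Coprime (Nat.card M) := fun M hM h => by
    have := hd ((M : Set G) \ {1}) (fun g _ x hx => ⟨hM.conj_mem x hx.1 g, fun e => hx.2
      (by simpa using e)⟩) fun x hx => ⟨h hx.1, hx.2⟩
    rw [Set.ncard_diff_singleton_of_mem M.one_mem] at this
    refine Nat.Coprime.coprime_dvd_left this ?_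
    change (Nat.card M - 1).Coprime _
    obtain ⟨m, hm⟩ : ∃ m, Nat.card M = m + 1 := ⟨_, (Nat.succ_pred_eq_of_pos Nat.card_pos).symm⟩
    rw [hm]; simp
  have cj : ∀ x ∈ N, x ≠ 1 → ∀ g ∈ N, A (g * x * g⁻¹) = A x := fun x hx h1 g hg => by
    have a1 := hd (cl x) (by rintro g - _ ⟨u, rfl⟩; exact ⟨g * u, by group⟩)
      (by rintro _ ⟨u, rfl⟩; exact ⟨hN.conj_mem x hx u, by simpa using h1⟩)
    rw [ncard_cl, cs, ← relIndex_mul_index (le_sup_left : _ ≤ centralizer {x} ⊔ N),
      (fac_sup_normal_right _ N).relIndex_left] at a1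
    have a2 := ((hd' N hN le_rfl).coprime_dvd_right (relIndex_dvd_card _ _)).dvd_of_dvd_mul_left a1
    have a3 : Fac ⊤ (centralizer {x} ⊔ N) H := fac_top fun u => by
      obtain ⟨n, hn, e⟩ := tr (u • a)
      exact ⟨n, mem_sup_right hn, n⁻¹ * u, by
        rw [mem_stabilizer_iff, mul_smul, ← e, inv_smul_smul], by simp⟩
    rw [← relIndex_top_right, a3.relIndex_left] at a2
    have a4 := ((centralizer {x} ⊔ N).subgroupOf H).index_mul_card
    rw [← e1 b, ← inf_subgroupOf_right, Nat.card_congr (subgroupOfEquivOfLe inf_le_right).toEquiv,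
      inf_subgroupOf_right] at a4
    have a5 : A x = (centralizer {x} ⊔ N) ⊓ H := eq_of_le_of_card_ge
      (le_inf (inf_le_right.trans le_sup_left) inf_le_left) (by
        rw [hc x hx h1]
        obtain ⟨j, hj⟩ := a2
        rw [← relIndex, hj, mul_assoc] at a4
        rw [← show _ = c from Nat.eq_of_mul_eq_mul_left (Nat.pos_of_ne_zero hk) a4]
        exact Nat.le_mul_of_pos_left _ (Nat.pos_of_ne_zero fun e => index_ne_zero_of_finite
          (hj.trans (by rw [e, mul_zero]))))
    refine eq_of_le_of_card_ge (fun h hh => ?_) (by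
      rw [hc x hx h1, hc _ (hN.conj_mem x hx g) (by simpa using h1)])
    rw [a5]
    refine ⟨?_, hh.1⟩
    have : g⁻¹ * h * g ∈ centralizer {x} := mem_cent.2 (by
      calc _ = g⁻¹ * (h * (g * x * g⁻¹)) * g := by group
        _ = _ := by rw [mem_cent.1 hh.2]; group)
    simpa [mul_assoc] using mul_mem (mul_mem (mem_sup_right hg) (mem_sup_left this))
      (mem_sup_right (inv_mem hg))
  have cm : ∀ x ∈ N, x ≠ 1 → ∀ y ∈ N, y ≠ 1 → A x ≠ A y → Commute x y := by
    intro x hx h1 y hy h2 h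
    by_contra hn
    have hz : x * y * x⁻¹ * y⁻¹ ≠ 1 := fun e => hn (commutatorElement_eq_one_iff_commute.1 e)
    have hzN := mul_mem (hN.conj_mem y hy x) (inv_mem hy)
    refine h ((eq x hx h1 _ hzN hz fun g hg => mem_cent.2 ?_).trans
      (eq y hy h2 _ hzN hz fun g hg => mem_cent.2 ?_).symm)
    · have b1 : Commute g (y * x * y⁻¹) := mem_cent.1 ((cj x hx h1 y hy).ge hg).2
      rw [show x * y * x⁻¹ * y⁻¹ = x * (y * x * y⁻¹)⁻¹ by group]
      exact Commute.mul_right (mem_cent.1 hg.2) b1.inv_right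
    · exact Commute.mul_right (mem_cent.1 ((cj y hy h2 x hx).ge hg).2)
        (Commute.inv_right (mem_cent.1 hg.2))
  have ab : ∀ x ∈ N, ∀ y ∈ N, x * y = y * x := by
    intro x hx x' hx'
    by_cases h1 : x = 1
    · simp [h1]
    by_cases h2 : x' = 1
    · simp [h2]
    by_cases h : A x' = A x
    swap
    · exact (cm x' hx' h2 x hx h1 h).symm
    have := nt x hx h1
    push Not at this
    obtain ⟨y, hy, h3⟩ := this
    have h4 : ¬ A x ≤ centralizer {x * y} := fun e => h3 fun g hg => mem_cent.2 (by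
      simpa using (Commute.mul_right (Commute.inv_right (mem_cent.1 hg.2)) (mem_cent.1 (e hg))).eq)
    have b1 := cm x' hx' h2 y hy (fun e => h3 (by simp [e, le_top])) fun e => h3 (h ▸ e ▸ inf_le_right)
    have b2 := cm x' hx' h2 _ (mul_mem hx hy) (fun e => h4 (by simp [e, le_top]))
      fun e => h4 (h ▸ e ▸ inf_le_right)
    simpa using (b2.mul_right b1.inv_right).symm.eq
  have hmin : IsMinNormal N := by
    refine ⟨hN, fun e => ?_, fun M hM hMN => ?_⟩
    · obtain ⟨n, hn, e'⟩ := tr b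
      rw [e, mem_bot] at hn
      exact hab (by rw [← e', hn, one_smul])
    by_contra hn
    push Not at hn
    obtain ⟨⟨m, hm⟩, h1⟩ := ne_bot_iff_exists_ne_one.1 hn.1
    replace h1 : m ≠ 1 := fun e => h1 (Subtype.ext e)
    have key : ∀ x ∈ N, x ∉ M → ∀ u ∈ M, A x ≤ centralizer {u} := fun x hx hxM u hu => by
      let L : Subgroup G :=
        { carrier := {g | g ∈ H ∧ x⁻¹ * (g * x * g⁻¹) ∈ M}
          one_mem' := ⟨H.one_mem, by simp⟩
          mul_mem' := fun {g h} hg hh => ⟨mul_mem hg.1 hh.1, by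
            convert mul_mem hg.2 (hM.conj_mem _ hh.2 g) using 1; group⟩
          inv_mem' := fun {g} hg => ⟨inv_mem hg.1, by
            convert inv_mem (hM.conj_mem _ hg.2 g⁻¹) using 1; group⟩ }
      have hLH : L ≤ H := fun g hg => hg.1
      have hS : ∀ t ∈ M, x * t ∈ N ∧ x * t ≠ 1 := fun t ht => ⟨mul_mem hx (hMN ht), fun e =>
        hxM (eq_inv_of_mul_eq_one_left e ▸ inv_mem ht)⟩
      have hAL : ∀ t ∈ M, A (x * t) ≤ L := fun t ht g hg => ⟨hg.1, by
        have e : g * (x * t) * g⁻¹ = x * t := mul_inv_eq_of_eq_mul (mem_cent.1 hg.2)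
        convert mul_mem ht (inv_mem (hM.conj_mem t ht g)) using 1
        calc _ = x⁻¹ * (g * (x * t) * g⁻¹) * (g * t * g⁻¹)⁻¹ := by group
          _ = _ := by rw [e]; group⟩
      have d1 := card_dvd' (c := c) L ((x * ·) '' M) (by
        rintro g hg _ ⟨t, ht, rfl⟩
        exact ⟨_, mul_mem hg.2 (hM.conj_mem t ht g), by group⟩) (by
        rintro _ ⟨t, ht, rfl⟩
        rw [← hc _ (hS t ht).1 (hS t ht).2]
        congr 2
        exact le_antisymm (inf_le_inf_right _ hLH) (le_inf (hAL t ht) inf_le_right))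
      rw [Set.ncard_image_of_injective _ (mul_right_injective x)] at d1
      have d2 := card_dvd_of_le hLH
      rw [← e1 b, mul_comm] at d2
      have d3 : Nat.card L ∣ c := by
        have := Nat.dvd_gcd d2 d1
        rw [Nat.gcd_mul_left] at this
        rwa [show k.gcd (M : Set G).ncard = 1 from hd' M hM hMN, mul_one] at this
      have hE : ∀ t ∈ M, A (x * t) = L := fun t ht => eq_of_le_of_card_ge (hAL t ht)
        (by rw [hc _ (hS t ht).1 (hS t ht).2]; exact Nat.le_of_dvd hc0 d3)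
      intro g hg
      have b1 := ((hE u hu).trans (hE 1 M.one_mem).symm).ge (by rwa [mul_one])
      exact mem_cent.2 (by
        simpa using (Commute.mul_right (Commute.inv_right (mem_cent.1 hg.2)) (mem_cent.1 b1.2)).eq)
    obtain ⟨x, hx, hxM⟩ := SetLike.exists_of_lt (lt_of_le_of_ne hMN hn.2)
    have h2 : x ≠ 1 := fun e => hxM (e ▸ M.one_mem)
    refine nt x hx h2 fun y hy => ?_
    by_cases h3 : y ∈ M
    · exact key x hx hxM y h3
    rw [eq x hx h2 m (hMN hm) h1 (key x hx hxM m hm),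
      ← eq y hy (fun e => h3 (e ▸ M.one_mem)) m (hMN hm) h1 (key y hy h3 m hm)]
    exact inf_le_right
  haveI := isMulCommutative_of_forall ab
  obtain ⟨p, hp, h1⟩ := hmin.exists_prime_of_isMulCommutative
  refine ⟨⟨p, hp, inferInstance, h1⟩, fun M hM h2 => (hmin.inf_eq_bot_or_le M).resolve_left
    fun e => h2 (eq_bot_iff.2 fun m hm => ?_)⟩
  obtain ⟨n, hn, e'⟩ := tr (m • a)
  have := triv (n⁻¹ * m) (by rw [mem_stabilizer_iff, mul_smul, ← e', inv_smul_smul]) fun u hu =>
    Commute.mul_left (Commute.inv_left (ab n hn u hu))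
      (commute_of_normal_of_disjoint N M hN hM (disjoint_iff.2 e) u m hu hm).symm
  rw [← e]
  exact ⟨inv_mul_eq_one.1 this ▸ hn, hm⟩

end Cfsg.Agent.S3356
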