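import Cfsg.Statements.S3376
import Cfsg.Agent.H1.SylowIn
import Cfsg.Agent.H9.Basic
import Cfsg.Agent.H12.SmallRecog
import Cfsg.Agent.H26.InvMaschke
-- import your own Cfsg.Agent.* helpers here

set_option autoImplicit false
open Cfsg

namespace Cfsg.Agent.S3376

open Cfsg.Agent.H1 Subgroup Equiv Equiv.Perm

theorem cyc3 {σ : Perm (Fin 9)} (h : orderOf σ = 3) : σ.cycleType = Multiset.replicate 3 3 ∨
    ¬ 162 ∣ Nat.card (centralizer ({σ} : Set (Perm (Fin 9)))) ∧ σ.support.card ≠ 9 := by
  obtain ⟨n, hn⟩ := cycleType_prime_order (h ▸ Nat.prime_three : (orderOf σ).Prime)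
  have h1 := σ.sum_cycleType
  have h2 := σ.support.card_le_univ
  rw [nat_card_centralizer, ← h1]
  rw [← h1] at h2
  rw [hn, h] at h2 ⊢
  have h3 : n ≤ 2 := by simp at h2; omega
  interval_cases n
  · right; simp [Nat.factorial]
  · right; simp [Nat.factorial]
  · left; rfl

theorem of_inj {G : Type*} [Group G] [Finite G] (hG : Nat.card G = 162) (f : G →* Perm (Fin 9))
    (hf : Function.Injective f) {z : G} (hz : orderOf z = 3) (hc : z ∈ center G) {σ : Perm (Fin 9)}
    (h1 : σ ^ 3 = 1) (h2 : σ.support.card = 9) :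
    Nonempty (G ≃* centralizer ({σ} : Set (Perm (Fin 9)))) := by
  haveI := Fact.mk Nat.prime_three
  have h3 := (cyc3 (orderOf_eq_prime h1 (by rintro rfl; simp at h2))).resolve_right fun h => h.2 h2
  have key : ∀ f : G →* Perm (Fin 9), f.range ≤ centralizer {f z} := by
    rintro f _ ⟨g, rfl⟩
    rw [mem_centralizer_singleton_iff, ← map_mul, ← map_mul, mem_center_iff.1 hc]
  have h4 := (cyc3 ((orderOf_injective f hf z).trans hz)).resolve_right fun h => h.1 (by
    have := card_dvd_of_le (key f)
    rwa [← Nat.card_congr (MonoidHom.ofInjective hf).toEquiv, hG] at this)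
  obtain ⟨c, hc⟩ := isConj_iff.1 (isConj_iff_cycleType_eq.2 (h4.trans h3.symm))
  let f' := (MulAut.conj c).toMonoidHom.comp f
  have hf' : Function.Injective f' := (MulAut.conj c).injective.comp hf
  have h5 : f'.range = centralizer {σ} := eq_of_le_of_card_ge (hc ▸ key f') (by
    rw [← Nat.card_congr (MonoidHom.ofInjective hf').toEquiv, hG, nat_card_centralizer, h3]
    simp [Nat.factorial])
  exact ⟨(MonoidHom.ofInjective hf').trans (MulEquiv.subgroupCongr h5)⟩


/-- Let G be a group of order 162 = 3⁴·2 with Sylow 3-subgroup S and Sylow 2-subgroup T, having an elementary abelian normal subgroup J of order 27, such that Z = Z(S) has order 3, Z centralizes T, and C_S(T) ≠ S. Then G is isomorphic to the centralizer in Sym(9) of a product of three disjoint 3-cycles. -/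
theorem result {G : Type*} [Group G] [Finite G] (hG : Nat.card G = 162)
    (S : Sylow 3 G) (T : Sylow 2 G) (J : Subgroup G) [hJn : J.Normal] (hJcomm : IsMulCommutative J)
    (hJexp : ∀ a ∈ J, a ^ 3 = 1) (hJcard : Nat.card J = 27)
    (Z : Subgroup G) (hZ : Z = (S : Subgroup G) ⊓ Subgroup.centralizer ((S : Subgroup G) : Set G)) (hZcard : Nat.card Z = 3)
    (hZT : Z ≤ Subgroup.centralizer ((T : Subgroup G) : Set G))
    (hST : (S : Subgroup G) ⊓ Subgroup.centralizer ((T : Subgroup G) : Set G) ≠ S) :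
    Nonempty (G ≃* Subgroup.centralizer ({Equiv.swap (0 : Fin 9) 1 * Equiv.swap 1 2 * Equiv.swap 3 4 * Equiv.swap 4 5 * Equiv.swap 6 7 * Equiv.swap 7 8} : Set (Equiv.Perm (Fin 9)))) := by
  haveI := Fact.mk Nat.prime_three
  obtain ⟨hS, hSi⟩ := H12.card_sylow_of_card (k := 4) (m := 2) S (by rw [hG]; norm_num) (by norm_num)
  obtain ⟨hT, -⟩ := H12.card_sylow_of_card (k := 1) (m := 81) T (by rw [hG]; norm_num) (by norm_num)
  haveI hSn : (S : Subgroup G).Normal := normal_of_index_eq_two hSi
  have hJp : IsPGroup 3 J := IsPGroup.of_card (n := 3) hJcard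
  have hJS : J ≤ S := (isSylowIn_top S).le_of_le_normalizer le_top hJp le_normalizer_of_normal
  have key : ∀ U : Subgroup G, U.Normal → U ≤ S → U ≠ ⊥ → Z ≤ U := fun U _ hU h0 => by
    have h1 := inf_centralizer_ne_bot_of_isPGroup (S.isPGroup'.to_le hU) S.isPGroup'
      le_normalizer_of_normal h0
    have h2 : U ⊓ centralizer ((S : Subgroup G) : Set G) ≤ Z := hZ ▸ inf_le_inf_right _ hU
    have h3 := card_dvd_of_le h2
    rw [hZcard, Nat.dvd_prime Nat.prime_three, card_eq_one] at h3
    rw [← eq_of_le_of_card_ge h2 (by rw [h3.resolve_left h1, hZcard])]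
    exact inf_le_left
  have hZJ := key J hJn hJS (fun e => by rw [e, card_bot] at hJcard; omega)
  have hST' : (S : Subgroup G) ⊔ T = ⊤ := by
    have h1 := (card_dvd_of_le (le_sup_left : (S : Subgroup G) ≤ (S : Subgroup G) ⊔ T))
    have h2 := (card_dvd_of_le (le_sup_right : (T : Subgroup G) ≤ (S : Subgroup G) ⊔ T))
    rw [hS] at h1; rw [hT] at h2
    refine eq_top_of_le_card _ (hG ▸ Nat.le_of_dvd Nat.card_pos ?_)
    exact Nat.Coprime.mul_dvd_of_dvd_of_dvd (m := 3 ^ 4) (n := 2 ^ 1) (by norm_num) h1 h2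
  have hZc : Z ≤ center G := fun z hz => by
    rw [mem_center_iff]
    intro g
    have : g ∈ centralizer ({z} : Set G) := by
      refine (?_ : (S : Subgroup G) ⊔ T ≤ centralizer {z}) (hST' ▸ mem_top g)
      exact sup_le (fun s hs => mem_centralizer_singleton_iff.2 ((hZ ▸ hz).2 s hs))
        (fun s hs => mem_centralizer_singleton_iff.2 (hZT hz s hs))
    exact mem_centralizer_singleton_iff.1 this
  haveI : Z.Normal := ⟨fun z hz g => by rwa [mem_center_iff.1 (hZc hz), mul_inv_cancel_right]⟩
  obtain ⟨W, h1, h2, h3⟩ := H26.maschke_mod (p := 3) (K := J) (A := T) (N := ⊥) (U := Z)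
    (by rw [hT]; norm_num) bot_le hZJ
    (by rw [le_bot_iff, commutator_eq_bot_iff_le_centralizer]; exact le_centralizer _)
    (fun x hx => hJexp x hx) le_normalizer_of_normal le_normalizer_of_normal
  have hW : Nat.card W = 9 := by
    have := H9.card_sup_mul_card_inf' (N := Z) (H := W) le_normalizer_of_normal
    rw [h1, h2, hJcard, hZcard, card_bot] at this
    omega
  have hH : Nat.card (W ⊔ T : Subgroup G) = 18 := by
    have := H9.card_sup_mul_card_inf' h3
    rw [inf_eq_bot_of_coprime (by rw [hW, hT]; norm_num), hW, hT, card_bot] at this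
    omega
  obtain ⟨f, hf⟩ := H12.exists_injective_perm_of_core (W ⊔ T) (n := 9) (by
    have := (W ⊔ T : Subgroup G).card_mul_index
    rw [hH, hG] at this; omega) (by
    set N := (W ⊔ T : Subgroup G).normalCore
    have h4 : N ⊓ S = ⊥ := by
      by_contra h
      have h5 : J ≤ W ⊔ T := h2 ▸ sup_le
        ((key _ inferInstance inf_le_right h).trans (inf_le_left.trans (normalCore_le _))) le_sup_left
      have := card_dvd_of_le h5
      rw [hJcard, hH] at this
      omega
    by_contra h
    have h5 := H9.card_sup_mul_card_inf' (N := N) (H := S) le_normalizer_of_normal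
    have h6 := card_subgroup_dvd_card (N ⊔ S)
    rw [h4, card_bot, mul_one, hS] at h5
    rw [h5, hG, show 162 = 2 * 3 ^ 4 from rfl, Nat.mul_dvd_mul_iff_right (by norm_num),
      Nat.dvd_prime Nat.prime_two, card_eq_one] at h6
    have h7 := h6.resolve_left h
    have h8 : N = T := eq_of_le_of_card_ge ((isSylowIn_top T).le_of_le_normalizer le_top
      (IsPGroup.of_card (n := 1) h7) le_normalizer_of_normal) (by rw [hT, h7]; rfl)
    refine hST (inf_eq_left.2 ?_)
    rw [← h8, ← commutator_eq_bot_iff_le_centralizer, ← le_bot_iff, ← h4, inf_comm]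
    exact commutator_le_inf _ _)
  obtain ⟨⟨z, hz⟩, ho⟩ := exists_prime_orderOf_dvd_card' (G := Z) 3 (by rw [hZcard])
  exact of_inj hG f hf (by rw [← ho, orderOf_mk]) (hZc hz) (by decide) (by decide)

end Cfsg.Agent.S3376
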