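import Cfsg.Statements.S3378
import Cfsg.Agent.H1.FrobCompl
import Cfsg.Agent.S0493
import Cfsg.Agent.S0494
import Cfsg.Agent.S0201
-- import your own Cfsg.Agent.* helpers here

set_option autoImplicit false
open Cfsg

namespace Cfsg.Agent.S3378

open Cfsg.Agent.H1 Subgroup

universe u

theorem sol_of_normal {G : Type*} [Group G] (N : Subgroup G) [N.Normal] (h1 : Group.IsSolvable N)
    (h2 : Group.IsSolvable (G ⧸ N)) : Group.IsSolvable G :=
  solvable_of_ker_le_range N.subtype (QuotientGroup.mk' N) (by simp)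

theorem simple_of_lt (G : Type u) [Group G] [Finite G] (hs : ¬ Group.IsSolvable G)
    (ih : ∀ (H : Type u) [Group H] [Finite H], Nat.card H < Nat.card G → Group.IsSolvable H) :
    IsSimpleGroup G := by
  haveI : Nontrivial G := not_subsingleton_iff_nontrivial.1 fun _ => hs inferInstance
  refine ⟨fun N hN => ?_⟩
  by_contra hc
  push Not at hc
  have h1 := N.card_mul_index
  have h2 := N.one_lt_card_iff_ne_bot.2 hc.1
  have h3 := N.one_lt_index_of_ne_top hc.2
  exact hs (sol_of_normal N (ih _ (by nlinarith)) (ih _ (by change N.index < _; nlinarith)))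

theorem sol_of_lt (n : ℕ) : ∀ (G : Type u) [Group G] [Finite G], Nat.card G = n → n < 60 →
    Group.IsSolvable G := by
  induction n using Nat.strong_induction_on with
  | _ n ih =>
    intro G _ _ hn h
    by_contra hs
    haveI := simple_of_lt G hs fun H _ _ hH => ih _ (hn ▸ hH) H rfl (by omega)
    have := S0493.result (G := G) (fun hc => hs (isSolvable_of_comm
      IsCyclic.commutative.is_comm.comm)) (by omega)
    omega

theorem q8 : ∀ x y : QuaternionGroup 2, x * x = 1 → y * y = 1 → x = 1 ∨ y = 1 ∨ x = y := by decide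

theorem part1 (G : Type u) [Group G] [Finite G] (h : Nat.card G = 120) (hs : ¬ Group.IsSolvable G)
    (hQ : ∀ P : Sylow 2 G, Nonempty ((P : Subgroup G) ≃* QuaternionGroup 2)) :
    Nonempty (G ≃* Matrix.SpecialLinearGroup (Fin 2) (ZMod 5)) := by
  obtain ⟨P⟩ : Nonempty (Sylow 2 G) := inferInstance
  have hZ := S0201.result P 0 (hQ P).some fun N hN ho => by
    by_contra h0
    have h1 := N.card_mul_index
    have h2 := N.one_lt_card_iff_ne_bot.2 h0
    obtain ⟨k, hk⟩ := ho
    have h3 : 8 ∣ N.index := (Nat.Coprime.pow_left 3 (Nat.coprime_two_left.2 ⟨k, hk⟩)).dvd_of_dvd_mul_left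
      (by rw [h1, h]; norm_num)
    have h4 := Nat.le_of_dvd (Nat.pos_of_ne_zero index_ne_zero_of_finite) h3
    have h5 : 3 ≤ Nat.card N := by omega
    exact hs (sol_of_normal N (sol_of_lt _ _ rfl (by nlinarith))
      (sol_of_lt _ _ rfl (by change N.index < _; nlinarith)))
  have h60 : Nat.card (G ⧸ center G) = 60 := by
    have := (center G).card_mul_index
    change (center G).index = _
    rw [hZ, h] at this; omega
  haveI := simple_of_lt (G ⧸ center G) (fun h' => hs (sol_of_normal _ (sol_of_lt _ _ hZ (by norm_num)) h'))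
    fun H _ _ hH => sol_of_lt _ H rfl (h60 ▸ hH)
  obtain ⟨e⟩ := S0494.result h60
  let f : G →* alternatingGroup (Fin 5) := e.toMonoidHom.comp (QuotientGroup.mk' _)
  have hf : Function.Surjective f := e.surjective.comp (QuotientGroup.mk'_surjective _)
  have hk : ∀ g, f g = 1 ↔ g ∈ center G := fun g => by
    simp only [f, MonoidHom.comp_apply, MulEquiv.coe_toMonoidHom, map_eq_one_iff e e.injective]
    exact QuotientGroup.eq_one_iff g
  have hz2 : ∀ z ∈ center G, z ^ 2 = 1 := fun z hz =>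
    orderOf_dvd_iff_pow_eq_one.1 (hZ ▸ orderOf_dvd_natCard _ hz)
  obtain ⟨a, ha⟩ := hf H12.alt5a
  obtain ⟨c, hc⟩ := hf H12.alt5b
  obtain ⟨r1, r2, r3, r4⟩ := H12.alt5_rels
  have c3 : c ^ 3 ∈ center G := (hk _).1 (by rw [map_pow, hc, r2])
  have a2 : a ^ 2 ∈ center G := (hk _).1 (by rw [map_pow, ha, r1])
  have hw : (a * c ^ 4) ^ 5 ∈ center G := (hk _).1 (by
    rw [map_pow, map_mul, map_pow, ha, hc, pow_succ _ 3, r2, one_mul, r3])
  have hwc := fun g => mem_center_iff.1 hw g
  have e2 : (a * (a * c ^ 4) ^ 5) ^ 2 = a ^ 2 := by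
    rw [Commute.mul_pow (hwc a), hz2 _ hw, mul_one]
  have rel : Rel25 (a * (a * c ^ 4) ^ 5) (c ^ 4) := by
    refine ⟨?_, ?_, ?_, ?_⟩
    · rw [show 4 = 2 * 2 from rfl, pow_mul, e2, hz2 _ a2]
    · rw [e2, mem_center_iff.1 a2]
    · rw [← pow_mul, show 4 * 3 = 3 * 2 * 2 from rfl, pow_mul, pow_mul, hz2 _ c3, one_pow]
    · rw [mul_assoc, ← hwc, ← mul_assoc, Commute.mul_pow (hwc _), ← pow_succ',
        show 5 + 1 = 2 * 3 from rfl, pow_mul, hz2 _ hw, one_pow]
  obtain ⟨φ, h1, -⟩ := rel.exists_inj (by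
    rw [e2]
    intro h2
    have hp : IsPGroup 2 (zpowers a ⊔ center G : Subgroup G) := by
      refine IsPGroup.to_sup_of_normal_right ?_ (IsPGroup.of_card (n := 1) hZ)
      rintro ⟨_, k, rfl⟩
      exact ⟨1, Subtype.ext (by
        change (a ^ k) ^ 2 ^ 1 = 1
        rw [pow_one, ← zpow_natCast, ← zpow_mul, mul_comm, zpow_mul, zpow_natCast, h2, one_zpow])⟩
    obtain ⟨Q, hQ'⟩ := hp.exists_le_sylow
    obtain ⟨i⟩ := hQ Q
    obtain ⟨⟨z, hz⟩, hz1⟩ := ne_bot_iff_exists_ne_one.1 (show center G ≠ ⊥ from fun e => by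
      rw [e, card_bot] at hZ; omega)
    have ha' : a ∈ (Q : Subgroup G) := hQ' (mem_sup_left (mem_zpowers a))
    have hz' : z ∈ (Q : Subgroup G) := hQ' (mem_sup_right hz)
    have han : a ∉ center G := fun h => r4 (ha ▸ (hk a).2 h)
    rcases q8 (i ⟨a, ha'⟩) (i ⟨z, hz'⟩)
      (by rw [← map_mul, map_eq_one_iff i i.injective]; exact Subtype.ext (by simpa [sq] using h2))
      (by rw [← map_mul, map_eq_one_iff i i.injective]; exact Subtype.ext (by simpa [sq] using hz2 z hz))
      with e | e | e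
    · rw [map_eq_one_iff i i.injective] at e
      exact han ((show a = 1 from congrArg Subtype.val e) ▸ one_mem _)
    · rw [map_eq_one_iff i i.injective] at e
      exact hz1 (Subtype.ext (congrArg Subtype.val e : z = 1))
    · exact han ((show a = z from congrArg Subtype.val (i.injective e)) ▸ hz))
  exact ⟨(MulEquiv.ofBijective φ ((Nat.bijective_iff_injective_and_card φ).2
    ⟨h1, by rw [card_sl25, h]⟩)).symm⟩


/-- Every non-solvable group of order 120 whose Sylow 2-subgroups are quaternion of order 8 is isomorphic to SL(2,5), and SL(2,5) has the presentation ⟨x, y, z | x³ = y⁵ = z² = 1, z⁻¹xz = x, z⁻¹yz = y, (xy)² = z⟩. -/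
theorem result :
    (∀ (G : Type*) [Group G] [Finite G], Nat.card G = 120 → ¬ Group.IsSolvable G →
      (∀ P : Sylow 2 G, Nonempty ((P : Subgroup G) ≃* QuaternionGroup 2)) →
      Nonempty (G ≃* Matrix.SpecialLinearGroup (Fin 2) (ZMod 5))) ∧
    Nonempty (PresentedGroup ({FreeGroup.of (0 : Fin 3) ^ 3, FreeGroup.of (1 : Fin 3) ^ 5, FreeGroup.of (2 : Fin 3) ^ 2,
        (FreeGroup.of (2 : Fin 3))⁻¹ * FreeGroup.of 0 * FreeGroup.of 2 * (FreeGroup.of (0 : Fin 3))⁻¹,
        (FreeGroup.of (2 : Fin 3))⁻¹ * FreeGroup.of 1 * FreeGroup.of 2 * (FreeGroup.of (1 : Fin 3))⁻¹,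
        (FreeGroup.of (0 : Fin 3) * FreeGroup.of 1) ^ 2 * (FreeGroup.of (2 : Fin 3))⁻¹} : Set (FreeGroup (Fin 3)))
      ≃* Matrix.SpecialLinearGroup (Fin 2) (ZMod 5)) := by
  refine ⟨part1, ?_⟩
  generalize hR : (insert _ _ : Set (FreeGroup (Fin 3))) = R
  replace hR := hR.symm
  have hr : ∀ r ∈ R, PresentedGroup.mk R r = 1 := fun r hr => PresentedGroup.one_of_mem hr
  replace hr := fun r (h : r ∈ _) => hr r (hR ▸ h)
  simp only [Set.mem_insert_iff, Set.mem_singleton_iff, forall_eq_or_imp, forall_eq, map_pow,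
    map_mul, map_inv] at hr
  change (PresentedGroup.of 0 : PresentedGroup R) ^ 3 = 1 ∧ (PresentedGroup.of 1 : PresentedGroup R) ^ 5 = 1 ∧
    (PresentedGroup.of 2 : PresentedGroup R) ^ 2 = 1 ∧
    (PresentedGroup.of 2 : PresentedGroup R)⁻¹ * PresentedGroup.of 0 * PresentedGroup.of 2 *
      (PresentedGroup.of 0)⁻¹ = 1 ∧
    (PresentedGroup.of 2 : PresentedGroup R)⁻¹ * PresentedGroup.of 1 * PresentedGroup.of 2 *
      (PresentedGroup.of 1)⁻¹ = 1 ∧
    (PresentedGroup.of 0 * PresentedGroup.of 1 : PresentedGroup R) ^ 2 * (PresentedGroup.of 2)⁻¹ = 1 at hr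
  obtain ⟨h1, h2, h3, h4, -, h6⟩ := hr
  rw [mul_inv_eq_one] at h6
  have rel : Rel25 (PresentedGroup.of 0 * PresentedGroup.of 1 : PresentedGroup R) (PresentedGroup.of 0)⁻¹ := by
    refine ⟨?_, ?_, ?_, ?_⟩
    · rw [show 4 = 2 * 2 from rfl, pow_mul, h6, h3]
    · rw [h6]
      rw [mul_inv_eq_one, mul_assoc, inv_mul_eq_iff_eq_mul] at h4
      exact (Commute.inv_left (show Commute _ _ from h4)).symm
    · rw [inv_pow, h1, inv_one]
    · rw [conj_pow, h2, mul_one, mul_inv_cancel]
  let g : PresentedGroup R →* Matrix.SpecialLinearGroup (Fin 2) (ZMod 5) :=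
    PresentedGroup.toGroup (f := ![sl5c⁻¹, sl5c * sl5a, sl5a ^ 2]) (by
      simp only [hR, Set.mem_insert_iff, Set.mem_singleton_iff, forall_eq_or_imp, forall_eq, map_pow,
        map_mul, map_inv, FreeGroup.lift_apply_of]
      decide)
  obtain ⟨φ, h7, -, -, h8⟩ := rel.exists_inj (fun e => by
    have := congrArg g (h6.symm.trans e)
    rw [map_one, PresentedGroup.toGroup.of] at this
    exact absurd this (by decide))
  refine ⟨(MulEquiv.ofBijective φ ⟨h7, ?_⟩).symm⟩
  rw [← MonoidHom.range_eq_top, h8, eq_top_iff, ← PresentedGroup.closure_range_of, closure_le]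
  have m0 : (PresentedGroup.of 0 : PresentedGroup R) ∈
      closure {PresentedGroup.of 0 * PresentedGroup.of 1, (PresentedGroup.of 0)⁻¹} :=
    inv_mem_iff.1 (subset_closure (by simp))
  have m1 : (PresentedGroup.of 0 * PresentedGroup.of 1 : PresentedGroup R) ∈
      closure {PresentedGroup.of 0 * PresentedGroup.of 1, (PresentedGroup.of 0)⁻¹} :=
    subset_closure (by simp)
  rintro _ ⟨i, rfl⟩
  fin_cases i
  · exact m0
  · exact (mul_mem_cancel_left m0).1 m1
  · exact h6 ▸ pow_mem m1 2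

end Cfsg.Agent.S3378
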