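import Cfsg.Statements.S3389
import Cfsg.Agent.H1.SylowIn
import Cfsg.Agent.H19.Count
-- import your own Cfsg.Agent.* helpers here

set_option autoImplicit false
open Cfsg

namespace Cfsg.Agent.S3389

open Subgroup MulAction Cfsg.Agent.H1

open scoped Pointwise

section
variable {G : Type*} [Group G] {Ω : Type*} [MulAction G Ω]

theorem smul_fix {P : Subgroup G} {n : G} (hn : n ∈ normalizer (P : Set G)) {ω : Ω}
    (h : P ≤ stabilizer G ω) : P ≤ stabilizer G (n • ω) := fun x hx => by
  have := h ((mem_normalizer_iff''.1 hn x).1 hx)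
  rw [mem_stabilizer_iff, mul_smul, mul_smul, inv_smul_eq_iff] at this
  exact this

theorem ncard_fix_le [Finite Ω] {k : ℕ} (hfix : ∀ g : G, g ≠ 1 → Nat.card (fixedBy Ω g) ≤ k)
    {P : Subgroup G} (hP : P ≠ ⊥) : {ω : Ω | P ≤ stabilizer G ω}.ncard ≤ k := by
  obtain ⟨⟨x, hx⟩, h1⟩ := ne_bot_iff_exists_ne_one.1 hP
  refine le_trans ?_ (hfix x fun h => h1 (Subtype.ext h))
  rw [Nat.card_coe_set_eq]
  exact Set.ncard_le_ncard (fun ω h => h hx)

theorem eq_or_eq [Finite Ω] {S : Set Ω} (h : S.ncard ≤ 2) {a b c : Ω} (hab : a ≠ b) (ha : a ∈ S)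
    (hb : b ∈ S) (hc : c ∈ S) : c = a ∨ c = b := by
  have h1 : ({a, b} : Set Ω) = S :=
    Set.eq_of_subset_of_ncard_le (by rintro x (rfl | rfl) <;> assumption)
      (by rw [Set.ncard_pair hab]; exact h)
  rw [← h1] at hc
  exact hc

theorem sylow_stab [Finite G] [Finite Ω] (hfix : ∀ g : G, g ≠ 1 → Nat.card (fixedBy Ω g) ≤ 2)
    {p : ℕ} [Fact p.Prime] {P : Subgroup G} (hP : P ≠ ⊥) {a b : Ω} (hab : a ≠ b)
    (h : IsSylowIn p P (stabilizer G a ⊓ stabilizer G b)) : IsSylowIn p P (stabilizer G a) := by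
  have ha := h.le.trans inf_le_left
  have hb := h.le.trans inf_le_right
  refine isSylowIn_of_isSylowIn_normalizer (h.of_le (le_inf le_normalizer ha) ?_)
  rintro n ⟨hn, hna⟩
  refine ⟨hna, ?_⟩
  rcases eq_or_eq (ncard_fix_le hfix hP) hab ha hb (smul_fix hn hb) with e | e
  · exact absurd (smul_left_cancel n ((mem_stabilizer_iff.1 hna).trans e.symm)) hab
  · exact e
end


/-- Let G be a finite group acting faithfully and transitively on a finite set Ω with fixity k ≥ 1: every non-identity element fixes at most k points and some non-identity element fixes exactly k points. Then |Z(G)| divides k; if k = 2 then |G| is even; and for every prime p > k dividing |G| and every point α, either p does not divide |G_α| or G_α contains a Sylow p-subgroup of G. -/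
theorem result {G : Type*} [Group G] [Finite G] {Ω : Type*} [Fintype Ω] [MulAction G Ω] [FaithfulSMul G Ω]
    (htr : MulAction.IsPretransitive G Ω) (k : ℕ) (hk : 1 ≤ k)
    (hfix : ∀ g : G, g ≠ 1 → Nat.card (MulAction.fixedBy Ω g) ≤ k) (hex : ∃ g : G, g ≠ 1 ∧ Nat.card (MulAction.fixedBy Ω g) = k) :
    Nat.card (Subgroup.center G) ∣ k ∧ (k = 2 → 2 ∣ Nat.card G) ∧
      ∀ (p : ℕ), p.Prime → k < p → p ∣ Nat.card G → ∀ α : Ω,
        ¬ p ∣ Nat.card (MulAction.stabilizer G α) ∨ ¬ p ∣ (MulAction.stabilizer G α).index := by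
  obtain ⟨g, hg1, hg⟩ := hex
  refine ⟨?_, ?_, ?_⟩
  · rw [← hg, Nat.card_coe_set_eq]
    refine H19.dvd_ncard_of_invariant' (H := center G) _ _ ?_ ?_
    · intro z ω hω
      change g • (z : G) • ω = (z : G) • ω
      rw [← mul_smul, mem_center_iff.1 z.2 g, mul_smul, mem_fixedBy.1 hω]
    · intro ω _
      have : stabilizer (center G) ω = ⊥ := by
        rw [eq_bot_iff]
        intro z hz
        have hz' : (z : G) • ω = ω := hz
        refine Subtype.ext (eq_of_smul_eq_smul (α := Ω) fun y => ?_)
        obtain ⟨h, rfl⟩ := exists_smul_eq G ω y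
        rw [← mul_smul, ← mem_center_iff.1 z.2 h, mul_smul, hz']
        simp
      rw [this, index_bot]
  · rintro rfl
    rw [Nat.card_coe_set_eq, Set.ncard_eq_two] at hg
    obtain ⟨a, b, hab, hS⟩ := hg
    have hU : g ∈ stabilizer G a ⊓ stabilizer G b :=
      ⟨show a ∈ fixedBy Ω g by rw [hS]; simp, show b ∈ fixedBy Ω g by rw [hS]; simp⟩
    have hc : Nat.card (stabilizer G a ⊓ stabilizer G b : Subgroup G) ≠ 1 := fun h =>
      hg1 (by rw [card_eq_one] at h; rw [h] at hU; exact hU)
    obtain ⟨p, hp, hd⟩ := Nat.exists_prime_and_dvd hc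
    haveI := Fact.mk hp
    obtain ⟨P, hP⟩ := exists_isSylowIn p (stabilizer G a ⊓ stabilizer G b)
    have hP0 := hP.ne_bot hd
    have h1 := sylow_stab hfix hP0 hab hP
    have h2 := sylow_stab hfix hP0 hab.symm (inf_comm (stabilizer G a) _ ▸ hP)
    obtain ⟨h, rfl⟩ := exists_smul_eq G a b
    have h3 : IsSylowIn p (MulAut.conj h • P) (stabilizer G (h • a)) := by
      rw [stabilizer_smul_eq_stabilizer_map_conj]
      exact h1.map _
    obtain ⟨c, hc, e⟩ := h3.exists_conj_eq h2
    rw [smul_smul, ← map_mul] at e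
    have hn : c * h ∈ normalizer (P : Set G) := by
      refine mem_normalizer_fintype fun x hx => ?_
      rw [SetLike.mem_coe, ← e]
      exact ⟨x, hx, rfl⟩
    have e1 : (c * h) • a = h • a := by rw [mul_smul]; exact hc
    have e2 : (c * h) • h • a = a := by
      refine (eq_or_eq (ncard_fix_le hfix hP0) hab h1.le h2.le (smul_fix hn h2.le)).resolve_right ?_
      intro e3
      exact hab (smul_left_cancel _ (e1.trans e3.symm))
    by_contra hodd
    obtain ⟨m, hm⟩ : Odd (Nat.card G) := Nat.not_even_iff_odd.1 fun h => hodd h.two_dvd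
    have h4 : (c * h) ^ 2 ∈ stabilizer G a := by
      rw [mem_stabilizer_iff, sq, mul_smul, e1, e2]
    have h5 : (c * h) ^ Nat.card G = 1 := pow_card_eq_one'
    rw [hm, pow_succ, pow_mul, mul_eq_one_iff_eq_inv'] at h5
    have h6 := inv_mem (pow_mem h4 m)
    rw [← h5, mem_stabilizer_iff, e1] at h6
    exact hab h6.symm
  · intro p hp hkp _ α
    by_cases hd : p ∣ Nat.card (stabilizer G α)
    · right
      haveI := Fact.mk hp
      obtain ⟨P, hP⟩ := exists_isSylowIn p (stabilizer G α)
      have hP0 := hP.ne_bot hd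
      have h1 : (stabilizer G α).relIndex (normalizer (P : Set G)) ≤ k := by
        refine le_trans ?_ (ncard_fix_le hfix hP0)
        have := H19.ncard_orbit_eq_index (H := normalizer (P : Set G)) α
        change _ = (stabilizer G α).relIndex _ at this
        rw [← this]
        refine Set.ncard_le_ncard ?_
        rintro _ ⟨n, rfl⟩
        exact smul_fix n.2 hP.le
      have h2 : IsSylowIn p P (normalizer (P : Set G) ⊓ ⊤) := by
        rw [inf_top_eq]
        refine (hP.of_le (le_inf hP.le le_normalizer) inf_le_left).trans inf_le_right ?_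
        rw [inf_relIndex_right]
        intro h
        exact absurd ((Nat.le_of_dvd (Nat.pos_of_ne_zero (index_ne_zero_of_finite)) h).trans h1)
          (not_le.2 hkp)
      obtain ⟨Q, rfl⟩ := (isSylowIn_of_isSylowIn_normalizer h2).exists_sylow_top
      exact fun h => Q.not_dvd_index (h.trans (index_dvd_of_le hP.le))
    · exact Or.inl hd

end Cfsg.Agent.S3389
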