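import Cfsg.Statements.S3410
import Cfsg.Agent.H19.ONi
import Cfsg.Agent.H10.BBal

set_option autoImplicit false
open Cfsg

namespace Cfsg.Agent.S3410

/-- Let a finite group G act faithfully and 2-transitively on a finite set X, and let N be an abelian normal subgroup of the stabilizer of a point x which is not semiregular on the remaining points (some non-identity element of N fixes a second point). Then the generalized Fitting subgroup of G is isomorphic to PSL_n(F) for some n ≥ 3 and some finite field F. -/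
theorem result {G X : Type*} [Group G] [Finite G] [Fintype X]
    [MulAction G X] [FaithfulSMul G X] (h2 : MulAction.IsMultiplyPretransitive G X 2) (x : X)
    (N : Subgroup G) (hNle : N ≤ MulAction.stabilizer G x)
    (hNnormal : ∀ g ∈ MulAction.stabilizer G x, ∀ n ∈ N, g * n * g⁻¹ ∈ N) (hNab : IsMulCommutative N)
    (hnsr : ∃ n ∈ N, n ≠ 1 ∧ ∃ y : X, y ≠ x ∧ n • y = y) :
    ∃ (F : Type) (_ : Field F) (_ : Fintype F) (n : ℕ), 3 ≤ n ∧
      Nonempty (↥(Cfsg.generalizedFittingSubgroup G) ≃* Matrix.ProjectiveSpecialLinearGroup (Fin n) F) := by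
  obtain ⟨L, F, _, _, n, h3, hL, hC, ⟨e⟩, -⟩ := (H19.ON.Two.of h2).onan x N hNle hNnormal
    (fun a ha b hb => congrArg Subtype.val (hNab.1.1 ⟨a, ha⟩ ⟨b, hb⟩)) hnsr
  haveI := H12.PSL_simple_of_three_le (F := F) (ι := Fin n) (by simpa using h3)
  haveI : IsSimpleGroup L := e.isSimpleGroup
  have hc : ¬ IsMulCommutative L := fun hc => by
    obtain ⟨a, ha⟩ := exists_ne (1 : L)
    exact ha (Subtype.ext (Subgroup.mem_bot.1 (hC ▸ fun b hb =>
      congrArg Subtype.val (hc.1.1 ⟨b, hb⟩ a) : (a : G) ∈ (⊥ : Subgroup G))))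
  rw [H10.fstar_eq_of_centralizer ⟨H10.subnormalIn_top.2 hL.isSubnormal,
    H10.isQuasisimple_of_simple hc⟩ hC]
  exact ⟨F, inferInstance, inferInstance, n, h3, ⟨e⟩⟩

end Cfsg.Agent.S3410
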