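import Cfsg.Statements.S3421
import Cfsg.Agent.H19.L2Rec

set_option autoImplicit false
open Cfsg

namespace Cfsg.Agent.S3421

open Cfsg.Agent.H19
open scoped MatrixGroups

/-- Let F be a finite field with more than 3 elements. A finite group G is isomorphic to PSL(2, F) if and only if G has the same set of element orders and the same order as PSL(2, F). -/
theorem result {G : Type*} [Group G] [Finite G] {F : Type*} [Field F] [Fintype F] (hF : 3 < Fintype.card F) :
    Nonempty (G ≃* Matrix.ProjectiveSpecialLinearGroup (Fin 2) F) ↔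
      (Set.range (orderOf : G → ℕ) = Set.range (orderOf : Matrix.ProjectiveSpecialLinearGroup (Fin 2) F → ℕ) ∧
        Nat.card G = Nat.card (Matrix.ProjectiveSpecialLinearGroup (Fin 2) F)) := by
  refine ⟨fun ⟨e⟩ => ⟨Set.ext fun n => ⟨fun ⟨g, hg⟩ => ⟨e g, (e.orderOf_eq g).trans hg⟩,
    fun ⟨g, hg⟩ => ⟨e.symm g, (e.symm.orderOf_eq g).trans hg⟩⟩, Nat.card_congr e.toEquiv⟩, fun ⟨h1, h2⟩ => ?_⟩
  obtain ⟨p, hF', n, hp, hq⟩ := FiniteField.card' F
  haveI := Fact.mk hp
  have hcov : ∀ g : G, g ^ p = 1 ∨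
      g ^ ((Fintype.card F + 1) / Nat.gcd 2 (Fintype.card F - 1)) = 1 ∨
      g ^ ((Fintype.card F - 1) / Nat.gcd 2 (Fintype.card F - 1)) = 1 := fun g => by
    obtain ⟨x, hx⟩ : orderOf g ∈ Set.range (orderOf : PSL(2, F) → ℕ) := h1 ▸ ⟨g, rfl⟩
    have := psl2_orderOf_cases p x
    rwa [← orderOf_dvd_iff_pow_eq_one, hx, orderOf_dvd_iff_pow_eq_one, orderOf_dvd_iff_pow_eq_one,
      orderOf_dvd_iff_pow_eq_one] at this
  have hex : ∀ N, N = Fintype.card F - 1 ∨ N = Fintype.card F + 1 →
      ∃ x : G, orderOf x = N / Nat.gcd 2 (Fintype.card F - 1) := fun N hN => by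
    obtain ⟨-, a, -, -, ha⟩ := H12.exists_dihedralPair hN (by omega)
    exact ha ▸ (h1.symm ▸ ⟨a, rfl⟩ : orderOf a ∈ Set.range (orderOf : G → ℕ))
  have hc := H12.card_PSL2 (F := F) rfl
  rw [← h2] at hc
  have fin : ∀ (K : Type) [Field K] [Fintype K], Fintype.card K = Fintype.card F →
      Nonempty (G ≃* PSL(2, K)) → Nonempty (G ≃* PSL(2, F)) := fun K _ _ e ⟨f⟩ => by
    obtain ⟨f'⟩ := H12.nonempty_ringEquiv_of_natCard_eq (F := K) (K := F) (by
      rw [Nat.card_eq_fintype_card, Nat.card_eq_fintype_card, e])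
    exact ⟨f.trans (H12.pslCongr _ f')⟩
  have cp : ∀ a, a + 1 = Fintype.card F ∨ a = Fintype.card F + 1 → p.Coprime a := fun a ha =>
    (Nat.Prime.coprime_iff_not_dvd hp).mpr fun e => by
      have h3 : p ∣ Fintype.card F := hq ▸ dvd_pow_self p n.ne_zero
      rcases ha with e' | e'
      · exact hp.not_dvd_one ((Nat.dvd_add_right e).mp (e' ▸ h3))
      · exact hp.not_dvd_one ((Nat.dvd_add_right h3).mp (e' ▸ e))
  have sq : Fintype.card F ^ 2 - 1 = (Fintype.card F + 1) * (Fintype.card F - 1) :=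
    Nat.sq_sub_sq _ 1
  rcases hp.eq_two_or_odd' with rfl | hodd
  · have h3 : 2 ∣ Fintype.card F := hq ▸ dvd_pow_self 2 n.ne_zero
    have h4 : Nat.gcd 2 (Fintype.card F - 1) = 1 := cp _ (by omega)
    rw [h4, Nat.div_one, Nat.div_one] at hcov
    rw [h4, one_mul, sq] at hc
    have c1 := cp (Fintype.card F + 1) (by omega)
    have c2 := cp (Fintype.card F - 1) (by omega)
    have h : Tri G 2 _ _ := ⟨c1, c2, Nat.coprime_of_dvd fun k hk h5 h6 => by
      have := (Nat.prime_dvd_prime_iff_eq hk Nat.prime_two).mp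
        (show Fintype.card F + 1 - (Fintype.card F - 1) = 2 by omega ▸ Nat.dvd_sub h5 h6)
      subst this
      omega, hcov⟩
    obtain ⟨T⟩ : Nonempty (Sylow 2 G) := inferInstance
    have hT : Nat.card (T : Subgroup G) = Fintype.card F := by
      have h5 := c1.mul_right c2
      rw [T.card_eq_multiplicity, hc]
      generalize (Fintype.card F + 1) * (Fintype.card F - 1) = m at h5
      rw [hq, Nat.factorization_mul (by positivity) (by rintro rfl; simp at h5),
        Nat.prime_two.factorization_pow, Finsupp.add_apply, Finsupp.single_eq_same,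
        Nat.factorization_eq_zero_of_not_dvd ((Nat.Prime.coprime_iff_not_dvd hp).mp h5), add_zero]
    have h6 : ∀ g : G, (∃ k, orderOf g ∣ 2 ^ k) → g ^ 2 = 1 := fun g ⟨k, hk⟩ => by
      rcases hcov g with e | e | e
      · exact e
      · rw [orderOf_eq_one_iff.mp (Nat.eq_one_of_dvd_coprimes (c1.pow_left k) hk
          (orderOf_dvd_of_pow_eq_one e)), one_pow]
      · rw [orderOf_eq_one_iff.mp (Nat.eq_one_of_dvd_coprimes (c2.pow_left k) hk
          (orderOf_dvd_of_pow_eq_one e)), one_pow]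
    have hE : H11.EC T := by
      refine ⟨fun hT' => ?_, fun hT' => ?_, fun t ht => ?_⟩
      · obtain ⟨g, hg⟩ := IsCyclic.exists_ofOrder_eq_natCard (α := (T : Subgroup G))
        rw [← Subgroup.orderOf_coe, hT] at hg
        have := Nat.le_of_dvd two_pos (orderOf_dvd_of_pow_eq_one (h6 g ⟨n, by rw [hg, hq]⟩))
        omega
      · have h7 := h.card_eq T
        obtain ⟨i, hi⟩ := h.dvd_ty T ⟨_, hc.trans (mul_comm _ _)⟩ (c1.mul_right c2).symm
        rw [Tri.zero_of_coprime (a := Fintype.card F + 1) (by rw [hT.trans hq]; exact c1.pow_left _),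
          Tri.zero_of_coprime (a := Fintype.card F - 1) (by rw [hT.trans hq]; exact c2.pow_left _), hi, hT] at h7
        rcases i with _ | i
        · omega
        · have := Nat.mul_le_mul_left (Fintype.card F + 1) (show 1 ≤ Fintype.card F - 1 by omega)
          rw [mul_add_one] at h7
          omega
      · have h7 : ∀ c ∈ Subgroup.centralizer ({t} : Set G), c ^ 2 = 1 := fun c hc => by
          have ht1 : t ≠ 1 := fun e => by simp [e] at ht
          have h8 := Subgroup.orderOf_dvd_natCard _ hc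
          exact h6 c ⟨_, (Nat.eq_prime_pow_of_unique_prime_dvd (orderOf_pos c).ne' fun {d} hd h9 =>
            (Nat.prime_dvd_prime_iff_eq hd hp).mp (h.prime_dvd ht1 (ht ▸ pow_orderOf_eq_one t) hd
              (h9.trans h8))).dvd⟩
        refine ⟨⟨⟨fun a b => ?_⟩⟩, h7⟩
        have h1 : ∀ a : Subgroup.centralizer ({t} : Set G), a⁻¹ = a := fun a =>
          inv_eq_of_mul_eq_one_right (by rw [← _root_.sq]; exact Subtype.ext (h7 a a.2))
        rw [← h1 (a * b), mul_inv_rev, h1, h1]
    obtain ⟨K, _, _, h7, -, e⟩ := hE.iso_PSL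
    exact fin K (h7.trans hT) e
  have h3 : Fintype.card F % 2 = 1 := Nat.odd_iff.mp (hq ▸ hodd.pow)
  have h4 : Nat.gcd 2 (Fintype.card F - 1) = 2 := Nat.gcd_eq_left (by omega)
  rw [h4] at hcov hex hc
  obtain ⟨e, o, h5, h6, h7, h8, x, hx⟩ : ∃ e o, (e = o + 1 ∨ o = e + 1) ∧ Fintype.card F = e + o ∧
      2 ∣ e ∧ (∀ g : G, g ^ p = 1 ∨ g ^ o = 1 ∨ g ^ e = 1) ∧ ∃ x : G, orderOf x = e := by
    by_cases h5 : Fintype.card F % 4 = 1
    · exact ⟨_, _, by omega, by omega, by omega, hcov, hex _ (Or.inl rfl)⟩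
    · exact ⟨_, _, by omega, by omega, by omega, fun g => (hcov g).imp_right Or.symm, hex _ (Or.inr rfl)⟩
  have h : Tri G p o e := ⟨(cp (2 * o) (by omega)).coprime_mul_left_right,
    (cp (2 * e) (by omega)).coprime_mul_left_right, by rcases h5 with rfl | rfl <;> simp, h8⟩
  have hG : Nat.card G = p ^ (n : ℕ) * (o * (2 * e)) := by
    have : (Fintype.card F + 1) * (Fintype.card F - 1) = 2 * (o * (2 * e)) := by
      rw [h6]
      rcases h5 with rfl | rfl
      · rw [show o + 1 + o - 1 = 2 * o by omega]; ring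
      · rw [show e + (e + 1) - 1 = 2 * e by omega]; ring
    rw [sq, this, mul_left_comm, hq] at hc
    omega
  haveI := l2_simple hp h h5 (hq.symm.trans h6) h7 (by omega) hG
  have hn : ¬ IsMulCommutative G := not_comm_of_card_not_prime (by
    rw [hG, ← hq]; exact Nat.not_prime_mul (by omega) (by rw [mul_left_comm]; omega))
  have ho : Odd o := Nat.odd_iff.mpr (by omega)
  have hC := conc_of_cyclic hn hx h7 ⟨_, (hodd.pow (n := n)).mul ho, by rw [hG, mul_assoc]⟩
    fun z _ hz => by
      have h9 := h.rot.rot.cent_coprime (g := z) (fun e => by simp [e] at hz)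
        (orderOf_dvd_iff_pow_eq_one.mp (hz ▸ h7)) ((h.ac.pow_left n).mul_left h.bc)
      exact h9.symm.dvd_of_dvd_mul_left (by rw [mul_assoc, ← hG]; exact Subgroup.card_subgroup_dvd_card _)
  rcases hC with ⟨K, _, _, h9, h10, f⟩ | ⟨⟨f⟩⟩
  · refine fin K (cube_inj (by omega) ?_) f
    rw [← hc, ← card_of_PSL rfl f, Nat.gcd_eq_left (by obtain ⟨k, hk⟩ := h9; omega)]
  · rw [Nat.card_congr f.toEquiv, nat_card_alternatingGroup, Nat.card_eq_fintype_card,
      Fintype.card_fin] at hc
    norm_num [Nat.factorial] at hc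
    generalize Fintype.card F = q at *
    have : q < 18 := by
      by_contra hq
      have : 18 ^ 2 ≤ q ^ 2 := Nat.pow_le_pow_left (by omega) 2
      have : 18 * (18 ^ 2 - 1) ≤ q * (q ^ 2 - 1) := Nat.mul_le_mul (by omega) (by omega)
      omega
    interval_cases q <;> omega

end Cfsg.Agent.S3421
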