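import Cfsg.Statements.S4423
import Cfsg.Agent.H2.Zsig

set_option autoImplicit false
open Cfsg

namespace Cfsg.Agent.S4423

open Polynomial

theorem np_dvd {a n r : ℕ} (ha : 1 < a) (hn : n ≠ 0) (hr : r.Prime)
    (hd : r ∣ ((cyclotomic n ℤ).eval (a : ℤ)).natAbs) {k : ℕ} (k0 : 0 < k) (kn : k < n)
    (hk : r ∣ a ^ k - 1) : r ∣ n := by
  haveI := Fact.mk hr
  obtain ⟨e, m, he, -, h1, -⟩ := H2.zsig_prim hn hr (Int.natCast_dvd.2 hd)
  rcases Nat.eq_zero_or_pos e with rfl | h0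
  · rw [← ZMod.natCast_eq_zero_iff, Nat.cast_sub (Nat.one_le_pow _ _ (by omega)),
      sub_eq_zero] at hk
    have := Nat.le_of_dvd k0 (h1.dvd_of_pow_eq_one k (by simpa using hk))
    rw [pow_zero, one_mul] at he
    omega
  · exact he ▸ Dvd.dvd.mul_right (dvd_pow_self r h0.ne') m

theorem lt_of_dvd {a n r s : ℕ} (hn : n ≠ 0) (hr : r.Prime) (hs : s.Prime)
    (h1 : r ∣ ((cyclotomic n ℤ).eval (a : ℤ)).natAbs) (h3 : s ∣ n) (hrs : r ≠ s) : s < r := by
  obtain ⟨e, m, he, -, -, h4⟩ := H2.zsig_prim hn hr (Int.natCast_dvd.2 h1)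
  rw [he] at h3
  have := Nat.le_of_dvd (by have := hr.two_le; omega) ((((Nat.coprime_primes hs hr).2
    hrs.symm).pow_right e).dvd_of_dvd_mul_left h3 |>.trans h4)
  have := hr.two_le
  omega

theorem not_sq_dvd {a n r : ℕ} (ha : 1 < a) (hn : 3 ≤ n) (hr : r.Prime)
    (hrΦ : r ∣ ((cyclotomic n ℤ).eval (a : ℤ)).natAbs) (hrn : r ∣ n) :
    ¬ r ^ 2 ∣ ((cyclotomic n ℤ).eval (a : ℤ)).natAbs := by
  obtain ⟨d, rfl⟩ := hrn
  have hd0 : 0 < d := Nat.pos_of_ne_zero (by rintro rfl; simp at hn)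
  have hb1 : (1 : ℤ) < (a : ℤ) ^ d := one_lt_pow₀ (by exact_mod_cast ha) hd0.ne'
  have hdvd : (cyclotomic (r * d) ℤ).eval (a : ℤ) ∣
      ∑ i ∈ Finset.range r, ((a : ℤ) ^ d) ^ i * 1 ^ (r - 1 - i) := by
    have := eval_dvd (x := (a : ℤ)) (X_pow_sub_one_mul_cyclotomic_dvd_X_pow_sub_one_of_dvd ℤ
      (d := d) (n := r * d) (Nat.mem_properDivisors.2 ⟨Dvd.intro_left r rfl, by
        have := hr.two_le; nlinarith⟩))
    simp only [eval_mul, eval_sub, eval_pow, eval_X, eval_one] at this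
    rw [← mul_dvd_mul_iff_left (show (a : ℤ) ^ d - 1 ≠ 0 by omega), mul_comm _ (∑ _ ∈ _, _),
      geom_sum₂_mul, one_pow, ← pow_mul, mul_comm d r]
    exact this
  haveI := Fact.mk hr
  obtain ⟨e, m, he, hm, h1, h4⟩ := H2.zsig_prim (by omega) hr (Int.natCast_dvd.2 hrΦ)
  have hb : (r : ℤ) ∣ (a : ℤ) ^ d - 1 := by
    rw [← ZMod.intCast_zmod_eq_zero_iff_dvd]
    push_cast
    rw [sub_eq_zero, h1.pow_eq_one_iff_dvd]
    exact ((Nat.Prime.coprime_iff_not_dvd hr).2 hm).symm.dvd_of_dvd_mul_left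
      (he ▸ Dvd.intro_left _ rfl)
  intro hsq
  replace hsq : (r : ℤ) ^ 2 ∣ ∑ i ∈ Finset.range r, ((a : ℤ) ^ d) ^ i * 1 ^ (r - 1 - i) :=
    (Int.natCast_dvd.2 hsq : ((r ^ 2 : ℕ) : ℤ) ∣ _).trans hdvd |> fun h => by exact_mod_cast h
  rcases hr.eq_two_or_odd' with rfl | hodd
  · have hm1 : m = 1 := by simpa using h4
    subst hm1
    simp only [Finset.sum_range_succ, Finset.range_zero, Finset.sum_empty] at hsq hdvd
    rcases Nat.even_or_odd' d with ⟨c, rfl | rfl⟩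
    · rw [mul_comm 2 c, pow_mul] at hsq hb
      have : Odd ((a : ℤ) ^ c) := by
        rw [← Int.not_even_iff_odd]
        intro hev
        have := (hev.pow_of_ne_zero two_ne_zero).two_dvd
        omega
      have := Int.sq_mod_four_eq_one_of_odd this
      norm_num at hsq
      omega
    · have hc : c = 0 := by
        rcases e with _ | _ | e
        · omega
        · omega
        · exfalso; rw [pow_succ, pow_succ] at he; omega
      omega
  · obtain ⟨k, hk⟩ := hb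
    have h5 := odd_sq_dvd_geom_sum₂_sub (R := ℤ) 1 k hodd
    rw [← eq_add_of_sub_eq' hk, one_pow, mul_one] at h5
    have h6 := (dvd_sub hsq h5)
    rw [sub_sub_cancel, sq] at h6
    have h7 : r * r ∣ r * 1 := by exact_mod_cast (by simpa using h6 : (r : ℤ) * r ∣ r * 1)
    exact hr.one_lt.ne' (Nat.dvd_one.1 ((Nat.mul_dvd_mul_iff_left hr.pos).1 h7))


theorem exists_prim {a n : ℕ} (ha : 1 < a) (hn : 3 ≤ n) : ∃ m, m ∣ a ^ n - 1 ∧
    (∀ i, 1 ≤ i → i < n → Nat.Coprime m (a ^ i - 1)) ∧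
      ((cyclotomic n ℤ).eval (a : ℤ)).natAbs ≤ n * m := by
  set Φ := ((cyclotomic n ℤ).eval (a : ℤ)).natAbs with hΦ
  have hd : Φ ∣ a ^ n - 1 := by
    rw [← Int.natCast_dvd_natCast, hΦ, Int.natAbs_dvd, Nat.cast_sub (Nat.one_le_pow _ _ (by omega))]
    simpa using eval_dvd (x := (a : ℤ)) (cyclotomic.dvd_X_pow_sub_one n ℤ)
  by_cases h : ∃ r, r.Prime ∧ r ∣ Φ ∧ r ∣ n
  · obtain ⟨r, hr, ⟨m, hm⟩, h2⟩ := h
    have h1 : r ∣ Φ := ⟨m, hm⟩
    refine ⟨m, (Dvd.intro_left r hm.symm).trans hd, fun i i1 i2 => Nat.coprime_of_dvd fun s hs hsm hsi => ?_,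
      hm ▸ Nat.mul_le_mul_right _ (Nat.le_of_dvd (by omega) h2)⟩
    have h3 : s ∣ Φ := hsm.trans (Dvd.intro_left r hm.symm)
    have h4 := np_dvd ha (by omega) hs h3 i1 i2 hsi
    by_cases hrs : r = s
    · subst hrs
      exact not_sq_dvd ha hn hr h1 h2 (by rw [← hΦ, hm, sq]; exact Nat.mul_dvd_mul_left r hsm)
    · exact lt_asymm (lt_of_dvd (by omega) hr hs h1 h4 hrs) (lt_of_dvd (by omega) hs hr h3 h2 (Ne.symm hrs))
  · exact ⟨Φ, hd, fun i i1 i2 => Nat.coprime_of_dvd fun s hs hsm hsi =>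
      h ⟨s, hs, hsm, np_dvd ha (by omega) hs hsm i1 i2 hsi⟩, Nat.le_mul_of_pos_left _ (by omega)⟩

theorem prod_ge (n : ℕ) : (1 / 4 : ℝ) + (1 / 2) ^ (n + 2) ≤ ∏ b ∈ Finset.Icc 1 (n + 1), (1 - (1 / 2 : ℝ) ^ b) := by
  induction n with
  | zero => norm_num
  | succ n ih =>
    rw [Finset.prod_Icc_succ_top (by omega)]
    have h1 : (0 : ℝ) < (1 / 2) ^ (n + 2) := by positivity
    have h2 : ((1 : ℝ) / 2) ^ (n + 2) ≤ 1 / 4 := by
      rw [pow_add]
      have : ((1 : ℝ) / 2) ^ n ≤ 1 := pow_le_one₀ (by norm_num) (by norm_num)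
      nlinarith
    refine le_trans ?_ (mul_le_mul_of_nonneg_right ih (by linarith))
    rw [show n + 1 + 2 = n + 2 + 1 by ring, pow_succ _ (n + 2)]
    nlinarith

theorem pow_totient_le {a n : ℕ} (ha : 1 < a) (hn : 0 < n) :
    a ^ n.totient ≤ 4 * ((cyclotomic n ℤ).eval (a : ℤ)).natAbs := by
  have ha' : (2 : ℝ) ≤ a := by exact_mod_cast ha
  have hpos : ∀ d, 0 < (cyclotomic d ℝ).eval (a : ℝ) := fun d => cyclotomic_pos' d (by linarith)
  let g : ℕ → ℝ := fun b => Real.log (1 - (1 / (a : ℝ)) ^ b)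
  have hlt : ∀ b, 0 < b → 0 < 1 - (1 / 2 : ℝ) ^ b ∧ (1 / (a : ℝ)) ^ b ≤ (1 / 2) ^ b := fun b hb =>
    ⟨sub_pos.2 (pow_lt_one₀ (by norm_num) (by norm_num) hb.ne'),
      pow_le_pow_left₀ (by positivity) (one_div_le_one_div_of_le (by norm_num) ha') b⟩
  have hg : ∀ b, 0 < b → g b ≤ 0 := fun b hb => Real.log_nonpos (by linarith [hlt b hb])
    (by have : (0 : ℝ) ≤ (1 / (a : ℝ)) ^ b := by positivity
        linarith)
  have key := (ArithmeticFunction.sum_eq_iff_sum_mul_moebius_eq (R := ℝ)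
    (f := fun d => Real.log ((cyclotomic d ℝ).eval (a : ℝ)) - d.totient * Real.log a) (g := g)).1
    (fun k hk => by
      rw [Finset.sum_sub_distrib, ← Finset.sum_mul, ← Nat.cast_sum, Nat.sum_totient,
        ← Real.log_prod fun d _ => (hpos d).ne', ← eval_prod, prod_cyclotomic_eq_X_pow_sub_one hk,
        ← Real.log_pow, ← Real.log_div _ (by positivity)]
      · simp only [g, eval_sub, eval_pow, eval_X, eval_one]
        congr 1
        rw [one_div, inv_pow]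
        field_simp
      · simp only [eval_sub, eval_pow, eval_X, eval_one]
        exact (sub_pos.2 (one_lt_pow₀ (by linarith) hk.ne')).ne') n hn
  have h1 : ∑ b ∈ n.divisors, g b ≤ ∑ x ∈ n.divisorsAntidiagonal, (ArithmeticFunction.moebius x.1 : ℝ) * g x.2 := by
    rw [← Nat.sum_divisorsAntidiagonal' (fun _ b => g b)]
    refine Finset.sum_le_sum fun x hx => ?_
    have h2 := hg x.2 (Nat.pos_of_mem_divisors (Nat.snd_mem_divisors_of_mem_antidiagonal hx))
    have h3 : (ArithmeticFunction.moebius x.1 : ℝ) ≤ 1 := by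
      exact_mod_cast (abs_le.1 (ArithmeticFunction.abs_moebius_le_one (n := x.1))).2
    nlinarith
  have h2 : ∑ b ∈ Finset.Icc 1 n, g b ≤ ∑ b ∈ n.divisors, g b :=
    Finset.sum_le_sum_of_subset_of_nonpos' (fun b hb => Finset.mem_Icc.2
      ⟨Nat.pos_of_mem_divisors hb, Nat.divisor_le hb⟩) fun b hb _ => hg b (Finset.mem_Icc.1 hb).1
  have h3 : Real.log (1 / 4) ≤ ∑ b ∈ Finset.Icc 1 n, g b := by
    obtain ⟨k, rfl⟩ : ∃ k, n = k + 1 := ⟨n - 1, by omega⟩
    have := prod_ge k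
    have h0 : (0 : ℝ) < (1 / 2) ^ (k + 2) := by positivity
    refine (Real.log_le_log (by norm_num) (by linarith : _ ≤ ∏ b ∈ Finset.Icc 1 (k + 1),
      (1 - (1 / 2 : ℝ) ^ b))).trans ?_
    rw [Real.log_prod fun b hb => (hlt b (Finset.mem_Icc.1 hb).1).1.ne']
    exact Finset.sum_le_sum fun b hb => Real.log_le_log (hlt b (Finset.mem_Icc.1 hb).1).1
      (by linarith [hlt b (Finset.mem_Icc.1 hb).1])
  have h4 : Real.log ((a : ℝ) ^ n.totient * (1 / 4)) ≤ Real.log ((cyclotomic n ℝ).eval (a : ℝ)) := by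
    rw [Real.log_mul (by positivity) (by norm_num), Real.log_pow]
    linarith
  rw [Real.log_le_log_iff (by positivity) (hpos n)] at h4
  have h5 : (cyclotomic n ℝ).eval (a : ℝ) = (((cyclotomic n ℤ).eval (a : ℤ)).natAbs : ℝ) := by
    have := cyclotomic.eval_apply (a : ℤ) n (Int.castRingHom ℝ)
    simp only [eq_intCast, Int.cast_natCast] at this
    rw [Nat.cast_natAbs, Int.cast_abs, ← this, abs_of_pos (hpos n)]
  rw [h5] at h4
  have : ((a ^ n.totient : ℕ) : ℝ) ≤ ((4 * ((cyclotomic n ℤ).eval (a : ℤ)).natAbs : ℕ) : ℝ) := by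
    push_cast at h4 ⊢; linarith
  exact_mod_cast this

theorem le_totient_sq (n : ℕ) : n ≤ 2 * n.totient ^ 2 ∧ (Odd n → n ≤ n.totient ^ 2) := by
  induction n using Nat.recOnPosPrimePosCoprime with
  | zero => simp
  | one => simp
  | prime_pow p k hp hk =>
    obtain ⟨k, rfl⟩ : ∃ j, k = j + 1 := ⟨k - 1, by omega⟩
    rw [Nat.totient_prime_pow_succ hp]
    have h1 : 1 ≤ p ^ k := Nat.one_le_pow _ _ hp.pos
    obtain ⟨t, rfl⟩ : ∃ t, p = t + 2 := ⟨p - 2, by have := hp.two_le; omega⟩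
    rw [show t + 2 - 1 = t + 1 by omega, pow_succ]
    generalize (t + 2) ^ k = x at h1 ⊢
    have h2 : x ≤ x ^ 2 := by nlinarith
    refine ⟨by nlinarith [Nat.zero_le (x ^ 2 * t), Nat.zero_le (x ^ 2 * t ^ 2), Nat.mul_le_mul_right t h2],
      fun ho => ?_⟩
    have h3 : 1 ≤ t := by
      rcases t with _ | t
      · exact absurd ho (by simp [parity_simps])
      · omega
    nlinarith [Nat.mul_le_mul_right t h2, Nat.mul_le_mul (Nat.mul_le_mul h2 h3) h3]
  | coprime a b ha hb hab iha ihb =>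
    rw [Nat.totient_mul hab, mul_pow]
    refine ⟨?_, fun ho => Nat.mul_le_mul (iha.2 (Nat.odd_mul.1 ho).1) (ihb.2 (Nat.odd_mul.1 ho).2)⟩
    rcases Nat.even_or_odd a with h | h
    · have hb' : Odd b := by
        rw [← Nat.not_even_iff_odd]
        intro h'
        have := Nat.eq_one_of_dvd_coprimes hab h.two_dvd h'.two_dvd
        omega
      nlinarith [Nat.mul_le_mul iha.1 (ihb.2 hb')]
    · nlinarith [Nat.mul_le_mul (iha.2 h) ihb.1]

theorem two_pow_ge (k : ℕ) : 48 * (k + 24) ^ 4 + 8 * (k + 24) ^ 2 ≤ 2 ^ (k + 24) := by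
  induction k with
  | zero => norm_num
  | succ k ih =>
    rw [show k + 1 + 24 = k + 24 + 1 by ring, pow_succ 2]
    nlinarith [Nat.zero_le k, Nat.zero_le (k ^ 2), Nat.zero_le (k ^ 3), Nat.zero_le (k ^ 4)]

def cnt (e : ℕ) : ℕ → ℕ
  | 0 => 0
  | n + 1 => if Nat.gcd e n = 1 then cnt e n + 1 else cnt e n

theorem cnt_eq (e n : ℕ) : cnt e n = ((Finset.range n).filter fun a => e.Coprime a).card := by
  induction n with
  | zero => rfl
  | succ n ih =>
    rw [cnt, Finset.range_add_one, Finset.filter_insert]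
    split_ifs with h
    · rw [Finset.card_insert_of_notMem (by simp), ih]
    · exact ih

theorem chk0 : ∀ e < 1059, 42 < e → 4 * e * (3 * e + 1) ≤ 2 ^ cnt e (min e 120) := by decide +kernel

theorem chk1 (e : ℕ) (h1 : e < 1059) (h2 : 42 < e) : 4 * e * (3 * e + 1) ≤ 2 ^ e.totient := by
  refine (chk0 e h1 h2).trans (Nat.pow_le_pow_right (by norm_num) ?_)
  rw [cnt_eq, Nat.totient]
  exact Finset.card_le_card (Finset.filter_subset_filter _ (Finset.range_mono (min_le_left _ _)))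

def mm (q e : ℕ) : ℕ := (q ^ e - 1) / Nat.gcd (q ^ e - 1) (∏ i ∈ Finset.Ico 1 e, (q ^ i - 1))

set_option synthInstance.maxSize 1024 in
theorem chk2 : ∀ e < 43, 3 ≤ e → ∀ q < 147, 2 ≤ q → q ^ e.totient < 4 * e * (3 * e + 1) →
    (q, e) ∉ [(2, 6), (2, 4), (2, 10), (2, 12), (2, 18), (3, 4), (3, 6), (5, 6), (2, 3), (2, 8), (2, 20), (4, 3), (4, 6)] →
    Nat.Coprime (mm q e) (∏ i ∈ Finset.Ico 1 e, (q ^ i - 1)) ∧ 3 * e + 1 ≤ mm q e := by
  decide +kernel

theorem chk3 : ∀ x ∈ [(2, 6), (2, 4), (2, 10), (2, 12), (2, 18), (3, 4), (3, 6), (5, 6), (2, 3), (2, 8), (2, 20), (4, 3), (4, 6)],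
    0 < mm x.1 x.2 ∧ mm x.1 x.2 ≤ 2 * x.2 + 1 := by
  decide +kernel

/-- Size of the primitive part of `q^e - 1`. For a prime power `q` and `e ≥ 3`, call a divisor of `q^e - 1` primitive when it is coprime to `q^i - 1` for every `1 ≤ i < e`; the primitive part is the largest primitive divisor. Apart from thirteen exceptional pairs, the primitive part is at least `3e + 1`: there is a primitive divisor `m ≥ 3e + 1` unless `(q, e)` is `(2, 6)` (where every primitive divisor is 1), one of `(2,4), (2,10), (2,12), (2,18), (3,4), (3,6), (5,6)` (where the primitive part is exactly `e + 1`), or one of `(2,3), (2,8), (2,20), (4,3), (4,6)` (where it is exactly `2e + 1`). The statement asserts the existence of a primitive divisor `m ≥ 3e + 1` outside the thirteen pairs, and that every primitive divisor is at most `2e + 1` for the thirteen pairs. -/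
theorem result (q e : ℕ) (hq : IsPrimePow q) (he : 3 ≤ e) :
    ((q, e) ∉ [(2, 6), (2, 4), (2, 10), (2, 12), (2, 18), (3, 4), (3, 6), (5, 6), (2, 3), (2, 8), (2, 20), (4, 3), (4, 6)] →
      ∃ m : ℕ, m ∣ q ^ e - 1 ∧ (∀ i : ℕ, 1 ≤ i → i < e → Nat.Coprime m (q ^ i - 1)) ∧ 3 * e + 1 ≤ m) ∧
    ((q, e) ∈ [(2, 6), (2, 4), (2, 10), (2, 12), (2, 18), (3, 4), (3, 6), (5, 6), (2, 3), (2, 8), (2, 20), (4, 3), (4, 6)] →
      ∀ m : ℕ, m ∣ q ^ e - 1 → (∀ i : ℕ, 1 ≤ i → i < e → Nat.Coprime m (q ^ i - 1)) → m ≤ 2 * e + 1) := by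
  have hq2 : 2 ≤ q := hq.two_le
  refine ⟨fun hL => ?_, fun hL m hm hc => ?_⟩
  · by_cases hbig : 4 * e * (3 * e + 1) ≤ q ^ e.totient
    · obtain ⟨m, h1, h2, h3⟩ := exists_prim hq2 he
      refine ⟨m, h1, h2, ?_⟩
      have := pow_totient_le hq2 (show 0 < e by omega)
      exact Nat.le_of_mul_le_mul_left (show 4 * e * (3 * e + 1) ≤ 4 * e * m by nlinarith) (by omega)
    have h2q : 2 ^ e.totient ≤ q ^ e.totient := Nat.pow_le_pow_left hq2 _
    have h42 : e ≤ 42 := by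
      by_contra h
      by_cases h' : e < 1059
      · have := chk1 e h' (by omega); omega
      · have h1 := (le_totient_sq e).1
        obtain ⟨k, hk⟩ : ∃ k, e.totient = k + 24 := ⟨e.totient - 24, by
          have : 24 ≤ e.totient := by nlinarith
          omega⟩
        have h2 := two_pow_ge k
        rw [← hk] at h2
        nlinarith [Nat.mul_le_mul h1 h1]
    have h147 : q < 147 := by
      have h1 : 2 ≤ e.totient := by
        have := Nat.totient_even (show 2 < e by omega)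
        have h0 := Nat.totient_pos.2 (show 0 < e by omega)
        obtain ⟨k, hk⟩ := this
        omega
      have h2 : q ^ 2 ≤ q ^ e.totient := Nat.pow_le_pow_right (by omega) h1
      nlinarith
    obtain ⟨h1, h2⟩ := chk2 e (by omega) he q h147 hq2 (by omega) hL
    exact ⟨mm q e, Nat.div_dvd_of_dvd (Nat.gcd_dvd_left _ _), fun i i1 i2 =>
      h1.coprime_dvd_right (Finset.dvd_prod_of_mem (fun i => q ^ i - 1) (Finset.mem_Ico.2 ⟨i1, i2⟩)), h2⟩
  · obtain ⟨h1, h2⟩ := chk3 _ hL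
    have h3 : Nat.Coprime m (∏ i ∈ Finset.Ico 1 e, (q ^ i - 1)) :=
      Nat.Coprime.prod_right fun i hi => hc i (Finset.mem_Ico.1 hi).1 (Finset.mem_Ico.1 hi).2
    have h4 := h3.coprime_dvd_right (Nat.gcd_dvd_right (q ^ e - 1) _)
    rw [← Nat.div_mul_cancel (Nat.gcd_dvd_left (q ^ e - 1) (∏ i ∈ Finset.Ico 1 e, (q ^ i - 1)))] at hm
    exact (Nat.le_of_dvd h1 (h4.dvd_of_dvd_mul_right hm)).trans h2

end Cfsg.Agent.S4423
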