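import Cfsg.Statements.S3430
import Cfsg.Agent.S4423
-- import your own Cfsg.Agent.* helpers here

set_option autoImplicit false
open Cfsg

namespace Cfsg.Agent.S3430

open Cfsg.Agent.S4423

theorem big (q e : ℕ) (hq2 : 2 ≤ q) (he : 3 ≤ e)
    (hL : (q, e) ∉ [(2, 6), (2, 4), (2, 10), (2, 12), (2, 18), (3, 4), (3, 6), (5, 6), (2, 3), (2, 8),
      (2, 20), (4, 3), (4, 6)]) :
    ∃ m : ℕ, m ∣ q ^ e - 1 ∧ (∀ i : ℕ, 1 ≤ i → i < e → Nat.Coprime m (q ^ i - 1)) ∧ 3 * e + 1 ≤ m := by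
  by_cases hbig : 4 * e * (3 * e + 1) ≤ q ^ e.totient
  · obtain ⟨m, h1, h2, h3⟩ := exists_prim hq2 he
    refine ⟨m, h1, h2, ?_⟩
    have := pow_totient_le hq2 (show 0 < e by omega)
    exact Nat.le_of_mul_le_mul_left (show 4 * e * (3 * e + 1) ≤ 4 * e * m by nlinarith) (by omega)
  have h2q : 2 ^ e.totient ≤ q ^ e.totient := Nat.pow_le_pow_left hq2 _
  have h42 : e ≤ 42 := by
    by_contra h
    by_cases h' : e < 1059
    · have := chk1 e h' (by omega); omega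
    · have h1 := (le_totient_sq e).1
      obtain ⟨k, hk⟩ : ∃ k, e.totient = k + 24 := ⟨e.totient - 24, by
        have : 24 ≤ e.totient := by nlinarith
        omega⟩
      have h2 := two_pow_ge k
      rw [← hk] at h2
      nlinarith [Nat.mul_le_mul h1 h1]
  have h147 : q < 147 := by
    have h1 : 2 ≤ e.totient := by
      have := Nat.totient_even (show 2 < e by omega)
      have h0 := Nat.totient_pos.2 (show 0 < e by omega)
      obtain ⟨k, hk⟩ := this
      omega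
    have h2 : q ^ 2 ≤ q ^ e.totient := Nat.pow_le_pow_right (by omega) h1
    nlinarith
  obtain ⟨h1, h2⟩ := chk2 e (by omega) he q h147 hq2 (by omega) hL
  exact ⟨mm q e, Nat.div_dvd_of_dvd (Nat.gcd_dvd_left _ _), fun i i1 i2 =>
    h1.coprime_dvd_right (Finset.dvd_prod_of_mem (fun i => q ^ i - 1) (Finset.mem_Ico.2 ⟨i1, i2⟩)), h2⟩


/-- Let q, n ≥ 2 be integers. Unless (n = 2 and q + 1 = 2^s·3^t for some s ≥ 0 and t ≤ 1), or (q = 2 and n ∈ {4, 6, 10, 12, 18}), or (q = 3 and n ∈ {4, 6}), or (q, n) = (5, 6), there is a prime p dividing q^n − 1 but no q^i − 1 with 1 ≤ i < n (a primitive prime divisor), such that p > n + 1 or p² divides q^n − 1. -/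
theorem result (q n : ℕ) (hq : 2 ≤ q) (hn : 2 ≤ n)
    (h1 : ¬ (n = 2 ∧ ∃ s t : ℕ, t ≤ 1 ∧ q + 1 = 2 ^ s * 3 ^ t))
    (h2 : ¬ (q = 2 ∧ (n = 4 ∨ n = 6 ∨ n = 10 ∨ n = 12 ∨ n = 18)))
    (h3 : ¬ (q = 3 ∧ (n = 4 ∨ n = 6))) (h4 : ¬ (q = 5 ∧ n = 6)) :
    ∃ p : ℕ, p.Prime ∧ p ∣ q ^ n - 1 ∧ (∀ i : ℕ, 1 ≤ i → i < n → ¬ p ∣ q ^ i - 1) ∧ (n + 1 < p ∨ p ^ 2 ∣ q ^ n - 1) := by
  rcases hn.eq_or_lt with rfl | hn
  · have hsq : q ^ 2 - 1 = (q + 1) * (q - 1) := by simpa using Nat.sq_sub_sq q 1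
    have key : ∀ p, p.Prime → p ≠ 2 → p ∣ q + 1 → ∀ i, 1 ≤ i → i < 2 → ¬ p ∣ q ^ i - 1 := by
      intro p hp h2 hd i i1 i2 hd'
      rw [show i = 1 by omega, pow_one] at hd'
      have := Nat.dvd_sub hd hd'
      rw [show q + 1 - (q - 1) = 2 by omega] at this
      exact h2 ((Nat.prime_dvd_prime_iff_eq hp Nat.prime_two).1 this)
    obtain ⟨s, a, ha, e1⟩ := Nat.exists_eq_pow_mul_and_not_dvd (Nat.succ_ne_zero q) 2 (by norm_num)
    obtain ⟨t, b, hb, e2⟩ := Nat.exists_eq_pow_mul_and_not_dvd (n := a) (by rintro rfl; simp at ha) 3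
      (by norm_num)
    rw [Nat.succ_eq_add_one, e2] at e1
    by_cases h : b = 1
    · have ht : 2 ≤ t := by
        by_contra h'
        exact h1 ⟨rfl, s, t, by omega, by rw [e1, h, mul_one]⟩
      have h9 : 3 ^ 2 ∣ q + 1 := e1 ▸ ((pow_dvd_pow 3 ht).mul_right b).mul_left _
      have h3 : 3 ∣ q + 1 := (dvd_pow_self 3 two_ne_zero).trans h9
      exact ⟨3, Nat.prime_three, hsq ▸ h3.mul_right _, key 3 Nat.prime_three (by norm_num) h3,
        Or.inr (hsq ▸ h9.mul_right _)⟩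
    · obtain ⟨p, hp, hd⟩ := Nat.exists_prime_and_dvd h
      have h2 : p ≠ 2 := by rintro rfl; exact ha (e2 ▸ hd.mul_left _)
      have h3 : p ≠ 3 := by rintro rfl; exact hb hd
      have h4 : p ∣ q + 1 := e1 ▸ (hd.mul_left _).mul_left _
      have := hp.two_le
      exact ⟨p, hp, hsq ▸ h4.mul_right _, key p hp h2 h4, Or.inl (by omega)⟩
  by_cases hL : (q, n) ∈ [(2, 6), (2, 4), (2, 10), (2, 12), (2, 18), (3, 4), (3, 6), (5, 6), (2, 3), (2, 8),
      (2, 20), (4, 3), (4, 6)]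
  · simp only [List.mem_cons, Prod.mk.injEq, List.not_mem_nil, or_false] at hL
    rcases hL with h | h | h | h | h | h | h | h | ⟨rfl, rfl⟩ | ⟨rfl, rfl⟩ | ⟨rfl, rfl⟩ | ⟨rfl, rfl⟩ | ⟨rfl, rfl⟩
    iterate 8 omega
    · exact ⟨7, by norm_num, by norm_num, fun i _ _ => by interval_cases i <;> norm_num, by norm_num⟩
    · exact ⟨17, by norm_num, by norm_num, fun i _ _ => by interval_cases i <;> norm_num, by norm_num⟩
    · exact ⟨41, by norm_num, by norm_num, fun i _ _ => by interval_cases i <;> norm_num, by norm_num⟩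
    · exact ⟨7, by norm_num, by norm_num, fun i _ _ => by interval_cases i <;> norm_num, by norm_num⟩
    · exact ⟨13, by norm_num, by norm_num, fun i _ _ => by interval_cases i <;> norm_num, by norm_num⟩
  obtain ⟨m, hm, hc, hle⟩ := big q n hq hn hL
  by_contra hcon
  push Not at hcon
  have hpr : ∀ p, p.Prime → p ∣ m → ∀ i, 1 ≤ i → i < n → ¬ p ∣ q ^ i - 1 := fun p hp hd i i1 i2 hd' =>
    hp.one_lt.ne' (Nat.eq_one_of_dvd_coprimes (hc i i1 i2) hd hd')
  have key : ∀ p, p.Prime → p ∣ m → p = n + 1 := fun p hp hd => by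
    refine le_antisymm (hcon p hp (hd.trans hm) (hpr p hp hd)).1 (not_lt.1 fun h => ?_)
    have h0 := hp.two_le
    refine hpr p hp hd (p - 1) (by omega) (by omega) ?_
    have h5 : q.Coprime p := (Nat.coprime_comm.1 ((Nat.Prime.coprime_iff_not_dvd hp).2 fun h => ?_))
    · have := Nat.ModEq.pow_totient h5
      rw [Nat.totient_prime hp] at this
      exact (Nat.modEq_iff_dvd' (Nat.one_le_pow _ _ (by omega))).1 this.symm
    · have h6 := Nat.dvd_sub (h.trans (dvd_pow_self q (by omega : n ≠ 0))) (hd.trans hm)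
      rw [Nat.sub_sub_self (Nat.one_le_pow _ _ (by omega))] at h6
      exact hp.one_lt.ne' (Nat.dvd_one.1 h6)
  obtain ⟨p, hp, hd⟩ := Nat.exists_prime_and_dvd (show m ≠ 1 by omega)
  have h5 := Nat.eq_prime_pow_of_unique_prime_dvd (show m ≠ 0 by omega)
    fun {r} hr hd' => (key r hr hd').trans (key p hp hd).symm
  generalize m.primeFactorsList.length = j at h5
  rcases j with _ | _ | j
  · rw [pow_zero] at h5; omega
  · rw [zero_add, pow_one, key p hp hd] at h5; omega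
  · exact (hcon p hp (hd.trans hm) (hpr p hp hd)).2 ((pow_dvd_pow p (by omega)).trans (h5 ▸ hm))

end Cfsg.Agent.S3430
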