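import Cfsg.Statements.S3504
import Mathlib
import Cfsg.Agent.H2.Perm1

set_option autoImplicit false
open Cfsg

namespace Cfsg.Agent.S3504

open Equiv Equiv.Perm
theorem aux {n : ℕ} {g : Perm (Fin n)} (hg : (orderOf g).Prime) (h : ∀ i, g i ≠ i) :
    orderOf g ∣ n ∧ g.cycleType = Multiset.replicate (n / orderOf g) (orderOf g) := by
  obtain ⟨m, hm⟩ := cycleType_prime_order hg
  have h1 := g.sum_cycleType
  have h2 : g.support = Finset.univ := Finset.eq_univ_of_forall fun i => mem_support.2 (h i)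
  rw [h2, hm] at h1
  simp only [Multiset.sum_replicate, smul_eq_mul, Finset.card_univ, Fintype.card_fin] at h1
  refine ⟨⟨m + 1, by linarith⟩, ?_⟩
  rw [hm]; congr 1
  exact (Nat.div_eq_of_eq_mul_left hg.pos h1.symm).symm

theorem ex {n p : ℕ} (hn : 0 < n) (hp : p.Prime) (h : p ∣ n) :
    ∃ g : Perm (Fin n), orderOf g = p ∧ ∀ i, g i ≠ i := by
  obtain ⟨m, rfl⟩ := h
  obtain ⟨g, hg⟩ := (exists_with_cycleType_iff (Fin (p * m)) (m := Multiset.replicate m p)).2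
    ⟨by simp [mul_comm], fun a ha => (Multiset.eq_of_mem_replicate ha) ▸ hp.two_le⟩
  have hm : m ≠ 0 := by rintro rfl; simp at hn
  refine ⟨g, ?_, fun i => mem_support.1 ?_⟩
  · rw [← lcm_cycleType, hg]
    refine Nat.dvd_antisymm (Multiset.lcm_dvd.2 fun a ha => (Multiset.eq_of_mem_replicate ha) ▸ dvd_rfl)
      (Multiset.dvd_lcm (Multiset.mem_replicate.2 ⟨hm, rfl⟩))
  · have h1 := g.sum_cycleType
    rw [hg] at h1
    rw [Finset.eq_univ_of_card g.support (by rw [← h1]; simp [mul_comm])]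
    exact Finset.mem_univ _

/-- For n ≥ 5, the fixed-point-free permutations of prime order in the symmetric group of degree n form a single conjugacy class if and only if n is a prime power. -/
theorem result (n : ℕ) (hn : 5 ≤ n) :
    Nat.card {c : ConjClasses (Equiv.Perm (Fin n)) // ∃ g : Equiv.Perm (Fin n), ConjClasses.mk g = c ∧ (orderOf g).Prime ∧ ∀ i : Fin n, g i ≠ i} = 1 ↔ IsPrimePow n := by
  rw [Nat.card_eq_one_iff_unique, isPrimePow_iff_unique_prime_dvd]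
  constructor
  · rintro ⟨hs, -⟩
    obtain ⟨p, hp, hpn⟩ := Nat.exists_prime_and_dvd (n := n) (by omega)
    refine ⟨p, ⟨hp, hpn⟩, fun q ⟨hq, hqn⟩ => ?_⟩
    obtain ⟨g, rfl, hg⟩ := ex (by omega) hp hpn
    obtain ⟨g', rfl, hg'⟩ := ex (by omega) hq hqn
    have := congrArg Subtype.val (hs.elim ⟨_, g, rfl, hp, hg⟩ ⟨_, g', rfl, hq, hg'⟩)
    rw [ConjClasses.mk_eq_mk_iff_isConj, isConj_iff_cycleType_eq] at this
    rw [← lcm_cycleType, ← lcm_cycleType, this]
  · rintro ⟨p, ⟨hp, hpn⟩, hu⟩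
    refine ⟨⟨?_⟩, ?_⟩
    · rintro ⟨_, g, rfl, hg, h⟩ ⟨_, g', rfl, hg', h'⟩
      refine Subtype.ext (ConjClasses.mk_eq_mk_iff_isConj.2 (isConj_iff_cycleType_eq.2 ?_))
      rw [(aux hg h).2, (aux hg' h').2, hu _ ⟨hg, (aux hg h).1⟩, hu _ ⟨hg', (aux hg' h').1⟩]
    · obtain ⟨g, rfl, hg⟩ := ex (by omega) hp hpn
      exact ⟨⟨_, g, rfl, hp, hg⟩⟩

end Cfsg.Agent.S3504
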