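import Cfsg.Statements.S3508
import Mathlib
import Cfsg.Agent.H2.Perm8
import Cfsg.Agent.H9.EAMod

set_option autoImplicit false
open Cfsg

namespace Cfsg.Agent.S3508

open MulAction Polynomial H2.Pm

/-- Let a finite group G act faithfully on a set Ω with p ^ m points (p prime) and have an elementary abelian normal p-subgroup N acting regularly on Ω (so G is a group of affine transformations of an m-dimensional space over the field with p elements). If G contains an element of order p ^ r with r ≥ 1, then p ^ (r − 1) ≤ m. In particular an element of order p ^ m forces m ≤ 2, and m ≤ 1 when p is odd. -/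
theorem result {G : Type*} [Group G] [Finite G] {Ω : Type*} [Fintype Ω] [MulAction G Ω] [FaithfulSMul G Ω] (p m : ℕ) (hp : p.Prime) (hcard : Fintype.card Ω = p ^ m)
    (N : Subgroup G) [N.Normal] (hNc : IsMulCommutative N) (hNp : ∀ n ∈ N, n ^ p = 1)
    (hNtr : MulAction.IsPretransitive N Ω) (hNreg : ∀ ω : Ω, MulAction.stabilizer N ω = ⊥)
    (g : G) (r : ℕ) (hr : 1 ≤ r) (hg : orderOf g = p ^ r) :
    p ^ (r - 1) ≤ m ∧ (r = m → m ≤ 2 ∧ (2 < p → m ≤ 1)) := by
  have key : p ^ (r - 1) ≤ m := by
    by_contra hlt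
    have : Fact p.Prime := ⟨hp⟩
    have hne : Nonempty Ω := Fintype.card_pos_iff.1 (hcard ▸ pow_pos hp.pos _)
    obtain ⟨a⟩ := hne
    have htr := (trans_subgroup_iff N).1 hNtr
    have hreg : ∀ n ∈ N, ∀ a : Ω, n • a = a → n = 1 := fun n hn a h => by
      have : (⟨n, hn⟩ : N) ∈ stabilizer N a := h
      rw [hNreg, Subgroup.mem_bot] at this
      exact congrArg Subtype.val this
    have hc := card_eq_of_regular htr hreg a
    have hV : Cfsg.IsElementaryAbelian p N := ⟨hNc, hNp⟩
    have hH : (⊤ : Subgroup G) ≤ Subgroup.normalizer (N : Set G) := Subgroup.le_normalizer_of_normal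
    let c : G →* Module.End (ZMod p) (H9.EAMod hV) :=
      (H9.eaRep hV hH).comp Subgroup.topEquiv.symm.toMonoidHom
    have hcv : ∀ g v, (c g v).val = g * v.val * g⁻¹ := fun g v => H9.val_eaRep (hH := hH) _ _
    have hfr : Module.finrank (ZMod p) (H9.EAMod hV) = m := by
      have := Module.natCard_eq_pow_finrank (K := ZMod p) (V := H9.EAMod hV)
      rw [Nat.card_zmod, H9.EAMod.card_eq, hc, Nat.card_eq_fintype_card, hcard] at this
      exact (Nat.pow_right_injective hp.two_le this).symm
    have hpw : ∀ s, (c g - 1) ^ p ^ s = c (g ^ p ^ s) - 1 := fun s => by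
      have := congrArg (aeval (c g)) (sub_pow_char_pow (X : (ZMod p)[X]) 1 (p := p) (n := s))
      simpa using this
    have hnil : IsNilpotent (c g - 1) := ⟨p ^ r, by rw [hpw, ← hg, pow_orderOf_eq_one]; simp⟩
    have h0 : (c g - 1) ^ m = 0 := by
      have := (c g - 1).aeval_self_charpoly
      rwa [hnil.charpoly_eq_X_pow_finrank, hfr, map_pow, aeval_X] at this
    set k := p ^ (r - 1) with hk
    have hk0 : 0 < k := pow_pos hp.pos _
    have hgeo : ∑ i ∈ Finset.range k, c g ^ i = 0 := by
      have h1 : ∑ i ∈ Finset.range k, (X : (ZMod p)[X]) ^ i = (X - 1) ^ (k - 1) := by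
        apply mul_right_cancel₀ (X_sub_C_ne_zero (1 : ZMod p))
        rw [C_1, geom_sum_mul, ← pow_succ, Nat.sub_add_cancel hk0, hk, sub_pow_char_pow, one_pow]
      have := congrArg (aeval (c g)) h1
      simp only [map_sum, map_pow, aeval_X, map_sub, map_one] at this
      rw [this, pow_eq_zero_of_le (by omega) h0]
    obtain ⟨n, hn, hna⟩ := htr a (g • a)
    have h2 : ∀ j, g ^ j • a = ((∑ i ∈ Finset.range j, c g ^ i) (H9.EAMod.mk hV n hn)).val • a := by
      intro j
      induction j with
      | zero => simp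
      | succ j ih =>
        rw [Finset.sum_range_succ', pow_succ', mul_smul, ih]
        simp only [pow_succ', ← Finset.mul_sum, LinearMap.add_apply, Module.End.mul_apply, pow_zero,
          Module.End.one_apply, H9.EAMod.val_add, mul_smul, H9.EAMod.val_mk, hna, hcv, inv_smul_smul]
    have h3 : c (g ^ k) = 1 := by
      rw [← sub_eq_zero, ← hpw, pow_eq_zero_of_le (by omega) h0]
    have h4 : g ^ k = 1 := eq_one_of_commute_trans htr (a := a) (fun x hx => by
      have := hcv (g ^ k) (H9.EAMod.mk hV x hx)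
      rw [h3, Module.End.one_apply, H9.EAMod.val_mk] at this
      exact (eq_mul_inv_iff_mul_eq.1 this).symm) (by rw [h2, hgeo]; simp)
    have := Nat.le_of_dvd hk0 (orderOf_dvd_of_pow_eq_one h4)
    rw [hg, hk] at this
    exact absurd this (not_le.2 (Nat.pow_lt_pow_right hp.one_lt (by omega)))
  refine ⟨key, ?_⟩
  rintro rfl
  have h1 : ∀ q, 2 ≤ q → ∀ j, 1 + j * (q - 1) ≤ q ^ j := fun q hq j => by
    have := one_add_mul_le_pow (a := ((q - 1 : ℕ) : ℤ)) (by omega) j
    have h2 : (1 + ((q - 1 : ℕ) : ℤ)) = q := by omega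
    rw [h2] at this
    exact_mod_cast this
  constructor
  · by_contra h
    obtain ⟨s, rfl⟩ : ∃ s, r = s + 3 := ⟨r - 3, by omega⟩
    have h2 := Nat.pow_le_pow_left hp.two_le (s + 3 - 1)
    have h3 := h1 2 le_rfl s
    rw [show s + 3 - 1 = s + 2 by omega] at h2 key
    rw [pow_add] at h2
    omega
  · intro h
    have h2 : 3 ^ (r - 1) ≤ _ := Nat.pow_le_pow_left h (r - 1)
    have h3 := h1 3 (by omega) (r - 1)
    omega

end Cfsg.Agent.S3508
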