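import Cfsg.Statements.S3511
import Mathlib
import Cfsg.Agent.H2.Perm1

set_option autoImplicit false
open Cfsg

namespace Cfsg.Agent.S3511

open MulAction Subgroup

/-- Let a finite group G act faithfully on a set Ω. If every element of G of square-free order has a regular cycle (an orbit of the cyclic group it generates with trivial stabilizer), then every element of G has a regular cycle. -/
theorem result {G : Type*} [Group G] [Finite G] {Ω : Type*} [MulAction G Ω] [FaithfulSMul G Ω]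
    (h : ∀ g : G, Squarefree (orderOf g) → ∃ ω : Ω, MulAction.stabilizer (Subgroup.zpowers g) ω = ⊥) (g : G) :
    ∃ ω : Ω, MulAction.stabilizer (Subgroup.zpowers g) ω = ⊥ := by
  have hn : orderOf g ≠ 0 := (orderOf_pos g).ne'
  set r := UniqueFactorizationMonoid.radical (orderOf g) with hr
  have hrd : r ∣ orderOf g := UniqueFactorizationMonoid.radical_dvd_self
  obtain ⟨ω, hω⟩ := h (g ^ (orderOf g / r)) (by
    rw [orderOf_pow_orderOf_div hn hrd]; exact UniqueFactorizationMonoid.squarefree_radical)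
  refine ⟨ω, (eq_bot_iff_forall _).2 fun x hx => ?_⟩
  by_contra hx1
  obtain ⟨q, hq, hqx⟩ := Nat.exists_prime_and_dvd (mt orderOf_eq_one_iff.1 hx1)
  have hy := orderOf_pow_orderOf_div (orderOf_pos x).ne' hqx
  have hyω := (stabilizer _ ω).pow_mem hx (orderOf x / q)
  generalize x ^ (orderOf x / q) = y at hy hyω
  obtain ⟨y, k, rfl⟩ := y
  have h1 : (orderOf g : ℤ) ∣ k * q := by
    rw [orderOf_dvd_iff_zpow_eq_one, zpow_mul, zpow_natCast]
    have := pow_orderOf_eq_one (⟨g ^ k, k, rfl⟩ : zpowers g)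
    rw [hy] at this
    exact congrArg Subtype.val this
  have hqg : q ∣ orderOf g := by
    rw [← hy, ← Nat.card_zpowers g]; exact orderOf_dvd_natCard _
  have hqr : q ∣ r := (UniqueFactorizationMonoid.dvd_radical_iff_of_irreducible hq hn).2 hqg
  obtain ⟨r', hr'⟩ := hqr
  obtain ⟨m, hm⟩ := hrd
  have hr0 : 0 < r := Nat.pos_of_dvd_of_pos ⟨m, hm⟩ (orderOf_pos g)
  have hm' : orderOf g / r = m := by rw [hm, Nat.mul_div_cancel_left _ hr0]
  have h2 : (m : ℤ) ∣ k := by
    rw [hm, hr'] at h1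
    push_cast at h1
    have : (m : ℤ) * q ∣ k * q := Dvd.dvd.trans ⟨r', by ring⟩ h1
    exact (mul_dvd_mul_iff_right (by exact_mod_cast hq.ne_zero)).1 this
  obtain ⟨j, rfl⟩ := h2
  rw [hm'] at hω
  have h3 : (⟨g ^ ((m : ℤ) * j), j, by simp [zpow_mul]⟩ : zpowers (g ^ m)) ∈
      stabilizer (zpowers (g ^ m)) ω := hyω
  rw [hω, mem_bot] at h3
  have h4 : (⟨g ^ ((m : ℤ) * j), _, rfl⟩ : zpowers g) = 1 := Subtype.ext (Subtype.ext_iff.1 h3 :)
  rw [h4, orderOf_one] at hy
  exact hq.one_lt.ne hy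

end Cfsg.Agent.S3511
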