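import Cfsg.Statements.S3514
import Mathlib
import Cfsg.Agent.H1.Basic

set_option autoImplicit false
open Cfsg

namespace Cfsg.Agent.S3514

open Subgroup MulAction
theorem card_orb {G X : Type*} [Group G] [MulAction G X] (A : Subgroup G) (v : X) :
    Nat.card {u : X | ∃ h ∈ A, h • v = u} = (stabilizer G v).relIndex A := by
  rw [relIndex, show (stabilizer G v).subgroupOf A = stabilizer A v from rfl, index_stabilizer,
    ← Nat.card_coe_set_eq]
  congr 2
  ext u
  simp [mem_orbit_iff]

theorem rel_sup {G : Type*} [Group G] [Finite G] {K A : Subgroup G}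
    (h : A ≤ normalizer (K : Set G)) : A.relIndex (K ⊔ A) = A.relIndex K := by
  have h1 := H1.card_sup_mul_card_inf h
  have h2 := H1.card_mul_relIndex (le_sup_right : A ≤ K ⊔ A)
  have h3 := H1.card_inf_mul_relIndex A K
  rw [← h2, ← h3, inf_comm K A] at h1
  have hp : 0 < Nat.card A * Nat.card (A ⊓ K : Subgroup G) := Nat.mul_pos Nat.card_pos Nat.card_pos
  apply Nat.eq_of_mul_eq_mul_left hp
  linarith

/-- Let p be a prime, V a finite vector space over the field with p elements, and H a group of linear transformations of V all of whose orbits on V have size coprime to p. (i) Every normal subgroup K of H has all its orbits on V of size coprime to p. (ii) If N is a group of linear transformations of V of order coprime to p that is normalized by H, then the group generated by N and H has all its orbits on V of size coprime to p. -/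
theorem result (p : ℕ) [Fact p.Prime] {V : Type*} [AddCommGroup V] [Module (ZMod p) V] [Finite V]
    (H : Subgroup (V ≃ₗ[ZMod p] V)) (hH : ∀ v : V, ¬ p ∣ Nat.card {u : V | ∃ h ∈ H, h v = u}) :
    (∀ K : Subgroup (V ≃ₗ[ZMod p] V), K ≤ H → H ≤ Subgroup.normalizer (K : Set (V ≃ₗ[ZMod p] V)) →
        ∀ v : V, ¬ p ∣ Nat.card {u : V | ∃ k ∈ K, k v = u}) ∧
    (∀ N : Subgroup (V ≃ₗ[ZMod p] V), ¬ p ∣ Nat.card N → H ≤ Subgroup.normalizer (N : Set (V ≃ₗ[ZMod p] V)) →
        ∀ v : V, ¬ p ∣ Nat.card {u : V | ∃ x ∈ N ⊔ H, x v = u}) := by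
  have : Finite (V ≃ₗ[ZMod p] V) := Finite.of_injective _ DFunLike.coe_injective
  have hp : p.Prime := Fact.out
  refine ⟨fun K hK hn v hd => hH v ?_, fun N hN hn v hd => ?_⟩
  · refine (card_orb H v).symm ▸ ((card_orb K v) ▸ hd).trans ?_
    rw [← inf_relIndex_right _ H, ← relIndex_mul_relIndex _ (K ⊔ (stabilizer _ v ⊓ H)) H le_sup_right
      (sup_le hK inf_le_right), rel_sup (inf_le_right.trans hn),
      ← inf_relIndex_right (_ ⊓ H) K, inf_assoc, inf_eq_right.2 hK, inf_relIndex_right]
    exact dvd_mul_right _ _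
  · have h1 := ((card_orb (N ⊔ H) v) ▸ hd).trans
      (relIndex_dvd_of_le_left (N ⊔ H) (inf_le_left : stabilizer _ v ⊓ H ≤ _))
    rw [← relIndex_mul_relIndex _ H _ inf_le_right le_sup_right, inf_relIndex_right, rel_sup hn] at h1
    rcases hp.dvd_mul.1 h1 with h | h
    · exact hH v ((card_orb H v).symm ▸ h)
    · exact hN (h.trans (relIndex_dvd_card _ _))

end Cfsg.Agent.S3514
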