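import Cfsg.Statements.S3515
import Mathlib
import Cfsg.Agent.H2.Aff

set_option autoImplicit false
open Cfsg

namespace Cfsg.Agent.S3515

theorem four : ∀ x : Fin 2 → ZMod 2, x ≠ ![1, 1] → x = ![0, 0] ∨ x = ![0, 1] ∨ x = ![1, 0] := by
  decide

/-- Every primitive affine permutation group of degree p² is 3-closed. Let p be a prime and G a group of permutations of the plane V = F_p² consisting of affine maps x ↦ Ax + b, containing all translations, and acting primitively on V. Then any permutation σ of V that agrees on every triple of points with some element of G (σ preserves every G-orbit on ordered triples) already lies in G. -/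
theorem result (p : ℕ) [Fact p.Prime] (G : Subgroup (Equiv.Perm (Fin 2 → ZMod p)))
    (haff : (G : Set (Equiv.Perm (Fin 2 → ZMod p))) ⊆ {τ : Equiv.Perm (Fin 2 → ZMod p) | ∃ (A : (Fin 2 → ZMod p) ≃ₗ[ZMod p] (Fin 2 → ZMod p)) (b : Fin 2 → ZMod p), ∀ x, τ x = A x + b})
    (htrans : ∀ b : Fin 2 → ZMod p, ∃ g ∈ G, ∀ x, g x = x + b) (hprim : MulAction.IsPreprimitive G (Fin 2 → ZMod p))
    (σ : Equiv.Perm (Fin 2 → ZMod p)) (hσ : (∀ t : Fin 3 → (Fin 2 → ZMod p), ∃ g ∈ G, ∀ i, σ (t i) = g (t i))) : σ ∈ G := by
  by_cases hp : p = 2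
  · subst hp
    obtain ⟨g, hg, h⟩ := hσ ![![0, 0], ![0, 1], ![1, 0]]
    have h0 := h 0
    have h1 := h 1
    have h2 := h 2
    simp only [Matrix.cons_val] at h0 h1 h2
    have key : ∀ x : Fin 2 → ZMod 2, x ≠ ![1, 1] → σ x = g x := by
      intro x hx
      rcases four x hx with rfl | rfl | rfl <;> assumption
    have : σ = g := by
      ext1 x
      by_cases hx : x = ![1, 1]
      · by_contra hne
        obtain ⟨y, hy⟩ := σ.surjective (g x)
        have hyx : y ≠ x := by rintro rfl; exact hne hy
        rw [key y (hx ▸ hyx)] at hy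
        exact hyx (g.injective hy)
      · exact key x hx
    exact this ▸ hg
  · obtain ⟨A, b, hA⟩ := H2.Pm.affine_of_triples (H2.Pm.two_ne_zero_zmod hp) σ fun t => by
      obtain ⟨g, hg, h⟩ := hσ t
      obtain ⟨A, b, hA⟩ := haff hg
      exact ⟨A, b, fun i => by rw [h, hA]⟩
    obtain ⟨g, hg, h⟩ := hσ ![0, Pi.single 0 1, Pi.single 1 1]
    obtain ⟨B, c, hB⟩ := haff hg
    have h0 := h 0
    have h1 := h 1
    have h2 := h 2
    simp only [Matrix.cons_val, hA, hB, map_zero, zero_add] at h0 h1 h2
    subst h0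
    have : A = B := by
      apply LinearEquiv.toLinearMap_injective
      apply (Pi.basisFun (ZMod p) (Fin 2)).ext
      intro i
      fin_cases i
      · simpa using h1
      · simpa using h2
    have : σ = g := by ext1 x; rw [hA, hB, this]
    exact this ▸ hg

end Cfsg.Agent.S3515
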