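import Cfsg.Statements.S3516
import Mathlib
import Cfsg.Agent.H2.Aff

set_option autoImplicit false
open Cfsg

namespace Cfsg.Agent.S3516

/-- Let p be an odd prime, d ≥ 3, and G a group of affine permutations x ↦ Ax + b of V = F_p^d containing all translations and all maps x ↦ Ax with A of determinant 1. Then the 3-closure of G is the full affine group: a permutation σ of V agrees on every triple of points with some element of G if and only if σ is an affine map. -/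
theorem result (p : ℕ) [Fact p.Prime] (hp : p ≠ 2) (d : ℕ) (hd : 3 ≤ d) (G : Subgroup (Equiv.Perm (Fin d → ZMod p)))
    (haff : (G : Set (Equiv.Perm (Fin d → ZMod p))) ⊆ {τ : Equiv.Perm (Fin d → ZMod p) | ∃ (A : (Fin d → ZMod p) ≃ₗ[ZMod p] (Fin d → ZMod p)) (b : Fin d → ZMod p), ∀ x, τ x = A x + b})
    (htrans : ∀ b : Fin d → ZMod p, ∃ g ∈ G, ∀ x, g x = x + b)
    (hsl : ∀ A : (Fin d → ZMod p) ≃ₗ[ZMod p] (Fin d → ZMod p), LinearMap.det (A : (Fin d → ZMod p) →ₗ[ZMod p] (Fin d → ZMod p)) = 1 → ∃ g ∈ G, ∀ x, g x = A x)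
    (σ : Equiv.Perm (Fin d → ZMod p)) :
    (∀ t : Fin 3 → (Fin d → ZMod p), ∃ g ∈ G, ∀ i, σ (t i) = g (t i)) ↔ σ ∈ {τ : Equiv.Perm (Fin d → ZMod p) | ∃ (A : (Fin d → ZMod p) ≃ₗ[ZMod p] (Fin d → ZMod p)) (b : Fin d → ZMod p), ∀ x, τ x = A x + b} := by
  refine ⟨fun h => H2.Pm.affine_of_triples (H2.Pm.two_ne_zero_zmod hp) σ fun t => ?_, ?_⟩
  · obtain ⟨g, hg, h⟩ := h t
    obtain ⟨A, b, hA⟩ := haff hg
    exact ⟨A, b, fun i => by rw [h, hA]⟩
  · rintro ⟨A, b, hA⟩ t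
    obtain ⟨B, hB, h1, h2⟩ := H2.Pm.exists_det_one A (t 1 - t 0) (t 2 - t 0) (by simpa using hd)
    obtain ⟨g, hg, hgB⟩ := hsl B hB
    obtain ⟨s, hs, hsb⟩ := htrans (A (t 0) + b - B (t 0))
    refine ⟨s * g, G.mul_mem hs hg, fun i => ?_⟩
    rw [map_sub, map_sub] at h1 h2
    rw [Equiv.Perm.mul_apply, hsb, hgB, hA]
    fin_cases i
    · simp
    · simp only [Fin.mk_one]; linear_combination -h1
    · simp only [Fin.reduceFinMk]; linear_combination -h2

end Cfsg.Agent.S3516
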