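import Cfsg.Statements.S3518
import Mathlib
import Cfsg.Agent.H2.Aff

set_option autoImplicit false
open Cfsg

namespace Cfsg.Agent.S3518

/-- Closures of subgroups of the one-dimensional affine group. Let p be a prime and G a group of permutations of F_p lying in the affine group AGL₁(p) = {x ↦ ax + b, a ≠ 0} and containing all translations. (1) If G is a proper subgroup of AGL₁(p), then G is 2-closed: a permutation of F_p agreeing on every ordered pair of points with some element of G lies in G. (2) Every permutation of F_p agrees on every ordered pair with some element of AGL₁(p) (the 2-closure of AGL₁(p) is the symmetric group). (3) AGL₁(p) is 3-closed: a permutation agreeing on every ordered triple with some affine map is affine. -/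
theorem result (p : ℕ) [Fact p.Prime] (G : Subgroup (Equiv.Perm (ZMod p))) (hG : G ≤ Cfsg.affineGroup (ZMod p))
    (htrans : ∀ b : ZMod p, ∃ g ∈ G, ∀ x, g x = x + b) :
    (G ≠ Cfsg.affineGroup (ZMod p) → ∀ σ : Equiv.Perm (ZMod p), (∀ t : Fin 2 → ZMod p, ∃ g ∈ G, ∀ i, σ (t i) = g (t i)) → σ ∈ G) ∧
    (∀ σ : Equiv.Perm (ZMod p), (∀ t : Fin 2 → ZMod p, ∃ g ∈ Cfsg.affineGroup (ZMod p), ∀ i, σ (t i) = g (t i))) ∧
    (∀ σ : Equiv.Perm (ZMod p), (∀ t : Fin 3 → ZMod p, ∃ g ∈ Cfsg.affineGroup (ZMod p), ∀ i, σ (t i) = g (t i)) → σ ∈ Cfsg.affineGroup (ZMod p)) := by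
  have h2 : ∀ a b c d : ZMod p, a ≠ b → c ≠ d →
      ∃ g ∈ Cfsg.affineGroup (ZMod p), g a = c ∧ g b = d := by
    intro a b c d hab hcd
    have h1 := sub_ne_zero.2 hab
    have h2 := div_ne_zero (sub_ne_zero.2 hcd) h1
    refine ⟨Equiv.addRight (c - (c - d) / (a - b) * a) * Equiv.mulLeft₀ _ h2,
      ⟨Units.mk0 _ h2, _, fun x => rfl⟩, ?_, ?_⟩
    · simp
    · simp; field_simp; ring
  have hext : ∀ g ∈ Cfsg.affineGroup (ZMod p), ∀ h ∈ Cfsg.affineGroup (ZMod p), g 0 = h 0 → g 1 = h 1 →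
      g = h := by
    rintro g ⟨a, b, hg⟩ h ⟨c, d, hh⟩ h0 h1
    simp only [hg, hh, mul_zero, zero_add, mul_one] at h0 h1
    subst h0
    ext1 x
    rw [hg, hh, add_right_cancel h1]
  refine ⟨fun hne σ hσ => ?_, fun σ t => ?_, fun σ hσ => ?_⟩
  · let C : Subgroup (Equiv.Perm (ZMod p)) :=
      { carrier := {σ | ∀ a b, ∃ g ∈ G, σ a = g a ∧ σ b = g b}
        one_mem' := fun a b => ⟨1, G.one_mem, rfl, rfl⟩
        mul_mem' := fun {σ τ} hσ hτ a b => by
          obtain ⟨g, hg, h1, h2⟩ := hσ (τ a) (τ b)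
          obtain ⟨h, hh, h3, h4⟩ := hτ a b
          exact ⟨g * h, G.mul_mem hg hh, by simp [h1, ← h3], by simp [h2, ← h4]⟩
        inv_mem' := fun {σ} hσ a b => by
          obtain ⟨g, hg, h1, h2⟩ := hσ (σ⁻¹ a) (σ⁻¹ b)
          refine ⟨g⁻¹, G.inv_mem hg, ?_, ?_⟩
          · rw [Equiv.Perm.eq_inv_iff_eq, ← h1]; simp
          · rw [Equiv.Perm.eq_inv_iff_eq, ← h2]; simp }
    have hσC : σ ∈ C := fun a b => by
      obtain ⟨g, hg, h⟩ := hσ ![a, b]
      exact ⟨g, hg, h 0, h 1⟩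
    obtain ⟨s, hs, hs1⟩ := htrans 1
    have hsC : s ∈ C := fun a b => ⟨s, hs, rfl, rfl⟩
    have haf := H2.Pm.affine_of_not_two_trans C hsC hs1 (fun h => hne (le_antisymm hG fun g hg => ?_))
      σ hσC
    · obtain ⟨g, hg, h0, h1⟩ := hσC 0 1
      exact hext _ haf _ (hG hg) h0 h1 ▸ hg
    · obtain ⟨⟨c, hc⟩, h0, h1⟩ := H2.Pm.mt_two_iff.1 h 0 1 (g 0) (g 1) zero_ne_one
        (g.injective.ne zero_ne_one)
      obtain ⟨k, hk, h3, h4⟩ := hc 0 1
      exact hext _ (hG hk) _ hg (h3.symm.trans h0) (h4.symm.trans h1) ▸ hk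
  · by_cases h : t 0 = t 1
    · refine ⟨Equiv.addRight (σ (t 0) - t 0), ⟨1, σ (t 0) - t 0, fun x => by simp⟩, fun i => ?_⟩
      fin_cases i <;> simp [h]
    · obtain ⟨g, hg, h0, h1⟩ := h2 _ _ _ _ h (σ.injective.ne h)
      refine ⟨g, hg, fun i => ?_⟩
      fin_cases i
      · exact h0.symm
      · exact h1.symm
  · obtain ⟨g, hg, h⟩ := hσ ![0, 1, 0]
    have : σ = g := by
      ext1 x
      obtain ⟨k, hk, h'⟩ := hσ ![0, 1, x]
      rw [hext g hg k hk ((h 0).symm.trans (h' 0)) ((h 1).symm.trans (h' 1))]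
      exact h' 2
    exact this ▸ hg

end Cfsg.Agent.S3518
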