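import Cfsg.Statements.S3547
import Cfsg.Agent.H19.Der

set_option autoImplicit false
open Cfsg

namespace Cfsg.Agent.S3547

open Cfsg.Agent.H19 MulAction Subgroup

/-- Let G act faithfully and transitively on a finite set Ω, let D be the subgroup generated by the derangements, and let r_G and r_D be the numbers of orbits of G and of D on ordered pairs of points (the permutation ranks). Then r_D − 1 = (r_G − 1)·[G : D]. -/
theorem result {G Ω : Type*} [Group G] [Finite G] [MulAction G Ω] [FaithfulSMul G Ω] [Finite Ω]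
    (htrans : MulAction.IsPretransitive G Ω) :
    Nat.card (MulAction.orbitRel.Quotient ↥(Subgroup.closure {g : G | ∀ ω : Ω, g • ω ≠ ω}) (Ω × Ω)) - 1 =
      (Nat.card (MulAction.orbitRel.Quotient G (Ω × Ω)) - 1) * (Subgroup.closure {g : G | ∀ ω : Ω, g • ω ≠ ω}).index := by
  classical
  haveI := Fintype.ofFinite G
  have h1 := sum_fix (G := G) (Ω := Ω × Ω)
  rw [← Finset.sum_filter_add_sum_filter_not _ (· ∈ derS G Ω), sum_fix_sub,
    Finset.sum_congr rfl fun g hg => (show fix (Ω × Ω) g = 1 by
      rw [fix_prod, by_contra fun e => (Finset.mem_filter.mp hg).2 (derS_spec.2 g e), one_pow]),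
    Finset.sum_const, smul_eq_mul, mul_one] at h1
  have h4 := Finset.card_filter_add_card_filter_not (s := Finset.univ) (· ∈ derS G Ω)
  rw [← Fintype.card_subtype, Finset.card_univ, ← Nat.card_eq_fintype_card,
    ← Nat.card_eq_fintype_card] at h4
  have h6 : 0 < Nat.card (derS G Ω) := Nat.card_pos
  have h7 := (derS G Ω).index_mul_card
  refine Nat.eq_of_mul_eq_mul_right h6 ?_
  rw [mul_assoc, h7, Nat.sub_one_mul, Nat.sub_one_mul]
  rcases isEmpty_or_nonempty Ω with _ | _
  · simp
  · have h8 : 0 < Nat.card (orbitRel.Quotient (derS G Ω) (Ω × Ω)) := Nat.card_pos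
    have h9 := Nat.le_mul_of_pos_left (Nat.card (derS G Ω)) h8
    unfold derS at *
    omega

end Cfsg.Agent.S3547
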