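import Cfsg.Statements.S3548
import Cfsg.Agent.H19.Der

set_option autoImplicit false
open Cfsg

namespace Cfsg.Agent.S3548

open Cfsg.Agent.H19 MulAction Subgroup

/-- Let G act faithfully and transitively on a finite set with n ≥ 2 points and let D be the subgroup generated by the derangements. Then the index of D in G divides n − 1, and if it equals n − 1 then n is a prime power. -/
theorem result {G Ω : Type*} [Group G] [Finite G] [MulAction G Ω] [FaithfulSMul G Ω] [Finite Ω]
    (htrans : MulAction.IsPretransitive G Ω) (hΩ : 2 ≤ Nat.card Ω) :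
    (Subgroup.closure {g : G | ∀ ω : Ω, g • ω ≠ ω}).index ∣ Nat.card Ω - 1 ∧
    ((Subgroup.closure {g : G | ∀ ω : Ω, g • ω ≠ ω}).index = Nat.card Ω - 1 → IsPrimePow (Nat.card Ω)) := by
  haveI : Nontrivial Ω := Finite.one_lt_card_iff_nontrivial.mp hΩ
  obtain ⟨a⟩ : Nonempty Ω := inferInstance
  refine ⟨by simpa using derS_dvd (G := G) (Set.mem_univ a) fun _ _ _ _ => trivial, fun h => ?_⟩
  haveI := (derS_spec (G := G) (Ω := Ω)).1
  have h1 : ∀ b, a ≠ b → orbit (stabilizer G a) b = Set.univ \ {a} ∧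
      stabilizer (stabilizer G a) b = (derS G Ω).subgroupOf _ := fun b hb => by
    have h1 : orbit (stabilizer G a) b ⊆ Set.univ \ {a} := by
      rintro _ ⟨g, rfl⟩
      exact ⟨trivial, fun e => hb (smul_left_cancel g.1 (g.2.trans (Eq.symm e)))⟩
    have h2 := Set.ncard_le_ncard h1
    have h3 := Nat.le_of_dvd (Nat.pos_of_ne_zero index_ne_zero_of_finite) (derS_dvd_index (G := G) hb)
    have h4 := Set.ncard_diff_singleton_of_mem (Set.mem_univ a)
    rw [Set.ncard_univ] at h4
    rw [h4, ncard_orbit_eq_index] at h2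
    refine ⟨Set.eq_of_subset_of_ncard_le h1 (by rw [h4, ncard_orbit_eq_index]; exact h ▸ h3),
      eq_of_le_of_card_ge (fun g hg => derS_spec.2 _ (one_lt_fix hb g.2 hg).ne') ?_⟩
    have h5 := (stabilizer (stabilizer G a) b).index_mul_card
    have h6 := ((derS G Ω).subgroupOf (stabilizer G a)).index_mul_card
    rw [← relIndex, index_stabilizer_derS, h, ← h5, le_antisymm h2 (h ▸ h3)] at h6
    exact (Nat.eq_of_mul_eq_mul_left (by omega) h6).le
  have h2 : ∀ g ∈ derS G Ω, g • a = a → g = 1 := fun g hg ha => eq_of_smul_eq_smul fun b : Ω => by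
    by_cases e : a = b
    · rw [← e, ha, one_smul]
    · rw [one_smul]
      exact (show (⟨g, ha⟩ : stabilizer G a) ∈ stabilizer _ b from (h1 b e).2 ▸ hg)
  have h3 : Nat.card (derS G Ω) = Nat.card Ω := by
    rw [H2.Pm.card_eq_of_trans (G := derS G Ω) a, (eq_bot_iff_forall (stabilizer (derS G Ω) a)).mpr
      fun g hg => Subtype.ext (h2 g g.2 hg), card_bot, mul_one]
  haveI hD : (derS G Ω).Normal := ⟨fun x hx g => by
    refine Subgroup.closure_induction (k := {g : G | ∀ ω : Ω, g • ω ≠ ω})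
      (p := fun x _ => g * x * g⁻¹ ∈ derS G Ω)
      (fun y hy => Subgroup.subset_closure fun ω e => hy (g⁻¹ • ω) ?_) ?_
      (fun y z _ _ h1 h2 => by simpa only [conj_mul] using mul_mem h1 h2)
      (fun y _ h1 => by simpa only [conj_inv] using inv_mem h1) hx
    · rw [eq_inv_smul_iff, ← mul_smul, ← mul_smul, e]
    · simp⟩
  obtain ⟨p, hp, hd⟩ := Nat.exists_prime_and_dvd (show Nat.card (derS G Ω) ≠ 1 by omega)
  haveI := Fact.mk hp
  obtain ⟨x, hx⟩ := exists_prime_orderOf_dvd_card' p hd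
  have hx1 : x.1 ≠ 1 := fun e => hp.ne_one (by rw [← hx, ← orderOf_coe, e, orderOf_one])
  obtain ⟨n, hn⟩ := IsPGroup.iff_card.mp (show IsPGroup p (derS G Ω) from fun y => ⟨1, by
    by_cases e : y.1 = 1
    · rw [show y = 1 from Subtype.ext e, one_pow]
    obtain ⟨g, hg⟩ : y.1 • a ∈ orbit (stabilizer G a) (x.1 • a) := by
      rw [(h1 _ fun e => hx1 (h2 _ x.2 e.symm)).1]
      exact ⟨trivial, fun e' => e (h2 _ y.2 e')⟩
    have h4 := h2 _ (mul_mem (inv_mem y.2) (hD.conj_mem _ x.2 g)) (by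
      rw [mul_smul, mul_smul, mul_smul, inv_smul_eq_iff.mpr g.2.symm, inv_smul_eq_iff]
      exact hg)
    refine Subtype.ext ?_
    rw [pow_one, coe_pow, inv_mul_eq_one.mp h4, conj_pow, ← hx, ← coe_pow, pow_orderOf_eq_one]
    simp⟩)
  exact ⟨p, n, hp.prime, Nat.pos_of_ne_zero (by rintro rfl; rw [pow_zero] at hn; omega), hn ▸ h3⟩

end Cfsg.Agent.S3548
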