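import Cfsg.Statements.S3549
import Cfsg.Agent.H19.Der

set_option autoImplicit false
open Cfsg

namespace Cfsg.Agent.S3549

open Cfsg.Agent.H19 MulAction Subgroup
open scoped Pointwise

/-- Let G act faithfully, transitively but imprimitively on a finite set with n points, and let D be the subgroup generated by the derangements. Then the index of D in G is at most √n − 1. -/
theorem result {G Ω : Type*} [Group G] [Finite G] [MulAction G Ω] [FaithfulSMul G Ω] [Finite Ω]
    (htrans : MulAction.IsPretransitive G Ω) (himp : ¬ MulAction.IsPreprimitive G Ω) :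
    ((Subgroup.closure {g : G | ∀ ω : Ω, g • ω ≠ ω}).index : ℝ) ≤ Real.sqrt (Nat.card Ω) - 1 := by
  obtain ⟨B, h1, h2⟩ : ∃ B : Set Ω, IsBlock G B ∧ ¬ IsTrivialBlock B := by
    by_contra h
    exact himp ⟨fun {B} hB => by_contra fun e => h ⟨B, hB, e⟩⟩
  rw [IsTrivialBlock, not_or, Set.not_subsingleton_iff] at h2
  obtain ⟨a, ha⟩ := h2.1.nonempty
  have h3 := h1.ncard_block_mul_ncard_orbit_eq ⟨a, ha⟩
  have h4 := derS_dvd (G := G) ha fun g hg b hb =>
    h1.smul_eq_of_mem ha (hg.symm ▸ ha) ▸ Set.smul_mem_smul_set hb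
  have h5 := derS_dvd (G := G) (Set.mem_univ a) fun _ _ _ _ => trivial
  have h6 := Set.one_lt_ncard_iff_nontrivial.mpr h2.1
  have h7 := Set.ncard_lt_ncard (Set.ssubset_univ_iff.mpr h2.2)
  rw [Set.ncard_univ] at h5 h7
  generalize (orbit G B).ncard = k at h3
  obtain ⟨m, hm⟩ : ∃ m, B.ncard = m + 1 := ⟨B.ncard - 1, by omega⟩
  obtain ⟨l, rfl⟩ : ∃ l, k = l + 2 := ⟨k - 2, by rcases k with _ | _ | k <;> omega⟩
  rw [hm] at h3 h4 h6
  rw [Nat.add_sub_cancel] at h4
  rw [← h3, show (m + 1) * (l + 2) - 1 = m * (l + 2) + (l + 1) by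
    rw [Nat.sub_eq_of_eq_add]; ring, Nat.dvd_add_right (Dvd.dvd.mul_right h4 _)] at h5
  have h8 := Nat.le_of_dvd (by omega) h4
  have h9 := Nat.le_of_dvd (by omega) h5
  rw [le_sub_iff_add_le]
  refine Real.le_sqrt_of_sq_le ?_
  rw [← h3]
  exact_mod_cast (sq _).trans_le (Nat.mul_le_mul (Nat.succ_le_succ h8) (Nat.succ_le_succ h9))

end Cfsg.Agent.S3549
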