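import Cfsg.Statements.S3560
import Mathlib
import Cfsg.Agent.H2.Perm10

set_option autoImplicit false
open Cfsg

namespace Cfsg.Agent.S3560

open H2.Pm MulAction Subgroup Equiv
def Ham (ι α : Type*) : Subgroup (Perm (ι → α)) where
  carrier := {σ | ∀ x y, (∃ i, ∀ j, j ≠ i → σ x j = σ y j) ↔ ∃ i, ∀ j, j ≠ i → x j = y j}
  one_mem' := fun _ _ => Iff.rfl
  mul_mem' := fun {σ τ} hσ hτ x y => (hσ (τ x) (τ y)).trans (hτ x y)
  inv_mem' := fun {σ} hσ x y => by simpa using (hσ (σ⁻¹ x) (σ⁻¹ y)).symm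

theorem pi_mem {ι α : Type*} (τ : ι → Perm α) : piCongrRight τ ∈ Ham ι α := fun x y => by simp

theorem arrow_mem {ι α : Type*} (π : Perm ι) : arrowCongr π (Equiv.refl α) ∈ Ham ι α := fun x y =>
  ⟨fun ⟨i, h⟩ => ⟨π.symm i, fun j hj => by simpa using h (π j) (fun e => hj (by simp [← e]))⟩,
   fun ⟨i, h⟩ => ⟨π i, fun j hj => by simpa using h (π.symm j) (fun e => hj (by simp [← e]))⟩⟩

theorem prim {ι : Type*} [Fintype ι] {m : ℕ} (hm : 3 ≤ m) :
    IsPreprimitive (Ham ι (Fin m)) (ι → Fin m) := by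
  classical
  have : IsPretransitive (Ham ι (Fin m)) (ι → Fin m) := ⟨fun x y =>
    ⟨⟨_, pi_mem fun i => swap (x i) (y i)⟩, funext fun i => by
      change swap (x i) (y i) (x i) = y i
      simp⟩⟩
  refine ⟨fun {B} hB => (Set.subsingleton_or_nontrivial B).imp_right ?_⟩
  rintro ⟨x, hx, y, hy, hxy⟩
  have h : ∀ g ∈ Ham ι (Fin m), ∀ x ∈ B, g x ∈ B → ∀ y ∈ B, g y ∈ B := fun g hg x hx hgx y hy =>
    (hB.smul_eq_of_mem (g := ⟨g, hg⟩) hx hgx ▸ Set.smul_mem_smul_set hy :)
  obtain ⟨i, hi⟩ := Function.ne_iff.1 hxy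
  obtain ⟨z, hz⟩ := exists_notMem_of_card_lt ({x i, y i} : Finset (Fin m))
    (by simpa using Finset.card_le_two.trans_lt hm)
  simp only [Finset.mem_insert, Finset.mem_singleton, not_or] at hz
  have h1 : Function.update y i z ∈ B := by
    convert h _ (pi_mem (Function.update 1 i (swap (y i) z))) x hx ?_ y hy using 1
    · ext k; by_cases hk : k = i <;> simp [hk]
    · convert hx using 1
      ext k; by_cases hk : k = i <;> simp [hk, swap_apply_of_ne_of_ne hi (Ne.symm hz.1)]
  have h2 : ∀ u ∈ B, ∀ j s, Function.update u j s ∈ B := fun u hu j s => by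
    by_cases hs : s = u j
    · simpa [hs] using hu
    obtain ⟨τ, h3, h4⟩ := mt_two_iff.1 (Perm.isMultiplyPretransitive (Fin m) 2) (y i) z (u j) s
      (Ne.symm hz.2) (Ne.symm hs)
    rw [Perm.smul_def] at h3 h4
    convert h _ (mul_mem (pi_mem (Function.update (fun k => swap (y (swap i j k)) (u k)) j τ))
      (arrow_mem (swap i j))) y hy ?_ _ h1 using 1
    · ext k
      by_cases hk : k = j
      · simp [hk, h4]
      · simp [hk, Function.update_of_ne (show swap i j k ≠ i by rwa [Ne, swap_apply_eq_iff, swap_apply_left])]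
    · convert hu using 1
      ext k; by_cases hk : k = j <;> simp [hk, h3]
  refine Set.eq_univ_of_forall fun w => ?_
  have : ∀ s : Finset ι, s.piecewise w y ∈ B := fun s => by
    induction s using Finset.induction_on with
    | empty => simpa using hy
    | insert j s _ ih => rw [Finset.piecewise_insert]; exact h2 _ ih _ _
  simpa using this Finset.univ

/-- Let K be a finite group isomorphic to a direct product of r ≥ 2 groups all of the same order m ≥ 3. Then K is not a B-group: there is a primitive but not doubly transitive permutation group (on some finite set) containing a regular subgroup isomorphic to K. -/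
theorem result {K : Type*} [Group K] [Finite K] {ι : Type*} [Fintype ι] (F : ι → Type*) [∀ i, Group (F i)]
    (hr : 2 ≤ Fintype.card ι) (m : ℕ) (hm : 3 ≤ m) (hcard : ∀ i, Nat.card (F i) = m) (e : K ≃* (∀ i, F i)) :
    ∃ (n : ℕ) (G R : Subgroup (Equiv.Perm (Fin n))), R ≤ G ∧ Nonempty (↥R ≃* K) ∧
      MulAction.IsPretransitive ↥R (Fin n) ∧ (∀ a : Fin n, MulAction.stabilizer ↥R a = ⊥) ∧
      MulAction.IsPreprimitive ↥G (Fin n) ∧ ¬ MulAction.IsMultiplyPretransitive ↥G (Fin n) 2 := by
  classical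
  have := fun i => Nat.finite_of_card_ne_zero (α := F i) (by rw [hcard]; omega)
  let d : ∀ i, F i ≃ Fin m := fun i => Finite.equivFinOfCardEq (hcard i)
  let c := Fintype.equivFin (ι → Fin m)
  let ρ : K →* Perm (ι → Fin m) := ((piCongrRight d).permCongrHom.toMonoidHom.comp
    (toPermHom (∀ i, F i) (∀ i, F i))).comp e.toMonoidHom
  have hρ : ∀ k x i, ρ k x i = d i (e k i * (d i).symm (x i)) := fun _ _ _ => rfl
  let ρ' := c.permCongrHom.toMonoidHom.comp ρ
  have hρ' : ∀ k x, ρ' k x = c (ρ k (c.symm x)) := fun _ _ => rfl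
  have hreg : ∀ k x, ρ' k x = x → k = 1 := fun k x h => e.injective (funext fun i => by
    have : ρ k (c.symm x) i = c.symm x i := congrFun ((c.apply_eq_iff_eq_symm_apply).1 h) i
    rw [hρ, ← (d i).eq_symm_apply] at this
    simpa using this)
  have hx : Nonempty (Fin (Fintype.card (ι → Fin m))) := ⟨c fun _ => ⟨0, by omega⟩⟩
  refine ⟨_, (Ham ι (Fin m)).map c.permCongrHom.toMonoidHom, ρ'.range, ?_,
    ⟨(MonoidHom.ofInjective ((injective_iff_map_eq_one _).2 fun k hk =>
      hreg k hx.some (by rw [hk]; rfl))).symm⟩, (trans_subgroup_iff _).2 fun a b => ?_,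
    fun a => (eq_bot_iff_forall _).2 ?_, ?_, fun h => ?_⟩
  · rintro _ ⟨k, rfl⟩
    exact ⟨ρ k, fun x y => by simp [hρ], rfl⟩
  · refine ⟨_, ⟨e.symm fun i => (d i).symm (c.symm b i) * ((d i).symm (c.symm a i))⁻¹, rfl⟩, ?_⟩
    rw [Perm.smul_def, hρ', c.apply_eq_iff_eq_symm_apply]
    ext i; simp [hρ]
  · rintro ⟨_, k, rfl⟩ h
    exact Subtype.ext (by rw [hreg k a h]; simp)
  · have := prim (ι := ι) hm
    exact IsPreprimitive.of_surjective (M := Ham ι (Fin m)) (α := ι → Fin m)
      (φ := fun g => ⟨_, mem_map_of_mem c.permCongrHom.toMonoidHom g.2⟩)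
      (f := ⟨c, fun g x => by
        change c (g.1 x) = c (g.1 (c.symm (c x)))
        simp⟩) c.surjective
  · obtain ⟨i, j, hij⟩ := Fintype.one_lt_card_iff.1 hr
    let o : Fin m := ⟨0, by omega⟩
    let l : Fin m := ⟨1, by omega⟩
    have hol : o ≠ l := by simp [o, l]
    obtain ⟨⟨_, g, hg, rfl⟩, h1, h2⟩ := mt_two_iff.1 h (c fun _ => o) (c (Function.update (fun _ => o) i l))
      (c fun _ => o) (c fun _ => l) (c.injective.ne fun h => hol (by simpa using congrFun h i))
      (c.injective.ne fun h => hol (congrFun h i))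
    simp only [Subgroup.smul_def, Perm.smul_def, MulEquiv.coe_toMonoidHom, permCongrHom_coe,
      permCongr_apply, symm_apply_apply, EmbeddingLike.apply_eq_iff_eq] at h1 h2
    obtain ⟨k, hk⟩ := (hg (fun _ => o) (Function.update (fun _ => o) i l)).2 ⟨i, fun j hj => by simp [hj]⟩
    rw [h1, h2] at hk
    by_cases h : i = k
    · exact hol (hk j (h ▸ hij.symm))
    · exact hol (hk i h)

end Cfsg.Agent.S3560
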