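import Cfsg.Statements.S3573
import Mathlib

set_option autoImplicit false
open Cfsg

namespace Cfsg.Agent.S3573

open Equiv Equiv.Perm Finset

theorem aux (n k r : ℕ) (hkn : k ≤ n) (hr : r.Prime) (hn : r ≤ n) :
    (∀ σ : Perm (Fin n), orderOf σ = r → ∃ s : Finset (Fin n), s.card = k ∧ s.image σ = s) ↔ k % r ≤ n % r := by
  have := Fact.mk hr
  have h0 := hr.pos
  refine ⟨fun h => ?_, fun h σ hσ => ?_⟩
  · obtain ⟨σ, hσ⟩ := (exists_with_cycleType_iff (Fin n) (m := Multiset.replicate (n / r) r)).2
      ⟨by simpa using Nat.div_mul_le_self n r, fun a ha => Multiset.eq_of_mem_replicate ha ▸ hr.two_le⟩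
    have h1 : σ ^ r = 1 := pow_prime_eq_one_iff.2 fun c hc => Multiset.eq_of_mem_replicate (hσ ▸ hc)
    obtain ⟨s, rfl, hs⟩ := h σ (orderOf_eq_prime h1 (by
      rintro rfl
      simpa [h0.ne', hn.not_gt] using congrArg Multiset.card hσ.symm))
    have h2 : ∀ x, σ x ∈ s ↔ x ∈ s := fun x => by
      conv_lhs => rw [← hs]
      exact σ.injective.mem_finset_image
    have h3 := card_compl_support_modEq (σ := σ.subtypePerm h2) (p := r) (n := 1) (by simp [h1]; rfl)
    have h4 : #(σ.subtypePerm h2).supportᶜ ≤ #σ.supportᶜ := card_le_card_of_injOn Subtype.val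
      (fun x => by simp [Subtype.ext_iff]) Subtype.val_injective.injOn
    rw [card_compl σ.support, ← sum_cycleType, hσ] at h4
    rw [Fintype.card_coe] at h3
    rw [← h3, Nat.mod_def n, mul_comm]
    exact (Nat.mod_le ..).trans (by simpa using h4)
  have h1 : ∀ T ⊆ σ.cycleFactorsFinset, #(T.biUnion support) = #T * r := fun T hT => by
    rw [card_biUnion fun c hc d hd e => (σ.cycleFactorsFinset_pairwise_disjoint (hT hc) (hT hd) e).disjoint_support,
      sum_const_nat (m := r) fun c hc => pow_prime_eq_one_iff.1 (show σ ^ r = 1 from hσ ▸ pow_orderOf_eq_one σ) _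
        (cycleType_def σ ▸ Multiset.mem_map.2 ⟨c, hT hc, rfl⟩)]
  have h2 : ∀ T ⊆ σ.cycleFactorsFinset, T.biUnion support ⊆ σ.support := fun T hT =>
    biUnion_subset.2 fun c hc => mem_cycleFactorsFinset_support_le (hT hc)
  have h3 : σ.cycleFactorsFinset.biUnion support = σ.support := (h2 _ subset_rfl).antisymm fun x hx =>
    mem_biUnion.2 (mem_support_iff_mem_support_of_mem_cycleFactorsFinset.1 hx)
  have h4 := card_compl_support_modEq (σ := σ) (p := r) (n := 1) (by rw [pow_one, ← hσ, pow_orderOf_eq_one])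
  obtain ⟨T, hT, h5⟩ := exists_subset_card_eq (min_le_left #σ.cycleFactorsFinset (k / r))
  obtain ⟨V, hV, h6⟩ := exists_subset_card_eq (s := σ.supportᶜ) (n := k - #T * r) (by
    rcases le_total #σ.cycleFactorsFinset (k / r) with e | e
    · rw [h5, min_eq_left e, card_compl, ← h3, h1 _ subset_rfl, Fintype.card_fin]; omega
    · rw [h5, min_eq_right e, mul_comm, ← Nat.mod_def]
      exact h.trans ((Fintype.card_fin n ▸ h4).ge.trans (Nat.mod_le ..)))
  refine ⟨T.biUnion support ∪ V, ?_, eq_of_subset_of_card_le ?_ (card_image_of_injective _ σ.injective).ge⟩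
  · rw [card_union_of_disjoint (disjoint_compl_right.mono (h2 T hT) hV), h1 T hT, h6, Nat.add_sub_cancel']
    exact (Nat.mul_le_mul_right r (h5.trans_le (min_le_right ..))).trans (Nat.div_mul_le_self ..)
  · simp only [image_subset_iff, mem_union, mem_biUnion]
    rintro x (⟨c, hc, hx⟩ | hx)
    · exact .inl ⟨c, hc, (mem_cycleFactorsFinset_iff.1 (hT hc)).2 x hx ▸ apply_mem_support.2 hx⟩
    · exact .inr (by rwa [notMem_support.1 (mem_compl.1 (hV hx))])

/-- Let 1 ≤ k with 2k < n and consider the symmetric group of degree n acting on the k-subsets of an n-set. Let r be a prime dividing the number C(n,k) of k-subsets. If r is odd, then every permutation of order r fixes some k-subset if and only if r ≤ k and the remainder of k modulo r is at most the remainder of n modulo r. If r = 2, then every involution fixes some k-subset if and only if k is even or n is odd. -/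
theorem result (n k : ℕ) (hk : 1 ≤ k) (hkn : 2 * k < n) (r : ℕ) (hr : r.Prime) (hrd : r ∣ Nat.choose n k) :
    (r ≠ 2 → ((∀ σ : Equiv.Perm (Fin n), orderOf σ = r → ∃ s : Finset (Fin n), s.card = k ∧ s.image σ = s) ↔
      (r ≤ k ∧ k % r ≤ n % r))) ∧
    (r = 2 → ((∀ σ : Equiv.Perm (Fin n), orderOf σ = 2 → ∃ s : Finset (Fin n), s.card = k ∧ s.image σ = s) ↔
      (Even k ∨ Odd n))) := by
  have := Fact.mk hr
  have hn : r ≤ n := by_contra fun h =>
    hr.coprime_iff_not_dvd.1 (hr.coprime_choose_of_lt (not_le.1 h) (by omega : k ≤ n)) hrd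
  refine ⟨fun _ => (aux n k r (by omega) hr hn).trans ⟨fun h => ⟨by_contra fun e => ?_, h⟩, And.right⟩, ?_⟩
  · have := (Choose.choose_modEq_choose_mod_mul_choose_div_nat (n := n) (k := k) (p := r)).dvd_iff dvd_rfl |>.1 hrd
    rw [Nat.div_eq_of_lt (by omega : k < r), Nat.choose_zero_right, mul_one] at this
    exact hr.coprime_iff_not_dvd.1 (hr.coprime_choose_of_lt (Nat.mod_lt _ hr.pos) h) this
  · rintro rfl
    rw [aux n k 2 (by omega) hr hn, Nat.even_iff, Nat.odd_iff]; omega

end Cfsg.Agent.S3573
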