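import Cfsg.Statements.S3575


set_option autoImplicit false
open Cfsg

namespace Cfsg.Agent.S3575

open Equiv Finset

/-- number of fixed points -/
noncomputable def nf {α : Type} (σ : Perm α) : ℕ := Nat.card {x // σ x = x}

section
variable {α β : Type} [Fintype α] [Fintype β] [DecidableEq α] [DecidableEq β] {r : ℕ} [hr : Fact r.Prime]

theorem nf_add {σ : Perm α} (h : σ ^ r = 1) : nf σ + σ.cycleType.card * r = Fintype.card α := by
  have h1 := σ.card_fixedPoints
  have h2 := σ.sum_cycleType_le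
  rw [Perm.cycleType_of_pow_prime_eq_one h, Multiset.sum_replicate, smul_eq_mul, ← Nat.card_eq_fintype_card] at h1
  rw [Perm.cycleType_of_pow_prime_eq_one h, Multiset.sum_replicate, smul_eq_mul] at h2
  exact (congrArg (· + _) h1).trans (Nat.sub_add_cancel h2)

theorem nf_mod {σ : Perm α} (h : σ ^ r = 1) : nf σ ≡ Fintype.card α [MOD r] := by
  rw [← nf_add h]
  simp [Nat.ModEq]

variable (α) in
theorem nf_exists {m k : ℕ} (h : m + k * r = Fintype.card α) : ∃ σ : Perm α, σ ^ r = 1 ∧ nf σ = m := by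
  obtain ⟨σ, h1⟩ := (Perm.exists_with_cycleType_iff α (m := .replicate k r)).2
    ⟨by simp [← h], fun a ha => Multiset.eq_of_mem_replicate ha ▸ hr.out.two_le⟩
  have h2 := Perm.pow_prime_eq_one_iff.2 fun c hc => Multiset.eq_of_mem_replicate (h1 ▸ hc)
  have h3 := nf_add h2
  rw [h1, Multiset.card_replicate] at h3
  exact ⟨σ, h2, by omega⟩

theorem nf_conj {σ : Perm α} {τ : Perm β} (h : Fintype.card β = Fintype.card α) (h1 : σ ^ r = 1) (h2 : τ ^ r = 1)
    (h3 : nf σ = nf τ) : ∃ e : α ≃ β, ∀ x, e (σ x) = τ (e x) := by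
  let e := Fintype.equivOfCardEq h
  have h4 : e.permCongr τ ^ r = 1 := by rw [← permCongrHom_coe, ← map_pow, h2, map_one]
  have h5 : nf (e.permCongr τ) = nf τ := Nat.card_congr (e.symm.subtypeEquiv fun x => by simp [← eq_symm_apply])
  have h6 := nf_add h1
  rw [← nf_add h4, h5, h3, add_right_inj, mul_left_inj' hr.out.ne_zero] at h6
  obtain ⟨c, hc⟩ := isConj_iff.1 (Perm.isConj_iff_cycleType_eq.2 (by
    rw [Perm.cycleType_of_pow_prime_eq_one h1, Perm.cycleType_of_pow_prime_eq_one h4, h6]) : IsConj σ (e.permCongr τ))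
  refine ⟨c.trans e.symm, fun x => ?_⟩
  simpa [symm_apply_eq] using congrArg (fun f : Perm α => f (c x)) hc

end

theorem exists_sum {ι : Type} [DecidableEq ι] (T : Finset ι) (c : ℕ) {m : ℕ} (h : m ≤ #T * c) :
    ∃ g : ι → ℕ, (∀ j, g j ≤ c) ∧ ∑ j ∈ T, g j = m := by
  induction T using Finset.induction_on generalizing m with
  | empty => exact ⟨0, by simp, by simpa [eq_comm] using h⟩
  | insert j T hj ih =>
    rw [card_insert_of_notMem hj, add_one_mul] at h
    obtain ⟨g, h1, h2⟩ := ih (m := m - c) (by omega)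
    refine ⟨Function.update g j (min m c), fun i => ?_, ?_⟩
    · rcases eq_or_ne i j with rfl | e <;> simp [*]
    · rw [sum_insert hj, sum_congr rfl fun i hi => Function.update_of_ne (ne_of_mem_of_not_mem hi hj) _ g, h2]
      simp only [Function.update_self]
      omega

theorem key {a b r : ℕ} [hr : Fact r.Prime] (ha : 0 < a) {σ : Perm (Fin (a * b))} (h : σ ^ r = 1) :
    (∃ f : Fin (a * b) → Fin b, (∀ j : Fin b, Nat.card {x : Fin (a * b) // f x = j} = a) ∧
      ∃ π : Perm (Fin b), ∀ x : Fin (a * b), f (σ x) = π (f x)) ↔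
      ∃ t ≤ b, t ≡ b [MOD r] ∧ t * (a % r) ≤ nf σ ∧ nf σ ≤ t * a := by
  constructor
  · rintro ⟨f, h1, π, h2⟩
    have h3 (k : ℕ) (x) : f ((σ ^ k) x) = (π ^ k) (f x) := by
      induction k with
      | zero => rfl
      | succ k ih => rw [pow_succ', pow_succ', Perm.mul_apply, h2, ih, Perm.mul_apply]
    have h4 : π ^ r = 1 := Equiv.ext fun j => by
      obtain ⟨⟨x, rfl⟩⟩ := (Nat.card_pos_iff.1 ((h1 j).symm ▸ ha)).1
      rw [← h3, h]; rfl
    let ρ (j : {j // π j = j}) : Perm {x // f x = j} := σ.subtypePerm fun x => by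
      rw [h2, ← π.apply_eq_iff_eq (x := f x), j.2]
    have h5 : nf σ = ∑ j, nf (ρ j) := by
      rw [nf, ← Nat.card_congr (sigmaFiberEquiv fun x : {x // σ x = x} => (⟨f x, by rw [← h2, x.2]⟩ : {j // π j = j})), Nat.card_sigma]
      exact sum_congr rfl fun j _ => Nat.card_congr ⟨fun x => ⟨⟨x.1.1, congrArg Subtype.val x.2⟩, Subtype.ext x.1.2⟩,
        fun x => ⟨⟨x.1.1, congrArg Subtype.val x.2⟩, Subtype.ext x.1.2⟩, fun _ => rfl, fun _ => rfl⟩
    have h6 (j) : nf (ρ j) ≡ a [MOD r] ∧ nf (ρ j) ≤ a := by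
      have e : ρ j ^ r = 1 := by rw [Perm.subtypePerm_pow]; exact Equiv.ext fun x => Subtype.ext (by simp [h])
      have e1 := nf_mod e
      have e2 := nf_add e
      rw [← Nat.card_eq_fintype_card, h1] at e1 e2
      exact ⟨e1, by omega⟩
    have h7 := nf_add h4
    refine ⟨nf π, by simp at h7; omega, by simpa using nf_mod h4, ?_⟩
    rw [h5, nf, Nat.card_eq_fintype_card]
    exact ⟨card_nsmul_le_sum _ _ _ fun j _ => (h6 j).1 ▸ Nat.mod_le _ _, sum_le_card_nsmul _ _ _ fun j _ => (h6 j).2⟩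
  · rintro ⟨t, h1, h2, h3, h4⟩
    obtain ⟨k, hk⟩ := (Nat.modEq_iff_dvd' h1).1 h2
    obtain ⟨π, h5, h6⟩ := nf_exists (r := r) (Fin b) (m := t) (k := k) (by simp [mul_comm k, ← hk, h1])
    obtain ⟨m, hm⟩ := (Nat.modEq_iff_dvd' h3).1 ((h2.mul (Nat.mod_modEq a r)).trans (by simpa [mul_comm] using (nf_mod h).symm))
    have h7 : Fintype.card {j // π j = j} = t := Nat.card_eq_fintype_card.symm.trans h6
    have h8 := Nat.mod_add_div a r
    obtain ⟨g, h9, h10⟩ := exists_sum (univ : Finset {j // π j = j}) (a / r) (m := m) (by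
      rw [card_univ, h7]
      refine Nat.le_of_mul_le_mul_left ?_ hr.out.pos
      rw [← hm, Nat.sub_le_iff_le_add, mul_left_comm, ← mul_add, add_comm, h8]
      exact h4)
    choose ρ h11 h12 using fun j => nf_exists (r := r) (Fin a) (m := a % r + r * g j) (k := a / r - g j) (by
      rw [add_assoc, mul_comm _ r, ← mul_add, Nat.add_sub_cancel' (h9 j), h8, Fintype.card_fin])
    let ρ' (j : Fin b) : Perm (Fin a) := if e : π j = j then ρ ⟨j, e⟩ else 1
    let τ : Perm (Fin b × Fin a) := prodShear π ρ'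
    have h13 (k : ℕ) (j i) : (τ ^ k) (j, i) = ((π ^ k) j, (ρ' j ^ k) i) := by
      induction k generalizing j i with
      | zero => rfl
      | succ k ih =>
        rw [pow_succ, pow_succ, pow_succ, Perm.mul_apply, show τ (j, i) = (π j, ρ' j i) from rfl, ih]
        by_cases e : π j = j <;> simp [ρ', e]
    obtain ⟨e, he⟩ := nf_conj (σ := σ) (τ := τ) (by simp [mul_comm]) h (Equiv.ext fun ⟨j, i⟩ => by
      rw [h13, h5]
      by_cases e : π j = j <;> simp [ρ', e, h11]) (by
      rw [show nf σ = ∑ j, nf (ρ j) by simp only [h12, sum_add_distrib, ← mul_sum, h10, sum_const, card_univ, h7, smul_eq_mul]; omega]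
      simp only [nf, ← Nat.card_sigma]
      refine Nat.card_congr ⟨fun x => ⟨(x.1.1, x.2.1), Prod.ext x.1.2 ?_⟩, fun x => ⟨⟨x.1.1, congrArg Prod.fst x.2⟩, x.1.2, ?_⟩,
        fun _ => rfl, fun _ => rfl⟩
      · simpa [τ, ρ', x.1.2] using x.2.2
      · simpa [τ, ρ', show π x.1.1 = x.1.1 from congrArg Prod.fst x.2] using congrArg Prod.snd x.2)
    refine ⟨fun x => (e x).1, fun j => ?_, π, fun x => congrArg Prod.fst (he x)⟩
    rw [Nat.card_congr (e.subtypeEquiv (q := fun y => y.1 = j) fun _ => .rfl)]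
    exact (Nat.card_congr ⟨fun y => y.1.2, fun i => ⟨(j, i), rfl⟩, fun ⟨_, e⟩ => by subst e; rfl, fun _ => rfl⟩).trans (Nat.card_fin a)

theorem arith {a b r : ℕ} (ha : 2 ≤ a) (hb : 2 ≤ b) (hr : r.Prime) (h : r ≤ a * b) :
    (∀ φ, φ + r ≤ a * b → φ ≡ a * b [MOD r] → ∃ t ≤ b, t ≡ b [MOD r] ∧ t * (a % r) ≤ φ ∧ φ ≤ t * a) ↔
      (r ≤ a ∧ (a % r = 0 ∨ (b % r = 0 ∧ a % r = 1) ∨
        (a % r ≠ 0 ∧ b % r ≠ 0 ∧ (b % r) * (a % r) < r ∧ (b < r ∨ (b % r + r) * (a % r) ≤ (b % r) * a + r)))) := by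
  have h0 := hr.two_le
  have h1 {t} (e : t ≡ b [MOD r]) : t = b % r ∨ b % r + r ≤ t := by
    rw [← e, ← Nat.mod_add_div t r, Nat.add_mul_mod_self_left, Nat.mod_mod]
    rcases t / r with _ | k
    · simp
    · exact .inr (by nlinarith)
  have h2 : b % r * (a % r) ≡ a * b [MOD r] := by rw [mul_comm]; exact (Nat.mod_modEq _ _).mul (Nat.mod_modEq _ _)
  constructor
  · intro H
    have h3 : r ≤ a := by_contra fun e => by
      obtain ⟨t, e1, e2, e3, e4⟩ := H (a * b - r) (by omega) ((Nat.modEq_iff_dvd' (by omega)).2 (by rw [Nat.sub_sub_self h]))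
      obtain ⟨k, hk⟩ := (Nat.modEq_iff_dvd' e1).1 e2
      rw [Nat.mod_eq_of_lt (not_le.1 e)] at e3
      obtain rfl : b = t + r * k := by omega
      have : r = r * (a * k) := by
        zify [h] at *
        nlinarith
      have := Nat.eq_one_of_mul_eq_one_right (Nat.eq_of_mul_eq_mul_left hr.pos (this.symm.trans (mul_one _).symm))
      omega
    refine ⟨h3, or_iff_not_imp_left.2 fun h4 => ?_⟩
    by_cases h5 : b % r = 0
    · refine .inl ⟨h5, by_contra fun h6 => ?_⟩
      have h7 := Nat.le_of_dvd (by omega) (Nat.dvd_of_mod_eq_zero h5)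
      obtain ⟨t, -, e2, e3, e4⟩ := H r (by nlinarith) (by simp [Nat.ModEq, Nat.mul_mod, h5])
      have : 2 ≤ a % r := by omega
      rcases h1 e2 with e | e
      · simp [e, h5] at e4; omega
      · nlinarith
    refine .inr ⟨h4, h5, ?_, or_iff_not_imp_left.2 fun h6 => ?_⟩
    · obtain ⟨t, -, e2, e3, -⟩ := H (a * b % r) (by nlinarith [Nat.mod_lt (a * b) hr.pos]) (Nat.mod_modEq _ _)
      exact ((Nat.mul_le_mul_right _ (by have := h1 e2; omega)).trans e3).trans_lt (Nat.mod_lt _ hr.pos)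
    · have h7 := (h1 (.refl b)).resolve_left fun e => h6 (e ▸ Nat.mod_lt _ hr.pos)
      obtain ⟨t, -, e2, e3, e4⟩ := H (b % r * a + r) (by nlinarith) (by
        rw [mul_comm]; exact (Nat.add_modEq_right.trans ((Nat.mod_modEq _ _).mul_left _)))
      rcases h1 e2 with rfl | e
      · omega
      · exact (Nat.mul_le_mul_right _ e).trans e3
  · rintro ⟨h3, h4 | ⟨h4, h5⟩ | ⟨-, -, h4, h5⟩⟩ φ e1 e2
    · exact ⟨b, le_rfl, rfl, by simp [h4], by nlinarith⟩
    · rcases le_total φ b with e | e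
      · exact ⟨φ, e, e2.trans (by simp [Nat.ModEq, Nat.mul_mod, h4]), by simp [h5], by nlinarith⟩
      · exact ⟨b, le_rfl, rfl, by simpa [h5], by nlinarith⟩
    have h6 : ∃ t, t ≡ b [MOD r] ∧ φ ≤ t * a := ⟨b, rfl, by nlinarith⟩
    have h7 : Nat.find h6 ≤ b := Nat.find_min' h6 ⟨rfl, by nlinarith⟩
    obtain ⟨e3, e4⟩ := Nat.find_spec h6
    refine ⟨_, h7, e3, ?_, e4⟩
    rcases h1 e3 with e | e
    · rw [e, ← Nat.mod_eq_of_lt h4, h2, ← e2]
      exact Nat.mod_le _ _
    obtain ⟨s, e5⟩ := Nat.exists_eq_add_of_le e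
    have e6 : b % r + s ≡ b [MOD r] := Nat.add_modEq_right.symm.trans (by rw [add_right_comm, ← e5]; exact e3)
    have e7 := not_le.1 fun e => Nat.find_min h6 (m := b % r + s) (by omega) ⟨e6, e⟩
    have e8 := Nat.le_of_dvd (by omega) ((Nat.modEq_iff_dvd' e7.le).1 ((e6.mul_right a).trans (by rw [mul_comm]; exact e2.symm)))
    have e9 := Nat.mul_le_mul_left s (Nat.mod_le a r)
    have := h5.resolve_left (by omega)
    rw [e5]
    zify [e7.le] at *
    nlinarith

/-- Let a, b ≥ 2 and consider the symmetric group of degree a·b acting on the partitions of an (a·b)-set into b parts of size a (encoded as maps onto a b-element set all of whose fibres have a elements; a permutation fixes such a partition when it permutes the fibres). Let r be a prime dividing the number (ab)!/((a!)^b·b!) of such partitions, and let ℓ and k be the remainders of a and b modulo r. Then every permutation of order r fixes some such partition if and only if r ≤ a and one of the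 following holds: ℓ = 0; or k = 0 and ℓ = 1; or ℓ and k are non-zero, k·ℓ < r, and either b < r or (k + r)·ℓ ≤ k·a + r. -/
theorem result (a b : ℕ) (ha : 2 ≤ a) (hb : 2 ≤ b) (r : ℕ) (hr : r.Prime)
    (hrd : r ∣ (a * b).factorial / (a.factorial ^ b * b.factorial)) :
    (∀ σ : Equiv.Perm (Fin (a * b)), orderOf σ = r →
        ∃ f : Fin (a * b) → Fin b, (∀ j : Fin b, Nat.card {x : Fin (a * b) // f x = j} = a) ∧
          ∃ π : Equiv.Perm (Fin b), ∀ x : Fin (a * b), f (σ x) = π (f x)) ↔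
      (r ≤ a ∧ (a % r = 0 ∨ (b % r = 0 ∧ a % r = 1) ∨
        (a % r ≠ 0 ∧ b % r ≠ 0 ∧ (b % r) * (a % r) < r ∧ (b < r ∨ (b % r + r) * (a % r) ≤ (b % r) * a + r)))) := by
  have := Fact.mk hr
  have h : r ≤ a * b := hr.dvd_factorial.1 (hrd.trans (Nat.div_dvd_of_dvd
    ⟨_, by rw [mul_comm a, ← Nat.uniformBell_mul_eq b (by omega : a ≠ 0), mul_assoc, mul_comm]⟩))
  rw [← arith ha hb hr h]
  refine ⟨fun H φ h1 h2 => ?_, fun H σ h1 => ?_⟩
  · obtain ⟨k, hk⟩ := (Nat.modEq_iff_dvd' (by omega)).1 h2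
    obtain ⟨σ, h3, rfl⟩ := nf_exists (r := r) (Fin (a * b)) (m := φ) (k := k) (by rw [mul_comm k, ← hk, Fintype.card_fin]; omega)
    refine (key (by omega) h3).1 (H σ (orderOf_eq_prime h3 ?_))
    rintro rfl
    have := nf_add h3
    simp at this
    have := hr.pos
    omega
  · have h2 := h1 ▸ pow_orderOf_eq_one σ
    have h3 := nf_add h2
    have h4 : 0 < σ.cycleType.card := Perm.card_cycleType_pos.2 (by rintro rfl; simp [← h1] at hr; exact Nat.not_prime_one hr)
    exact (key (by omega) h2).2 (H _ (by simp at h3; nlinarith) (by simpa using nf_mod h2))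

end Cfsg.Agent.S3575
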