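import Cfsg.Statements.S3599
import Cfsg.Agent.H26.FrobSpec

set_option autoImplicit false
open Cfsg

namespace Cfsg.Agent.S3599

def Q (e p : ℕ) (G : Type) [Group G] : Prop :=
  (∀ x : G, x ^ e = 1) ∧ ∀ x y : G, x ^ p = 1 → y ^ p = 1 → (x * y) ^ p = 1

theorem Q.sec {e' p : ℕ} (hc : e'.Coprime p) {G : Type} [Group G] (h : Q (p * e') p G)
    (H : Subgroup G) (N : Subgroup H) [N.Normal] : Q (p * e') p (H ⧸ N) := by
  have h1 : ∀ x : H, x ^ (p * e') = 1 := fun x => Subtype.ext (by simpa using h.1 x)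
  have lift : ∀ x : H ⧸ N, x ^ p = 1 → ∃ y : H, (y : H ⧸ N) = x ∧ (y : G) ^ p = 1 := by
    intro x hx
    obtain ⟨y, rfl⟩ := QuotientGroup.mk_surjective x
    obtain ⟨u, hu⟩ : ∃ u, e' * u % p = 1 % p := by
      rcases Nat.eq_zero_or_pos p with rfl | hp
      · exact ⟨1, by simpa using hc⟩
      · refine ⟨e' ^ (Nat.totient p - 1), ?_⟩
        show _ ≡ 1 [MOD p]
        rw [← pow_succ', Nat.sub_add_cancel (Nat.totient_pos.2 hp)]
        exact Nat.ModEq.pow_totient hc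
    refine ⟨y ^ (e' * u), ?_, ?_⟩
    · rw [QuotientGroup.mk_pow, pow_eq_pow_mod _ hx, hu, ← pow_eq_pow_mod _ hx, pow_one]
    · rw [Subgroup.coe_pow, ← pow_mul, show e' * u * p = p * e' * u by ring, pow_mul, h.1, one_pow]
  refine ⟨fun x => ?_, fun x y hx hy => ?_⟩
  · obtain ⟨y, rfl⟩ := QuotientGroup.mk_surjective x
    rw [← QuotientGroup.mk_pow, h1, QuotientGroup.mk_one]
  · obtain ⟨x', rfl, hx'⟩ := lift x hx
    obtain ⟨y', rfl, hy'⟩ := lift y hy
    have : (x' * y') ^ p = 1 := Subtype.ext (by simpa using h.2 _ _ hx' hy')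
    rw [← QuotientGroup.mk_mul, ← QuotientGroup.mk_pow, this, QuotientGroup.mk_one]

theorem crit (P : ∀ (G : Type) [Group G], Prop)
    (hP : ∀ (G : Type) [Group G] (H : Subgroup G) (N : Subgroup H) [N.Normal], P G → P (H ⧸ N))
    (Ω : Set ℕ) (n : ℕ) : ∀ (G : Type) [Group G] [Finite G], Nat.card G = n → P G →
    Set.range (orderOf : G → ℕ) = Ω → ∃ (K : Type) (_ : Group K) (_ : Finite K), P K ∧
      Set.range (orderOf : K → ℕ) = Ω ∧ ∀ (H : Subgroup K) (N : Subgroup H) [N.Normal],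
        (H ≠ ⊤ ∨ N ≠ ⊥) → Set.range (orderOf : (H ⧸ N) → ℕ) ≠ Ω := by
  induction n using Nat.strong_induction_on with
  | _ n ih =>
    intro G _ _ hn h1 h2
    by_cases h : ∀ (H : Subgroup G) (N : Subgroup H) [N.Normal],
        (H ≠ ⊤ ∨ N ≠ ⊥) → Set.range (orderOf : (H ⧸ N) → ℕ) ≠ Ω
    · exact ⟨G, _, inferInstance, h1, h2, h⟩
    · simp only [not_forall, not_not] at h
      obtain ⟨H, N, _, hne, he⟩ := h
      refine ih _ ?_ (H ⧸ N) rfl (hP G H N h1) he
      have e1 := Subgroup.card_eq_card_quotient_mul_card_subgroup N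
      have e2 := Subgroup.card_mul_index H
      have p1 : 0 < Nat.card N := Nat.card_pos
      have p2 : 0 < Nat.card (H ⧸ N) := Nat.card_pos
      have p3 : 0 < H.index := Nat.pos_of_ne_zero Subgroup.index_ne_zero_of_finite
      rw [← hn, ← e2, e1, mul_assoc]
      refine lt_mul_of_one_lt_right p2 ?_
      rcases hne with h | h
      · have : H.index ≠ 1 := by rwa [Ne, Subgroup.index_eq_one]
        nlinarith [show 2 ≤ H.index by omega]
      · have : Nat.card N ≠ 1 := by rwa [Ne, Subgroup.card_eq_one]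
        nlinarith [show 2 ≤ Nat.card N by omega]

theorem exists_pq {G : Type} [Group G] {p q : ℕ} (hp : p.Prime) (hq : q.Prime) (hpq : p ≠ q)
    (h1 : ∀ x y : G, x ^ p = 1 → y ^ p = 1 → (x * y) ^ p = 1)
    (h2 : ∀ x y : G, x ^ q = 1 → y ^ q = 1 → (x * y) ^ q = 1) {x y : G} (hx : orderOf x = p)
    (hy : orderOf y = q) : orderOf (x * y) = p * q := by
  have hx' : x ^ p = 1 := hx ▸ pow_orderOf_eq_one x
  have hy' : y ^ q = 1 := hy ▸ pow_orderOf_eq_one y
  have a : (x * (y * x⁻¹ * y⁻¹)) ^ p = 1 := h1 _ _ hx' (by rw [conj_pow, inv_pow, hx']; simp)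
  have b : (x * y * x⁻¹ * y⁻¹) ^ q = 1 := h2 _ _ (by rw [conj_pow, hy']; simp) (by rw [inv_pow, hy']; simp)
  have hc := (Nat.coprime_primes hp hq).2 hpq
  have : x * y * x⁻¹ * y⁻¹ = 1 := orderOf_eq_one_iff.1 (Nat.eq_one_of_dvd_coprimes hc
    (orderOf_dvd_of_pow_eq_one (by simpa only [mul_assoc] using a)) (orderOf_dvd_of_pow_eq_one b))
  have hc' : Commute x y := by
    rw [mul_inv_eq_one, mul_inv_eq_iff_eq_mul] at this; exact this
  rw [hc'.orderOf_mul_eq_mul_orderOf_of_coprime (by rw [hx, hy]; exact hc), hx, hy]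

/-- A finite group is critical with respect to a set Ω of natural numbers when its set of element orders is Ω while no proper section H/N (H a subgroup, N normal in H, (H, N) ≠ (whole group, 1)) has Ω as its set of element orders. Let s ≥ 1 and let p(j,0), p(j,1) (j < s) be 2s pairwise distinct primes, and let Ω be the set of all products c(0)·…·c(s−1) with each c(j) ∈ {1, p(j,0), p(j,1)}. Then there are 2^s pairwise non-isomorphic finite groups critical with respect to Ω. -/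
theorem result (s : ℕ) (hs : 1 ≤ s) (p : Fin s → Fin 2 → ℕ)
    (hp : ∀ j i, (p j i).Prime) (hinj : ∀ j i j' i', p j i = p j' i' → j = j' ∧ i = i') :
    ∃ (G : Fin (2 ^ s) → Type) (_ : ∀ a, Group (G a)) (_ : ∀ a, Fintype (G a)),
      (∀ a b, a ≠ b → ¬ Nonempty (G a ≃* G b)) ∧
      ∀ a, Set.range (orderOf : (G a) → ℕ) = {m : ℕ | ∃ c : Fin s → ℕ, (∀ j, c j = 1 ∨ c j = p j 0 ∨ c j = p j 1) ∧ m = ∏ j, c j} ∧
      ∀ (H : Subgroup (G a)) (N : Subgroup ↥H) [N.Normal], (H ≠ ⊤ ∨ N ≠ ⊥) → Set.range (orderOf : (↥H ⧸ N) → ℕ) ≠ {m : ℕ | ∃ c : Fin s → ℕ, (∀ j, c j = 1 ∨ c j = p j 0 ∨ c j = p j 1) ∧ m = ∏ j, c j} := by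
  classical
  set Ω := {m : ℕ | ∃ c : Fin s → ℕ, (∀ j, c j = 1 ∨ c j = p j 0 ∨ c j = p j 1) ∧ m = ∏ j, c j}
    with hΩ
  have hne : ∀ j i j' i', j ≠ j' ∨ i ≠ i' → (p j i).Coprime (p j' i') := fun j i j' i' h =>
    (Nat.coprime_primes (hp _ _) (hp _ _)).2 fun e => by have := hinj _ _ _ _ e; tauto
  let e : ℕ := ∏ z : Fin s × Fin 2, p z.1 z.2
  have he : ∀ j i, ∃ e', e = p j i * e' ∧ e'.Coprime (p j i) := fun j i =>
    ⟨_, (Finset.mul_prod_erase _ _ (Finset.mem_univ (j, i))).symm,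
      Nat.Coprime.prod_left fun z hz => hne _ _ _ _ (by
        have := Finset.ne_of_mem_erase hz
        by_contra h; push Not at h; exact this (Prod.ext h.1 h.2))⟩
  have ex : ∀ a : Fin s → Fin 2, ∃ (K : Type) (_ : Group K) (_ : Finite K),
      (∀ j, Q e (p j (a j)) K) ∧ Set.range (orderOf : K → ℕ) = Ω ∧
      ∀ (H : Subgroup K) (N : Subgroup H) [N.Normal],
        (H ≠ ⊤ ∨ N ≠ ⊥) → Set.range (orderOf : (H ⧸ N) → ℕ) ≠ Ω := by
    intro a
    have : ∀ j, ∃ (H : Type) (_ : Group H) (_ : Finite H),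
        (∀ n, n ∈ Set.range (orderOf : H → ℕ) ↔ n = 1 ∨ n = p j 0 ∨ n = p j 1) ∧
        ∀ x y : H, x ^ p j (a j) = 1 → y ^ p j (a j) = 1 → (x * y) ^ p j (a j) = 1 := by
      intro j
      obtain ⟨H, _, _, -, h1, h2⟩ := H26.exists_frob_cyc (hp j (a j))
        (hne j (a j + 1) j (a j) (.inr (by generalize a j = i; revert i; decide))) (hp _ _).ne_zero
      refine ⟨H, _, inferInstance, fun n => ?_, h2⟩
      rw [h1, Nat.dvd_prime (hp _ _), Nat.dvd_prime (hp _ _)]
      generalize a j = i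
      fin_cases i <;> simp <;> tauto
    choose H iH fH h1 h2 using this
    have hco : ∀ x : ∀ j, H j, orderOf x = ∏ j, orderOf (x j) := by
      intro x
      rw [Pi.orderOf, Finset.lcm_eq_prod]
      intro j _ j' _ hj
      show (orderOf (x j)).Coprime (orderOf (x j'))
      rcases (h1 j _).1 ⟨x j, rfl⟩ with h | h | h <;>
        rcases (h1 j' _).1 ⟨x j', rfl⟩ with h' | h' | h' <;> rw [h, h'] <;>
        first | exact hne _ _ _ _ (.inl hj) | simp
    refine crit (fun K _ => ∀ j, Q e (p j (a j)) K) ?_ Ω _ (∀ j, H j) rfl ?_ ?_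
    · intro G _ H N _ h j
      obtain ⟨e', h3, h4⟩ := he j (a j)
      have := h j
      rw [h3] at this ⊢
      exact this.sec h4 H N
    · intro j
      refine ⟨fun x => ?_, fun x y hx hy => ?_⟩
      · ext i
        rw [Pi.pow_apply, Pi.one_apply, ← orderOf_dvd_iff_pow_eq_one]
        rcases (h1 i _).1 ⟨x i, rfl⟩ with h | h | h <;> rw [h]
        · exact one_dvd _
        · obtain ⟨e', h3, -⟩ := he i 0; exact ⟨e', h3⟩
        · obtain ⟨e', h3, -⟩ := he i 1; exact ⟨e', h3⟩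
      · ext i
        by_cases hi : i = j
        · subst hi; exact h2 i _ _ (congrFun hx i) (congrFun hy i)
        · have key : ∀ z : H i, z ^ p j (a j) = 1 → z = 1 := by
            intro z hz
            have hd := orderOf_dvd_of_pow_eq_one hz
            rcases (h1 i _).1 ⟨z, rfl⟩ with h | h | h
            · exact orderOf_eq_one_iff.1 h
            · exact absurd (Nat.eq_one_of_dvd_coprimes (hne i 0 j _ (.inl hi)) dvd_rfl (h ▸ hd))
                (hp _ _).ne_one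
            · exact absurd (Nat.eq_one_of_dvd_coprimes (hne i 1 j _ (.inl hi)) dvd_rfl (h ▸ hd))
                (hp _ _).ne_one
          simp [key _ (congrFun hx i), key _ (congrFun hy i)]
    · ext m
      constructor
      · rintro ⟨x, rfl⟩
        exact ⟨_, fun j => (h1 j _).1 ⟨x j, rfl⟩, hco x⟩
      · rintro ⟨c, hc, rfl⟩
        choose x hx using fun j => (h1 j _).2 (hc j)
        exact ⟨x, by rw [hco]; simp [hx]⟩
  choose K iK fK k1 k2 k3 using ex
  let φ : Fin (2 ^ s) ≃ (Fin s → Fin 2) := finFunctionFinEquiv.symm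
  refine ⟨fun a => K (φ a), fun a => iK _, fun a => Fintype.ofFinite _, ?_,
    fun a => ⟨k2 _, k3 _⟩⟩
  rintro a b hab ⟨f⟩
  obtain ⟨j, hj⟩ := Function.ne_iff.1 (φ.injective.ne hab)
  have mem : ∀ i, p j i ∈ Ω := fun i => ⟨Pi.mulSingle j (p j i), fun l => by
    by_cases h : l = j
    · subst h; fin_cases i <;> simp
    · simp [h], by simp⟩
  obtain ⟨x, hx⟩ := (k2 (φ a)).ge (mem (φ a j))
  obtain ⟨y, hy⟩ := (k2 (φ a)).ge (mem (φ b j))
  have := exists_pq (hp _ _) (hp _ _) (fun e => hj (hinj _ _ _ _ e).2) (k1 (φ a) j).2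
    (fun x y hx hy => f.injective (by
      rw [map_pow, map_mul, map_one]
      exact (k1 (φ b) j).2 _ _ (by rw [← map_pow, hx, map_one]) (by rw [← map_pow, hy, map_one])))
    hx hy
  obtain ⟨c, hc, h⟩ := (k2 (φ a)).le ⟨_, this⟩
  have key : ∀ i, p j i ∣ ∏ j, c j → c j = p j i := by
    intro i hi
    obtain ⟨l, -, hl⟩ := ((hp j i).prime.dvd_finsetProd_iff _).1 hi
    rcases hc l with h | h | h <;> rw [h] at hl
    · exact absurd (Nat.dvd_one.1 hl) (hp _ _).ne_one
    · have e := (Nat.prime_dvd_prime_iff_eq (hp _ _) (hp _ _)).1 hl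
      obtain ⟨rfl, -⟩ := hinj _ _ _ _ e
      rw [h, e]
    · have e := (Nat.prime_dvd_prime_iff_eq (hp _ _) (hp _ _)).1 hl
      obtain ⟨rfl, -⟩ := hinj _ _ _ _ e
      rw [h, e]
  exact hj (hinj _ _ _ _ ((key _ (h ▸ Dvd.intro _ rfl)).symm.trans
    (key _ (h ▸ Dvd.intro_left _ rfl)))).2

end Cfsg.Agent.S3599
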