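import Cfsg.Statements.S3627
import Cfsg.Agent.H19.MatEng
import Cfsg.Agent.H19.Syl
import Cfsg.Agent.S2131

set_option autoImplicit false
open Cfsg

namespace Cfsg.Agent.S3627

open Cfsg.Agent.H19

/-- generators -/
def G3Gens : List ℕ := [7]

/-- inverses -/
def G3Invs : List ℕ := [11]

/-- elements -/
def G3L : List ℕ := [
  0x1, 0x7, 0xb]

/-- The group. -/
noncomputable abbrev G3 := H19.genGrp 19 1 5 G3Gens

theorem G3_codes (k : ℕ) (b : Bool) :
    (∃ g : G3, orderOf g = k ∧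
      ((∃ v : Fin 1 → ZMod 19, H19.nrm g (orderOf g) v ≠ 0) ↔ b = true)) ↔
      2 * k + b.toNat ∈ [3, 6] :=
  H19.codes_iff (invs := G3Invs) (L := G3L) (wds := [[], [0]]) (fuel := 4)
    (by norm_num) (by norm_num) (by decide) (by decide +kernel) (by decide +kernel)
    (by decide +kernel) (by decide +kernel) k b

theorem specX (n : ℕ) : n ∈ Set.range (orderOf : Aff G3 (Fin 1 → ZMod 19) → ℕ) ↔ n ∈ [1, 3, 19] :=
  set_eq_of_lists (spec_aff_of_codes (p := 19) (by norm_num)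
    (fun v => by ext i; simp [show (19 : ZMod 19) = 0 from rfl]) G3_codes)
    (by decide +kernel) (by decide +kernel) n

theorem exists_conj_mem {G : Type*} [Group G] [Finite G] {p : ℕ} [Fact p.Prime] (K : Subgroup G)
    (hK : ¬ p ∣ K.index) {y : G} {k : ℕ} (hy : y ^ p ^ k = 1) : ∃ h : G, h * y * h⁻¹ ∈ K := by
  obtain ⟨Q, hQ⟩ := (show IsPGroup p (Subgroup.zpowers y) from fun ⟨_, i, hi⟩ => ⟨k, Subtype.ext
    (by simp only [← hi, SubgroupClass.coe_pow]; rw [← zpow_natCast, ← zpow_mul, mul_comm, zpow_mul,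
      zpow_natCast, hy, one_zpow]; rfl)⟩).exists_le_sylow
  obtain ⟨P⟩ : Nonempty (Sylow p K) := inferInstance
  have h1 : ¬ p ∣ ((P : Subgroup K).map K.subtype).index := by
    rw [Subgroup.index_map_subtype]
    exact fun h => ((Fact.out : p.Prime).dvd_mul.mp h).elim P.not_dvd_index hK
  obtain ⟨h, hh⟩ := MulAction.exists_smul_eq G Q ((P.2.map K.subtype).toSylow h1)
  refine ⟨h, Subgroup.map_subtype_le (P : Subgroup K) ?_⟩
  have h2 : h * y * h⁻¹ ∈ ((h • Q : Sylow p G) : Subgroup G) :=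
    (mem_smul_sylow Q h _).mpr (by simpa [mul_assoc] using hQ (Subgroup.mem_zpowers y))
  rwa [hh] at h2

theorem ord_J (g : Spor.J1) : orderOf g ∣ 2310 ∨ orderOf g = 19 := by
  by_cases h : 19 ∣ orderOf g
  · obtain ⟨a, ha, ra⟩ := H16.J1.habc.head
    have h1 : orderOf (⟨a, ha⟩ : Spor.J1) = 19 := (Subgroup.orderOf_mk a ha).trans
      (H16.Mdl.orderOf_prime H16.J1.hv H16.J1.hpt ra (by norm_num) (by decide +kernel))
    haveI : Fact (Nat.Prime 19) := ⟨by norm_num⟩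
    have h2 := orderOf_pow_orderOf_div (orderOf_pos g).ne' h
    have h3 := (Subgroup.zpowers (⟨a, ha⟩ : Spor.J1)).index_mul_card
    rw [Nat.card_zpowers, h1, H16.J1.card] at h3
    obtain ⟨c, hc⟩ := exists_conj_mem (p := 19) (k := 1) (Subgroup.zpowers (⟨a, ha⟩ : Spor.J1))
      (by omega) (by rw [pow_one, ← h2, pow_orderOf_eq_one])
    rw [← conj_pow] at hc
    have h4 : orderOf (c * g * c⁻¹) = orderOf g := (MulAut.conj c).orderOf_eq g
    rw [← h4] at hc h h2 ⊢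
    generalize c * g * c⁻¹ = g at hc h h2
    have h5 : (⟨a, ha⟩ : Spor.J1) ∈ Subgroup.zpowers (g ^ (orderOf g / 19)) := by
      rw [Subgroup.eq_of_le_of_card_ge (Subgroup.zpowers_le_of_mem hc) (by
        rw [Nat.card_zpowers, Nat.card_zpowers, h1, orderOf_pow_orderOf_div (orderOf_pos g).ne' h])]
      exact Subgroup.mem_zpowers _
    obtain ⟨i, hi⟩ := h5
    have h6 := H16.J1.selfc a ra g g.2 (congrArg Subtype.val (show Commute g ⟨a, ha⟩ from
      hi ▸ (Commute.self_pow g _).zpow_right i))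
    have h7 := orderOf_dvd_of_mem_zpowers h6
    rw [Subgroup.orderOf_coe, ← Subgroup.orderOf_mk a ha, h1] at h7
    exact Or.inr (Nat.dvd_antisymm h7 h)
  have h4 : ¬ 4 ∣ orderOf g := fun h4 => by
    obtain ⟨t, -, ⟨e⟩⟩ := S2131.result
    obtain ⟨y, hy⟩ := exists_orderOf_of_dvd h4
    have h3 := (Subgroup.centralizer ({t} : Set Spor.J1)).index_mul_card
    rw [Nat.card_congr e.toEquiv, H16.J1.card, Nat.card_prod, nat_card_alternatingGroup] at h3
    simp [Nat.factorial] at h3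
    obtain ⟨c, hc⟩ := exists_conj_mem (p := 2) (k := 2) (Subgroup.centralizer ({t} : Set Spor.J1))
      (by omega) (y := y) (by rw [← pow_orderOf_eq_one y, hy]; rfl)
    obtain ⟨a, ⟨u, rfl⟩, b, hb, h5⟩ := spec_prod _ |>.mp ⟨e ⟨_, hc⟩, rfl⟩
    rw [e.orderOf_eq, Subgroup.orderOf_mk, show orderOf (c * y * c⁻¹) = _ from
      (MulAut.conj c).orderOf_eq y, hy] at h5
    have h6 : orderOf u ∣ 2 := by simpa using orderOf_dvd_natCard u
    rw [spec_A5] at hb
    rcases (Nat.dvd_prime Nat.prime_two).mp h6 with h | h <;> rw [h] at h5 <;> revert h5 b <;> decide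
  have h5 : orderOf g ∣ 4 * (2310 * 19) := by simpa [H16.J1.card] using orderOf_dvd_natCard g
  have h6 : orderOf g ∣ 4 * 2310 :=
    ((Nat.Prime.coprime_iff_not_dvd (by norm_num)).mpr h).symm.dvd_of_dvd_mul_right
      (by rwa [mul_assoc])
  rw [dvd_iff_mem_list (by norm_num)] at h6
  left
  generalize orderOf g = n at h4 h6
  revert h4
  revert n
  decide +kernel

theorem mem_J {n : ℕ} (hn : n ∈ [1, 2, 3, 5, 10, 7, 11, 19]) :
    n ∈ Set.range (orderOf : Spor.J1 → ℕ) := by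
  have h : ∀ p : ℕ, p.Prime → p ∣ 175560 → p ∈ Set.range (orderOf : Spor.J1 → ℕ) := fun p hp h =>
    (prime_dvd_card_iff hp).mp (H16.J1.card ▸ h)
  obtain ⟨t, -, ⟨e⟩⟩ := S2131.result
  have h10 : 10 ∈ Set.range (orderOf : Spor.J1 → ℕ) :=
    spec_mono (Subgroup.subtype _) Subtype.val_injective (spec_congr e ▸ (spec_prod _).mpr
      ⟨2, ⟨Multiplicative.ofAdd 1, by simp⟩, 5, (spec_A5 _).mpr (by decide), rfl⟩)
  simp only [List.mem_cons, List.not_mem_nil, or_false] at hn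
  rcases hn with rfl | rfl | rfl | rfl | rfl | rfl | rfl | rfl
  exacts [⟨1, orderOf_one⟩, h _ (by norm_num) (by norm_num), h _ (by norm_num) (by norm_num),
    h _ (by norm_num) (by norm_num), h10, h _ (by norm_num) (by norm_num),
    h _ (by norm_num) (by norm_num), h _ (by norm_num) (by norm_num)]


/-- Let J be the first Janko group. Then there are finite groups of arbitrarily large order with exactly the same set of element orders as J × J × J × J. -/
theorem result (N : ℕ) : ∃ (H : Type) (_ : Group H) (_ : Fintype H), N < Fintype.card H ∧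
      Set.range (orderOf : H → ℕ) = Set.range (orderOf : ↥Cfsg.Spor.J1 × ↥Cfsg.Spor.J1 × ↥Cfsg.Spor.J1 × ↥Cfsg.Spor.J1 → ℕ) := by
  haveI := finite_aff (G := G3) (V := Fin 1 → ZMod 19)
  haveI : Fact (1 < 19) := ⟨by norm_num⟩
  obtain ⟨H, _, _, h1, h2⟩ := exists_large_isospectral (hasElemNormal_aff
    (G := G3) (V := Fin 1 → ZMod 19)) N
  refine ⟨H × Spor.J1 × Spor.J1 × Spor.J1, inferInstance, Fintype.ofFinite _, ?_, ?_⟩
  · rw [← @Nat.card_eq_fintype_card _ (_)] at h1 ⊢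
    exact h1.trans_le (Nat.card_le_card_of_injective _ (Prod.mk_left_injective 1))
  ext n
  simp only [spec_prod n, h2, specX]
  refine ⟨fun ⟨a, ha, h⟩ => ⟨a, mem_J (by clear h; revert a; decide), h⟩, ?_⟩
  rintro ⟨_, ⟨a, rfl⟩, _, ⟨⟨b, c, d⟩, rfl⟩, rfl⟩
  rw [Prod.orderOf_mk, Prod.orderOf_mk]
  have key : ∀ x y z : Spor.J1, (orderOf x).lcm ((orderOf y).lcm (orderOf z)) ∈
      Set.range (orderOf : Spor.J1 × Spor.J1 × Spor.J1 → ℕ) := fun x y z =>
    ⟨(x, y, z), by rw [Prod.orderOf_mk, Prod.orderOf_mk]⟩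
  have lc : ∀ x y z : ℕ, x.lcm (y.lcm z) = y.lcm (x.lcm z) := fun x y z => by
    rw [← Nat.lcm_assoc, Nat.lcm_comm x, Nat.lcm_assoc]
  rcases ord_J a with ha | ha
  swap
  · exact ⟨19, by decide, _, key b c d, by rw [ha]⟩
  rcases ord_J b with hb | hb
  swap
  · exact ⟨19, by decide, _, key a c d, by rw [hb, lc]⟩
  rcases ord_J c with hc | hc
  swap
  · exact ⟨19, by decide, _, key a b d, by rw [hc, lc (orderOf b), lc]⟩
  rcases ord_J d with hd | hd
  swap
  · exact ⟨19, by decide, _, key a b c, by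
      rw [hd, Nat.lcm_comm _ 19, lc (orderOf b), lc]⟩
  have h3 := Nat.lcm_dvd ha (Nat.lcm_dvd hb (Nat.lcm_dvd hc hd))
  rw [dvd_iff_mem_list (by norm_num)] at h3
  generalize Nat.lcm _ _ = n at h3
  obtain ⟨h4, h5, h6, h7, h8⟩ : n.gcd 3 ∈ [1, 3, 19] ∧ n.gcd 10 ∈ [1, 2, 3, 5, 10, 7, 11, 19] ∧
      n.gcd 7 ∈ [1, 2, 3, 5, 10, 7, 11, 19] ∧ n.gcd 11 ∈ [1, 2, 3, 5, 10, 7, 11, 19] ∧
      n = (n.gcd 3).lcm ((n.gcd 10).lcm ((n.gcd 7).lcm (n.gcd 11))) := by
    revert n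
    decide +kernel
  obtain ⟨x, hx⟩ := mem_J h5
  obtain ⟨y, hy⟩ := mem_J h6
  obtain ⟨z, hz⟩ := mem_J h7
  exact ⟨_, h4, _, key x y z, by rw [hx, hy, hz, ← h8]⟩

end Cfsg.Agent.S3627
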