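import Cfsg.Statements.S3633
import Cfsg.Agent.H25.PG

set_option autoImplicit false
open Cfsg

namespace Cfsg.Agent.S3633

open Subgroup Cfsg.Agent.H20 Cfsg.Agent.H21 Cfsg.Agent.H25

/-- Let G be a finite group and ρ a set of at least three prime divisors of the order of G that are pairwise non-adjacent in the prime graph (no element of order rs for distinct r, s ∈ ρ). Then at most one prime of ρ divides the order of any given solvable normal subgroup of G; in particular G is not solvable. -/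
theorem result {G : Type*} [Group G] [Finite G] (ρ : Finset ℕ) (hρ : 3 ≤ ρ.card) (hc : ((∀ r ∈ ρ, r.Prime ∧ r ∣ Nat.card G) ∧ (∀ r ∈ ρ, ∀ s ∈ ρ, r ≠ s → ¬ ∃ x : G, orderOf x = r * s)))
    (K : Subgroup G) [K.Normal] (hK : Group.IsSolvable ↥K) :
    (∀ r ∈ ρ, ∀ s ∈ ρ, r ∣ Nat.card ↥K → s ∣ Nat.card ↥K → r = s) ∧ ¬ Group.IsSolvable G := by
  have key : ∀ K : Subgroup G, K.Normal → Group.IsSolvable K →
      ∀ r ∈ ρ, ∀ s ∈ ρ, r ∣ Nat.card ↥K → s ∣ Nat.card ↥K → r = s := by
    intro K _ hK r hr s hs h1 h2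
    by_contra hne
    obtain ⟨t, ht, h3⟩ : ∃ t ∈ ρ, t ∉ ({r, s} : Finset ℕ) := by
      apply Finset.exists_mem_notMem_of_card_lt_card
      rw [Finset.card_pair hne]; omega
    simp only [Finset.mem_insert, Finset.mem_singleton, not_or] at h3
    obtain ⟨y, -, hy⟩ := exists_prime_order_mem (A := (⊤ : Subgroup G)) (hc.1 t ht).1 (by rw [card_top']; exact (hc.1 t ht).2)
    have hs' : Group.IsSolvable ↥(K ⊔ zpowers y) := sol_sup hK (sol_of_comm inferInstance)
      (Or.inr (le_top.trans (NormalIn.of_normal K).2))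
    obtain ⟨g, -, hg⟩ := three_primes hs' (hc.1 r hr).1 (hc.1 s hs).1 (hc.1 t ht).1 hne (Ne.symm h3.1)
      (Ne.symm h3.2) (h1.trans (card_dvd le_sup_left)) (h2.trans (card_dvd le_sup_left))
      (hy ▸ orderOf_dvd_card_of_mem (mem_sup_right (mem_zpowers y)))
    rcases hg with hg | hg | hg
    · exact hc.2 r hr s hs hne ⟨g, hg⟩
    · exact hc.2 r hr t ht (Ne.symm h3.1) ⟨g, hg⟩
    · exact hc.2 s hs t ht (Ne.symm h3.2) ⟨g, hg⟩
  refine ⟨key K inferInstance hK, fun hG => ?_⟩
  obtain ⟨r, hr, s, hs, hne⟩ := Finset.one_lt_card.mp (show 1 < ρ.card by omega)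
  exact hne (key ⊤ inferInstance (sol_top_iff.mpr hG) r hr s hs (by rw [card_top']; exact (hc.1 r hr).2)
    (by rw [card_top']; exact (hc.1 s hs).2))

end Cfsg.Agent.S3633
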