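import Cfsg.Statements.S3639
import Cfsg.Agent.H19.Aff
import Cfsg.Agent.H19.SzBasic

set_option autoImplicit false
open Cfsg

namespace Cfsg.Agent.S3639

/-- Let S be the Suzuki group over the field with q = 2^(2m+1) ≥ 8 elements. Then there are finite groups of arbitrarily large order with the same prime graph as S. -/
theorem result {F : Type*} [Field F] [Fintype F] {m : ℕ} (hm : 1 ≤ m) (hF : Fintype.card F = 2 ^ (2 * m + 1)) (N : ℕ) :
    ∃ (H : Type) (_ : Group H) (_ : Fintype H), N < Fintype.card H ∧ ((∀ r : ℕ, r.Prime → (r ∣ Nat.card ↥(Cfsg.Lie.Sz F (2 ^ (m + 1))) ↔ r ∣ Nat.card H)) ∧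
      (∀ r s : ℕ, r.Prime → s.Prime → r ≠ s → ((∃ x : ↥(Cfsg.Lie.Sz F (2 ^ (m + 1))), orderOf x = r * s) ↔ (∃ y : H, orderOf y = r * s)))) := by
  haveI : CharP F 2 := charP_of_card_eq_prime_pow hF
  refine H19.exists_large_sameGraph_aff (G := Cfsg.Lie.Sz F (2 ^ (m + 1))) (V := Fin 4 → F)
    Nat.prime_two (fun v => ?_) ?_ ?_ N
  · ext i
    simp [CharTwo.two_eq_zero]
  · have := Subgroup.orderOf_dvd_natCard _ (H19.J4GL_mem (F := F) (m + 1))
    rwa [H19.orderOf_J4GL] at this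
  · intro s g v hs hs2 hg hv hgv
    exfalso
    have h4 : g ^ 4 = 1 := Subtype.ext (H19.sz_pow_four_of_fixed (m + 1) g.2 hv hgv)
    have h5 := orderOf_dvd_of_pow_eq_one h4
    rw [hg] at h5
    exact hs2 ((Nat.prime_dvd_prime_iff_eq hs Nat.prime_two).1
      (hs.dvd_of_dvd_pow (show s ∣ 2 ^ 2 from h5)))

end Cfsg.Agent.S3639
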