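import Cfsg.Statements.S3660
import Cfsg.Agent.H19.Aff
import Cfsg.Agent.H19.GL2Ord

set_option autoImplicit false
open Cfsg

namespace Cfsg.Agent.S3660

theorem sameGraph_SL2 {F : Type*} [Field F] [Fintype F] [CharP F 2] (N : ℕ) :
    ∃ (K : Type) (_ : Group K) (_ : Fintype K), N < Fintype.card K ∧
      H19.SameGraph (Matrix.SpecialLinearGroup (Fin 2) F) K := by
  refine H19.exists_large_sameGraph_aff (V := Fin 2 → F) Nat.prime_two (fun v => ?_) ?_ ?_ N
  · ext i
    simp [CharTwo.two_eq_zero]
  · have := orderOf_dvd_natCard (H12.upper (1 : F))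
    rwa [H19.orderOf_upper_one (F := F) 2] at this
  · intro s g v hs hs2 hg hv hgv
    exfalso
    have h3 : g ^ 2 = 1 := H19.pow_char_of_fixed 2 hv hgv
    have h5 := orderOf_dvd_of_pow_eq_one h3
    rw [hg] at h5
    exact hs2 ((Nat.prime_dvd_prime_iff_eq hs Nat.prime_two).1 h5)


/-- The prime graph of a finite group has the prime divisors of its order as vertices, two distinct primes p, q being joined when the group has an element of order pq; two groups have the same prime graph when they have the same prime divisors and the same joined pairs. Let F be a finite field of characteristic 2 with at least 4 elements. Then there are finite groups of arbitrarily large order with the same prime graph as PSL(2,F); in particular PSL(2,F) is not determined by its prime graph. -/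
theorem result {F : Type*} [Field F] [Fintype F] [CharP F 2] (hF : 4 ≤ Fintype.card F) (N : ℕ) :
    ∃ (H : Type) (_ : Group H) (_ : Finite H), N < Nat.card H ∧
      ((∀ p : ℕ, p.Prime → (p ∣ Nat.card (Matrix.ProjectiveSpecialLinearGroup (Fin 2) F) ↔ p ∣ Nat.card H)) ∧
      (∀ p q : ℕ, p.Prime → q.Prime → p ≠ q → ((∃ g : (Matrix.ProjectiveSpecialLinearGroup (Fin 2) F), orderOf g = p * q) ↔ (∃ g : H, orderOf g = p * q)))) := by
  obtain ⟨K, _, _, h1, h2⟩ := sameGraph_SL2 (F := F) N
  obtain ⟨e⟩ := H19.nonempty_PSL2_equiv_SL2 (F := F)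
  exact ⟨K, inferInstance, inferInstance, by rwa [Nat.card_eq_fintype_card],
    (H19.SameGraph.of_equiv e).trans h2⟩

end Cfsg.Agent.S3660
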