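import Cfsg.Statements.S3669
import Cfsg.Agent.S3378
import Cfsg.Agent.H8.Deg1
import Cfsg.Agent.H7.PSL2Deg
import Cfsg.Agent.H13.PermMod
import Cfsg.Agent.H1.Hall
import Cfsg.Agent.H12.SmallRecog
-- import your own Cfsg.Agent.* helpers here

set_option autoImplicit false
open Cfsg

namespace Cfsg.Agent.S3669

open Cfsg.Agent.H1 Cfsg.Agent.H8 Subgroup


/-- The character degree graph of a finite group has as vertices the primes dividing some irreducible complex character degree, two distinct primes being joined when their product divides some irreducible character degree; two groups have the same character degree graph when they have the same vertices and the same joined pairs. A finite group of order 60 with the same character degree graph as the alternating group A₅ (whose character degrees are 1, 3, 4, 5, so the graph has vertices 2, 3, 5 and no edges) is isomorphic to A₅. -/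
theorem result {G : Type*} [Group G] [Finite G] (hcard : Nat.card G = 60)
    (hΓ : Cfsg.degreePrimes G = Cfsg.degreePrimes (alternatingGroup (Fin 5)) ∧ Cfsg.degreeGraph G = Cfsg.degreeGraph (alternatingGroup (Fin 5))) : Nonempty (G ≃* alternatingGroup (Fin 5)) := by
  haveI := Fact.mk Nat.prime_five
  by_cases hs : Group.IsSolvable G
  · exfalso
    obtain ⟨e⟩ := H13.nonempty_PSL2_five (F := ZMod 5) (ZMod.card 5)
    have h5 : 5 ∈ degreePrimes (alternatingGroup (Fin 5)) :=
      ⟨Nat.prime_five, 5, cd_congr e ▸ (by simpa using H7.Pd.q_mem (F := ZMod 5)), dvd_rfl⟩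
    obtain ⟨-, d, hd, h5⟩ := hΓ.1 ▸ h5
    obtain ⟨H, hH⟩ := exists_isPiHall {p | ¬ p ∣ 4} hs
    have h15 := (isPiHallOf_iff_card_eq (m := 15) (n := 4) (by rw [card_top, hcard]) (by norm_num)
      le_top).1 (isPiHallOf_top.2 hH)
    obtain ⟨⟨x, hx⟩, ho⟩ := exists_prime_orderOf_dvd_card' (G := H) 5 (by rw [h15]; norm_num)
    rw [orderOf_mk] at ho
    have hle := zpowers_le.2 hx
    have h1 := ((zpowers x).subgroupOf H).card_mul_index
    rw [Nat.card_congr (subgroupOfEquivOfLe hle).toEquiv, Nat.card_zpowers, ho, h15] at h1
    have h2 := (normal_subgroupOf_iff_le_normalizer hle).1 (normal_of_index_eq_minFac_card (by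
      rw [h15, show Nat.minFac 15 = 3 by norm_num]; omega))
    obtain ⟨Q, hQ⟩ :=
      (IsPGroup.of_card (p := 5) (n := 1) (G := zpowers x) (by simp [ho])).exists_le_sylow
    obtain ⟨h3, h4⟩ := H12.card_sylow_of_card (k := 1) (m := 12) Q (by rw [hcard]; norm_num) (by norm_num)
    rw [eq_of_le_of_card_ge hQ (by rw [h3]; simp [ho])] at h2
    have h6 := index_dvd_of_le h2
    have h7 := H.card_mul_index
    rw [h15, hcard] at h7
    rw [show H.index = 4 by omega] at h6
    have h8 := card_sylow_modEq_one 5 G
    have h9 : Nat.card (Sylow 5 G) ∣ 4 := Q.card_eq_index_normalizer ▸ h6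
    have := Nat.le_of_dvd (by norm_num) h9
    haveI := H12.sylow_normal_of_card_eq_one Q (by
      unfold Nat.ModEq at h8
      interval_cases Nat.card (Sylow 5 G) <;> omega)
    haveI : IsCyclic (Q : Subgroup G) := isCyclic_of_prime_card (p := 5) h3
    have h10 := cd_dvd_index_of_comm (A := Q) (fun a ha b hb => congrArg Subtype.val
      (IsCyclic.commutative.is_comm.comm (⟨a, ha⟩ : (Q : Subgroup G)) ⟨b, hb⟩)) hd
    have := h5.trans (h4 ▸ h10)
    omega
  · haveI := S3378.simple_of_lt G hs fun H _ _ hH => S3378.sol_of_lt _ H rfl (hcard ▸ hH)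
    exact S0494.result hcard

end Cfsg.Agent.S3669
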