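import Cfsg.Statements.S3670
import Cfsg.Agent.H26.U33

set_option autoImplicit false
open Cfsg

namespace Cfsg.Agent.S3670

abbrev V := ZMod 2 × ZMod 2 × ZMod 2 × ZMod 9 × ZMod 2

def s (v : V) : V := (v.2.2.1, v.1 + v.2.2.1, v.2.1, 2 * v.2.2.2.1, v.2.2.2.2)

theorem s_add : ∀ v w : V, s (v + w) = s v + s w := by
  rintro ⟨a, b, c, d, e⟩ ⟨a', b', c', d', e'⟩
  simp only [s, Prod.mk_add_mk, Prod.mk.injEq, true_and, and_true]
  constructor <;> ring

theorem s42 : ∀ v : V, s^[42] v = v := by decide +kernel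

def ph (v : V) : ZMod 18 := 9 * (v.1.val : ZMod 18) + 2 * (v.2.2.2.1.val : ZMod 18)

theorem ph_add (v w : V) : ph (v + w) = ph v + ph w := by
  have h1 : ∀ a b : ZMod 2, 9 * ((a + b).val : ZMod 18) = 9 * (a.val : ZMod 18) + 9 * (b.val : ZMod 18) := by
    decide +kernel
  have h2 : ∀ a b : ZMod 9, 2 * ((a + b).val : ZMod 18) = 2 * (a.val : ZMod 18) + 2 * (b.val : ZMod 18) := by
    decide +kernel
  simp only [ph, Prod.fst_add, Prod.snd_add, h1, h2]; ring

theorem wit : ∀ k < 42, k ≠ 0 → ∃ v : V, ph (s^[k] v) ≠ ph v := by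
  have : ∀ k : Fin 42, k.1 ≠ 0 → ∃ v : V, ph (s^[k.1] v) ≠ ph v := by decide +kernel
  exact fun k hk => this ⟨k, hk⟩

abbrev N := Multiplicative V

def σ : MulAut N where
  toFun n := Multiplicative.ofAdd (s n.toAdd)
  invFun n := Multiplicative.ofAdd (s^[41] n.toAdd)
  left_inv n := congrArg Multiplicative.ofAdd (s42 n.toAdd)
  right_inv n := congrArg Multiplicative.ofAdd
    ((Function.iterate_succ_apply' s 41 _).symm.trans (s42 n.toAdd))
  map_mul' a b := congrArg Multiplicative.ofAdd (s_add a.toAdd b.toAdd)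

theorem σ_pow (k : ℕ) (n : N) : ((σ ^ k) n).toAdd = s^[k] n.toAdd := by
  induction k with
  | zero => rfl
  | succ k ih => rw [pow_succ', Function.iterate_succ_apply', ← ih]; rfl

theorem ord_σ : orderOf σ = 42 := by
  rw [orderOf_eq_iff (by norm_num)]
  refine ⟨MulEquiv.ext fun n => Multiplicative.toAdd.injective ((σ_pow 42 n).trans (s42 _)),
    fun m hm hm' e => ?_⟩
  obtain ⟨v, hv⟩ := wit m hm hm'.ne'
  apply hv
  have := σ_pow m (Multiplicative.ofAdd v)
  rw [e] at this
  exact congrArg ph this.symm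

abbrev H := N ⋊[(Subgroup.zpowers σ).subtype] (Subgroup.zpowers σ)

theorem card_N : Nat.card N = 144 := by
  rw [Nat.card_congr Multiplicative.toAdd]; simp [Nat.card_prod]

theorem card_H : Nat.card H = 6048 := by
  rw [SemidirectProduct.card, card_N, Nat.card_zpowers, ord_σ]

instance : Finite H := Nat.finite_of_card_ne_zero (by rw [card_H]; norm_num)

theorem solv : Group.IsSolvable H :=
  Group.isSolvable_of_ker_le_range SemidirectProduct.inl SemidirectProduct.rightHom
    SemidirectProduct.range_inl_eq_ker_rightHom.ge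

def E : H5.NEmb N H where
  f := SemidirectProduct.inl
  inj := SemidirectProduct.inl_injective
  act g n := g.right.1 n
  f_act g n := by
    apply SemidirectProduct.ext
    · simp [mul_comm, mul_left_comm]
    · simp

noncomputable def lam : N →* ℂˣ := MonoidHom.toHomUnits
  { toFun := fun n => ZMod.stdAddChar (ph n.toAdd)
    map_one' := by simp [ph]
    map_mul' := fun a b => by rw [toAdd_mul, ph_add, AddChar.map_add_eq_mul] }

theorem deg42 : ∃ d ∈ charDegrees H, 42 ∣ d := by
  obtain ⟨e, he⟩ := H8.exists_cd_index_inertia E (d := 1) (H4.isIrrCharacter_linear lam) (by simp)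
  refine ⟨_, he, Dvd.dvd.mul_right (Dvd.dvd.mul_left ?_ _) _⟩
  have h1 : E.f.range.index = 42 := by
    have := E.card_mul_index
    rw [card_N, card_H] at this
    omega
  rw [← h1]
  refine Subgroup.index_dvd_of_le (fun g hg => ?_)
  rw [H5.NEmb.mem_inertia] at hg
  show g ∈ SemidirectProduct.inl.range
  rw [SemidirectProduct.range_inl_eq_ker_rightHom, MonoidHom.mem_ker]
  obtain ⟨k, hk, e⟩ : ∃ k < 42, σ ^ k = g.right.1 := by
    obtain ⟨k, hk⟩ := (mem_powers_iff_mem_zpowers).2 g.right.2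
    refine ⟨k % 42, Nat.mod_lt _ (by norm_num), ?_⟩
    rw [← ord_σ, pow_mod_orderOf]; exact hk
  by_cases h0 : k = 0
  · subst h0; exact Subtype.ext e.symm
  · obtain ⟨v, hv⟩ := wit k hk h0
    refine absurd (ZMod.injective_stdAddChar ?_) hv
    have := hg (Multiplicative.ofAdd v)
    have h2 := σ_pow k (Multiplicative.ofAdd v)
    rw [e] at h2
    rw [show s^[k] v = _ from h2.symm]
    exact this

theorem key {X : Type*} [Group X] [Finite X] (hX : Nat.card X = 6048)
    (h6 : ∃ d ∈ charDegrees X, 6 ∣ d) (h14 : ∃ d ∈ charDegrees X, 14 ∣ d)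
    (h21 : ∃ d ∈ charDegrees X, 21 ∣ d) :
    (∀ p : ℕ, p.Prime → ((∃ d ∈ charDegrees X, p ∣ d) ↔ p ∣ 6048)) ∧
    ∀ p q : ℕ, p ≠ q → p.Prime → q.Prime →
      ((∃ d ∈ charDegrees X, p * q ∣ d) ↔ p ∣ 6048 ∧ q ∣ 6048) := by
  have hp : ∀ p : ℕ, p.Prime → p ∣ 6048 → p = 2 ∨ p = 3 ∨ p = 7 := by
    intro p hp h
    rw [show 6048 = 2 ^ 5 * 3 ^ 3 * 7 by norm_num, hp.dvd_mul, hp.dvd_mul] at h
    rcases h with (h | h) | h
    · exact .inl ((Nat.prime_dvd_prime_iff_eq hp (by norm_num)).1 (hp.dvd_of_dvd_pow h))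
    · exact .inr (.inl ((Nat.prime_dvd_prime_iff_eq hp (by norm_num)).1 (hp.dvd_of_dvd_pow h)))
    · exact .inr (.inr ((Nat.prime_dvd_prime_iff_eq hp (by norm_num)).1 h))
  have hd : ∀ d ∈ charDegrees X, d ∣ 6048 := fun d h => hX ▸ H8.dvd_card_of_mem_cd h
  refine ⟨fun p hp' => ⟨fun ⟨d, h1, h2⟩ => h2.trans (hd d h1), fun h => ?_⟩,
    fun p q hpq hp' hq' => ⟨fun ⟨d, h1, h2⟩ => ⟨(Dvd.intro _ rfl).trans (h2.trans (hd d h1)),
      (Dvd.intro_left _ rfl).trans (h2.trans (hd d h1))⟩, fun h => ?_⟩⟩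
  · rcases hp p hp' h with rfl | rfl | rfl
    · exact h6.imp fun d h => ⟨h.1, Dvd.dvd.trans (by norm_num) h.2⟩
    · exact h6.imp fun d h => ⟨h.1, Dvd.dvd.trans (by norm_num) h.2⟩
    · exact h14.imp fun d h => ⟨h.1, Dvd.dvd.trans (by norm_num) h.2⟩
  · rcases hp p hp' h.1 with rfl | rfl | rfl <;> rcases hp q hq' h.2 with rfl | rfl | rfl <;>
      first | exact absurd rfl hpq | exact h6 | exact h14 | exact h21

/-- The character degree graph of a finite group has as vertices the primes dividing some irreducible complex character degree, two distinct primes being joined when their product divides some irreducible character degree; two groups have the same character degree graph when they have the same vertices and the same joined pairs. Let F be the field with 9 elements and L = PSU(3,3) realised over F (order 6048). There is a finite solvable group of order 6048 with the same character degree graph as L; so L is not determined by its order together with its character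 degree graph. -/
theorem result {F : Type*} [Field F] [Fintype F] (hF : Fintype.card F = 9) :
    ∃ (H : Type) (_ : Group H) (_ : Fintype H), Group.IsSolvable H ∧ Nat.card H = 6048 ∧ Cfsg.degreePrimes H = Cfsg.degreePrimes (Cfsg.PSU 3 F 3) ∧ Cfsg.degreeGraph H = Cfsg.degreeGraph (Cfsg.PSU 3 F 3) := by
  obtain ⟨e⟩ := H26.U33.psu_equiv hF
  have : Finite (Cfsg.PSU 3 F 3) := Finite.of_equiv _ e.symm.toEquiv
  obtain ⟨d, hd, hd'⟩ := deg42
  obtain ⟨a1, a2⟩ := key card_H ⟨d, hd, Dvd.dvd.trans (by norm_num) hd'⟩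
    ⟨d, hd, Dvd.dvd.trans (by norm_num) hd'⟩ ⟨d, hd, Dvd.dvd.trans (by norm_num) hd'⟩
  obtain ⟨c1, c2, c3⟩ := H26.U33.degs
  rw [← H8.cd_congr e] at c1 c2 c3
  obtain ⟨b1, b2⟩ := key ((Nat.card_congr e.toEquiv).trans H26.U33.card_G) ⟨_, c1, dvd_rfl⟩
    ⟨_, c3, by norm_num⟩ ⟨_, c2, dvd_rfl⟩
  refine ⟨H, inferInstance, Fintype.ofFinite H, solv, card_H, ?_, ?_⟩
  · ext p
    exact and_congr_right fun hp => (a1 p hp).trans (b1 p hp).symm
  · ext p q
    exact and_congr_right fun h => and_congr_right fun hp => and_congr_right fun hq =>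
      (a2 p q h hp hq).trans (b2 p q h hp hq).symm

end Cfsg.Agent.S3670
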