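import Cfsg.Statements.S3678
import Cfsg.Agent.S3660
import Cfsg.Agent.H19.Aff2

set_option autoImplicit false
open Cfsg

namespace Cfsg.Agent.S3678

/-- The prime graph of a finite group has the prime divisors of its order as vertices, two distinct primes p, q being joined when the group has an element of order pq; two groups have the same prime graph when they have the same prime divisors and the same joined pairs. Let F be the field with 7 elements. There are finite groups of arbitrarily large order with the same prime graph as PSL(2,F) (the graph on {2, 3, 7} with no edges, which is also the prime graph of PSL(2,8)). -/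
theorem result {F : Type*} [Field F] [Fintype F] (hF : Fintype.card F = 7) (N : ℕ) :
    ∃ (H : Type) (_ : Group H) (_ : Finite H), N < Nat.card H ∧
      ((∀ p : ℕ, p.Prime → (p ∣ Nat.card (Matrix.ProjectiveSpecialLinearGroup (Fin 2) F) ↔ p ∣ Nat.card H)) ∧
      (∀ p q : ℕ, p.Prime → q.Prime → p ≠ q → ((∃ g : (Matrix.ProjectiveSpecialLinearGroup (Fin 2) F), orderOf g = p * q) ↔ (∃ g : H, orderOf g = p * q)))) := by
  haveI : Fact (Nat.Prime 7) := ⟨by norm_num⟩
  haveI : CharP F 7 := charP_of_card_eq_prime hF
  haveI := Fintype.ofFinite (GaloisField 2 3)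
  have h8 : Fintype.card (GaloisField 2 3) = 8 := by
    rw [← Nat.card_eq_fintype_card, GaloisField.card 2 3 (by norm_num)]; norm_num
  obtain ⟨K, _, _, h1, h2⟩ := S3660.sameGraph_SL2 (F := GaloisField 2 3) N
  refine ⟨K, inferInstance, inferInstance, by rwa [Nat.card_eq_fintype_card],
    H19.SameGraph.trans ?_ h2⟩
  have h27 : (2 : F) ≠ 0 := by
    intro h
    have : ((2 : ℕ) : F) = 0 := by exact_mod_cast h
    rw [CharP.cast_eq_zero_iff F 7] at this
    omega
  have e1 : ∀ n, (∃ g : Matrix.ProjectiveSpecialLinearGroup (Fin 2) F, orderOf g = n) ↔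
      n ∈ [1, 2, 3, 4, 7] := by
    intro n
    refine (H19.spec_PSL2_odd 7 h27 n).trans ?_
    rw [hF]
    constructor
    · rintro (h | h | h) <;> have := Nat.le_of_dvd (by norm_num) h <;>
        have h' : n ≤ 8 := by omega
      all_goals interval_cases n <;> simp_all
    · intro h
      simp only [List.mem_cons, List.not_mem_nil, or_false] at h
      rcases h with rfl | rfl | rfl | rfl | rfl <;> decide
  have e2 : ∀ n, (∃ g : Matrix.SpecialLinearGroup (Fin 2) (GaloisField 2 3), orderOf g = n) ↔
      n ∈ [1, 2, 3, 7, 9] := by
    intro n
    refine (H19.spec_SL2_two n).trans ?_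
    rw [h8]
    constructor
    · rintro (h | h | h) <;> have := Nat.le_of_dvd (by norm_num) h <;>
        have h' : n ≤ 9 := by omega
      all_goals interval_cases n <;> simp_all
    · intro h
      simp only [List.mem_cons, List.not_mem_nil, or_false] at h
      rcases h with rfl | rfl | rfl | rfl | rfl <;> decide
  exact H19.sameGraph_of_lists e1 e2 (by decide +kernel) (by decide +kernel)

end Cfsg.Agent.S3678
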