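import Cfsg.Statements.S3683
import Cfsg.Agent.H19.Der

set_option autoImplicit false
open Cfsg

namespace Cfsg.Agent.S3683

open Cfsg.Agent.H19 MulAction Subgroup

/-- Let a finite group G act faithfully and primitively on a set Ω, and suppose the stabilizer of a point a fixes a second point b ≠ a (a suborbit of length 1 other than {a}). Then the stabilizer of a is trivial and G is cyclic of prime order. -/
theorem result {G Ω : Type*} [Group G] [Finite G] [MulAction G Ω] [FaithfulSMul G Ω] [Finite Ω]
    (hprim : MulAction.IsPreprimitive G Ω) (a b : Ω) (hab : a ≠ b) (hfix : ∀ g : G, g • a = a → g • b = b) :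
    MulAction.stabilizer G a = ⊥ ∧ IsCyclic G ∧ (Nat.card G).Prime := by
  haveI : Nontrivial Ω := ⟨a, b, hab⟩
  have h1 := (isCoatom_stabilizer_iff_preprimitive G a).mpr hprim
  obtain ⟨g, rfl⟩ := exists_smul_eq G a b
  have h2 : stabilizer G a = stabilizer G (g • a) :=
    eq_of_le_of_card_ge hfix (card_stabilizer_eq _ _).le
  haveI : (stabilizer G a).Normal := normalizer_eq_top_iff.mp (h1.2 _ (lt_of_le_of_ne le_normalizer
    fun e => hab (Eq.symm (show g ∈ stabilizer G a from e ▸ mem_normalizer_iff.mpr fun x => by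
      nth_rw 2 [h2]
      simp [mul_smul]))))
  have h3 := stabilizer_normal_eq_bot (le_refl (stabilizer G a))
  rw [h3] at h1
  obtain ⟨p, hp, hd⟩ := Nat.exists_prime_and_dvd (show Nat.card G ≠ 1 from fun e =>
    h1.1 (eq_top_of_card_eq _ (by rw [e, card_bot])))
  haveI := Fact.mk hp
  obtain ⟨x, hx⟩ := exists_prime_orderOf_dvd_card' p hd
  have h4 := h1.2 (zpowers x) (bot_lt_iff_ne_bot.mpr fun e => hp.ne_one (by
    rw [← hx, zpowers_eq_bot.mp e, orderOf_one]))
  have h5 : Nat.card G = p := by rw [← hx, ← Nat.card_zpowers, h4, card_top]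
  exact ⟨h3, isCyclic_of_prime_card h5, h5 ▸ hp⟩

end Cfsg.Agent.S3683
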