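import Cfsg.Statements.S3684
import Cfsg.Agent.H19.Der
import Cfsg.Agent.H11.Invol

set_option autoImplicit false
open Cfsg

namespace Cfsg.Agent.S3684

open Cfsg.Agent.H19 MulAction Subgroup

/-- Let a finite group G act faithfully and primitively on a set Ω, and suppose the stabilizer of a point a has an orbit of length 2. Then the stabilizer of a has order 2 and G is isomorphic to the dihedral group of order 2p for some prime p. -/
theorem result {G Ω : Type*} [Group G] [Finite G] [MulAction G Ω] [FaithfulSMul G Ω] [Finite Ω]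
    (hprim : MulAction.IsPreprimitive G Ω) (a b : Ω) (h2 : Nat.card (MulAction.orbit (MulAction.stabilizer G a) b) = 2) :
    Nat.card (MulAction.stabilizer G a) = 2 ∧ ∃ p : ℕ, p.Prime ∧ Nonempty (G ≃* DihedralGroup p) := by
  have h1 : (stabilizer G a ⊓ stabilizer G b).relIndex (stabilizer G a) = 2 := by
    rw [inf_relIndex_left, ← h2, natCard_orbit_eq_index]; rfl
  have hab : stabilizer G a ≠ stabilizer G b := fun e => by simp [← e] at h1
  haveI : Nontrivial Ω := ⟨a, b, fun e => hab (e ▸ rfl)⟩
  have h3 := fun c : Ω => (isCoatom_stabilizer_iff_preprimitive G c).mpr hprim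
  have h4 : ∀ c, stabilizer G a ⊓ stabilizer G b ≤ stabilizer G c → Nat.card (stabilizer G a) =
      (stabilizer G a ⊓ stabilizer G b).relIndex (stabilizer G c) *
        Nat.card (stabilizer G a ⊓ stabilizer G b : Subgroup G) := fun c hc => by
    rw [card_stabilizer_eq a c, ← Nat.card_congr (subgroupOfEquivOfLe hc).toEquiv, relIndex,
      index_mul_card]
  have h5 : (stabilizer G a ⊓ stabilizer G b).relIndex (stabilizer G b) = 2 :=
    Nat.eq_of_mul_eq_mul_right Nat.card_pos (by rw [← h4 b inf_le_right, h4 a inf_le_left, h1])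
  have h6 := (h3 a).sup_eq_top_of_ne (h3 b) hab
  haveI : (stabilizer G a ⊓ stabilizer G b).Normal := normalizer_eq_top_iff.mp (top_le_iff.mp
    (h6 ▸ sup_le ((normal_subgroupOf_iff_le_normalizer inf_le_left).mp (normal_of_index_eq_two h1))
      ((normal_subgroupOf_iff_le_normalizer inf_le_right).mp (normal_of_index_eq_two h5))))
  have h7 := h4 a inf_le_left
  rw [h1, stabilizer_normal_eq_bot (inf_le_left : _ ⊓ stabilizer G b ≤ stabilizer G a),
    card_bot] at h7
  have h8 : ∀ c : Ω, ∃ s, orderOf s = 2 ∧ zpowers s = stabilizer G c := fun c => by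
    obtain ⟨s, h8, h9⟩ := H11.exists_invol_of_even (H := stabilizer G c)
      (by rw [← card_stabilizer_eq a, h7]; decide)
    exact ⟨s, h9, eq_of_le_of_card_ge (zpowers_le.mpr h8) (by
      rw [← card_stabilizer_eq a, h7, Nat.card_zpowers, h9])⟩
  obtain ⟨s, hs, es⟩ := h8 a
  obtain ⟨t, ht, et⟩ := h8 b
  have hs2 := H11.mul_self_of_orderOf_two hs
  have ht2 := H11.mul_self_of_orderOf_two ht
  obtain ⟨p, hp, hd⟩ := Nat.exists_prime_and_dvd (show orderOf (s * t) ≠ 1 from fun e => hab (by
    rw [← es, ← et, eq_inv_of_mul_eq_one_left (orderOf_eq_one_iff.mp e), zpowers_inv]))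
  have h9 := orderOf_pow_orderOf_div (orderOf_pos _).ne' hd
  have h10 : s ∉ zpowers ((s * t) ^ (orderOf (s * t) / p)) := fun e =>
    H11.not_mem_zpowers_mul hs ht (zpowers_le.mpr (pow_mem (mem_zpowers _) _) e)
  obtain ⟨e⟩ := H11.nonempty_closure_equiv_dihedral hp.pos h9 (by
    rw [← conj_pow, H11.invol_inverts_left hs2 ht2, inv_pow]) hs2 h10
  have h11 := (h3 a).2 (closure {(s * t) ^ (orderOf (s * t) / p), s}) (lt_of_le_of_ne
    (es ▸ zpowers_le.mpr (subset_closure (by simp))) fun e' => by
      have := Nat.card_congr e.toEquiv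
      rw [← e', h7, DihedralGroup.nat_card] at this
      have := hp.two_le
      omega)
  exact ⟨h7, p, hp, ⟨topEquiv.symm.trans (h11 ▸ e)⟩⟩

end Cfsg.Agent.S3684
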