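import Cfsg.Statements.S3696
import Mathlib
import Cfsg.Agent.H2.AbSym

set_option autoImplicit false
open Cfsg

namespace Cfsg.Agent.S3696

open H2.Ab Subgroup Equiv Equiv.Perm MonoidHom

theorem am {a b m n r s : ℕ} (hr : 0 < r) (h1 : a * r ^ r ≤ m ^ r) (h2 : b * s ^ s ≤ n ^ s) :
    a * b * (r + s) ^ (r + s) ≤ (m + n) ^ (r + s) := by
  rcases s.eq_zero_or_pos with rfl | hs
  · simp only [pow_zero, mul_one, add_zero] at h2 ⊢
    exact (Nat.mul_le_mul_right _ (mul_le_of_le_one_right' h2)).trans (h1.trans (by gcongr; omega))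
  have e : ∀ (x : ℝ) (j : ℕ), 0 ≤ x → (x ^ ((j : ℝ) / (r + s : ℕ))) ^ (r + s) = x ^ j := fun x j hx => by
    rw [← Real.rpow_natCast, ← Real.rpow_mul hx, div_mul_cancel₀ _ (by positivity), Real.rpow_natCast]
  have := pow_le_pow_left₀ (by positivity) (Real.geom_mean_le_arith_mean2_weighted (w₁ := r / (r + s : ℕ))
    (w₂ := s / (r + s : ℕ)) (p₁ := m / r) (p₂ := n / s) (by positivity) (by positivity) (by positivity) (by positivity)
    (by push_cast; field_simp)) (r + s)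
  rw [mul_pow, e _ _ (by positivity), e _ _ (by positivity), show (r : ℝ) / (r + s : ℕ) * (m / r) + s / (r + s : ℕ) * (n / s) =
    (m + n : ℕ) / (r + s : ℕ) by push_cast; field_simp, div_pow, div_pow, div_pow, le_div_iff₀ (by positivity)] at this
  have a1 := (le_div_iff₀ (by positivity : (0 : ℝ) < r ^ r)).2 (show (a : ℝ) * r ^ r ≤ m ^ r by exact_mod_cast h1)
  have a2 := (le_div_iff₀ (by positivity : (0 : ℝ) < s ^ s)).2 (show (b : ℝ) * s ^ s ≤ n ^ s by exact_mod_cast h2)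
  exact_mod_cast (show (a : ℝ) * b * (r + s : ℕ) ^ (r + s) ≤ _ by gcongr).trans this

theorem aux {Ω : Type*} [Fintype Ω] {p : ℕ} (hp : p.Prime) (A : Subgroup (Perm Ω)) (hA : IsPGroup p A)
    [IsMulCommutative A] (k : ℕ) (hk : Nat.card {x // x ∈ A ∧ x ^ p = 1} = p ^ k) :
    Nat.card A * k ^ k ≤ Fintype.card Ω ^ k := by
  induction' e : Fintype.card Ω using Nat.strong_induction_on with n ih generalizing Ω k
  subst e
  have := Fact.mk hp
  by_cases h0 : ∀ s ∈ A, s ^ p = 1 → s = 1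
  · have h1 : Nat.card A = 1 := hA.card_eq_or_dvd.resolve_right fun h => by
      obtain ⟨s, hs⟩ := exists_prime_orderOf_dvd_card' p h
      exact hp.ne_one (by rw [← hs, orderOf_eq_one_iff]
                          exact Subtype.ext (h0 _ s.2 (congrArg Subtype.val (hs ▸ pow_orderOf_eq_one s))))
    rw [card_eq_one.1 h1, Nat.card_eq_one_iff_exists.2 ⟨⟨1, by simp⟩, fun x => Subtype.ext x.2.1⟩, eq_comm,
      Nat.pow_eq_one] at hk
    simp [h1, hk.resolve_left hp.ne_one]
  push Not at h0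
  obtain ⟨s, h1, h2, h3⟩ := h0
  obtain ⟨x, hx⟩ : ∃ x, s x ≠ x := by_contra fun e => h3 (Equiv.ext (by simpa using e))
  obtain ⟨m, β, _, _, f, A0, i, rfl, rfl, _, h4, h5, h6⟩ := dec A x
  have := comap_injective_isMulCommutative A0 (f := inr _ _) (Prod.mk_right_injective 1)
  let W : Subgroup (Perm (Fin m) × Perm β) :=
    { carrier := {x | x ∈ A0 ∧ x ^ p = 1}
      mul_mem' := fun a b => ⟨mul_mem a.1 b.1, by rw [Commute.mul_pow (setLike_mul_comm a.1 b.1), a.2, b.2, mul_one]⟩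
      one_mem' := by simp
      inv_mem' := fun a => ⟨inv_mem a.1, by rw [inv_pow, a.2, inv_one]⟩ }
  have h7 : Nat.card W = p ^ k := by
    rw [← hk, ← card_map_of_injective (φ_inj f)]
    refine Nat.card_congr (subtypeEquivRight fun g => ⟨?_, ?_⟩)
    · rintro ⟨q, hq, rfl⟩; exact ⟨⟨q, hq.1, rfl⟩, by rw [← map_pow, hq.2, map_one]⟩
    · rintro ⟨⟨q, hq, rfl⟩, h⟩; exact ⟨q, ⟨hq, φ_inj f (by rw [map_pow, h, map_one])⟩, rfl⟩
  rw [card_ker] at h7
  obtain ⟨r, -, h8⟩ := (Nat.dvd_prime_pow hp).1 (Dvd.intro _ h7)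
  obtain ⟨t, -, h9⟩ := (Nat.dvd_prime_pow hp).1 (Dvd.intro_left _ h7)
  rw [h8, h9, ← pow_add] at h7
  obtain rfl := Nat.pow_right_injective hp.two_le h7
  have h10 : 2 ^ r ≤ m := (Nat.pow_le_pow_left hp.two_le r).trans (h8.symm.trans_le ((card_le_of_le
    (map_mono (show W ≤ A0 from fun _ h => h.1))).trans h4.le))
  obtain ⟨r, rfl⟩ := Nat.exists_eq_add_one_of_ne_zero (show r ≠ 0 by
    rintro rfl
    obtain ⟨q, hq, rfl⟩ := h1
    have : q.1 = 1 := (card_eq_one.1 h8).le ⟨q, ⟨hq, φ_inj f (by rw [map_pow, h2, map_one])⟩, rfl⟩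
    exact hx (by simp [φ, this]))
  rw [← h5, card_ker, h4, ← h6]
  refine am r.succ_pos ?_ (ih _ (by have := i.pos; omega) _ (((hA.comap_of_injective _ (φ_inj f)).to_le
    (le_comap_map ..)).comap_of_injective _ (Prod.mk_right_injective 1)) t ((Nat.card_congr
      (subtypeEquivRight fun g => and_congr_right' (by simp [Prod.ext_iff]))).trans h9) rfl)
  rw [pow_succ' m]
  refine Nat.mul_le_mul_left _ ((Nat.pow_le_pow_left r.lt_two_pow_self _).trans ?_)
  rw [← pow_mul, mul_comm, pow_mul]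
  gcongr

/-- Let p be a prime, Ω a finite set with n ≥ p elements, and A an abelian p-subgroup of the symmetric group on Ω whose elements of order dividing p number p^k (so k is the rank of A). Then |A| · k^k ≤ n^k, that is, |A| ≤ (n/k)^k. -/
theorem result {Ω : Type*} [Fintype Ω] [DecidableEq Ω]
    (p : ℕ) (hp : p.Prime) (hn : p ≤ Fintype.card Ω) (A : Subgroup (Equiv.Perm Ω)) (hA : IsPGroup p A) (hab : IsMulCommutative A)
    (k : ℕ) (hk : Nat.card {x : A // x ^ p = 1} = p ^ k) :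
    Nat.card A * k ^ k ≤ Fintype.card Ω ^ k := by
  exact aux hp A hA k ((Nat.card_congr ((subtypeSubtypeEquivSubtypeInter (· ∈ A) (· ^ p = 1)).symm.trans
    (subtypeEquivRight fun _ => by simp [Subtype.ext_iff]))).trans hk)

end Cfsg.Agent.S3696
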