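import Cfsg.Statements.S3703
import Cfsg.Agent.H6.Mazurov
import Cfsg.Agent.S0035
import Cfsg.Agent.H9.Basic
-- import your own Cfsg.Agent.* helpers here

set_option autoImplicit false
open Cfsg

namespace Cfsg.Agent.S3703

open Cfsg.Agent.H1 Subgroup

open scoped Pointwise


/-- Let N be a normal subgroup of the finite group G such that G/N is a Frobenius group with kernel F and cyclic complement H, where the order of F is coprime to that of N and F is not contained in the image of C_G(N) in G/N. Then G has an element of order p·#H for some prime p dividing the order of N. (A standard tool in recognising groups by their element orders.) -/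
theorem result {G : Type*} [Group G] [Finite G] (N : Subgroup G) [N.Normal]
    (Fb Hb : Subgroup (G ⧸ N)) [Fb.Normal] (hHb : Cfsg.IsFrobeniusComplement Hb) (hker : Cfsg.frobeniusKernel Hb = (Fb : Set (G ⧸ N)))
    (hcyc : IsCyclic Hb) (hcop : (Nat.card Fb).Coprime (Nat.card N))
    (hnot : ¬ Fb ≤ (Subgroup.centralizer (N : Set G)).map (QuotientGroup.mk' N)) :
    ∃ p : ℕ, p.Prime ∧ p ∣ Nat.card N ∧ ∃ g : G, orderOf g = p * Nat.card Hb := by
  obtain ⟨hb, rfl⟩ := (Subgroup.isCyclic_iff_exists_zpowers_eq_top Hb).1 hcyc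
  rw [Nat.card_zpowers]
  by_cases hex : ∃ g : G, (g : G ⧸ N) = hb ∧ g ^ orderOf hb ≠ 1
  · obtain ⟨g, rfl, h1⟩ := hex
    obtain ⟨p, hp, hd⟩ := Nat.exists_prime_and_dvd (mt orderOf_eq_one_iff.1 h1)
    refine ⟨p, hp, hd.trans (orderOf_dvd_natCard _ ?_), _, orderOf_pow_orderOf_div (orderOf_pos g).ne' ?_⟩
    · rw [← QuotientGroup.eq_one_iff, QuotientGroup.mk_pow, pow_orderOf_eq_one]
    · have h2 : orderOf (g : G ⧸ N) ∣ orderOf g := orderOf_map_dvd (QuotientGroup.mk' N) g
      rw [orderOf_pow, Nat.gcd_eq_right h2] at hd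
      exact mul_comm p _ ▸ (Nat.dvd_div_iff_mul_dvd h2).1 hd
  push Not at hex
  refine absurd ?_ hnot
  obtain ⟨K, hK, -, hc⟩ := S0035.result _ hHb
  obtain rfl : K = Fb := SetLike.coe_injective (hK.trans hker)
  have hfp := fpf_of_isFrobeniusComplement hHb hc.disjoint
  have hNK : N ≤ K.comap (QuotientGroup.mk' N) := QuotientGroup.le_comap_mk' N K
  have hi : N.relIndex (K.comap (QuotientGroup.mk' N)) = Nat.card K := by
    have := relIndex_ker (K.comap (QuotientGroup.mk' N)) (QuotientGroup.mk' N)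
    rwa [QuotientGroup.ker_mk', map_comap_eq_self_of_surjective (QuotientGroup.mk'_surjective N)] at this
  obtain ⟨F, -, h1, h2, h3⟩ := exists_complement_le hNK le_normalizer_of_normal (hi ▸ hcop.symm)
  have hF : F.map (QuotientGroup.mk' N) = K := by
    rw [← map_comap_eq_self_of_surjective (QuotientGroup.mk'_surjective N) K, ← h1, Subgroup.map_sup,
      QuotientGroup.map_mk'_self, bot_sup_eq]
  rw [hi] at h3
  rw [← h3] at hcop
  have hsol := H26.solvable_or_of_coprime hcop
  rw [← hF]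
  refine map_mono (le_centralizer_iff.1 ?_)
  obtain ⟨h, hh, rfl⟩ : hb ∈ (normalizer (F : Set G)).map (QuotientGroup.mk' N) := by
    rw [← normalizer_map_mk'_eq hcop hsol, hF, normalizer_eq_top]; trivial
  rw [← inf_eq_left]
  refine eq_of_le_of_card_ge inf_le_left (Nat.le_of_dvd Nat.card_pos ?_)
  refine (Nat.dvd_iff_prime_pow_dvd_dvd _ _).2 fun p k hp hk => ?_
  haveI := Fact.mk hp
  obtain ⟨P, hP, hFP⟩ := exists_invariant_isSylowIn p le_normalizer_of_normal hcop hsol
  obtain ⟨c, hc, e⟩ := exists_centralizer_conj_eq_of_isSylowIn le_normalizer_of_normal hcop hsol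
    (hP.conj_smul (g := h) (le_normalizer_of_normal (mem_top h))) (by
      intro f hf
      have := hFP ((mem_normalizer_iff''.1 hh f).1 hf)
      refine mem_normalizer_fintype ?_
      rintro _ ⟨x, hx, rfl⟩
      exact ⟨_, (mem_normalizer_iff.1 this x).1 hx, by simp [mul_assoc]⟩) hP hFP
  rw [smul_smul, ← map_mul] at e
  have e1 : ((c * h : G) : G ⧸ N) = QuotientGroup.mk' N h := by
    rw [QuotientGroup.mk_mul, (QuotientGroup.eq_one_iff c).2 hc.1, one_mul]; rfl
  have e2 : orderOf (c * h) = orderOf (QuotientGroup.mk' N h) :=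
    Nat.dvd_antisymm (orderOf_dvd_of_pow_eq_one (hex _ e1)) (e1 ▸ orderOf_map_dvd (QuotientGroup.mk' N) _)
  have h4 := H6.le_centralizer_of_split (h := c * h) hP.isPGroup hFP
    (mem_normalizer_fintype fun x hx => by rw [SetLike.mem_coe, ← e]; exact ⟨x, hx, rfl⟩)
    (mul_mem (centralizer_le_normalizer _ hc.2) hh) (by
      rintro _ ⟨j, rfl⟩ hy1
      rw [eq_bot_iff, ← h2]
      rintro f ⟨hf, hfy⟩
      refine ⟨(QuotientGroup.eq_one_iff f).1 (eq_one_of_inf_centralizer_eq_bot
        (hfp (((c * h) ^ j : G) : G ⧸ N) ⟨j, by rw [QuotientGroup.mk_zpow, e1]⟩ fun e3 => hy1 ?_)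
        (hF ▸ mem_map_of_mem _ hf) (congrArg _ (mem_centralizer_singleton_iff.1 hfy))), hf⟩
      rw [QuotientGroup.mk_zpow, e1, ← orderOf_dvd_iff_zpow_eq_one, ← e2] at e3
      exact orderOf_dvd_iff_zpow_eq_one.1 e3)
    (hcop.of_dvd_right (card_dvd_of_le hP.le)) (fun w hw => e2 ▸ hex _ (by
      rw [QuotientGroup.mk_mul, (QuotientGroup.eq_one_iff w).2 (hP.le hw), one_mul, e1]))
  refine Dvd.dvd.trans ?_ (card_dvd_of_le (le_inf hP.le (le_centralizer_iff.1 h4)))
  rw [hP.card_eq_pow]
  exact pow_dvd_pow p ((hp.pow_dvd_iff_le_factorization Nat.card_pos.ne').1 hk)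

end Cfsg.Agent.S3703
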