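import Cfsg.Statements.S3710
import Cfsg.Agent.H28.PhanB10

set_option autoImplicit false
open Cfsg

namespace Cfsg.Agent.S3710



/-- Recognition of unitary groups over the field with 9 elements from a weak Phan system. Let F be a field with 9 elements and n ≥ 4. Let G be a group with subgroups U_0, …, U_{n−1}, each isomorphic to SU(2, 9), and, for consecutive indices, subgroups V_{i,i+1} in which U_i and U_{i+1} form a standard pair (via an isomorphism from SU(3, 9) or PSU(3, 9) carrying the block-diagonal subgroups, or their images, onto U_i and U_{i+1}); suppose U_i and U_j commute elementwise whenever the indices differ by at least 2, that G is generated by the U_i and the V_{i,i+1}, and moreover that for each i the subgroup generated by V_{i,i+1} and V_{i+1,i+2} is a homomorphic image of SU(4, 9). Then G is a homomorphic image of SU(n+1, 9). (G is not assumed finite.) -/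
theorem result {G : Type*} [Group G] (n : ℕ) (hn : 4 ≤ n)
    (F : Type*) [Field F] [Fintype F] (hF : Fintype.card F = 9)
    (U : Fin n → Subgroup G) (e : ∀ i, ↥(Cfsg.SU 2 F 3) ≃* ↥(U i))
    (V : Fin n → Fin n → Subgroup G)
    (h1 : ∀ i j : Fin n, (i : ℕ) + 2 ≤ j → ∀ x ∈ U i, ∀ y ∈ U j, x * y = y * x)
    (h2 : ∀ i j : Fin n, (i : ℕ) + 1 = j → Cfsg.IsStandardUnitaryPair (V i j) (U i) (U j) F 3)
    (hgen : (⨆ i, U i) ⊔ (⨆ (i : Fin n) (j : Fin n) (_ : (i : ℕ) + 1 = j), V i j) = ⊤)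
    (h4 : ∀ i j k : Fin n, (i : ℕ) + 1 = j → (j : ℕ) + 1 = k →
      ∃ g : ↥(Cfsg.SU 4 F 3) →* ↥(V i j ⊔ V j k), Function.Surjective g) :
    ∃ f : ↥(Cfsg.SU (n + 1) F 3) →* G, Function.Surjective f := by
  obtain ⟨θ, c⟩ := H28.Ph.exists_cy (q := 3) (Or.inr rfl) hF
  have hV : ∀ i j : Fin n, (i : ℕ) + 1 = j → V i j = U i ⊔ U j := fun i j hij => by
    obtain ⟨ψ, a1, a2⟩ := c.std_of (h2 i j hij)
    rw [← a2, c.ste_range rfl a1]
  have h5 : ∀ i j k : Fin n, (j : ℕ) + 1 = k → ((i : ℕ) + 2 ≤ j ∨ (k : ℕ) + 2 ≤ i) →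
      ∀ x ∈ U i, ∀ y ∈ V j k, x * y = y * x := fun i j k hjk h x hx => by
    rw [hV j k hjk]
    rcases h with h | h
    · exact H28.Ph.comm_sup (h1 i j h x hx) (h1 i k (by omega) x hx)
    · exact H28.Ph.comm_sup (fun y hy => (h1 j i (by omega) y hy x hx).symm) fun y hy => (h1 k i h y hy x hx).symm
  refine c.phan (by omega) U V (fun i j k hij hjk => ?_) h5 (fun i j k l hij hkl h x hx y hy => ?_)
    (fun i j hij => hV i j hij ▸ ⟨le_sup_left, le_sup_right⟩) hgen
  · obtain ⟨ψ, a1, a2⟩ := c.std_of (h2 i j hij)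
    obtain ⟨ψ', b1, b2⟩ := c.std_of (h2 j k hjk)
    obtain ⟨g, hg⟩ := h4 i j k hij hjk
    rw [← a2, ← b2]
    refine c.st4_three rfl a1 b1 (h1 i k (by omega)) ((V i j ⊔ V j k).subtype.comp g) ?_
    rw [MonoidHom.range_comp, MonoidHom.range_eq_top.2 hg, ← MonoidHom.range_eq_map, Subgroup.range_subtype, a2, b2]
  · rw [hV i j hij] at hx
    exact (H28.Ph.comm_sup (fun x hx => (h5 i k l hkl (Or.inl (by omega)) x hx y hy).symm)
      (fun x hx => (h5 j k l hkl (Or.inl h) x hx y hy).symm) x hx).symm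

end Cfsg.Agent.S3710
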