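import Cfsg.Statements.S3738
import Mathlib
import Cfsg.Agent.S3736
import Cfsg.Agent.S3356
import Cfsg.Agent.H11.CW
import Cfsg.Agent.H3.Action

set_option autoImplicit false
open Cfsg

namespace Cfsg.Agent.S3738

open Subgroup
open scoped commutatorElement

theorem exists_inv {U : Type*} [Group U] [Finite U] (h : IsSpecial 2 U) :
    (∀ z ∈ frattini U, z ^ 2 = 1) ∧ (Nat.card (frattini U) ≤ 4 → 16 < (frattini U).index →
      ∃ x : U, x ∉ frattini U ∧ x ^ 2 = 1) := by
  classical
  have sq : ∀ x : U, x * x ∈ frattini U := fun x => pow_two x ▸ H3.pow_mem_frattini h.1 x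
  have hz : ∀ z ∈ frattini U, z * z = 1 := fun z hz => by
    rw [h.2.1, ← h.2.2] at hz
    let B : Subgroup U :=
      { carrier := {z | z ∈ center U ∧ z ^ 2 = 1}
        one_mem' := ⟨one_mem _, one_pow _⟩
        mul_mem' := fun {a b} ha hb => ⟨mul_mem ha.1 hb.1, by
          rw [Commute.mul_pow (mem_center_iff.1 hb.1 a), ha.2, hb.2, one_mul]⟩
        inv_mem' := fun {a} ha => ⟨inv_mem ha.1, by rw [inv_pow, ha.2, inv_one]⟩ }
    refine pow_two z ▸ ((show commutator U ≤ B from commutator_le.2 fun a _ b _ => ?_) hz).2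
    have : ⁅a, b⁆ ∈ center U := h.2.2 ▸ commutator_mem_commutator trivial trivial
    refine ⟨this, ?_⟩
    rw [← H9.commutatorElement_pow_left_of_commute (mem_center_iff.1 this a).symm,
      commutatorElement_eq_one_iff_mul_comm, pow_two]
    exact (mem_center_iff.1 (h.2.1 ▸ sq a) b).symm
  refine ⟨fun z h => by rw [pow_two, hz z h], fun h1 h2 => ?_⟩
  haveI : IsMulCommutative (frattini U) := h.2.1 ▸ inferInstance
  letI : CommGroup (frattini U) := { (inferInstance : Group (frattini U)) with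
    mul_comm := mul_comm' }
  have := H11.two_mul_dvd_card_sq (N := Additive (frattini U)) h.2.1.le hz sq
    (fun x => if hx : x ∈ frattini U then Additive.ofMul ⟨x, hx⟩ else 0)
    (fun a ha b hb => by simp only [ha, hb, mul_mem ha hb, dite_true]; rfl)
    (fun n => Subtype.ext (hz _ n.toMul.2)) (by
      change Nat.card (frattini U) ^ 2 < _
      nlinarith)
  by_contra hn
  push Not at hn
  replace this := this.trans (Nat.card_congr (Equiv.subtypeEquivRight (q := (· ∈ frattini U))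
    fun x => by
    rw [dif_pos (sq x)]
    exact ⟨fun e => by_contra fun h => hn x h (pow_two x ▸ congrArg Subtype.val e),
      fun e => Subtype.ext (hz x e)⟩)).dvd
  have := Nat.le_of_dvd Nat.card_pos this
  have : 0 < Nat.card (frattini U) := Nat.card_pos
  omega

/-- Let d be a non-identity 3-element of a finite group and P a 2-subgroup normalized by d on which ⟨d⟩ acts faithfully (no non-identity power of d centralizes P) and without non-identity fixed points (C_P(d) = 1). If every abelian subgroup of P has 2-rank at most 2, then d has order 3. -/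
theorem result {X : Type*} [Group X] [Finite X] (d : X) (n : ℕ) (hn : 1 ≤ n) (hd : orderOf d = 3 ^ n) (P : Subgroup X) (hP : IsPGroup 2 P) (hdP : d ∈ Subgroup.normalizer (P : Set X)) (hfaith : Subgroup.zpowers d ⊓ Subgroup.centralizer (P : Set X) = ⊥) (hfpf : P ⊓ Subgroup.centralizer {d} = ⊥) (hrank : ∀ V : Subgroup X, V ≤ P → IsMulCommutative V → Cfsg.PRankLE 2 2 V) : orderOf d = 3 := by
  by_contra hne
  obtain ⟨m, rfl⟩ : ∃ m, n = m + 2 := ⟨n - 2, by
    have : n ≠ 1 := fun e => hne (by rw [hd, e, pow_one])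
    omega⟩
  have rk : ∀ V ≤ P, IsMulCommutative V → (∀ v ∈ V, v ^ 2 = 1) → Nat.card V ≤ 4 :=
    fun V h1 h2 h3 => by
      simpa using hrank V h1 h2 ⊤ inferInstance fun a _ => Subtype.ext (h3 a a.2)
  set e := d ^ 3 ^ (m + 1) with he
  have oe : orderOf e = 3 := by
    rw [he, orderOf_pow, hd, pow_succ 3 (m + 1), Nat.gcd_mul_right_left,
      Nat.mul_div_cancel_left _ (by positivity)]
  have hAB : zpowers e ≤ zpowers d := zpowers_le.2 (npow_mem_zpowers d _)
  have sub : ∀ g ∈ zpowers d, g ≠ 1 → e ∈ zpowers g := fun g hg h1 => by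
    obtain ⟨k, rfl⟩ := mem_powers_iff_mem_zpowers.2 hg
    obtain ⟨i, hi, h2⟩ := (Nat.dvd_prime_pow Nat.prime_three).1 (Nat.gcd_dvd_right k (3 ^ (m + 2)))
    obtain ⟨c, hc⟩ := pow_dvd_pow 3 (Nat.le_of_lt_succ (lt_of_le_of_ne hi fun e => h1
      (orderOf_dvd_iff_pow_eq_one.1 (by
        obtain rfl : i = m + 2 := e
        rw [hd, ← h2]; exact Nat.gcd_dvd_left _ _))))
    rw [he, hc, pow_mul, ← h2]
    refine pow_mem (mem_zpowers_iff.2 ⟨Nat.gcdA k (3 ^ (m + 2)), ?_⟩) _
    rw [← zpow_natCast d (Nat.gcd _ _), Nat.gcd_eq_gcd_ab, zpow_add, zpow_mul, zpow_mul,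
      zpow_natCast, zpow_natCast, ← hd, pow_orderOf_eq_one]
    simp
  obtain ⟨U, ⟨u1, u2, u3⟩, hmin⟩ := (Set.toFinite {U : Subgroup X | U ≤ P ∧
      zpowers d ≤ normalizer (U : Set X) ∧ ⁅U, zpowers e⁆ ≠ ⊥}).exists_minimal
    ⟨P, le_rfl, zpowers_le.2 hdP, fun h => by
      rw [commutator_comm, commutator_eq_bot_iff_le_centralizer] at h
      have : e ∈ zpowers d ⊓ centralizer (P : Set X) := ⟨hAB (mem_zpowers e), h (mem_zpowers e)⟩
      rw [hfaith, mem_bot] at this
      simp [this] at oe⟩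
  have hU := hP.to_le u1
  obtain ⟨a1, a2, a3, -⟩ := S3736.result (zpowers d) (zpowers e) U hU u2 hAB
    (zpowers_le.2 (centralizer_le_normalizer _ fun x hx => by
      obtain ⟨k, rfl⟩ := hAB hx
      exact (Commute.zpow_self d k).eq)) (by rw [Nat.card_zpowers, oe]; decide) u3
    fun V h1 h2 => by_contra fun h => h1.not_ge (hmin ⟨h1.le.trans u1, h2, h⟩ h1.le)
  set Z := (frattini U).map U.subtype
  have hZU : Z < U := H1.map_frattini_lt fun e => u3 (by simp [e])
  have nZ : normalizer (U : Set X) ≤ normalizer (Z : Set X) :=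
    H1.normalizer_le_normalizer_map_subtype_of_characteristic _ _
  have cZ : ∀ g ∈ normalizer (U : Set X), ∀ z ∈ Z, g * z * g⁻¹ ∈ Z := fun g hg z hz =>
    (mem_normalizer_iff.1 (nZ hg) z).1 hz
  have cU : ∀ g ∈ zpowers d, ∀ z ∈ U, g * z * g⁻¹ ∈ U := fun g hg z hz =>
    (mem_normalizer_iff.1 (u2 hg) z).1 hz
  let C : Subgroup X :=
    { carrier := {u | u ∈ U ∧ ∀ g ∈ zpowers e, ⁅u, g⁆ ∈ Z}
      one_mem' := ⟨one_mem _, by simp⟩
      mul_mem' := fun {a b} ha hb => ⟨mul_mem ha.1 hb.1, fun g hg => by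
        convert mul_mem (cZ a (le_normalizer ha.1) _ (hb.2 g hg)) (ha.2 g hg) using 1
        simp only [commutatorElement_def]; group⟩
      inv_mem' := fun {a} ha => ⟨inv_mem ha.1, fun g hg => by
        convert cZ _ (le_normalizer (inv_mem ha.1)) _ (inv_mem (ha.2 g hg)) using 1
        simp only [commutatorElement_def]; group⟩ }
  have hC : C = Z := (a3 C (fun z hz => ⟨hZU.le hz, fun g hg => by
      rw [commutatorElement_def, mul_assoc, mul_assoc, ← mul_assoc g]
      exact mul_mem hz (cZ g (u2 (hAB hg)) _ (inv_mem hz))⟩) (fun x hx => hx.1)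
    (le_normalizer_iff.2 fun g hg x hx => ⟨cU g hg x hx.1, fun h hh => by
      have : g * h = h * g := by
        obtain ⟨k, rfl⟩ := hg
        obtain ⟨j, rfl⟩ := hAB hh
        exact (Commute.zpow_zpow_self d k j).eq
      convert cZ g (u2 hg) _ (hx.2 h hh) using 1
      simp only [commutatorElement_def]
      calc _ = g * x * (g⁻¹ * h * g) * x⁻¹ * (g⁻¹ * h * g)⁻¹ * g⁻¹ := by group
        _ = _ := by rw [mul_assoc g⁻¹ h, ← this]; group⟩)).resolve_right fun h =>
    hZU.not_ge (a1 ▸ commutator_le.2 fun a ha b hb => (h.ge ha).2 b hb)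
  have d1 := S3356.card_dvd' (c := 1) (zpowers d) ((U : Set X) \ Z)
    (fun g hg x hx => ⟨cU g hg x hx.1, fun h => hx.2 (by
      simpa [mul_assoc] using cZ _ (u2 (inv_mem hg)) _ h)⟩) fun x hx => by
      rw [card_eq_one, eq_bot_iff]
      intro g hg
      by_contra h1
      refine hx.2 (hC.le ⟨hx.1, fun h hh => ?_⟩)
      have := zpowers_le.2 ((zpowers_le.2 hg.2) (sub g hg.1 h1)) hh
      rw [commutatorElement_eq_one_iff_mul_comm.2 (this x rfl)]
      exact Z.one_mem
  have cz : Nat.card Z = Nat.card (frattini U) := card_map_of_injective U.subtype_injective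
  obtain ⟨i, hi⟩ := IsPGroup.iff_card.1 (hU.to_subgroup (frattini U))
  obtain ⟨j, hj⟩ := hU.index (frattini U)
  have c1 := (frattini U).card_mul_index
  rw [Set.ncard_diff hZU.le, one_mul, Nat.card_zpowers, hd] at d1
  change _ ∣ Nat.card U - Nat.card Z at d1
  rw [← c1, cz, ← Nat.mul_sub_one, hi, hj] at d1
  replace d1 := (pow_dvd_pow 3 (Nat.le_add_left 2 m)).trans
    ((Nat.Coprime.pow _ _ (by decide)).dvd_of_dvd_mul_left d1)
  have h16 : 16 < (frattini U).index := by
    have := H3.card_lt_of_lt hZU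
    rw [← c1, cz, hj] at this
    rw [hj]
    by_contra h
    have : j < 5 := (Nat.pow_lt_pow_iff_right one_lt_two).1 (by omega)
    interval_cases j <;> omega
  have big : ¬ IsElementaryAbelian 2 U := fun h => by
    have := rk U u1 h.1 h.2
    have : 0 < Nat.card (frattini U) := Nat.card_pos
    nlinarith
  replace a2 := a2.resolve_left big
  have hZc : ∀ x ∈ U, x ∈ centralizer (Z : Set X) := by
    rintro x hx _ ⟨z, hz, rfl⟩
    exact congrArg Subtype.val (mem_center_iff.1 (a2.2.1 ▸ hz) ⟨x, hx⟩).symm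
  have hZ : IsMulCommutative Z :=
    H3.isMulCommutative_iff_mem.2 fun a ha b hb => hZc b (hZU.le hb) a ha
  have z2 : ∀ z ∈ Z, z ^ 2 = 1 := by
    rintro _ ⟨z, hz, rfl⟩
    exact congrArg Subtype.val ((exists_inv a2).1 z hz)
  obtain ⟨x, x1, x2⟩ := (exists_inv a2).2 (cz ▸ rk Z (hZU.le.trans u1) hZ z2) h16
  replace x1 : (x : X) ∉ Z := fun h => x1 ((mem_map_iff_mem U.subtype_injective).1 h)
  replace x2 : (x : X) ^ 2 = 1 := congrArg Subtype.val x2
  have nx := centralizer_le_normalizer _ (hZc x x.2)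
  have := rk (Z ⊔ zpowers (x : X)) (sup_le (hZU.le.trans u1) (zpowers_le.2 (u1 x.2)))
    (H3.isMulCommutative_sup_zpowers hZ (hZc x x.2)) fun v hv => by
      obtain ⟨z, hz, k, rfl⟩ := (H3.mem_sup_zpowers_iff nx).1 hv
      rw [Commute.mul_pow (Commute.zpow_right (hZc x x.2 z hz) k), z2 z hz, one_mul,
        ← zpow_natCast, ← zpow_mul, mul_comm, zpow_mul, zpow_natCast, x2, one_zpow]
  rw [H3.card_sup_zpowers nx x1 (x2 ▸ Z.one_mem)] at this
  have hz : Z = ⊥ := eq_bot_iff.2 fun z hz => hfpf.le ⟨u1 (hZU.le hz), fun g hg => by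
    obtain rfl : g = d := hg
    by_contra h
    have h1 : z ≠ 1 := fun e => h (by simp [e])
    have h2 := cZ g (u2 (mem_zpowers g)) z hz
    have : ({1, z, g * z * g⁻¹} : Set X).ncard ≤ Nat.card Z := Set.ncard_le_ncard
      (t := (Z : Set X)) (by simp [Set.insert_subset_iff, hz, h2])
    rw [Set.ncard_eq_three.2 ⟨_, _, _, h1.symm, fun e => h1 (by simpa using e.symm),
      fun e => h (mul_inv_eq_iff_eq_mul.1 e.symm), rfl⟩] at this
    omega⟩
  refine big ⟨H3.isMulCommutative_iff_mem.2 fun a ha b hb => ?_, fun a ha => ?_⟩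
  · exact commutatorElement_eq_one_iff_mul_comm.1 (mem_bot.1 (hz ▸ H3.commutator_le_frattiniOf hU
      (commutator_mem_commutator ha hb)))
  · exact mem_bot.1 (hz ▸ H3.pow_mem_frattiniOf hU ha)

end Cfsg.Agent.S3738
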