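import Cfsg.Statements.S3739
import Mathlib
import Cfsg.Agent.S3738
import Cfsg.Agent.H2.Prim
import Cfsg.Agent.H1.Generation
import Cfsg.Agent.H2.CSz

set_option autoImplicit false
open Cfsg

namespace Cfsg.Agent.S3739

open Subgroup

theorem exists_ord {G : Type*} [Group G] [Finite G] {p : ℕ} [hp : Fact p.Prime] {K : Subgroup G}
    (h : IsPGroup p K) (h1 : K ≠ ⊥) : ∃ x ∈ K, orderOf x = p := by
  obtain ⟨x, hx⟩ := exists_prime_orderOf_dvd_card' (G := K) p
    ((h.card_eq_or_dvd).resolve_left fun e => h1 (card_eq_one.1 e))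
  exact ⟨x, x.2, (orderOf_coe x).trans hx⟩

theorem gen {G : Type*} [Group G] [Finite G] {x z : G} (hx : orderOf x = 3) (hz : z ∈ zpowers x)
    (h1 : z ≠ 1) : x ∈ zpowers z := (eq_of_le_of_card_ge (zpowers_le.2 hz) (by
  rw [Nat.card_zpowers, Nat.card_zpowers, hx]
  exact (((Nat.dvd_prime Nat.prime_three).1 (hx ▸ orderOf_dvd_of_mem_zpowers hz)).resolve_left
    fun e => h1 (orderOf_eq_one_iff.1 e)).ge)).ge (mem_zpowers x)

theorem mni {G : Type*} [Group G] {K L : Subgroup G} {g : G} (h1 : g ∈ normalizer (K : Set G))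
    (h2 : g ∈ normalizer (L : Set G)) : g ∈ normalizer ((K ⊓ L : Subgroup G) : Set G) :=
  inf_normalizer_le_normalizer_inf ⟨h1, h2⟩

/-- Let G be a finite group with C_G(O₂(G)) ≤ O₂(G) containing an element of order 6, and let d be a non-identity 3-element of G normalizing a nontrivial elementary abelian 2-subgroup W with C_W(d) = 1. Then G has an elementary abelian subgroup of order 8. -/
theorem result {G : Type*} [Group G] [Finite G] (hchar : Subgroup.centralizer (Cfsg.pCore 2 G : Set G) ≤ Cfsg.pCore 2 G) (hsix : ∃ g : G, orderOf g = 6) (d : G) (hd1 : d ≠ 1) (hd : IsPGroup 3 ↥(Subgroup.zpowers d)) (W : Subgroup G) (hW : Cfsg.IsElementaryAbelian 2 W) (hW1 : W ≠ ⊥) (hdW : d ∈ Subgroup.normalizer (W : Set G)) (hfpf : W ⊓ Subgroup.centralizer {d} = ⊥) : ∃ E : Subgroup G, Cfsg.IsElementaryAbelian 2 E ∧ Nat.card E = 8 := by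
  haveI : Fact (Nat.Prime 3) := ⟨Nat.prime_three⟩
  by_contra hn
  have cz : ∀ x : G, centralizer (zpowers x : Set G) = centralizer {x} := fun x => by
    rw [zpowers_eq_closure, centralizer_closure]
  have pg : ∀ V : Subgroup G, (∀ v ∈ V, v ^ 2 = 1) → IsPGroup 2 V := fun V h v =>
    ⟨1, Subtype.ext (by simpa using h v v.2)⟩
  have rk : ∀ V : Subgroup G, IsMulCommutative V → (∀ v ∈ V, v ^ 2 = 1) → Nat.card V ≤ 4 :=
    fun V h1 h2 => by
    obtain ⟨i, hi⟩ := IsPGroup.iff_card.1 (pg V h2)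
    by_contra h
    have : 2 < i := (Nat.pow_lt_pow_iff_right one_lt_two).1 (by omega)
    obtain ⟨E, hE⟩ := Sylow.exists_subgroup_card_pow_prime (G := V) 2 (hi ▸ pow_dvd_pow 2 this)
    refine hn ⟨E.map V.subtype, ⟨inferInstance, fun a ha => h2 a (map_subtype_le _ ha)⟩, ?_⟩
    rw [card_map_of_injective V.subtype_injective, hE]; rfl
  have four : ∀ V ≤ W, V ≠ ⊥ → ∀ x ∈ normalizer (V : Set G), IsPGroup 3 (zpowers x) →
      W ⊓ centralizer {x} = ⊥ → 4 ≤ Nat.card V := fun V h1 h2 x hx h3 h4 => by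
    have := H2.card_modEq_card_inf_centralizer h3 (zpowers_le.2 hx)
    rw [cz, eq_bot_iff.2 ((inf_le_inf_right _ h1).trans h4.le), card_bot] at this
    have a : Nat.card V ≠ 1 := fun e => h2 (card_eq_one.1 e)
    have b : 0 < Nat.card V := Nat.card_pos
    unfold Nat.ModEq at this
    omega
  have w4 := four W le_rfl hW1 d hdW hd hfpf
  have full : ∀ V ≤ W, V ≠ ⊥ → ∀ x ∈ normalizer (V : Set G), IsPGroup 3 (zpowers x) →
      W ⊓ centralizer {x} = ⊥ → V = W := fun V h1 h2 x hx h3 h4 =>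
    eq_of_le_of_card_ge h1 ((rk W hW.1 hW.2).trans (four V h1 h2 x hx h3 h4))
  have F1 : ∀ t ∈ centralizer (W : Set G), t ^ 2 = 1 → t ∈ W := fun t ht h => by
    by_contra h1
    have nx := centralizer_le_normalizer _ ht
    have := rk (W ⊔ zpowers t) (H3.isMulCommutative_sup_zpowers hW.1 ht) fun v hv => by
      obtain ⟨z, hz, k, rfl⟩ := (H3.mem_sup_zpowers_iff nx).1 hv
      rw [Commute.mul_pow (Commute.zpow_right (ht z hz) k), hW.2 z hz, one_mul,
        ← zpow_natCast, ← zpow_mul, mul_comm, zpow_mul, zpow_natCast, h, one_zpow]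
    rw [H3.card_sup_zpowers nx h1 (h ▸ W.one_mem)] at this
    omega
  set Q := pCore 2 G
  have hQ : IsPGroup 2 Q := H1.isPGroup_pCore 2 G
  let Y : Subgroup G :=
    { carrier := {z | z ∈ Q ⊓ centralizer (Q : Set G) ∧ z ^ 2 = 1}
      one_mem' := ⟨one_mem _, one_pow _⟩
      mul_mem' := fun {a b} ha hb => ⟨mul_mem ha.1 hb.1, by
        rw [Commute.mul_pow (hb.1.2 a ha.1.1), ha.2, hb.2, one_mul]⟩
      inv_mem' := fun {a} ha => ⟨inv_mem ha.1, by rw [inv_pow, ha.2, inv_one]⟩ }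
  haveI hY : Y.Normal := ⟨fun a ha g => ⟨Normal.conj_mem inferInstance a ha.1 g, by
    rw [conj_pow, ha.2]; simp⟩⟩
  have Y1 : Y ≠ ⊥ := fun h => by
    have : Q ≠ ⊥ := fun e => hd1 (mem_bot.1 (e ▸ hchar (by simp [e])))
    obtain ⟨x, h1, h2⟩ := exists_ord (hQ.to_inf_left (K := centralizer (Q : Set G)))
      (H2.inf_centralizer_ne_bot_of_isPGroup hQ hQ le_normalizer this)
    have : x ∈ Y := ⟨h1, h2 ▸ pow_orderOf_eq_one x⟩
    rw [h, mem_bot] at this
    simp [this] at h2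
  have hWY : W = Y := by
    have := full (Y ⊓ centralizer (W : Set G)) (fun y hy => F1 y hy.2 hy.1.2)
      (H2.inf_centralizer_ne_bot_of_isPGroup (pg Y fun v hv => hv.2) (pg W hW.2)
        le_normalizer_of_normal Y1) d
      (mni (le_normalizer_of_normal (K := ⊤) trivial)
        (H1.normalizer_le_normalizer_centralizer _ hdW)) hd hfpf
    have h1 : W ≤ Y := this ▸ inf_le_left
    exact le_antisymm h1 fun y hy => F1 y (fun w hw => ((h1 hw).1.2 y hy.1.1).symm) hy.2
  haveI : W.Normal := hWY ▸ hY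
  have nn : ∀ (K : Subgroup G) [K.Normal] (L : Subgroup G), L ≤ normalizer (K : Set G) :=
    fun K _ L => le_normalizer_of_normal
  have fq : ∀ x, W ⊓ centralizer {x} = ⊥ → Q ⊓ centralizer {x} = ⊥ := fun x h => by
    by_contra h1
    obtain ⟨z, h2, h3⟩ := exists_ord hQ.to_inf_left h1
    have : z ∈ W ⊓ centralizer {x} := ⟨F1 z (fun w hw => ((hWY.le hw).1.2 z h2.1).symm)
      (h3 ▸ pow_orderOf_eq_one z), h2.2⟩
    rw [h, mem_bot] at this
    simp [this] at h3
  have alt : ∀ x, IsPGroup 3 (zpowers x) → x ∉ centralizer (W : Set G) →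
      W ⊓ centralizer {x} = ⊥ := fun x h1 h2 => by
    have a := H2.card_modEq_card_inf_centralizer h1 (nn W _)
    rw [cz] at a
    have b := H3.card_lt_of_lt (lt_of_le_of_ne (inf_le_left : W ⊓ centralizer {x} ≤ W)
      fun e => h2 fun w hw => ((e.ge hw).2 x rfl).symm)
    have c := rk W hW.1 hW.2
    unfold Nat.ModEq at a
    rw [← card_eq_one]
    omega
  have q3 : ∀ K : Subgroup G, IsPGroup 3 K → K ⊓ centralizer (Q : Set G) = ⊥ := fun K h =>
    eq_bot_iff.2 ((inf_le_inf_left _ hchar).trans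
      (IsPGroup.disjoint_of_ne 3 2 (by decide) K Q h hQ).le_bot)
  have d3 : orderOf d = 3 := by
    obtain ⟨n, hn⟩ := IsPGroup.iff_card.1 hd
    rw [Nat.card_zpowers] at hn
    exact S3738.result d n (Nat.pos_of_ne_zero fun e => hd1 (by simpa [e] using hn)) hn Q hQ
      (nn Q ⊤ trivial) (q3 _ hd) (fq d hfpf) fun V _ _ A h1 h2 => by
        have := rk (A.map V.subtype) inferInstance (by
          rintro _ ⟨a, ha, rfl⟩; exact congrArg Subtype.val (h2 a ha))
        rwa [card_map_of_injective V.subtype_injective] at this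
  have dW : d ∉ centralizer (W : Set G) := fun h =>
    hW1 (eq_bot_iff.2 fun w hw => hfpf.le ⟨hw, H2.CS.mem_cent.2 (h w hw)⟩)
  obtain ⟨P, hP⟩ := hd.exists_le_sylow
  have P0 : (P : Subgroup G) ⊓ centralizer (W : Set G) = ⊥ := by
    by_contra h
    obtain ⟨y, ⟨⟨y1, y2⟩, y3⟩, y4⟩ := exists_ord (p := 3) (P.2.to_inf_left.to_inf_left)
      (H2.inf_centralizer_ne_bot_of_isPGroup P.2.to_inf_left hd (fun g hg =>
        mni (le_normalizer (hP hg)) (nn _ ⊤ trivial)) h)
    have hA : IsPGroup 3 (zpowers d ⊔ zpowers y : Subgroup G) :=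
      P.2.to_le (sup_le hP (zpowers_le.2 y1))
    haveI := H3.isMulCommutative_sup_zpowers (A := zpowers d) inferInstance y3
    have key : ∀ a ∈ zpowers d ⊔ zpowers y, a ∈ centralizer (W : Set G) → a ∈ zpowers y := by
      intro a ha h
      obtain ⟨z, hz, k, rfl⟩ := (H3.mem_sup_zpowers_iff (centralizer_le_normalizer _ y3)).1 ha
      have h1 : z ∈ centralizer (W : Set G) := (Subgroup.mul_mem_cancel_right _ (Subgroup.zpow_mem _ y2 k)).1 h
      by_cases h2 : z = 1
      · simp [h2]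
      exact absurd (zpowers_le.2 h1 (gen d3 hz h2)) dW
    have := H1.le_of_forall_centralizer_singleton_le (A := zpowers d ⊔ zpowers y) (K := Q)
      (D := centralizer {y}) (fun hc => ?_) (nn Q _) (IsPGroup.coprime_card_of_ne 3 2 (by decide) _ _ hA hQ)
      fun a ha h1 => ?_
    · have : y ∈ zpowers y ⊓ centralizer (Q : Set G) :=
        ⟨mem_zpowers y, fun q hq => H2.CS.mem_cent.1 (this hq)⟩
      rw [q3 _ (hA.to_le le_sup_right), mem_bot] at this
      simp [this] at y4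
    · obtain ⟨⟨a, ha⟩, h1⟩ := hc.exists_generator
      have h2 : ∀ u ∈ zpowers d ⊔ zpowers y, u ∈ zpowers a := fun u hu => by
        obtain ⟨k, hk⟩ := h1 ⟨u, hu⟩
        exact ⟨k, congrArg Subtype.val hk⟩
      have y1 : y ≠ 1 := fun e => by simp [e] at y4
      have h3 := h2 y (mem_sup_right (mem_zpowers y))
      have : orderOf a = 3 := orderOf_eq_prime (by
        obtain ⟨z, ⟨i, rfl⟩, k, rfl⟩ := (H3.mem_sup_zpowers_iff (centralizer_le_normalizer _ y3)).1 ha
        rw [Commute.mul_pow (Commute.zpow_right (y3 _ ⟨i, rfl⟩) k), ← zpow_natCast, ← zpow_mul,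
          mul_comm i, zpow_mul, zpow_natCast, ← zpow_natCast (y ^ k), ← zpow_mul, mul_comm k, zpow_mul,
          zpow_natCast, orderOf_dvd_iff_pow_eq_one.1 d3.dvd, orderOf_dvd_iff_pow_eq_one.1 y4.dvd]
        simp) fun e => y1 (by simpa [e] using h3)
      exact dW (zpowers_le.2 (zpowers_le.2 y2 (gen this h3 y1)) (h2 d (mem_sup_left (mem_zpowers d))))
    by_cases h2 : a ∈ centralizer (W : Set G)
    · rw [← cz, ← cz]
      exact inf_le_right.trans (centralizer_le (zpowers_le.2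
        (gen y4 (key a ha h2) h1)))
    · rw [fq a (alt a (hA.to_le (zpowers_le.2 ha)) h2)]; exact bot_le
  obtain ⟨g, hg⟩ := hsix
  have x3 : IsPGroup 3 (zpowers (g ^ 2)) := IsPGroup.of_card (n := 1) (by
    rw [Nat.card_zpowers, orderOf_pow, hg]; rfl)
  have hx := alt _ x3 fun h => by
    obtain ⟨R, hR⟩ := x3.exists_le_sylow
    obtain ⟨u, rfl⟩ := MulAction.exists_smul_eq G R P
    have : u * g ^ 2 * u⁻¹ ∈ ((u • R : Sylow 3 G) : Subgroup G) ⊓ centralizer (W : Set G) :=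
      ⟨⟨_, hR (mem_zpowers _), rfl⟩, Normal.conj_mem inferInstance _ h u⟩
    rw [P0, mem_bot, conj_eq_one_iff, ← orderOf_dvd_iff_pow_eq_one, hg] at this
    omega
  have t2 : (g ^ 3) ^ 2 = 1 := by rw [← pow_mul, ← orderOf_dvd_iff_pow_eq_one, hg]
  have c : g ^ 2 ∈ centralizer (zpowers (g ^ 3) : Set G) := by
    rw [cz]; exact H2.CS.mem_cent.2 (Commute.pow_pow_self g 2 3)
  have := full (W ⊓ centralizer (zpowers (g ^ 3) : Set G)) inf_le_left
    (H2.inf_centralizer_ne_bot_of_isPGroup (pg W hW.2) (IsPGroup.of_card (n := 1) (by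
      rw [Nat.card_zpowers, orderOf_pow, hg]; rfl)) (nn W _) hW1) _
    (mni (nn W ⊤ trivial) (le_normalizer c)) x3 hx
  have : g ^ 3 ∈ W ⊓ centralizer {g ^ 2} := ⟨F1 _ (fun w hw =>
    ((this.ge hw).2 _ (mem_zpowers _)).symm) t2, H2.CS.mem_cent.2 (Commute.pow_pow_self g 3 2)⟩
  rw [hx, mem_bot, ← orderOf_dvd_iff_pow_eq_one, hg] at this
  omega

end Cfsg.Agent.S3739
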