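import Cfsg.Statements.S3758
import Cfsg.Agent.H9.ZC3
import Cfsg.Agent.S0518
import Cfsg.Agent.S3224

set_option autoImplicit false
open Cfsg

namespace Cfsg.Agent.S3758

open Subgroup Cfsg.Agent.H11 Cfsg.Agent.H9Z Equiv

def a0 : Perm (Fin 4) := swap 0 1 * swap 2 3
def b0 : Perm (Fin 4) := swap 0 2 * swap 1 3

theorem p1 : ∀ y : Perm (Fin 4), (∃ g, (y * (g * y * g⁻¹)) ^ 3 = 1 ∧ y * (g * y * g⁻¹) ≠ 1) ∨
    y = 1 ∨ y = a0 ∨ y = b0 ∨ y = a0 * b0 := by decide +kernel

theorem p2 : ∀ y ∈ [a0, b0, a0 * b0], ∀ x ∈ [a0, b0], ∃ g, g * y * g⁻¹ = x := by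
  decide +kernel

theorem p3 : ∀ y : Perm (Fin 4), y * a0 = a0 * y → y * b0 = b0 * y →
    y = 1 ∨ y = a0 ∨ y = b0 ∨ y = a0 * b0 := by decide +kernel

theorem s4 {N : Subgroup (Perm (Fin 4))} [hn : N.Normal] (hN : IsPGroup 2 N) (h1 : N ≠ ⊥) :
    IsKleinFour N ∧ centralizer (N : Set (Perm (Fin 4))) ≤ N := by
  have h2 : ∀ y ∈ N, _ := fun y hy => (p1 y).resolve_left fun ⟨g, a, b⟩ => b (by
    obtain ⟨k, hk⟩ := IsPGroup.iff_orderOf.1 hN ⟨_, mul_mem hy (hn.conj_mem y hy g)⟩
    rw [orderOf_mk] at hk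
    rw [← orderOf_eq_one_iff]
    exact Nat.eq_one_of_dvd_coprimes (Nat.Coprime.pow_right k (by decide : Nat.Coprime 3 2))
      (orderOf_dvd_of_pow_eq_one a) (hk ▸ dvd_rfl))
  obtain ⟨⟨y, hy⟩, y1⟩ := ne_bot_iff_exists_ne_one.1 h1
  have h5 : ∀ x ∈ [a0, b0], x ∈ N := fun x hx => by
    obtain ⟨g, hg⟩ := p2 y (by simpa using (h2 y hy).resolve_left fun e => y1 (Subtype.ext e)) x hx
    exact hg ▸ hn.conj_mem y hy g
  have ha := h5 a0 (by simp)
  have hb := h5 b0 (by simp)
  have h3 : ∀ {x : Perm (Fin 4)}, x ∈ Subgroup.closure {a0, b0} ↔ _ :=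
    mem_four_iff (by decide) (by decide) (by decide)
  have h4 : N = Subgroup.closure {a0, b0} := le_antisymm
    (fun x hx => h3.2 (h2 x hx)) ((closure_le _).2 (by rintro _ (rfl | rfl) <;> assumption))
  refine ⟨h4 ▸ isKleinFour_closure (orderOf_two_of (by decide) (by decide))
    (orderOf_two_of (by decide) (by decide)) (by decide) (by decide), fun x hx => ?_⟩
  rw [h4]
  exact h3.2 (p3 x (hx _ ha).symm (hx _ hb).symm)

theorem klein_map {A B : Type*} [Group A] [Group B] {V : Subgroup A} (hV : IsKleinFour V)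
    {f : A →* B} (hf : Function.Injective f) : IsKleinFour (V.map f) :=
  isKleinFour_of_equiv hV (equivMapOfInjective V f hf).symm

theorem s4' {G : Type*} [Group G] {T : Subgroup G} (hT : IsPGroup 2 T) (h1 : T ≠ ⊥)
    (e : normalizer (T : Set G) ≃* Perm (Fin 4)) :
    IsKleinFour T ∧ centralizer (T : Set G) ≤ T := by
  haveI : ((T.subgroupOf (normalizer (T : Set G))).map e.toMonoidHom).Normal :=
    Normal.map inferInstance _ e.surjective
  obtain ⟨h2, h3⟩ := s4 (N := (T.subgroupOf (normalizer (T : Set G))).map e.toMonoidHom)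
    ((hT.comap_of_injective _ (subtype_injective _)).map _) (by
      rwa [Ne, map_eq_bot_iff_of_injective _ e.injective, subgroupOf_eq_bot, disjoint_iff,
        inf_eq_left.2 le_normalizer])
  refine ⟨isKleinFour_of_equiv h2 ((subgroupOfEquivOfLe le_normalizer).symm.trans
    (equivMapOfInjective _ _ e.injective)), fun x hx => ?_⟩
  obtain ⟨y, hy, h4⟩ := h3 (x := e ⟨x, centralizer_le_normalizer _ hx⟩) (by
    rintro _ ⟨t, ht, rfl⟩
    exact (map_mul e _ _).symm.trans ((congrArg e (Subtype.ext (hx _ ht))).trans (map_mul e _ _)))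
  rw [e.injective h4] at hy
  exact hy

theorem dih {G : Type*} [Group G] [Finite G] {R V : Subgroup G} (hR : IsPGroup 2 R)
    (hV : IsKleinFour V) (hS : V ≤ R) (hc : R ⊓ centralizer (V : Set G) ≤ V) :
    (∃ n : ℕ, 2 ≤ n ∧ Nonempty (R ≃* DihedralGroup n)) ∨ IsQuasiDihedral R := by
  obtain ⟨z, hz, z2, zc⟩ := GW.exists_central_invol hR fun e =>
    GW.klein_not_cyclic hV (by rw [le_bot_iff.1 (hS.trans e.le)]; infer_instance)
  have hzV : z ∈ V := hc ⟨hz, fun v hv => zc v (hS hv)⟩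
  obtain ⟨v, hv, v1, vz⟩ := klein_exists_other hV z
  have h1 : R ⊓ centralizer {v} = V := le_antisymm (fun s hs => hc ⟨hs.1, by
    rw [klein_eq_closure hV hzV hv (ne_one_of_orderOf_two z2) v1 vz.symm]
    exact mem_centralizer_closure_pair.2 ⟨zc s hs.1, mem_cent1.1 hs.2⟩⟩)
    (le_inf hS fun s hs => mem_cent1.2 (klein_comm hV hs hv))
  have h2 := hV.card_four ▸ card_le_of_le hS
  rcases S3224.result hR ⟨v, hS hv⟩ (by rw [orderOf_mk, klein_orderOf hV hv v1]) (by
      rw [← hV.card_four, ← card_subgroupOf hS, ← h1, GW.cent_subgroupOf, inf_subgroupOf_left]) with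
    ⟨m, ⟨φ⟩⟩ | h4 | h4
  · rw [Nat.card_congr φ.toEquiv, DihedralGroup.nat_card] at h2
    exact .inl ⟨m, by omega, ⟨φ⟩⟩
  · exact .inr h4
  · exact .inl ⟨2, le_rfl, nonempty_dihedral_two_of_klein
      (eq_of_le_of_card_ge hS (h4.trans hV.card_four.symm).le ▸ hV)⟩

/-- Let G be a finite group of even order in which every 2-local subgroup is solvable and C_G(Ω₁(Z(S))) ≤ N_G(S) for every Sylow 2-subgroup S, and suppose O_{2'}(G) = 1 = O₂(G). Fix a Sylow 2-subgroup S, put Z = Ω₁(Z(S)), H = O²(G) (generated by the elements of odd order) and R = S ∩ H. Then one of the following holds: H has a strongly embedded subgroup; R is dihedral (of order at least 4) or semidihedral; Z ∩ R has order 2 and is weakly closed in R with respect to H; or Z has order 4 and is exactly the subgroup generated by the involutions of R. -/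
theorem result {G : Type*} [Group G] [Finite G] (heven : Even (Nat.card G)) (hN : ∀ L : Subgroup G, Cfsg.IsTwoLocal L → Group.IsSolvable L) (hZ : ∀ S : Sylow 2 G, Subgroup.centralizer (Cfsg.omegaOne 2 ((S : Subgroup G) ⊓ Subgroup.centralizer ((S : Subgroup G) : Set G)) : Set G) ≤ Subgroup.normalizer ((S : Subgroup G) : Set G)) (hO' : Cfsg.pPrimeCore 2 G = ⊥) (hO : Cfsg.pCore 2 G = ⊥) (S : Sylow 2 G) : (∃ M : Subgroup ↥(Cfsg.pResidual 2 G), Cfsg.IsStronglyEmbedded M) ∨ ((∃ n : ℕ, 2 ≤ n ∧ Nonempty (↥((S : Subgroup G) ⊓ Cfsg.pResidual 2 G) ≃* DihedralGroup n)) ∨ Cfsg.IsQuasiDihedral ↥((S : Subgroup G) ⊓ Cfsg.pResidual 2 G)) ∨ (Nat.card ↥(Cfsg.omegaOne 2 ((S : Subgroup G) ⊓ Subgroup.centralizer ((S : Subgroup G) : Set G)) ⊓ Cfsg.pResidual 2 G) = 2 ∧ ∀ h ∈ Cfsg.pResidual 2 G, ∀ z ∈ Cfsg.omegaOne 2 ((S : Subgroup G) ⊓ Subgroup.centralizer ((S : Subgroup G) : Set G)) ⊓ Cfsg.pResidual 2 G, h * z * h⁻¹ ∈ (S : Subgroup G) → h * z * h⁻¹ ∈ Cfsg.omegaOne 2 ((S : Subgroup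 G) ⊓ Subgroup.centralizer ((S : Subgroup G) : Set G))) ∨ (Nat.card ↥(Cfsg.omegaOne 2 ((S : Subgroup G) ⊓ Subgroup.centralizer ((S : Subgroup G) : Set G))) = 4 ∧ Cfsg.omegaOne 2 ((S : Subgroup G) ⊓ Cfsg.pResidual 2 G) = Cfsg.omegaOne 2 ((S : Subgroup G) ⊓ Subgroup.centralizer ((S : Subgroup G) : Set G))) := by
  haveI := H3.pResidual_normal (p := 2) (G := G)
  have hC : SC G := fun t ht => by
    haveI := hN _ ⟨zpowers t, isPGroup_zpowers_of_orderOf (k := 1) ht,
      fun e => ne_one_of_orderOf_two ht (zpowers_eq_bot.1 e), rfl⟩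
    exact solvable_of_solvable_injective (inclusion_injective
      ((H10.centralizer_zpowers t).ge.trans (centralizer_le_normalizer _)))
  refine (zc heven hC S rfl (hZ S) hO' hO).elim .inl fun h => ?_
  refine h.elim (fun h => .inr (.inr (.inl h))) fun h => h.elim (fun h => .inr (.inr (.inr h))) ?_
  have hn := normal_sup S
  have he := even_res heven hO' hO
  have hH : pResidual 2 G ≤ _ := (le_sup_left : _ ≤ pResidual 2 G ⊔
    omegaOne 2 ((S : Subgroup G) ⊓ centralizer ((S : Subgroup G) : Set G)))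
  have hZK : _ ≤ pResidual 2 G ⊔
    omegaOne 2 ((S : Subgroup G) ⊓ centralizer ((S : Subgroup G) : Set G)) := le_sup_right
  generalize pResidual 2 G ⊔
    omegaOne 2 ((S : Subgroup G) ⊓ centralizer ((S : Subgroup G) : Set G)) = K at *
  clear h
  intro h
  have hR : pResidual 2 K = (pResidual 2 G).subgroupOf K := by
    refine le_antisymm ((closure_le _).2 fun x hx => subset_closure (by
      simpa only [Set.mem_setOf_eq, coe_subtype, orderOf_coe] using hx)) fun x hx => ?_
    obtain ⟨y, hy, e⟩ := (closure_le ((pResidual 2 K).map K.subtype)).2 (fun y hy =>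
      ⟨⟨y, hH (subset_closure hy)⟩, subset_closure (by
        simpa only [Set.mem_setOf_eq, orderOf_mk] using hy), rfl⟩) hx
    rwa [← Subtype.ext e]
  rcases S0518.result h (by
      haveI : (H10.OpOf 2 K).Normal := normalizer_eq_top_iff.1
        (top_le_iff.1 (H10.le_normalizer_OpOf le_normalizer_of_normal))
      rw [← map_eq_bot_iff_of_injective _ K.subtype_injective, eq_bot_iff, ← hO]
      exact H10.le_pCore (N := H10.OpOf 2 K) H10.OpOf_isPGroup)
    (by
      rintro _ ⟨T, hT, h1, rfl⟩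
      haveI := hN _ ⟨T.map K.subtype, hT.map _, by
        rwa [Ne, map_eq_bot_iff_of_injective _ K.subtype_injective], rfl⟩
      exact solvable_of_solvable_injective (f := (inclusion (le_normalizer_map _)).comp
        (equivMapOfInjective _ _ K.subtype_injective).toMonoidHom)
        ((inclusion_injective (le_normalizer_map _)).comp (MulEquiv.injective _)))
    (by
      intro P c hc
      obtain ⟨S', hS'⟩ := (P.2.map K.subtype).exists_le_sylow
      have h1 := (isSylIn_map P).eq (Q := K ⊓ S') (S'.2.to_le inf_le_right)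
        (le_inf (map_subtype_le _) hS') inf_le_left
      obtain ⟨g, -, hg⟩ := (isSylIn_top S').exists_cj_eq (isSylIn_top S)
      have h2 : (c : G) ∈ normalizer ((S' : Subgroup G) : Set G) := hZ S' fun x hx => by
        obtain ⟨a1, a2, a3⟩ := mem_Z.1 hx
        have xK : x ∈ K := by
          have := hn.conj_mem (g * x * g⁻¹) (hZK (mem_Z.2 ⟨hg.le (conj_mem_map_conj g a1), fun s hs => by
            have := a2 _ (mem_cj.1 (hg.ge hs))
            calc _ = g * (g⁻¹ * s * g * x) * g⁻¹ := by group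
              _ = _ := by rw [this]; group, by rw [conj_mul, a3]; group⟩)) g⁻¹
          simpa [mul_assoc] using this
        have hP : ∀ y : K, y ∈ (P : Subgroup K) ↔ (y : G) ∈ (S' : Subgroup G) := fun y => by
          rw [← mem_map_iff_mem K.subtype_injective, ← h1]
          exact and_iff_right y.2
        exact congrArg Subtype.val (hc ⟨x, xK⟩ ⟨(hP _).2 a1, Subtype.ext (by simpa [pow_two] using a3),
          fun s hs => Subtype.ext (a2 _ ((hP s).1 hs))⟩)
      refine mem_normalizer_of_forall fun y hy => ?_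
      rw [← mem_map_iff_mem K.subtype_injective, ← h1] at hy ⊢
      exact ⟨(c * y * c⁻¹).2, conj_mem_of_mem_normalizer h2 hy.2⟩)
    (pResidual 2 K) (by simp only [pResidual, Nat.coprime_two_right]) with
    ⟨M, hM⟩ | ⟨M, -, -, ⟨⟨T, hT, h1, rfl⟩, -⟩, -, ⟨e⟩, -⟩
  · refine .inl ⟨(M.map K.subtype).subgroupOf _, isStronglyEmbedded_iff.2 ⟨fun e => hM.1 ?_, ?_,
      fun t htM ht g hg => ?_⟩⟩
    · obtain ⟨P, hP⟩ := SE.exists_sylow_le hM
      rw [eq_top_iff, ← H3.pResidual_sup_sylow P, hR]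
      exact sup_le (fun x hx => (mem_map_iff_mem K.subtype_injective).1 (subgroupOf_eq_top.1 e hx)) hP
    · obtain ⟨t, htH, ht⟩ := exists_invol_of_even he
      obtain ⟨g, hg⟩ := SE.exists_conj_mem hM (u := ⟨t, hH htH⟩) (by rwa [orderOf_mk])
      exact even_card_of_invol (t := ⟨_, Normal.conj_mem inferInstance t htH g⟩)
        (mem_map_of_mem K.subtype hg) (by rw [orderOf_mk, orderOf_conj, ht])
    · exact mem_map_of_mem K.subtype (SE.mem_of_conj hM (t := inclusion hH t) (g := inclusion hH g)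
        ((mem_map_iff_mem K.subtype_injective).1 htM)
        (by rwa [orderOf_injective _ (inclusion_injective hH)])
        ((mem_map_iff_mem K.subtype_injective).1 hg))
  · obtain ⟨h2, h3⟩ := s4' hT h1 e
    have hf : Function.Injective (K.subtype.comp (pResidual 2 K).subtype) :=
      K.subtype_injective.comp (subtype_injective _)
    have h4 := klein_map h2 hf
    obtain ⟨g, -, hg⟩ := (isSylIn_top S).exists_cj_le (klein_isPGroup h4) le_top
    refine .inr (.inl (dih (S.2.to_le inf_le_left) (isKleinFour_cj h4 g) (le_inf hg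
      (cj_le_iff.2 ?_)) fun x hx => mem_cj.2 ?_))
    · rintro _ ⟨t, -, rfl⟩
      exact Normal.conj_mem inferInstance _ (mem_subgroupOf.1 (hR.le t.2)) g
    · have h5 : g⁻¹ * x * g ∈ pResidual 2 G := by
        simpa using Normal.conj_mem inferInstance _ hx.1.2 g⁻¹
      refine ⟨⟨⟨_, hH h5⟩, hR.ge h5⟩, h3 fun t ht => hf ?_, rfl⟩
      have h6 := hx.2
      rw [SetLike.mem_coe, ← cj_centralizer] at h6
      exact mem_cj.1 h6 _ (mem_map_of_mem _ ht)

end Cfsg.Agent.S3758
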