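import Cfsg.Statements.S3802
import Cfsg.Agent.H2.Subnormal
import Cfsg.Agent.H2.Frattini

set_option autoImplicit false
open Cfsg

namespace Cfsg.Agent.S3802

universe u
theorem aux (G : Type u) [Group G] [Finite G] : ∀ (M N : Subgroup G), IsCoatom M → N.IsSubnormal →
    N ≤ M → N ≤ Subgroup.normalCore M := by
  refine H2.card_induction (P := fun G _ _ => ∀ (M N : Subgroup G), IsCoatom M → N.IsSubnormal →
    N ≤ M → N ≤ Subgroup.normalCore M) ?_ G
  intro G _ _ ih M N hM hN hNM
  by_cases hG : Nontrivial G
  swap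
  · rw [not_nontrivial_iff_subsingleton] at hG
    intro x _
    rw [Subsingleton.elim x 1]; exact Subgroup.one_mem _
  obtain ⟨L, hL⟩ := H2.exists_isMinNormal (G := G)
  have hLn := hL.normal
  by_cases hLM : L ≤ M
  · have h1 := ih (G ⧸ L) (H1.card_quotient_lt hL.ne_bot) (M.map (QuotientGroup.mk' L))
      (N.map (QuotientGroup.mk' L)) (H2.isCoatom_map_mk' hM hLM)
      (H10.subnormalIn_top.1 (by
        have := (H10.subnormalIn_top.2 hN).map (QuotientGroup.mk' L)
        rwa [Subgroup.map_top_of_surjective _ (QuotientGroup.mk'_surjective L)] at this))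
      (Subgroup.map_mono hNM)
    have h2 : (Subgroup.normalCore (M.map (QuotientGroup.mk' L))).comap (QuotientGroup.mk' L) ≤ M := by
      refine (Subgroup.comap_mono (Subgroup.normalCore_le _)).trans ?_
      rw [Subgroup.comap_map_eq, QuotientGroup.ker_mk', sup_eq_left.2 hLM]
    exact (Subgroup.map_le_iff_le_comap.1 h1).trans (Subgroup.normal_le_normalCore.2 h2)
  · have htop := H2.coatom_sup_eq_top hM hLM
    have hLN := hL.le_normalizer_of_isSubnormal hN
    intro x hx g
    have hg : g ∈ M ⊔ L := htop ▸ Subgroup.mem_top g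
    obtain ⟨m, hm, l, hl, rfl⟩ := (H10.mem_sup_iff_of_left_le_normalizer
      (by rw [Subgroup.normalizer_eq_top L]; exact le_top)).1 hg
    have h1 : l * x * l⁻¹ ∈ M := hNM (H1.conj_mem_of_le_normalizer hLN hl hx)
    have : m * l * x * (m * l)⁻¹ = m * (l * x * l⁻¹) * m⁻¹ := by group
    rw [this]
    exact M.mul_mem (M.mul_mem hm h1) (M.inv_mem hm)

/-- Let G be a finite group, M a maximal subgroup of G and N a subnormal subgroup of G contained in M. Then N is contained in every conjugate of M, that is, N lies in the core of M in G. -/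
theorem result {G : Type*} [Group G] [Finite G] (M N : Subgroup G) (hM : IsCoatom M) (hN : N.IsSubnormal) (hNM : N ≤ M) :
    N ≤ Subgroup.normalCore M := by
  exact aux G M N hM hN hNM

end Cfsg.Agent.S3802
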