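import Cfsg.Statements.S3803
import Cfsg.Agent.H10.Local2
import Cfsg.Agent.BG.S01b
import Cfsg.Agent.H11.Z2n

set_option autoImplicit false
open Cfsg

namespace Cfsg.Agent.S3803

section
open Subgroup Cfsg.Agent.H10
open scoped commutatorElement Pointwise

theorem cent_of_pow_four {X : Type*} [Group X] [Finite X] {P A : Subgroup X} (hP : IsPGroup 2 P)
    (hA : (Nat.card P).Coprime (Nat.card A)) (hAP : A ≤ normalizer (P : Set X))
    (h : ∀ x ∈ P, x ^ 4 = 1 → x ∈ centralizer (A : Set X)) : A ≤ centralizer (P : Set X) := by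
  obtain ⟨C, hC⟩ := BG.exists_critical hP
  refine hC.cent hAP hA ?_
  have hCP : C ≤ P := hC.1.le
  have hAC : A ≤ normalizer (C : Set X) := hAP.trans hC.1.norm_le
  have hcop : (Nat.card A).Coprime (Nat.card C) :=
    (coprime_card_of_le hCP hA).symm
  set Z := C ⊓ centralizer (C : Set X) with hZ
  haveI : IsMulCommutative Z := le_centralizer_iff_isMulCommutative.1
    (inf_le_right.trans (centralizer_anti inf_le_left))
  have hAZ : A ≤ centralizer (Z : Set X) := H1.le_centralizer_of_centralizes_prime_order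
    (le_normalizer_inf hAC (le_normalizer_centralizer hAC))
    (coprime_card_of_le inf_le_left hcop.symm).symm fun v hv hp => h v (hCP hv.1) (by
      obtain ⟨k, hk⟩ := hP ⟨v, hCP hv.1⟩
      have h1 : orderOf v ∣ 2 ^ k := orderOf_dvd_of_pow_eq_one (congrArg Subtype.val hk)
      have h2 := (Nat.prime_dvd_prime_iff_eq hp Nat.prime_two).1 (hp.dvd_of_dvd_pow h1)
      exact orderOf_dvd_iff_pow_eq_one.1 (h2 ▸ by norm_num))
  rw [← commutator_eq_bot_iff_le_centralizer, commutator_comm]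
  refine H1.commutator_eq_bot_of_commutator_commutator_eq_bot hAC hcop ?_
  rw [commutator_eq_bot_iff_le_centralizer, commutator_le]
  intro x hx a ha
  have hy : a * x⁻¹ * a⁻¹ ∈ C := (mem_normalizer_iff.1 (hAC ha) _).1 (C.inv_mem hx)
  set y := a * x⁻¹ * a⁻¹ with hyd
  have e1 : ⁅x, a⁆ = x * y := by rw [hyd, commutatorElement_def]; group
  have hx2 : x ^ 2 ∈ Z := ⟨C.pow_mem hx 2, hC.2.1 x hx⟩
  have e2 : y ^ 2 = (x ^ 2)⁻¹ := by
    have := hAZ ha _ hx2
    calc y ^ 2 = a * (x ^ 2)⁻¹ * a⁻¹ := by rw [hyd, conj_pow, inv_pow]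
      _ = (a * x ^ 2 * a⁻¹)⁻¹ := by group
      _ = _ := by rw [← this]; group
  have hc : ∀ z ∈ C, Commute ⁅x⁻¹, y⁻¹⁆ z := fun z hz =>
    BG.commute_commg_of_class_two hC.der_le (C.inv_mem hx) (C.inv_mem hy) hz
  set c := ⁅x⁻¹, y⁻¹⁆ with hcd
  have e3 : y * x = x * y * c⁻¹ := by rw [hcd, commutatorElement_def]; group
  have e4 : c * c = 1 := by
    have h1 : y * x ^ 2 = x ^ 2 * y := hx2.2 y hy
    have h2 : y * x ^ 2 = x ^ 2 * y * (c * c)⁻¹ := by
      calc y * x ^ 2 = y * x * x := by rw [sq, mul_assoc y x x]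
        _ = x * y * (c⁻¹ * x) := by rw [e3]; group
        _ = x * (y * x) * c⁻¹ := by rw [(hc x hx).inv_left.eq]; group
        _ = _ := by rw [e3, sq]; group
    rw [h1, left_eq_mul, inv_eq_one] at h2
    exact h2
  have e5 : (x * y) ^ 2 = c⁻¹ := by
    calc (x * y) ^ 2 = x * (y * x) * y := by rw [sq]; group
      _ = x * x * y * (c⁻¹ * y) := by rw [e3]; group
      _ = x ^ 2 * y ^ 2 * c⁻¹ := by rw [(hc y hy).inv_left.eq, sq, sq]; group
      _ = c⁻¹ := by rw [e2]; group
  rw [e1]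
  refine h _ (hCP (C.mul_mem hx hy)) ?_
  rw [show 4 = 2 * 2 from rfl, pow_mul, e5, inv_pow, sq, e4, inv_one]

theorem cent_of_coatoms {X : Type*} [Group X] [Finite X] {F A : Subgroup X} (hF : IsPGroup 2 F)
    (hA : (Nat.card F).Coprime (Nat.card A)) (hAF : A ≤ normalizer (F : Set X))
    (h : ∀ M : Subgroup X, M ≤ F → M.relIndex F = 2 → A ≤ normalizer (M : Set X)) :
    A ≤ centralizer (F : Set X) := by
  refine H1.le_centralizer_of_commutator_le_frattini hAF
    (hA.coprime_dvd_left (card_subgroup_dvd_card _)).symm ?_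
  rw [commutator_le]
  intro x hx a ha
  have hy : a * x⁻¹ * a⁻¹ ∈ F := (mem_normalizer_iff.1 (hAF ha) _).1 (F.inv_mem hx)
  have e1 : ⁅x, a⁆ = x * (a * x⁻¹ * a⁻¹) := by rw [commutatorElement_def]; group
  refine ⟨⟨x, hx⟩ * ⟨_, hy⟩, H1.mem_frattini_iff.2 fun M hM => ?_, e1.symm⟩
  have hi := H11.index_eq_of_isCoatom hF hM
  have h2 := h (M.map F.subtype) (map_subtype_le _) (by
    rw [relIndex, map_subtype_subgroupOf, hi])
  rw [mul_mem_iff_of_index_two hi, ← map_subtype_subgroupOf M, mem_subgroupOf, mem_subgroupOf]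
  exact (inv_mem_iff.symm).trans (mem_normalizer_iff.1 (h2 ha) _)

theorem cent_of_cyclic {X : Type*} [Group X] [Finite X] {F A : Subgroup X} (hF : IsPGroup 2 F)
    (hA : (Nat.card F).Coprime (Nat.card A)) (hAF : A ≤ normalizer (F : Set X))
    (hc : IsCyclic F) : A ≤ centralizer (F : Set X) := by
  refine cent_of_coatoms hF hA hAF fun M hM _ a ha => mem_normalizer_of_conj_le fun m hm => ?_
  obtain ⟨g, rfl⟩ := (Subgroup.isCyclic_iff_exists_zpowers_eq_top F).1 hc
  obtain ⟨j, rfl⟩ := hM hm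
  obtain ⟨k, hk⟩ := (mem_normalizer_iff.1 (hAF ha) _).1 (mem_zpowers g)
  dsimp only at hk hm ⊢
  rw [← conj_zpow, ← hk, ← zpow_mul, mul_comm, zpow_mul]
  exact M.zpow_mem hm k

end

/-- Let P be a 2-subgroup and A a subgroup of odd order of a finite group, with A normalizing P. Let D ≤ P with 1 < |D| < |P|. If every subgroup of P of order |D|, and also every subgroup of P of order 4 in case |D| = 2, is normalized by A, then A centralizes P. -/
theorem result {X : Type*} [Group X] [Finite X] (P A D : Subgroup X) (hP : IsPGroup 2 P) (hA : Odd (Nat.card A))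
    (hAP : A ≤ Subgroup.normalizer (P : Set X)) (hDP : D ≤ P) (hD1 : 1 < Nat.card D) (hD2 : Nat.card D < Nat.card P)
    (hinv : ∀ E : Subgroup X, E ≤ P → (Nat.card E = Nat.card D ∨ (Nat.card D = 2 ∧ Nat.card E = 4)) → A ≤ Subgroup.normalizer (E : Set X)) :
    A ≤ Subgroup.centralizer (P : Set X) := by
  open Subgroup Cfsg.Agent.H10 in
  have cop : ∀ F ≤ P, (Nat.card F).Coprime (Nat.card A) := fun F hF => by
    obtain ⟨k, hk⟩ := IsPGroup.iff_card.1 (hP.to_le hF)
    rw [hk]; exact (Nat.coprime_two_left.2 hA).pow_left k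
  have hcyc : ∀ E ≤ P, A ≤ normalizer (E : Set X) → IsCyclic E → A ≤ centralizer (E : Set X) :=
    fun E hE h hc => cent_of_cyclic (hP.to_le hE) (cop E hE) h hc
  refine cent_of_pow_four hP (cop P le_rfl) hAP fun x hx h4 => ?_
  have hz : zpowers x ≤ P := zpowers_le.2 hx
  suffices A ≤ centralizer (zpowers x : Set X) from
    le_centralizer_iff.1 this (mem_zpowers x)
  have ho : orderOf x ∣ 2 ^ 2 := orderOf_dvd_of_pow_eq_one h4
  obtain ⟨j, hj, ho⟩ := (Nat.dvd_prime_pow Nat.prime_two).1 ho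
  obtain ⟨d, hd⟩ := IsPGroup.iff_card.1 (hP.to_le hDP)
  by_cases hD : Nat.card D = 2
  · interval_cases j
    · rw [pow_zero, orderOf_eq_one_iff] at ho
      subst ho; simp
    · exact hcyc _ hz (hinv _ hz (Or.inl (by rw [Nat.card_zpowers, ho, hD]; rfl))) inferInstance
    · exact hcyc _ hz (hinv _ hz (Or.inr ⟨hD, by rw [Nat.card_zpowers, ho]; rfl⟩)) inferInstance
  have hd2 : 2 ≤ d := by
    by_contra hlt
    have : d ≤ 1 := by omega
    interval_cases d <;> simp_all
  obtain ⟨n, hn⟩ := IsPGroup.iff_card.1 hP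
  have hdn : d < n := by
    rw [hd, hn] at hD2; exact (Nat.pow_lt_pow_iff_right (by norm_num)).1 hD2
  have ext : ∀ (U : Subgroup X) (a b : ℕ), U ≤ P → Nat.card U = 2 ^ a → a ≤ b → b ≤ n →
      ∃ W, U ≤ W ∧ W ≤ P ∧ Nat.card W = 2 ^ b := by
    intro U a b hU hUc hab hbn
    obtain ⟨W, hW, hUW⟩ := Sylow.exists_subgroup_card_pow_prime_le 2 (G := P) (n := a) (m := b)
      (hn ▸ pow_dvd_pow 2 hbn) (U.subgroupOf P) (by rw [card_subgroupOf_of_le hU, hUc]) hab
    refine ⟨W.map P.subtype, ?_, map_subtype_le _, by rw [card_map_subtype, hW]⟩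
    rw [← inf_eq_left.2 hU, ← subgroupOf_map_subtype]; exact map_mono hUW
  obtain ⟨E, hxE, hEP, hE⟩ := ext _ j d hz (by rw [Nat.card_zpowers, ho]) (by omega) hdn.le
  obtain ⟨F, hEF, hFP, hF⟩ := ext E d (d + 1) hEP hE (by omega) hdn
  have hAE := hinv E hEP (Or.inl (hE.trans hd.symm))
  refine le_trans ?_ (centralizer_anti hxE)
  by_cases hc : IsCyclic E
  · exact hcyc E hEP hAE hc
  have hM : ∀ M : Subgroup X, M ≤ F → M.relIndex F = 2 → A ≤ normalizer (M : Set X) := by
    intro M hM h2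
    refine hinv M (hM.trans hFP) (Or.inl ?_)
    have := card_mul_relIndex hM
    rw [h2, hF, pow_succ] at this
    omega
  have hEi : E.relIndex F = 2 := by
    have := card_mul_relIndex hEF
    rw [hE, hF, pow_succ] at this
    exact Nat.eq_of_mul_eq_mul_left (by positivity) this
  refine le_trans (cent_of_coatoms (hP.to_le hFP) (cop F hFP) ?_ hM) (centralizer_anti hEF)
  obtain ⟨y, hyF, hyE⟩ : ∃ y ∈ F, y ∉ E := by
    by_contra hcon
    push Not at hcon
    rw [relIndex_eq_one.2 hcon] at hEi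
    omega
  have hne : (zpowers y).subgroupOf F ≠ ⊤ := by
    intro h
    exact hc (Subgroup.isCyclic_of_le (hEF.trans (subgroupOf_eq_top.1 h)))
  obtain ⟨M, hM1, hM2⟩ := (eq_top_or_exists_le_coatom _).resolve_left hne
  have hi := H11.index_eq_of_isCoatom (hP.to_le hFP) hM1
  have hAM := hM (M.map F.subtype) (map_subtype_le _) (by rw [relIndex, map_subtype_subgroupOf, hi])
  have : E ⊔ M.map F.subtype = F := by
    have hco : IsCoatom (E.subgroupOf F) := H11.isCoatom_of_index_prime Nat.prime_two hEi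
    have := hco.2 ((E ⊔ M.map F.subtype).subgroupOf F) (lt_of_le_of_ne
      (subgroupOf_mono _ le_sup_left) fun h => hyE ?_)
    · exact le_antisymm (sup_le hEF (map_subtype_le _)) (subgroupOf_eq_top.1 this)
    · have h1 : (⟨y, hyF⟩ : F) ∈ (E ⊔ M.map F.subtype).subgroupOf F :=
        mem_sup_right ⟨⟨y, hyF⟩, hM2 (mem_zpowers y), rfl⟩
      rw [← h] at h1
      exact h1
  rw [← this]
  exact le_normalizer_sup hAE hAM

end Cfsg.Agent.S3803
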