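import Cfsg.Statements.S3818
import Cfsg.Agent.H1.Flv5

set_option autoImplicit false
open Cfsg

namespace Cfsg.Agent.S3818

/-- Let G be a finite solvable group and P a subgroup of G of prime order p > 3 whose conjugates generate G. Let V be a faithful irreducible representation of G over a field of positive characteristic, finite-dimensional. Then the subspace of V fixed by P has dimension less than half the dimension of V. -/
theorem result {G : Type*} [Group G] [Finite G] [Group.IsSolvable G]
    {p : ℕ} [Fact p.Prime] (hp : 3 < p) (P : Subgroup G) (hP : Nat.card P = p) (hgen : Subgroup.normalClosure (P : Set G) = ⊤)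
    {k : Type*} [Field k] (ℓ : ℕ) [Fact ℓ.Prime] [CharP k ℓ]
    {V : Type*} [AddCommGroup V] [Module k V] [FiniteDimensional k V]
    (ρ : Representation k G V) [ρ.IsIrreducible] (hfaith : Function.Injective ρ) :
    2 * Module.finrank k ↥(⨅ g : ↥P, LinearMap.ker (ρ (g : G) - LinearMap.id)) < Module.finrank k V := by
  haveI : IsCyclic P := isCyclic_of_prime_card hP
  obtain ⟨⟨x, hx⟩, hg⟩ := IsCyclic.exists_generator (α := P)
  have hp' : p.Prime := Fact.out
  have e : P = Subgroup.zpowers x := le_antisymm (fun a ha => by
    obtain ⟨n, hn⟩ := hg ⟨a, ha⟩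
    exact ⟨n, congrArg Subtype.val hn⟩) (Subgroup.zpowers_le.2 hx)
  have h4 : p ≠ 4 := by rintro rfl; exact absurd hp' (by norm_num)
  have hirr : H1.Flv.Irr ρ := fun W hW => by
    rcases eq_bot_or_eq_top (⟨W, fun g v hv => hW g v hv⟩ : Subrepresentation ρ) with h | h
    · exact Or.inl (congrArg Subrepresentation.toSubmodule h)
    · exact Or.inr (congrArg Subrepresentation.toSubmodule h)
  haveI : Nontrivial V := by
    by_contra h
    rw [not_nontrivial_iff_subsingleton] at h
    exact bot_ne_top (α := Subrepresentation ρ) (Subrepresentation.toSubmodule_injective (Subsingleton.elim _ _))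
  have h := H1.Flv.main_faithful ℓ ρ hirr hfaith hp' (by omega) (x := x) (by rw [← Nat.card_zpowers, ← e, hP])
    (by rw [eq_top_iff, ← hgen]
        exact Subgroup.normalClosure_le_normal (e ▸ Subgroup.zpowers_le.2 (Subgroup.subset_normalClosure rfl)))
  refine lt_of_le_of_lt (Nat.mul_le_mul_left _ (Submodule.finrank_mono ?_)) h
  exact iInf_le_of_le ⟨x, hx⟩ le_rfl

end Cfsg.Agent.S3818
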