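import Cfsg.Statements.S3819
import Cfsg.Agent.H21.Base5
import Cfsg.Agent.H9.PCons

set_option autoImplicit false
open Cfsg

namespace Cfsg.Agent.S3819

open Subgroup Cfsg.Agent.H20 Cfsg.Agent.H21
open scoped commutatorElement

theorem base {G : Type*} [Group G] [Finite G] {q : ℕ} [hq : Fact q.Prime] {H P Z : Subgroup G} (hP : P ≤ N⟦H⟧)
    (hc : (♯H).Coprime (♯P)) (hs : SolOr P H) (hK : Group.IsSolvable ↥⁅H, P⁆) (hZ : IsPGroup q Z) (z1 : Z ≤ H)
    (z2 : Z ≤ C⟦P⟧) (h0 : piCoreOf {q}ᶜ H = ⊥) :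
    (piCoreOf {q}ᶜ (H ⊓ C⟦Z⟧) ⊓ piCoreOf {q}ᶜ (H ⊓ C⟦P⟧)) ⊔ ⁅piCoreOf {q}ᶜ (H ⊓ C⟦Z⟧), P⁆ ≤ ⊥ := by
  set X := piCoreOf {q}ᶜ (H ⊓ C⟦Z⟧) with hX
  set T := piCoreOf {q} H with hT
  set K := ⁅H, P⁆ with hK'
  have kH : K ⊴ H := ⟨commg_le_left hP, le_sup_left.trans (sup_le_norm_commg H P)⟩
  have xl : X ≤ H ⊓ C⟦Z⟧ := piCoreOf_le _ _
  have xc : ∀ {A B : Subgroup G}, (♯(piCoreOf {q} A)).Coprime (♯(piCoreOf {q}ᶜ B)) := fun {A B} =>
    coprime_of_isPGroup (isPGroup_piCoreOf q A) ((isPi_compl_singleton_iff_coprime hq.out).1 (isPi_piCoreOf _ B))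
  have nT : H ≤ N⟦T⟧ := (piCoreOf_normalIn _ H).2
  have x1 : X ≤ C⟦T⟧ := coprime_pxq hZ (isPGroup_piCoreOf q H)
    ((isPi_compl_singleton_iff_coprime hq.out).1 (isPi_piCoreOf _ _)) (cent_symm (xl.trans inf_le_right))
    (z1.trans nT) ((xl.trans inf_le_left).trans nT) (by
      rw [← commg_eq_bot, eq_bot_iff, ← inf_eq_bot_coprime (xc (A := H) (B := H ⊓ C⟦Z⟧))]
      refine le_inf ((commg_le_left ?_).trans inf_le_left) (commg_le_right ?_)
      · exact norm_inf ((xl.trans inf_le_left).trans nT) (norm_of_le (xl.trans inf_le_right))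
      · exact (inf_le_inf_right _ (piCoreOf_le _ _)).trans (piCoreOf_normalIn _ _).2)
  have k0 : piCoreOf {q}ᶜ K = ⊥ := le_bot_iff.1 (h0 ▸ piCoreOf_le_of_normalIn kH)
  have kT : piCoreOf {q} K ≤ T := piCoreOf_le_of_normalIn kH
  have kc : K ⊓ C⟦piCoreOf {q} K⟧ ≤ piCoreOf {q} K := by
    have := cent_sylow_ppcore_le (p := q) (P := piCoreOf {q} K) hK (by
      rw [ppcore_eq_pCoreOf k0]; exact sylowOf_self (isPGroup_piCoreOf q K))
    rwa [ppcore_eq_pCoreOf k0] at this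
  have pX : P ≤ N⟦X⟧ := norm_piCoreOf _ (norm_inf_cent hP (norm_of_cent (cent_symm z2)))
  have pK : P ≤ N⟦K⟧ := le_sup_right.trans (sup_le_norm_commg H P)
  refine sup_le ?_ ?_
  · have : X ≤ C⟦K⟧ := coprime_cent_of_stable xc (N := piCoreOf {q} K) (le_trans (le_inf
      (commg_le_left ((xl.trans inf_le_left).trans kH.2)) ((commutator_mono le_rfl (x1.trans (cent_anti kT))).trans
      (commg_le_right (norm_cent (piCoreOf_normalIn _ K).2)))) kc) (x1.trans (cent_anti kT))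
    have n : piCoreOf {q}ᶜ (H ⊓ C⟦P⟧) ⊓ C⟦K⟧ ⊴ H := ⟨inf_le_left.trans ((piCoreOf_le _ _).trans inf_le_left),
      (coprime_commg_sup_cent hP hc hs).ge.trans (sup_le (norm_of_cent (cent_symm inf_le_right))
        (norm_inf_cent (piCoreOf_normalIn _ _).2 (inf_le_left.trans kH.2)))⟩
    refine le_trans (le_inf inf_le_right (inf_le_left.trans this)) (h0 ▸ le_piCoreOf n ?_)
    exact (isPi_piCoreOf _ _).of_le inf_le_left
  · rw [← inf_eq_bot_coprime (xc (A := K) (B := H ⊓ C⟦Z⟧))]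
    refine le_inf (le_trans (le_inf (commutator_mono (xl.trans inf_le_left) le_rfl) ?_) kc) (commg_le_left pX)
    exact (commutator_mono (x1.trans (cent_anti kT)) le_rfl).trans
      (commg_le_left (norm_cent (norm_piCoreOf _ pK)))

/-- Let G be a finite group with Sylow p-subgroup P and H = O_{p'}(G), and suppose G = PH and the commutator subgroup [H, P] is solvable. Let q be a prime and z an element of q-power order of C_H(P). Then (O_{q'}(C_H(z)) ∩ O_{q'}(C_H(P))) · [O_{q'}(C_H(z)), P] ≤ O_{q'}(H). -/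
theorem result {G : Type*} [Group G] [Finite G] {p : ℕ} [Fact p.Prime]
    (P : Sylow p G) (hPH : Cfsg.pPrimeCore p G ⊔ (P : Subgroup G) = ⊤)
    (hsol : Group.IsSolvable ↥⁅Cfsg.pPrimeCore p G, (P : Subgroup G)⁆)
    {q : ℕ} [Fact q.Prime] (z : G) (hzH : z ∈ Cfsg.pPrimeCore p G) (hzP : z ∈ Subgroup.centralizer ((P : Subgroup G) : Set G))
    (hz : ∃ k : ℕ, orderOf z = q ^ k) :
    ((Cfsg.pPrimeCore q ↥(Cfsg.pPrimeCore p G ⊓ Subgroup.centralizer ({z} : Set G))).map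
        (Cfsg.pPrimeCore p G ⊓ Subgroup.centralizer ({z} : Set G)).subtype ⊓
      (Cfsg.pPrimeCore q ↥(Cfsg.pPrimeCore p G ⊓ Subgroup.centralizer ((P : Subgroup G) : Set G))).map
        (Cfsg.pPrimeCore p G ⊓ Subgroup.centralizer ((P : Subgroup G) : Set G)).subtype) ⊔
    ⁅(Cfsg.pPrimeCore q ↥(Cfsg.pPrimeCore p G ⊓ Subgroup.centralizer ({z} : Set G))).map
        (Cfsg.pPrimeCore p G ⊓ Subgroup.centralizer ({z} : Set G)).subtype, (P : Subgroup G)⁆ ≤
    (Cfsg.pPrimeCore q ↥(Cfsg.pPrimeCore p G)).map (Cfsg.pPrimeCore p G).subtype := by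
  rw [map_pPrimeCore, map_pPrimeCore, map_pPrimeCore]
  set H := pPrimeCore p G with hH
  have : (piCoreOf {q}ᶜ H).Normal :=
    normalizer_eq_top_iff.1 (top_le_iff.1 (norm_piCoreOf _ (normalizer_eq_top H).ge))
  set f := QuotientGroup.mk' (piCoreOf {q}ᶜ H) with hf
  have hk : f.ker = piCoreOf {q}ᶜ H := QuotientGroup.ker_mk' _
  obtain ⟨k, hz⟩ := hz
  have hZ : IsPGroup q (zpowers z) := IsPGroup.of_card (by rw [Nat.card_zpowers, hz])
  have nH : (P : Subgroup G) ≤ N⟦H⟧ := le_top.trans (normalizer_eq_top H).ge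
  have hc := (coprime_of_isPGroup P.isPGroup' (H1.coprime_card_pPrimeCore p G)).symm
  have hs : SolOr (P : Subgroup G) H := Or.inl (sol_of_pgroup P.isPGroup')
  have e : (H ⊓ C⟦zpowers z⟧).map f = H.map f ⊓ C⟦(zpowers z).map f⟧ := by
    rw [H9.centralizer_map_mk'_of_coprime hZ ((isPi_compl_singleton_iff_coprime Fact.out).1 (isPi_piCoreOf _ H))]
    refine le_antisymm (le_inf (map_mono inf_le_left) (map_mono inf_le_right)) ?_
    rintro _ ⟨h1, c, hc, rfl⟩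
    have h2 : c ∈ (H.map f).comap f := h1
    rw [comap_map_eq, hk, sup_eq_left.2 (piCoreOf_le _ _)] at h2
    exact ⟨c, ⟨h2, hc⟩, rfl⟩
  have := base (q := q) (H := H.map f) (P := (P : Subgroup G).map f) (Z := (zpowers z).map f) (norm_map f nH)
    (Nat.Coprime.coprime_dvd_left (card_map_dvd H f) (hc.coprime_dvd_right (card_map_dvd _ f)))
    (hs.imp (sol_map f) (sol_map f)) (by rw [← map_commutator]; exact sol_map f hsol) (hZ.map f)
    (map_mono (zpowers_le.2 hzH)) (cent_map f (zpowers_le.2 hzP)) (piCoreOf_map_eq_bot_of_ker f hk)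
  rw [← e, ← coprime_map_cent f nH hc hs, cent_zpowers] at this
  rw [← hk, ← Subgroup.map_eq_bot_iff, eq_bot_iff, Subgroup.map_sup, map_commutator]
  refine le_trans (sup_le_sup (le_inf ((map_mono inf_le_left).trans (map_piCoreOf_le f _ _))
    ((map_mono inf_le_right).trans (map_piCoreOf_le f _ _))) (commutator_mono (map_piCoreOf_le f _ _) le_rfl)) this

end Cfsg.Agent.S3819
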