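import Cfsg.Statements.S3821
import Cfsg.Agent.H10.Basic

set_option autoImplicit false
open Cfsg

namespace Cfsg.Agent.S3821

/-- Let A be a normal subgroup of the finite group G and H a subgroup of A. Then H is pronormal in G (H and gHg⁻¹ conjugate inside ⟨H, gHg⁻¹⟩ for every g ∈ G) if and only if H is pronormal in A and G = A · N_G(H). -/
theorem result {G : Type*} [Group G] [Finite G] (A H : Subgroup G) [A.Normal] (hHA : H ≤ A) :
    Cfsg.IsPronormal H ↔ (Cfsg.IsPronormal (H.subgroupOf A) ∧ A ⊔ Subgroup.normalizer (H : Set G) = ⊤) := by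
  have hmap : ∀ a : A, ((H.subgroupOf A).map (MulAut.conj a).toMonoidHom).map A.subtype =
      H.map (MulAut.conj (a : G)).toMonoidHom := by
    intro a
    conv_rhs => rw [← Subgroup.map_subgroupOf_eq_of_le hHA]
    rw [Subgroup.map_map, Subgroup.map_map]
    rfl
  have hle : ∀ g : G, H ⊔ H.map (MulAut.conj g).toMonoidHom ≤ A := fun g =>
    sup_le hHA (H10.conj_le_of_mem hHA (by rw [Subgroup.normalizer_eq_top]; trivial))
  constructor
  · intro h
    constructor
    · intro a
      obtain ⟨x, hx, hxa⟩ := h a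
      refine ⟨⟨x, hle _ hx⟩, ?_, ?_⟩
      · rw [← Subgroup.mem_map_iff_mem A.subtype_injective, Subgroup.map_sup, hmap,
          Subgroup.map_subgroupOf_eq_of_le hHA]
        exact hx
      · apply Subgroup.map_injective A.subtype_injective
        rw [hmap, hmap]; exact hxa
    · rw [eq_top_iff]
      intro g _
      obtain ⟨x, hx, hxg⟩ := h g
      have : g = x * (x⁻¹ * g) := by group
      rw [this]
      refine Subgroup.mul_mem_sup (hle _ hx) ?_
      rw [H10.mem_normalizer_iff_conj_eq, ← H10.conj_conj, hxg, H10.conj_inv_conj]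
  · rintro ⟨h1, h2⟩ g
    have hg : g ∈ A ⊔ Subgroup.normalizer (H : Set G) := h2 ▸ Subgroup.mem_top g
    obtain ⟨a, ha, n, hn, rfl⟩ := (H10.mem_sup_iff_of_right_le_normalizer
      (by rw [Subgroup.normalizer_eq_top A]; exact le_top)).1 hg
    rw [← H10.conj_conj, H10.mem_normalizer_iff_conj_eq.1 hn]
    obtain ⟨x, hx, hxa⟩ := h1 ⟨a, ha⟩
    refine ⟨x, ?_, ?_⟩
    · rw [← Subgroup.mem_map_iff_mem A.subtype_injective, Subgroup.map_sup, hmap,
          Subgroup.map_subgroupOf_eq_of_le hHA] at hx
      exact hx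
    · have := congrArg (Subgroup.map A.subtype) hxa
      rwa [hmap, hmap] at this

end Cfsg.Agent.S3821
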