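import Cfsg.Statements.S3822
import Cfsg.Agent.H1.Flv6

set_option autoImplicit false
open Cfsg

namespace Cfsg.Agent.S3822

/-- Let G be a finite group and P a subgroup of prime order p > 3. Consider the solvable subgroups A of G of the form A = ⟨P, aPa⁻¹⟩ for some a ∈ A, and let A be maximal under inclusion among them. Then for every nilpotent subgroup V of G normalized by A, the subgroup F(A)V generated by the Fitting subgroup of A and V is nilpotent. -/
theorem result {G : Type*} [Group G] [Finite G]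
    {p : ℕ} [Fact p.Prime] (hp : 3 < p) (P : Subgroup G) (hP : Nat.card P = p) (A : Subgroup G)
    (hA : Group.IsSolvable ↥A ∧ ∃ a ∈ A, A = P ⊔ P.map (MulAut.conj a).toMonoidHom)
    (hmax : ∀ B : Subgroup G, A ≤ B → Group.IsSolvable ↥B → (∃ b ∈ B, B = P ⊔ P.map (MulAut.conj b).toMonoidHom) → B = A)
    (V : Subgroup G) (hV : Group.IsNilpotent ↥V) (hAV : A ≤ Subgroup.normalizer (V : Set G)) :
    Group.IsNilpotent ↥((Cfsg.fittingSubgroup ↥A).map A.subtype ⊔ V) := by
  haveI : IsCyclic P := isCyclic_of_prime_card hP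
  obtain ⟨⟨x, hx⟩, hg⟩ := IsCyclic.exists_generator (α := P)
  have hp' : p.Prime := Fact.out
  have e : P = Subgroup.zpowers x := le_antisymm (fun a ha => by
    obtain ⟨n, hn⟩ := hg ⟨a, ha⟩
    exact ⟨n, congrArg Subtype.val hn⟩) (Subgroup.zpowers_le.2 hx)
  have h4 : p ≠ 4 := by rintro rfl; exact absurd hp' (by norm_num)
  have hc : ∀ b : G, P ⊔ P.map (MulAut.conj b).toMonoidHom = Subgroup.closure {x, b * x * b⁻¹} := fun b => by
    rw [H24.map_conj_eq_cj, e, H24.cj_zpowers, Subgroup.zpowers_eq_closure, Subgroup.zpowers_eq_closure,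
      ← Subgroup.closure_union]; rfl
  simp only [hc] at hA hmax
  obtain ⟨hs, a, ha, hA⟩ := hA
  have hxp : x ^ p = 1 := by rw [← hP, e, Nat.card_zpowers, pow_orderOf_eq_one]
  refine H1.Flv.nilp_of_cent hV hAV fun r q hr hq hrq => ?_
  haveI : Fact r.Prime := ⟨hr⟩
  haveI : Fact q.Prime := ⟨hq⟩
  exact H1.Flv.cent_of_max (q := q) hs hp' (by omega) hxp ha hA hmax H10.OpOf_le
    (H10.le_normalizer_OpOf Subgroup.le_normalizer) (H10.coprime_of_isPGroup hrq H10.OpOf_isPGroup) _
    H10.OpOf_isPGroup (H10.le_normalizer_OpOf hAV)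

end Cfsg.Agent.S3822
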