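import Cfsg.Statements.S3825
import Cfsg.Agent.H10.Local2
import Cfsg.Agent.H11.TwoGp
import Mathlib.GroupTheory.FixedPointFree

set_option autoImplicit false
open Cfsg

namespace Cfsg.Agent.S3825

/-- Let U be a subgroup of a finite group H and w an involution of H normalizing U and commuting with exactly two elements of U, the identity and y. If V is a non-cyclic elementary abelian 2-subgroup of U containing y which is normal in U and invariant under w, then V is a Sylow 2-subgroup of U, V has order 4, and U/V is abelian. -/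
theorem result {H : Type*} [Group H] [Finite H] (U : Subgroup H) (w : H) (hw : orderOf w = 2)
    (hwU : w ∈ Subgroup.normalizer (U : Set H)) (y : H) (hy : y ≠ 1) (hyU : y ∈ U)
    (hfix : ∀ u ∈ U, w * u * w⁻¹ = u ↔ (u = 1 ∨ u = y))
    (V : Subgroup H) (hVU : V ≤ U) (hVn : (V.subgroupOf U).Normal) (hVw : ∀ v ∈ V, w * v * w⁻¹ ∈ V)
    (hVe : Cfsg.IsElementaryAbelian 2 V) (hVc : ¬ IsCyclic ↥V) (hyV : y ∈ V) :
    ¬ 2 ∣ V.relIndex U ∧ Nat.card ↥V = 4 ∧ ⁅U, U⁆ ≤ V := by
  open Subgroup Cfsg.Agent.H10 in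
  have hww : w * w = 1 := by rw [← sq, ← hw, pow_orderOf_eq_one]
  have hwi : w⁻¹ = w := inv_eq_of_mul_eq_one_right hww
  have hV2 : ∀ v ∈ V, v * v = 1 := fun v hv => by rw [← sq]; exact hVe.2 v hv
  have hVi : ∀ v ∈ V, v⁻¹ = v := fun v hv => inv_eq_of_mul_eq_one_right (hV2 v hv)
  have hc : ∀ {a b}, a ∈ V → b ∈ V → a * b = b * a := fun ha hb => H11.comm_of_sq_eq_one hV2 ha hb
  have cc : ∀ x : H, w * (w * x * w⁻¹) * w⁻¹ = x := fun x => by
    rw [hwi]; calc w * (w * x * w) * w = (w * w) * x * (w * w) := by group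
      _ = x := by rw [hww]; group
  have hy' : w * y * w⁻¹ = y := (hfix y hyU).2 (Or.inr rfl)
  have k1 : ∀ v ∈ V, v ≠ 1 → v ≠ y → w * v * w⁻¹ = v * y := by
    intro v hv h1 h2
    have h3 := (hfix (v * (w * v * w⁻¹)) (hVU (V.mul_mem hv (hVw v hv)))).1 (by
      calc w * (v * (w * v * w⁻¹)) * w⁻¹ = (w * v * w⁻¹) * (w * (w * v * w⁻¹) * w⁻¹) := by group
        _ = _ := by rw [cc, hc hv (hVw v hv)])
    rcases h3 with h3 | h3
    · have := (hfix v (hVU hv)).1 (by rw [← inv_eq_of_mul_eq_one_right h3, hVi v hv])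
      tauto
    · rw [← h3, ← mul_assoc, hV2 v hv, one_mul]
  obtain ⟨K, hKV, hK⟩ := H11.exists_klein_of_not_isCyclic (isPGroup_of_elementaryAbelian hVe)
    (fun a ha b hb => hc ha hb) hVc
  obtain ⟨u, huK, hu1, huy⟩ := H11.klein_exists_other hK y
  have hu := hKV huK
  have hy2 : orderOf y = 2 := orderOf_eq_of_pow (hVe.2 y hyV) hy
  have h4 : Nat.card V = 4 := by
    have hk := H11.isKleinFour_closure hy2 (orderOf_eq_of_pow (hVe.2 u hu) hu1) huy.symm (hc hyV hu)
    rw [← hk.card_four]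
    refine congrArg (fun A : Subgroup H => Nat.card A) ?_
    refine le_antisymm (fun v hv => ?_) (by rw [closure_le]; rintro c (rfl | rfl) <;> assumption)
    rw [H11.mem_four_iff (hV2 y hyV) (hV2 u hu) (hc hyV hu)]
    by_cases h1 : v = 1
    · exact Or.inl h1
    by_cases h2 : v = y
    · exact Or.inr (Or.inl h2)
    have h3 := (hfix (u * v) (hVU (V.mul_mem hu hv))).1 (by
      calc w * (u * v) * w⁻¹ = (w * u * w⁻¹) * (w * v * w⁻¹) := by group
        _ = u * (y * v) * y := by rw [k1 u hu hu1 huy, k1 v hv h1 h2]; group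
        _ = u * v * (y * y) := by rw [hc hyV hv]; group
        _ = u * v := by rw [hV2 y hyV, mul_one])
    rcases h3 with h3 | h3
    · exact Or.inr (Or.inr (Or.inl (by rw [← inv_eq_of_mul_eq_one_right h3, hVi u hu])))
    · exact Or.inr (Or.inr (Or.inr (by rw [hc hyV hu, ← h3, ← mul_assoc, hV2 u hu, one_mul])))
  let φ : U →* U := (U.normalizerMonoidHom ⟨w, hwU⟩).toMonoidHom
  have hφ : ∀ x : U, (φ x : H) = w * x * w⁻¹ := fun x => rfl
  let ψ : U ⧸ V.subgroupOf U →* U ⧸ V.subgroupOf U :=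
    QuotientGroup.map _ _ φ fun x hx => hVw x hx
  have hψ : ∀ x : U, ψ x = φ x := fun x => rfl
  have hinv : Function.Involutive ψ := by
    intro x
    obtain ⟨x, rfl⟩ := QuotientGroup.mk_surjective x
    rw [hψ, hψ, show φ (φ x) = x from Subtype.ext (cc x)]
  have hfpf : MonoidHom.FixedPointFree ψ := by
    intro x hx
    obtain ⟨x, rfl⟩ := QuotientGroup.mk_surjective x
    rw [hψ, eq_comm, QuotientGroup.eq] at hx
    rw [QuotientGroup.eq_one_iff]
    change (x : H)⁻¹ * (w * x * w⁻¹) ∈ V at hx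
    change (x : H) ∈ V
    obtain ⟨v, hv, hxv⟩ : ∃ v ∈ V, w * x * w⁻¹ = x * v := ⟨_, hx, by group⟩
    have mem : ∀ {z}, z = 1 ∨ z = y → z ∈ V := by rintro z (rfl | rfl); exacts [one_mem _, hyV]
    have h1 : w * v * w⁻¹ = v := by
      have := cc x
      rw [hxv, show w * (x * v) * w⁻¹ = (w * x * w⁻¹) * (w * v * w⁻¹) by group, hxv, mul_assoc,
        mul_eq_left] at this
      rw [← inv_eq_of_mul_eq_one_right this, hVi v hv]
    rcases (hfix v (hVU hv)).1 h1 with rfl | rfl
    · exact mem ((hfix x x.2).1 (by rw [hxv, mul_one]))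
    · have h2 := mem ((hfix (x * u) (U.mul_mem x.2 (hVU hu))).1 (by
        calc w * (x * u) * w⁻¹ = (w * x * w⁻¹) * (w * u * w⁻¹) := by group
          _ = x * (v * u) * v := by rw [hxv, k1 u hu hu1 huy]; group
          _ = x * u * (v * v) := by rw [hc hv hu]; group
          _ = x * u := by rw [hV2 v hv, mul_one]))
      simpa using V.mul_mem h2 (V.inv_mem hu)
  refine ⟨?_, h4, ?_⟩
  · have := hfpf.odd_card_of_involutive hinv
    rw [← Nat.not_even_iff_odd, even_iff_two_dvd] at this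
    exact this
  · rw [commutator_le]
    intro a ha b hb
    have := (hfpf.commute_all_of_involutive hinv (⟨a, ha⟩ : U) (⟨b, hb⟩ : U))
    have h2 : (((⟨a, ha⟩ : U) * ⟨b, hb⟩ * (⟨a, ha⟩ : U)⁻¹ * (⟨b, hb⟩ : U)⁻¹ : U) :
        U ⧸ V.subgroupOf U) = 1 := by
      simp only [QuotientGroup.mk_mul, QuotientGroup.mk_inv]
      rw [this.eq]; group
    exact (QuotientGroup.eq_one_iff (N := V.subgroupOf U) _).1 h2

end Cfsg.Agent.S3825
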