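import Cfsg.Statements.S3836
import Cfsg.Agent.H10.Basic
import Cfsg.Agent.H9.OpMod

set_option autoImplicit false
open Cfsg

namespace Cfsg.Agent.S3836

/-- Let G be a finite group that is p-stable in the normalizer form: for every p-subgroup Q and every x ∈ N_G(Q) with [Q, x, x] = 1, the image of x in N_G(Q)/C_G(Q) lies in O_p(N_G(Q)/C_G(Q)). Then every subgroup of G is p-stable in the same sense. -/
theorem result {G : Type*} [Group G] [Finite G] {p : ℕ} [Fact p.Prime] (hst : Cfsg.IsNormalizerPStable p G) (H : Subgroup G) : Cfsg.IsNormalizerPStable p ↥H := by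
  open Subgroup Cfsg.Agent.H10 in
  intro Q hQ g hg h
  set P := Q.map H.subtype with hP
  have hn : ∀ x ∈ normalizer (Q : Set H), (x : G) ∈ normalizer (P : Set G) := fun x hx =>
    (map_le_normalizer_map (H := normalizer (Q : Set H)) le_rfl H.subtype) ⟨x, hx, rfl⟩
  have h1 := hst P (hQ.map _) g (hn g hg) (by
    have := congrArg (Subgroup.map H.subtype) h
    rwa [map_commutator, map_commutator, MonoidHom.map_zpowers, Subgroup.map_bot] at this)
  let f : normalizer (Q : Set H) →* normalizer (P : Set G) :=
    (H.subtype.comp (normalizer (Q : Set H)).subtype).codRestrict _ fun x => hn x x.2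
  refine H9.mem_opMod.1 (H9.le_opMod_of_forall (D := (H9.opMod p
    ((centralizer (P : Set G)).subgroupOf (normalizer (P : Set G)))).comap f) (fun x hx => ?_) h1)
  obtain ⟨k, hk⟩ := H9.pow_mem_of_mem_opMod hx
  refine ⟨k, fun y hy => Subtype.ext ?_⟩
  exact hk y ⟨y, hy, rfl⟩

end Cfsg.Agent.S3836
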