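import Cfsg.Statements.S3838
import Cfsg.Agent.H3.Tate

set_option autoImplicit false
open Cfsg

namespace Cfsg.Agent.S3838

open Cfsg.Agent.H3

open scoped commutatorElement

/-- Let G be a finite group with Sylow p-subgroup P such that N_G(P) has a normal p-complement. Then N_G(Q) has a normal p-complement for every subgroup Q with [P, P] ≤ Q ≤ Φ(P). -/
theorem result {G : Type*} [Group G] [Finite G] {p : ℕ} [Fact p.Prime] (P : Sylow p G) (hN : Cfsg.HasNormalPComplement p ↥(Subgroup.normalizer ((P : Subgroup G) : Set G))) (Q : Subgroup G) (h1 : (commutator ↥(P : Subgroup G)).map (P : Subgroup G).subtype ≤ Q) (h2 : Q ≤ (frattini ↥(P : Subgroup G)).map (P : Subgroup G).subtype) : Cfsg.HasNormalPComplement p ↥(Subgroup.normalizer (Q : Set G)) := by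
  have h3 : Q ≤ P := h2.trans (Subgroup.map_subtype_le _)
  rw [Subgroup.map_subtype_commutator] at h1
  have h4 : (P : Subgroup G) ≤ Subgroup.normalizer (Q : Set G) :=
    H1.le_normalizer_of_commutator_le h1 h3
  set N := Subgroup.normalizer (Q : Set G)
  have hS := sylowIn_of_le P h4
  refine hasNormalPComplement_of_pResidual_le le_rfl
    (hasNormalPComplement_of_inf_le_frattini hS.toSylow _ fun x hx => ?_)
  let π := QuotientGroup.mk' (Q.subgroupOf N)
  have hπ := QuotientGroup.mk'_surjective (Q.subgroupOf N)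
  have h5 : HasNormalPComplement p (N ⧸ Q.subgroupOf N) := by
    refine hasNormalPComplement_of_normalizer_le_centralizer (hS.toSylow.mapSurjective hπ)
      fun y hy => ?_
    obtain ⟨y, rfl⟩ := hπ y
    have h6 : (y : G) ∈ Subgroup.normalizer (P : Set G) := mem_normalizer_of_conj_mem fun s hs => by
      obtain ⟨t, ht, he⟩ := (Subgroup.mem_normalizer_iff.mp hy (π ⟨s, h4 hs⟩)).mp ⟨_, hs, rfl⟩
      rw [← map_inv, ← map_mul, ← map_mul] at he
      have h7 := h3 ((QuotientGroup.eq (s := Q.subgroupOf N)).mp he)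
      simpa using Subgroup.mul_mem (P : Subgroup G) ht h7
    obtain ⟨c, hc, s, hs, he⟩ := (sylowIn_of_le P Subgroup.le_normalizer).exists_eq_mul
      (fun g hg hc => mem_centralizer_of_normalizer_hasNormalPComplement P.2 hN hg hc) h6
    rintro _ ⟨t, ht, rfl⟩
    rw [← commutatorElement_eq_one_iff_mul_comm, ← map_commutatorElement]
    refine (QuotientGroup.eq_one_iff (N := Q.subgroupOf N) _).mpr (h1 ?_)
    have ht' : (t : G) ∈ (P : Subgroup G) := ht
    have h7 := hc _ (mul_mem (mul_mem hs (inv_mem ht')) (inv_mem hs))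
    have h8 : ((⁅t, y⁆ : N) : G) = ⁅(t : G), s⁆ := by
      change ⁅(t : G), (y : G)⁆ = _
      rw [he, commutatorElement_def, commutatorElement_def]
      calc _ = t * (c * (s * (t : G)⁻¹ * s⁻¹)) * c⁻¹ := by group
        _ = _ := by rw [← h7]; group
    change ((⁅t, y⁆ : N) : G) ∈ _
    rw [h8]
    exact Subgroup.commutator_mem_commutator ht hs
  have h6 : π x ∈ (⊥ : Subgroup _) := by
    rw [← (hasNormalPComplement_iff_inf_eq_bot (hS.toSylow.mapSurjective hπ)).mp h5]
    exact ⟨⟨x, hx.2, rfl⟩, pResidual_map_le π ⟨x, hx.1, rfl⟩⟩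
  have h7 : (frattini P).map (P : Subgroup G).subtype ≤
      ((frattini hS.toSylow).map (hS.toSylow : Subgroup N).subtype).map N.subtype := by
    refine frattiniOf_le (p := p) (Subgroup.commutator_le.mpr fun a ha b hb => ?_) fun a ha => ?_
    · exact ⟨_, commutator_le_frattiniOf hS.toSylow.2 (Subgroup.commutator_mem_commutator
        (g₁ := ⟨a, h4 ha⟩) (g₂ := ⟨b, h4 hb⟩) ha hb), rfl⟩
    · exact ⟨_, pow_mem_frattiniOf hS.toSylow.2 (x := ⟨a, h4 ha⟩) ha, rfl⟩
  obtain ⟨y, hy, he⟩ := h7 (h2 ((QuotientGroup.eq_one_iff (N := Q.subgroupOf N) _).mp h6))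
  rwa [← Subtype.ext he]

end Cfsg.Agent.S3838
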