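import Cfsg.Statements.S3857
import Cfsg.Agent.H25.PG

set_option autoImplicit false
open Cfsg

namespace Cfsg.Agent.S3857

open Subgroup Cfsg.Agent.H20 Cfsg.Agent.H21 Cfsg.Agent.H25 Cfsg.Agent.BG

/-- A finite solvable group whose prime graph (prime divisors of the order, two distinct primes joined when there is an element of order their product) is disconnected is a Frobenius group or a 2-Frobenius group (it has normal subgroups H < K with K a Frobenius group with kernel H and G/H a Frobenius group with kernel K/H). -/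
theorem result {G : Type*} [Group G] [Finite G] (hsol : Group.IsSolvable G)
    (hdisc : (∃ A : Set ℕ, (∃ a ∈ A, a.Prime ∧ a ∣ Nat.card G) ∧ (∃ b ∉ A, b.Prime ∧ b ∣ Nat.card G) ∧
      ∀ a ∈ A, ∀ b ∉ A, a.Prime → b.Prime → a ∣ Nat.card G → b ∣ Nat.card G → ¬ ∃ g : G, orderOf g = a * b)) :
    (∃ C : Subgroup G, Cfsg.IsFrobeniusComplement C) ∨
    (∃ (H K : Subgroup G) (_ : H.Normal), K.Normal ∧ H < K ∧
      (∃ C : Subgroup ↥K, Cfsg.IsFrobeniusComplement C ∧ Cfsg.frobeniusKernel C = (H.subgroupOf K : Set ↥K)) ∧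
      (∃ C : Subgroup (G ⧸ H), Cfsg.IsFrobeniusComplement C ∧ Cfsg.frobeniusKernel C = (K.map (QuotientGroup.mk' H) : Set (G ⧸ H)))) := by
  obtain ⟨A, ⟨a, haA, ha, had⟩, ⟨b, hbA, hb, hbd⟩, h⟩ := hdisc
  have hE : NoEdge A G := fun x y h1 h2 h3 h4 hc => h _ h3 _ h4 h1 h2 (orderOf_dvd_natCard x)
    (orderOf_dvd_natCard y) ⟨x * y, orderOf_mul_primes h1 h2 (fun e => h4 (e ▸ h3)) rfl rfl hc⟩
  have hnt : (⊤ : Subgroup G) ≠ ⊥ := by
    intro e
    rw [← card_top', e, card_bot] at had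
    exact ha.one_lt.ne' (Nat.dvd_one.mp had)
  obtain ⟨π, hπ, h0, h1⟩ : ∃ π, NoEdge π G ∧ piCoreOf π (⊤ : Subgroup G) ≠ ⊥ ∧ piCoreOf π (⊤ : Subgroup G) ≠ ⊤ := by
    rcases piCoreOf_ne_bot_or A (sol_top_iff.mpr hsol) hnt with h1 | h1
    · exact ⟨A, hE, h1, fun e => hbA (isPi_piCoreOf A (⊤ : Subgroup G) b hb (by rwa [e, card_top']))⟩
    · exact ⟨Aᶜ, hE.compl, h1, fun e => (isPi_piCoreOf Aᶜ (⊤ : Subgroup G) a ha (by rwa [e, card_top'])) haA⟩
  haveI hn := (piCoreOf_normalIn π (⊤ : Subgroup G)).normal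
  obtain ⟨K, R, hK, hR, -, h2 | ⟨C, hC⟩⟩ := hπ.structure hsol rfl h0 h1
  · subst h2
    exact Or.inl ⟨R, (isFrobeniusComplement_of_frob hR).1⟩
  · refine Or.inr ⟨_, K, hn, hK.normal, lt_of_le_of_ne hR.ker_le fun e => hR.compl_ne ?_,
      ⟨_, isFrobeniusComplement_of_frob (frob_subgroupOf hR)⟩, ⟨C, ?_⟩⟩
    · rw [← hR.inf_eq, eq_comm, inf_eq_right, e]; exact hR.compl_le
    · have := isFrobeniusComplement_of_frob hC
      exact ⟨this.1, by rw [this.2, coe_map]⟩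

end Cfsg.Agent.S3857
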