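import Cfsg.Statements.S3858
import Cfsg.Agent.H1.SylowIn
import Cfsg.Agent.H2.Basic
import Cfsg.Agent.H26.ClassSize
import Cfsg.Agent.H1.Coprime

set_option autoImplicit false
open Cfsg

namespace Cfsg.Agent.S3858

open Subgroup
open scoped Pointwise

theorem ne_top {G : Type*} [Group G] [Finite G] (T : Subgroup G) [T.Normal] (hT : IsSimpleGroup T)
    (hna : ¬ IsMulCommutative T) {r : ℕ} [Fact r.Prime] (R : Sylow r G)
    (hR0 : (R : Subgroup G) ⊓ T ≠ ⊥) :
    normalizer (((R : Subgroup G) ⊓ T : Subgroup G) : Set G) ≠ ⊤ := by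
  intro h
  have hn : ((R : Subgroup G) ⊓ T).Normal := normalizer_eq_top_iff.1 h
  rcases (hn.subgroupOf T).eq_bot_or_eq_top with h1 | h1
  · rw [subgroupOf_eq_bot, disjoint_iff, inf_assoc, inf_idem] at h1
    exact hR0 h1
  · rw [subgroupOf_eq_top] at h1
    have hp : IsPGroup r T := R.isPGroup'.to_le (h1.trans inf_le_left)
    have := H1.isSolvable_of_isPGroup hp
    exact hna ⟨⟨IsSimpleGroup.comm_iff_isSolvable.2 this⟩⟩

/-- Let G be a finite group with a normal non-abelian simple subgroup T whose centralizer is trivial (G almost simple with socle T), r a prime and R a Sylow r-subgroup of G meeting T nontrivially. Then R lies in exactly one maximal subgroup of G if and only if G has exactly one conjugacy class of maximal subgroups whose index is prime to r. -/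
theorem result {G : Type*} [Group G] [Finite G] (T : Subgroup G) [T.Normal] (hT : IsSimpleGroup T) (hna : ¬ IsMulCommutative T)
    (hC : Subgroup.centralizer (T : Set G) = ⊥) {r : ℕ} [Fact r.Prime] (R : Sylow r G) (hR0 : (R : Subgroup G) ⊓ T ≠ ⊥) :
    (∃! M : Subgroup G, IsCoatom M ∧ (R : Subgroup G) ≤ M) ↔
      ((∃ M : Subgroup G, IsCoatom M ∧ ¬ r ∣ M.index) ∧
        ∀ M₁ M₂ : Subgroup G, IsCoatom M₁ → ¬ r ∣ M₁.index → IsCoatom M₂ → ¬ r ∣ M₂.index → ∃ g : G, M₂ = M₁.map (MulAut.conj g).toMonoidHom) := by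
  have hconj : ∀ (M : Subgroup G), IsCoatom M → ¬ r ∣ M.index →
      ∃ g : G, IsCoatom (M.map (MulAut.conj g).toMonoidHom) ∧
        (R : Subgroup G) ≤ M.map (MulAut.conj g).toMonoidHom := by
    intro M hM hr
    obtain ⟨Q, hQ⟩ := H26.exists_sylow_le_of_not_dvd_index hr
    obtain ⟨g, rfl⟩ := MulAction.exists_smul_eq G Q R
    exact ⟨g, (OrderIso.isCoatom_iff (MulAut.conj g).mapSubgroup M).2 hM, map_mono hQ⟩
  constructor
  · rintro ⟨M, ⟨hM, hRM⟩, hu⟩
    refine ⟨⟨M, hM, H26.not_dvd_index_of_sylow_le R hRM⟩, fun M₁ M₂ a1 a2 b1 b2 => ?_⟩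
    obtain ⟨g, hg⟩ := hconj M₁ a1 a2
    obtain ⟨k, hk⟩ := hconj M₂ b1 b2
    refine ⟨k⁻¹ * g, ?_⟩
    rw [← H10.conj_conj, hu _ hg, ← hu _ hk, H10.conj_inv_conj]
  · rintro ⟨-, h⟩
    obtain ⟨M, hM, hle⟩ := H2.exists_isCoatom_ge (ne_top T hT hna R hR0)
    have hN : normalizer ((R : Subgroup G) : Set G) ≤ M :=
      (H1.le_normalizer_inf le_rfl (by rw [normalizer_eq_top T]; exact le_top)).trans hle
    have hRM : (R : Subgroup G) ≤ M := le_normalizer.trans hN
    refine ⟨M, ⟨hM, hRM⟩, fun L hL => ?_⟩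
    obtain ⟨g, rfl⟩ := h M L hM (H26.not_dvd_index_of_sylow_le R hRM) hL.1
      (H26.not_dvd_index_of_sylow_le R hL.2)
    have h1 : ((g⁻¹ • R : Sylow r G) : Subgroup G) ≤ M := by
      rw [← H10.conj_inv_conj M g]; exact map_mono hL.2
    obtain ⟨m, hm, hmR⟩ := (H1.isSylowIn_of_le R hRM).exists_conj_eq (H1.isSylowIn_of_le _ h1)
    have h2 : g * m ∈ normalizer ((R : Subgroup G) : Set G) := by
      rw [← H1.conj_smul_eq_iff_mem_normalizer, map_mul, mul_smul, hmR, Sylow.coe_subgroup_smul,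
        map_inv, smul_inv_smul]
    have h3 : g ∈ M := by simpa using mul_mem (hN h2) (inv_mem hm)
    exact H10.mem_normalizer_iff_conj_eq.1 (le_normalizer h3)

end Cfsg.Agent.S3858
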