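import Cfsg.Statements.S3859
import Cfsg.Agent.S3858
import Cfsg.Agent.H3.PNil

set_option autoImplicit false
open Cfsg

namespace Cfsg.Agent.S3859

open Subgroup

/-- Let G be a finite group with a normal non-abelian simple subgroup T whose centralizer is trivial (G almost simple with socle T), r a prime and R a Sylow r-subgroup of G meeting T nontrivially. If R lies in exactly one maximal subgroup of G, then G/T is an r-group. -/
theorem result {G : Type*} [Group G] [Finite G] (T : Subgroup G) [T.Normal] (hT : IsSimpleGroup T) (hna : ¬ IsMulCommutative T)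
    (hC : Subgroup.centralizer (T : Set G) = ⊥) {r : ℕ} [Fact r.Prime] (R : Sylow r G) (hR0 : (R : Subgroup G) ⊓ T ≠ ⊥)
    (huniq : ∃! M : Subgroup G, IsCoatom M ∧ (R : Subgroup G) ≤ M) : IsPGroup r (G ⧸ T) := by
  obtain ⟨M, -, hu⟩ := huniq
  refine H3.isPGroup_quotient_of_sup_eq_top R.isPGroup' ?_
  by_contra hne
  obtain ⟨M₁, hM₁, h1⟩ := H2.exists_isCoatom_ge hne
  obtain ⟨M₂, hM₂, h2⟩ := H2.exists_isCoatom_ge (Cfsg.Agent.S3858.ne_top T hT hna R hR0)
  have hall : ∀ A : Subgroup G, A ≤ normalizer (T : Set G) := fun A => by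
    rw [normalizer_eq_top T]; exact le_top
  have e1 := hu M₁ ⟨hM₁, le_sup_right.trans h1⟩
  have e2 := hu M₂ ⟨hM₂, (H1.le_normalizer_inf le_normalizer (hall _)).trans h2⟩
  have h3 := ((H1.isSylowIn_top R).inf le_top (hall _)).sup_normalizer_inf le_top (hall ⊤)
  apply hM₁.1
  rw [eq_top_iff, ← h3]
  exact sup_le (le_sup_left.trans h1) (inf_le_left.trans (h2.trans (e2.trans e1.symm).le))

end Cfsg.Agent.S3859
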