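import Cfsg.Statements.S3861
import Cfsg.Agent.H25.Real

set_option autoImplicit false
open Cfsg

namespace Cfsg.Agent.S3861

/-- A finite group G has no non-identity element of odd order that is conjugate to its inverse if and only if the Sylow 2-subgroups of G are normal. -/
theorem result {G : Type*} [Group G] [Finite G] (P : Sylow 2 G) : (∀ x : G, x ≠ 1 → Odd (orderOf x) → ¬ IsConj x x⁻¹) ↔ (P : Subgroup G).Normal := by
  refine ⟨H25.sylow_two_normal_of_no_real P, fun hP x hx hodd hr => ?_⟩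
  obtain ⟨t, ⟨j, hj⟩, ht⟩ := H25.exists_two_elt_inverting hr
  have htN : t ∈ (P : Subgroup G) := H25.mem_of_pow_eq_one_of_not_dvd_index Nat.prime_two hj
      (by rw [Subgroup.normalizer_eq_top]; trivial) P.not_dvd_index
  have h2 : x * x ∈ (P : Subgroup G) := by
    have : x * x = (x * t * x⁻¹) * t⁻¹ := by
      calc x * x = x * (t * x * t⁻¹)⁻¹ := by rw [ht, inv_inv]
        _ = _ := by group
    rw [this]
    exact Subgroup.mul_mem _ (hP.conj_mem t htN x) (Subgroup.inv_mem _ htN)
  obtain ⟨k, hk⟩ := P.isPGroup' ⟨_, h2⟩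
  have h3 : x ^ 2 ^ (k + 1) = 1 := by
    rw [pow_succ', pow_mul, pow_two]; exact congrArg Subtype.val hk
  exact hx (orderOf_eq_one_iff.1 (Nat.eq_one_of_dvd_coprimes
        (Nat.Coprime.pow_right (k + 1) (Nat.coprime_two_right.2 hodd)) dvd_rfl
        (orderOf_dvd_of_pow_eq_one h3)))

end Cfsg.Agent.S3861
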