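import Cfsg.Statements.S3862
import Cfsg.Agent.H3.Action

set_option autoImplicit false
open Cfsg

namespace Cfsg.Agent.S3862

open Cfsg.Agent.H3

open scoped commutatorElement

/-- If every 2-element of the finite group G that is conjugate to its inverse lies in the centre of G, then G has a normal 2-complement. -/
theorem result {G : Type*} [Group G] [Finite G] (h : ∀ x : G, (∃ j : ℕ, orderOf x = 2 ^ j) → IsConj x x⁻¹ → x ∈ Subgroup.center G) : Cfsg.HasNormalPComplement 2 G := by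
  obtain ⟨P⟩ : Nonempty (Sylow 2 G) := inferInstance
  by_contra hne
  obtain ⟨B, A, q, hB, -, -, -, -, -, hm⟩ := exists_minAct_of_not P hne
  refine hm.not_le (H1.le_centralizer_of_commutator_le
    (N := B ⊓ Subgroup.centralizer (A : Set G)) (hm.coprime_card.coprime_dvd_right
      (Subgroup.card_dvd_of_le inf_le_left)) (Subgroup.commutator_le.mpr fun b hb a ha => ?_)
    (Subgroup.le_centralizer_iff.mp inf_le_right))
  have h1 : a * b * a⁻¹ ∈ B := H1.conj_mem_of_le_normalizer hm.le_normalizer ha hb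
  set y := a * b * a⁻¹ with hy
  have h2 : y ^ 2 = b ^ 2 := by
    rw [hy, conj_pow, (hm.pow_mem hb).2 a ha, mul_inv_cancel_right]
  have h3 : b ^ 4 = 1 := hm.pow_eq_one (by decide) (by decide) hb
  have h4 : b * y ∈ Subgroup.center G := by
    refine h _ ?_ (isConj_iff.mpr ⟨y, ?_⟩)
    · obtain ⟨k, hk⟩ := hm.isPGroup ⟨_, mul_mem hb h1⟩
      obtain ⟨j, -, hj⟩ := (Nat.dvd_prime_pow Nat.prime_two).mp
        (orderOf_dvd_of_pow_eq_one (congrArg Subtype.val hk))
      exact ⟨j, hj⟩
    · have h5 : y * b ^ 2 = b ^ 2 * y := (hm.pow_mem hb).1 y h1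
      rw [eq_inv_iff_mul_eq_one]
      calc y * (b * y) * y⁻¹ * (b * y) = (y * b ^ 2) * y := by rw [sq]; group
        _ = b ^ 2 * y ^ 2 := by rw [h5, sq y, mul_assoc]
        _ = 1 := by rw [h2, ← pow_add, h3]
  have h6 : ⁅b, a⁆ = (b * y) * (y ^ 2)⁻¹ := by rw [hy, commutatorElement_def, sq]; group
  rw [h6]
  refine mul_mem ⟨mul_mem hb h1, Subgroup.center_le_centralizer _ h4⟩ (inv_mem ?_)
  exact ⟨pow_mem h1 2, (hm.pow_mem h1).2⟩

end Cfsg.Agent.S3862
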