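import Cfsg.Statements.S3864
import Cfsg.Agent.H26.DihFrob
import Cfsg.Agent.H11.Fus

set_option autoImplicit false
open Cfsg

namespace Cfsg.Agent.S3864

open Cfsg.Agent.H11

theorem card_congr' {G : Type*} [Group G] :
    Nat.card {C : ConjClasses G // ∃ g : G, ConjClasses.mk g = C ∧ orderOf g = 2} =
      Nat.card {C : ConjClasses G // ∃ t : G, orderOf t = 2 ∧ ConjClasses.mk t = C} := by
  simp only [and_comm]

theorem mid {G : Type*} [Group G] [Finite G] {P : Sylow 2 G} {n : ℕ} {X Y : ZMod (2 ^ n) → G}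
    (h : MC (P : Subgroup G) n 0 0 X Y) {a b : ZMod (2 ^ n)} (h1 : IsConj (X (hh n)) (Y a))
    (h2 : ¬ IsConj (X (hh n)) (Y b)) :
    (∃ N : Subgroup G, N.Normal ∧ N.index = 2) ∧ ∀ N : Subgroup G, N.Normal → N.index ≠ 4 := by
  constructor
  · by_contra hc
    push Not at hc
    exact h2 (h.dih_isConj_of_no_index_two (fun H hH => hc H (Subgroup.normal_of_index_eq_two hH) hH) (h.dih_oY b))
  · intro N hN h4
    have hq : Nat.card (G ⧸ N) = 2 ^ 2 := h4
    have hc : commutator G ≤ N := Subgroup.Normal.quotient_commutative_iff_commutator_le.1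
      (IsPGroup.isMulCommutative_of_card_eq_prime_sq hq)
    have hX : Subgroup.zpowers (X 2) ≤ N := by
      rw [← h.commutator_eq]; exact (Subgroup.commutator_mono le_top le_top).trans hc
    have hz : X (hh n) ∈ N := hX (h.mem_zpowers_X.2 ⟨qq n, by rw [h.qq2]⟩)
    obtain ⟨c, hc'⟩ := isConj_iff.1 h1
    have hY : Y a ∈ N := hc' ▸ hN.conj_mem _ hz c
    have hM : Subgroup.closure ({X 2, Y a} : Set G) ≤ N := by
      rw [Subgroup.closure_le]
      rintro _ (rfl | rfl)
      exacts [hX (Subgroup.mem_zpowers _), hY]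
    have h5 := Subgroup.relIndex_dvd_of_le_left (P : Subgroup G) hM
    rw [h.relIndex_M, ← Subgroup.relIndex_sup_left,
      H3.sup_sylow_eq_top_of_isPGroup_quotient (IsPGroup.of_card hq) P, Subgroup.relIndex_top_right, h4] at h5
    exact absurd h5 (by norm_num)

/-- Let G be a finite group whose Sylow 2-subgroups are dihedral of order 2 ^ n with n ≥ 3, and count the conjugacy classes of involutions of G. Then exactly one of the following holds: there is one class of involutions and no normal subgroup of index 2; there are two classes of involutions, a normal subgroup of index 2 and none of index 4; there are three classes of involutions and G has a normal 2-complement. -/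
theorem result {G : Type*} [Group G] [Finite G] (P : Sylow 2 G) (n : ℕ) (hn : 3 ≤ n) (hdih : Nonempty (↥(P : Subgroup G) ≃* DihedralGroup (2 ^ (n - 1)))) : (Nat.card {C : ConjClasses G // ∃ g : G, ConjClasses.mk g = C ∧ orderOf g = 2} = 1 ∧ ∀ N : Subgroup G, N.Normal → N.index ≠ 2) ∨ (Nat.card {C : ConjClasses G // ∃ g : G, ConjClasses.mk g = C ∧ orderOf g = 2} = 2 ∧ (∃ N : Subgroup G, N.Normal ∧ N.index = 2) ∧ ∀ N : Subgroup G, N.Normal → N.index ≠ 4) ∨ (Nat.card {C : ConjClasses G // ∃ g : G, ConjClasses.mk g = C ∧ orderOf g = 2} = 3 ∧ Cfsg.HasNormalPComplement 2 G) := by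
  obtain ⟨φ⟩ := hdih
  obtain ⟨X, Y, h⟩ := exists_MC_of_dihedral (by omega) φ
  rw [card_congr']
  by_cases h0 : IsConj (X (hh (n - 1))) (Y 0) <;> by_cases h1 : IsConj (X (hh (n - 1))) (Y 1)
  · left
    refine ⟨card_classes_one _ h.orderOf_z fun t ht => ?_, fun N hN h2 => ?_⟩
    · rcases h.dih_invol_G ht with h3 | h3 | h3
      exacts [h3, h0.trans h3, h1.trans h3]
    · apply not_sylow_le_of_index_two P h2
      have hz : X (hh (n - 1)) ∈ N := by
        rw [← h.qq2, two_mul, ← h.XX]; exact Subgroup.mul_self_mem_of_index_two h2 _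
      obtain ⟨c, hc⟩ := isConj_iff.1 h0
      obtain ⟨d, hd⟩ := isConj_iff.1 h1
      have hY0 : Y 0 ∈ N := hc ▸ hN.conj_mem _ hz c
      have hY1 : Y 1 ∈ N := hd ▸ hN.conj_mem _ hz d
      refine h.le_of_X_one_Y ?_ hY0
      have := N.mul_mem hY0 hY1
      rw [h.YY] at this
      simpa using this
  · right; left
    refine ⟨card_classes_two _ h.orderOf_z (h.dih_oY 1) h1 fun t ht => ?_, mid h h0 h1⟩
    rcases h.dih_invol_G ht with h3 | h3 | h3
    exacts [Or.inl h3, Or.inl (h0.trans h3), Or.inr h3]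
  · right; left
    refine ⟨card_classes_two _ h.orderOf_z (h.dih_oY 0) h0 fun t ht => ?_, mid h h1 h0⟩
    rcases h.dih_invol_G ht with h3 | h3 | h3
    exacts [Or.inl h3, Or.inr h3, Or.inl (h1.trans h3)]
  · right; right
    have hn : HasNormalPComplement 2 G := h.dih_hasNormalPComplement fun a ha => by
      obtain ⟨c, rfl | rfl⟩ := zparity a
      · have := h.isConj_Y 0 c
        rw [zero_add] at this
        exact h0 (ha.trans this.symm)
      · have := h.isConj_Y 1 c
        rw [add_comm] at this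
        exact h1 (ha.trans this.symm)
    refine ⟨card_classes_three _ h.orderOf_z (h.dih_oY 0) (h.dih_oY 1) h0 h1 (fun hc => ?_)
      fun t ht => h.dih_invol_G ht, hn⟩
    obtain ⟨c, hc⟩ := isConj_iff.1 hc
    obtain ⟨y, hy, hy'⟩ := (H3.hasNormalPComplement_iff_fusion P).1 hn (Y 0) (h.Y_mem 0) c (hc ▸ h.Y_mem 1)
    obtain ⟨d, hd⟩ := h.conj_Y 0 hy
    rw [hy', hc, h.Y_inj] at hd
    exact zodd_ne h.one_le d 0 (by linear_combination -hd)

end Cfsg.Agent.S3864
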