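import Cfsg.Statements.S3866
import Cfsg.Agent.H1.Basic
import Cfsg.Agent.H2.Basic
import Cfsg.Agent.H26.ClassSize

set_option autoImplicit false
open Cfsg

namespace Cfsg.Agent.S3866

open Subgroup
open scoped commutatorElement

/-- Let A be a commutative normal subgroup of the finite group G with G generated by A and an element x. Then a ↦ x a x⁻¹ a⁻¹ is a surjective homomorphism from A onto the commutator subgroup of G whose kernel is the centralizer of x in A; in particular the commutator subgroup has order equal to the index in A of that centralizer. -/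
theorem result {G : Type*} [Group G] [Finite G] (A : Subgroup G) [A.Normal] (hA : IsMulCommutative A) (x : G) (hgen : A ⊔ Subgroup.zpowers x = ⊤) : (∀ a ∈ A, x * a * x⁻¹ * a⁻¹ ∈ commutator G) ∧ (∀ c ∈ commutator G, ∃ a ∈ A, x * a * x⁻¹ * a⁻¹ = c) ∧ (∀ a ∈ A, ∀ b ∈ A, x * (a * b) * x⁻¹ * (a * b)⁻¹ = (x * a * x⁻¹ * a⁻¹) * (x * b * x⁻¹ * b⁻¹)) ∧ Nat.card (commutator G) * Nat.card ↥(A ⊓ Subgroup.centralizer ({x} : Set G)) = Nat.card A := by
  have hAn : A.Normal := inferInstance
  have hc : ∀ a ∈ A, ∀ b ∈ A, a * b = b * a := fun a ha b hb => H2.mul_comm_of_mem ha hb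
  have h3 : ∀ a ∈ A, ∀ b ∈ A, x * (a * b) * x⁻¹ * (a * b)⁻¹ =
      (x * a * x⁻¹ * a⁻¹) * (x * b * x⁻¹ * b⁻¹) := by
    intro a ha b hb
    have := hc _ (inv_mem ha) _ (mul_mem (hAn.conj_mem b hb x) (inv_mem hb))
    calc x * (a * b) * x⁻¹ * (a * b)⁻¹ = x * a * x⁻¹ * ((x * b * x⁻¹ * b⁻¹) * a⁻¹) := by group
      _ = _ := by rw [← this]; group
  let f : A →* G := MonoidHom.mk' (fun a => x * a * x⁻¹ * (a : G)⁻¹) fun a b => h3 a a.2 b b.2
  have hf : ∀ a : A, f a = x * a * x⁻¹ * (a : G)⁻¹ := fun a => rfl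
  have hfA : f.range ≤ A := by
    rintro _ ⟨a, rfl⟩
    exact mul_mem (hAn.conj_mem a a.2 x) (inv_mem a.2)
  have hn : f.range.Normal := by
    refine H2.normal_of_sup_eq_top (H2.le_normalizer_of_le_of_isMulCommutative hfA) ?_ hgen
    rw [zpowers_le]
    apply H10.mem_normalizer_of_conj_le
    rintro _ ⟨a, rfl⟩
    exact ⟨⟨x * a * x⁻¹, hAn.conj_mem a a.2 x⟩, by simp only [hf]; group⟩
  have hr : f.range = commutator G := by
    apply le_antisymm
    · rintro _ ⟨a, rfl⟩
      exact commutator_mem_commutator (mem_top x) (mem_top (a : G))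
    · rw [_root_.commutator_def, H10.commutator_le_iff_map_mk', ← hgen, Subgroup.map_sup]
      have h1 : ⁅(zpowers x).map (QuotientGroup.mk' f.range), A.map (QuotientGroup.mk' f.range)⁆ = ⊥ := by
        rw [commutator_eq_bot_iff_le_centralizer, MonoidHom.map_zpowers, zpowers_le,
          mem_centralizer_iff]
        rintro _ ⟨a, ha, rfl⟩
        have : ((x * a * x⁻¹ * a⁻¹ : G) : G ⧸ f.range) = 1 :=
          (QuotientGroup.eq_one_iff _).2 ⟨⟨a, ha⟩, rfl⟩
        exact (commutatorElement_eq_one_iff_mul_comm.1 this).symm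
      have h2 : ∀ B : Subgroup G, IsMulCommutative B →
          ⁅B.map (QuotientGroup.mk' f.range), B.map (QuotientGroup.mk' f.range)⁆ = ⊥ := by
        intro B hB
        rw [← map_commutator, commutator_eq_bot_iff_le_centralizer.2 (le_centralizer B), Subgroup.map_bot]
      apply H10.commutator_sup_left_eq_bot <;> apply H10.commutator_eq_bot_comm <;>
        apply H10.commutator_sup_left_eq_bot
      · exact h2 A hA
      · exact h1
      · exact H10.commutator_eq_bot_comm h1
      · exact h2 _ inferInstance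
  refine ⟨fun a ha => hr ▸ ⟨⟨a, ha⟩, rfl⟩, fun c hc => ?_, h3, ?_⟩
  · obtain ⟨a, ha⟩ := hr ▸ hc
    exact ⟨a, a.2, ha⟩
  · have hk : f.ker = (centralizer ({x} : Set G)).subgroupOf A := by
      ext a
      rw [MonoidHom.mem_ker, mem_subgroupOf, H26.mem_cent, hf]
      exact commutatorElement_eq_one_iff_mul_comm.trans eq_comm
    rw [← hr, inf_comm, ← H1.card_subgroupOf_eq_inf, ← hk, ← index_ker, index_mul_card]

end Cfsg.Agent.S3866
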