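import Cfsg.Statements.S3867
import Cfsg.Agent.H1.SylowIn
import Cfsg.Agent.H26.SylNum
import Cfsg.Agent.H1.Cores
import Cfsg.Agent.H2.Product

set_option autoImplicit false
open Cfsg

namespace Cfsg.Agent.S3867

open Subgroup

theorem card_eq {G : Type*} [Group G] [Finite G] (p : ℕ) [Fact p.Prime] (K : Subgroup G) [K.Normal]
    (P : Sylow p G) : Nat.card (Sylow p (G ⧸ K)) =
      (normalizer (((P : Subgroup G) ⊔ K : Subgroup G) : Set G)).index := by
  have hsurj := QuotientGroup.mk'_surjective K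
  have h1 := comap_normalizer_eq_of_surjective ((P : Subgroup G).map (QuotientGroup.mk' K)) hsurj
  rw [comap_map_eq, QuotientGroup.ker_mk'] at h1
  rw [(P.mapSurjective hsurj).card_eq_index_normalizer, ← h1, index_comap_of_surjective _ hsurj]
  rfl

theorem normalizer_eq {G : Type*} [Group G] [Finite G] (p : ℕ) [Fact p.Prime] (K : Subgroup G)
    [K.Normal] (P : Sylow p G) : normalizer (((P : Subgroup G) ⊔ K : Subgroup G) : Set G) =
      normalizer ((P : Subgroup G) : Set G) ⊔ K := by
  have hall : ∀ A : Subgroup G, A ≤ normalizer (K : Set G) := fun A => by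
    rw [normalizer_eq_top K]; exact le_top
  apply le_antisymm
  · intro g hg
    obtain ⟨k, hk, h⟩ := (H1.isSylowIn_of_le P (le_sup_left (b := K))).exists_mul_normalizer hg
    have : g = k * (k⁻¹ * g) := by group
    rw [this]
    exact mul_mem ((sup_le_sup_right le_normalizer K) hk) (mem_sup_left h)
  · exact sup_le (H1.le_normalizer_sup le_rfl (hall _)) (le_sup_right.trans le_normalizer)

/-- Let M and N be nontrivial normal subgroups of the finite group G with M ⊓ N trivial, and let p be a prime. Writing n(X) for the number of Sylow p-subgroups of a group X, one has n(G) · n(G/MN) = n(G/M) · n(G/N). -/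
theorem result {G : Type*} [Group G] [Finite G] (p : ℕ) [Fact p.Prime] (M N : Subgroup G) [M.Normal] [N.Normal] (hM : M ≠ ⊥) (hN : N ≠ ⊥) (hMN : M ⊓ N = ⊥) : Nat.card (Sylow p G) * Nat.card (Sylow p (G ⧸ (M ⊔ N))) = Nat.card (Sylow p (G ⧸ M)) * Nat.card (Sylow p (G ⧸ N)) := by
  obtain ⟨P⟩ : Nonempty (Sylow p G) := inferInstance
  rw [card_eq p M P, card_eq p N P, card_eq p (M ⊔ N) P, normalizer_eq, normalizer_eq,
    normalizer_eq, P.card_eq_index_normalizer]
  change (normalizer ((P : Subgroup G) : Set G)).index * _ = _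
  set H := normalizer ((P : Subgroup G) : Set G) with hH
  have hallM : ∀ A : Subgroup G, A ≤ normalizer (M : Set G) := fun A => by
    rw [normalizer_eq_top M]; exact le_top
  have hallN : ∀ A : Subgroup G, A ≤ normalizer (N : Set G) := fun A => by
    rw [normalizer_eq_top N]; exact le_top
  have key : (H ⊔ N) ⊓ M = H ⊓ M := by
    refine le_antisymm ?_ (inf_le_inf_right _ le_sup_left)
    intro m hm
    obtain ⟨hm1, hm2⟩ := mem_inf.1 hm
    refine ⟨H10.mem_normalizer_of_conj_le fun u hu => ?_, hm2⟩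
    rw [← normalizer_eq] at hm1
    have hU : IsPGroup p ↥(((P : Subgroup G) ⊔ N) ⊓ M) := by
      have h1 : IsPGroup p ↥((((P : Subgroup G) ⊔ N) ⊓ M).map (QuotientGroup.mk' N)) := by
        refine (P.isPGroup'.map (QuotientGroup.mk' N)).to_le ?_
        refine (map_mono inf_le_left).trans ?_
        rw [Subgroup.map_sup, QuotientGroup.map_mk'_self, sup_bot_eq]
      refine h1.of_injective ((QuotientGroup.mk' N).subgroupMap _) ?_
      rw [injective_iff_map_eq_one]
      intro a ha
      have h2 : (a : G) ∈ M ⊓ N := ⟨a.2.2, (QuotientGroup.eq_one_iff _).1 (congrArg Subtype.val ha)⟩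
      rw [hMN, mem_bot] at h2
      exact Subtype.ext h2
    have h3 := ((H1.isSylowIn_top P).inf le_top (hallM _)).eq_of_le
      (inf_le_inf_right M le_sup_left) inf_le_right hU
    have h4 : m * u * m⁻¹ * u⁻¹ ∈ ((P : Subgroup G) ⊔ N) ⊓ M := by
      refine mem_inf.2 ⟨mul_mem ((mem_normalizer_iff.1 hm1 u).1 (mem_sup_left hu))
        (inv_mem (mem_sup_left hu)), ?_⟩
      have := mul_mem hm2 (Normal.conj_mem inferInstance _ (inv_mem hm2) u)
      simpa [mul_assoc] using this
    rw [← h3] at h4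
    simpa using mul_mem (mem_inf.1 h4).1 hu
  have e1 : H.relIndex (H ⊔ M) = H.relIndex M := (H2.fac_sup_normal_right H M).relIndex_left
  have e2 : (H ⊔ N).relIndex (H ⊔ N ⊔ M) = (H ⊔ N).relIndex M :=
    (H2.fac_sup_normal_right (H ⊔ N) M).relIndex_left
  have e3 : (H ⊔ N).relIndex M = H.relIndex M := by
    rw [← inf_relIndex_right, key, inf_relIndex_right]
  have e4 : H ⊔ (M ⊔ N) = H ⊔ N ⊔ M := by rw [sup_comm M, sup_assoc]
  rw [e4, ← relIndex_mul_index (le_sup_left : H ≤ H ⊔ M),
    ← relIndex_mul_index (le_sup_left : H ⊔ N ≤ H ⊔ N ⊔ M), e1, e2, e3]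
  ring

end Cfsg.Agent.S3867
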