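import Cfsg.Statements.S3878
import Cfsg.Agent.H25.HallNum

set_option autoImplicit false
open Cfsg

namespace Cfsg.Agent.S3878

open Subgroup Cfsg.Agent.H20 Cfsg.Agent.H21 Cfsg.Agent.H25

/-- For a set of primes π the following are equivalent: every finite group has a Hall π-subgroup; in every finite group the maximal π-subgroups are pairwise conjugate; π contains at most one prime or contains every prime. -/
theorem result (π : Set ℕ) :
    ((∀ (G : Type) [Group G] [Finite G], Cfsg.IsEPiGroup π G) ↔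
      ((∀ p q : ℕ, p.Prime → q.Prime → p ∈ π → q ∈ π → p = q) ∨ ∀ p : ℕ, p.Prime → p ∈ π)) ∧
    ((∀ (G : Type) [Group G] [Finite G], Cfsg.IsDPiGroup π G) ↔
      ((∀ p q : ℕ, p.Prime → q.Prime → p ∈ π → q ∈ π → p = q) ∨ ∀ p : ℕ, p.Prime → p ∈ π)) := by
  have DE : ∀ (G : Type) [Group G] [Finite G], IsDPiGroup π G → IsEPiGroup π G := fun G _ _ h => by
    obtain ⟨H, -, hH⟩ := Finite.exists_le_maximal (p := IsPiSubgroup π) (a := (⊥ : Subgroup G))
      (IsPi.bot (π := π))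
    refine ⟨H, Hall.top_iff.mp (hall_of_forall_sylow le_top hH.prop fun p hp hπ _ => ?_)⟩
    haveI := Fact.mk hp
    obtain ⟨S, hS⟩ := exists_sylowOf p (⊤ : Subgroup G)
    obtain ⟨K, h1, h2⟩ := Finite.exists_le_maximal (p := IsPiSubgroup π) (a := S)
      (isPi_of_isPGroup (Hall.isPGroup hS) hπ)
    obtain ⟨g, rfl⟩ := h K H h2 hH
    exact ⟨cj g S, Hall.cj_of_mem hS (mem_top g), map_mono h1⟩
  have h1 : ((∀ p q : ℕ, p.Prime → q.Prime → p ∈ π → q ∈ π → p = q) ∨ ∀ p : ℕ, p.Prime → p ∈ π) →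
      ∀ (G : Type) [Group G] [Finite G], IsDPiGroup π G := by
    rintro (h | h) G _ _ H K hH hK
    · obtain ⟨p, hp, h1⟩ : ∃ p : ℕ, p.Prime ∧ ∀ q : ℕ, q.Prime → q ∈ π → q = p := by
        by_cases h' : ∃ p : ℕ, p.Prime ∧ p ∈ π
        · exact h'.imp fun p hp => ⟨hp.1, fun q hq h2 => h q p hq hp.1 h2 hp.2⟩
        · exact ⟨2, Nat.prime_two, fun q hq h2 => absurd ⟨q, hq, h2⟩ h'⟩
      haveI := Fact.mk hp
      by_cases h2 : p ∈ π
      · have key : ∀ A : Subgroup G, Maximal (IsPiSubgroup π) A → SylowOf p A ⊤ := fun A hA =>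
          sylowOf_of_max (isPi_singleton_iff.mp fun q hq h3 => h1 q hq (hA.prop q hq h3)) le_top
            fun Q hQ h3 _ => (hA.eq_of_le (isPi_of_isPGroup hQ h2) h3).symm
        obtain ⟨g, -, e⟩ := Hall.exists_cj_eq (key H hH) (key K hK)
        exact ⟨g, e.symm⟩
      · have key : ∀ A : Subgroup G, IsPiSubgroup π A → A = ⊥ := fun A hA => by
          by_contra h3
          obtain ⟨q, hq, h4⟩ := exists_prime_dvd_card h3
          exact h2 (h1 q hq (hA q hq h4) ▸ hA q hq h4)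
        exact ⟨1, by rw [key H hH.prop, key K hK.prop, Subgroup.map_bot]⟩
    · exact ⟨1, by rw [hH.eq_of_le (y := ⊤) (fun p hp _ => h p hp) le_top,
        hK.eq_of_le (y := ⊤) (fun p hp _ => h p hp) le_top, map_top_of_surjective _ (MulEquiv.surjective _)]⟩
  have h2 : (∀ (G : Type) [Group G] [Finite G], IsEPiGroup π G) →
      ((∀ p q : ℕ, p.Prime → q.Prime → p ∈ π → q ∈ π → p = q) ∨ ∀ p : ℕ, p.Prime → p ∈ π) := by
    intro h
    by_contra hc
    push Not at hc
    obtain ⟨⟨p, q, hp, hq, hp', hq', hne⟩, r, hr, hr'⟩ := hc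
    wlog hlt : p < q generalizing p q
    · exact this q p hq hp hq' hp' hne.symm (by omega)
    have hqo := hq.odd_of_ne_two (by have := hp.two_le; omega)
    have h16 : 16 ≤ p ^ 4 := Nat.pow_le_pow_left hp.two_le 4
    obtain ⟨s, hs, hs1, hs2⟩ : ∃ s, Odd s ∧ p.Coprime s ∧ (r = 2 ∨ r ∣ s) := by
      rcases hr.eq_two_or_odd' with h | h
      · exact ⟨1, odd_one, p.coprime_one_right, Or.inl h⟩
      · exact ⟨r, h, (Nat.coprime_primes hp hr).mpr (by rintro rfl; exact hr' hp'), Or.inr dvd_rfl⟩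
    have hpq := (Nat.coprime_primes hp hq).mpr hne
    obtain ⟨G, _, _, k, a1, -, -, a3, a4⟩ := exists_psl2_bad (a := p ^ 4) (b := q * s)
      ((hpq.mul_right hs1).pow_left 4) (by omega)
      (hp.eq_two_or_odd'.elim (fun e => Or.inr (by rw [e]; norm_num)) fun e => Or.inl e.pow) (hqo.mul hs)
      (lt_of_lt_of_le hq.one_lt (Nat.le_mul_of_pos_right _ hs.pos))
    obtain ⟨H, hH⟩ := h G
    have hH := Hall.top_iff.mpr hH
    have a5 : p ^ 4 * q ∣ ♯H := Hall.dvd_of_piNat hH ((PiNat.prime_pow hp hp' 4).mul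
      ((PiNat.prime_iff hq).mpr hq')) (by rw [card_top', a1]; exact ⟨s * k, by ring⟩)
    have a6 := a4 H (by
      rintro rfl
      refine hr' (hH.2.1 r hr ?_)
      rw [card_top']
      exact hs2.elim (· ▸ a3) fun h => a1 ▸ ((h.mul_left _).mul_left _).mul_right _)
      (dvd_of_mul_right_dvd a5) q hq.one_lt (dvd_mul_right _ _) (dvd_of_mul_left_dvd a5)
    have a7 := Nat.le_of_dvd (card_pos H) a5
    have a8 := dvd_of_mul_right_dvd a5
    obtain rfl : p = 2 := by
      by_contra h3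
      have : 3 ^ 4 ≤ p ^ 4 := Nat.pow_le_pow_left (by have := hp.two_le; omega) 4
      have := hq.two_le
      have : ♯H ≤ 60 := by omega
      nlinarith
    omega
  exact ⟨⟨h2, fun h G _ _ => DE G (h1 h G)⟩, fun h => h2 fun G _ _ => DE G (h G), h1⟩

end Cfsg.Agent.S3878
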