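import Cfsg.Statements.S3881
import Cfsg.Agent.H25.MetaP

set_option autoImplicit false
open Cfsg

namespace Cfsg.Agent.S3881

/-- Let p be an odd prime and G a finite metacyclic p-group (G has a cyclic normal subgroup with cyclic quotient). Suppose G is non-abelian with |G'| = p^n. Then for 1 ≤ i ≤ n the number of elements of G whose conjugacy class has exactly p^i elements is |Z(G)| · (p^(2i) − p^(2i−2)). -/
theorem result {G : Type*} [Group G] [Finite G] {p : ℕ} [Fact p.Prime] (hp : p ≠ 2) (hG : IsPGroup p G) (hmc : Cfsg.IsMetacyclic G) (n : ℕ) (hn : n ≠ 0) (hGn : Nat.card ↥(commutator G) = p ^ n) (i : ℕ) (hi : 1 ≤ i) (hin : i ≤ n) :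
    Nat.card {g : G // (Subgroup.centralizer ({g} : Set G)).index = p ^ i} =
      Nat.card ↥(Subgroup.center G) * (p ^ (2 * i) - p ^ (2 * i - 2)) := by
  have hpp : p.Prime := Fact.out
  obtain ⟨j, rfl⟩ := Nat.exists_eq_add_of_le' hi
  have h1 := Cfsg.Agent.H25.meta_card_index_dvd hp hG hmc hGn hin
  have h2 := Cfsg.Agent.H25.meta_card_index_dvd hp hG hmc hGn (i := j) (by omega)
  have h3 : 2 * (j + 1) - 2 = 2 * j := by omega
  rw [h3, Nat.mul_sub, ← h1, ← h2]
  let A : Set G := {g | (Subgroup.centralizer ({g} : Set G)).index ∣ p ^ (j + 1)}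
  let B : Set G := {g | (Subgroup.centralizer ({g} : Set G)).index ∣ p ^ j}
  have hBA : B ⊆ A := fun g hg => Dvd.dvd.trans hg (pow_dvd_pow p (Nat.le_succ j))
  have h4 := Set.ncard_diff hBA (Set.toFinite _)
  change _ = A.ncard - B.ncard
  rw [← h4]
  change Set.ncard {g : G | (Subgroup.centralizer ({g} : Set G)).index = p ^ (j + 1)} = _
  congr 1
  ext g
  obtain ⟨k, hk⟩ := hG.index (Subgroup.centralizer ({g} : Set G))
  simp only [A, B, Set.mem_diff, Set.mem_setOf_eq, hk, Nat.pow_dvd_pow_iff_le_right hpp.one_lt,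
    Nat.pow_right_inj hpp.one_lt]
  omega

end Cfsg.Agent.S3881
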