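import Cfsg.Statements.S3883
import Cfsg.Agent.H25.MetaP

set_option autoImplicit false
open Cfsg

namespace Cfsg.Agent.S3883

/-- Let p be an odd prime and G a finite metacyclic p-group (G has a cyclic normal subgroup with cyclic quotient). Suppose G is non-abelian. Then an element g of G lies outside the Frattini subgroup if and only if its centralizer C_G(g) is abelian. -/
theorem result {G : Type*} [Group G] [Finite G] {p : ℕ} [Fact p.Prime] (hp : p ≠ 2) (hG : IsPGroup p G) (hmc : Cfsg.IsMetacyclic G) (hna : ¬ IsMulCommutative G) (g : G) :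
    g ∉ frattini G ↔ IsMulCommutative ↥(Subgroup.centralizer ({g} : Set G)) := by
  have hpp : p.Prime := Fact.out
  obtain ⟨n, hn⟩ := IsPGroup.iff_card.1 (hG.to_subgroup (commutator G))
  have hn0 : n ≠ 0 := by
    rintro rfl
    exact hna (Cfsg.Agent.H25.isMulCommutative_iff_commutator_eq_bot.2
      (Subgroup.card_eq_one.1 (by simpa using hn)))
  rw [Cfsg.Agent.H25.meta_frattini_eq hp hG hmc,
    Cfsg.Agent.H25.meta_mem_mho_iff hp hG hmc hn (Nat.one_le_iff_ne_zero.2 hn0),
    Cfsg.Agent.H25.meta_comm_iff hp hG hmc]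
  obtain ⟨k, hk⟩ := hG.index (Subgroup.centralizer ({g} : Set G))
  have h1 := (Subgroup.centralizer ({g} : Set G)).index_mul_card
  have h2 := (commutator G).index_mul_card
  rw [hk] at h1
  rw [hn, ← h1] at h2
  rw [hk, Nat.pow_le_pow_iff_right hpp.one_lt]
  have h3 : 0 < Nat.card (Subgroup.centralizer ({g} : Set G)) := Nat.card_pos
  rw [← Nat.mul_le_mul_right_iff (n := Nat.card (Subgroup.centralizer ({g} : Set G))) (pow_pos hpp.pos n), h2, mul_comm (p ^ k),
    Nat.mul_le_mul_left_iff h3, Nat.pow_le_pow_iff_right hpp.one_lt]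
  omega

end Cfsg.Agent.S3883
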