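import Cfsg.Statements.S3885
import Cfsg.Agent.H25.MetaP

set_option autoImplicit false
open Cfsg

namespace Cfsg.Agent.S3885

/-- Let p be an odd prime and G a finite metacyclic p-group (G has a cyclic normal subgroup with cyclic quotient). Then every abelian subgroup K of G containing the center of G is the center of its own centralizer: K = Z(C_G(K)). -/
theorem result {G : Type*} [Group G] [Finite G] {p : ℕ} [Fact p.Prime] (hp : p ≠ 2) (hG : IsPGroup p G) (hmc : Cfsg.IsMetacyclic G) (K : Subgroup G) (hK : IsMulCommutative ↥K) (hZ : Subgroup.center G ≤ K) :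
    K = Subgroup.centralizer (K : Set G) ⊓ Subgroup.centralizer (Subgroup.centralizer (K : Set G) : Set G) := by
  have h1 := Cfsg.Agent.H25.meta_index_centralizer hp hG hmc K
  have h2 := Cfsg.Agent.H25.meta_index_centralizer hp hG hmc (Subgroup.centralizer (K : Set G))
  have h3 := Subgroup.relIndex_mul_index hZ
  have h4 := Subgroup.relIndex_mul_index (Subgroup.center_le_centralizer (K : Set G))
  rw [← h2, h1, ← h3, mul_comm] at h4
  have h5 := Nat.eq_of_mul_eq_mul_left (Nat.pos_of_ne_zero
    (h1 ▸ Subgroup.index_ne_zero_of_finite)) h4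
  have h6 : K ≤ Subgroup.centralizer (Subgroup.centralizer (K : Set G) : Set G) :=
    Subgroup.le_centralizer_iff.1 le_rfl
  have h7 : K = Subgroup.centralizer (Subgroup.centralizer (K : Set G) : Set G) := by
    refine Subgroup.eq_of_le_of_card_ge h6 (le_of_eq ?_)
    have h8 := K.index_mul_card
    rw [← (Subgroup.centralizer (Subgroup.centralizer (K : Set G) : Set G)).index_mul_card, h5] at h8
    exact (Nat.eq_of_mul_eq_mul_left (Nat.pos_of_ne_zero Subgroup.index_ne_zero_of_finite) h8).symm
  rw [← h7]
  exact (inf_eq_right.2 (Subgroup.le_centralizer K)).symm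

end Cfsg.Agent.S3885
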