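import Cfsg.Statements.S3886
import Cfsg.Agent.H25.MetaP

set_option autoImplicit false
open Cfsg

namespace Cfsg.Agent.S3886

/-- Let p be an odd prime and G a finite metacyclic p-group (G has a cyclic normal subgroup with cyclic quotient). Then the largest value of |R| · |Z(R)| over subgroups R of G is |G : G'|², and the subgroups attaining it (the centrally large subgroups) are exactly the non-abelian subgroups together with the maximal abelian subgroups of G. -/
theorem result {G : Type*} [Group G] [Finite G] {p : ℕ} [Fact p.Prime] (hp : p ≠ 2) (hG : IsPGroup p G) (hmc : Cfsg.IsMetacyclic G) : Cfsg.maxCentralProduct G = (commutator G).index ^ 2 ∧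
    ∀ R : Subgroup G, Cfsg.IsCentrallyLarge R ↔ (¬ IsMulCommutative ↥R ∨ Maximal (fun K : Subgroup G => IsMulCommutative ↥K) R) := by
  have key1 : ∀ R : Subgroup G, IsMulCommutative R →
      Nat.card R * Nat.card (Subgroup.center R) = Nat.card R ^ 2 := by
    intro R hR
    have : Subgroup.center R = ⊤ :=
      (commutator_eq_bot_iff_center_eq_top _).1
        (Cfsg.Agent.H25.isMulCommutative_iff_commutator_eq_bot.1 hR)
    rw [this, Subgroup.card_top, sq]
  have key2 : ∀ R : Subgroup G, ¬ IsMulCommutative R →
      Nat.card R * Nat.card (Subgroup.center R) = (commutator G).index ^ 2 := by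
    intro R hR
    rw [Cfsg.Agent.H25.isMulCommutative_iff_commutator_eq_bot] at hR
    rw [← Cfsg.Agent.H25.meta_index_commutator_aux hp G hG hmc R hR]
    have h1 := Cfsg.Agent.H25.meta_index_center hp (hG.to_subgroup R)
      (Cfsg.Agent.H25.isMetacyclic_subgroup hmc R)
    have h2 := (Subgroup.center R).index_mul_card
    have h3 := (commutator R).index_mul_card
    rw [h1] at h2
    refine Nat.eq_of_mul_eq_mul_right (pow_pos (Nat.card_pos (α := commutator R)) 2) ?_
    rw [← mul_pow, h3, mul_assoc, mul_comm (Nat.card (Subgroup.center R)), h2, sq]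
  have hle : ∀ R : Subgroup G,
      Nat.card R * Nat.card (Subgroup.center R) ≤ (commutator G).index ^ 2 := by
    intro R
    by_cases hR : IsMulCommutative R
    · rw [key1 R hR]
      exact Nat.pow_le_pow_left ((Cfsg.Agent.H25.meta_comm_iff hp hG hmc R).1 hR) 2
    · exact (key2 R hR).le
  obtain ⟨A, -, hA⟩ := (Set.toFinite {K : Subgroup G | IsMulCommutative K}).exists_le_maximal
    (a := ⊥) (show IsMulCommutative (⊥ : Subgroup G) from inferInstance)
  have hmax : Cfsg.maxCentralProduct G = (commutator G).index ^ 2 := by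
    refine IsGreatest.csSup_eq ⟨⟨A, ?_⟩, ?_⟩
    · rw [key1 A hA.1, (Cfsg.Agent.H25.meta_maximal_iff hp hG hmc A).1 hA]
    · rintro _ ⟨R, rfl⟩; exact hle R
  refine ⟨hmax, fun R => ?_⟩
  rw [Cfsg.IsCentrallyLarge, hmax]
  by_cases hR : IsMulCommutative R
  · rw [key1 R hR, Cfsg.Agent.H25.meta_maximal_iff hp hG hmc R, Nat.pow_left_inj two_ne_zero]
    simp [hR]
  · simp [hR, key2 R hR]

end Cfsg.Agent.S3886
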