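import Cfsg.Statements.S3888
import Cfsg.Agent.L0.Rk4
import Cfsg.Agent.S0112

set_option autoImplicit false
open Cfsg

namespace Cfsg.Agent.S3888

open Subgroup Cfsg.Agent.H24 Cfsg.Agent.L0


/-- The classification of the p-groups of rank at most two for odd p. Let p be an odd prime and G a group of order p^n with no elementary abelian subgroup of order p³. Then one of the following holds: G is metacyclic; n ≥ 3 and G is generated by elements x, y, z with x^p = y^p = z^(p^(n−2)) = 1, z commuting with x and y, and x⁻¹yx = y z^(p^(n−3)); n ≥ 4 and G is generated by elements x, y, z with x^p = y^p = z^(p^(n−2)) = 1, yz = zy, x⁻¹yx = y z^(s p^(n−3)) and x⁻¹zx = yz, where s = 1 or s is a quadratic non-residue modulo p; or p = 3 and G has maximal class (nilpotency class n − 1). -/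
theorem result {G : Type*} [Group G] [Finite G] {p : ℕ} [Fact p.Prime] (hp : p ≠ 2) (n : ℕ) (hG : Nat.card G = p ^ n)
    (hrk : Cfsg.PRankLE p 2 G) :
    Cfsg.IsMetacyclic G ∨
    (3 ≤ n ∧ ∃ x y z : G, Subgroup.closure ({x, y, z} : Set G) = ⊤ ∧ x ^ p = 1 ∧ y ^ p = 1 ∧ z ^ p ^ (n - 2) = 1 ∧
        x * z = z * x ∧ y * z = z * y ∧ x⁻¹ * y * x = y * z ^ p ^ (n - 3)) ∨
    (4 ≤ n ∧ ∃ (s : ℕ) (x y z : G), (s = 1 ∨ ¬ IsSquare (s : ZMod p)) ∧ Subgroup.closure ({x, y, z} : Set G) = ⊤ ∧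
        x ^ p = 1 ∧ y ^ p = 1 ∧ z ^ p ^ (n - 2) = 1 ∧ y * z = z * y ∧ x⁻¹ * y * x = y * z ^ (s * p ^ (n - 3)) ∧
        x⁻¹ * z * x = y * z) ∨
    (p = 3 ∧ 2 ≤ n ∧ (⊤ : Subgroup G).lowerCentralSeries (n - 2) ≠ ⊥) := by
  have hP : IsPGroup p G := IsPGroup.of_card hG
  have key : ∀ X : Subgroup G, X.Normal → Nat.card X = p ^ 3 → (∀ x ∈ X, x ^ p = 1) → _ ∨ _ := fun X _ h1 h2 => by
    obtain ⟨Z, L, h⟩ := exists_RL hp hP hrk h1 h2
    by_cases h0 : X ⊔ centralizer (X : Set G) = ⊤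
    · exact .inl (h.fam1 h0 hG)
    · obtain ⟨z, h⟩ := h.exists_R2 h0
      exact .inr (h.fam2 hG)
  by_cases hm : IsMetacyclic G
  · exact .inl hm
  by_cases hX : ∃ X : Subgroup G, X.Normal ∧ Nat.card X = p ^ 3 ∧ ∀ x ∈ X, x ^ p = 1
  · obtain ⟨X, h1, h2, h3⟩ := hX
    exact .inr ((key X h1 h2 h3).imp_right .inl)
  by_cases h3 : p = 3
  · subst h3
    obtain ⟨A, a1, a2⟩ := three_case hP hrk hm fun X h1 h2 h3 => hX ⟨X, h1, h2, h3⟩
    have n2 : 2 ≤ n := (Nat.pow_le_pow_iff_right (by omega)).1 (a1 ▸ hG ▸ card_le_card_group A)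
    haveI := hP.isNilpotent
    refine .inr (.inr (.inr ⟨rfl, n2, fun e => ?_⟩))
    have := Subgroup.lowerCentralSeries_eq_bot_iff_nilpotencyClass_le.1 e
    rw [S0112.result n hG A a1 a2] at this
    omega
  have p3 : 3 < p := by have := (Fact.out : p.Prime).two_le; omega
  have r : H20.pRank p (⊤ : Subgroup G) ≤ 2 := BG.pRankLE_iff.1 fun A h1 h3 => by
    rw [← H24.card_map_subtype]
    exact hrk (A.map (Subgroup.subtype _)) inferInstance (by rintro _ ⟨a, ha, rfl⟩; rw [← map_pow, h3 a ha, map_one])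
  have e1 := BG.exponent_Ohm1_rank2 (hP.to_subgroup ⊤) r p3
  obtain ⟨k, k1, k2⟩ := (Nat.dvd_prime_pow Fact.out).1
    (BG.rank2_exponent_p_p3group (hP.to_subgroup _) ((BG.pRank_mono p le_top).trans r) e1)
  by_cases k3 : k = 3
  · exact absurd ⟨_, ⟨fun x hx g => H9.mem_omegaOne_of (mem_top _) (by rw [conj_pow, e1 x hx]; simp)⟩, k3 ▸ k2, e1⟩ hX
  · exact absurd (S0639.result p3 hP (k2 ▸ Nat.pow_le_pow_right (by omega) (by omega))) hm

end Cfsg.Agent.S3888
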