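import Cfsg.Statements.S3898
import Cfsg.Agent.H25.TwoClass
import Cfsg.Agent.H25.PiCompl

set_option autoImplicit false
open Cfsg

namespace Cfsg.Agent.S3898

open H25 in
theorem weighted {G : Type*} [Group G] [Finite G] {p : ℕ} [Fact p.Prime] (P : Sylow p G)
    (F : Subgroup G) (hF : F ≤ P) [Fintype (PCl p G)] (w : PCl p G → ℕ) (t n : ℕ)
    (hw : ∀ c, w c ≤ t)
    (hT : ∀ c : PCl p G, ∀ x ∈ (P : Subgroup G), x ∉ F → ConjClasses.mk x = c.1 →
      n * w c ≤ t * {y | y ∈ (P : Subgroup G) ∧ y ∉ F ∧ IsConj x y}.ncard) :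
    n * ∑ c, w c + t * Nat.card F ≤ n * t * Nat.card F + t * Nat.card (P : Subgroup G) := by
  classical
  have := Fintype.ofFinite G
  let T : Finset G := Finset.univ.filter fun y => y ∈ (P : Subgroup G) ∧ y ∉ F
  let B : Finset (PCl p G) := Finset.univ.filter fun c => ∃ x ∈ T, ConjClasses.mk x = c.1
  have hsplit := Finset.sum_filter_add_sum_filter_not Finset.univ
    (fun c : PCl p G => ∃ x ∈ T, ConjClasses.mk x = c.1) w
  have h1 : n * ∑ c ∈ B, w c ≤ t * T.card := by
    rw [Finset.mul_sum]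
    have h2 : ∑ c ∈ B, (T.filter fun y => ConjClasses.mk y = c.1).card ≤ T.card := by
      rw [← Finset.card_biUnion]
      · exact Finset.card_le_card (Finset.biUnion_subset.mpr fun c _ => Finset.filter_subset _ _)
      · intro c _ d _ hcd
        rw [Function.onFun, Finset.disjoint_left]
        intro y h1 h2
        exact hcd (Subtype.ext ((Finset.mem_filter.mp h1).2.symm.trans (Finset.mem_filter.mp h2).2))
    refine le_trans (Finset.sum_le_sum fun c hc => ?_) ((Finset.mul_sum _ _ _).ge.trans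
      (Nat.mul_le_mul_left t h2))
    obtain ⟨x, hx, hxc⟩ := (Finset.mem_filter.mp hc).2
    have hx' := (Finset.mem_filter.mp hx).2
    refine (hT c x hx'.1 hx'.2 hxc).trans (le_of_eq ?_)
    congr 1
    rw [Set.ncard_eq_toFinset_card']
    congr 1
    ext y
    simp only [T, Set.mem_toFinset, Set.mem_ofPred_eq, Finset.mem_filter, Finset.mem_univ, true_and,
      ← hxc, ConjClasses.mk_eq_mk_iff_isConj, and_assoc]
    exact ⟨fun h => ⟨h.1, h.2.1, h.2.2.symm⟩, fun h => ⟨h.1, h.2.1, h.2.2.symm⟩⟩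
  have h3 : (Finset.univ.filter fun c : PCl p G => ¬ ∃ x ∈ T, ConjClasses.mk x = c.1).card
      ≤ Nat.card F := by
    have e1 : Nat.card F = (Finset.univ.filter fun y => y ∈ F).card := by
      rw [Nat.card_eq_fintype_card, Fintype.card_subtype]
    rw [e1]
    choose f hf hf' using exists_mem_sylow_mk_eq P
    refine Finset.card_le_card_of_injOn f (fun c hc => ?_) fun c _ d _ hcd => Subtype.ext ?_
    · simp only [Finset.coe_filter, Finset.mem_univ, true_and, Set.mem_ofPred_eq] at hc ⊢
      by_contra hcF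
      exact hc ⟨f c, Finset.mem_filter.mpr ⟨Finset.mem_univ _, hf c, hcF⟩, hf' c⟩
    · rw [← hf' c, hcd, hf' d]
  have h4 := (Finset.sum_le_card_nsmul (Finset.univ.filter
    fun c : PCl p G => ¬ ∃ x ∈ T, ConjClasses.mk x = c.1) w t fun c _ => hw c).trans
    (Nat.mul_le_mul_right t h3)
  have h5 : T.card + Nat.card F = Nat.card (P : Subgroup G) := by
    have e1 : Nat.card F = (Finset.univ.filter fun y => y ∈ F).card := by
      rw [Nat.card_eq_fintype_card, Fintype.card_subtype]
    have e2 : Nat.card (P : Subgroup G) = (Finset.univ.filter fun y => y ∈ (P : Subgroup G)).card := by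
      rw [← Fintype.card_subtype, ← Nat.card_eq_fintype_card]
    rw [e1, e2, ← Finset.card_union_of_disjoint]
    · congr 1
      ext y
      simp only [T, Finset.mem_union, Finset.mem_filter, Finset.mem_univ, true_and]
      constructor
      · rintro (h | h)
        · exact h.1
        · exact hF h
      · intro h
        by_cases hy : y ∈ F
        · exact Or.inr hy
        · exact Or.inl ⟨h, hy⟩
    · rw [Finset.disjoint_left]
      intro y h1 h2
      simp only [T, Finset.mem_filter, Finset.mem_univ, true_and] at h1 h2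
      exact h1.2 h2
  rw [← hsplit, ← h5]
  have h6 := Nat.mul_le_mul_left n h4
  change n * (∑ c ∈ B, w c + _) + _ ≤ _
  nlinarith

open H25 in
theorem two_part {G : Type*} [Group G] [Finite G] {r : ℕ} [hr : Fact r.Prime] (hr2 : r ≠ 2)
    (h2 : HasNormalPComplement 2 G) (R : Sylow r G) {x m : G}
    (hm : m ∈ Subgroup.normalizer ((R : Subgroup G) : Set G)) (hmx : m * x * m⁻¹ ≠ x)
    (h : ∀ n ∈ Subgroup.normalizer ((R : Subgroup G) : Set G),
      n * x * n⁻¹ = x ∨ n * x * n⁻¹ = m * x * m⁻¹) :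
    2 * 2 ^ (Nat.card (Subgroup.centralizer ({x} : Set G))).factorization 2 ≤
      2 ^ (Nat.card G).factorization 2 := by
  set N := Subgroup.normalizer ((R : Subgroup G) : Set G) with hN
  set C := Subgroup.centralizer ({x} : Set G) with hC
  have hmem : ∀ n, n ∈ C ↔ n * x * n⁻¹ = x := fun n => by
    rw [hC, Subgroup.mem_centralizer_singleton_iff, mul_inv_eq_iff_eq_mul]
  have hi : C.relIndex N = 2 := by
    have h1 : C.relIndex N ∣ 2 := by
      rw [Subgroup.relIndex_dvd_two_iff]
      refine ⟨m, hm, fun b hb => ?_⟩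
      rcases h b⁻¹ (N.inv_mem hb) with h | h
      · exact Or.inr (C.inv_mem_iff.mp ((hmem _).mpr h))
      · refine Or.inl ((hmem _).mpr ?_)
        calc b * m * x * (b * m)⁻¹ = b * (m * x * m⁻¹) * b⁻¹ := by group
          _ = x := by rw [← h]; group
    rcases (Nat.dvd_prime Nat.prime_two).mp h1 with h1 | h1
    · exact absurd ((hmem m).mp (Subgroup.relIndex_eq_one.mp h1 hm)) hmx
    · exact h1
  have hRC : (R : Subgroup G) ≤ C := by
    have h1 : C.relIndex (R : Subgroup G) ≤ 2 := by
      rw [← hi]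
      exact Subgroup.relIndex_le_of_le_right Subgroup.le_normalizer (by omega)
    have h3 : C.relIndex (R : Subgroup G) ∣ Nat.card (R : Subgroup G) := Subgroup.relIndex_dvd_card _ _
    obtain ⟨k, hk⟩ := R.2.exists_card_eq
    rw [hk] at h3
    obtain ⟨j, -, hj⟩ := (Nat.dvd_prime_pow hr.out).mp h3
    rw [← Subgroup.relIndex_eq_one, hj]
    rcases j with _ | j
    · simp
    · exfalso
      have := hr.out.two_le
      have h5 : r ≤ r ^ (j + 1) := Nat.le_self_pow (by omega) r
      omega
  set K := pResidual 2 G with hK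
  have hRK : (R : Subgroup G) ≤ K := by
    refine H3.le_pResidual_of_coprime ?_
    obtain ⟨k, hk⟩ := R.2.exists_card_eq
    rw [hk]
    exact Nat.Coprime.pow_left _ ((Nat.coprime_primes hr.out Nat.prime_two).mpr hr2)
  have hS : H3.SylowIn r (R : Subgroup G) (K ⊓ C) := H3.sylowIn_of_le R (le_inf hRK hRC)
  have hCn : C ≤ Subgroup.normalizer ((K ⊓ C : Subgroup G) : Set G) :=
    H1.le_normalizer_inf Subgroup.le_normalizer_of_normal Subgroup.le_normalizer
  have hsup : C = (K ⊓ C) ⊔ (C ⊓ N) := by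
    refine le_antisymm (fun g hg => ?_) (sup_le inf_le_right inf_le_left)
    obtain ⟨a, ha, b, hb, rfl⟩ := hS.frattini (hCn hg)
    refine Subgroup.mul_mem_sup ha ⟨?_, hb⟩
    exact (C.mul_mem_cancel_left ha.2).mp hg
  have hd : Nat.card C ∣ Nat.card (K ⊓ C : Subgroup G) * Nat.card (C ⊓ N : Subgroup G) := by
    conv_lhs => rw [hsup]
    exact H1.card_sup_dvd (inf_le_left.trans hCn)
  have hK2 : ¬ 2 ∣ Nat.card (K ⊓ C : Subgroup G) := fun hd =>
    H3.hasNormalPComplement_iff_not_dvd.mp h2 (hd.trans (Subgroup.card_dvd_of_le inf_le_left))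
  have h3 : 2 ^ (Nat.card C).factorization 2 ∣ Nat.card (C ⊓ N : Subgroup G) := by
    refine Nat.Coprime.dvd_of_dvd_mul_left ?_ ((Nat.ordProj_dvd _ _).trans hd)
    exact Nat.Coprime.pow_left _ ((Nat.Prime.coprime_iff_not_dvd Nat.prime_two).mpr hK2)
  have h4 : Nat.card (C ⊓ N : Subgroup G) * 2 ∣ Nat.card G := by
    rw [← hi, H1.card_inf_mul_relIndex]
    exact Subgroup.card_subgroup_dvd_card N
  have h5 : 2 ^ ((Nat.card C).factorization 2 + 1) ∣ Nat.card G := by
    rw [pow_succ]
    exact (Nat.mul_dvd_mul_right h3 2).trans h4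
  rw [← pow_succ']
  exact Nat.pow_le_pow_right two_pos
    ((Nat.Prime.pow_dvd_iff_le_factorization Nat.prime_two Nat.card_pos.ne').mp h5)

open H25 in
theorem conj_eq_of_mem {G : Type*} [Group G] [Finite G] {r : ℕ} [hr : Fact r.Prime]
    (R : Sylow r G) {y n : G} (hy : ∀ a ∈ (R : Subgroup G), a * y = y * a)
    (hn : n ∈ Subgroup.normalizer ((R : Subgroup G) : Set G))
    (hf : y⁻¹ * (n * y * n⁻¹) ∈ (R : Subgroup G) ⊓
      Subgroup.centralizer (Subgroup.normalizer ((R : Subgroup G) : Set G) : Set G)) :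
    n * y * n⁻¹ = y := by
  obtain ⟨a, b, ha, hb, hk, hbo, hab⟩ := H3.exists_p_part r n
  have ha' := mem_sylow_of_mem_normalizer R ((Subgroup.zpowers_le.mpr hn) ha) hk
  set f := y⁻¹ * (n * y * n⁻¹) with hf'
  have hfg : n * f = f * n := Subgroup.mem_centralizer_iff.mp hf.2 n hn
  have hn' : ∀ k : ℕ, n ^ k * y = y * f ^ k * n ^ k := by
    intro k
    induction k with
    | zero => simp
    | succ k ih =>
      have e1 : n * y = y * f * n := by rw [hf']; group
      have e2 : n * f ^ k = f ^ k * n := ((Commute.pow_right (show Commute n f from hfg)) k).eq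
      calc n ^ (k + 1) * y = n * (n ^ k * y) := by rw [pow_succ']; group
        _ = (n * y) * f ^ k * n ^ k := by rw [ih]; group
        _ = y * f * (n * f ^ k) * n ^ k := by rw [e1]; group
        _ = _ := by rw [e2, pow_succ' f, pow_succ' n]; group
  have hcomm : Commute a b := by
    obtain ⟨i, rfl⟩ := Subgroup.mem_zpowers_iff.mp ha
    obtain ⟨j, rfl⟩ := Subgroup.mem_zpowers_iff.mp hb
    exact Commute.zpow_zpow_self n i j
  have h1 := hn' (orderOf b)
  have h2 : n ^ orderOf b = a ^ orderOf b := by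
    conv_lhs => rw [hab, hcomm.mul_pow, pow_orderOf_eq_one, mul_one]
  rw [h2, hy _ ((R : Subgroup G).pow_mem ha' _)] at h1
  have h3 : f ^ orderOf b = 1 := by simpa using h1.symm
  obtain ⟨k, hk⟩ := exists_orderOf_eq_of_mem_sylow R hf.1
  have h4 : orderOf f = 1 :=
    Nat.eq_one_of_dvd_coprimes (Nat.Coprime.pow_right k hbo) (orderOf_dvd_of_pow_eq_one h3) hk.dvd
  rw [orderOf_eq_one_iff, hf', inv_mul_eq_one] at h4
  exact h4.symm

open H25 in
theorem odd_case {G : Type*} [Group G] [Finite G] {r : ℕ} [hr : Fact r.Prime] (hr2 : r ≠ 2)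
    (h2 : HasNormalPComplement 2 G) (R : Sylow r G) [Fintype (PCl r G)]
    (h : Nat.card (R : Subgroup G) * 2 ^ (Nat.card G).factorization 2 < 2 * ∑ c : PCl r G,
      2 ^ (Nat.card (Subgroup.centralizer ({clRep c.1} : Set G))).factorization 2) :
    Subgroup.normalizer ((R : Subgroup G) : Set G) ≤
      Subgroup.centralizer ((R : Subgroup G) : Set G) := by
  set N := Subgroup.normalizer ((R : Subgroup G) : Set G) with hN
  set F := (R : Subgroup G) ⊓ Subgroup.centralizer (N : Set G) with hF
  set t := 2 ^ (Nat.card G).factorization 2 with ht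
  by_contra hne
  have hlt : F < (R : Subgroup G) := by
    refine lt_of_le_of_ne inf_le_left fun e => hne ?_
    rw [← Subgroup.le_centralizer_iff, ← e]
    exact inf_le_right
  have h1 := mul_card_le_of_lt R.2 hlt
  have hr3 : 3 ≤ r := by have := hr.out.two_le; omega
  let w : PCl r G → ℕ := fun c =>
    2 ^ (Nat.card (Subgroup.centralizer ({clRep c.1} : Set G))).factorization 2
  have hw : ∀ c, w c ≤ t := fun c => Nat.pow_le_pow_right two_pos
    ((Nat.factorization_le_iff_dvd Nat.card_pos.ne' Nat.card_pos.ne').mpr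
      (Subgroup.card_subgroup_dvd_card _) 2)
  have hwx : ∀ c : PCl r G, ∀ x, ConjClasses.mk x = c.1 →
      w c = 2 ^ (Nat.card (Subgroup.centralizer ({x} : Set G))).factorization 2 := by
    intro c x hx
    obtain ⟨g, hg⟩ := isConj_iff.mp (ConjClasses.mk_eq_mk_iff_isConj.mp
      (hx.trans (mk_clRep c.1).symm))
    have : Subgroup.centralizer ({clRep c.1} : Set G) =
        (Subgroup.centralizer ({x} : Set G)).map (MulAut.conj g).toMonoidHom := by
      ext y
      rw [H1.mem_map_conj, Subgroup.mem_centralizer_singleton_iff,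
        Subgroup.mem_centralizer_singleton_iff, ← hg]
      constructor
      · intro e
        calc g⁻¹ * y * g * x = g⁻¹ * (y * (g * x * g⁻¹)) * g := by group
          _ = _ := by rw [e]; group
      · intro e
        calc y * (g * x * g⁻¹) = g * (g⁻¹ * y * g * x) * g⁻¹ := by group
          _ = _ := by rw [e]; group
    simp only [w]
    rw [this, Subgroup.card_map_of_injective (MulAut.conj g).injective]
  have hconj : ∀ x ∈ (R : Subgroup G), x ∉ F → ∀ n ∈ N,
      n * x * n⁻¹ ∈ (R : Subgroup G) ∧ n * x * n⁻¹ ∉ F ∧ IsConj x (n * x * n⁻¹) := by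
    intro x hx hxF n hn
    refine ⟨(Subgroup.mem_normalizer_iff.mp hn x).mp hx, fun hc => hxF ?_,
          isConj_iff.mpr ⟨n, rfl⟩⟩
    have := Subgroup.mem_centralizer_iff.mp hc.2 n hn
    have h3 : n * x = n * x * n⁻¹ * n := by group
    rw [← this] at h3
    rwa [mul_left_cancel h3]
  have hex : ∀ x ∈ (R : Subgroup G), x ∉ F → ∃ m ∈ N, m * x * m⁻¹ ≠ x := by
    intro x hx hxF
    by_contra hcon
    push Not at hcon
    exact hxF ⟨hx, Subgroup.mem_centralizer_iff.mpr fun n hn =>
      mul_inv_eq_iff_eq_mul.mp (hcon n hn)⟩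
  have htwo : ∀ x ∈ (R : Subgroup G), x ∉ F →
      2 ≤ {y | y ∈ (R : Subgroup G) ∧ y ∉ F ∧ IsConj x y}.ncard := by
    intro x hx hxF
    obtain ⟨m, hm, hmx⟩ := hex x hx hxF
    refine (Set.ncard_pair hmx).ge.trans (Set.ncard_le_ncard ?_ (Set.toFinite _))
    rintro z (rfl | rfl)
    · exact hconj x hx hxF m hm
    · exact ⟨hx, hxF, IsConj.refl _⟩
  have ht0 : 0 < t := by positivity
  change _ < 2 * ∑ c, w c at h
  by_cases h4 : 4 * Nat.card F ≤ Nat.card (R : Subgroup G)
  · have := weighted R F inf_le_left w t 3 hw (by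
      intro c x hx hxF hxc
      obtain ⟨m, hm, hmx⟩ := hex x hx hxF
      by_cases hc : ∀ n ∈ N, n * x * n⁻¹ = x ∨ n * x * n⁻¹ = m * x * m⁻¹
      · have h5 := two_part hr2 h2 R hm hmx hc
        rw [← hwx c x hxc, ← ht] at h5
        have h6 := Nat.mul_le_mul_left t (htwo x hx hxF)
        omega
      · push Not at hc
        obtain ⟨n, hn, h5, h6⟩ := hc
        have h7 : ({x, m * x * m⁻¹, n * x * n⁻¹} : Set G).ncard = 3 :=
          Set.ncard_eq_three.mpr ⟨_, _, _, hmx.symm, h5.symm, h6.symm, rfl⟩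
        have h8 : 3 ≤ {y | y ∈ (R : Subgroup G) ∧ y ∉ F ∧ IsConj x y}.ncard := by
          refine h7.ge.trans (Set.ncard_le_ncard ?_ (Set.toFinite _))
          rintro z (rfl | rfl | rfl)
          · exact ⟨hx, hxF, IsConj.refl _⟩
          · exact hconj x hx hxF m hm
          · exact hconj x hx hxF n hn
        have h9 := Nat.mul_le_mul_left t h8
        have := hw c
        omega)
    nlinarith
  · push Not at h4
    have hF0 : 0 < Nat.card F := Nat.card_pos
    have hre : r = 3 := by
      have : r * Nat.card F < 4 * Nat.card F := h1.trans_lt h4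
      have := Nat.lt_of_mul_lt_mul_right this
      omega
    have hi : F.relIndex (R : Subgroup G) = 3 := by
      have h5 : Nat.card F * F.relIndex (R : Subgroup G) = _ :=
        H1.card_mul_relIndex (inf_le_left : F ≤ (R : Subgroup G))
      rw [← h5] at h4 h1
      have := Nat.lt_of_mul_lt_mul_left (h4.trans_eq (mul_comm _ _))
      have := Nat.le_of_mul_le_mul_left ((mul_comm _ _).trans_le h1) hF0
      omega
    have hR : Nat.card (R : Subgroup G) = 3 * Nat.card F := by
      rw [← hi, mul_comm, H1.card_mul_relIndex inf_le_left]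
    have hab : ∀ x ∈ (R : Subgroup G), x ∉ F → ∀ a ∈ (R : Subgroup G), a * x = x * a := by
      intro x hx hxF a ha
      have h5 : F < (R : Subgroup G) ⊓ Subgroup.centralizer {x} := by
        refine lt_of_le_of_ne (le_inf inf_le_left fun y hy => ?_) fun e => hxF ?_
        · exact Subgroup.mem_centralizer_singleton_iff.mpr
            (Subgroup.mem_centralizer_iff.mp hy.2 x (Subgroup.le_normalizer hx)).symm
        · rw [e]; exact ⟨hx, Subgroup.mem_centralizer_singleton_iff.mpr rfl⟩
      have h6 := mul_card_le_of_lt (R.2.to_le inf_le_left) h5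
      have h7 := Subgroup.eq_of_le_of_card_ge (inf_le_left :
        (R : Subgroup G) ⊓ Subgroup.centralizer {x} ≤ R) (by rw [hR, ← hre]; exact h6)
      rw [← h7] at ha
      exact Subgroup.mem_centralizer_singleton_iff.mp ha.2
    have := weighted R F inf_le_left w t 4 hw (by
      intro c x hx hxF hxc
      obtain ⟨m, hm, hmx⟩ := hex x hx hxF
      have hc : ∀ n ∈ N, n * x * n⁻¹ = x ∨ n * x * n⁻¹ = m * x * m⁻¹ := by
        intro n hn
        have hy := hconj x hx hxF m hm
        have hz := hconj x hx hxF n hn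
        by_contra hcon
        push Not at hcon
        let q : ↥(R : Subgroup G) → ↥(R : Subgroup G) ⧸ F.subgroupOf R := QuotientGroup.mk
        have hq : ∀ a b : (R : Subgroup G), q a = q b ↔ (a : G)⁻¹ * b ∈ F := fun a b =>
          QuotientGroup.eq
        have e1 : q 1 ≠ q ⟨x, hx⟩ := fun e => hxF (by simpa using (hq _ _).mp e)
        have e2 : q 1 ≠ q ⟨_, hy.1⟩ := fun e => hy.2.1 (by simpa using (hq _ _).mp e)
        have e3 : q 1 ≠ q ⟨_, hz.1⟩ := fun e => hz.2.1 (by simpa using (hq _ _).mp e)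
        have e4 : q ⟨x, hx⟩ ≠ q ⟨_, hy.1⟩ := fun e =>
          hmx (conj_eq_of_mem R (hab x hx hxF) hm ((hq _ _).mp e))
        have e5 : q ⟨x, hx⟩ ≠ q ⟨_, hz.1⟩ := fun e =>
          hcon.1 (conj_eq_of_mem R (hab x hx hxF) hn ((hq _ _).mp e))
        have e6 : q ⟨_, hy.1⟩ ≠ q ⟨_, hz.1⟩ := fun e => by
          have e7 : n * m⁻¹ * (m * x * m⁻¹) * (n * m⁻¹)⁻¹ = n * x * n⁻¹ := by group
          have := conj_eq_of_mem R (hab _ hy.1 hy.2.1) (N.mul_mem hn (N.inv_mem hm))
            (by rw [e7]; exact (hq _ _).mp e)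
          exact hcon.2 (e7 ▸ this)
        have h7 : ({q 1, q ⟨x, hx⟩, q ⟨_, hy.1⟩, q ⟨_, hz.1⟩} : Set _).ncard = 4 := by
          rw [Set.ncard_insert_of_notMem (by simp [e1, e2, e3]),
            Set.ncard_eq_three.mpr ⟨_, _, _, e4, e5, e6, rfl⟩]
        have h8 := Set.ncard_le_card ({q 1, q ⟨x, hx⟩, q ⟨_, hy.1⟩, q ⟨_, hz.1⟩} : Set _)
        have h9 : Nat.card ((R : Subgroup G) ⧸ F.subgroupOf R) = 3 := hi
        omega
      have h5 := two_part hr2 h2 R hm hmx hc
      rw [← hwx c x hxc, ← ht] at h5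
      have h6 := Nat.mul_le_mul_left t (htwo x hx hxF)
      omega)
    rw [hR] at h this
    nlinarith

/-- Let π be a finite set of primes containing 2 and G a finite group. Write k_π(G) for the number of conjugacy classes of G consisting of π-elements (elements all of whose order's prime divisors lie in π) and |G|_π for the π-part of the order of G. If k_π(G) > |G|_π/2, then G has a normal π-complement (a normal subgroup of order prime to π whose index is a π-number) and an abelian Hall subgroup for the set of odd primes in π. -/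
theorem result {G : Type*} [Group G] [Finite G] (π : Finset ℕ) (hπ : ∀ r ∈ π, r.Prime) (h2 : 2 ∈ π)
    (hk : π.prod (fun r => r ^ (Nat.card G).factorization r) < 2 * Nat.card {c : ConjClasses G // ∀ x ∈ c.carrier, ∀ r : ℕ, r.Prime → r ∣ orderOf x → r ∈ π}) :
    (∃ N : Subgroup G, N.Normal ∧ (∀ r : ℕ, r.Prime → r ∣ Nat.card ↥N → r ∉ π) ∧ ∀ r : ℕ, r.Prime → r ∣ N.index → r ∈ π) ∧ ∃ H : Subgroup G, Cfsg.IsPiHall ((↑π : Set ℕ) \ {2}) H ∧ IsMulCommutative ↥H := by
  classical
  change _ < 2 * Nat.card (H25.PiCl π G) at hk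
  have hn2 : HasNormalPComplement 2 G := by
    have P : Sylow 2 G := default
    refine H25.hasNormalPComplement_two_of_card_pCl P ?_
    have h1 := H25.card_piCl_le_mul (G := G) (p := 2) π hπ
    rw [← Finset.mul_prod_erase π _ h2, ← P.card_eq_multiplicity] at hk
    refine Nat.lt_of_mul_lt_mul_right (a := ∏ s ∈ π.erase 2, s ^ (Nat.card G).factorization s) ?_
    exact hk.trans_le (by rw [mul_assoc]; exact Nat.mul_le_mul_left _ h1)
  have key : ∀ r ∈ π.erase 2, HasNormalPComplement r G ∧ commutator G ≤ pResidual r G := by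
    intro r hr
    obtain ⟨hr2, hr⟩ := Finset.mem_erase.mp hr
    have : Fact r.Prime := ⟨hπ r hr⟩
    have R : Sylow r G := default
    have := Fintype.ofFinite (H25.PCl r G)
    have h2' : 2 ∈ π.erase r := Finset.mem_erase.mpr ⟨hr2.symm, h2⟩
    have hπ' : ∀ s ∈ π.erase r, s.Prime := fun s hs => hπ s (Finset.mem_of_mem_erase hs)
    have hπ'' : ∀ s ∈ (π.erase r).erase 2, s.Prime := fun s hs => hπ' s (Finset.mem_of_mem_erase hs)
    have h1 := H25.card_piCl_le_sum (G := G) (p := r) π
    rw [← Finset.mul_prod_erase π _ hr, ← R.card_eq_multiplicity,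
      ← Finset.mul_prod_erase _ _ h2'] at hk
    set m := ∏ s ∈ (π.erase r).erase 2, s ^ (Nat.card G).factorization s with hm
    have h3 : Nat.card (H25.PiCl π G) ≤ (∑ c : H25.PCl r G,
        2 ^ (Nat.card (Subgroup.centralizer ({H25.clRep c.1} : Set G))).factorization 2) * m := by
      rw [Finset.sum_mul]
      refine h1.trans (Finset.sum_le_sum fun c _ => (H25.card_piCl_le _ hπ' _).trans ?_)
      rw [← Finset.mul_prod_erase _ _ h2']
      exact Nat.mul_le_mul_left _ (H25.prod_pow_factorization_le _ hπ'' Nat.card_pos.ne'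
        (Subgroup.card_subgroup_dvd_card _))
    have h5 := odd_case hr2 hn2 R (by
      refine Nat.lt_of_mul_lt_mul_right (a := m) ?_
      rw [mul_assoc, mul_assoc]
      exact hk.trans_le (Nat.mul_le_mul_left _ h3))
    refine ⟨H3.hasNormalPComplement_of_normalizer_le_centralizer R h5,
      H25.commutator_le_pResidual R ⟨⟨fun a b => Subtype.ext ?_⟩⟩⟩
    exact Subgroup.mem_centralizer_iff.mp (h5 (Subgroup.le_normalizer b.2)) a a.2
  obtain ⟨N, hN, h1, h3, -⟩ := H25.exists_normal_pi_compl π hπ fun r hr => by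
    by_cases hr2 : r = 2
    · exact hr2 ▸ hn2
    · exact (key r (Finset.mem_erase.mpr ⟨hr2, hr⟩)).1
  refine ⟨⟨N, hN, h1, h3⟩, ?_⟩
  rw [← Finset.coe_erase]
  exact H25.exists_abelian_hall _ (fun r hr => hπ r (Finset.mem_of_mem_erase hr))
    (fun r hr => (key r hr).1) fun r hr => (key r hr).2

end Cfsg.Agent.S3898
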