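import Cfsg.Statements.S3899
import Cfsg.Agent.H25.PiCompl

set_option autoImplicit false
open Cfsg

namespace Cfsg.Agent.S3899

/-- Let π be a finite non-empty set of odd primes with smallest member p and G a finite group. Write k_π(G) for the number of conjugacy classes of G consisting of π-elements (elements all of whose order's prime divisors lie in π) and |G|_π for the π-part of the order of G. If k_π(G) > (p + 1)|G|_π/(2p), then G has a normal π-complement (a normal subgroup of order prime to π whose index is a π-number) and an abelian Hall π-subgroup. -/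
theorem result {G : Type*} [Group G] [Finite G] (π : Finset ℕ) (hπ : ∀ r ∈ π, r.Prime) (h2 : 2 ∉ π) (p : ℕ) (hp : p ∈ π)
    (hmin : ∀ r ∈ π, p ≤ r) (hk : (p + 1) * π.prod (fun r => r ^ (Nat.card G).factorization r) < 2 * p * Nat.card {c : ConjClasses G // ∀ x ∈ c.carrier, ∀ r : ℕ, r.Prime → r ∣ orderOf x → r ∈ π}) :
    (∃ N : Subgroup G, N.Normal ∧ (∀ r : ℕ, r.Prime → r ∣ Nat.card ↥N → r ∉ π) ∧ ∀ r : ℕ, r.Prime → r ∣ N.index → r ∈ π) ∧ ∃ H : Subgroup G, Cfsg.IsPiHall (↑π : Set ℕ) H ∧ IsMulCommutative ↥H := by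
  classical
  have key : ∀ r ∈ π, HasNormalPComplement r G ∧ commutator G ≤ pResidual r G := by
    intro r hr
    have : Fact r.Prime := ⟨hπ r hr⟩
    have P : Sylow r G := default
    have h1 := H25.card_piCl_le_mul (G := G) (p := r) π hπ
    rw [← Finset.mul_prod_erase π _ hr, ← P.card_eq_multiplicity] at hk
    set m := ∏ s ∈ π.erase r, s ^ (Nat.card G).factorization s with hm
    have h3 : (p + 1) * Nat.card P < 2 * p * Nat.card (H25.PCl r G) := by
      refine Nat.lt_of_mul_lt_mul_right (a := m) ?_
      calc (p + 1) * Nat.card P * m = (p + 1) * (Nat.card P * m) := by ring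
        _ < _ := hk
        _ ≤ 2 * p * (Nat.card (H25.PCl r G) * m) := Nat.mul_le_mul_left _ h1
        _ = _ := by ring
    have h4 : (r + 1) * Nat.card P < 2 * r * Nat.card (H25.PCl r G) := by
      have hpr := hmin r hr
      have hp0 := (hπ p hp).pos
      refine Nat.lt_of_mul_lt_mul_left (a := p) ?_
      have h5 : p * (r + 1) ≤ r * (p + 1) := by nlinarith
      calc p * ((r + 1) * Nat.card P) = (p * (r + 1)) * Nat.card P := by ring
        _ ≤ (r * (p + 1)) * Nat.card P := Nat.mul_le_mul_right _ h5
        _ = r * ((p + 1) * Nat.card P) := by ring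
        _ < r * (2 * p * Nat.card (H25.PCl r G)) := Nat.mul_lt_mul_of_pos_left h3 (by omega)
        _ = _ := by ring
    have h5 := H25.normalizer_le_centralizer_of_card_pCl P h4
    refine ⟨H3.hasNormalPComplement_of_normalizer_le_centralizer P h5,
      H25.commutator_le_pResidual P ⟨⟨fun a b => Subtype.ext ?_⟩⟩⟩
    exact Subgroup.mem_centralizer_iff.mp (h5 (Subgroup.le_normalizer b.2)) a a.2
  obtain ⟨N, hN, h1, h3, -⟩ := H25.exists_normal_pi_compl π hπ fun r hr => (key r hr).1
  exact ⟨⟨N, hN, h1, h3⟩, H25.exists_abelian_hall π hπ (fun r hr => (key r hr).1)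
    fun r hr => (key r hr).2⟩

end Cfsg.Agent.S3899
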