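import Cfsg.Statements.S3903
import Cfsg.Agent.H25.SmallP
import Cfsg.Agent.H25.Cyc
import Cfsg.Agent.S0556

set_option autoImplicit false
open Cfsg

namespace Cfsg.Agent.S3903

open Subgroup Cfsg.Agent.H20 Cfsg.Agent.H21 Cfsg.Agent.H25

/-- Let N be a proper normal subgroup of the finite group G such that every element x of G outside N has prime power order and has centralizer C_G(x) a maximal subgroup of G. Then N is solvable. -/
theorem result {G : Type*} [Group G] [Finite G] (N : Subgroup G) [N.Normal] (hN : N ≠ ⊤)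
    (h : ∀ x : G, x ∉ N → IsPrimePow (orderOf x) ∧ IsCoatom (Subgroup.centralizer ({x} : Set G))) : Group.IsSolvable ↥N := by
  classical
  have key : ∀ x, x ∉ N → ∀ p : ℕ, p.Prime → p ∣ orderOf x → IsPGroup p C₁⟦x⟧ := by
    intro x hx p hp hd
    haveI := Fact.mk hp
    refine isPi_singleton_iff.mp (isPi_iff.mpr fun q hq hqd => ?_)
    by_contra hne
    obtain ⟨y, hy, hyq⟩ := exists_prime_order_mem hq hqd
    obtain ⟨r, hr, hu⟩ := isPrimePow_iff_unique_prime_dvd.mp (h x hx).1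
    have hc : (orderOf x).Coprime q := ((Nat.Prime.coprime_iff_not_dvd hq).mpr fun h1 =>
      hne ((hu q ⟨hq, h1⟩).trans (hu p ⟨hp, hd⟩).symm)).symm
    have hcomm : Commute x y := (mem_cent1.mp hy).symm
    by_cases hxy : x * y ∈ N
    · have h1 := pow_mem hxy q
      rw [hcomm.mul_pow, ← hyq, pow_orderOf_eq_one, mul_one, hyq] at h1
      exact hx (zpowers_le.mpr h1 (mem_zpowers_pow_iff.mpr hc.symm))
    · obtain ⟨s, hs, hv⟩ := isPrimePow_iff_unique_prime_dvd.mp (h _ hxy).1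
      rw [hcomm.orderOf_mul_eq_mul_orderOf_of_coprime (hyq ▸ hc), hyq] at hv
      exact hne ((hv q ⟨hq, dvd_mul_left _ _⟩).trans (hv p ⟨hp, hd.mul_right _⟩).symm)
  obtain ⟨x, hx⟩ : ∃ x, x ∉ N := by
    by_contra hc
    push Not at hc
    exact hN (eq_top_iff.mpr fun x _ => hc x)
  obtain ⟨p, ⟨hp, hpx⟩, -⟩ := isPrimePow_iff_unique_prime_dvd.mp (h x hx).1
  haveI := Fact.mk hp
  have hP := key x hx p hp hpx
  have hM := (h x hx).2
  set P := C₁⟦x⟧
  by_cases hNP : N ≤ P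
  · haveI := (hP.to_le hNP).isNilpotent
    infer_instance
  by_cases hG : IsPGroup p G
  · haveI := hG.isNilpotent
    infer_instance
  have hsup : P ⊔ N = ⊤ := hM.2 _ (lt_of_le_of_ne le_sup_left fun e => hNP (le_sup_right.trans e.ge))
  have hq : IsPGroup p (G ⧸ N) := by
    refine hP.of_surjective ((QuotientGroup.mk' N).comp P.subtype) fun c => ?_
    obtain ⟨g, rfl⟩ := QuotientGroup.mk_surjective c
    obtain ⟨u, hu, v, hv, rfl⟩ := mem_sup_of_normal_right.mp (hsup ▸ mem_top g)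
    exact ⟨⟨u, hu⟩, by simp [hv]⟩
  have syl : ∀ A : Subgroup G, IsPGroup p A → IsCoatom A → ∃ S : Sylow p G, (S : Subgroup G) = A := by
    intro A h1 h2
    obtain ⟨S, hS⟩ := h1.exists_le_sylow
    refine ⟨S, (hS.eq_or_lt.resolve_right fun hlt => hG ?_).symm⟩
    exact (h2.2 _ hlt ▸ S.isPGroup').of_surjective (⊤ : Subgroup G).subtype fun g => ⟨⟨g, trivial⟩, rfl⟩
  obtain ⟨S, hS⟩ := syl P hP hM
  have conj : ∀ y, y ∉ N → ∃ g : G, g * y * g⁻¹ ∈ P ⊓ C⟦P⟧ := by
    intro y hy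
    obtain ⟨k, hk⟩ := hq (y : G ⧸ N)
    obtain ⟨T, hT⟩ := syl _ (key y hy p hp ((prime_dvd_orderOf_of_pow_eq_one hp hk
      (mt (QuotientGroup.eq_one_iff y).mp hy)).trans (orderOf_map_dvd (QuotientGroup.mk' N) y))) (h y hy).2
    obtain ⟨g, hg⟩ := MulAction.exists_smul_eq G T S
    have e : ∀ z, z ∈ P ↔ g⁻¹ * z * g ∈ C₁⟦y⟧ := fun z => by
      rw [← hS, ← hT, ← hg]; exact H11.mem_sylow_smul
    refine ⟨g, (e _).mpr (by simp [mem_cent1, mul_assoc]), fun z hz => ?_⟩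
    have := mem_cent1.mp ((e z).mp hz)
    calc z * (g * y * g⁻¹) = g * (g⁻¹ * z * g * y) * g⁻¹ := by group
      _ = _ := by rw [this]; group
  set Z := P ⊓ C⟦P⟧
  have hcount : ((N : Set G)ᶜ).ncard ≤ P.index * ((Z : Set G) \ (N ⊓ Z : Subgroup G)).ncard := by
    rw [← Nat.card_coe_set_eq, ← Nat.card_coe_set_eq, index, ← Nat.card_prod]
    refine Nat.card_le_card_of_surjective (fun c => ⟨c.1.out * c.2 * c.1.out⁻¹, fun h1 => c.2.2.2
      ⟨by simpa [mul_assoc] using (inferInstance : N.Normal).conj_mem' _ h1 c.1.out, c.2.2.1⟩⟩) ?_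
    rintro ⟨y, hy⟩
    obtain ⟨g, hg⟩ := conj y hy
    refine ⟨(((g⁻¹ : G) : G ⧸ P), ⟨_, hg, fun h1 => hy ?_⟩), Subtype.ext ?_⟩
    · simpa [mul_assoc] using (inferInstance : N.Normal).conj_mem' _ h1.1 g
    · obtain ⟨u, hu⟩ := QuotientGroup.mk_out_eq_mul P g⁻¹
      change (QuotientGroup.mk g⁻¹ : G ⧸ P).out * (g * y * g⁻¹) * (QuotientGroup.mk g⁻¹ : G ⧸ P).out⁻¹ = y
      rw [hu, mul_assoc g⁻¹, hg.2 u u.2]
      group
  rw [Set.ncard_compl, Set.ncard_diff (SetLike.coe_subset_coe.mpr inf_le_right), ← Nat.card_coe_set_eq,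
    ← Nat.card_coe_set_eq, ← Nat.card_coe_set_eq, SetLike.coe_sort_coe, SetLike.coe_sort_coe,
    SetLike.coe_sort_coe] at hcount
  have e1 := N.card_mul_index
  have e2 := P.card_mul_index
  have e3 := card_inf_mul_relIndex N Z
  have e4 : N.relIndex Z ≤ N.index := Nat.le_of_dvd (Nat.pos_of_ne_zero index_ne_zero_of_finite)
    (relIndex_dvd_index_of_normal N Z)
  have e5 : 1 < N.index := one_lt_index_of_ne_top hN
  have e6 : 0 < P.index := Nat.pos_of_ne_zero index_ne_zero_of_finite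
  have e7 : 0 < N.relIndex Z := relIndex_pos N Z
  have hle : ♯P ≤ ♯Z := by
    rw [← e3] at hcount ⊢
    rw [← e1] at hcount e2
    generalize ♯N = n, N.index = m, ♯P = a, P.index = i, ♯(N ⊓ Z) = b, N.relIndex Z = m' at *
    obtain ⟨m, rfl⟩ : ∃ j, m = j + 1 := ⟨m - 1, by omega⟩
    obtain ⟨m', rfl⟩ : ∃ j, m' = j + 1 := ⟨m' - 1, by omega⟩
    rw [mul_add_one, mul_add_one, Nat.add_sub_cancel, Nat.add_sub_cancel] at hcount
    have h1 : i * (m * a) ≤ i * (m * (b * (m' + 1))) := calc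
      i * (m * a) = n * m * (m + 1) := by linear_combination m * e2
      _ ≤ i * (b * m') * (m + 1) := Nat.mul_le_mul_right _ hcount
      _ = i * (b * (m' * m + m')) := by ring
      _ ≤ i * (b * (m' * m + m)) := by gcongr; omega
      _ = _ := by ring
    exact Nat.le_of_mul_le_mul_left (Nat.le_of_mul_le_mul_left h1 e6) (by omega)
  have hc : IsMulCommutative P := eq_of_le_of_card_ge (inf_le_left : Z ≤ P) hle ▸ comm_center P
  haveI := hc
  haveI : Group.IsSolvable G := ⟨⟨3, S0556.result P hM⟩⟩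
  infer_instance

end Cfsg.Agent.S3903
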