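import Cfsg.Statements.S3904
import Cfsg.Agent.H25.MaxCent

set_option autoImplicit false
open Cfsg

namespace Cfsg.Agent.S3904

open Subgroup Cfsg.Agent.H20 Cfsg.Agent.H21 Cfsg.Agent.H25
open scoped Pointwise

/-- Let G be a non-abelian finite group in which the centralizer of every non-central element is a maximal subgroup. Then G/Z(G) is either an elementary abelian p-group for some prime p, or a minimal non-abelian group (non-abelian with all proper subgroups abelian) of order p^a · q for distinct primes p, q with a normal Sylow p-subgroup. -/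
theorem result {G : Type*} [Group G] [Finite G] (hna : ¬ IsMulCommutative G)
    (h : ∀ x : G, x ∉ Subgroup.center G → IsCoatom (Subgroup.centralizer ({x} : Set G))) :
    (∃ p : ℕ, p.Prime ∧ Cfsg.IsElementaryAbelian p (⊤ : Subgroup (G ⧸ Subgroup.center G))) ∨
    (¬ IsMulCommutative (G ⧸ Subgroup.center G) ∧ (∀ H : Subgroup (G ⧸ Subgroup.center G), H ≠ ⊤ → IsMulCommutative ↥H) ∧
      ∃ p q a : ℕ, p.Prime ∧ q.Prime ∧ p ≠ q ∧ Nat.card (G ⧸ Subgroup.center G) = p ^ a * q ∧
        ∀ P : Subgroup (G ⧸ Subgroup.center G), Nat.card ↥P = p ^ a → P.Normal) := by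
  have h0 : MC (⊤ : Subgroup G) := fun x _ hx => h x (by rwa [coe_top, centralizer_univ] at hx)
  have he : (center (⊤ : Subgroup G)).map (topEquiv (G := G)) = center G := by
    ext z
    rw [mem_map]
    constructor
    · rintro ⟨y, hy, rfl⟩
      rw [mem_center_iff] at hy ⊢
      exact fun g => congrArg Subtype.val (hy ⟨g, mem_top g⟩)
    · intro hz
      exact ⟨⟨z, mem_top z⟩, mem_center_iff.mpr fun g => Subtype.ext (mem_center_iff.mp hz g), rfl⟩
  have e := QuotientGroup.congr _ _ (topEquiv (G := G)) he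
  have ei : Function.Injective e.toMonoidHom := e.injective
  have es : Function.Surjective e.toMonoidHom := e.surjective
  have hel : ∀ (p : ℕ) (K : Subgroup _), IsElementaryAbelian p K →
      IsElementaryAbelian p (K.map e.toMonoidHom) := by
    intro p K hK
    refine ⟨H3.isMulCommutative_iff_mem.mpr ?_, ?_⟩
    · rintro _ ⟨a, ha, rfl⟩ _ ⟨b, hb, rfl⟩
      rw [← map_mul, ← map_mul, H3.isMulCommutative_iff_mem.mp hK.1 a ha b hb]
    · rintro _ ⟨a, ha, rfl⟩
      rw [← map_pow, hK.2 a ha, map_one]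
  rcases h0.main with ⟨p, hp, h1⟩ | ⟨Q0, K0, p, hp, hF0, hq0, hn0, hK0, hE0⟩
  · left
    refine ⟨p, hp, ?_⟩
    have := hel p _ h1
    rwa [map_top_of_surjective _ es] at this
  right
  have hF := H26.isFrobeniusComplement_map_equiv hF0 e
  have hE := hel p _ hE0
  have hq : (Nat.card (Q0.map e.toMonoidHom)).Prime := by
    rwa [card_map_of_injective ei]
  obtain ⟨K1, h1, -, h2⟩ := H4.frobenius_theorem Q0 hF0
  obtain rfl : K1 = K0 := SetLike.coe_injective (h1.trans hK0.symm)
  haveI hn : (K1.map e.toMonoidHom).Normal := hn0.map _ e.surjective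
  have hc : IsComplement' (K1.map e.toMonoidHom) (Q0.map e.toMonoidHom) := by
    refine isComplement'_of_card_mul_and_disjoint ?_ ?_
    · rw [card_map_of_injective ei, card_map_of_injective ei, h2.card_mul]
      exact Nat.card_congr e.toEquiv
    · rw [disjoint_iff, ← map_inf _ _ _ ei, h2.disjoint.eq_bot, Subgroup.map_bot]
  generalize K1.map e.toMonoidHom = K at *
  generalize Q0.map e.toMonoidHom = Q at *
  have hker := H26.frobeniusKernel_eq_of_isComplement' hF hc
  have hs := QuotientGroup.mk'_surjective (center G)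
  haveI := Fact.mk hp
  have hKp := isPGroup_of_elem hE
  obtain ⟨a, ha⟩ := hKp.exists_card_eq
  have hK1 : K ≠ ⊥ := by
    rintro rfl
    exact hF.2.1 (by simpa using hc.sup_eq_top)
  have hcop := H1.coprime_card_of_fpf (A := Q) (K := K) (by rw [normalizer_eq_top]; exact le_top)
    (H1.fpf_of_isFrobeniusComplement hF hc.disjoint)
  refine ⟨fun hcm => ?_, fun H hH => ?_, p, _, a, hp, hq, fun e1 => ?_, ?_, fun P hP => ?_⟩
  · obtain ⟨⟨x, hx⟩, hx1⟩ := ne_bot_iff_exists_ne_one.mp hF.1
    refine hF.2.1 (eq_top_iff.mpr fun g _ => H1.centralizer_le_of_isFrobeniusComplement hF hx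
      (fun e => hx1 (Subtype.ext e)) (mem_centralizer_singleton_iff.mpr (mul_comm' _ _)))
  · by_cases hHK : H ≤ K
    · exact H3.isMulCommutative_iff_mem.mpr fun a ha b hb =>
        H3.isMulCommutative_iff_mem.mp hE.1 a (hHK ha) b (hHK hb)
    obtain ⟨y, hy, hy'⟩ := SetLike.not_le_iff_exists.mp hHK
    rw [← SetLike.mem_coe, ← hker, frobeniusKernel, Set.mem_setOf_eq] at hy'
    push Not at hy'
    obtain ⟨hy1, g, hg⟩ := hy'
    have hF' := H1.IsFrobeniusComplement.conj_smul hF g
    have hq' : Nat.card (MulAut.conj g • Q : Subgroup _) = Nat.card Q :=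
      Nat.card_congr (equivSMul (MulAut.conj g) Q).symm.toEquiv
    generalize MulAut.conj g • Q = Q' at *
    haveI := Fact.mk hq
    have hz : Q' ≤ zpowers y := by
      intro u hu
      obtain ⟨t, ht⟩ := mem_zpowers_of_prime_card hq' (g := ⟨y, hg⟩) (g' := ⟨u, hu⟩)
        (fun e => hy1 (congrArg Subtype.val e))
      exact ⟨t, congrArg Subtype.val ht⟩
    obtain ⟨x, rfl⟩ := hs y
    have hx : x ∉ center G := fun e => hy1 ((QuotientGroup.eq_one_iff x).mpr e)
    have h3 : C₁⟦x⟧ ≤ Q'.comap (QuotientGroup.mk' _) := fun u hu =>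
      H1.centralizer_le_of_isFrobeniusComplement hF' hg hy1 (by
        rw [mem_centralizer_singleton_iff, ← map_mul, ← map_mul, mem_centralizer_singleton_iff.mp hu])
    have h4 := ((h x hx).le_iff_eq (b := H.comap (QuotientGroup.mk' _)) (fun e => hH (by
      rw [← map_comap_eq_self_of_surjective hs H, e, map_top_of_surjective _ hs]))).mp
      (h3.trans (comap_mono (hz.trans (zpowers_le.mpr hy))))
    have h5 : H ≤ zpowers (QuotientGroup.mk' (center G) x) := by
      intro u hu
      obtain ⟨u, rfl⟩ := hs u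
      exact hz (h3 (h4 ▸ (show u ∈ H.comap _ from hu)))
    exact H3.isMulCommutative_iff_mem.mpr fun a ha b hb =>
      H3.isMulCommutative_iff_mem.mp inferInstance a (h5 ha) b (h5 hb)
  · have h3 : p ∣ Nat.card K := (hKp.card_eq_or_dvd.resolve_left fun e => hK1 (card_eq_one.mp e))
    exact hp.one_lt.ne' (Nat.eq_one_of_dvd_coprimes hcop (e1 ▸ dvd_rfl) h3)
  · rw [← hc.card_mul, ha]
  · have hPp : IsPGroup p P := IsPGroup.of_card hP
    have h3 : SylowOf p K ⊤ := by
      refine sylowOf_mk le_top hKp ?_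
      rw [relIndex_top_right, hc.symm.index_eq_card]
      intro hd
      have h3 : p ∣ Nat.card K := (hKp.card_eq_or_dvd.resolve_left fun e => hK1 (card_eq_one.mp e))
      exact hp.one_lt.ne' (Nat.eq_one_of_dvd_coprimes hcop hd h3)
    have h4 : P ≤ K := h3.pgroup_le_of_norm hPp le_top
      (Or.inl (by rw [normalizer_eq_top]; exact le_top))
    rw [eq_of_le_of_card_ge h4 (by rw [ha, hP])]
    exact hn

end Cfsg.Agent.S3904
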