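import Cfsg.Statements.S3907
import Cfsg.Agent.H25.GK4

set_option autoImplicit false
open Cfsg

namespace Cfsg.Agent.S3907

open Subgroup Cfsg.Agent.H21 Cfsg.Agent.H25.GK

/-- Let p be a prime and let k ≥ 3 and c ≥ 0 be integers. There is a bound B depending only on p, k and c such that the following holds for every finite group G of order prime to p and every elementary abelian subgroup A of order p^k of the automorphism group of G: if, for every non-identity a ∈ A, the (k−2)-th term of the lower central series of the fixed-point subgroup C_G(a) (the first term being the whole group) is nilpotent of class at most c, then the (k−2)-th term of the lower central series of G is nilpotent of class at most B. -/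
theorem result (p k c : ℕ) (hp : p.Prime) (hk : 3 ≤ k) :
    ∃ B : ℕ, ∀ (G : Type) [Group G] [Finite G], (Nat.card G).Coprime p →
      ∀ A : Subgroup (MulAut G), Cfsg.IsElementaryAbelian p A → Nat.card ↥A = p ^ k →
        (∀ a ∈ A, a ≠ 1 → ((⊤ : Subgroup ↥((a : MulAut G).toMonoidHom.eqLocus (MonoidHom.id G))).lowerCentralSeries (k - 3)).lowerCentralSeries c = ⊥) →
        ((⊤ : Subgroup G).lowerCentralSeries (k - 3)).lowerCentralSeries B = ⊥ := by
  refine ⟨fb p (tg (2 ^ p ^ k) (k - 3)) c (c + (k - 3)), fun G _ _ hc A hA hcard h => ?_⟩
  haveI := Fact.mk hp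
  have h1 := (hol_amb hc hA hk hcard).main_lcs (c := c) ((Hol.card_r_top _).trans hcard) hk (by
    rintro _ ⟨a, -, rfl⟩ ha
    rw [hol_cent, ← map_lowerCentralSeries, ← map_lowerCentralSeries,
      h a a.2 (fun e => ha (by rw [show a = 1 from Subtype.ext e, map_one])), Subgroup.map_bot])
  rwa [← map_lowerCentralSeries, ← map_lowerCentralSeries,
    map_eq_bot_iff_of_injective _ (Hol.l_inj _)] at h1

end Cfsg.Agent.S3907
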