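import Cfsg.Statements.S3908
import Cfsg.Agent.H25.EqConj

set_option autoImplicit false
open Cfsg

namespace Cfsg.Agent.S3908

open Cfsg.Agent.H25 Cfsg.Agent.H21

/-- Let G be a finite group in which any two abelian subgroups of the same order are conjugate. Then a Sylow 2-subgroup of G is cyclic, elementary abelian or generalized quaternion, and for an odd prime p a Sylow p-subgroup of G is cyclic or has exponent dividing p. -/
theorem result {G : Type*} [Group G] [Finite G] (hB : ∀ A B : Subgroup G, IsMulCommutative ↥A → IsMulCommutative ↥B → Nat.card ↥A = Nat.card ↥B → ∃ g : G, B = A.map (MulAut.conj g).toMonoidHom) :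
    (∀ P : Sylow 2 G, IsCyclic ↥(P : Subgroup G) ∨ Cfsg.IsElementaryAbelian 2 (P : Subgroup G) ∨ ∃ k : ℕ, Nonempty (↥(P : Subgroup G) ≃* QuaternionGroup (2 ^ k))) ∧
    ∀ (p : ℕ) [Fact p.Prime], p ≠ 2 → ∀ P : Sylow p G, IsCyclic ↥(P : Subgroup G) ∨ ∀ x ∈ (P : Subgroup G), x ^ p = 1 := by
  constructor
  · intro P
    haveI : Fact (Nat.Prime 2) := ⟨Nat.prime_two⟩
    rcases exp_or_cyclic_or_quaternion (G := G) (p := 2) (fun A B hA hB' h1 h2 =>
      hB A B hA hB' (h1.trans h2.symm)) P.isPGroup' with h | h | ⟨-, n, -, h⟩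
    · exact Or.inr (Or.inl ⟨comm_of_sq_eq_one h, h⟩)
    · exact Or.inl h
    · exact Or.inr (Or.inr ⟨n, h⟩)
  · intro p _ hp P
    rcases exp_or_cyclic_or_quaternion (G := G) (p := p) (fun A B hA hB' h1 h2 =>
      hB A B hA hB' (h1.trans h2.symm)) P.isPGroup' with h | h | ⟨h, -⟩
    · exact Or.inr h
    · exact Or.inl h
    · exact absurd h hp

end Cfsg.Agent.S3908
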