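import Cfsg.Statements.S3910
import Cfsg.Agent.S3909
import Cfsg.Agent.H1.Quaternion
import Cfsg.Agent.H25.Real
import Cfsg.Agent.H25.Cover

set_option autoImplicit false
open Cfsg

namespace Cfsg.Agent.S3910

open Subgroup

/-- A finite nilpotent group in which any two abelian subgroups of the same order are conjugate is cyclic. -/
theorem result {G : Type*} [Group G] [Finite G] (hB : ∀ A B : Subgroup G, IsMulCommutative ↥A → IsMulCommutative ↥B → Nat.card ↥A = Nat.card ↥B → ∃ g : G, B = A.map (MulAut.conj g).toMonoidHom) (hnil : Group.IsNilpotent G) : IsCyclic G := by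
  have key : ∀ (p : ℕ), p.Prime → ∀ P : Sylow p G, IsCyclic (P : Subgroup G) := by
    intro p hp P
    have : Fact p.Prime := ⟨hp⟩
    have hPn : (P : Subgroup G).Normal := Sylow.normal_of_normalizerCondition
      (Group.normalizerCondition_of_isNilpotent) P
    -- subgroups normalized by P are normal
    have hnorm : ∀ M : Subgroup G, M ≤ P → (P : Subgroup G) ≤ normalizer (M : Set G) → M.Normal := by
      intro M hM hn
      refine normalizer_eq_top_iff.1 (eq_top_iff.2 fun g _ => ?_)
      apply H25.mem_of_forall_prime_part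
      intro q hq _ k a hk
      by_cases hqp : q = p
      · subst hqp
        have : Fact q.Prime := ⟨hq⟩
        exact hn ((H1.le_pCore_of_isNilpotent (H25.isPGroup_zpowers_of_pow_eq_one hk)).trans
          (H1.pCore_le_sylow P) (mem_zpowers _))
      · refine centralizer_le_normalizer _ (mem_centralizer_iff.2 fun m hm => ?_)
        obtain ⟨j, hj⟩ := H25.pow_eq_one_of_mem_isPGroup P.isPGroup' (hM hm)
        exact H25.commute_of_nilpotent_of_pow (A := ⊤) inferInstance (mem_top _) (mem_top _) ⟨j, hj⟩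
          (H25.coprime_orderOf_of_pow_eq_one hq hp hqp hk)
    have huniq : ∀ x y : (P : Subgroup G), orderOf x = p → y ^ p = 1 → y ∈ zpowers x := by
      intro x y hx hy
      have hP0 : (P : Subgroup G) ≠ ⊥ := fun h => by
        have h1 : (x : G) ∈ (⊥ : Subgroup G) := h ▸ x.2
        rw [(Subtype.ext h1 : x = 1), orderOf_one] at hx
        exact hp.one_lt.ne hx
      obtain ⟨z, hz, hzp⟩ := H1.exists_prime_orderOf_mem
        (H1.inf_centralizer_ne_bot_of_isPGroup P.isPGroup' P.isPGroup' le_normalizer hP0)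
      obtain ⟨j, hj⟩ := H25.pow_eq_one_of_mem_isPGroup P.isPGroup' hz.1
      have hzo := H25.eq_of_prime_orderOf_of_pow_eq_one hp hj hzp
      have hzn := hnorm (zpowers z) (zpowers_le.2 hz.1) (H10.le_normalizer_of_le_centralizer
        (le_centralizer_iff.1 (zpowers_le.2 hz.2)))
      have h1 := (Cfsg.Agent.S3909.result hB (zpowers z)).1
      have hx' := h1 x ⟨z, mem_zpowers z, by rw [hzo, orderOf_coe, hx]⟩
      by_cases hy1 : y = 1
      · rw [hy1]; exact one_mem _
      have hy2 : orderOf y = p := orderOf_eq_prime hy hy1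
      have hy' := h1 y ⟨z, mem_zpowers z, by rw [hzo, orderOf_coe, hy2]⟩
      obtain ⟨i, hi⟩ := H25.mem_zpowers_of_orderOf_dvd_of_isCyclic hx' hy'
        (by rw [orderOf_coe, orderOf_coe, hx, hy2])
      exact ⟨i, Subtype.ext hi⟩
    rcases H1.isCyclic_or_quaternion_gens P.isPGroup' huniq with h | ⟨rfl, n, a, b, hn, ha, hb, hab, hbb, hgen⟩
    · exact h
    exfalso
    have hMn := hnorm (zpowers (a : G)) (zpowers_le.2 a.2) (by
      have hb' : (b : G) ∈ normalizer ((zpowers (a : G) : Subgroup G) : Set G) :=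
        H25.mem_normalizer_zpowers_of_inv (congrArg Subtype.val hab)
      have hm : ∀ c : (P : Subgroup G), c ∈ zpowers a → (c : G) ∈ zpowers (a : G) := by
        rintro c ⟨i, rfl⟩; exact ⟨i, rfl⟩
      intro c hc
      by_cases h : (⟨c, hc⟩ : (P : Subgroup G)) ∈ zpowers a
      · exact le_normalizer (hm _ h)
      · exact ((normalizer _).mul_mem_cancel_left (inv_mem hb')).1 (le_normalizer (hm _ (hgen _ h))))
    obtain ⟨m, rfl⟩ : ∃ m, n = m + 1 := ⟨n - 1, by omega⟩
    have h4 : orderOf (a ^ 2 ^ m) = 4 := by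
      rw [orderOf_pow_of_dvd (by positivity) (by rw [ha]; exact Dvd.intro 4 (by ring)), ha]
      exact Nat.div_eq_of_eq_mul_left (by positivity) (by ring)
    have h5 : orderOf b = 4 := by
      have h6 : b ^ 2 = (a ^ 2 ^ m) ^ 2 := by rw [pow_two, hbb, ← pow_mul, pow_succ]
      refine orderOf_eq_prime_pow (p := 2) (n := 1) ?_ ?_
      · rw [pow_one, h6]
        intro h
        have := orderOf_dvd_of_pow_eq_one h
        rw [h4] at this
        omega
      · rw [pow_succ, pow_mul, pow_one, h6, ← pow_mul, show 2*2 = 4 from rfl, ← h4, pow_orderOf_eq_one]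
    obtain ⟨i, hi⟩ := (Cfsg.Agent.S3909.result hB (zpowers (a : G))).1 b
      ⟨(a ^ 2 ^ m : (P : Subgroup G)), pow_mem (mem_zpowers _) _, by
        rw [orderOf_coe, orderOf_coe, h4, h5]⟩
    exact hb ⟨i, Subtype.ext hi⟩
  have : IsZGroup G := ⟨key⟩
  infer_instance

end Cfsg.Agent.S3910
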