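import Cfsg.Statements.S3917
import Cfsg.Agent.H1.Quaternion
import Cfsg.Agent.H25.Cyc
import Cfsg.Agent.H3.PGroup1

set_option autoImplicit false
open Cfsg

namespace Cfsg.Agent.S3917

open Subgroup

/-- Say that a group has self-centralizing non-cyclic subgroups when every non-cyclic subgroup H satisfies C_G(H) ≤ H. A finite abelian group with self-centralizing non-cyclic subgroups is cyclic or elementary abelian of order p² for a prime p. -/
theorem result {G : Type*} [CommGroup G] [Finite G] (hX : (∀ H : Subgroup G, ¬ IsCyclic ↥H → Subgroup.centralizer (H : Set G) ≤ H)) :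
    IsCyclic G ∨ ∃ p : ℕ, p.Prime ∧ Nat.card G = p ^ 2 ∧ Monoid.exponent G = p := by
  by_cases hc : IsCyclic G
  · exact Or.inl hc
  right
  have htop : ∀ H : Subgroup G, ¬ IsCyclic H → H = ⊤ := fun H hH =>
    eq_top_iff.2 fun g _ => hX H hH (mem_centralizer_iff.2 fun h _ => mul_comm h g)
  have : ¬ IsZGroup G := fun h => hc inferInstance
  obtain ⟨p, hp, P, hP⟩ : ∃ p : ℕ, p.Prime ∧ ∃ P : Sylow p G, ¬ IsCyclic (P : Subgroup G) := by
    by_contra h
    push Not at h
    exact this ⟨h⟩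
  have : Fact p.Prime := ⟨hp⟩
  have hG : IsPGroup p G := by
    have := P.isPGroup'
    rw [htop _ hP] at this
    exact this.of_equiv topEquiv
  obtain ⟨x, y, hx, hy, hxy⟩ : ∃ x y : G, orderOf x = p ∧ y ^ p = 1 ∧ y ∉ zpowers x := by
    by_contra h
    push Not at h
    exact hc (H1.isCyclic_of_unique_order_p hG h)
  have hcard := H3.card_sup_zpowers (p := p) (N := zpowers x) (x := y)
    (by rw [normalizer_eq_top]; trivial) hxy (hy ▸ one_mem _)
  rw [Nat.card_zpowers, hx] at hcard
  have hexp : ∀ g ∈ zpowers x ⊔ zpowers y, g ^ p = 1 := by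
    intro g hg
    obtain ⟨_, ⟨i, rfl⟩, _, ⟨j, rfl⟩, rfl⟩ := mem_sup.1 hg
    simp only
    rw [mul_pow, ← zpow_natCast, ← zpow_natCast, ← zpow_mul, ← zpow_mul, mul_comm i, mul_comm j,
      zpow_mul, zpow_mul, zpow_natCast, zpow_natCast, hy, ← hx, pow_orderOf_eq_one]
    simp
  have h1 := htop (zpowers x ⊔ zpowers y) (fun h => by
    obtain ⟨g, hg⟩ := IsCyclic.exists_ofOrder_eq_natCard (α := ↥(zpowers x ⊔ zpowers y))
    have h2 := orderOf_dvd_of_pow_eq_one (hexp g g.2)
    rw [orderOf_coe, hg, hcard] at h2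
    have := Nat.le_of_dvd hp.pos h2
    nlinarith [hp.one_lt])
  rw [h1] at hcard hexp
  refine ⟨p, hp, by rw [pow_two, ← hcard, card_top], Nat.dvd_antisymm
    (Monoid.exponent_dvd_of_forall_pow_eq_one fun g => hexp g trivial)
    (hx ▸ Monoid.order_dvd_exponent x)⟩

end Cfsg.Agent.S3917
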