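import Cfsg.Statements.S3918
import Cfsg.Agent.H25.SmallP
import Cfsg.Agent.BG.S04a
import Cfsg.Agent.H3.PGroup1

set_option autoImplicit false
open Cfsg

namespace Cfsg.Agent.S3918

open Subgroup Cfsg.Agent.H20 Cfsg.Agent.H21 Cfsg.Agent.H25

/-- Say that a group has self-centralizing non-cyclic subgroups when every non-cyclic subgroup H satisfies C_G(H) ≤ H. For an odd prime p, a finite non-abelian p-group has self-centralizing non-cyclic subgroups if and only if it has order p³. -/
theorem result {G : Type*} [Group G] [Finite G] {p : ℕ} [Fact p.Prime] (hp : p ≠ 2) (hG : IsPGroup p G) (hna : ¬ IsMulCommutative G) :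
    (∀ H : Subgroup G, ¬ IsCyclic ↥H → Subgroup.centralizer (H : Set G) ≤ H) ↔ Nat.card G = p ^ 3 := by
  have hpp : p.Prime := Fact.out
  obtain ⟨n, hn⟩ := IsPGroup.iff_card.mp hG
  have h3 := cube_dvd_card hG hna
  constructor
  · intro h
    have hc : ¬ IsCyclic (⊤ : Subgroup G) := fun hc => hna (comm_top_iff.mp (comm_of_cyclic hc))
    obtain ⟨E, hE, -, he, hEc⟩ := BG.ex_odd_normal_p2Elem (hG.to_subgroup ⊤)
      (odd_of_pgroup hp (hG.to_subgroup ⊤)) hc
    haveI := hE.normal
    have h1 := H3.index_centralizer_le hG 2 E hEc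
    have h2 := card_le (h E (not_cyclic_of_exp hEc he.2))
    apply le_antisymm _ (Nat.le_of_dvd Nat.card_pos h3)
    rw [← (centralizer (E : Set G)).card_mul_index, pow_succ]
    exact Nat.mul_le_mul (hEc ▸ h2) (by simpa using h1)
  · intro hc H hH
    have h1 : ♯H ∣ p ^ 3 := hc ▸ card_dvd_card H
    obtain ⟨k, hk, e⟩ := (Nat.dvd_prime_pow hpp).mp h1
    interval_cases k
    · exact absurd (by rw [eq_bot_of_card e]; infer_instance) hH
    · exact absurd (isCyclic_of_card_prime (by rw [e, pow_one]; exact hpp)) hH
    · have hi : H.index = p := by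
        have := H.card_mul_index
        rw [e, hc, pow_succ] at this
        exact Nat.eq_of_mul_eq_mul_left (pow_pos hpp.pos 2) this
      have hab : IsMulCommutative H := ⟨⟨IsPGroup.commutative_of_card_eq_prime_sq e⟩⟩
      rcases eq_or_eq_top_of_index_prime hi (comm_iff_le_cent.mp hab) with h | h
      · exact h.le
      · exfalso
        have h2 : H ≤ center G := by rw [← cent_top, cent_comm, h]
        have h4 := (sq_dvd_index_center hG hna).trans (index_dvd_of_le h2)
        rw [hi] at h4
        have := Nat.le_of_dvd hpp.pos h4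
        have := hpp.one_lt
        nlinarith
    · rw [eq_top_of_card_eq H (by rw [e, hc])]; exact le_top

end Cfsg.Agent.S3918
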