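import Cfsg.Statements.S3919
import Cfsg.Agent.H25.SmallP
import Cfsg.Agent.S0112
import Cfsg.Agent.S0113
import Cfsg.Agent.H25.TIInv

set_option autoImplicit false
open Cfsg

namespace Cfsg.Agent.S3919

open Subgroup Cfsg.Agent.H20 Cfsg.Agent.H21 Cfsg.Agent.H25

/-- Say that a group has self-centralizing non-cyclic subgroups when every non-cyclic subgroup H satisfies C_G(H) ≤ H. A finite non-abelian 2-group G of order 2^n has self-centralizing non-cyclic subgroups if and only if G has nilpotency class n − 1 (that is, G is dihedral, semidihedral or generalized quaternion). -/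
theorem result {G : Type*} [Group G] [Finite G] (hna : ¬ IsMulCommutative G) (n : ℕ) (hG : Nat.card G = 2 ^ n) :
    (∀ H : Subgroup G, ¬ IsCyclic ↥H → Subgroup.centralizer (H : Set G) ≤ H) ↔ (⊤ : Subgroup G).lowerCentralSeries (n - 2) ≠ ⊥ := by
  have hP : IsPGroup 2 G := IsPGroup.of_card hG
  have hn : 3 ≤ n := (Nat.pow_dvd_pow_iff_le_right (by norm_num)).mp (hG ▸ cube_dvd_card hP hna)
  constructor
  · intro h
    have key : ∃ V : Subgroup G, ♯V = 2 ^ 2 ∧ C⟦V⟧ = V := by
      by_cases hc : ∀ A : Subgroup G, IsMulCommutative A → IsCyclic A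
      · rcases H1.isCyclic_or_quaternion_gens hP (H1.unique_order_p_of_forall_abelian_isCyclic hP hc)
          with h1 | ⟨-, k, a, b, hk, ha, hb, hba, hbb, hall⟩
        · exact absurd (comm_top_iff.mp (comm_of_cyclic (cyclic_top_iff.mpr h1))) hna
        have hb4 : orderOf b = 2 ^ 2 := by
          apply orderOf_eq_prime_pow
          · rw [pow_one, pow_two, hbb, ← orderOf_dvd_iff_pow_eq_one, ha]
            intro hd
            have := Nat.le_of_dvd (by positivity) hd
            have : 0 < 2 ^ k := by positivity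
            omega
          · rw [show (2 : ℕ) ^ (1 + 1) = 2 * 2 by norm_num, pow_mul, pow_two b, hbb, ← pow_mul, mul_comm,
              ← ha, pow_orderOf_eq_one]
        have h2 : ∀ c ∈ zpowers a, c * b = b * c → c ∈ zpowers b := by
          rintro _ ⟨m, rfl⟩ hc
          have e1 : b * a ^ m * b⁻¹ = (a ^ m)⁻¹ := by rw [← conj_zpow, hba, inv_zpow]
          simp only at hc
          rw [← hc, mul_inv_cancel_right] at e1
          have e2 : a ^ (2 * m) = 1 := by rw [two_mul, zpow_add]; nth_rw 1 [e1]; simp
          rw [← orderOf_dvd_iff_zpow_eq_one, ha] at e2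
          push_cast at e2
          obtain ⟨j, hj⟩ := Int.dvd_of_mul_dvd_mul_left (by norm_num) e2
          have : a ^ m = (b * b) ^ j := by
            rw [hbb, hj, zpow_mul]; norm_cast
          simp only
          rw [this]
          exact zpow_mem (mul_mem (mem_zpowers b) (mem_zpowers b)) j
        refine ⟨zpowers b, by rw [Nat.card_zpowers, hb4], le_antisymm ?_
          (comm_iff_le_cent.mp (comm_of_cyclic inferInstance))⟩
        intro c hc
        rw [cent_zpowers, mem_cent1] at hc
        by_cases hca : c ∈ zpowers a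
        · exact h2 c hca hc
        · have := h2 _ (hall c hca) (by rw [mul_assoc, hc]; group)
          simpa using mul_mem (mem_zpowers b) this
      · push Not at hc
        obtain ⟨A, h1, h2⟩ := hc
        obtain ⟨V, hV, h3, h4⟩ := exists_elem_sq_of_comm (hP.to_subgroup A) h1 h2
        exact ⟨V, h3, le_antisymm (h V (not_cyclic_of_exp h3 h4)) (comm_iff_le_cent.mp (comm_of_le hV h1))⟩
    obtain ⟨V, h1, h2⟩ := key
    exact (H9.MaxClass.of_class hG (S0112.result n hG V h1 h2) hn).ne_bot
  · intro h H hH
    have hM : H9.MaxClass 2 n G := ⟨hG, hn, h⟩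
    haveI := hP.isNilpotent
    have hcl : Group.nilpotencyClass G = n - 1 := by
      have h1 := Subgroup.lowerCentralSeries_eq_bot_iff_nilpotencyClass_le.mp hM.lcs_eq_bot
      have h2 := mt Subgroup.lowerCentralSeries_eq_bot_iff_nilpotencyClass_le.mpr h
      omega
    obtain ⟨C, hC, hi⟩ := S0113.result n hn hG hcl
    have hZ := card_center_maxClass hM
    obtain ⟨x, hxH, hxC⟩ : ∃ x ∈ H, x ∉ C := by
      by_contra hh
      push Not at hh
      exact hH (cyclic_of_le hh hC)
    have hsup : C ⊔ zpowers x = ⊤ := by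
      rcases eq_or_eq_top_of_index_prime hi (le_sup_left : C ≤ C ⊔ zpowers x) with h1 | h1
      · exact absurd (h1 ▸ mem_sup_right (mem_zpowers x)) hxC
      · exact h1
    have h1 : C ⊓ C₁⟦x⟧ ≤ center G := by
      rw [← cent_top, ← hsup]
      exact le_cent_sup (le_cent_of_comm (comm_of_cyclic hC) inf_le_left le_rfl)
        (by rw [cent_zpowers]; exact inf_le_right)
    haveI : C.Normal := normal_of_index_eq_two hi
    have hCH : C ⊓ H ≠ ⊥ := by
      intro e
      have h2 := card_inf_mul_relIndex C H
      rw [e, card_bot, one_mul] at h2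
      have h3 := relIndex_dvd_index_of_normal C H
      rw [h2, hi] at h3
      rcases (Nat.dvd_prime Nat.prime_two).mp h3 with h4 | h4
      · exact hH (by rw [eq_bot_of_card h4]; infer_instance)
      · exact hH (isCyclic_of_card_prime (by rw [h4]; exact Nat.prime_two))
    haveI : (C ⊓ H).Normal := (NormalIn.normal ⟨le_top, norm_of_le_cyclic hC inf_le_left (by simp [normalizer_eq_top])⟩)
    have h2 := inf_cent_ne_bot_of_pgroup (hP.to_subgroup (C ⊓ H)) (hP.to_subgroup ⊤) (NormalIn.of_normal (C ⊓ H)).2 hCH
    rw [cent_top] at h2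
    have h3 : C ⊓ H ⊓ center G = center G := eq_of_le_card inf_le_right (hZ.trans (one_lt_card h2))
    have hZH : center G ≤ H := h3 ▸ inf_le_left.trans inf_le_right
    intro c hc
    have hcx : c * x = x * c := (mem_cent.mp hc x hxH).symm
    by_cases hcC : c ∈ C
    · exact hZH (h1 ⟨hcC, mem_cent1.mpr hcx⟩)
    · have h4 : c * x ∈ C := (mul_mem_iff_of_index_two hi).mpr (by simp [hcC, hxC])
      have := hZH (h1 ⟨h4, mem_cent1.mpr (by rw [← mul_assoc, hcx])⟩)
      simpa using mul_mem this (inv_mem hxH)

end Cfsg.Agent.S3919
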