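import Cfsg.Statements.S3927
import Cfsg.Agent.H1.Zipper2

set_option autoImplicit false
open Cfsg
universe u

namespace Cfsg.Agent.S3927

open Subgroup H1.Zip

theorem aux (k n : ℕ) : ∀ (G : Type u) [Group G] [Finite G] (a : G), Nat.card G = n →
    Cl (zpowers a) ⊤ → closure (Set.range (fun c : G => c * a * c⁻¹ * a⁻¹)^[k]) ⊔ zpowers a = ⊤ := by
  induction n using Nat.strong_induction_on with
  | _ n ih =>
  intro G _ _ a hn h
  by_contra h1
  rcases concl _ h (ne_top_of_le_ne_top h1 le_sup_right) with e | ⟨M, h2, h3⟩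
  · refine h1 (top_le_iff.mp (e.ge.trans (sSup_le fun H ⟨h4, h5, h6⟩ => ?_)))
    have h7 : (zpowers a).subgroupOf H = zpowers ⟨a, h4 (mem_zpowers a)⟩ := by
      rw [← map_subtype_inj, map_subgroupOf_eq_of_le h4, MonoidHom.map_zpowers]; rfl
    have h8 := congrArg (map H.subtype) (ih _ (hn ▸ (card_top (G := G)) ▸ H10.card_lt_of_lt h5.lt_top) H
      ⟨a, h4 (mem_zpowers a)⟩ rfl fun K hK hK' => map_injective H.subtype_injective (by
        rw [← MonoidHom.range_eq_map, range_subtype]
        exact h6 _ (zpowers_le.mpr ⟨_, hK (mem_zpowers _), rfl⟩)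
          (H10.SubnormalIn.map_subtype (H10.subnormalIn_top.mp hK'))))
    rw [← MonoidHom.range_eq_map, range_subtype, Subgroup.map_sup, MonoidHom.map_zpowers,
      MonoidHom.map_closure] at h8
    refine h8.ge.trans (sup_le_sup_right (Subgroup.closure_mono ?_) _)
    rintro _ ⟨_, ⟨x, rfl⟩, rfl⟩
    exact ⟨x, (Function.Semiconj.iterate_right (f := H.subtype) (fun _ => rfl) k x).symm⟩
  · have h4 := h3 _ le_sup_right h1
    have h5 : ∀ g, (fun c : G => c * a * c⁻¹ * a⁻¹)^[k] g ∈ M := fun g =>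
      h4 (mem_sup_left (subset_closure ⟨g, rfl⟩))
    have h6 : a ∈ M := h4 (mem_sup_right (mem_zpowers a))
    clear h4 h1 ih
    induction k with
    | zero => exact h2 (eq_top_iff.mpr fun g _ => h5 g)
    | succ k ih' =>
      refine ih' fun g => ?_
      have h7 := mul_mem (Function.iterate_succ_apply' _ k g ▸ h5 g) h6
      rw [inv_mul_cancel_right] at h7
      refine h3 (normalizer M) ((zpowers_le.mpr h6).trans le_normalizer) (fun e => h2 (h M
        (zpowers_le.mpr h6) (H10.SubnormalIn.of_normal le_top e.ge))) ((inv_mem_iff).mp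
        (H2.mem_normalizer_of_conj_smul_le (h3 _ (zpowers_le.mpr ?_) (conj_ne_top h2))))
      rwa [H3.mem_conj_smul, inv_inv]

/-- Let G be a finite group and α an automorphism of G with [G, α] = G, that is, the elements g·α(g)⁻¹ generate G. Then for every k ≥ 1 the iterated commutators [g, α, …, α] with k entries α — the values of the k-th iterate of the map c ↦ c·α(c)⁻¹ — also generate G. -/
theorem result {G : Type*} [Group G] [Finite G] (α : MulAut G) (hG : Subgroup.closure (Set.range (fun c : G => c * (α c)⁻¹)) = ⊤) (k : ℕ) (hk : 1 ≤ k) :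
    Subgroup.closure (Set.range ((fun c : G => c * (α c)⁻¹)^[k])) = ⊤ := by
  let L := G ⋊[(zpowers α).subtype] zpowers α
  haveI : Finite L := Finite.of_equiv _ SemidirectProduct.equivProd.symm
  let a : L := .inr ⟨α, mem_zpowers α⟩
  have h1 : ∀ x : L, x * a * x⁻¹ * a⁻¹ = .inl (x.left * (α x.left)⁻¹) := fun ⟨x, _, k, rfl⟩ => by
    have : ∀ y, (α ^ k) (α ((α ^ k).symm y)) = α y := fun y => by
      rw [← MulAut.mul_apply, (Commute.refl α).zpow_left k, MulAut.mul_apply, MulEquiv.apply_symm_apply]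
    ext <;> simp [a, L, this, -SemidirectProduct.mk_eq_inl_mul_inr]
  have h2 := aux k _ L a rfl fun K hK hK' => by_contra fun e => by
    obtain ⟨N, h2, h3, h4⟩ := hK'.exists_normal e
    haveI := normalizer_eq_top_iff.mp (top_le_iff.mp h4)
    have h5 : a ∈ N := h2 (hK (mem_zpowers a))
    have h6 : ⊤ ≤ N.comap SemidirectProduct.inl := hG.ge.trans ((closure_le _).mpr (by
      rintro _ ⟨x, rfl⟩
      exact (h1 (.inl x)).subst (mul_mem (Normal.conj_mem ‹_› _ h5 _) (inv_mem h5))))
    refine h3.not_ge fun x _ => SemidirectProduct.inl_left_mul_inr_right x ▸ mul_mem (h6 (mem_top _)) ?_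
    obtain ⟨_, i, rfl⟩ := x.right
    exact (map_zpow SemidirectProduct.inr (⟨α, mem_zpowers α⟩ : zpowers α) i).symm.subst (zpow_mem h5 i)
  let E := closure (Set.range ((fun c : G => c * (α c)⁻¹)^[k]))
  have h3 : ∀ β ∈ zpowers α, ∀ x ∈ E, β x ∈ E := fun β hβ x hx => by
    have : E.map β.toMonoidHom ≤ E := by
      rw [MonoidHom.map_closure]
      refine Subgroup.closure_mono ?_
      rintro _ ⟨_, ⟨x, rfl⟩, rfl⟩
      obtain ⟨i, rfl⟩ := hβ
      exact ⟨_, (Function.Semiconj.iterate_right (f := ⇑(α ^ i)) (fun x => by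
        rw [map_mul, map_inv, ← MulAut.mul_apply, (Commute.refl α).zpow_left i]; rfl) k x).symm⟩
    exact this ⟨x, hx, rfl⟩
  let K : Subgroup L :=
    { carrier := {x | x.left ∈ E}
      mul_mem' := fun {x y} hx hy => mul_mem hx (h3 _ x.right.2 _ hy)
      one_mem' := one_mem E
      inv_mem' := fun {x} hx => h3 _ x.right⁻¹.2 _ (inv_mem hx) }
  have h4 : ⊤ ≤ K := h2.ge.trans (sup_le ((closure_le _).mpr ?_) (zpowers_le.mpr (one_mem E)))
  · exact eq_top_iff.mpr fun x _ => h4 (mem_top (.inl x))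
  rintro _ ⟨x, rfl⟩
  exact subset_closure ⟨x.left, (Function.Semiconj.iterate_right (f := SemidirectProduct.left)
    (fun x => by rw [h1]; rfl) k x).symm⟩

end Cfsg.Agent.S3927
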