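import Cfsg.Statements.S3933
import Cfsg.Agent.H21.Base5
import Cfsg.Agent.H4.Burnside
import Cfsg.Agent.H25.HallNum

set_option autoImplicit false
open Cfsg

namespace Cfsg.Agent.S3933

open Subgroup Cfsg.Agent.H20 Cfsg.Agent.H21 Cfsg.Agent.BG

universe u

section
variable {G : Type*} [Group G] [Finite G] {p q r : ℕ} {P Q R : Subgroup G}

theorem ex_syl [Fact p.Prime] {K : Subgroup G} (h : ¬ p ∣ K.relIndex ⊤) : ∃ S, SylowOf p S ⊤ ∧ S ≤ K := by
  obtain ⟨S, hS⟩ := exists_sylowOf p K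
  exact ⟨S, hS.sylow_trans_not_dvd le_top h, hS.le⟩

theorem step [hp : Fact p.Prime] [hq : Fact q.Prime] [hr : Fact r.Prime] (hpq : p ≠ q) (hpr : p ≠ r) (hqr : q ≠ r)
    (hP : SylowOf p P ⊤) (hQ : SylowOf q Q ⊤) (hR : SylowOf r R ⊤) (h1 : R ≤ N⟦P⟧) (h2 : R ≤ N⟦Q⟧)
    (h3 : PiNat {q} (N⟦P⟧.relIndex ⊤)) (h4 : ¬ p ∣ N⟦R⟧.relIndex ⊤) : P ≤ C⟦R⟧ := by
  have key : ∀ n ∈ N⟦R⟧, ∃ a ∈ Q ⊓ N⟦R⟧, ∃ b ∈ N⟦R⟧ ⊓ N⟦P⟧, a * b = n := by
    intro n hn
    obtain ⟨y, hy, x, hx, e⟩ := hQ.prod_of_relIndex le_top h3 n⁻¹ (mem_top _)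
    have hx' : x = y⁻¹ * n⁻¹ := by rw [← e]; group
    have a1 : cj x R ≤ N⟦P⟧ := by
      rw [hx', cj_mul, cj_eq_of_mem_norm (inv_mem hn)]
      exact cj_le_of_mem (inv_mem hy) h1
    have a2 : cj x R ≤ N⟦Q⟧ := cj_le_of_mem (le_norm_self Q hx) h2
    have a3 : cj x R ≤ (Q ⊓ N⟦P⟧) ⊔ R := by
      rw [← modular_right (Or.inr h2) h1]
      exact le_inf (cj_le_of_mem (mem_sup_left hx) le_sup_right) a1
    obtain ⟨d, hd, h5⟩ := exists_cj_le_of_coprime (N := Q ⊓ N⟦P⟧) (norm_inf a2 (a1.trans (le_norm_self _)))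
      (norm_inf h2 (h1.trans (le_norm_self _)))
      (coprime_of_isPGroup_ne (H21.isPGroup_cj.2 hR.isPGroup) (hQ.isPGroup.to_inf_left) hqr.symm)
      (Or.inl (sol_of_pgroup (H21.isPGroup_cj.2 hR.isPGroup))) a3
    rw [← cj_mul] at h5
    have h6 := mem_norm_of_cj_le h5
    refine ⟨(d * x)⁻¹, mem_inf.2 ⟨inv_mem (mul_mem hd.1 hx), inv_mem h6⟩, d * x * n, mem_inf.2 ⟨mul_mem h6 hn, ?_⟩,
      by group⟩
    have : d * x * n = d * y⁻¹ := by rw [hx']; group
    rw [this]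
    exact mul_mem (mem_inf.1 hd).2 (inv_mem hy)
  have e1 := sup_eq_of_prod inf_le_right inf_le_left key
  have e2 := (permute_of_prod inf_le_right inf_le_left key).relIndex_sup
  rw [e1] at e2
  have e3 : ¬ p ∣ (N⟦R⟧ ⊓ N⟦P⟧).relIndex N⟦R⟧ := by
    rw [e2]
    exact ((hQ.isPi.inf_left _).relIndex _).not_dvd' hp.out hpq
  obtain ⟨S, hS⟩ := exists_sylowOf p (N⟦R⟧ ⊓ N⟦P⟧)
  have hS2 := (hS.sylow_trans_not_dvd inf_le_left e3).sylow_trans_not_dvd le_top h4
  have e4 : P ≤ S := hS2.pgroup_le_of_norm hP.isPGroup le_top (Or.inr (hS.le.trans inf_le_right))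
  exact cent_of_disjoint (e4.trans (hS.le.trans inf_le_left)) h1
    (disjoint_iff.1 (disjoint_of_coprime_natCard (coprime_of_isPGroup_ne hP.isPGroup hR.isPGroup hpr)))

theorem trap (hs : IsSimpleGroup G) {A B : Subgroup G} (h : ∀ g ∈ (⊤ : Subgroup G), ∃ b ∈ B, ∃ a ∈ A, b * a = g)
    (hR : R ≠ ⊥) (h1 : A ≤ C⟦R⟧) (h2 : R ≤ B) : B = ⊤ := by
  have h3 : R ≤ B.normalCore := by
    intro x hx g
    obtain ⟨b, hb, a, ha, rfl⟩ := h g (mem_top _)
    have : b * a * x * (b * a)⁻¹ = b * x * b⁻¹ := by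
      have := (mem_centralizer_iff.1 (h1 ha)) x hx
      rw [mul_assoc b, ← this]; group
    rw [this]
    exact mul_mem (mul_mem hb (h2 hx)) (inv_mem hb)
  rcases hs.eq_bot_or_eq_top_of_normal B.normalCore inferInstance with h4 | h4
  · exact absurd (le_bot_iff.1 (h4 ▸ h3)) hR
  · exact top_le_iff.1 (h4 ▸ B.normalCore_le)

end

def PP (G : Type*) [Group G] : Prop :=
  ∀ p : ℕ, p.Prime → ∀ P : Subgroup G, SylowOf p P ⊤ → ∃ t : ℕ, t.Prime ∧ PiNat {t} (N⟦P⟧.relIndex ⊤)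

theorem simple_case {G : Type*} [Group G] [Finite G] (hs : IsSimpleGroup G) (h : PP G) : Group.IsSolvable G := by
  by_contra hns
  have nt : ∀ (p : ℕ) [Fact p.Prime] (P : Subgroup G), p ∣ Nat.card G → SylowOf p P ⊤ → N⟦P⟧ ≠ ⊤ := by
    intro p _ P hd hP hN
    rcases hs.eq_bot_or_eq_top_of_normal P (normalizer_eq_top_iff.1 hN) with h1 | h1
    · exact hP.sylow_ne_bot (by rwa [card_top']) h1
    · exact hns (sol_top_iff.1 (h1 ▸ sol_of_pgroup hP.isPGroup))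
  have part : ∀ (p : ℕ) [Fact p.Prime] (P : Subgroup G), p ∣ Nat.card G → SylowOf p P ⊤ →
      ∀ t : ℕ, t.Prime → PiNat {t} (N⟦P⟧.relIndex ⊤) → t ≠ p ∧ t ∣ N⟦P⟧.relIndex ⊤ := by
    intro p hp P hd hP t ht h1
    have h2 : t ∣ N⟦P⟧.relIndex ⊤ := by
      by_contra h2
      refine nt p P hd hP (top_le_iff.1 (relIndex_eq_one.1 (h1.eq_one ((PiNat.compl_singleton_iff ht).2 h2))))
    refine ⟨?_, h2⟩
    rintro rfl
    exact hP.not_dvd (h2.trans (relIndex_dvd_of_le_left _ (le_norm_self P)))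
  obtain ⟨p, hp, hd⟩ := Nat.exists_prime_and_dvd (Finite.one_lt_card (α := G)).ne'
  haveI := Fact.mk hp
  obtain ⟨P, hP⟩ := exists_sylowOf p (⊤ : Subgroup G)
  obtain ⟨q, hq, h1⟩ := h p hp P hP
  haveI := Fact.mk hq
  obtain ⟨hqp, h2⟩ := part p P hd hP q hq h1
  have hdq : q ∣ Nat.card G := h2.trans (by rw [relIndex_top_right]; exact index_dvd_card _)
  obtain ⟨Q, hQ⟩ := exists_sylowOf q (⊤ : Subgroup G)
  obtain ⟨t, ht, h3⟩ := h q hq Q hQ
  obtain rfl : p = t := by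
    by_contra hne
    obtain ⟨S, hS, h4⟩ := ex_syl (h3.not_dvd' hp hne)
    obtain ⟨g, -, rfl⟩ := hP.exists_cj_eq hS
    have h5 : PiNat {q} (N⟦cj g P⟧.relIndex ⊤) := by
      rw [← cj_norm, ← cj_top g, relIndex_cj]; exact h1
    have h6 := hQ.prod_of_relIndex le_top h5
    have h7 : cj g P ≤ N⟦Q⟧.normalCore := by
      intro x hx y
      obtain ⟨a, ha, b, hb, e⟩ := h6 y⁻¹ (mem_top _)
      have hy : y = b⁻¹ * a⁻¹ := by rw [← mul_inv_rev, e, inv_inv]
      have : a⁻¹ * x * a ∈ cj g P := by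
        have := (mem_normalizer_iff.1 (inv_mem ha) x).1 hx
        simpa using this
      have e2 : y * x * y⁻¹ = b⁻¹ * (a⁻¹ * x * a) * b := by rw [hy]; group
      rw [e2]
      exact mul_mem (mul_mem (inv_mem (le_norm_self Q hb)) (h4 this)) (le_norm_self Q hb)
    rcases hs.eq_bot_or_eq_top_of_normal N⟦Q⟧.normalCore inferInstance with h8 | h8
    · exact hS.sylow_ne_bot (by rwa [card_top']) (le_bot_iff.1 (h8 ▸ h7))
    · exact nt q Q hdq hQ (top_le_iff.1 (h8 ▸ normalCore_le _))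
  refine hns (H4.isSolvable_of_forall_prime_dvd hp hq fun r hr hdr => ?_)
  by_contra hc
  push Not at hc
  haveI := Fact.mk hr
  obtain ⟨R, hR, h4⟩ := ex_syl (p := r) (K := N⟦P⟧ ⊓ N⟦Q⟧) (by
    intro h4
    have k1 := prod_of_coprime_relIndex le_top le_top (h3.coprime_of_disjoint h1 fun s _ e1 e2 => hqp (e2.symm.trans e1))
    have k2 := (permute_of_prod le_top le_top k1).relIndex_sup
    rw [sup_eq_of_prod le_top le_top k1] at k2
    rw [← relIndex_mul_relIndex _ N⟦Q⟧ ⊤ inf_le_right le_top, inf_relIndex_right, ← k2] at h4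
    rcases hr.dvd_mul.1 h4 with h6 | h6
    · exact h1.not_dvd' hr hc.2 h6
    · exact h3.not_dvd' hr hc.1 h6)
  obtain ⟨s, hs', h5⟩ := h r hr R hR
  have hR0 := hR.sylow_ne_bot (by rwa [card_top'])
  by_cases hsp : p = s
  · subst hsp
    have h6 := step hqp hc.2.symm hc.1.symm hQ hP hR (h4.trans inf_le_right) (h4.trans inf_le_left) h3
      (h5.not_dvd' hq hqp)
    exact nt p P hd hP (trap hs (hQ.prod_of_relIndex le_top h1) hR0 h6 (h4.trans inf_le_left))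
  · have h6 := step hqp.symm hc.1.symm hc.2.symm hP hQ hR (h4.trans inf_le_left) (h4.trans inf_le_right) h1
      (h5.not_dvd' hp hsp)
    exact nt q Q hdq hQ (trap hs (hP.prod_of_relIndex le_top h3) hR0 h6 (h4.trans inf_le_right))

theorem PP.sub {G : Type*} [Group G] [Finite G] (h : PP G) (N : Subgroup G) [hN : N.Normal] : PP N := by
  intro p hp P hP
  haveI := Fact.mk hp
  obtain ⟨S, rfl⟩ := hP.exists_sylow_top
  have h1 := sylowOf_map_subtype S
  obtain ⟨T, hT, -, h2⟩ := h1.exists_sylow_inf_eq le_top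
  obtain ⟨t, ht, h3⟩ := h p hp T hT
  refine ⟨t, ht, h3.of_dvd ?_⟩
  have h4 : N⟦T⟧ ≤ N⟦(S : Subgroup N).map N.subtype⟧ := by
    rw [← h2]
    exact norm_inf le_rfl le_normalizer_of_normal
  have h5 := h1.frattini (M := ⊤) ⟨le_top, le_normalizer_of_normal⟩
  rw [top_inf_eq] at h5
  refine Dvd.dvd.trans (dvd_of_eq ?_) (relIndex_dvd_of_le_left _ h4)
  rw [← h5, relIndex_sup_of_norm (Or.inr le_normalizer_of_normal), relIndex_top_right, relIndex,
    subgroupOf_normalizer_eq h1.le, subgroupOf, comap_map_eq_self_of_injective N.subtype_injective]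

theorem PP.quo {G : Type*} [Group G] [Finite G] (h : PP G) (N : Subgroup G) [hN : N.Normal] : PP (G ⧸ N) := by
  intro p hp P hP
  haveI := Fact.mk hp
  obtain ⟨S, rfl⟩ := hP.exists_sylow_top
  obtain ⟨T, rfl⟩ := Sylow.mapSurjective_surjective (QuotientGroup.mk'_surjective N) p S
  obtain ⟨t, ht, h3⟩ := h p hp T (sylowOf_top T)
  refine ⟨t, ht, h3.of_dvd ?_⟩
  rw [relIndex_top_right, relIndex_top_right, Sylow.coe_mapSurjective]
  exact (index_dvd_of_le (le_normalizer_map _)).trans (index_map_dvd _ (QuotientGroup.mk'_surjective N))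

theorem aux (n : ℕ) : ∀ (G : Type u) [Group G] [Finite G], Nat.card G = n → PP G → Group.IsSolvable G := by
  induction n using Nat.strong_induction_on with
  | _ n ih =>
  intro G _ _ hn h
  rcases subsingleton_or_nontrivial G with h0 | h0
  · infer_instance
  by_cases hs : IsSimpleGroup G
  · exact simple_case hs h
  obtain ⟨N, hN, h1, h2⟩ := H25.exists_normal_of_not_simple hs
  have hc := N.card_mul_index
  have hN1 : 1 < Nat.card N := (Subgroup.one_lt_card_iff_ne_bot N).mpr h1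
  have hI1 : 1 < N.index := Subgroup.one_lt_index_of_ne_top h2
  exact (Group.isSolvable_iff_subgroup_quotient N).mpr ⟨ih _ (by rw [← hn, ← hc]; nlinarith) N rfl (h.sub N),
    ih _ (by rw [← hn, ← hc]; change N.index < _; nlinarith) (G ⧸ N) rfl (h.quo N)⟩

/-- If for every prime r the number of Sylow r-subgroups of the finite group G is a prime power or 1, then G is solvable. -/
theorem result {G : Type*} [Group G] [Finite G] (h : ∀ (r : ℕ) [Fact r.Prime], Nat.card (Sylow r G) = 1 ∨ IsPrimePow (Nat.card (Sylow r G))) :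
    Group.IsSolvable G := by
  refine aux _ G rfl fun p hp P hP => ?_
  haveI := Fact.mk hp
  obtain ⟨S, rfl⟩ := hP.exists_sylow_top
  rw [relIndex_top_right, Sylow.coe_coe, ← S.card_eq_index_normalizer]
  rcases h p with h1 | h1
  · exact ⟨2, Nat.prime_two, h1 ▸ PiNat.one _⟩
  · obtain ⟨t, k, ht, -, e⟩ := (isPrimePow_nat_iff _).1 h1
    exact ⟨t, ht, e ▸ PiNat.prime_pow ht (Set.mem_singleton t) k⟩

end Cfsg.Agent.S3933
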