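import Cfsg.Statements.S3941
import Cfsg.Agent.H25.MinClosed

set_option autoImplicit false
open Cfsg

namespace Cfsg.Agent.S3941

open Subgroup Cfsg.Agent.H20 Cfsg.Agent.H21 Cfsg.Agent.H25

theorem exists_normal_of_equiv {G H : Type*} [Group G] [Group H] [Finite G] [Finite H] {p : ℕ} [Fact p.Prime]
    (e : G ≃* H) (h : IsPClosed p G) : ∃ S : Subgroup H, SylowOf p S ⊤ ∧ S ⊴ ⊤ := by
  obtain ⟨S, h1, h2⟩ := isPClosed_iff_top.mp h
  have e1 : (⊤ : Subgroup G).map e.toMonoidHom = ⊤ := Subgroup.map_top_of_surjective _ e.surjective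
  exact ⟨S.map e.toMonoidHom, e1 ▸ Hall.map h1 _, e1 ▸ h2.map _⟩

theorem two_mul_card (m : ℕ) (hm : 2 ≤ m) : 2 * Nat.card (alternatingGroup (Fin m)) = m.factorial := by
  haveI : Nontrivial (Fin m) := Fin.nontrivial_iff_two_le.mpr hm
  rw [two_mul_nat_card_alternatingGroup, Nat.card_perm, Nat.card_eq_fintype_card, Fintype.card_fin]

theorem not_closed (m p : ℕ) (hm : 4 ≤ m) [hp : Fact p.Prime] (hp2 : p ≠ 2) (hpm : p ≤ m) :
    ¬ ∃ S : Subgroup (alternatingGroup (Fin m)), SylowOf p S ⊤ ∧ S ⊴ ⊤ := by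
  rintro ⟨S, h1, h2⟩
  rcases hm.eq_or_lt with rfl | hm
  · have hp3 : p = 3 := by
      have := hp.out.two_le
      interval_cases p
      · exact absurd rfl hp2
      · rfl
      · exact absurd hp.out (by decide)
    subst hp3
    let a : alternatingGroup (Fin 4) := ⟨Equiv.swap 0 1 * Equiv.swap 1 2, Equiv.Perm.mem_alternatingGroup.mpr (by decide)⟩
    let b : alternatingGroup (Fin 4) := ⟨Equiv.swap 1 2 * Equiv.swap 2 3, Equiv.Perm.mem_alternatingGroup.mpr (by decide)⟩
    have key : ∀ x : alternatingGroup (Fin 4), x ^ 3 = 1 → x ∈ S := fun x hx =>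
      zpowers_le.mp (Hall.pgroup_le_of_norm h1 (by
        rintro ⟨_, k, rfl⟩
        refine ⟨1, Subtype.ext ?_⟩
        simp only [pow_one, SubgroupClass.coe_pow, OneMemClass.coe_one]
        rw [← zpow_natCast, ← zpow_mul, mul_comm, zpow_mul, zpow_natCast, hx, one_zpow]) le_top
        (Or.inl (le_top.trans h2.2)))
    have hab : a * b ∈ S := mul_mem (key a (by decide)) (key b (by decide))
    have ho : orderOf (a * b) = 2 := orderOf_eq_prime (by decide) (by decide)
    have := isPiElt_iff.mp ((Hall.isPi h1).elt hab) 2 Nat.prime_two (by rw [ho])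
    simp at this
  · haveI := alternatingGroup.isSimpleGroup (α := Fin m) (by rw [Nat.card_eq_fintype_card, Fintype.card_fin]; exact hm)
    have hc := two_mul_card m (by omega)
    have hd : p ∣ Nat.card (alternatingGroup (Fin m)) := by
      have : p ∣ 2 * Nat.card (alternatingGroup (Fin m)) := hc ▸ hp.out.dvd_factorial.mpr hpm
      exact ((Nat.coprime_primes hp.out Nat.prime_two).mpr hp2).dvd_of_dvd_mul_left this
    rcases h2.normal.eq_bot_or_eq_top with h | h
    · exact Hall.sylow_ne_bot h1 (by rwa [card_top']) h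
    · have h4 : 2 * 2 ∣ 2 * Nat.card (alternatingGroup (Fin m)) := hc ▸ Nat.dvd_factorial (by norm_num) (by omega)
      have h5 := Nat.dvd_of_mul_dvd_mul_left (by norm_num) h4
      have := (Hall.isPi h1).piNat 2 Nat.prime_two (by rw [h, card_top']; exact h5)
      exact hp2 (Set.mem_singleton_iff.mp this).symm

/-- Let n ≥ 5 and p an odd prime with p ≤ n, and suppose that every proper subgroup of the alternating group of degree n whose order is divisible by p has a normal Sylow p-subgroup. Then n = p. -/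
theorem result (n p : ℕ) (hn : 5 ≤ n) [Fact p.Prime] (hp : p ≠ 2) (hpn : p ≤ n)
    (h : ∀ H : Subgroup ↥(alternatingGroup (Fin n)), H ≠ ⊤ → p ∣ Nat.card ↥H → Cfsg.IsPClosed p ↥H) : n = p := by
  by_contra hne
  obtain ⟨m, rfl⟩ : ∃ m, n = m + 1 := ⟨n - 1, by omega⟩
  let s : Finset (Fin (m + 1)) := Finset.univ.erase 0
  have hs : Fintype.card s = m := by simp [s]
  let e1 : alternatingGroup s ≃* alternatingGroup (Fin m) := (Fintype.equivFinOfCardEq hs).altCongrHom
  let e2 := MonoidHom.ofInjective (alternatingGroup.ofSubtype_injective (s := s))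
  have hc : Nat.card (alternatingGroup.ofSubtype s).range = Nat.card (alternatingGroup (Fin m)) :=
    Nat.card_congr (e2.symm.trans e1).toEquiv
  have c1 := two_mul_card m (by omega)
  have c2 := two_mul_card (m + 1) (by omega)
  refine not_closed m p (by omega) hp (by omega) (exists_normal_of_equiv (e2.symm.trans e1) (h _ ?_ ?_))
  · intro ht
    rw [ht, card_top'] at hc
    rw [hc, c1, Nat.factorial_succ] at c2
    have := Nat.factorial_pos m
    nlinarith
  · rw [hc]
    have : p ∣ 2 * Nat.card (alternatingGroup (Fin m)) :=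
      c1 ▸ (Fact.out : p.Prime).dvd_factorial.mpr (by omega)
    exact ((Nat.coprime_primes Fact.out Nat.prime_two).mpr hp).dvd_of_dvd_mul_left this

end Cfsg.Agent.S3941
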