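import Cfsg.Statements.S3946
import Cfsg.Agent.H1.Kegel

set_option autoImplicit false
open Cfsg

namespace Cfsg.Agent.S3946

/-- Call an automorphism α of order n of a group G splitting when x · α(x) · α²(x) ⋯ α^(n−1)(x) = 1 for every x ∈ G. A finite group admitting a splitting automorphism of prime order is nilpotent (this contains the case of a fixed-point-free automorphism of prime order). -/
theorem result {G : Type*} [Group G] [Finite G] (α : MulAut G) (hp : (orderOf α).Prime)
    (hsplit : ∀ x : G, (((List.range (orderOf α)).map (fun i : ℕ => (α ^ i) x)).prod = 1)) : Group.IsNilpotent G := by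
  let L := G ⋊[MonoidHom.id (MulAut G)] MulAut G
  haveI : Finite L := Finite.of_equiv _ SemidirectProduct.equivProd.symm
  have h1 : ∀ (x : G) (n : ℕ), ((SemidirectProduct.inl x * SemidirectProduct.inr α : L)) ^ n =
      ⟨((List.range n).map (fun i : ℕ => (α ^ i) x)).prod, α ^ n⟩ := fun x n => by
    induction n with
    | zero => rfl
    | succ n ih =>
      rw [pow_succ, ih]
      refine SemidirectProduct.ext ?_ ?_ <;>
        simp [L, List.range_succ, pow_succ, -SemidirectProduct.mk_eq_inl_mul_inr]
  have h2 := H1.kegel hp (K := (SemidirectProduct.inl : G →* L).range) (y := SemidirectProduct.inr α)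
    (by rw [SemidirectProduct.range_inl_eq_ker_rightHom, Subgroup.normalizer_eq_top]; trivial) (by
      rintro _ ⟨x, rfl⟩
      rw [h1, hsplit, pow_orderOf_eq_one]; rfl)
  exact Group.nilpotent_of_mulEquiv (MonoidHom.ofInjective
    (f := (SemidirectProduct.inl : G →* L)) SemidirectProduct.inl_injective).symm

end Cfsg.Agent.S3946
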