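import Cfsg.Statements.S3947
import Cfsg.Agent.H1.Zipper2

set_option autoImplicit false
open Cfsg

namespace Cfsg.Agent.S3947

/-- Let G be a finite group and A a proper subgroup of G whose normal closure is G. Let Y be the join of all proper subgroups H of G that contain A and are generated by their own conjugates of A (the normal closure of A in H is H). Then either Y = G, or A is contained in exactly one maximal subgroup of G. -/
theorem result {G : Type*} [Group G] [Finite G] (A : Subgroup G) (hA : Subgroup.normalClosure (A : Set G) = ⊤) (hAG : A ≠ ⊤) :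
    sSup {H : Subgroup G | A ≤ H ∧ H ≠ ⊤ ∧ Subgroup.normalClosure ((A.subgroupOf H : Subgroup ↥H) : Set ↥H) = ⊤} = ⊤ ∨
      ∃! M : Subgroup G, IsCoatom M ∧ A ≤ M := by
  have h := (H1.Zip.cl_iff (le_top (a := A))).mpr (by
    rw [← Subgroup.map_subtype_inj, ← MonoidHom.range_eq_map, Subgroup.range_subtype,
      Subgroup.map_normalClosure _ _ (fun x => ⟨⟨x, trivial⟩, rfl⟩), ← Subgroup.coe_map,
      Subgroup.map_subgroupOf_eq_of_le le_top, hA])
  refine (H1.Zip.concl A h hAG).imp (fun e => ?_) fun ⟨M, h1, h2⟩ => ?_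
  · exact top_le_iff.mp (e.ge.trans (sSup_le_sSup fun H hH =>
      ⟨hH.1, hH.2.1, (H1.Zip.cl_iff hH.1).mp hH.2.2⟩))
  · exact ⟨M, ⟨⟨h1, fun N hN => by_contra fun e => hN.not_ge (h2 N ((h2 A le_rfl hAG).trans hN.le) e)⟩,
      h2 A le_rfl hAG⟩, fun N hN => ((hN.1.le_iff.mp (h2 N hN.2 hN.1.1)).resolve_left h1).symm⟩

end Cfsg.Agent.S3947
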