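import Cfsg.Statements.S3949
import Cfsg.Agent.H21.Base5

set_option autoImplicit false
open Cfsg

namespace Cfsg.Agent.S3949

/-- Let G be a finite group and α an automorphism of G of order 2 such that the elements g·α(g)⁻¹ generate G. Let j be a positive integer such that 2^j divides the order of no element inverted by α. Then the set of values of the j-th iterate of the map c ↦ c·α(c)⁻¹ is exactly the set of elements of odd order inverted by α. -/
theorem result {G : Type*} [Group G] [Finite G] (α : MulAut G) (hα : orderOf α = 2) (hG : Subgroup.closure (Set.range (fun c : G => c * (α c)⁻¹)) = ⊤)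
    (j : ℕ) (hj : ∀ g : G, α g = g⁻¹ → ¬ 2 ^ j ∣ orderOf g) :
    Set.range ((fun c : G => c * (α c)⁻¹)^[j]) = {g : G | Odd (orderOf g) ∧ α g = g⁻¹} := by
  have hαα : ∀ g, α (α g) = g := fun g => by
    have := pow_orderOf_eq_one α
    rw [hα, pow_two] at this
    exact DFunLike.congr_fun this g
  have it : ∀ (k : ℕ) (g : G), α g = g⁻¹ → (fun c : G => c * (α c)⁻¹)^[k] g = g ^ 2 ^ k := by
    intro k
    induction k with
    | zero => intro g _; simp
    | succ k ih =>
      intro g hg
      rw [Function.iterate_succ_apply, ih]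
      · simp only [hg, inv_inv]; rw [← pow_two, ← pow_mul, pow_succ']
      · simp [hg]
  rcases j with _ | j
  · exact absurd (by simp) (hj 1 (by simp))
  ext g
  simp only [Set.mem_range, Set.mem_setOf_eq]
  constructor
  · rintro ⟨c, rfl⟩
    have h1 : α (c * (α c)⁻¹) = (c * (α c)⁻¹)⁻¹ := by simp [hαα]
    rw [Function.iterate_succ_apply, it j _ h1]
    refine ⟨?_, by rw [map_pow, h1, inv_pow]⟩
    have h2 := hj _ h1
    generalize c * (α c)⁻¹ = d at h2
    obtain ⟨k, m, hm, e⟩ := Nat.exists_eq_two_pow_mul_odd (orderOf_pos d).ne'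
    have hk : k ≤ j := by
      by_contra hlt
      exact h2 (e ▸ (pow_dvd_pow 2 (by omega)).mul_right m)
    have : orderOf (d ^ 2 ^ j) ∣ m := by
      apply orderOf_dvd_of_pow_eq_one
      rw [← pow_mul, ← orderOf_dvd_iff_pow_eq_one, e]
      exact Nat.mul_dvd_mul_right (pow_dvd_pow 2 hk) m
    exact hm.of_dvd_nat this
  · rintro ⟨ho, hg⟩
    have hc : (2 ^ (j + 1)).Coprime (orderOf g) := Nat.Coprime.pow_left _ (Nat.coprime_two_left.mpr ho)
    obtain ⟨m, hm⟩ := exists_pow_eq_self_of_coprime hc
    refine ⟨g ^ m, ?_⟩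
    rw [it _ _ (by rw [map_pow, hg, inv_pow]), ← pow_mul, mul_comm, pow_mul, hm]

end Cfsg.Agent.S3949
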