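import Cfsg.Statements.S3972
import Mathlib
import Cfsg.Agent.H2.SRing

set_option autoImplicit false
open Cfsg

namespace Cfsg.Agent.S3972

open MulAction H2.Pm Subgroup
open scoped Pointwise

/-- Let `p` be a prime, `m ≥ 2`, and `G` a transitive but not doubly transitive permutation group on `p ^ m` points containing a permutation of order `p ^ m` (necessarily a full cycle). Then `G` is imprimitive, and the normal closure in `G` of the `p ^ (m - 1)`-th power of that permutation is an intransitive normal subgroup. -/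
theorem result {Ω : Type*} [Fintype Ω] [DecidableEq Ω] (p m : ℕ) (hp : p.Prime) (hm : 2 ≤ m) (hΩ : Fintype.card Ω = p ^ m) (G : Subgroup (Equiv.Perm Ω)) (htr : MulAction.IsPretransitive G Ω) (h2 : ¬ MulAction.IsMultiplyPretransitive G Ω 2) (g : G) (hg : orderOf g = p ^ m) : ¬ MulAction.IsPreprimitive G Ω ∧ ¬ MulAction.IsPretransitive (Subgroup.normalClosure ({g ^ (p ^ (m - 1))} : Set G)) Ω := by
  have hp1 := hp.one_lt
  have := Fact.mk hp
  have hC : Nat.card (zpowers g) = p ^ m := by rw [Nat.card_zpowers, hg]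
  let z : zpowers g := ⟨g ^ p ^ (m - 1), pow_mem (mem_zpowers g) _⟩
  have h3 : ∀ L : Subgroup (zpowers g), L ≠ ⊥ → z ∈ L := fun L hL => by
    letI : CommGroup (zpowers g) := IsCyclic.commGroup
    obtain ⟨x, hx⟩ := exists_prime_orderOf_dvd_card' (G := L) p (((IsPGroup.of_card hC).to_subgroup L).card_eq_or_dvd.resolve_left
      (mt card_eq_one.1 hL))
    rw [← orderOf_coe] at hx
    have : zpowers x.1 = (powMonoidHom p).ker := eq_of_le_of_card_ge (zpowers_le.2 (by
      simpa [hx] using pow_orderOf_eq_one x.1)) (by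
      rw [IsCyclic.card_powMonoidHom_ker, Nat.card_zpowers x.1, hx]; exact Nat.gcd_le_right _ hp.pos)
    refine zpowers_le.2 x.2 (this.ge (Subtype.ext ?_))
    change (g ^ p ^ (m - 1)) ^ p = 1
    rw [← pow_mul, ← pow_succ, Nat.sub_add_cancel (by omega), ← hg, pow_orderOf_eq_one]
  obtain ⟨a, ha⟩ : ∃ a : Ω, z • a ≠ a := by_contra fun n => pow_ne_one_of_lt_orderOf (x := g) (by positivity)
    (hg ▸ Nat.pow_lt_pow_right hp1 (by omega : m - 1 < m)) (Subtype.ext (Equiv.ext (by push Not at n; exact n)))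
  have h4 : IsPretransitive (zpowers g) Ω := by
    have := index_stabilizer (zpowers g) a
    rw [show stabilizer (zpowers g) a = ⊥ from by_contra fun n => ha (h3 (stabilizer _ a) n), index_bot, hC, ← hΩ, ← Nat.card_eq_fintype_card, ← Set.ncard_univ] at this
    exact (isPretransitive_iff_orbit_eq_univ a).2 (Set.eq_of_subset_of_ncard_le (Set.subset_univ _) this.le)
  have h5 : ¬ IsPreprimitive G Ω := fun h => h2 (two_trans_of_cyclic (zpowers g) (fun b => by
    have := (stabilizer (zpowers g) b).card_mul_index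
    rwa [index_stabilizer_of_transitive, hC, ← hΩ, Nat.card_eq_fintype_card (α := Ω),
      mul_eq_right₀ (by rw [hΩ]; positivity), card_eq_one] at this) hp
    (by rw [Nat.card_eq_fintype_card, hΩ]; exact dvd_pow_self _ (by omega))
    (by rw [Nat.card_eq_fintype_card, hΩ]; exact (lt_self_pow₀ hp1 hm).ne'))
  refine ⟨h5, fun h => h5 ⟨fun {B} hB => or_iff_not_imp_left.2 fun n => ?_⟩⟩
  have h6 : normalClosure {g ^ p ^ (m - 1)} ≤ (stabilizer G B).normalCore := normalClosure_le_normal (by
    rintro _ rfl k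
    obtain ⟨b, hb, c, hc, e⟩ := Set.not_subsingleton_iff.1 n
    obtain ⟨x, hx⟩ := h4.1 (k⁻¹ • b) (k⁻¹ • c)
    have := h3 (stabilizer _ (k⁻¹ • B)) (ne_bot_iff_exists_ne_one.2 ⟨⟨x, (hB.translate k⁻¹).smul_eq_of_mem
      (Set.smul_mem_smul_set hb) (hx.symm ▸ Set.smul_mem_smul_set hc)⟩, fun e' => e (by
        simpa [show x = 1 from congrArg Subtype.val e'] using hx)⟩)
    rw [mem_stabilizer_iff, mul_smul, mul_smul, smul_eq_iff_eq_inv_smul]
    exact this)
  obtain ⟨b, hb⟩ := Set.not_subsingleton_iff.1 n |>.nonempty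
  refine Set.eq_univ_of_forall fun c => ?_
  obtain ⟨x, rfl⟩ := h.1 b c
  exact (mem_stabilizer_iff.1 (normalCore_le _ (h6 x.2))).le (Set.smul_mem_smul_set hb)

end Cfsg.Agent.S3972
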