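import Cfsg.Statements.S3982
import Cfsg.Agent.H25.TIInv

set_option autoImplicit false
open Cfsg

namespace Cfsg.Agent.S3982

open Subgroup Cfsg.Agent.H20 Cfsg.Agent.H21 Cfsg.Agent.H25

/-- Let p be an odd prime and G a finite group of even order divisible by p in which the centralizer of every non-identity p-element has odd order. If some nontrivial p-subgroup of G has a normalizer of even order, then the normalizer of every Sylow p-subgroup of G has even order. -/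
theorem result {G : Type*} [Group G] [Finite G] (p : ℕ) [Fact p.Prime] (hp2 : p ≠ 2) (hpG : p ∣ Nat.card G) (h2G : 2 ∣ Nat.card G) (hC : ∀ g : G, g ≠ 1 → (∃ k : ℕ, orderOf g = p ^ k) → Odd (Nat.card ↥(Subgroup.centralizer ({g} : Set G)))) (Q : Subgroup G) (hQ : IsPGroup p ↥Q) (hQ1 : Q ≠ ⊥) (hev : Even (Nat.card ↥(Subgroup.normalizer (Q : Set G)))) (P : Sylow p G) : Even (Nat.card ↥(Subgroup.normalizer ((P : Subgroup G) : Set G))) := by
  have hp : p.Prime := Fact.out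
  obtain ⟨y, hyQ, hy⟩ := exists_prime_order_mem Nat.prime_two hev.two_dvd
  obtain ⟨R, ⟨hR, hQR, hyR⟩, hmax⟩ := (Set.toFinite {K : Subgroup G | IsPGroup p K ∧ Q ≤ K ∧ y ∈ N⟦K⟧}).exists_maximal
    ⟨Q, hQ, le_rfl, hyQ⟩
  have hodd : ∀ g ∈ R, g ≠ 1 → Odd ♯C₁⟦g⟧ := fun g hg h1 => hC g h1 (by
    obtain ⟨k, hk⟩ := IsPGroup.iff_orderOf.mp hR ⟨g, hg⟩
    exact ⟨k, by rw [← hk, Subgroup.orderOf_mk]⟩)
  have hyi := inv_inv_eq hy
  have hyy := inv_mul_self hy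
  have hinv : ∀ a ∈ R, y * a * y⁻¹ = a⁻¹ := by
    intro a ha
    obtain ⟨c, -, rfl⟩ := exists_comm_eq_of_fpf hyR (fun a ha hc => by
      by_contra h1
      have := orderOf_dvd_card_of_mem (mem_cent1.mpr hc.symm)
      rw [hy] at this
      exact (Nat.not_even_iff_odd.mpr (hodd a ha h1)) (even_iff_two_dvd.mpr this)) ha
    calc y * (c * y * c⁻¹ * y⁻¹) * y⁻¹ = y * c * y * c⁻¹ * (y * y)⁻¹ := by group
      _ = y * c * y⁻¹ * c⁻¹ := by rw [hyy, hyi]; simp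
      _ = _ := by group
  obtain ⟨g, hg, hg1⟩ := exists_ne_one hQ1
  have hCo : Odd ♯C⟦R⟧ := odd_of_le (hodd g (hQR hg) hg1) (cent_le_cent1 (hQR hg))
  obtain ⟨S, hS, hRS⟩ := exists_sylowOf_ge hR (le_norm_self R)
  have hSp := Hall.isPGroup hS
  have hn : S ≤ N⟦C⟦R⟧⟧ := norm_cent (Hall.le hS)
  have hKo : Odd ♯(C⟦R⟧ ⊔ S) := odd_sup hCo (odd_of_pgroup hp2 hSp) (Or.inr hn)
  have hyK : y ∈ N⟦C⟦R⟧ ⊔ S⟧ := by
    apply mem_norm_of_cj_le
    rw [cj_sup, cj_eq_of_mem_norm (norm_le_norm_cent R hyR)]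
    refine sup_le le_sup_left fun x hx => ?_
    obtain ⟨s, hs, rfl⟩ := mem_cj'.mp hx
    have h1 : y * s * y⁻¹ * s⁻¹ ∈ C⟦R⟧ := by
      rw [mem_cent]
      intro a ha
      have hsN := Hall.le hS hs
      have e1 := hinv _ (conj_mem_of_norm' hsN ha)
      have e2 := hinv _ (inv_mem ha)
      have e3 : y⁻¹ * (s⁻¹ * a * s) * y = (s⁻¹ * a * s)⁻¹ := by rw [← e1, hyi]
      calc a * (y * s * y⁻¹ * s⁻¹) = (y * a⁻¹ * y⁻¹) * (y * s * y⁻¹ * s⁻¹) := by rw [e2, inv_inv]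
        _ = y * s * (s⁻¹ * a * s)⁻¹ * y⁻¹ * s⁻¹ := by group
        _ = y * s * (y⁻¹ * (s⁻¹ * a * s) * y) * y⁻¹ * s⁻¹ := by rw [e3]
        _ = _ := by group
    simpa using mul_mem (mem_sup_left h1 : _ ∈ C⟦R⟧ ⊔ S) (mem_sup_right hs)
  obtain ⟨T, hT, hyT, hRT⟩ := exists_inv_sylow_ge (zpowers_le.mpr hyK)
    (by rw [Nat.card_zpowers, hy]; exact Nat.coprime_two_right.mpr hKo)
    (Or.inl (sol_of_nil (nil_of_cyclic inferInstance))) hR (hRS.trans le_sup_right) (zpowers_le.mpr hyR)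
  have hTR : T ≤ R := hmax ⟨Hall.isPGroup hT, hQR.trans hRT, zpowers_le.mp hyT⟩ hRT
  have hSR : S = R := (eq_of_le_card hRS
    ((Hall.card_le hT (Hall.isPi hS) le_sup_right).trans (card_le hTR))).symm
  rw [hSR] at hS
  have hRG : SylowOf p R ⊤ := Hall.of_inf_norm (by rwa [top_inf_eq])
  obtain ⟨u, -, hu⟩ := Hall.exists_cj_eq hRG (sylowOf_top P)
  rw [← hu, ← cj_norm, card_cj, even_iff_two_dvd, ← hy]
  exact orderOf_dvd_card_of_mem hyR

end Cfsg.Agent.S3982
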