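import Cfsg.Statements.S3983
import Cfsg.Agent.H25.TISyl

set_option autoImplicit false
open scoped Pointwise
open Cfsg

namespace Cfsg.Agent.S3983

/-- Let P be a Sylow p-subgroup of the finite group G that meets each conjugate g P g⁻¹ with g outside N_G(P) trivially, and let U be a subgroup of G of order divisible by p. Then a Sylow p-subgroup Q of U has the same property inside U: Q meets each conjugate u Q u⁻¹ with u ∈ U outside N_U(Q) trivially. -/
theorem result {G : Type*} [Group G] [Finite G] (p : ℕ) [Fact p.Prime] (P : Sylow p G) (hTI : ∀ g : G, g ∉ Subgroup.normalizer ((P : Subgroup G) : Set G) → (P : Subgroup G) ⊓ (MulAut.conj g • (P : Subgroup G)) = ⊥) (U : Subgroup G) (hU : p ∣ Nat.card ↥U) (Q : Sylow p ↥U) : ∀ u : ↥U, u ∉ Subgroup.normalizer ((Q : Subgroup ↥U) : Set ↥U) → (Q : Subgroup ↥U) ⊓ (MulAut.conj u • (Q : Subgroup ↥U)) = ⊥ := by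
  refine H25.TI_of_sylow_eq Q fun R x hx hQ hR => ?_
  obtain ⟨Q', hQ'⟩ := Q.exists_comap_subtype_eq
  obtain ⟨R', hR'⟩ := R.exists_comap_subtype_eq
  have := H25.sylow_eq_of_TI P hTI (Q := Q') (R := R') (x := x) (fun h => hx (Subtype.ext h))
    (by rw [← hQ'] at hQ; exact hQ) (by rw [← hR'] at hR; exact hR)
  exact Sylow.ext (by rw [← hQ', ← hR', this])

end Cfsg.Agent.S3983
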