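import Cfsg.Statements.S3984
import Cfsg.Agent.H25.TISyl

set_option autoImplicit false
open scoped Pointwise
open Cfsg

namespace Cfsg.Agent.S3984

open Subgroup

/-- Let P be a Sylow p-subgroup of the finite group G that meets each conjugate g P g⁻¹ with g outside N_G(P) trivially, and let N be a normal subgroup of G of order prime to p. Then every Sylow p-subgroup Q of G ⧸ N meets each conjugate x Q x⁻¹ with x outside its normalizer trivially. -/
theorem result {G : Type*} [Group G] [Finite G] (p : ℕ) [Fact p.Prime] (P : Sylow p G) (hTI : ∀ g : G, g ∉ Subgroup.normalizer ((P : Subgroup G) : Set G) → (P : Subgroup G) ⊓ (MulAut.conj g • (P : Subgroup G)) = ⊥) (N : Subgroup G) [N.Normal] (hN : (Nat.card ↥N).Coprime p) (Q : Sylow p (G ⧸ N)) : ∀ x : G ⧸ N, x ∉ Subgroup.normalizer ((Q : Subgroup (G ⧸ N)) : Set (G ⧸ N)) → (Q : Subgroup (G ⧸ N)) ⊓ (MulAut.conj x • (Q : Subgroup (G ⧸ N))) = ⊥ := by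
  refine H25.TI_of_sylow_eq Q fun R x hx hQ hR => ?_
  have hsurj := QuotientGroup.mk'_surjective N
  obtain ⟨Q', rfl⟩ := Sylow.mapSurjective_surjective hsurj p Q
  obtain ⟨R', rfl⟩ := Sylow.mapSurjective_surjective hsurj p R
  obtain ⟨y, hy, rfl⟩ := hQ
  have hall : ∀ A : Subgroup G, A ≤ normalizer (N : Set G) := fun A => by
    rw [normalizer_eq_top N]; exact le_top
  have hy2 : y ∈ N ⊔ (R' : Subgroup G) := by
    have : y ∈ ((R' : Subgroup G).map (QuotientGroup.mk' N)).comap (QuotientGroup.mk' N) := hR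
    rwa [comap_map_eq, QuotientGroup.ker_mk', sup_comm] at this
  obtain ⟨k, hk, hle⟩ := (H1.isSylowIn_of_le R' (le_sup_right (a := N))).exists_le_conj
    (zpowers_le.2 hy2) (Q'.isPGroup'.to_le (zpowers_le.2 hy))
  obtain ⟨n, hn, r, hr, rfl⟩ := (H1.mem_sup_of_le_normalizer_left (hall _)).1 hk
  have h1 := H25.sylow_eq_of_TI P hTI (Q := Q') (R := (n * r) • R') (x := y)
    (by rintro rfl; exact hx (map_one _)) hy (hle (mem_zpowers y))
  rw [mul_smul, Sylow.smul_eq_iff_mem_normalizer.2 (le_normalizer hr)] at h1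
  apply Sylow.ext
  rw [h1, Sylow.coe_mapSurjective, Sylow.coe_mapSurjective, Sylow.coe_subgroup_smul,
    H1.conj_smul_eq_map, map_map]
  congr 1
  ext z
  have : (n : G ⧸ N) = 1 := (QuotientGroup.eq_one_iff n).2 hn
  simp [this]

end Cfsg.Agent.S3984
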