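import Cfsg.Statements.S3985
import Cfsg.Agent.H25.TISyl
import Cfsg.Agent.H3.PNil
import Cfsg.Agent.H25.Cyc

set_option autoImplicit false
open scoped Pointwise
open Cfsg

namespace Cfsg.Agent.S3985

open Subgroup

/-- Let P be a cyclic Sylow p-subgroup of the finite group G. Then P meets each conjugate g P g⁻¹ with g outside N_G(P) trivially if and only if P is weakly self-centralizing: C_G(x) = C_G(P) for every non-identity x ∈ P. -/
theorem result {G : Type*} [Group G] [Finite G] (p : ℕ) [Fact p.Prime] (P : Sylow p G) (hcyc : IsCyclic ↥(P : Subgroup G)) : (∀ g : G, g ∉ Subgroup.normalizer ((P : Subgroup G) : Set G) → (P : Subgroup G) ⊓ (MulAut.conj g • (P : Subgroup G)) = ⊥) ↔ ∀ x : G, x ∈ (P : Subgroup G) → x ≠ 1 → Subgroup.centralizer ({x} : Set G) = Subgroup.centralizer ((P : Subgroup G) : Set G) := by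
  have hcomm : IsMulCommutative (P : Subgroup G) := IsCyclic.commutative
  have hPC : (P : Subgroup G) ≤ centralizer ((P : Subgroup G) : Set G) := le_centralizer _
  have hp : p.Prime := Fact.out
  constructor
  · intro hTI x hx hx1
    refine le_antisymm (fun c hc => ?_) (centralizer_le (Set.singleton_subset_iff.2 hx))
    have hN : centralizer ({x} : Set G) ≤ normalizer ((P : Subgroup G) : Set G) := by
      intro c hc
      refine Sylow.smul_eq_iff_mem_normalizer.1
        (H25.sylow_eq_of_TI P hTI hx1 (H26.mem_smul_sylow.2 ?_) hx)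
      rw [mul_assoc, ← H26.mem_cent.1 hc, inv_mul_cancel_left]; exact hx
    obtain ⟨a, b, ha, hb, ⟨k, hk⟩, hbc, hab⟩ := H3.exists_p_part p c
    have ha' := zpowers_le.2 hc ha
    have hb' := zpowers_le.2 hc hb
    rw [hab]
    refine mul_mem (hPC (H26.le_of_le_normalizer_sylow (H25.isPGroup_zpowers_of_pow_eq_one hk) P
      (zpowers_le.2 (hN ha')) (mem_zpowers a))) ?_
    rw [← zpowers_le]
    refine H1.le_centralizer_of_centralizes_prime_order (zpowers_le.2 (hN hb'))
      (H1.coprime_card_of_isPGroup_of_coprime P.isPGroup' (by rwa [Nat.card_zpowers])).symm ?_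
    intro v hv hvp
    rw [H10.centralizer_zpowers]
    refine zpowers_le.2 (H26.mem_cent_comm.1 hb') ?_
    -- v lies in the cyclic group generated by x
    have hvp' : orderOf v = p := by
      obtain ⟨j, hj⟩ := P.isPGroup' ⟨v, hv⟩
      exact (Nat.prime_dvd_prime_iff_eq hvp hp).1
        (hvp.dvd_of_dvd_pow (orderOf_dvd_of_pow_eq_one (congrArg Subtype.val hj)))
    have hd : p ∣ orderOf x := by
      obtain ⟨j, hj⟩ := P.isPGroup' ⟨x, hx⟩
      obtain ⟨i, -, hi⟩ := (Nat.dvd_prime_pow hp).1
        (orderOf_dvd_of_pow_eq_one (x := x) (congrArg Subtype.val hj))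
      rw [hi]
      refine dvd_pow_self p ?_
      rintro rfl
      exact hx1 (orderOf_eq_one_iff.1 hi)
    exact H25.mem_zpowers_of_orderOf_dvd_of_isCyclic hx hv (hvp' ▸ hd)
  · intro h
    refine H25.TI_of_sylow_eq P fun R x hx hP hR => ?_
    obtain ⟨g, rfl⟩ := MulAction.exists_smul_eq G P R
    have h1 := h _ (H26.mem_smul_sylow.1 hR) (by
      intro h0; apply hx
      calc x = g * (g⁻¹ * x * g) * g⁻¹ := by group
        _ = 1 := by rw [h0]; group)
    refine (H26.sylow_eq_of_le_normalizer fun y hy => centralizer_le_normalizer _ ?_).symm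
    refine (h x hP hx).le (H26.mem_cent.2 ?_)
    have h2 := H26.mem_cent.1 (h1 ▸ hPC (H26.mem_smul_sylow.1 hy))
    calc y * x = g * (g⁻¹ * y * g * (g⁻¹ * x * g)) * g⁻¹ := by group
      _ = _ := by rw [h2]; group

end Cfsg.Agent.S3985
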