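import Cfsg.Statements.S3986
import Cfsg.Agent.H25.DirFac

set_option autoImplicit false
open Cfsg

namespace Cfsg.Agent.S3986

open Subgroup

/-- Let p be a prime and G a finite group. Then some Sylow p-subgroup of G is a direct factor of G (it is normal and has a normal complement) if and only if every element of p-power order commutes with every element whose order is a power of a prime other than p. -/
theorem result {G : Type*} [Group G] [Finite G] (p : ℕ) [Fact p.Prime] : (∃ (P : Sylow p G) (K : Subgroup G), (P : Subgroup G).Normal ∧ K.Normal ∧ (P : Subgroup G) ⊓ K = ⊥ ∧ (P : Subgroup G) ⊔ K = ⊤) ↔ ∀ x y : G, (∃ a : ℕ, orderOf x = p ^ a) → (∃ q b : ℕ, q.Prime ∧ q ≠ p ∧ orderOf y = q ^ b) → x * y = y * x := by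
  have hp : p.Prime := Fact.out
  constructor
  · rintro ⟨P, K, hP, hK, h1, h2⟩ x y ⟨a, ha⟩ ⟨q, b, hq, hqp, hb⟩
    have hc := H2.isComplement'_of_normal h1 h2
    have hx : x ∈ (P : Subgroup G) := H25.mem_of_pow_eq_one_of_not_dvd_index hp
      (ha ▸ pow_orderOf_eq_one x) (by rw [normalizer_eq_top]; trivial) P.not_dvd_index
    have hy : y ∈ K := H25.mem_of_pow_eq_one_of_not_dvd_index hq
      (hb ▸ pow_orderOf_eq_one y) (by rw [normalizer_eq_top]; trivial) (by
        obtain ⟨n, hn⟩ := IsPGroup.iff_card.1 P.isPGroup'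
        rw [hc.index_eq_card, hn]
        exact fun h => hqp ((Nat.prime_dvd_prime_iff_eq hq hp).1 (hq.dvd_of_dvd_pow h)))
    exact (commute_of_normal_of_disjoint _ _ hP hK (disjoint_iff.2 h1) x y hx hy).eq
  · intro h
    obtain ⟨P⟩ : Nonempty (Sylow p G) := inferInstance
    obtain ⟨h1, K, h2, -, h3, h4⟩ := H25.direct_factor_of_sup_centralizer P
      (H25.sup_centralizer_eq_top_of_not_dvd P fun y hy => H26.not_dvd_index_of_sylow_le P (by
        rw [H26.le_cent_iff]
        apply H25.mem_of_forall_prime_part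
        intro q hq hd k a hk
        rw [mem_centralizer_iff]
        intro x hx
        obtain ⟨j, hj⟩ := P.isPGroup' ⟨x, hx⟩
        obtain ⟨j', -, hj'⟩ := (Nat.dvd_prime_pow hp).1
          (orderOf_dvd_of_pow_eq_one (congrArg Subtype.val hj))
        obtain ⟨a', -, ha'⟩ := (Nat.dvd_prime_pow hq).1 (orderOf_dvd_of_pow_eq_one hk)
        refine h x _ ⟨j', hj'⟩ ⟨q, a', hq, ?_, ha'⟩
        rintro rfl
        exact hq.one_lt.ne' (Nat.Coprime.eq_one_of_dvd hy.symm hd)))
    exact ⟨P, K, h1, h2, h3, h4⟩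

end Cfsg.Agent.S3986
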