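import Cfsg.Statements.S3987
import Cfsg.Agent.S3986
import Cfsg.Agent.H2.Product

set_option autoImplicit false
open Cfsg

namespace Cfsg.Agent.S3987

open Subgroup

/-- Let p be a prime and G a finite group. Then some Sylow p-subgroup of G is a direct factor of G (normal with a normal complement) if and only if for every element x of p-power order and every element y whose order is a power of a prime other than p, the conjugacy class of x y has as many elements as the product of the sizes of the classes of x and of y. -/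
theorem result {G : Type*} [Group G] [Finite G] (p : ℕ) [Fact p.Prime] : (∃ (P : Sylow p G) (K : Subgroup G), (P : Subgroup G).Normal ∧ K.Normal ∧ (P : Subgroup G) ⊓ K = ⊥ ∧ (P : Subgroup G) ⊔ K = ⊤) ↔ ∀ x y : G, (∃ a : ℕ, orderOf x = p ^ a) → (∃ q b : ℕ, q.Prime ∧ q ≠ p ∧ orderOf y = q ^ b) → (Subgroup.centralizer ({x * y} : Set G)).index = (Subgroup.centralizer ({x} : Set G)).index * (Subgroup.centralizer ({y} : Set G)).index := by
  have hp : p.Prime := Fact.out
  constructor
  · intro hG x y ⟨a, ha⟩ ⟨q, b, hq, hqp, hb⟩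
    have hc := (Cfsg.Agent.S3986.result p).1 hG
    have hxy := hc x y ⟨a, ha⟩ ⟨q, b, hq, hqp, hb⟩
    rw [H26.cent_mul_of_coprime hxy (by
      rw [ha, hb]; exact Nat.coprime_pow_primes _ _ hp hq hqp.symm)]
    obtain ⟨P, K, hP, hK, h1, h2⟩ := hG
    have hc' := H2.isComplement'_of_normal h1 h2
    have hx : x ∈ (P : Subgroup G) := H25.mem_of_pow_eq_one_of_not_dvd_index hp
      (ha ▸ pow_orderOf_eq_one x) (by rw [normalizer_eq_top]; trivial) P.not_dvd_index
    obtain ⟨n, hn⟩ := IsPGroup.iff_card.1 P.isPGroup'
    have hy : y ∈ K := H25.mem_of_pow_eq_one_of_not_dvd_index hq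
      (hb ▸ pow_orderOf_eq_one y) (by rw [normalizer_eq_top]; trivial) (by
        rw [hc'.index_eq_card, hn]
        exact fun h => hqp ((Nat.prime_dvd_prime_iff_eq hq hp).1 (hq.dvd_of_dvd_pow h)))
    have h3 : K ≤ centralizer {x} := fun k hk => H26.mem_cent.2
      (commute_of_normal_of_disjoint _ _ hP hK (disjoint_iff.2 h1) x k hx hk).eq.symm
    have h4 : (P : Subgroup G) ≤ centralizer {y} := fun k hk => H26.mem_cent.2
      (commute_of_normal_of_disjoint _ _ hP hK (disjoint_iff.2 h1) k y hk hy).eq
    have hf : H2.Fac ⊤ (centralizer ({x} : Set G)) (centralizer {y}) :=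
      (H2.fac_of_isComplement' hc').symm.mono h3 h4 le_top le_top
    have h5 := hf.relIndex_left
    rw [relIndex_top_right] at h5
    rw [h5, ← relIndex_mul_index (inf_le_right : centralizer {x} ⊓ centralizer {y} ≤ _),
      inf_relIndex_right]
  · intro h
    refine (Cfsg.Agent.S3986.result p).2 fun x y hx hy => ?_
    have h1 := h x y hx hy
    have h2 : centralizer ({x} : Set G) ⊓ centralizer {y} ≤ centralizer {x * y} := by
      rintro c ⟨c1, c2⟩
      replace c1 := H26.mem_cent.1 c1
      replace c2 := H26.mem_cent.1 c2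
      rw [H26.mem_cent, ← mul_assoc, c1, mul_assoc, c2, mul_assoc]
    have h3 : centralizer ({x} : Set G) ⊓ centralizer {y} = centralizer {x * y} := by
      refine eq_of_le_of_not_lt h2 fun hlt => ?_
      have := index_strictAnti hlt
      have h4 := index_inf_le (H := centralizer ({x} : Set G)) (K := centralizer {y})
      omega
    have h4 : x * y ∈ centralizer ({x} : Set G) ⊓ centralizer {y} := h3 ▸ H26.mem_cent_self _
    have h5 := H26.mem_cent.1 h4.1
    rw [mul_assoc] at h5
    exact (mul_left_cancel h5).symm

end Cfsg.Agent.S3987
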