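import Cfsg.Statements.S4009
import Cfsg.Agent.S4206
import Cfsg.Agent.H9.HallPet
import Cfsg.Agent.H1.SylowIn

set_option autoImplicit false
open Cfsg

namespace Cfsg.Agent.S4009

open Subgroup
open scoped commutatorElement

variable {P : Type*} [Group P]

theorem comm_le_of_gen {M H : Subgroup P} (hn : ∀ m ∈ M, ∀ h ∈ H, m * h * m⁻¹ ∈ H) {s : Set P} (hs : closure s = M)
    (h : ∀ a ∈ s, ∀ b ∈ s, ⁅a, b⁆ ∈ H) : ⁅M, M⁆ ≤ H := by
  subst hs
  refine commutator_le.2 fun a ha b hb => closure_induction₂ (p := fun a b _ _ => ⁅a, b⁆ ∈ H) (fun a b ha hb => h a ha b hb)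
    (by simp) (by simp) (fun x y z hx _ _ h1 h2 => ?_) (fun y z x hy _ _ h1 h2 => ?_) (fun x y hx _ h1 => ?_)
    (fun x y _ hy h1 => ?_) ha hb
  · simpa [commutatorElement_def, mul_assoc] using mul_mem (hn x hx _ h2) h1
  · simpa [commutatorElement_def, mul_assoc] using mul_mem h1 (hn y hy _ h2)
  · simpa [commutatorElement_def, mul_assoc] using hn _ (inv_mem hx) _ (inv_mem h1)
  · simpa [commutatorElement_def, mul_assoc] using hn _ (inv_mem hy) _ (inv_mem h1)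

theorem two_gen {M : Subgroup P} [M.Normal] {x y : P} (hx : x ∈ M) (hy : y ∈ M)
    (h : M ≤ zpowers y ⊔ (zpowers x ⊔ ⁅M, (⊤ : Subgroup P)⁆)) : ⁅M, M⁆ ≤ zpowers ⁅x, y⁆ ⊔ ⁅⁅M, (⊤ : Subgroup P)⁆, M⁆ := by
  have h0 : ⁅M, (⊤ : Subgroup P)⁆ ≤ M := commutator_le_left _ _
  have h1 : ⁅x, y⁆ ∈ ⁅M, (⊤ : Subgroup P)⁆ := commutator_mem_commutator hx trivial
  refine comm_le_of_gen (s := {y} ∪ ({x} ∪ (⁅M, (⊤ : Subgroup P)⁆ : Subgroup P))) (fun m hm a ha => ?_) ?_ ?_
  · obtain ⟨u, hu, v, hv, rfl⟩ := mem_sup_of_normal_right.1 ha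
    have := inv_mem (commutator_mem_commutator (zpowers_le.2 h1 hu) hm)
    have e : m * (u * v) * m⁻¹ = ⁅u, m⁆⁻¹ * u * (m * v * m⁻¹) := by simp [commutatorElement_def, mul_assoc]
    rw [e]
    exact mul_mem (mul_mem (mem_sup_right this) (mem_sup_left hu))
      (mem_sup_right ((inferInstance : (⁅⁅M, (⊤ : Subgroup P)⁆, M⁆).Normal).conj_mem _ hv _))
  · rw [Subgroup.closure_union, Subgroup.closure_union, Subgroup.closure_eq, ← zpowers_eq_closure, ← zpowers_eq_closure]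
    exact le_antisymm (sup_le (zpowers_le.2 hy) (sup_le (zpowers_le.2 hx) h0)) h
  · have k : ∀ a ∈ M, ∀ b ∈ ⁅M, (⊤ : Subgroup P)⁆, ⁅a, b⁆ ∈ zpowers ⁅x, y⁆ ⊔ ⁅⁅M, (⊤ : Subgroup P)⁆, M⁆ := fun a ha b hb =>
      mem_sup_right (commutator_comm M _ ▸ commutator_mem_commutator ha hb)
    rintro a (rfl | rfl | ha) b (rfl | rfl | hb)
    · simp
    · exact mem_sup_left (commutatorElement_inv b a ▸ inv_mem (mem_zpowers _))
    · exact k _ hy _ hb
    · exact mem_sup_left (mem_zpowers _)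
    · simp
    · exact k _ hx _ hb
    · exact mem_sup_right (commutator_mem_commutator ha hy)
    · exact mem_sup_right (commutator_mem_commutator ha hx)
    · exact k _ (h0 ha) _ hb

/-- Cyclic modulo the commutator with the whole group. -/
def Cy (M : Subgroup P) : Prop := ∃ x ∈ M, M ≤ zpowers x ⊔ ⁅M, (⊤ : Subgroup P)⁆

theorem Cy.le {M : Subgroup P} [M.Normal] (h : Cy M) : ⁅M, M⁆ ≤ ⁅⁅M, (⊤ : Subgroup P)⁆, M⁆ := by
  obtain ⟨x, hx, h⟩ := h
  simpa using two_gen hx hx (h.trans le_sup_right)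

theorem Cy.lcs {M : Subgroup P} [M.Normal] (h : Cy M) {i : ℕ} (hi : M ≤ (⊤ : Subgroup P).lowerCentralSeries i) :
    ⁅M, M⁆ ≤ (⊤ : Subgroup P).lowerCentralSeries (2 * i + 2) :=
  h.le.trans ((commutator_mono (commutator_mono hi le_rfl) hi).trans
    ((H9.commutator_lowerCentralSeries_le ⊤ (i + 1) i).trans (le_of_eq (by congr 1; omega))))

theorem der_lcs {M : Subgroup P} {i : ℕ} (hi : M ≤ (⊤ : Subgroup P).lowerCentralSeries i) :
    ⁅M, M⁆ ≤ (⊤ : Subgroup P).lowerCentralSeries (2 * i + 1) :=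
  (commutator_mono hi hi).trans ((H9.commutator_lowerCentralSeries_le ⊤ i i).trans (le_of_eq (by congr 1; omega)))

variable [Finite P] {p : ℕ} [hp : Fact p.Prime]

theorem lg_lt (hP : IsPGroup p P) {H K : Subgroup P} (h : H < K) :
    Nat.log p (Nat.card H) < Nat.log p (Nat.card K) := by
  obtain ⟨a, ha⟩ := (hP.to_subgroup H).exists_card_eq
  obtain ⟨b, hb⟩ := (hP.to_subgroup K).exists_card_eq
  have : Nat.card H < Nat.card K := Set.Finite.card_lt_card (Set.toFinite _) (SetLike.coe_ssubset_coe.2 h)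
  rw [ha, hb] at this ⊢
  rw [Nat.log_pow hp.out.one_lt, Nat.log_pow hp.out.one_lt]
  exact (Nat.pow_lt_pow_iff_right hp.out.one_lt).1 this

theorem lg_le (hP : IsPGroup p P) {H K : Subgroup P} (h : H ≤ K) :
    Nat.log p (Nat.card H) ≤ Nat.log p (Nat.card K) := h.eq_or_lt.elim (fun e => by rw [e]) fun e => (lg_lt hP e).le

theorem key (hP : IsPGroup p P) {N : Subgroup P} [N.Normal] {i : ℕ} (hi : N ≤ (⊤ : Subgroup P).lowerCentralSeries i)
    (h : ⁅N, N⁆ ≠ ⊥) : Nat.log p (Nat.card ↥⁅N, N⁆) + i + 2 ≤ Nat.log p (Nat.card N) ∧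
      (Nat.log p (Nat.card ↥⁅N, N⁆) + i + 3 ≤ Nat.log p (Nat.card N) ∨ Cy N ∨ Cy ⁅N, N⁆) := by
  let c : ℕ → Subgroup P := fun j => (fun H => ⁅H, ⊤⁆)^[j] N
  have c1 : ∀ j, c (j + 1) = ⁅c j, ⊤⁆ := fun j => Function.iterate_succ_apply' _ _ _
  have c2 : ∀ j, (c j).Normal := fun j => by
    induction j with
    | zero => assumption
    | succ j ih => rw [c1]; infer_instance
  have c3 : ∀ j, c (j + 1) ≤ c j := fun j => c1 j ▸ commutator_le_left _ _
  have c4 : ∀ j, ⁅c j, N⁆ ≤ c (j + i + 1) := fun j =>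
    (commutator_mono le_rfl hi).trans (S4206.result c c2 c3 ⊤ (fun j => (c1 j).ge) j i)
  have c5 : ∀ j, c j ≠ ⊥ → c (j + 1) < c j := fun j hj => c1 j ▸
    H1.commutator_lt_of_isPGroup (hP.to_subgroup _) (hP.to_subgroup _) (by rw [normalizer_eq_top]) hj
  have c6 : ∀ j, c j ≠ ⊥ → Nat.log p (Nat.card (c (j + 1))) + j ≤ Nat.log p (Nat.card (c 1)) := fun j => by
    induction j with
    | zero => exact fun _ => le_rfl
    | succ j ih => exact fun hj => by have := lg_lt hP (c5 _ hj); have := ih fun e => hj (eq_bot_mono (c3 j) e); omega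
  have d1 : ⁅N, N⁆ ≤ c (i + 1) := by have := c4 0; rwa [zero_add] at this
  have d2 : c (i + 1) ≠ ⊥ := fun e => h (eq_bot_mono d1 e)
  have d3 : c i ≠ ⊥ := fun e => d2 (eq_bot_mono (c3 i) e)
  have d4 : c 1 < N := c5 0 fun e => h (eq_bot_mono (commutator_le_left _ _) e)
  have d5 : ⁅⁅N, (⊤ : Subgroup P)⁆, N⁆ ≤ c (i + 1 + 1) := by have := c4 1; rwa [add_comm 1 i] at this
  by_cases hc : Cy N
  · have := lg_le hP (hc.le.trans d5)
    have := c6 _ d2
    have := lg_lt hP d4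
    exact ⟨by omega, Or.inr (Or.inl hc)⟩
  obtain ⟨x, hx, hx'⟩ := SetLike.exists_of_lt d4
  obtain ⟨y, hy, hy'⟩ := SetLike.not_le_iff_exists.1 fun e => hc ⟨x, hx, e⟩
  have e1 := lg_lt hP (show c 1 < zpowers x ⊔ ⁅N, (⊤ : Subgroup P)⁆ from
    lt_of_le_of_ne le_sup_right fun e => hx' (e ▸ mem_sup_left (mem_zpowers x)))
  have e2 := lg_lt hP (show zpowers x ⊔ ⁅N, (⊤ : Subgroup P)⁆ < zpowers y ⊔ (zpowers x ⊔ ⁅N, (⊤ : Subgroup P)⁆) from
    lt_of_le_of_ne le_sup_right fun e => hy' (e ▸ mem_sup_left (mem_zpowers y)))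
  have e3 : zpowers y ⊔ (zpowers x ⊔ ⁅N, (⊤ : Subgroup P)⁆) ≤ N := sup_le (zpowers_le.2 hy) (sup_le (zpowers_le.2 hx) d4.le)
  have e4 := c6 _ d3
  have e5 := lg_le hP d1
  have e6 := lg_le hP e3
  refine ⟨by omega, ?_⟩
  rcases e3.eq_or_lt with e3 | e3
  · rcases d1.eq_or_lt with d1 | d1
    · exact Or.inr (Or.inr ⟨_, commutator_mem_commutator hx hy, (two_gen hx hy e3.ge).trans
        (sup_le_sup_left (d5.trans (by rw [c1, d1])) _)⟩)
    · have := lg_lt hP d1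
      exact Or.inl (by omega)
  · have := lg_lt hP e3
    exact Or.inl (by omega)

theorem ne_bot_of_iter (k : ℕ) {N : Subgroup P} (h : (fun H => ⁅H, H⁆)^[k] N ≠ ⊥) : N ≠ ⊥ := by
  rintro rfl
  exact h (Function.iterate_fixed (by simp) k)

theorem hall (hP : IsPGroup p P) (k : ℕ) : ∀ {N : Subgroup P} [N.Normal] {i : ℕ},
    N ≤ (⊤ : Subgroup P).lowerCentralSeries i → (fun H => ⁅H, H⁆)^[k] N ≠ ⊥ →
      (i + 1) * 2 ^ k + k ≤ Nat.log p (Nat.card N) + i := by
  induction k with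
  | zero => exact fun _ h => by have := lg_lt hP (bot_lt_iff_ne_bot.2 h); simp only [Function.iterate_zero, id] at this; omega
  | succ k ih =>
    intro N _ i hi h
    have h1 := ih (der_lcs hi) h
    have h2 := (key hP hi (ne_bot_of_iter k h)).1
    rw [pow_succ]
    nlinarith

theorem mann (hP : IsPGroup p P) (k : ℕ) : ∀ {N : Subgroup P} [N.Normal] {i : ℕ},
    N ≤ (⊤ : Subgroup P).lowerCentralSeries i → (fun H => ⁅H, H⁆)^[k] N ≠ ⊥ →
      (i + 1) * 2 ^ k + 2 * k ≤ Nat.log p (Nat.card N) + i + 2 := by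
  induction k with
  | zero => exact fun _ _ => by omega
  | succ k ih =>
    intro N _ i hi h
    obtain ⟨h2, h3 | h3 | h3⟩ := key hP hi (ne_bot_of_iter k h)
    · have h1 := ih (der_lcs hi) h
      rw [pow_succ]
      nlinarith
    · have h1 := hall hP k (h3.lcs hi) h
      have := k.lt_two_pow_self
      rw [pow_succ]
      nlinarith
    · rcases k with _ | k
      · omega
      have h1 := hall hP k (h3.lcs (der_lcs hi)) h
      have h4 := (key hP (der_lcs hi) (ne_bot_of_iter k h)).1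
      have := k.lt_two_pow_self
      rw [pow_succ, pow_succ]
      nlinarith

/-- Let P be a finite p-group of order p^n whose derived length is exactly k + 1 (the k-th derived subgroup is nontrivial and the (k+1)-st is trivial). Then n ≥ 2^k + 2k − 2. -/
theorem result {P : Type*} [Group P] [Finite P] (p : ℕ) [Fact p.Prime] (n k : ℕ) (hcard : Nat.card P = p ^ n) (hk : derivedSeries P k ≠ ⊥) (hk' : derivedSeries P (k + 1) = ⊥) : 2 ^ k + 2 * k ≤ n + 2 := by
  have h : ∀ k, derivedSeries P k = (fun H => ⁅H, H⁆)^[k] ⊤ := fun k => by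
    induction k with
    | zero => rfl
    | succ k ih => rw [derivedSeries_succ, ih, Function.iterate_succ_apply']
  have := mann (IsPGroup.of_card hcard) k (N := ⊤) (i := 0) le_rfl (h k ▸ hk)
  rwa [card_top, hcard, Nat.log_pow (Fact.out : p.Prime).one_lt, zero_add, one_mul] at this

end Cfsg.Agent.S4009
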