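import Cfsg.Statements.S4013
import Cfsg.Agent.H1.Basic
import Cfsg.Agent.H26.ClassSize

set_option autoImplicit false
open Cfsg

namespace Cfsg.Agent.S4013

/-- Let G be a finite p-group (p prime) and N < M normal subgroups of G such that for some g ∈ M ∖ N the conjugacy class of g is exactly M ∖ N. Then p = 2 and N has index 2 in M. -/
theorem result {G : Type*} [Group G] [Finite G] (p : ℕ) [Fact p.Prime] (hG : IsPGroup p G) (N M : Subgroup G) [N.Normal] [M.Normal] (hNM : N < M) (g : G) (hgM : g ∈ M) (hgN : g ∉ N) (hcl : {h : G | IsConj g h} = (M : Set G) \ (N : Set G)) : p = 2 ∧ N.relIndex M = 2 := by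
  have hp : p.Prime := Fact.out
  obtain ⟨a, ha⟩ := IsPGroup.iff_card.1 (hG.to_subgroup N)
  obtain ⟨k, hk⟩ := hG.index (Subgroup.centralizer {g})
  obtain ⟨c, hc⟩ := (hG.to_subgroup M).index (N.subgroupOf M)
  have hc' : N.relIndex M = p ^ c := hc
  have h1 := H1.card_mul_relIndex hNM.le
  have h2 : (Subgroup.centralizer ({g} : Set G)).index = Nat.card M - Nat.card N := by
    rw [H26.index_cent_eq_ncard, hcl, Set.ncard_diff hNM.le]; rfl
  have hc0 : c ≠ 0 := by
    rintro rfl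
    exact not_le_of_gt hNM (Subgroup.relIndex_eq_one.1 (by simpa using hc'))
  rw [hk, ← h1, ha, hc', ← Nat.mul_sub_one] at h2
  have h3 : p ^ c - 1 ∣ p ^ k := Dvd.intro_left _ h2.symm
  obtain ⟨j, -, hj⟩ := (Nat.dvd_prime_pow hp).1 h3
  have hpos : 1 ≤ p ^ c := Nat.one_le_pow _ _ hp.pos
  have hj0 : j = 0 := by
    by_contra h
    have h4 : p ∣ p ^ c - 1 := hj ▸ dvd_pow_self p h
    have h5 := (Nat.dvd_sub_iff_right hpos (dvd_pow_self p hc0)).1 h4
    exact hp.one_lt.ne' (Nat.dvd_one.1 h5)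
  have h6 : p ^ c = 2 := by rw [hj0, pow_zero] at hj; omega
  exact ⟨(Nat.prime_dvd_prime_iff_eq hp Nat.prime_two).1 (h6 ▸ dvd_pow_self p hc0), hc'.trans h6⟩

end Cfsg.Agent.S4013
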