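import Cfsg.Statements.S4024
import Cfsg.Agent.H25.EqConj

set_option autoImplicit false
open Cfsg

namespace Cfsg.Agent.S4024

open Cfsg.Agent.H25 Cfsg.Agent.H21

/-- Let p be an odd prime and G a finite group in which any two p-subgroups of the same order are conjugate, with Sylow p-subgroup P. If H is a normal p-solvable subgroup of G whose order is divisible by p, then P is abelian, and either P ≤ H or P is cyclic. -/
theorem result {G : Type*} [Group G] [Finite G]
    {p : ℕ} [Fact p.Prime] (hp : p ≠ 2) (hC : ∀ H K : Subgroup G, IsPGroup p H → IsPGroup p K → Nat.card H = Nat.card K →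
      ∃ g : G, K = H.map (MulAut.conj g).toMonoidHom) (P : Sylow p G)
    (H : Subgroup G) [H.Normal] (hsolv : Cfsg.IsPSolvable p H) (hdiv : p ∣ Nat.card H) :
    IsMulCommutative P ∧ ((P : Subgroup G) ≤ H ∨ IsCyclic P) := by
  have hC' : PEq p G := hC
  have key : (∀ x ∈ (P : Subgroup G), x ^ p = 1) → IsMulCommutative P ∧ ((P : Subgroup G) ≤ H ∨ IsCyclic P) :=
    fun he => ⟨hC'.comm_of_pSolvable P.isPGroup' he H hsolv hdiv,
      Or.inl fun x hx => hC'.mem_of_normal inferInstance hdiv (he x hx)⟩
  rcases hC'.structure P.isPGroup' with h | h | h | ⟨h1, h2, h3, h4⟩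
  · exact ⟨comm_of_cyclic h, Or.inr h⟩
  · exact key h.2
  · exact absurd h.1 hp
  · exact key h4

end Cfsg.Agent.S4024
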