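import Cfsg.Statements.S4027
import Cfsg.Agent.H25.Real

set_option autoImplicit false
open Cfsg

namespace Cfsg.Agent.S4027

/-- Let G be a finite group in which every element x of odd order satisfies N_G(⟨x⟩) = C_G(x). Then the Sylow 2-subgroups of G are normal. -/
theorem result {G : Type*} [Group G] [Finite G]
    (hirr : ∀ x : G, (∀ r : ℕ, r.Prime → r ∣ orderOf x → r ≠ 2) →
      Subgroup.normalizer ((Subgroup.zpowers x : Subgroup G) : Set G) ≤ Subgroup.centralizer {x}) (P : Sylow 2 G) :
    (P : Subgroup G).Normal := by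
  refine H25.sylow_two_normal_of_no_real P fun x hx hodd hr => ?_
  obtain ⟨t, ht⟩ := isConj_iff.1 hr
  have := hirr x (by
    rintro r - hd rfl
    exact (Nat.not_even_iff_odd.2 hodd) (even_iff_two_dvd.2 hd))
    (H25.mem_normalizer_zpowers_of_inv ht)
  exact hx (H11.eq_one_of_odd_of_sq hodd
    (H25.sq_eq_one_of_inv_of_commute ht (H26.mem_cent.1 this)))

end Cfsg.Agent.S4027
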