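import Cfsg.Statements.S4028
import Cfsg.Agent.H25.Real
import Cfsg.Agent.H26.SylNum

set_option autoImplicit false
open Cfsg

namespace Cfsg.Agent.S4028

open Subgroup

/-- Let G be a finite group with Sylow 2-subgroup P. Then N_G(⟨x⟩) = C_G(x) holds for every 2-element x of G if and only if N_P(⟨y⟩) = C_P(y) holds for every y ∈ P (computed inside P). -/
theorem result {G : Type*} [Group G] [Finite G] (P : Sylow 2 G) :
    (∀ x : G, (∀ r : ℕ, r.Prime → r ∣ orderOf x → r = 2) →
      Subgroup.normalizer ((Subgroup.zpowers x : Subgroup G) : Set G) ≤ Subgroup.centralizer {x}) ↔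
    (∀ y : ↥(P : Subgroup G), Subgroup.normalizer ((Subgroup.zpowers y : Subgroup ↥(P : Subgroup G)) : Set ↥(P : Subgroup G)) ≤
        Subgroup.centralizer {y}) := by
  have conv : ∀ {H : Subgroup G} (y n : H), n ∈ normalizer ((zpowers y : Subgroup H) : Set H) ↔
      (n : G) ∈ normalizer ((zpowers (y : G) : Subgroup G) : Set G) := by
    intro H y n
    rw [← mem_map_iff_mem H.subtype_injective, H10.map_subtype_normalizer, MonoidHom.map_zpowers]
    exact ⟨fun h => h.2, fun h => ⟨n.2, h⟩⟩
  constructor
  · intro h y n hn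
    rw [H26.mem_cent]
    refine Subtype.ext (H26.mem_cent.1 (h y ?_ ((conv y n).1 hn)))
    intro r hr hd
    obtain ⟨j, hj⟩ := P.isPGroup' y
    exact (Nat.prime_dvd_prime_iff_eq hr Nat.prime_two).1 (hr.dvd_of_dvd_pow
      (hd.trans (orderOf_dvd_of_pow_eq_one (congrArg Subtype.val hj))))
  · intro h x hx g hg
    have hx2 : orderOf x = 2 ^ (orderOf x).primeFactorsList.length :=
      Nat.eq_prime_pow_of_unique_prime_dvd (orderOf_pos x).ne' (fun hr hd => hx _ hr hd)
    have hX : IsPGroup 2 (zpowers x) := H11.isPGroup_zpowers_of_orderOf hx2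
    apply H25.mem_of_forall_prime_part
    intro q hq _ k a hk
    have hgk : g ^ k ∈ normalizer ((zpowers x : Subgroup G) : Set G) := pow_mem hg k
    generalize g ^ k = u at hk hgk
    by_cases hq2 : q = 2
    · subst hq2
      have hU : IsPGroup 2 ↥(zpowers u ⊔ zpowers x) :=
        IsPGroup.to_sup_of_normal_right' (H25.isPGroup_zpowers_of_pow_eq_one hk) hX
          (zpowers_le.2 hgk)
      obtain ⟨c, hc⟩ := H11.exists_conj_le_sylow P hU
      have h1 := hc u (mem_sup_left (mem_zpowers u))
      have h2 := hc x (mem_sup_right (mem_zpowers x))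
      have h3 := h ⟨_, h2⟩ ((conv ⟨_, h2⟩ ⟨_, h1⟩).2 (by
        have := H10.conj_mem_conj c hgk
        rwa [H10.conj_normalizer, MonoidHom.map_zpowers] at this))
      have h4 := congrArg Subtype.val (H26.mem_cent.1 h3)
      simp only [coe_mul] at h4
      rw [H26.mem_cent]
      calc u * x = c⁻¹ * (c * u * c⁻¹ * (c * x * c⁻¹)) * c := by group
        _ = _ := by rw [h4]; group
    · rw [← H10.centralizer_zpowers]
      refine H25.mem_of_pow_eq_one_of_not_dvd_relIndex hq hk hgk
        (H10.normalizer_le_normalizer_centralizer _ hgk) fun hd => hq2 ?_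
      have h1 := hd.trans (H26.relIndex_centralizer_dvd_card_mulAut _)
      rw [IsCyclic.card_mulAut, Nat.card_zpowers, hx2] at h1
      generalize (orderOf x).primeFactorsList.length = m at h1
      rcases m with _ | n
      · simp at h1
        exact absurd h1 hq.one_lt.ne'
      · rw [Nat.totient_prime_pow_succ Nat.prime_two] at h1
        simp only [Nat.add_one_sub_one, mul_one] at h1
        exact (Nat.prime_dvd_prime_iff_eq hq Nat.prime_two).1 (hq.dvd_of_dvd_pow h1)

end Cfsg.Agent.S4028
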