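import Cfsg.Statements.S4029
import Cfsg.Agent.H8.Glaub4
import Cfsg.Agent.BG.Phi

set_option autoImplicit false
open Cfsg

namespace Cfsg.Agent.S4029

open Subgroup

/-- Let P be a finite 2-group in which N_P(⟨y⟩) = C_P(y) for every y ∈ P. If s is the number of conjugacy classes of involutions of P, then #(P/Φ(P)) ≤ s + 1; in particular the subgroup generated by the involutions of P has order at least #(P/Φ(P)). -/
theorem result {P : Type*} [Group P] [Finite P] (hP : IsPGroup 2 P)
    (hirr : ∀ y : P, Subgroup.normalizer ((Subgroup.zpowers y : Subgroup P) : Set P) ≤ Subgroup.centralizer {y}) :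
    Nat.card (P ⧸ frattini P) ≤ Nat.card {c : ConjClasses P // ∃ y : P, ConjClasses.mk y = c ∧ orderOf y = 2} + 1 ∧
    Nat.card (P ⧸ frattini P) ≤ Nat.card (Subgroup.closure {y : P | orderOf y = 2}) := by
  haveI : Fact (Nat.Prime 2) := ⟨Nat.prime_two⟩
  have hsq : ∀ x : P ⧸ frattini P, x ^ 2 = 1 := by
    intro x
    obtain ⟨x, rfl⟩ := QuotientGroup.mk_surjective x
    rw [← QuotientGroup.mk_pow, QuotientGroup.eq_one_iff]
    have := BG.pow_mem_frattiniOf (H := (⊤ : Subgroup P)) (hP.to_subgroup _) (mem_top x)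
    obtain ⟨y, hy, hy'⟩ := this
    have h2 := frattini_le_comap_frattini_of_surjective (φ := (⊤ : Subgroup P).subtype)
      (fun a => ⟨⟨a, mem_top a⟩, rfl⟩) hy
    rw [← hy']; exact h2
  have hcomm : ∀ a b : P ⧸ frattini P, a * b = b * a := fun a b => by
    have h1 := hsq (a * b)
    have h2 := hsq a
    have h3 := hsq b
    rw [pow_two] at h1 h2 h3
    calc a * b = a * ((a * b) * (a * b)) * b := by rw [h1, mul_one]
      _ = (a * a) * (b * a) * (b * b) := by simp only [mul_assoc]
      _ = b * a := by rw [h2, h3, one_mul, mul_one]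
  letI : CommGroup (P ⧸ frattini P) := { mul_comm := hcomm }
  have h1 : Nat.card (P ⧸ frattini P) ≤ Nat.card {χ : IrrCharacter P // ∀ g, (χ.1 g).im = 0} := by
    rw [← CommGroup.card_monoidHom_of_hasEnoughRootsOfUnity (P ⧸ frattini P) ℂ]
    haveI : Finite (IrrCharacter P) := inferInstance
    refine Nat.card_le_card_of_injective (fun lam => ⟨⟨_, H4.isIrrCharacter_linear
      (lam.comp (QuotientGroup.mk' _))⟩, fun g => ?_⟩) ?_
    · have h2 : ((lam (QuotientGroup.mk' _ g) : ℂˣ) : ℂ) ^ 2 = 1 := by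
        rw [← Units.val_pow_eq_pow_val, ← map_pow, hsq, map_one, Units.val_one]
      show (((lam (QuotientGroup.mk' _ g) : ℂˣ) : ℂ)).im = 0
      rcases sq_eq_one_iff.1 h2 with h | h <;> rw [h] <;> simp
    · intro a b hab
      ext x
      exact congrFun (congrArg (fun χ => χ.1.1) hab) x
  have h2 : Nat.card {c : ConjClasses P // ∀ k, ConjClasses.mk k = c → IsConj k k⁻¹} ≤
      Nat.card {c : ConjClasses P // ∃ y : P, ConjClasses.mk y = c ∧ orderOf y = 2} + 1 := by
    have h3 : {c : ConjClasses P | ∀ k, ConjClasses.mk k = c → IsConj k k⁻¹} ⊆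
        insert (ConjClasses.mk 1) {c : ConjClasses P | ∃ y : P, ConjClasses.mk y = c ∧ orderOf y = 2} := by
      intro c hc
      obtain ⟨k, rfl⟩ := ConjClasses.mk_surjective c
      obtain ⟨g, hg⟩ := isConj_iff.1 (hc k rfl)
      have h4 : g ∈ normalizer ((zpowers k : Subgroup P) : Set P) := by
        refine mem_normalizer_fintype (fun n hn => ?_)
        obtain ⟨i, rfl⟩ := hn
        show g * k ^ i * g⁻¹ ∈ zpowers k
        rw [← conj_zpow, hg]
        exact zpow_mem (inv_mem (mem_zpowers k)) _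
      have h5 := mem_centralizer_singleton_iff.1 (hirr k h4)
      have h6 : k ^ 2 = 1 := by
        rw [h5, mul_inv_cancel_right] at hg
        rw [pow_two]; nth_rewrite 1 [hg]; exact inv_mul_cancel k
      by_cases hk : k = 1
      · left; rw [hk]
      · right; exact ⟨k, rfl, orderOf_eq_prime h6 hk⟩
    exact (Set.ncard_le_ncard h3).trans (Set.ncard_insert_le _ _)
  have h3 := h1.trans ((H8.card_real_irr P).le.trans h2)
  refine ⟨h3, h3.trans ?_⟩
  have h4 : Nat.card {c : ConjClasses P // ∃ y : P, ConjClasses.mk y = c ∧ orderOf y = 2} ≤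
      {y : P | orderOf y = 2}.ncard := by
    refine Nat.card_le_card_of_surjective (α := {y : P | orderOf y = 2}) (fun y => ⟨_, y.1, rfl, y.2⟩) ?_
    rintro ⟨c, y, rfl, hy⟩
    exact ⟨⟨y, hy⟩, rfl⟩
  have h5 : insert 1 {y : P | orderOf y = 2} ⊆ (closure {y : P | orderOf y = 2} : Set P) :=
    Set.insert_subset (one_mem _) subset_closure
  have h6 := Set.ncard_le_ncard h5
  rw [Set.ncard_insert_of_notMem (by simp)] at h6
  exact (Nat.add_le_add_right h4 1).trans h6

end Cfsg.Agent.S4029
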