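import Cfsg.Statements.S4032
import Cfsg.Agent.H25.Real

set_option autoImplicit false
open Cfsg

namespace Cfsg.Agent.S4032

open Subgroup

/-- Let π be a set of primes and G a finite group in which N_G(⟨x⟩) = C_G(x) for every π-element x. If N is a normal subgroup of G whose order is divisible by no prime of π, then G/N has the same property: N_{G/N}(⟨y⟩) = C_{G/N}(y) for every π-element y of G/N. -/
theorem result {G : Type*} [Group G] [Finite G] (π : Set ℕ)
    (hirr : ∀ x : G, (∀ r : ℕ, r.Prime → r ∣ orderOf x → r ∈ π) →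
      Subgroup.normalizer ((Subgroup.zpowers x : Subgroup G) : Set G) ≤ Subgroup.centralizer {x})
    (N : Subgroup G) [N.Normal] (hN : ∀ r : ℕ, r.Prime → r ∣ Nat.card N → r ∉ π) :
    ∀ y : G ⧸ N, (∀ r : ℕ, r.Prime → r ∣ orderOf y → r ∈ π) →
      Subgroup.normalizer ((Subgroup.zpowers y : Subgroup (G ⧸ N)) : Set (G ⧸ N)) ≤ Subgroup.centralizer {y} := by
  intro y hy t ht
  have hc : (orderOf y).Coprime (Nat.card N) :=
    H1.IsPiNum.coprime (π := π) hy hN
  obtain ⟨x, rfl, hx⟩ := H25.exists_lift_orderOf N y hc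
  have hcop : (Nat.card (zpowers x)).Coprime (Nat.card N) := by rwa [Nat.card_zpowers, hx]
  have h1 := H1.normalizer_map_mk'_eq (A := zpowers x) (N := N) hcop
    (Or.inl (H1.isSolvable_zpowers x))
  rw [MonoidHom.map_zpowers] at h1
  rw [show (x : G ⧸ N) = QuotientGroup.mk' N x from rfl, h1] at ht
  obtain ⟨s, hs, rfl⟩ := ht
  have := H26.mem_cent.1 (hirr x (hx ▸ hy) hs)
  rw [H26.mem_cent]
  exact (congrArg (QuotientGroup.mk' N) this)

end Cfsg.Agent.S4032
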