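import Cfsg.Statements.S4033
import Cfsg.Agent.H25.Ito7

set_option autoImplicit false
open Cfsg

namespace Cfsg.Agent.S4033

open Subgroup Cfsg.Agent.H20 Cfsg.Agent.H21 Cfsg.Agent.H25

/-- Let G be a finite group and p a prime, and suppose the conjugacy classes of p-regular elements of G (elements of order prime to p) have exactly two distinct sizes. Then either G has an abelian p-complement (an abelian subgroup of order prime to p and p-power index), or there are a prime q ≠ p, a Sylow p-subgroup P, a Sylow q-subgroup Q and a central subgroup A such that PQ is a normal subgroup of order #P·#Q and G is the internal direct product PQ × A. -/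
theorem result {G : Type*} [Group G] [Finite G] {p : ℕ} (hp : p.Prime)
    (h2 : Set.ncard (Set.range fun x : {x : G // (orderOf x).Coprime p} => (ConjClasses.mk (x : G)).carrier.ncard) = 2) :
    (∃ H : Subgroup G, IsMulCommutative H ∧ ¬ p ∣ Nat.card H ∧ ∃ k : ℕ, H.index = p ^ k) ∨
    (∃ (q : ℕ) (_ : Fact q.Prime) (P : Sylow p G) (Q : Sylow q G) (A : Subgroup G), q ≠ p ∧
        A ≤ Subgroup.center G ∧ Nat.card ↥((P : Subgroup G) ⊔ (Q : Subgroup G)) = Nat.card P * Nat.card Q ∧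
        ((P : Subgroup G) ⊔ (Q : Subgroup G)).Normal ∧
        ((P : Subgroup G) ⊔ (Q : Subgroup G)) ⊓ A = ⊥ ∧ ((P : Subgroup G) ⊔ (Q : Subgroup G)) ⊔ A = ⊤) := by
  haveI := Fact.mk hp
  refine or_iff_not_imp_left.2 fun hn => ?_
  have h1 := mt (S4034.result hp).1 hn
  simp only [ncard_carrier_mk, not_forall] at h1 h2
  obtain ⟨x, hx, hx'⟩ := h1
  have hxp : IsPiElt {p}ᶜ x := (PiNat.compl_singleton_iff_coprime hp).2 hx
  have hx1 : C₁⟦x⟧.index ≠ 1 := fun e => hx' ⟨0, e⟩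
  have hxZ : x ∉ center G := mt H26.index_cent_eq_one_iff.2 hx1
  have idx : ∀ y : G, IsPiElt {p}ᶜ y → y ∉ center G → C₁⟦y⟧.index = C₁⟦x⟧.index := fun y hy hyZ => by
    obtain ⟨a, b, -, e⟩ := Set.ncard_eq_two.1 h2
    have k : ∀ z : G, IsPiElt {p}ᶜ z → C₁⟦z⟧.index = a ∨ C₁⟦z⟧.index = b := fun z hz =>
      e.le ⟨⟨z, (PiNat.compl_singleton_iff_coprime hp).1 hz⟩, rfl⟩
    have := k 1 (isPiElt_iff.2 (orderOf_one (G := G) ▸ PiNat.one _))
    rw [cent1_one, index_top] at this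
    have := k x hxp
    have := k y hy
    have := mt H26.index_cent_eq_one_iff.1 hyZ
    omega
  have hT : ¬ Th G p C₁⟦x⟧.index := fun H =>
    hx' ((PiNat.singleton_iff hp index_ne_zero_of_finite).1 (H.piNat hp hxp hxZ))
  obtain ⟨q, hq, hqp, hZ⟩ : ∃ q : ℕ, q.Prime ∧ q ≠ p ∧ PiNat {p, q} (center G).index := by
    obtain ⟨q, hq, hqp, v, -, hv, hvq⟩ := exists_ppart hxp hxZ
    refine ⟨q, hq, hqp, fun s hs hd => ?_⟩
    by_contra hs'
    simp only [Set.mem_insert_iff, Set.mem_singleton_iff, not_or] at hs'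
    refine hT ⟨idx, fun a => ?_⟩
    by_cases e : s = a
    · exact ⟨q, hq, hqp, e ▸ Ne.symm hs'.2, relIndex_top_right (center G) ▸ dvd_relIndex_of_elt hq (mem_top v) hv hvq⟩
    · exact ⟨s, hs, hs'.1, e, hd⟩
  haveI := Fact.mk hq
  set A := piCoreOf ({p, q} : Set ℕ)ᶜ (center G)
  have hAZ : A ≤ center G := piCoreOf_le _ _
  have hA : IsPiHallOf ({p, q} : Set ℕ)ᶜ A ⊤ := (piCoreOf_hall_of_nil _ (nil_of_comm inferInstance)).trans_relIndex le_top
    (by rw [relIndex_top_right]; exact PiNat.compl_compl.2 hZ)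
  obtain ⟨E, hE⟩ := hA.exists_compl (piCoreOf_normalIn_of _ (NormalIn.of_normal _))
  have hE' := hA.compl' hE
  have hEn : E ⊴ ⊤ := ⟨le_top, Compl.sup_eq hE ▸ sup_le
    (norm_of_cent (hAZ.trans (cent_top (G := G) ▸ cent_anti le_top))) (le_norm_self E)⟩
  obtain ⟨P⟩ := (inferInstance : Nonempty (Sylow p G))
  obtain ⟨Q⟩ := (inferInstance : Nonempty (Sylow q G))
  have hP := (sylowOf_top P).of_le (hE'.le_of_normalIn hEn (isPi_of_isPGroup P.isPGroup' (by simp)) le_top) le_top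
  have hQ := (sylowOf_top Q).of_le (hE'.le_of_normalIn hEn (isPi_of_isPGroup Q.isPGroup' (by simp)) le_top) le_top
  have hc := hP.isComplIn (hQ.congr (ρ := {p}ᶜ) fun s hs hd => by
    rcases hE'.isPi.mem hs hd with rfl | rfl
    exacts [⟨fun e => absurd e.symm hqp, fun e => absurd rfl e⟩, ⟨fun _ => hqp, fun _ => rfl⟩])
  refine ⟨q, inferInstance, P, Q, A, hqp, hAZ, ?_⟩
  rw [Compl.sup_eq hc, inf_comm, sup_comm]
  exact ⟨(Compl.card hc).symm, hEn.normal, Compl.inf_eq hE, Compl.sup_eq hE⟩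

end Cfsg.Agent.S4033
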