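import Cfsg.Statements.S4036
import Cfsg.Agent.H1.Basic

set_option autoImplicit false
open Cfsg

namespace Cfsg.Agent.S4036

/-- Let P be a finite abelian p-group and K a group of automorphisms of P (a subgroup of Aut P) whose order is divisible by p. If all non-identity elements of K have the same fixed-point subgroup on P, then K has no non-trivial normal subgroup of order prime to p. -/
theorem result {P : Type*} [CommGroup P] [Finite P] {p : ℕ}
    [Fact p.Prime] (hP : IsPGroup p P) (K : Subgroup (MulAut P)) (hK : p ∣ Nat.card K)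
    (hfix : ∀ x y : MulAut P, x ∈ K → y ∈ K → x ≠ 1 → y ≠ 1 → ∀ v : P, x v = v ↔ y v = v) :
    ∀ N : Subgroup ↥K, N.Normal → ¬ p ∣ Nat.card N → N = ⊥ := by
  classical
  intro N hN hp
  by_contra hne
  have hpp : p.Prime := Fact.out
  have := Fintype.ofFinite N
  have := Fintype.ofFinite P
  obtain ⟨⟨y, hyN⟩, hy1⟩ := Subgroup.ne_bot_iff_exists_ne_one.1 hne
  have hy1' : (y : MulAut P) ≠ 1 := fun h => hy1 (Subtype.ext (Subtype.ext h))
  obtain ⟨x, hx⟩ := exists_prime_orderOf_dvd_card' p hK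
  have hx1 : (x : MulAut P) ≠ 1 := by
    intro h
    rw [(Subtype.ext h : x = 1), orderOf_one] at hx
    exact hpp.one_lt.ne hx
  let τ : P →* P :=
    { toFun := fun v => ∏ n : N, ((n : K) : MulAut P) v
      map_one' := by simp
      map_mul' := by intro a b; simp [Finset.prod_mul_distrib] }
  have hτ : ∀ v, τ v = ∏ n : N, ((n : K) : MulAut P) v := fun v => rfl
  have hinv : ∀ (k : K) (v : P), τ ((k : MulAut P) v) = (k : MulAut P) (τ v) := by
    intro k v
    rw [hτ, hτ, map_prod]
    refine (Fintype.prod_equiv (MulAut.conjNormal k).toEquiv _ _ fun n => ?_).symm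
    simp [MulAut.mul_apply]
  have hW : ∀ v, v ∈ τ.ker ↔ (x : MulAut P) v ∈ τ.ker := by
    intro v
    rw [MonoidHom.mem_ker, MonoidHom.mem_ker, hinv, MulEquiv.map_eq_one_iff]
  -- the kernel is nontrivial
  obtain ⟨v, hv⟩ : ∃ v, (y : MulAut P) v ≠ v := by
    by_contra h
    push Not at h
    exact hy1' (MulEquiv.ext h)
  have hw : (y : MulAut P) v * v⁻¹ ∈ τ.ker := by
    rw [MonoidHom.mem_ker, map_mul, map_inv, mul_inv_eq_one, hτ, hτ]
    exact Fintype.prod_equiv (Equiv.mulRight (⟨y, hyN⟩ : N)) _ _ fun n => by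
      simp [MulAut.mul_apply]
  have hcard : p ∣ Fintype.card τ.ker := by
    obtain ⟨n, hn⟩ := IsPGroup.iff_card.1 (hP.to_subgroup τ.ker)
    rw [← Nat.card_eq_fintype_card, hn]
    refine dvd_pow_self p ?_
    rintro rfl
    rw [pow_zero, Subgroup.card_eq_one] at hn
    rw [hn, Subgroup.mem_bot, mul_inv_eq_one] at hw
    exact hv hw
  let σ : Equiv.Perm τ.ker := Equiv.Perm.subtypePerm (x : MulAut P).toEquiv (fun v => (hW v).symm)
  have hσ : σ ^ p ^ 1 = 1 := by
    ext w
    rw [pow_one, Equiv.Perm.subtypePerm_pow]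
    have h1 : (x : MulAut P) ^ p = 1 := by
      rw [← hx, ← Subgroup.orderOf_coe]; exact pow_orderOf_eq_one _
    have h2 : (x : MulAut P).toEquiv ^ p = 1 := by
      have := congrArg (MulAut.toPerm P) h1
      rw [map_pow, map_one] at this
      exact this
    exact DFunLike.congr_fun h2 (w : P)
  obtain ⟨b, hb, hb1⟩ := Equiv.Perm.exists_fixed_point_of_prime' hcard hσ (a := 1)
    (Subtype.ext (map_one (x : MulAut P)))
  have hb' : (x : MulAut P) b = b := congrArg Subtype.val hb
  have h3 : τ b = (b : P) ^ Nat.card N := by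
    rw [hτ, Finset.prod_congr rfl (g := fun _ => (b : P)), Finset.prod_const, Finset.card_univ,
      Nat.card_eq_fintype_card]
    intro n _
    by_cases hn : ((n : K) : MulAut P) = 1
    · rw [hn]; rfl
    · exact (hfix x n x.2 (n : K).2 hx1 hn b).1 hb'
  have h4 : (b : P) ^ Nat.card N = 1 := h3 ▸ b.2
  obtain ⟨j, hj⟩ := hP (b : P)
  exact hb1 (Subtype.ext (orderOf_eq_one_iff.1 (Nat.eq_one_of_dvd_coprimes
    (Nat.Coprime.pow_left j ((Nat.Prime.coprime_iff_not_dvd hpp).2 hp))
    (orderOf_dvd_of_pow_eq_one hj) (orderOf_dvd_of_pow_eq_one h4))))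

end Cfsg.Agent.S4036
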