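import Cfsg.Statements.S4039
import Cfsg.Agent.H25.NilMax

set_option autoImplicit false
open Cfsg

namespace Cfsg.Agent.S4039

/-- A finite group possessing a maximal subgroup that is nilpotent of class at most 2 is solvable. -/
theorem result {G : Type*} [Group G] [Finite G]
    (M : Subgroup G) (hmax : IsCoatom M) (hnil : Group.IsNilpotent M) (hcl : Group.nilpotencyClass ↥M ≤ 2) :
    Group.IsSolvable G := by
  refine H25.solvable_of_coatom G ⊤ M inferInstance hmax (fun h => hmax.1 (top_le_iff.1 h)) (by simp)
    inferInstance (by rwa [inf_top_eq]) ?_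
  rw [inf_top_eq]
  exact H25.exists_sylowIn_cl2 (fun S => (Subgroup.nilpotencyClass_le _).trans hcl)

end Cfsg.Agent.S4039
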