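import Cfsg.Statements.S4040
import Cfsg.Agent.H25.NilMax

set_option autoImplicit false
open Cfsg

namespace Cfsg.Agent.S4040

/-- A finite group possessing a maximal subgroup that is nilpotent of odd order is solvable. -/
theorem result {G : Type*} [Group G] [Finite G]
    (M : Subgroup G) (hmax : IsCoatom M) (hnil : Group.IsNilpotent M) (hodd : Odd (Nat.card M)) :
    Group.IsSolvable G := by
  refine H25.solvable_of_coatom G ⊤ M inferInstance hmax (fun h => hmax.1 (top_le_iff.1 h)) (by simp)
    inferInstance (by rwa [inf_top_eq]) ?_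
  rw [inf_top_eq]
  obtain ⟨T, hT⟩ := H3.exists_sylowIn 2 M
  refine ⟨T, hT, ?_⟩
  rw [hT.eq_bot_iff.2 hodd.not_two_dvd_nat]
  intro a _ b _ c hc
  rw [Subgroup.mem_bot.1 hc, one_mul, mul_one]

end Cfsg.Agent.S4040
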