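import Cfsg.Statements.S4043
import Cfsg.Agent.H1.Glauberman
import Cfsg.Agent.H1.Coprime
import Cfsg.Agent.H3.PNil
import Cfsg.Agent.H2.Basic
import Cfsg.Agent.H26.SylCount

set_option autoImplicit false
open Cfsg
open scoped Pointwise

namespace Cfsg.Agent.S4043


/-- Let G be a finite group that is the semidirect product of a normal p-subgroup N by a subgroup A, and also of N by a subgroup A₁, where p is a prime and A and A₁ both have normal p-complements. If C_N(A) = C_N(A₁) = 1, then A₁ is conjugate to A by an element of N. -/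
theorem result {G : Type*} [Group G] [Finite G] {p : ℕ}
    [Fact p.Prime] (N : Subgroup G) [N.Normal] (hN : IsPGroup p N) (A A₁ : Subgroup G)
    (hA : A.IsComplement' N) (hA₁ : A₁.IsComplement' N)
    (hAp : Cfsg.HasNormalPComplement p A) (hA₁p : Cfsg.HasNormalPComplement p A₁)
    (hC : ∀ n : G, n ∈ N → (∀ a : G, a ∈ A → a * n * a⁻¹ = n) → n = 1)
    (hC₁ : ∀ n : G, n ∈ N → (∀ a : G, a ∈ A₁ → a * n * a⁻¹ = n) → n = 1) :
    ∃ n : G, n ∈ N ∧ A₁ = A.map (MulAut.conj n).toMonoidHom := by
  have hf := QuotientGroup.mk'_surjective N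
  have hmap : ∀ B : Subgroup G, B.IsComplement' N →
      ((pResidual p B).map B.subtype).map (QuotientGroup.mk' N) = pResidual p (G ⧸ N) := by
    intro B hB
    rw [Subgroup.map_map]
    apply H3.pResidual_map_of_surjective
    intro x
    obtain ⟨g, rfl⟩ := hf x
    obtain ⟨⟨b, n⟩, rfl⟩ := hB.2 g
    exact ⟨b, by simp [(QuotientGroup.eq_one_iff _).2 n.2]⟩
  have hcard : ∀ B : Subgroup G, B.IsComplement' N →
      Nat.card ((pResidual p B).map B.subtype) = Nat.card (pResidual p (G ⧸ N)) := by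
    intro B hB
    have := H1.card_map_mul_card_ker_inf (QuotientGroup.mk' N) ((pResidual p B).map B.subtype)
    rw [hmap B hB, QuotientGroup.ker_mk', le_bot_iff.1 ((inf_le_inf_left N (Subgroup.map_subtype_le _)).trans
      (disjoint_iff_inf_le.1 hB.disjoint.symm)), Subgroup.card_bot, mul_one] at this
    exact this.symm
  have hnorm : ∀ B : Subgroup G, B ≤ Subgroup.normalizer (((pResidual p B).map B.subtype : Subgroup G) : Set G) :=
    fun B => Subgroup.le_normalizer.trans (H1.normalizer_le_normalizer_map_subtype_of_characteristic B _)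
  have hNn : ∀ B : Subgroup G, B ≤ Subgroup.normalizer (N : Set G) := fun B => H2.le_normalizer_of_normal' N B
  set K := (pResidual p A).map A.subtype with hK
  set K₁ := (pResidual p A₁).map A₁.subtype with hK₁
  have hcop : (Nat.card K₁).Coprime (Nat.card N) := by
    refine (H1.coprime_card_of_isPGroup hN ?_).symm
    rw [hK₁, Subgroup.card_map_of_injective A₁.subtype_injective]
    exact H3.hasNormalPComplement_iff_not_dvd.1 hA₁p
  obtain ⟨n, hn, e⟩ := H1.exists_conj_eq_of_le_sup (hNn K) (hNn K₁) hcop (Or.inr (H1.isSolvable_of_isPGroup hN)) (by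
    have := Subgroup.le_comap_map (QuotientGroup.mk' N) K₁
    rwa [hmap A₁ hA₁, ← hmap A hA, Subgroup.comap_map_eq, QuotientGroup.ker_mk', sup_comm] at this)
    (by rw [hcard A hA, hcard A₁ hA₁])
  have h0 : N ⊓ Subgroup.centralizer (K : Set G) = ⊥ := by
    by_contra h0
    obtain ⟨P⟩ := (inferInstance : Nonempty (Sylow p A))
    have hPA : (P : Subgroup A).map A.subtype ≤ A := Subgroup.map_subtype_le _
    apply H2.inf_centralizer_ne_bot_of_isPGroup (hN.to_le inf_le_left) (P.isPGroup'.map A.subtype)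
      (H1.le_normalizer_inf (hNn _) (H1.le_normalizer_centralizer (hPA.trans (hnorm A)))) h0
    rw [eq_bot_iff]
    rintro x ⟨⟨h1, h2⟩, h3⟩
    refine hC x h1 fun a ha => ?_
    obtain ⟨k, hk, y, hy, e⟩ := H3.exists_eq_pResidual_mul_sylow P ⟨a, ha⟩
    have e' : a = k * y := congrArg Subtype.val e
    have h4 := Subgroup.mem_centralizer_iff.1 h2 k ⟨k, hk, rfl⟩
    have h5 := Subgroup.mem_centralizer_iff.1 h3 y ⟨y, hy, rfl⟩
    rw [e', mul_assoc (k : G), h5, ← mul_assoc, h4, mul_assoc x, mul_inv_cancel_right]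
  have h1 : Subgroup.normalizer (K : Set G) ≤ A := by
    intro g hg
    obtain ⟨⟨a, m⟩, rfl⟩ := hA.2 g
    have hm : (m : G) ∈ Subgroup.normalizer (K : Set G) := (Subgroup.mul_mem_cancel_left _ (hnorm A a.2)).1 hg
    have : (m : G) ∈ N ⊓ Subgroup.centralizer (K : Set G) := by
      refine ⟨m.2, Subgroup.mem_centralizer_iff.2 fun k hk => ?_⟩
      have h2 : m * k * (m : G)⁻¹ * k⁻¹ ∈ A ⊓ N := Subgroup.mem_inf.2
        ⟨Subgroup.map_subtype_le _ (K.mul_mem (H1.conj_mem_of_le_normalizer le_rfl hm hk) (K.inv_mem hk)), by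
          have := N.mul_mem m.2 ((inferInstance : N.Normal).conj_mem _ (N.inv_mem m.2) k)
          simpa [mul_assoc] using this⟩
      rw [hA.disjoint.eq_bot, Subgroup.mem_bot, mul_inv_eq_one, mul_inv_eq_iff_eq_mul] at h2
      exact h2.symm
    rw [h0, Subgroup.mem_bot] at this
    simp [this]
  refine ⟨n, hn, ?_⟩
  rw [← H1.conj_smul_eq_map]
  apply Subgroup.eq_of_le_of_card_ge
  · intro a ha
    rw [H1.mem_conj_smul]
    apply h1
    have h2 := hnorm A₁ ha
    rw [← hK₁, ← e, ← H1.conj_smul_eq_iff_mem_normalizer] at h2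
    rw [← H1.conj_smul_eq_iff_mem_normalizer, map_mul, map_mul, mul_smul, mul_smul, h2, map_inv, inv_smul_smul]
  · rw [H1.card_conj_smul]
    have h2 := hA.card_mul
    rw [← hA₁.card_mul] at h2
    exact (Nat.eq_of_mul_eq_mul_right Nat.card_pos h2).le

end Cfsg.Agent.S4043
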