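import Cfsg.Statements.S4044
import Cfsg.Agent.H25.HallNum

set_option autoImplicit false
open Cfsg

namespace Cfsg.Agent.S4044

open Subgroup Cfsg.Agent.H20 Cfsg.Agent.H21 Cfsg.Agent.H25

/-- For an integer m ≥ 2 the following are equivalent: (a) every finite group whose order n is divisible by m with gcd(m, n/m) = 1 has a subgroup of order m; (b) m is a prime power, or m ≡ 2 (mod 4), or m ∈ {12, 24, 60}. -/
theorem result (m : ℕ) (hm : 2 ≤ m) :
    (∀ (G : Type) [Group G] [Finite G], m ∣ Nat.card G → m.Coprime (Nat.card G / m) →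
        ∃ H : Subgroup G, Nat.card H = m) ↔
    (IsPrimePow m ∨ m % 4 = 2 ∨ m = 12 ∨ m = 24 ∨ m = 60) := by
  constructor
  · intro h
    by_contra hc
    push Not at hc
    obtain ⟨h1, h2, h3, h4, h5⟩ := hc
    have hp := Nat.minFac_prime (show m ≠ 1 by omega)
    obtain ⟨e, b, hb, he⟩ := Nat.exists_eq_pow_mul_and_not_dvd (show m ≠ 0 by omega) _ hp.ne_one
    have he0 : e ≠ 0 := by
      rintro rfl
      rw [pow_zero, one_mul] at he
      exact hb (he ▸ Nat.minFac_dvd m)
    have hb1 : 1 < b := by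
      rcases b with _ | _ | b
      · simp at hb
      · exact absurd (he.trans (mul_one _) ▸ hp.isPrimePow.pow he0) h1
      · omega
    have hb2 : Odd b := Nat.not_even_iff_odd.mp fun h => hb
      (Nat.minFac_eq_two_iff m |>.mpr (he ▸ h.two_dvd.mul_left _) ▸ h.two_dvd)
    have ha : 2 < m.minFac ^ e ∧ (Odd (m.minFac ^ e) ∨ 4 ∣ m.minFac ^ e) := by
      rcases hp.eq_two_or_odd' with h | h
      · rw [h] at he ⊢
        obtain ⟨e, rfl⟩ : ∃ f, e = f + 2 := by
          refine ⟨e - 2, (Nat.sub_add_cancel (not_lt.mp fun h => h2 ?_)).symm⟩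
          obtain rfl : e = 1 := by omega
          obtain ⟨j, rfl⟩ := hb2
          omega
        have := Nat.one_le_two_pow (n := e)
        rw [pow_add]
        omega
      · exact ⟨lt_of_lt_of_le (lt_of_le_of_ne hp.two_le (by rintro e; exact absurd (e ▸ h) (by decide)))
          (Nat.le_self_pow he0 _), Or.inl h.pow⟩
    obtain ⟨G, _, _, k, a1, a2, a3, -, a4⟩ := exists_psl2_bad
      ((hp.coprime_iff_not_dvd.mpr hb).pow_left e) ha.1 ha.2 hb2 hb1
    rw [← he] at a1 a2
    obtain ⟨H, hH⟩ := h G ⟨k, a1⟩ (by rwa [a1, Nat.mul_div_cancel_left _ (by omega)])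
    have := a4 H (by rintro rfl; rw [card_top', a1] at hH; nlinarith) ⟨b, hH.trans he⟩ b hb1 dvd_rfl
      ⟨_, hH.trans (he.trans (mul_comm _ _))⟩
    omega
  · rintro h G _ _ ⟨k, hk⟩ hc
    rw [hk, Nat.mul_div_cancel_left _ (by omega)] at hc
    rcases h with h | h | rfl | rfl | rfl
    · obtain ⟨p, n, hp, -, rfl⟩ := (isPrimePow_nat_iff m).mp h
      haveI := Fact.mk hp
      exact Sylow.exists_subgroup_card_pow_prime p ⟨k, hk⟩
    · have := not_dvd_of_coprime hc Nat.prime_two (by omega)
      refine has_of_solvable hk hc (sol_top_iff.mpr (solvable_of_not_four_dvd fun h4 => ?_))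
        (by rw [card_top', hk]; simp)
      have := ((Nat.prime_two.coprime_iff_not_dvd.mpr this).pow_left 2).dvd_of_dvd_mul_right (hk ▸ h4)
      omega
    · exact has_twelve hk hc
    · exact has_twentyfour k G hk hc
    · exact has_sixty k G hk hc

end Cfsg.Agent.S4044
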