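import Cfsg.Statements.S4049
import Cfsg.Agent.H25.Real

set_option autoImplicit false
open Cfsg

namespace Cfsg.Agent.S4049

/-- Let G be a finite group such that N_G(H)/C_G(H) has odd order for every nontrivial subgroup H of odd order. Then the Sylow 2-subgroups of G are normal. -/
theorem result {G : Type*} [Group G] [Finite G]
    (hhom : ∀ H : Subgroup G, H ≠ ⊥ → ¬ 2 ∣ Nat.card ↥H →
        ¬ 2 ∣ (Subgroup.centralizer (H : Set G)).relIndex (Subgroup.normalizer (H : Set G))) (P : Sylow 2 G) :
    (P : Subgroup G).Normal := by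
  refine H25.sylow_two_normal_of_no_real P fun x hx hodd hr => ?_
  obtain ⟨t, ⟨j, hj⟩, ht⟩ := H25.exists_two_elt_inverting hr
  have h1 := H25.mem_normalizer_zpowers_of_inv ht
  have := H25.mem_of_pow_eq_one_of_not_dvd_relIndex Nat.prime_two hj h1
    (H10.normalizer_le_normalizer_centralizer _ h1)
    (hhom (Subgroup.zpowers x) (by rwa [Ne, Subgroup.zpowers_eq_bot])
      (by rw [Nat.card_zpowers]; exact Nat.two_dvd_ne_zero.2 (Nat.odd_iff.1 hodd)))
  rw [H10.centralizer_zpowers] at this
  exact hx (H11.eq_one_of_odd_of_sq hodd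
    (H25.sq_eq_one_of_inv_of_commute ht (H26.mem_cent.1 this)))

end Cfsg.Agent.S4049
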