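import Cfsg.Statements.S4050
import Cfsg.Agent.H25.PiClosed

set_option autoImplicit false
open Cfsg

namespace Cfsg.Agent.S4050

open Subgroup Cfsg.Agent.H20 Cfsg.Agent.H21 Cfsg.Agent.H25

/-- Let π be a set of primes and G a finite group. The π-elements of G (elements whose order is divisible only by primes of π) form a subgroup if and only if G is π-separable (it has a chain of normal subgroups from 1 to G with each successive index divisible only by primes in π or only by primes outside π) and N_G(H)/C_G(H) is a π'-group for every nontrivial π'-subgroup H of G. -/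
theorem result {G : Type*} [Group G] [Finite G] (π : Set ℕ)
    (hπ : ∀ p ∈ π, p.Prime) :
    (∃ K : Subgroup G, ∀ x : G, x ∈ K ↔ ∀ p : ℕ, p.Prime → p ∣ orderOf x → p ∈ π) ↔
    ((∃ (n : ℕ) (H : Fin (n + 1) → Subgroup G), H 0 = ⊥ ∧ H (Fin.last n) = ⊤ ∧ Monotone H ∧ (∀ i, (H i).Normal) ∧
      ∀ i : Fin n, (∀ q : ℕ, q.Prime → q ∣ (H i.castSucc).relIndex (H i.succ) → q ∈ π) ∨
        (∀ q : ℕ, q.Prime → q ∣ (H i.castSucc).relIndex (H i.succ) → q ∉ π)) ∧
     (∀ H : Subgroup G, H ≠ ⊥ → (∀ p : ℕ, p.Prime → p ∣ Nat.card ↥H → p ∉ π) →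
        ∀ p : ℕ, p.Prime → p ∣ (Subgroup.centralizer (H : Set G)).relIndex (Subgroup.normalizer (H : Set G)) → p ∉ π)) := by
  rw [piClosed_iff]
  constructor
  · rintro ⟨K, h1, h2⟩
    refine ⟨⟨2, ![⊥, K, ⊤], rfl, rfl, ?_, ?_, ?_⟩, piHom_of_closed h1 h2⟩
    · rw [Fin.monotone_iff_le_succ]
      intro i; fin_cases i <;> simp
    · intro i; fin_cases i
      · exact inferInstanceAs (⊥ : Subgroup G).Normal
      · exact h2.normal
      · exact inferInstanceAs (⊤ : Subgroup G).Normal
    · intro i; fin_cases i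
      · left
        change PiNat π ((⊥ : Subgroup G).relIndex K)
        rw [relIndex_bot_left]; exact (Hall.isPi h1).piNat
      · right
        exact Hall.piNat h1
  · rintro ⟨⟨n, H, h0, h1, hm, hn, hi⟩, hhom⟩
    have h : PiHom π G := hhom
    have hn' : ∀ i, H i ⊴ ⊤ := fun i => haveI := hn i; NormalIn.of_normal _
    rw [← h1]
    have : ∀ i, ∃ K, IsPiHallOf π K (H i) ∧ K ⊴ H i := by
      intro i
      induction i using Fin.induction with
      | zero => rw [h0]; exact ⟨⊥, Hall.self (IsPi.bot π), NormalIn.refl _⟩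
      | succ i ih =>
        obtain ⟨K, k1, k2⟩ := ih
        have hle : H i.castSucc ≤ H i.succ := hm (Fin.castSucc_lt_succ).le
        have k3 : K ⊴ H i.succ := (Hall.normalIn_trans k1 k2 (hn' _)).of_le ((Hall.le k1).trans hle) le_top
        rcases hi i with h2 | h2
        · exact h.ext k1 k3 ((hn' _).of_le hle le_top) h2
        · exact ⟨K, Hall.trans_relIndex k1 hle h2, k3⟩
    exact this _

end Cfsg.Agent.S4050
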