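import Cfsg.Statements.S4051
import Cfsg.Agent.H25.PiClosed

set_option autoImplicit false
open Cfsg

namespace Cfsg.Agent.S4051

open Subgroup Cfsg.Agent.H20 Cfsg.Agent.H21 Cfsg.Agent.H25

/-- Let π be a set of primes and G a finite group such that N_G(H)/C_G(H) is a π'-group for every nontrivial π'-subgroup H of G. If K is a normal subgroup of G such that the π-elements of K form a subgroup and the π-elements of G/K form a subgroup, then the π-elements of G form a subgroup. -/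
theorem result {G : Type*} [Group G] [Finite G] (π : Set ℕ)
    (hπ : ∀ p ∈ π, p.Prime) (hhom : (∀ H : Subgroup G, H ≠ ⊥ → (∀ p : ℕ, p.Prime → p ∣ Nat.card ↥H → p ∉ π) →
        ∀ p : ℕ, p.Prime → p ∣ (Subgroup.centralizer (H : Set G)).relIndex (Subgroup.normalizer (H : Set G)) → p ∉ π))
    (K : Subgroup G) [K.Normal]
    (hK : ∃ L : Subgroup ↥K, ∀ x : ↥K, x ∈ L ↔ ∀ p : ℕ, p.Prime → p ∣ orderOf x → p ∈ π)
    (hQ : ∃ L : Subgroup (G ⧸ K), ∀ x : G ⧸ K, x ∈ L ↔ ∀ p : ℕ, p.Prime → p ∣ orderOf x → p ∈ π) :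
    (∃ K : Subgroup G, ∀ x : G, x ∈ K ↔ ∀ p : ℕ, p.Prime → p ∣ orderOf x → p ∈ π) := by
  have h : PiHom π G := hhom
  rw [piClosed_iff] at hK hQ ⊢
  obtain ⟨L, hL1, hL2⟩ := hK
  obtain ⟨X, hX1, hX2⟩ := hQ
  have hKn : K ⊴ ⊤ := NormalIn.of_normal K
  have hL : IsPiHallOf π (L.map K.subtype) K := Hall.map_subtype hL1
  have hLn : L.map K.subtype ⊴ ⊤ := Hall.normalIn_trans hL (NormalIn.of_map_subtype L hL2.normal) hKn
  haveI := hX2.normal
  set M := X.comap (QuotientGroup.mk' K) with hM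
  have hMn : M ⊴ ⊤ := NormalIn.of_normal M
  have hKM : K ≤ M := QuotientGroup.le_comap_mk' K X
  have hi : M.index = X.index := index_comap_of_surjective _ (QuotientGroup.mk'_surjective K)
  obtain ⟨R, h1, h2⟩ := h.ext hL (hLn.of_le ((Hall.le hL).trans hKM) le_top) (hKn.of_le hKM le_top) (by
    have e1 := relIndex_mul_index hKM
    rw [hi, index_eq_card K, ← X.card_mul_index] at e1
    rw [Nat.eq_of_mul_eq_mul_right (Nat.pos_of_ne_zero index_ne_zero_of_finite) e1]
    exact (Hall.isPi hX1).piNat)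
  refine ⟨R, Hall.trans_relIndex h1 le_top ?_, Hall.normalIn_trans h1 h2 hMn⟩
  rw [relIndex_top_right, hi, ← relIndex_top_right]
  exact Hall.piNat hX1

end Cfsg.Agent.S4051
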