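import Cfsg.Statements.S4056
import Cfsg.Agent.H3.PGroup1
import Cfsg.Agent.H26.ClassSize

set_option autoImplicit false
open Cfsg

namespace Cfsg.Agent.S4056

open Subgroup
open scoped commutatorElement

/-- In a finite 2-group of nilpotency class at most 2 and exponent dividing 4, the Frattini subgroup lies in the centre and is elementary abelian. -/
theorem result {P : Type*} [Group P] [Finite P] (hP : IsPGroup 2 P)
    (hcl : Group.nilpotencyClass P ≤ 2) (hexp : Monoid.exponent P ∣ 4) :
    frattini P ≤ Subgroup.center P ∧ Cfsg.IsElementaryAbelian 2 (frattini P) := by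
  have h4 : ∀ x : P, x ^ 4 = 1 := Monoid.exponent_dvd_iff_forall_pow_eq_one.1 hexp
  have hnil := hP.isNilpotent
  have hZ : ∀ x y : P, ⁅x, y⁆ ∈ center P := by
    intro x y
    have h1 := Subgroup.lowerCentralSeries_eq_bot_iff_nilpotencyClass_le.2 hcl
    rw [mem_center_iff]
    intro g
    have : ⁅⁅x, y⁆, g⁆ ∈ (⊤ : Subgroup P).lowerCentralSeries 2 :=
      commutator_mem_commutator (commutator_mem_commutator (mem_top x) (mem_top y)) (mem_top g)
    rw [h1, mem_bot] at this
    exact (commutatorElement_eq_one_iff_mul_comm.1 this).symm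
  have hrel : ∀ a b : P, b * a = a * b * ⁅b, a⁆ := by
    intro a b
    rw [mem_center_iff.1 (hZ b a) (a * b), commutatorElement_def]; group
  have h2 : ∀ a b : P, ⁅b, a⁆ ^ 2 = 1 := by
    intro a b
    have := H26.mul_pow_of_central (hZ b a) (hrel a b) 4
    rw [h4, h4, h4, one_mul, one_mul, show Nat.choose 4 2 = 4 + 2 from rfl, pow_add, h4,
      one_mul] at this
    exact this.symm
  let N : Subgroup P :=
    { carrier := {z | z ∈ center P ∧ z ^ 2 = 1}
      one_mem' := ⟨one_mem _, one_pow _⟩
      mul_mem' := fun {a b} ha hb => ⟨mul_mem ha.1 hb.1, by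
        rw [Commute.mul_pow (mem_center_iff.1 hb.1 a), ha.2, hb.2, one_mul]⟩
      inv_mem' := fun {a} ha => ⟨inv_mem ha.1, by rw [inv_pow, ha.2, inv_one]⟩ }
  have hle : frattini P ≤ N := by
    apply H3.frattini_le_of_commutator_le (p := 2)
    · rw [_root_.commutator_def, commutator_le]
      intro x _ y _
      exact ⟨hZ x y, h2 y x⟩
    · intro x
      refine ⟨mem_center_iff.2 fun g => ?_, by rw [← pow_mul]; exact h4 x⟩
      rw [H26.pow_mul_of_central (hZ x g) (hrel g x) 2, h2, mul_one]
  refine ⟨fun x hx => (hle hx).1, ⟨⟨fun a b => Subtype.ext ?_⟩⟩, fun x hx => (hle hx).2⟩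
  exact mem_center_iff.1 (hle b.2).1 a

end Cfsg.Agent.S4056
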