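import Cfsg.Statements.S4058
import Cfsg.Agent.H4.Char4
import Cfsg.Agent.H1.Frattini

set_option autoImplicit false
open Cfsg

namespace Cfsg.Agent.S4058

open Cfsg.Agent.H4 MulAction
open scoped ComplexConjugate

theorem dvd_sum_of_orbits {Λ X : Type*} [Group Λ] [MulAction Λ X] [Fintype X] (w : X → ℤ) (d : ℤ)
    (hw : ∀ (l : Λ) x, w (l • x) = w x) (h : ∀ x : X, d ∣ w x * (stabilizer Λ x).index) :
    d ∣ ∑ x, w x := by
  classical
  have := Fintype.ofFinite (orbitRel.Quotient Λ X)
  rw [← Finset.sum_fiberwise (s := Finset.univ) (g := fun x => (Quotient.mk (orbitRel Λ X) x))]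
  refine Finset.dvd_sum fun ω _ => ?_
  obtain ⟨x, rfl⟩ := Quotient.exists_rep ω
  have e : ∀ y ∈ Finset.univ.filter (fun y => Quotient.mk (orbitRel Λ X) y = Quotient.mk (orbitRel Λ X) x),
      w y = w x := by
    intro y hy
    obtain ⟨l, rfl⟩ := Quotient.exact (Finset.mem_filter.mp hy).2
    exact hw l x
  rw [Finset.sum_congr rfl e, Finset.sum_const, nsmul_eq_mul, mul_comm]
  have := h x
  rw [index_stabilizer] at this
  rw [← Set.ncard_coe_finset]
  suffices e2 : ((Finset.univ.filter (fun y => Quotient.mk (orbitRel Λ X) y = Quotient.mk (orbitRel Λ X) x) : Finset X) : Set X) = orbit Λ x by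
    rw [e2]; exact this
  ext y
  simp only [Finset.coe_filter, Finset.mem_univ, true_and, Set.mem_setOf_eq]
  exact ⟨fun h => Quotient.exact h, fun h => Quotient.sound h⟩

theorem card_le_sq {G : Type*} [Group G] [Finite G] {χ : G → ℂ} (hχ : IsIrrCharacter G χ) {d : ℕ}
    (hd : χ 1 = d) {S : Type*} [Finite S] (ι : S → (G →* ℂˣ)) (hι : Function.Injective ι)
    (h : ∀ s g, χ g * ι s g = χ g) : Nat.card S ≤ d ^ 2 := by
  classical
  have := Fintype.ofFinite G
  have := Fintype.ofFinite S
  have hθ : IsCharacter G (χ * fun g => conj (χ g)) := hχ.isCharacter.mul hχ.isCharacter.conj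
  obtain ⟨a, ha⟩ := isCharacter_iff_exists_nat.mp hθ
  choose deg hpos hdeg using fun ψ : IrrCharacter G => ψ.2.exists_degree
  have e1 : d ^ 2 = ∑ ψ : IrrCharacter G, a ψ * deg ψ := by
    have := congrFun ha 1
    simp only [Pi.mul_apply, Finset.sum_apply, Pi.smul_apply, smul_eq_mul, hd, hdeg, map_natCast] at this
    rw [← sq] at this
    exact_mod_cast this
  let j : S → IrrCharacter G := fun s => ⟨fun g => (ι s g : ℂ), isIrrCharacter_linear _⟩
  have hj : Function.Injective j := by
    intro s t hst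
    apply hι
    ext g
    exact congrFun (congrArg Subtype.val hst) g
  have e2 : ∀ s, a (j s) = 1 := by
    intro s
    have h1 := classInner_sum_irr_left (fun ψ => (a ψ : ℂ)) (j s)
    rw [← ha] at h1
    have h2 : classInner (χ * fun g => conj (χ g)) (j s : G → ℂ) = classInner χ χ := by
      rw [classInner_def, classInner_def]
      congr 1
      refine Finset.sum_congr rfl fun g _ => ?_
      conv_rhs => rw [← h s g]
      simp only [Pi.mul_apply, map_mul, j]
      rw [h s g]
      ring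
    rw [h2, hχ.classInner_self] at h1
    exact_mod_cast h1.symm
  rw [e1, Nat.card_eq_fintype_card]
  calc Fintype.card S = ∑ s : S, 1 := by simp
    _ ≤ ∑ s : S, a (j s) * deg (j s) := Finset.sum_le_sum fun s _ => by rw [e2, one_mul]; exact hpos _
    _ = ∑ ψ ∈ Finset.univ.map ⟨j, hj⟩, a ψ * deg ψ := by rw [Finset.sum_map]; rfl
    _ ≤ _ := Finset.sum_le_sum_of_subset (Finset.subset_univ _)

/-- Let G be a finite 2-group with #(G/Φ(G)) ≥ 2^(2k+1). Then the number of elements x of G with x² = 1 is divisible by 2^(k+1). -/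
theorem result {G : Type*} [Group G] [Finite G] (hG : IsPGroup 2 G) (k : ℕ)
    (hgen : 2 ^ (2 * k + 1) ≤ Nat.card (G ⧸ frattini G)) :
    2 ^ (k + 1) ∣ Nat.card {x : G // x ^ 2 = 1} := by
  classical
  have := Fintype.ofFinite G
  haveI : Fact (Nat.Prime 2) := ⟨Nat.prime_two⟩
  haveI := hG.isNilpotent
  set A := G ⧸ frattini G
  let π : G →* A := QuotientGroup.mk' _
  have hπ : Function.Surjective π := QuotientGroup.mk'_surjective _
  have hsq : ∀ x : G, π (x * x) = 1 := fun x => by
    rw [← sq]; exact (QuotientGroup.eq_one_iff _).mpr (H1.pow_mem_frattini hG x)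
  have hΛ : Nat.card (A →* ℂˣ) = Nat.card A := by
    rw [card_monoidHom_units]
    have : commutator A = ⊥ := by
      rw [commutator_def, ← Subgroup.map_top_of_surjective π hπ, ← Subgroup.map_commutator,
        Subgroup.map_eq_bot_iff, QuotientGroup.ker_mk']
      exact H1.commutator_le_frattini
    rw [this, Subgroup.index_bot]
  letI act : MulAction (A →* ℂˣ) (IrrCharacter G) :=
    { smul := fun l χ => ⟨(χ : G → ℂ) * fun g => (l.comp π g : ℂ), χ.2.mul_linear _⟩
      one_smul := fun χ => Subtype.ext (funext fun g => by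
        show (χ : G → ℂ) g * _ = _
        simp)
      mul_smul := fun l m χ => Subtype.ext (funext fun g => by
        show (χ : G → ℂ) g * _ = (χ : G → ℂ) g * _ * _
        simp; ring) }
  have hsm : ∀ (l : A →* ℂˣ) (χ : IrrCharacter G) g,
      ((l • χ : IrrCharacter G) : G → ℂ) g = (χ : G → ℂ) g * (l (π g) : ℂ) := fun _ _ _ => rfl
  choose deg hpos hdeg using fun ψ : IrrCharacter G => ψ.2.exists_degree
  have hν : ∀ χ : IrrCharacter G, ∃ n : ℤ, fsInd (χ : G → ℂ) = n := fun χ => by
    rcases χ.2.fsInd_cases with h | h | h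
    · exact ⟨0, by simp [h]⟩
    · exact ⟨1, by simp [h]⟩
    · exact ⟨-1, by simp [h]⟩
  choose ν hν using hν
  have e := card_sqrt_eq_sum (1 : G)
  simp only [hν, hdeg] at e
  have e' : (Nat.card {s : G // s * s = 1} : ℤ) = ∑ χ : IrrCharacter G, ν χ * deg χ := by
    exact_mod_cast e
  simp only [sq]
  rw [← Int.natCast_dvd_natCast, e']
  refine dvd_sum_of_orbits (Λ := A →* ℂˣ) _ _ (fun l χ => ?_) (fun χ => ?_)
  · have h1 : ν (l • χ) = ν χ := by
      have : fsInd ((l • χ : IrrCharacter G) : G → ℂ) = fsInd (χ : G → ℂ) := by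
        simp only [fsInd, hsm, hsq, map_one, Units.val_one, mul_one]
      rw [hν, hν] at this
      exact_mod_cast this
    have h2 : deg (l • χ) = deg χ := by
      have := hsm l χ 1
      rw [map_one, map_one, Units.val_one, mul_one, hdeg, hdeg] at this
      exact_mod_cast this
    rw [h1, h2]
  · rw [mul_assoc]
    refine Dvd.dvd.mul_left ?_ _
    obtain ⟨n, hn⟩ := IsPGroup.iff_card.mp hG
    obtain ⟨m, hm⟩ := IsPGroup.iff_card.mp (hG.to_quotient (frattini G))
    obtain ⟨a, -, ha⟩ := (Nat.dvd_prime_pow Nat.prime_two).mp (hn ▸ χ.2.degree_dvd_card (hdeg χ))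
    have hΛ' : Nat.card (A →* ℂˣ) = 2 ^ m := hΛ.trans hm
    haveI : Finite (A →* ℂˣ) := Nat.finite_of_card_ne_zero (by rw [hΛ']; positivity)
    obtain ⟨s, -, hs⟩ := (Nat.dvd_prime_pow Nat.prime_two).mp
      (hΛ' ▸ Subgroup.card_subgroup_dvd_card (stabilizer (A →* ℂˣ) χ))
    obtain ⟨t, -, ht⟩ := (Nat.dvd_prime_pow Nat.prime_two).mp
      (hΛ' ▸ Subgroup.index_dvd_card (stabilizer (A →* ℂˣ) χ))
    have h1 := Subgroup.card_mul_index (stabilizer (A →* ℂˣ) χ)
    rw [hs, ht, hΛ', ← pow_add] at h1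
    have h1' := Nat.pow_right_injective le_rfl h1
    have h2 := card_le_sq χ.2 (hdeg χ) (S := stabilizer (A →* ℂˣ) χ) (fun l => (l : A →* ℂˣ).comp π)
      (fun l l' h => Subtype.ext ((MonoidHom.cancel_right hπ).mp h))
      (fun l g => by
        have := hsm l χ g
        rw [mem_stabilizer_iff.mp l.2] at this
        exact this.symm)
    rw [hs, ha, ← pow_mul] at h2
    have h2' := (Nat.pow_le_pow_iff_right (by norm_num)).mp h2
    rw [hm] at hgen
    have h3 := (Nat.pow_le_pow_iff_right (by norm_num)).mp hgen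
    rw [ha, ht]
    have : 2 ^ (k + 1) ∣ 2 ^ a * 2 ^ t := by
      rw [← pow_add]; exact pow_dvd_pow _ (by omega)
    exact_mod_cast this

end Cfsg.Agent.S4058
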