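import Cfsg.Statements.S4064
import Cfsg.Agent.H25.CentTI

set_option autoImplicit false
open Cfsg

namespace Cfsg.Agent.S4064

open Subgroup Cfsg.Agent.H20 Cfsg.Agent.H21 Cfsg.Agent.H25

/-- Let G be a finite group in which the centralizer of every element meets each of its conjugates by elements outside its normalizer trivially. Then G is nilpotent; or G is a Frobenius group with a complement that is cyclic or isomorphic to the direct product of a cyclic group of odd order and the quaternion group of order 8; or G is isomorphic to PSL₂(2ⁿ) for some n ≥ 2. -/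
theorem result {G : Type*} [Group G] [Finite G] (hTI : ∀ x : G, Cfsg.IsTISubset (Subgroup.centralizer ({x} : Set G) : Set G)) :
    Group.IsNilpotent G ∨
    (∃ H : Subgroup G, Cfsg.IsFrobeniusComplement H ∧
      (IsCyclic H ∨ ∃ m : ℕ, Odd m ∧ Nonempty (H ≃* Multiplicative (ZMod m) × QuaternionGroup 2))) ∨
    (∃ n : ℕ, 2 ≤ n ∧ Nonempty (G ≃* Matrix.ProjectiveSpecialLinearGroup (Fin 2) (GaloisField 2 n))) := by
  have h : CTI G := fun x y g h1 h2 h3 => by_contra fun hg => h1 (hTI x g hg y h2 h3)
  rcases h.main with h1 | ⟨H, hH⟩ | ⟨h1, h2⟩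
  · exact Or.inl h1
  · exact Or.inr (Or.inl ⟨H, hH, h.frob_case hH⟩)
  · obtain ⟨T, hT⟩ := exists_sylowOf (p := 2) (⊤ : Subgroup G)
    obtain ⟨n, hn, -, e⟩ := h1.galois h2 hT
    exact Or.inr (Or.inr ⟨n, hn, e⟩)

end Cfsg.Agent.S4064
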