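import Cfsg.Statements.S4065
import Cfsg.Agent.H25.AbInv

set_option autoImplicit false
open Cfsg

namespace Cfsg.Agent.S4065

open Cfsg.Agent.H25 Cfsg.Agent.H21 Cfsg.Agent.H20

/-- Let F be a finite field with 2ⁿ elements, n ≥ 2. In PSL₂(F) the centralizer of every element meets each of its conjugates by elements outside its normalizer trivially. -/
theorem result (n : ℕ) (hn : 2 ≤ n)
    (x : Matrix.ProjectiveSpecialLinearGroup (Fin 2) (GaloisField 2 n)) :
    Cfsg.IsTISubset (Subgroup.centralizer ({x} : Set (Matrix.ProjectiveSpecialLinearGroup (Fin 2) (GaloisField 2 n))) :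
      Set (Matrix.ProjectiveSpecialLinearGroup (Fin 2) (GaloisField 2 n))) := by
  intro g hg y hy hgy
  by_contra hy1
  apply hg
  by_cases hx : x = 1
  · rw [hx, cent1_one]; rw [Subgroup.normalizer_eq_top]; exact Subgroup.mem_top g
  have key : ∀ z : Matrix.ProjectiveSpecialLinearGroup (Fin 2) (GaloisField 2 n), z ≠ 1 →
      z ∈ Subgroup.centralizer {x} → Subgroup.centralizer {z} = Subgroup.centralizer {x} := by
    intro z hz hzx
    ext w
    rw [mem_cent1, mem_cent1]
    rw [mem_cent1] at hzx
    exact ⟨fun h => psl2_comm_of_comm hz h hzx.symm, fun h => psl2_comm_of_comm hx h hzx⟩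
  rw [mem_norm_iff_cj, ← key y hy1 hy, cj_cent1, key _ (by rwa [Ne, conj_eq_one_iff]) hgy,
    key y hy1 hy]

end Cfsg.Agent.S4065
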