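import Cfsg.Statements.S4066
import Cfsg.Agent.H10.Cores
import Cfsg.Agent.H1.SylowIn
import Cfsg.Agent.H26.ClassSize
import Cfsg.Agent.H25.FitCrit

set_option autoImplicit false
open Cfsg

namespace Cfsg.Agent.S4066

open Subgroup

/-- Let G be a finite group in which the centralizer of every element meets each of its conjugates by elements outside its normalizer trivially. Then any two distinct Sylow p-subgroups of G, for any prime p, intersect trivially. -/
theorem result {G : Type*} [Group G] [Finite G] (hTI : ∀ x : G, Cfsg.IsTISubset (Subgroup.centralizer ({x} : Set G) : Set G))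
    {p : ℕ} [Fact p.Prime] (P Q : Sylow p G) (hPQ : P ≠ Q) : (P : Subgroup G) ⊓ (Q : Subgroup G) = ⊥ := by
  by_contra hne
  obtain ⟨⟨x, hxP, hxQ⟩, hx1⟩ := ne_bot_iff_exists_ne_one.1 hne
  have hx1' : x ≠ 1 := fun h => hx1 (Subtype.ext h)
  have hP0 : (P : Subgroup G) ≠ ⊥ := fun h => hx1' (by
    have : x ∈ (P : Subgroup G) := hxP
    rwa [h, mem_bot] at this)
  obtain ⟨⟨z, hzP, hzC⟩, hz1⟩ := ne_bot_iff_exists_ne_one.1
    (H1.inf_centralizer_ne_bot_of_isPGroup P.isPGroup' P.isPGroup' le_normalizer hP0)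
  have hz1' : z ≠ 1 := fun h => hz1 (Subtype.ext h)
  have hPC : (P : Subgroup G) ≤ centralizer {z} := H26.le_cent_iff.2 hzC
  obtain ⟨g, rfl⟩ := MulAction.exists_smul_eq G P Q
  have hxQ' : g⁻¹ * x * g ∈ (P : Subgroup G) := H1.mem_conj_smul.1 hxQ
  have hg : g⁻¹ ∈ normalizer ((centralizer ({z} : Set G) : Subgroup G) : Set G) := by
    by_contra h
    exact hx1' (hTI z g⁻¹ h x (hPC hxP) (by rw [inv_inv]; exact hPC hxQ'))
  have hQC : ((g • P : Sylow p G) : Subgroup G) ≤ centralizer {z} :=
    H10.conj_le_of_mem hPC (by simpa using inv_mem hg)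
  have key : ∀ R : Sylow p G, (R : Subgroup G) ≤ centralizer {z} →
      (R : Subgroup G) = H10.OpOf p (centralizer {z}) := by
    intro R hR
    refine (R.is_maximal' H10.OpOf_isPGroup fun y hy => ?_).symm
    obtain ⟨j, hj⟩ := R.isPGroup' ⟨y, hy⟩
    refine H10.SubnormalIn.le_OpOf (K := zpowers y) ?_
      (H25.isPGroup_zpowers_of_pow_eq_one (congrArg Subtype.val hj)) (mem_zpowers y)
    refine H10.SubnormalIn.step (B := centralizer {y} ⊓ centralizer {z})
      (zpowers_le.2 ⟨H26.mem_cent_self y, hR hy⟩) ?_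
      (H10.SubnormalIn.of_normal inf_le_right (H10.le_normalizer_inf ?_ le_normalizer))
    · refine inf_le_left.trans (H10.le_normalizer_of_le_centralizer ?_)
      rw [H10.centralizer_zpowers]
    · intro u hu
      by_contra h
      refine hz1' (hTI y u h z (H26.mem_cent_comm.1 (hR hy)) ?_)
      rw [H26.mem_cent.1 hu, mul_inv_cancel_right]
      exact H26.mem_cent_comm.1 (hR hy)
  exact hPQ (Sylow.ext ((key P hPC).trans (key _ hQC).symm))

end Cfsg.Agent.S4066
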