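import Cfsg.Statements.S4067
import Cfsg.Agent.H4.Integral
import Cfsg.Agent.H12.SmallRecog
-- import your own Cfsg.Agent.* helpers here

set_option autoImplicit false
open Cfsg

namespace Cfsg.Agent.S4067

open Cfsg.Agent.H4 Subgroup MulAction

theorem card_quot_le {A X : Type*} [Group A] [MulAction A X] [Fintype X] (w : X → ℕ) (c : ℕ)
    (h : ∀ x, c ≤ (orbit A x).ncard * w x) :
    c * Nat.card (orbitRel.Quotient A X) ≤ ∑ x, w x := by
  classical
  have := Fintype.ofFinite (orbitRel.Quotient A X)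
  rw [← Finset.sum_fiberwise (s := Finset.univ) (g := fun x => (Quotient.mk'' x : orbitRel.Quotient A X)),
    Nat.card_eq_fintype_card, mul_comm, ← smul_eq_mul]
  refine Finset.card_nsmul_le_sum _ _ _ fun ω _ => ?_
  obtain ⟨x, hx, hmin⟩ := Finset.exists_min_image
    (Finset.univ.filter fun x => (Quotient.mk'' x : orbitRel.Quotient A X) = ω) w
    ⟨ω.out, by simp⟩
  refine (h x).trans (le_trans (le_of_eq ?_) (Finset.card_nsmul_le_sum _ _ _ hmin))
  rw [smul_eq_mul, ← Set.ncard_coe_finset]
  congr 2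
  ext y
  simp only [Finset.mem_filter, Finset.mem_univ, true_and] at hx
  simp only [Finset.coe_filter, Finset.mem_univ, true_and, Set.mem_setOf_eq, ← hx]
  exact (Quotient.eq'' (s₁ := orbitRel A X)).symm

variable {G : Type*} [Group G]

theorem exists_aut [Finite G] (C : Subgroup G) [C.Normal] {p : ℕ} (hp : p.Prime) (hC : C.index = p)
    {g y : G} (hg : g ∉ C) (hyC : y ∈ C ⊓ centralizer (C : Set G)) (hpow : (g * y) ^ p = g ^ p) :
    ∃ T : MulAut G, T g = g * y := by
  have : Fact p.Prime := ⟨hp⟩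
  have hg1 : (g : G ⧸ C) ≠ 1 := fun e => hg ((QuotientGroup.eq_one_iff g).1 e)
  have ho : orderOf (g : G ⧸ C) = p := orderOf_eq_prime (hC ▸ pow_card_eq_one') hg1
  choose n hn using fun h : G => mem_zpowers_of_prime_card (G := G ⧸ C) hC hg1 (g' := (h : G ⧸ C))
  simp only at hn
  let d : ℤ → G := fun m => (g ^ m)⁻¹ * (g * y) ^ m
  have hd : ∀ m, d m ∈ C ⊓ centralizer (C : Set G) := fun m => by
    rw [← QuotientGroup.eq, QuotientGroup.mk_zpow, QuotientGroup.mk_zpow, QuotientGroup.mk_mul,
      (QuotientGroup.eq_one_iff y).2 hyC, mul_one]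
  have hd2 : ∀ a b : ℤ, (g : G ⧸ C) ^ a = (g : G ⧸ C) ^ b → d a = d b := fun a b e => by
    rw [zpow_eq_zpow_iff_modEq, ho, Int.modEq_iff_dvd] at e
    obtain ⟨k, hk⟩ := e
    have : b = p * k + a := by omega
    simp only [d, this, zpow_add, zpow_mul, zpow_natCast, hpow]
    group
  let f : G →* G := MonoidHom.mk' (fun h => h * d (n h)) fun a b => by
    rw [hd2 (n (a * b)) (n a + n b) (by rw [zpow_add, hn, hn, hn, QuotientGroup.mk_mul])]
    have h1 : b * (g ^ n b)⁻¹ ∈ C := by
      rw [← QuotientGroup.eq_one_iff, QuotientGroup.mk_mul, QuotientGroup.mk_inv,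
        QuotientGroup.mk_zpow, hn, mul_inv_cancel]
    have h2 := (hd (n a)).2 _ h1
    calc a * b * d (n a + n b) = a * (b * (g ^ n b)⁻¹ * d (n a)) * (g ^ n b) * d (n b) := by
          simp only [d, zpow_add]; group
      _ = _ := by rw [h2]; group
  have hf : Function.Injective f := by
    rw [injective_iff_map_eq_one]
    intro h hh
    have h1 : h * d (n h) = 1 := hh
    have h2 : h ∈ C := by rw [eq_inv_of_mul_eq_one_left h1]; exact inv_mem (hd _).1
    rw [hd2 (n h) 0 (by rw [hn, zpow_zero, QuotientGroup.eq_one_iff]; exact h2)] at h1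
    simpa [d] using h1
  refine ⟨MulEquiv.ofBijective f (Finite.injective_iff_bijective.1 hf), ?_⟩
  change g * d (n g) = g * y
  rw [hd2 (n g) 1 (by rw [hn, zpow_one])]
  simp [d]

theorem mul_pow_of_comm {x y z : G} (hz : ∀ g, Commute z g)
    (h : y * x = z * (x * y)) (k : ℕ) : (x * y) ^ k = z ^ (k.choose 2) * (x ^ k * y ^ k) := by
  have h1 : ∀ k : ℕ, y ^ k * x = z ^ k * (x * y ^ k) := by
    intro k
    induction k with
    | zero => simp
    | succ k ih =>
      rw [pow_succ', mul_assoc, ih, ← mul_assoc, ← ((hz y).pow_left k).eq, mul_assoc,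
        ← mul_assoc y, h, pow_succ]
      simp only [mul_assoc]
  induction k with
  | zero => simp
  | succ k ih =>
    rw [pow_succ, ih, Nat.choose_succ_succ', Nat.choose_one_right, add_comm k, pow_add]
    calc z ^ k.choose 2 * (x ^ k * y ^ k) * (x * y)
        = z ^ k.choose 2 * x ^ k * (y ^ k * x) * y := by group
      _ = z ^ k.choose 2 * (x ^ k * z ^ k) * (x * y ^ k) * y := by rw [h1]; group
      _ = _ := by rw [← ((hz (x ^ k)).pow_left k).eq, pow_succ, pow_succ]; group

/-- The commutator with a fixed element, in a group of class two. -/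
def kap (hD : _root_.commutator G ≤ center G) (x : G) : G →* G :=
  MonoidHom.mk' (fun g => g * x * g⁻¹ * x⁻¹) fun a b => by
    have := Subgroup.mem_center_iff.1 (hD (commutator_mem_commutator (mem_top b) (mem_top x)))
    rw [commutatorElement_def] at this
    calc a * b * x * (a * b)⁻¹ * x⁻¹ = a * (b * x * b⁻¹ * x⁻¹) * (x * a⁻¹ * x⁻¹) := by group
      _ = a * (x * a⁻¹ * x⁻¹) * (b * x * b⁻¹ * x⁻¹) := by
        rw [mul_assoc a, ← this, mul_assoc a]
      _ = _ := by group

theorem kap_mem (hD : _root_.commutator G ≤ center G) (x g : G) :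
    kap hD x g ∈ _root_.commutator G := commutator_mem_commutator (mem_top g) (mem_top x)

theorem kap_comm (hD : _root_.commutator G ≤ center G) (x g h : G) : Commute (kap hD x g) h :=
  (Subgroup.mem_center_iff.1 (hD (kap_mem hD x g)) h).symm

theorem kap_eq_one (hD : _root_.commutator G ≤ center G) {x g : G} :
    kap hD x g = 1 ↔ g * x = x * g := by
  change g * x * g⁻¹ * x⁻¹ = 1 ↔ _
  rw [mul_inv_eq_one, mul_inv_eq_iff_eq_mul]

theorem kap_ker (hD : _root_.commutator G ≤ center G) (x : G) :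
    (kap hD x).ker = centralizer ({x} : Set G) := by
  ext g
  rw [MonoidHom.mem_ker, kap_eq_one, mem_centralizer_singleton_iff]

theorem mul_pow_kap (hD : _root_.commutator G ≤ center G) (g y : G) (k : ℕ) :
    (g * y) ^ k = kap hD g y ^ (k.choose 2) * (g ^ k * y ^ k) :=
  mul_pow_of_comm (kap_comm hD g y) (by change _ = y * g * y⁻¹ * g⁻¹ * _; group) k

theorem exists_good [Finite G] {p : ℕ} (hp : p.Prime) (hD : _root_.commutator G ≤ center G)
    (hc : Nat.card (_root_.commutator G) = p) (hZ : p * p ≤ (center G).index) :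
    ∃ x ∉ center G, ∀ g, g * x ≠ x * g → ∃ y, (∀ c, c * x = x * c → c * y = y * c) ∧
      y ∉ _root_.commutator G ∧ kap hD g y ^ (p.choose 2) * y ^ p = 1 := by
  have hDp : ∀ d ∈ _root_.commutator G, d ^ p = 1 := fun d hd =>
    congrArg Subtype.val (hc ▸ pow_card_eq_one' (x := (⟨d, hd⟩ : _root_.commutator G)))
  have hlt : p < p * p := lt_mul_self hp.one_lt
  have hne : ∃ x, x ∉ center G := by
    by_contra h
    push Not at h
    rw [(eq_top_iff' _).2 h, index_top] at hZ
    have := hp.one_lt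
    omega
  by_cases hA : ∃ u ∈ center G, u ∉ _root_.commutator G ∧ u ^ p = 1
  · obtain ⟨u, hu, hu1, hu2⟩ := hA
    obtain ⟨x, hx⟩ := hne
    refine ⟨x, hx, fun g _ => ⟨u, fun c _ => Subgroup.mem_center_iff.1 hu c, hu1, ?_⟩⟩
    rw [(kap_eq_one hD).2 (Subgroup.mem_center_iff.1 hu g).symm, one_pow, one_mul, hu2]
  letI : CommGroup (center G) := { (inferInstance : Group (center G)) with mul_comm := mul_comm' }
  let S₀ := (powMonoidHom p : center G →* center G).range
  have hS₀ : S₀.index ≤ p := by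
    have h1 := S₀.card_mul_index
    have h2 := (powMonoidHom p : center G →* center G).ker.card_mul_index
    rw [index_ker, ← h1, mul_comm] at h2
    rw [← Nat.eq_of_mul_eq_mul_left Nat.card_pos h2,
      ← card_map_of_injective (center G).subtype_injective]
    refine (card_le_of_le ?_).trans hc.le
    rintro _ ⟨u, hu, rfl⟩
    by_contra h
    exact hA ⟨u, u.2, h, congrArg Subtype.val (MonoidHom.mem_ker.1 hu)⟩
  have hpow : ∀ g : G, g ^ p ∈ center G := fun g => Subgroup.mem_center_iff.2 fun h =>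
    ((kap_eq_one hD).1 (by rw [map_pow, hDp _ (kap_mem hD h g)])).symm
  suffices h : ∃ x ∉ center G, ∀ g, g * x ≠ x * g →
      (⟨kap hD g x, hD (kap_mem hD g x)⟩ : center G) ^ (p.choose 2) * ⟨x ^ p, hpow x⟩ ∈ S₀ by
    obtain ⟨x, hx, h⟩ := h
    refine ⟨x, hx, fun g hg => ?_⟩
    obtain ⟨u, hu⟩ := h g hg
    have hu' : (u : G) ^ p = kap hD g x ^ (p.choose 2) * x ^ p := congrArg Subtype.val hu
    have hcu : ∀ c, c * (u : G)⁻¹ = (u : G)⁻¹ * c := Subgroup.mem_center_iff.1 (inv_mem u.2)
    refine ⟨x * (u : G)⁻¹, fun c hc => by rw [← mul_assoc, hc, mul_assoc, hcu, mul_assoc],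
      fun h => hx ((mul_mem_cancel_right (inv_mem u.2)).1 (hD h)), ?_⟩
    rw [map_mul, (kap_eq_one hD).2 (hcu g).symm, mul_one, Commute.mul_pow (hcu x), inv_pow, hu',
      ← mul_assoc, mul_inv_cancel]
  have hmul : ∀ a b : G, (⟨(a * b) ^ p, hpow _⟩ : center G) =
      (⟨kap hD a b, hD (kap_mem hD a b)⟩ : center G) ^ (p.choose 2) *
        (⟨a ^ p, hpow a⟩ * ⟨b ^ p, hpow b⟩) := fun a b => Subtype.ext (mul_pow_kap hD a b p)
  by_cases hB : ∀ d (hd : d ∈ _root_.commutator G), (⟨d, hD hd⟩ : center G) ^ (p.choose 2) ∈ S₀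
  · let π : G →* center G ⧸ S₀ := MonoidHom.mk' (fun g => ((⟨g ^ p, hpow g⟩ : center G) : _ ⧸ S₀))
      fun a b => by
        rw [hmul, QuotientGroup.mk_mul, (QuotientGroup.eq_one_iff _).2 (hB _ (kap_mem hD a b)),
          one_mul, QuotientGroup.mk_mul]
    have h1 : π.ker.index ≤ p := by
      rw [index_ker]; exact (card_le_card_group _).trans hS₀
    have h2 : ¬ π.ker ≤ center G := fun h => by
      have := index_antitone h
      omega
    obtain ⟨x, hx1, hx2⟩ := SetLike.not_le_iff_exists.1 h2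
    exact ⟨x, hx2, fun g _ => mul_mem (hB _ (kap_mem hD g x)) ((QuotientGroup.eq_one_iff _).1 hx1)⟩
  push Not at hB
  obtain ⟨z, hz, hzS⟩ := hB
  have hp2 : p = 2 := by
    by_contra h
    obtain ⟨k, hk⟩ := hp.dvd_choose_self two_ne_zero (lt_of_le_of_ne hp.two_le (Ne.symm h))
    apply hzS
    rw [hk, pow_mul, show (⟨z, hD hz⟩ : center G) ^ p = 1 from Subtype.ext (hDp z hz), one_pow]
    exact one_mem _
  subst hp2
  simp only [Nat.choose_self, pow_one] at hzS hmul ⊢
  have hz1 : ∀ d ∈ _root_.commutator G, d ≠ 1 → d = z := fun d hd h1 => by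
    obtain ⟨w, -, hw⟩ := (Nat.card_eq_two_iff' (1 : _root_.commutator G)).1 hc
    have h2 := hw ⟨d, hd⟩ fun e => h1 (congrArg Subtype.val e)
    have h3 := hw ⟨z, hz⟩ fun e => hzS (by
      have e' : z = 1 := congrArg Subtype.val e
      rw [show (⟨z, hD hz⟩ : center G) = 1 from Subtype.ext e']
      exact one_mem _)
    exact congrArg Subtype.val (h2.trans h3.symm)
  have hi : S₀.index = 2 := by
    have h1 : S₀.index ≠ 1 := fun e => hzS (index_eq_one.1 e ▸ mem_top _)
    have h2 : S₀.index ≠ 0 := index_ne_zero_of_finite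
    omega
  have hx : ∃ x : G, (⟨x ^ 2, hpow x⟩ : center G) ∉ S₀ := by
    by_contra h
    push Not at h
    obtain ⟨a, ha⟩ := hne
    rw [Subgroup.mem_center_iff] at ha
    push Not at ha
    obtain ⟨b, hb⟩ := ha
    have h1 := h (a * b)
    rw [hmul, mul_mem_cancel_right (mul_mem (h a) (h b))] at h1
    have h2 := hz1 _ (kap_mem hD a b) fun e => hb ((kap_eq_one hD).1 e)
    exact hzS (by simpa only [h2] using h1)
  obtain ⟨x, hx⟩ := hx
  refine ⟨x, fun h => hx ⟨⟨x, h⟩, rfl⟩, fun g hg => ?_⟩
  have h2 := hz1 _ (kap_mem hD g x) fun e => hg ((kap_eq_one hD).1 e).symm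
  rw [mul_mem_iff_of_index_two hi]
  simp only [h2, hzS, hx]

theorem main_small [Finite G] {p : ℕ} (hp : p.Prime) (hge : ∀ n, n ∣ Nat.card G → n ≠ 1 → p ≤ n)
    (hc : Nat.card (_root_.commutator G) = p) :
    p * Nat.card (orbitRel.Quotient (MulAut G) G) ≤ Nat.card G := by
  classical
  have : Fact p.Prime := ⟨hp⟩
  have hD : _root_.commutator G ≤ center G := by
    have : IsCyclic (_root_.commutator G) := isCyclic_of_prime_card hc
    let φ : G →* MulAut (_root_.commutator G) := MulAut.conjNormal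
    have h1 : φ.ker.index ≤ p - 1 := by
      rw [index_ker, ← Nat.totient_prime hp, ← hc, ← IsCyclic.card_mulAut]
      exact card_le_card_group _
    have h2 : φ.ker.index = 1 := by
      by_contra h
      have := hge _ φ.ker.index_dvd_card h
      have := hp.pos
      omega
    intro d hd
    refine Subgroup.mem_center_iff.2 fun g => mul_inv_eq_iff_eq_mul.1 ?_
    exact congrArg Subtype.val (DFunLike.congr_fun
      (MonoidHom.mem_ker.1 (index_eq_one.1 h2 ▸ mem_top g : g ∈ φ.ker)) (⟨d, hd⟩ : _root_.commutator G))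
  have hC : ∀ x ∉ center G, (centralizer ({x} : Set G)).index = p := fun x hx => by
    refine le_antisymm ?_ (hge _ (index_dvd_card _) fun e => hx (Subgroup.mem_center_iff.2 fun g =>
      mem_centralizer_singleton_iff.1 (index_eq_one.1 e ▸ mem_top g)))
    rw [← kap_ker hD, index_ker, ← hc]
    exact card_le_of_le (by rintro _ ⟨g, rfl⟩; exact kap_mem hD x g)
  have hZ : ∀ x ∉ center G, p ≤ (center G).relIndex (centralizer ({x} : Set G)) := fun x hx =>
    hge _ ((relIndex_dvd_card _ _).trans (card_subgroup_dvd_card _)) fun e =>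
      hx (relIndex_eq_one.1 e (mem_centralizer_singleton_iff.2 rfl))
  have hne : ∃ x, x ∉ center G := by
    by_contra h
    push Not at h
    have : _root_.commutator G = ⊥ := eq_bot_iff.2 (commutator_le.2 fun a _ b _ =>
      commutatorElement_eq_one_iff_mul_comm.2 (Subgroup.mem_center_iff.1 (h b) a))
    rw [this, card_bot] at hc
    exact hp.one_lt.ne hc
  obtain ⟨x, hx, hgood⟩ := exists_good hp hD hc (by
    obtain ⟨x, hx⟩ := hne
    rw [← relIndex_mul_index (center_le_centralizer ({x} : Set G)), hC x hx]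
    exact Nat.mul_le_mul_right _ (hZ x hx))
  set C := centralizer ({x} : Set G) with hCdef
  have hCn : C.Normal := hCdef ▸ kap_ker hD x ▸ inferInstance
  have := Fintype.ofFinite G
  have key := card_quot_le (A := MulAut G) (X := G)
    (fun g => (if g ∈ center G then p * (p - 1) else 0) + (if g ∈ C then p - 1 else 0) + 1) (p * p)
    (fun g => by
      obtain ⟨q, rfl⟩ : ∃ q, p = q + 1 := ⟨p - 1, by have := hp.pos; omega⟩
      by_cases h1 : g ∈ center G
      · have h2 : 0 < (orbit (MulAut G) g).ncard := (Set.ncard_pos (Set.toFinite _)).2 ⟨g, mem_orbit_self g⟩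
        rw [if_pos h1, if_pos (center_le_centralizer _ h1), Nat.add_sub_cancel]
        nlinarith
      by_cases h2 : g ∈ C
      · rw [if_neg h1, if_pos h2, Nat.add_sub_cancel, zero_add]
        refine Nat.mul_le_mul_right _ ?_
        rw [← hC g h1, H12.index_centralizer_singleton]
        refine Set.ncard_le_ncard ?_ (Set.toFinite _)
        rintro _ ⟨a, rfl⟩
        exact ⟨MulAut.conj (ConjAct.ofConjAct a), rfl⟩
      rw [if_neg h1, if_neg h2, zero_add, zero_add, mul_one]
      obtain ⟨y, hy1, hy2, hy3⟩ := hgood g fun e => h2 (mem_centralizer_singleton_iff.2 e)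
      let A := C ⊓ centralizer (C : Set G)
      let ν : A →* G := MonoidHom.mk' (fun y => kap hD g y ^ ((q + 1).choose 2) * (y : G) ^ (q + 1))
        fun a b => by
          have h3 : Commute (a : G) b := b.2.2 a a.2.1
          rw [coe_mul, map_mul, h3.mul_pow, (kap_comm hD g a _).mul_pow, mul_assoc, mul_assoc,
            ← mul_assoc _ ((a : G) ^ _), ((kap_comm hD g b _).pow_left _).eq, mul_assoc]
      let Y := ν.ker.map A.subtype
      have hDY : _root_.commutator G ≤ Y := fun d hd => by
        have h3 := Subgroup.mem_center_iff.1 (hD hd)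
        refine ⟨⟨d, center_le_centralizer _ (hD hd), center_le_centralizer _ (hD hd)⟩, ?_, rfl⟩
        change kap hD g d ^ _ * d ^ _ = 1
        rw [(kap_eq_one hD).2 (h3 g).symm, one_pow, one_mul]
        exact congrArg Subtype.val (hc ▸ pow_card_eq_one' (x := (⟨d, hd⟩ : _root_.commutator G)))
      have hyY : y ∈ Y := ⟨⟨y, mem_centralizer_singleton_iff.2 (hy1 x rfl).symm,
        fun c hc => hy1 c (mem_centralizer_singleton_iff.1 hc)⟩, hy3, rfl⟩
      have h4 : (q + 1) * (q + 1) ≤ Nat.card Y := by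
        rw [← relIndex_bot_left, ← relIndex_mul_relIndex ⊥ _ Y bot_le hDY, relIndex_bot_left, hc]
        exact Nat.mul_le_mul_left _ (hge _ ((relIndex_dvd_card _ _).trans (card_subgroup_dvd_card _))
          fun e => hy2 (relIndex_eq_one.1 e hyY))
      refine h4.trans ?_
      rw [← SetLike.coe_sort_coe, Nat.card_coe_set_eq]
      refine Set.ncard_le_ncard_of_injOn (fun y => g * y) ?_ (fun a _ b _ e => mul_left_cancel e)
        (Set.toFinite _)
      rintro _ ⟨a, ha, rfl⟩
      refine exists_aut C hp (hC x hx) h2 a.2 ?_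
      have h5 : kap hD g a ^ ((q + 1).choose 2) * (a : G) ^ (q + 1) = 1 := ha
      rw [mul_pow_kap hD, ← mul_assoc, ((kap_comm hD g _ _).pow_left _).eq, mul_assoc]
      exact (congrArg _ h5).trans (mul_one _))
  have hs : ∀ (H : Subgroup G) [DecidablePred (· ∈ H)] (c : ℕ),
      ∑ g : G, (if g ∈ H then c else 0) = Nat.card H * c :=
    fun H _ c => by
      rw [← Finset.sum_filter, Finset.sum_const, smul_eq_mul, Nat.card_eq_fintype_card,
        Fintype.card_subtype]
  rw [Finset.sum_add_distrib, Finset.sum_add_distrib, hs, hs, Finset.sum_const, smul_eq_mul,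
    mul_one, Finset.card_univ, ← Nat.card_eq_fintype_card] at key
  have h1 := C.card_mul_index
  rw [hC x hx] at h1
  have h2 : Nat.card (center G) * p ≤ Nat.card C := by
    rw [← relIndex_bot_left C, ← relIndex_mul_relIndex ⊥ _ C bot_le (center_le_centralizer _),
      relIndex_bot_left]
    exact Nat.mul_le_mul_left _ (hZ x hx)
  rw [← h1] at key ⊢
  obtain ⟨q, rfl⟩ : ∃ q, p = q + 2 := ⟨p - 2, by have := hp.two_le; omega⟩
  rw [show q + 2 - 1 = q + 1 from rfl] at key
  refine Nat.le_of_mul_le_mul_left ?_ hp.pos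
  have h3 := Nat.mul_le_mul_right (q + 1) h2
  nlinarith [Nat.zero_le (Nat.card C * q * q), Nat.zero_le (Nat.card C * q)]

theorem main_large [Finite G] {p : ℕ} (hp : p.Prime) (hge : ∀ n, n ∣ Nat.card G → n ≠ 1 → p ≤ n)
    (hc : p < Nat.card (_root_.commutator G)) :
    p * Nat.card (ConjClasses G) ≤ Nat.card G := by
  classical
  have h1 : ∀ χ : IrrCharacter G, ∃ d : ℕ, (χ : G → ℂ) 1 = d := fun χ => χ.2.isCharacter.exists_degree
  choose d hd using h1
  have h2 := sum_irr_degree_sq (G := G)
  simp only [hd] at h2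
  have h3 : ∑ χ, d χ ^ 2 = Nat.card G := by exact_mod_cast h2
  have h4 : ∑ χ : IrrCharacter G, p * p ≤
      ∑ χ : IrrCharacter G, (d χ ^ 2 + if (χ : G → ℂ) 1 = 1 then p * p - 1 else 0) :=
    Finset.sum_le_sum fun χ _ => by
      by_cases h : (χ : G → ℂ) 1 = 1
      · have : d χ = 1 := by rw [hd] at h; exact_mod_cast h
        rw [if_pos h, this]; omega
      · have := hge _ (χ.2.degree_dvd_card (hd χ)) fun e => h (by rw [hd, e, Nat.cast_one])
        rw [if_neg h]; nlinarith
  rw [Finset.sum_add_distrib, h3, ← Finset.sum_filter, Finset.sum_const, Finset.sum_const,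
    smul_eq_mul, smul_eq_mul, Finset.card_univ, ← Nat.card_eq_fintype_card,
    card_irr_eq_card_conjClasses, ← Fintype.card_subtype, ← Nat.card_eq_fintype_card,
    card_irr_degree_one] at h4
  have h5 := (_root_.commutator G).card_mul_index
  refine Nat.le_of_mul_le_mul_left ?_ hp.pos
  obtain ⟨q, rfl⟩ : ∃ q, p = q + 1 := ⟨p - 1, by have := hp.pos; omega⟩
  rw [show (q + 1) * (q + 1) - 1 = q * (q + 2) from Nat.sub_eq_of_eq_add (by ring)] at h4
  have h6 := Nat.mul_le_mul_right ((_root_.commutator G).index * q) hc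
  rw [← h5] at h4 ⊢
  nlinarith


/-- Let G be a finite non-abelian group and p the least prime dividing its order. Then the automorphism group of G has at most #G/p orbits on G. -/
theorem result {G : Type*} [Group G] [Finite G] (hna : ¬ IsMulCommutative G) :
    Nat.card (MulAction.orbitRel.Quotient (MulAut G) G) ≤ Nat.card G / (Nat.card G).minFac := by
  have hD : _root_.commutator G ≠ ⊥ := fun h => hna ⟨⟨fun a b =>
    commutatorElement_eq_one_iff_mul_comm.1
      (mem_bot.1 (h ▸ commutator_mem_commutator (mem_top a) (mem_top b)))⟩⟩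
  have h1 : Nat.card G ≠ 1 := fun h => hD (by
    have := (Nat.card_eq_one_iff_unique.1 h).1
    exact Subsingleton.elim _ _)
  have hp := Nat.minFac_prime h1
  have hge : ∀ n, n ∣ Nat.card G → n ≠ 1 → (Nat.card G).minFac ≤ n := fun n hn hn1 =>
    Nat.minFac_le_of_dvd (by
      have := Nat.pos_of_dvd_of_pos hn Nat.card_pos
      omega) hn
  rw [Nat.le_div_iff_mul_le hp.pos, mul_comm]
  rcases (hge _ (card_subgroup_dvd_card (_root_.commutator G))
    fun e => hD (eq_bot_of_card_eq _ e)).eq_or_lt with h | h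
  · exact main_small hp hge h.symm
  refine le_trans (Nat.mul_le_mul_left _ ?_) (main_large hp hge h)
  refine Nat.card_le_card_of_surjective
    (fun c : ConjClasses G => Quotient.liftOn' c (fun g => (Quotient.mk'' g : orbitRel.Quotient (MulAut G) G))
      fun a b h => ?_) fun ω => ?_
  · obtain ⟨c, hc⟩ := isConj_iff.1 h
    exact (Quotient.sound' (show orbitRel (MulAut G) G b a from ⟨MulAut.conj c, hc⟩)).symm
  · obtain ⟨g, rfl⟩ := Quotient.exists_rep ω
    exact ⟨ConjClasses.mk g, rfl⟩

end Cfsg.Agent.S4067
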