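import Cfsg.Statements.S4071
import Cfsg.Agent.H25.SelfNorm

set_option autoImplicit false
open Cfsg

namespace Cfsg.Agent.S4071

open Cfsg.Agent.H25 Cfsg.Agent.H21 Cfsg.Agent.H20

/-- Let G be a finite solvable non-nilpotent group. Every non-abelian subgroup of G is self-normalizing if and only if G is a semidirect product ⟨x⟩ ⋉ A in which ⟨x⟩ is a p-group for some prime p, A is a normal abelian subgroup of order prime to p, x^p is central in G, and x acts fixed-point-freely on A (no non-identity element of A commutes with x). -/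
theorem result {G : Type*} [Group G] [Finite G]
    [Group.IsSolvable G] (hnn : ¬ Group.IsNilpotent G) :
    (∀ H : Subgroup G, ¬ IsMulCommutative H → Subgroup.normalizer (H : Set G) = H) ↔
    ∃ (x : G) (A : Subgroup G) (p : ℕ), p.Prime ∧ A.Normal ∧ IsMulCommutative A ∧ (∃ k : ℕ, orderOf x = p ^ k) ∧
      ¬ p ∣ Nat.card A ∧ (Subgroup.zpowers x).IsComplement' A ∧ x ^ p ∈ Subgroup.center G ∧
      ∀ a : G, a ∈ A → a ≠ 1 → x * a * x⁻¹ ≠ a := by
  rw [← sn_top_iff]
  constructor
  · intro h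
    obtain ⟨x, A, p, hS⟩ := h.exists_struct (sol_top_iff.mpr inferInstance) (by rwa [nil_top_iff])
    haveI := Fact.mk hS.prime
    refine ⟨x, A, p, hS.prime, hS.normal.normal, hS.comm, ?_, hS.not_dvd, ?_, ?_, ?_⟩
    · obtain ⟨k, hk⟩ := IsPGroup.iff_card.mp hS.pgroup
      exact ⟨k, by rw [← hk, Nat.card_zpowers]⟩
    · exact H21.Compl.iff_isComplement'.mp (hS.sylow.isComplIn hS.hall)
    · rw [← cent_top]; exact hS.cent
    · intro a ha h1 e
      exact h1 (hS.fpf a ha (mul_inv_eq_iff_eq_mul.mp e).symm)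
  · rintro ⟨x, A, p, hp, hA, hc, ⟨k, hk⟩, hd, hcompl, hz, hf⟩
    refine SNStruct.sn (x := x) (A := A) (p := p) ⟨hp, NormalIn.of_normal A, hc,
      IsPGroup.of_card (by rw [Nat.card_zpowers, hk]), hd, by rw [sup_comm]; exact hcompl.sup_eq_top,
      by rwa [cent_top], fun a ha e => ?_⟩
    by_contra h1
    exact hf a ha h1 (mul_inv_eq_iff_eq_mul.mpr e.symm)

end Cfsg.Agent.S4071
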