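import Cfsg.Statements.S4073
import Cfsg.Agent.H25.SelfNorm

set_option autoImplicit false
open Cfsg

namespace Cfsg.Agent.S4073

open Cfsg.Agent.H25 Cfsg.Agent.H21 Cfsg.Agent.H20

/-- Let G be a finite non-abelian simple group. Every non-abelian subgroup of G is self-normalizing if and only if G is isomorphic to PSL₂(2ⁿ) for some n ≥ 2 with 2ⁿ − 1 prime (this includes the alternating group of degree 5 as PSL₂(4)). -/
theorem result {G : Type*} [Group G] [Finite G] [IsSimpleGroup G]
    (hna : ¬ IsMulCommutative G) :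
    (∀ H : Subgroup G, ¬ IsMulCommutative H → Subgroup.normalizer (H : Set G) = H) ↔
    ∃ n : ℕ, 2 ≤ n ∧ (2 ^ n - 1).Prime ∧ Nonempty (G ≃* Matrix.ProjectiveSpecialLinearGroup (Fin 2) (GaloisField 2 n)) := by
  rw [← sn_top_iff]
  refine ⟨fun h => h.psl_of_simple hna, ?_⟩
  rintro ⟨n, hn, hp, ⟨e⟩⟩
  haveI : Fintype (GaloisField 2 n) := Fintype.ofFinite _
  have h1 := sn_psl2 (F := GaloisField 2 n) (n := n)
    (by rw [← Nat.card_eq_fintype_card, GaloisField.card 2 n (by omega)]) hn hp
  refine SN.of_map (f := e.toMonoidHom) e.injective ?_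
  rwa [Subgroup.map_top_of_surjective _ e.surjective]

end Cfsg.Agent.S4073
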