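import Cfsg.Statements.S4074
import Cfsg.Agent.H1.Basic
import Cfsg.Agent.H25.Cyc
import Cfsg.Agent.H3.PGroup1

set_option autoImplicit false
open Cfsg

namespace Cfsg.Agent.S4074

open Subgroup DihedralGroup

/-- For n > 2, every non-abelian subgroup of the dihedral group of order 2n is self-normalizing if and only if n = 4 or n is odd. -/
theorem result (n : ℕ) (hn : 2 < n) :
    (∀ H : Subgroup (DihedralGroup n), ¬ IsMulCommutative H → Subgroup.normalizer (H : Set (DihedralGroup n)) = H) ↔
    (n = 4 ∨ Odd n) := by
  have : NeZero n := ⟨by omega⟩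
  constructor
  · intro h
    by_contra hne
    push Not at hne
    obtain ⟨h1, h2⟩ := hne
    obtain ⟨m, rfl⟩ := (Nat.not_odd_iff_even.1 h2).two_dvd
    let c : ZMod (2 * m) →+* ZMod 2 := ZMod.castHom (dvd_mul_right _ _) _
    let f : DihedralGroup (2 * m) →* Multiplicative (ZMod 2) := MonoidHom.mk'
      (fun g => match g with
        | .r i => Multiplicative.ofAdd (c i)
        | .sr i => Multiplicative.ofAdd (c i)) (by
      rintro (i | i) (j | j) <;>
        simp only [r_mul_r, r_mul_sr, sr_mul_r, sr_mul_sr, map_add, map_sub, ← ofAdd_add] <;>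
        congr 1 <;> generalize c i = a <;> generalize c j = b <;> revert a b <;> decide)
    have h3 := h f.ker (fun hc => by
      have := H3.isMulCommutative_iff_mem.1 hc (r (2 : ℕ)) (by
        change Multiplicative.ofAdd (c _) = 1
        rw [map_natCast]; rfl) (sr 0) (by
        change Multiplicative.ofAdd (c _) = 1
        rw [map_zero]; rfl)
      simp only [r_mul_sr, sr_mul_r, sr.injEq, zero_sub, zero_add] at this
      rw [neg_eq_iff_add_eq_zero, ← Nat.cast_add, ZMod.natCast_eq_zero_iff] at this
      have h5 := Nat.le_of_dvd (by norm_num) this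
      omega)
    rw [normalizer_eq_top] at h3
    have h4 : r 1 ∈ f.ker := h3 ▸ mem_top _
    change Multiplicative.ofAdd (c _) = 1 at h4
    rw [map_one] at h4
    exact absurd h4 (by decide)
  · rintro (rfl | ho) H hH
    · by_cases ht : H = ⊤
      · rw [ht, normalizer_eq_top]
      exfalso
      apply hH
      have h1 := H1.card_lt_of_ne_top ht
      have h2 := card_subgroup_dvd_card H
      rw [nat_card] at h1 h2
      obtain ⟨k, hk, hk'⟩ := (Nat.dvd_prime_pow Nat.prime_two (m := 3)).1 h2
      have : Fact (Nat.Prime 2) := ⟨Nat.prime_two⟩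
      interval_cases k
      · exact (isCyclic_of_card_dvd_prime (p := 2) (by rw [hk']; decide)).commutative
      · exact (isCyclic_of_card_dvd_prime (p := 2) (by rw [hk']; decide)).commutative
      · exact IsPGroup.isMulCommutative_of_card_eq_prime_sq hk'
      · omega
    · refine le_antisymm (fun g hg => ?_) le_normalizer
      obtain ⟨i, hi⟩ : ∃ i, sr i ∈ H := by
        by_contra h
        push Not at h
        refine hH (H3.isMulCommutative_iff_mem.2 ?_)
        rintro (j | j) hj (k | k) hk
        · simp [add_comm]
        · exact absurd hk (h k)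
        · exact absurd hj (h j)
        · exact absurd hj (h j)
      have key : ∀ j : ZMod n, r j ∈ normalizer (H : Set (DihedralGroup n)) → r j ∈ H := by
        intro j hj
        have h1 := mul_mem ((mem_normalizer_iff.1 hj _).1 hi) hi
        have h2 : r j * sr i * (r j)⁻¹ * sr i = r j ^ 2 := by
          simp only [r_mul_sr, inv_r, sr_mul_r, sr_mul_sr, pow_two, r_mul_r]
          congr 1; ring
        rw [h2] at h1
        obtain ⟨k, hk⟩ := ho
        have h3 : r j = (r j ^ 2) ^ (k + 1) := by
          rw [← pow_mul, r_pow, show 2 * (k + 1) = n + 1 by omega]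
          simp
        rw [h3]; exact pow_mem h1 _
      rcases g with j | j
      · exact key j hg
      · have := mul_mem hi (key _ (mul_mem (le_normalizer hi) hg))
        simpa using this

end Cfsg.Agent.S4074
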