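import Cfsg.Statements.S4075
import Cfsg.Agent.H25.SelfNorm

set_option autoImplicit false
open Cfsg

namespace Cfsg.Agent.S4075

open Cfsg.Agent.H25 Cfsg.Agent.H21 Cfsg.Agent.H20

/-- Let G be a finite nilpotent group. Every non-abelian subgroup of G is self-normalizing if and only if G is abelian or G is a minimal non-abelian p-group for some prime p (non-abelian of prime-power order with every proper subgroup abelian). -/
theorem result {G : Type*} [Group G] [Finite G]
    [Group.IsNilpotent G] :
    (∀ H : Subgroup G, ¬ IsMulCommutative H → Subgroup.normalizer (H : Set G) = H) ↔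
    (IsMulCommutative G ∨ (IsPrimePow (Nat.card G) ∧ ¬ IsMulCommutative G ∧ ∀ H : Subgroup G, H ≠ ⊤ → IsMulCommutative H)) := by
  rw [← sn_top_iff]
  have hn : Group.IsNilpotent (⊤ : Subgroup G) := nil_top_iff.mpr inferInstance
  constructor
  · intro h
    by_cases hc : IsMulCommutative G
    · exact Or.inl hc
    have h1 : ∀ H : Subgroup G, H ≠ ⊤ → IsMulCommutative H := fun H hH =>
      h.comm_of_lt_nil hn (lt_top_iff_ne_top.mpr hH)
    refine Or.inr ⟨?_, hc, h1⟩
    by_contra hpp
    apply hc
    refine comm_top_iff.mp (comm_of_nil_forall_sylow hn fun p hp hd => h1 _ fun e => hpp ?_)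
    haveI := Fact.mk hp
    obtain ⟨k, hk⟩ := IsPGroup.iff_card.mp (isPGroup_piCoreOf p (⊤ : Subgroup G))
    rw [e, card_top'] at hk
    rw [card_top', hk] at hd
    refine ⟨p, k, hp.prime, ?_, hk.symm⟩
    rcases k with _ | k
    · exact absurd (Nat.dvd_one.mp hd) hp.one_lt.ne'
    · omega
  · rintro (h | ⟨-, -, h⟩) K _ hK
    · exact absurd (comm_of_le le_top (comm_top_iff.mpr h)) hK
    · by_cases e : K = ⊤
      · rw [e]; exact le_top
      · exact absurd (h K e) hK

end Cfsg.Agent.S4075
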