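import Cfsg.Statements.S4080
import Cfsg.Agent.H1.Basic

set_option autoImplicit false
open Cfsg

namespace Cfsg.Agent.S4080

theorem pow_four {R : Type*} [Ring R] (N : R) (h : N ^ 4 = 0) (k : ℕ) :
    (1 + N) ^ k = 1 + k • N + k.choose 2 • N ^ 2 + k.choose 3 • N ^ 3 := by
  induction k with
  | zero => simp
  | succ k ih =>
    rw [pow_succ, ih, Nat.choose_succ_succ' k 1, Nat.choose_succ_succ' k 2, Nat.choose_one_right]
    simp only [add_mul, mul_add, mul_one, one_mul, smul_mul_assoc, ← pow_succ, h, smul_zero, add_smul,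
      ← sq, one_smul]
    abel

theorem ker_cast {p : ℕ} [Fact p.Prime] (x : ZMod (p ^ 2))
    (h : ZMod.castHom (dvd_pow_self p two_ne_zero) (ZMod p) x = 0) : ∃ y, x = p • y := by
  obtain ⟨k, rfl⟩ := ZMod.natCast_zmod_surjective x
  rw [map_natCast, ZMod.natCast_eq_zero_iff] at h
  obtain ⟨c, rfl⟩ := h
  exact ⟨c, by simp⟩

theorem ker_p {p : ℕ} [hp : Fact p.Prime] (x : ZMod (p ^ 2)) (h : p • x = 0) : ∃ y, x = p • y := by
  obtain ⟨k, rfl⟩ := ZMod.natCast_zmod_surjective x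
  rw [nsmul_eq_mul, ← Nat.cast_mul, ZMod.natCast_eq_zero_iff, sq] at h
  obtain ⟨c, rfl⟩ := Nat.dvd_of_mul_dvd_mul_left hp.out.pos h
  exact ⟨c, by simp⟩

theorem mat {p : ℕ} [hp : Fact p.Prime] (h3 : 3 < p) (A : Matrix (Fin 2) (Fin 2) (ZMod (p ^ 2)))
    (hA : A ^ p = 1) : p • (A - 1) = 0 := by
  set φ := (ZMod.castHom (dvd_pow_self p two_ne_zero) (ZMod p)).mapMatrix (m := Fin 2) with hφ
  have h1 : IsNilpotent (φ (A - 1)) := ⟨p, by
    rw [map_sub, map_one, sub_pow_char_of_commute _ (Commute.one_right _), ← map_pow, hA]; simp⟩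
  have h2 := (Matrix.isNilpotent_charpoly_sub_pow_of_isNilpotent h1).eq_zero
  have h4 := Matrix.aeval_self_charpoly (φ (A - 1))
  rw [sub_eq_zero.mp h2] at h4
  simp only [Fintype.card_fin, map_pow, Polynomial.aeval_X] at h4
  rw [← map_pow] at h4
  have h5 : ∀ i j, ∃ y, ((A - 1) ^ 2 : Matrix (Fin 2) (Fin 2) (ZMod (p ^ 2))) i j = p • y := fun i j => ker_cast _ (congrFun (congrFun h4 i) j)
  choose K hK using h5
  have h6 : (A - 1) ^ 2 = p • Matrix.of K := by ext i j; simp [hK]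
  have h7 : ∀ B : Matrix (Fin 2) (Fin 2) (ZMod (p ^ 2)), p • p • B = 0 := by
    intro B
    ext i j
    rw [smul_smul, ← sq]
    simp
  have h8 := pow_four (A - 1) (by
    rw [show 4 = 2 + 2 from rfl, pow_add, h6, smul_mul_assoc, mul_smul_comm, h7]) p
  obtain ⟨c, hc⟩ := hp.out.dvd_choose_self two_ne_zero (by omega : 2 < p)
  obtain ⟨d, hd⟩ := hp.out.dvd_choose_self three_ne_zero h3
  rw [add_sub_cancel, hA, hc, hd, pow_succ (A - 1) 2, h6, smul_mul_assoc, mul_comm p, mul_comm p,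
    mul_smul, mul_smul, h7, h7] at h8
  simpa using h8

/-- Let p > 3 be a prime and L the direct product of two cyclic groups of order p². Every automorphism of L of order p fixes every element of order p of L. -/
theorem result {p : ℕ} [Fact p.Prime] (hp : 3 < p)
    (a : MulAut (Multiplicative (ZMod (p ^ 2) × ZMod (p ^ 2)))) (ha : orderOf a = p)
    (x : Multiplicative (ZMod (p ^ 2) × ZMod (p ^ 2))) (hx : orderOf x = p) : a x = x := by
  let L : MulAut (Multiplicative (ZMod (p ^ 2) × ZMod (p ^ 2))) →*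
      Module.End (ZMod (p ^ 2)) (ZMod (p ^ 2) × ZMod (p ^ 2)) :=
    { toFun := fun a => (AddMonoidHom.toMultiplicative.symm a.toMonoidHom).toZModLinearMap _
      map_one' := by ext <;> rfl
      map_mul' := fun a b => by ext <;> rfl }
  let e := LinearMap.toMatrixAlgEquiv (Module.Basis.finTwoProd (ZMod (p ^ 2)))
  have h1 := mat hp (e (L a)) (by rw [← map_pow, ← map_pow, orderOf_dvd_iff_pow_eq_one.mp ha.dvd, map_one, map_one])
  rw [← map_one e, ← map_sub, ← map_nsmul, map_eq_zero_iff _ e.injective] at h1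
  have h2 : p • x.toAdd = 0 := by rw [← toAdd_pow, orderOf_dvd_iff_pow_eq_one.mp hx.dvd]; rfl
  obtain ⟨y, hy⟩ := ker_p _ (congrArg Prod.fst h2)
  obtain ⟨z, hz⟩ := ker_p _ (congrArg Prod.snd h2)
  have h3 : x.toAdd = p • (y, z) := Prod.ext hy hz
  have h4 : (L a - 1) x.toAdd = 0 := by
    rw [h3, map_nsmul]
    exact LinearMap.congr_fun h1 (y, z)
  have h5 : L a x.toAdd = x.toAdd := sub_eq_zero.mp h4
  exact h5

end Cfsg.Agent.S4080
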