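import Cfsg.Statements.S4081
import Cfsg.Agent.H1.ThreeOrb
import Cfsg.Agent.H1.Frobenius
import Cfsg.Agent.H4.Burnside

set_option autoImplicit false
open Cfsg

namespace Cfsg.Agent.S4081

open Subgroup Polynomial H1.Orb

variable {G : Type*} [Group G] [Finite G] {p q : ℕ}

theorem exists_pow {P : Subgroup G} [P.Normal] (hq : q.Prime) (hP : P.index = q) {x : G} (hx : x ∉ P)
    (y : G) : ∃ k : ℕ, ∃ u ∈ P, y = x ^ k * u := by
  haveI := Fact.mk hq
  obtain ⟨k, hk⟩ := (mem_powers_iff_mem_zpowers).mpr (mem_zpowers_of_prime_card (G := G ⧸ P) hP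
    (g := x) (g' := y) (mt (QuotientGroup.eq_one_iff x).mp hx))
  exact ⟨k, _, QuotientGroup.eq.mp hk, by simp⟩

theorem isCompl {P : Subgroup G} [P.Normal] (hq : q.Prime) (hP : P.index = q) {x : G} (hx : x ∉ P)
    (ho : orderOf x = q) : P.IsComplement' (zpowers x) := by
  refine isComplement'_of_card_mul_and_disjoint (by rw [Nat.card_zpowers, ho, ← hP, card_mul_index]) ?_
  haveI := Fact.mk hq
  haveI : Fact (Nat.card (zpowers x)).Prime := ⟨by rwa [Nat.card_zpowers, ho]⟩
  rcases (P.subgroupOf (zpowers x)).eq_bot_or_eq_top_of_prime_card with h | h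
  · exact subgroupOf_eq_bot.mp h
  · exact (hx (subgroupOf_eq_top.mp h (mem_zpowers x))).elim

theorem fwd [hp : Fact p.Prime] [hq : Fact q.Prime] (hpq : p ≠ q) (hq1 : q ∣ Nat.card G)
    (h1 : ∀ g : G, g = 1 ∨ orderOf g = p ∨ orderOf g = q)
    (h2 : ∀ g h : G, orderOf g = orderOf h → ∃ σ : MulAut G, σ g = h) (h3 : pCore p G ≠ ⊥) :
    ∃ n, 1 ≤ n ∧ Nat.card G = p ^ n * q ∧
      (∀ P : Sylow p G, (P : Subgroup G).Normal ∧ Cfsg.IsElementaryAbelian p (P : Subgroup G)) ∧
      orderOf (p : ZMod q) = q - 1 ∧ ∀ x y : G, orderOf x = q → orderOf y = p → x * y * x⁻¹ ≠ y := by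
  have hc := (Nat.coprime_primes hq.out hp.out).mpr hpq.symm
  have h4 : ∀ x y : G, orderOf x = q → orderOf y = p → x * y * x⁻¹ ≠ y := fun x y hx hy e => by
    have h0 := Commute.orderOf_mul_eq_mul_orderOf_of_coprime (mul_inv_eq_iff_eq_mul.mp e) (hx ▸ hy ▸ hc)
    rw [hx, hy] at h0
    have := hp.out.two_le
    have := hq.out.two_le
    rcases h1 (x * y) with h | h | h <;> rw [h] at h0
    · rw [orderOf_one] at h0; nlinarith
    all_goals nlinarith
  have h5 : ∀ {r} {H : Subgroup G}, r.Prime → IsPGroup r H → ∀ g ∈ H, g ≠ 1 → orderOf g = r :=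
    fun {r H} hr hH g hg h => by
      obtain ⟨k, hk⟩ := hH ⟨g, hg⟩
      have h6 : orderOf g ∣ r ^ k := orderOf_dvd_of_pow_eq_one (congrArg Subtype.val hk)
      rcases (h1 g).resolve_left h with e | e <;> rw [e] at h6 ⊢
      · exact (Nat.prime_dvd_prime_iff_eq hp.out hr).mp (hp.out.dvd_of_dvd_pow h6)
      · exact (Nat.prime_dvd_prime_iff_eq hq.out hr).mp (hq.out.dvd_of_dvd_pow h6)
  let P := (center (pCore p G)).map (pCore p G).subtype
  have hP : IsPGroup p P := ((H1.isPGroup_pCore p G).to_subgroup _).map _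
  haveI := (pCore p G).nontrivial_iff_ne_bot.mpr h3
  haveI := (H1.isPGroup_pCore p G).center_nontrivial
  have hP0 : P ≠ ⊥ := mt (map_eq_bot_iff_of_injective _ (subtype_injective _)).mp
    ((center _).nontrivial_iff_ne_bot.mp this)
  obtain ⟨⟨a, ha⟩, ha1⟩ := P.ne_bot_iff_exists_ne_one.mp hP0
  have h6 : ∀ S : Sylow p G, (S : Subgroup G) = P := fun S => by
    refine (S.is_maximal' hP fun g hg => ?_).symm
    by_cases h : g = 1
    · exact h ▸ one_mem _
    obtain ⟨σ, rfl⟩ := h2 a g (by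
      rw [h5 hp.out hP a ha fun e => ha1 (Subtype.ext e), h5 hp.out S.isPGroup' g hg h])
    exact characteristic_iff_le_comap.mp inferInstance σ ha
  have h7 : ∀ g ∈ P, g ^ p = 1 := fun g hg => by
    by_cases h : g = 1
    · simp [h]
    · rw [← h5 hp.out hP g hg h, pow_orderOf_eq_one]
  obtain ⟨S⟩ : Nonempty (Sylow p G) := inferInstance
  obtain ⟨Q⟩ : Nonempty (Sylow q G) := inferInstance
  have h8 : Nat.card Q = q := by
    rcases H1.isCyclic_or_quaternion_of_fpf Q.isPGroup' hP0 (by rw [normalizer_eq_top]; exact le_top)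
      (fun x hx hx1 => eq_bot_iff.mpr fun y hy => by
        by_contra h
        exact h4 x y (h5 hq.out Q.isPGroup' x hx hx1) (h5 hp.out hP y hy.1 h)
          (mul_inv_eq_iff_eq_mul.mpr (hy.2 x rfl))) with ⟨x, hx⟩ | ⟨rfl, n, -, ⟨e⟩⟩
    · rw [← orderOf_eq_card_of_forall_mem_zpowers hx, ← orderOf_coe]
      refine h5 hq.out Q.isPGroup' _ x.2 fun e => Q.ne_bot_of_dvd_card hq1 (eq_bot_iff.mpr fun y hy => ?_)
      obtain ⟨k, hk⟩ := hx ⟨y, hy⟩
      simpa [e] using (congrArg Subtype.val hk).symm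
    · have h := QuaternionGroup.orderOf_xa (n := 2 ^ n) 0
      rw [← e.symm.orderOf_eq, ← orderOf_coe] at h
      rw [h5 hq.out Q.isPGroup' _ (e.symm _).2 fun e => by simp [e] at h] at h
      omega
  obtain ⟨n, hn⟩ := hP.exists_card_eq
  have h9 : P.index = q := by
    have h := Nat.eq_prime_pow_of_unique_prime_dvd P.index_ne_zero_of_finite (p := q) fun {r} hr h => by
      haveI := Fact.mk hr
      obtain ⟨g, hg⟩ := exists_prime_orderOf_dvd_card' r (h.trans P.index_dvd_card)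
      rcases h1 g with e | e | e
      · exact (hr.one_lt.ne (by simpa [e] using hg)).elim
      · exact (S.not_dvd_index (by rwa [h6, ← e, hg])).elim
      · rw [← hg, e]
    have h10 := Q.card_eq_multiplicity
    rw [h8, ← P.card_mul_index, hn, h, Nat.factorization_mul (pow_ne_zero _ hp.out.ne_zero)
      (pow_ne_zero _ hq.out.ne_zero)] at h10
    rw [h]; simpa [hp.out.factorization_pow, hq.out.factorization_pow, hpq] using h10.symm
  refine ⟨n, Nat.pos_of_ne_zero fun e => hP0 (card_eq_one.mp (by simpa [e] using hn)),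
    by rw [← P.card_mul_index, hn, h9], fun T => h6 T ▸ ⟨inferInstance, inferInstance, h7⟩, ?_, h4⟩
  obtain ⟨x, hx⟩ := exists_prime_orderOf_dvd_card' q hq1
  have hx1 : x ≠ 1 := fun e => hq.out.one_lt.ne (by simpa [e] using hx)
  have hxP : x ∉ P := fun h => hpq ((h5 hp.out hP x h hx1).symm.trans hx)
  letI : CommGroup P := IsMulCommutative.instCommGroup
  haveI := P.nontrivial_iff_ne_bot.mpr hP0
  let T : MulAut P := MulAut.conjNormal x
  have h10 : ∀ (σ : MulAut G) (k : ℕ), ∀ u ∈ P, σ x = x ^ k * u →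
      ∀ v, MulAut.characteristic P σ (T v) = (T ^ k) (MulAut.characteristic P σ v) := fun σ k u hu h v => by
    rw [← map_pow]
    refine Subtype.ext (show σ (x * v * x⁻¹) = x ^ k * σ v * (x ^ k)⁻¹ from ?_)
    have : u * σ v = σ v * u :=
      congrArg Subtype.val (mul_comm (⟨u, hu⟩ : P) (MulAut.characteristic P σ v))
    rw [map_mul, map_mul, map_inv, h, mul_assoc _ u, this]; group
  refine orderOf_eq' hpq (T := T) (fun g => Subtype.ext (h7 _ g.2)) (by
    rw [← map_pow, ← hx, pow_orderOf_eq_one, map_one]) (fun v hv => ?_) (fun v w hv hw => ?_) fun k hk => ?_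
  · by_contra h
    exact h4 x v hx (h5 hp.out hP _ v.2 fun e => h (Subtype.ext e)) (congrArg Subtype.val hv)
  · obtain ⟨σ, h⟩ := h2 v w (by
      rw [h5 hp.out hP _ v.2 fun e => hv (Subtype.ext e), h5 hp.out hP _ w.2 fun e => hw (Subtype.ext e)])
    obtain ⟨k, u, hu, e⟩ := exists_pow hq.out h9 hxP (σ x)
    exact ⟨_, k, Subtype.ext h, h10 σ k u hu e⟩
  · obtain ⟨σ, h⟩ := h2 x (x ^ k) (Nat.Coprime.orderOf_pow (hx ▸ (Nat.coprime_of_lt_prime
      (by have := (Finset.mem_Ico.mp hk).1; omega) (Finset.mem_Ico.mp hk).2 hq.out))).symm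
    exact ⟨_, h10 σ k 1 (one_mem _) (by rw [h, mul_one])⟩

theorem bwd [hp : Fact p.Prime] [hq : Fact q.Prime] (hpq : p ≠ q) {P : Subgroup G} [P.Normal]
    (hP : IsElementaryAbelian p P) (h1 : P.index = q) (h2 : orderOf (p : ZMod q) = q - 1)
    (h3 : ∀ x y : G, orderOf x = q → orderOf y = p → x * y * x⁻¹ ≠ y) {x y : G} (hx : orderOf x = q)
    (hy : orderOf y = q) {v w : P} (hv : v ≠ 1) (hw : w ≠ 1) : ∃ σ : MulAut G, σ x = y ∧ σ v = w := by
  haveI := hP.1
  letI : CommGroup P := IsMulCommutative.instCommGroup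
  have h4 : ∀ x : G, orderOf x = q → x ∉ P ∧ MulAut.conjNormal (H := P) x ^ q = 1 ∧
      ∀ v, MulAut.conjNormal (H := P) x v = v → v = 1 := fun x hx => by
    refine ⟨fun h => hpq ((Nat.prime_dvd_prime_iff_eq hq.out hp.out).mp
      (hx ▸ orderOf_dvd_of_pow_eq_one (hP.2 x h))).symm, by
        rw [← map_pow, ← hx, pow_orderOf_eq_one, map_one], fun v hv => ?_⟩
    by_contra h
    exact h3 x v hx (orderOf_eq_prime (hP.2 _ v.2) fun e => h (Subtype.ext e)) (congrArg Subtype.val hv)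
  obtain ⟨τ, h5, h6⟩ := exists_intertw' hpq (fun g => Subtype.ext (hP.2 _ g.2)) h2 (h4 x hx).2.1
    (h4 x hx).2.2 (h4 y hy).2.1 (h4 y hy).2.2 hv hw
  have hxy : orderOf (⟨x, mem_zpowers x⟩ : zpowers x) = orderOf (⟨y, mem_zpowers y⟩ : zpowers y) := by
    rw [← orderOf_coe, ← orderOf_coe, hx, hy]
  have h7 : ∀ (x : G) (g : zpowers x), g ∈ zpowers (⟨x, mem_zpowers x⟩ : zpowers x) :=
    fun x ⟨_, k, rfl⟩ => ⟨k, rfl⟩
  let e := mulEquivOfOrderOfEq (h7 x) (h7 y) hxy
  let e1 := SemidirectProduct.mulEquivSubgroup (isCompl hq.out h1 (h4 x hx).1 hx)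
  let e2 := SemidirectProduct.mulEquivSubgroup (isCompl hq.out h1 (h4 y hy).1 hy)
  refine ⟨e1.symm.trans ((SemidirectProduct.congr τ e ?_).trans e2), ?_, ?_⟩
  · rintro ⟨_, k, rfl⟩
    have h8 : e ⟨x ^ k, k, rfl⟩ = ⟨y ^ k, k, rfl⟩ :=
      (map_zpow e ⟨x, mem_zpowers x⟩ k).trans (congrArg (· ^ k) (mulEquivOfOrderOfEq_apply_gen _ _ _))
    rw [h8]
    have h9 : ∀ x : G, MulAut.conjNormal (H := P) (x ^ k) = MulAut.conjNormal x ^ k := fun x => map_zpow _ _ _
    have h10 : SemiconjBy τ (MulAut.conjNormal x) (MulAut.conjNormal y) := MulEquiv.ext h5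
    have h11 := (h10.zpow_right k).eq
    rw [← h9, ← h9] at h11
    exact h11
  · rw [MulEquiv.trans_apply, show e1.symm x = .inr ⟨x, mem_zpowers x⟩ from e1.symm_apply_eq.mpr (by simp [e1])]
    simp [e2, e]
  · rw [MulEquiv.trans_apply, show e1.symm v = .inl v from e1.symm_apply_eq.mpr (by simp [e1])]
    simp [e2, h6]

/-- Let G be a finite group whose order is not a prime power. Then the automorphism group of G has exactly three orbits on G if and only if there are distinct primes p, q with #G = pⁿ·q (n ≥ 1) such that G has a normal elementary abelian Sylow p-subgroup P, p is a primitive root modulo q (the multiplicative order of p mod q is q − 1), and every element of order q of G acts on P without non-identity fixed points. -/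
theorem result {G : Type*} [Group G] [Finite G] (hnpp : ¬ IsPrimePow (Nat.card G)) (hnt : Nat.card G ≠ 1) :
    Nat.card (MulAction.orbitRel.Quotient (MulAut G) G) = 3 ↔
    ∃ (p q n : ℕ) (_ : Fact p.Prime) (_ : Fact q.Prime), p ≠ q ∧ 1 ≤ n ∧ Nat.card G = p ^ n * q ∧
      (∀ P : Sylow p G, (P : Subgroup G).Normal ∧ Cfsg.IsElementaryAbelian p (P : Subgroup G)) ∧
      orderOf (p : ZMod q) = q - 1 ∧
      ∀ x y : G, orderOf x = q → orderOf y = p → x * y * x⁻¹ ≠ y := by
  classical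
  haveI := Fintype.ofFinite (MulAction.orbitRel.Quotient (MulAut G) G)
  let f : MulAction.orbitRel.Quotient (MulAut G) G → ℕ :=
    Quotient.lift orderOf (by rintro _ b ⟨σ, rfl⟩; exact σ.orderOf_eq b)
  have hf : ∀ g : G, orderOf g ∈ Finset.univ.image f := fun g =>
    Finset.mem_image_of_mem f (Finset.mem_univ ⟦g⟧)
  have h3 : ∀ {p q : ℕ}, p.Prime → q.Prime → p ≠ q → ({1, p, q} : Finset ℕ).card = 3 := fun hp hq h =>
    Finset.card_eq_three.mpr ⟨_, _, _, hp.one_lt.ne, hq.one_lt.ne, h, rfl⟩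
  have h4 : ∀ {p q : ℕ}, p.Prime → q.Prime → p ∣ Nat.card G → q ∣ Nat.card G →
      {1, p, q} ⊆ Finset.univ.image f := fun hp hq h h' => by
    haveI := Fact.mk hp
    haveI := Fact.mk hq
    obtain ⟨a, rfl⟩ := exists_prime_orderOf_dvd_card' _ h
    obtain ⟨b, rfl⟩ := exists_prime_orderOf_dvd_card' _ h'
    simp only [Finset.insert_subset_iff, Finset.singleton_subset_iff]
    exact ⟨orderOf_one (G := G) ▸ hf 1, hf a, hf b⟩
  rw [Nat.card_eq_fintype_card, ← Finset.card_univ]
  constructor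
  · intro h
    obtain ⟨p, hp, hp1⟩ := Nat.exists_prime_and_dvd hnt
    obtain ⟨q, hq, hq1, hpq⟩ : ∃ q : ℕ, q.Prime ∧ q ∣ Nat.card G ∧ q ≠ p := by
      by_contra! h
      have := Nat.eq_prime_pow_of_unique_prime_dvd Nat.card_pos.ne' fun hq h' => h _ hq h'
      exact hnpp ⟨p, _, hp.prime, Nat.pos_of_ne_zero fun e => hnt (by rw [this, e, pow_zero]), this.symm⟩
    have h5 := Finset.eq_of_subset_of_card_le (h4 hp hq hp1 hq1)
      (Finset.card_image_le.trans (by rw [h, h3 hp hq hpq.symm]))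
    have h6 := Finset.card_image_iff.mp (h5 ▸ (h3 hp hq hpq.symm).trans h.symm)
    have h1 : ∀ g : G, g = 1 ∨ orderOf g = p ∨ orderOf g = q := fun g => by simpa [← h5] using hf g
    have h2 : ∀ g h : G, orderOf g = orderOf h → ∃ σ : MulAut G, σ g = h := fun g h e =>
      Quotient.exact (h6 (Finset.mem_univ ⟦h⟧) (Finset.mem_univ ⟦g⟧) e.symm)
    have h7 : ∀ r : ℕ, r.Prime → r ∣ Nat.card G → r = p ∨ r = q := fun r hr h => by
      have := h5 ▸ h4 hr hr h h (show r ∈ _ by simp)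
      simpa [hr.one_lt.ne'] using this
    haveI := Fact.mk hp
    haveI := Fact.mk hq
    haveI := Finite.one_lt_card_iff_nontrivial.mp (lt_of_le_of_ne (Nat.card_pos (α := G)) hnt.symm)
    obtain ⟨r, hr, h8⟩ := H1.exists_pCore_ne_bot (H4.burnside_pq hp hq (G := G)
      (a := (Nat.card G).factorization p) (b := (Nat.card G).factorization q) (by
        refine Nat.eq_of_factorization_eq Nat.card_pos.ne' (by simp [hp.ne_zero, hq.ne_zero]) fun r => ?_
        by_cases h9 : r.Prime ∧ r ∣ Nat.card G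
        · rcases h7 r h9.1 h9.2 with rfl | rfl <;>
            simp [Nat.factorization_mul, hp.ne_zero, hq.ne_zero, hp.factorization_pow, hq.factorization_pow,
              hpq, hpq.symm]
        · have h10 : p ≠ r := by rintro rfl; exact h9 ⟨hp, hp1⟩
          have h11 : q ≠ r := by rintro rfl; exact h9 ⟨hq, hq1⟩
          rw [(Nat.factorization_eq_zero_iff _ _).mpr (by tauto)]
          simp [Nat.factorization_mul, hp.ne_zero, hq.ne_zero, hp.factorization_pow, hq.factorization_pow,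
            h10, h11]))
    haveI := Fact.mk hr
    rcases h7 r hr (((H1.isPGroup_pCore r G).card_eq_or_dvd.resolve_left
      (mt card_eq_one.mp h8)).trans (card_subgroup_dvd_card _)) with rfl | rfl
    · obtain ⟨n, hn⟩ := fwd hpq.symm hq1 h1 h2 h8
      exact ⟨r, q, n, ‹_›, ‹_›, hpq.symm, hn⟩
    · obtain ⟨n, hn⟩ := fwd hpq hp1 (fun g => by have := h1 g; tauto) h2 h8
      exact ⟨r, p, n, ‹_›, ‹_›, hpq, hn⟩
  · rintro ⟨p, q, n, hp, hq, hpq, hn, h1, h2, h5, h6⟩
    obtain ⟨P⟩ : Nonempty (Sylow p G) := inferInstance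
    obtain ⟨_, hP⟩ := h2 P
    have hd : ¬ q ∣ p := mt (Nat.prime_dvd_prime_iff_eq hq.out hp.out).mp hpq.symm
    have h7 : Nat.card P = p ^ n := by
      rw [P.card_eq_multiplicity, h1, Nat.factorization_mul (pow_ne_zero _ hp.out.ne_zero) hq.out.ne_zero]
      simp [hp.out.factorization_pow, hq.out.factorization, hpq.symm]
    have h8 : (P : Subgroup G).index = q := Nat.eq_of_mul_eq_mul_left (pow_pos hp.out.pos n) (by
      rw [← h1, ← h7, card_mul_index])
    have h9 : ∀ g ∉ P, orderOf g = q := fun g hg => by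
      have h10 := (P : Subgroup G).pow_index_mem g
      refine orderOf_eq_prime (by_contra fun h => h6 (g ^ p) (g ^ q) (orderOf_eq_prime
        (by rw [← pow_mul, mul_comm, pow_mul, hP.2 _ (h8 ▸ h10)]) fun e => hg ?_)
        (orderOf_eq_prime (hP.2 _ (h8 ▸ h10)) h) (by group)) fun e => hg (e ▸ one_mem _)
      obtain ⟨k, hk⟩ := exists_pow_eq_self_of_coprime (x := g) (n := q) (((Nat.coprime_primes hq.out
        hp.out).mpr hpq.symm).coprime_dvd_right (orderOf_dvd_of_pow_eq_one e))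
      exact hk ▸ pow_mem (h8 ▸ h10) k
    have h10 : ∀ g ∈ P, g ≠ 1 → orderOf g = p := fun g hg => orderOf_eq_prime (hP.2 g hg)
    obtain ⟨x, hx⟩ := exists_prime_orderOf_dvd_card' (G := G) q (h1 ▸ dvd_mul_left _ _)
    obtain ⟨v, hv⟩ := (P : Subgroup G).ne_bot_iff_exists_ne_one.mp (P.ne_bot_of_dvd_card
      (h1 ▸ (dvd_pow_self p (by omega)).mul_right _))
    have h11 : ∀ g : G, orderOf g ∈ ({1, p, q} : Finset ℕ) := fun g => by
      by_cases h : g ∈ P
      · by_cases h' : g = 1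
        · simp [h']
        · simp [h10 g h h']
      · simp [h9 g h]
    rw [← h3 hp.out hq.out hpq, (h4 hp.out hq.out (h1 ▸ (dvd_pow_self p (by omega)).mul_right _)
      (h1 ▸ dvd_mul_left _ _)).antisymm (Finset.image_subset_iff.mpr (by rintro ⟨g⟩ -; exact h11 g)),
      Finset.card_image_of_injective]
    rintro ⟨a⟩ ⟨b⟩ (e : orderOf a = orderOf b)
    refine Quotient.sound (show ∃ σ : MulAut G, σ b = a from ?_)
    by_cases hb : b = 1
    · exact ⟨1, by rw [hb, orderOf_one, orderOf_eq_one_iff] at e; simp [e, hb]⟩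
    have ha : a ≠ 1 := fun h => hb (by rwa [h, orderOf_one, eq_comm, orderOf_eq_one_iff] at e)
    by_cases h : b ∈ P
    · have h' : a ∈ P := by_contra fun h' => hpq (by rw [← h10 b h hb, ← e, h9 a h'])
      obtain ⟨σ, -, h⟩ := bwd hpq hP h8 h5 h6 hx hx (v := ⟨b, h⟩) (w := ⟨a, h'⟩)
        (fun e => hb (congrArg Subtype.val e)) fun e => ha (congrArg Subtype.val e)
      exact ⟨σ, h⟩
    · obtain ⟨σ, h, -⟩ := bwd hpq hP h8 h5 h6 (h9 b h) (e.trans (h9 b h)) hv hv
      exact ⟨σ, h⟩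

end Cfsg.Agent.S4081
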