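import Cfsg.Statements.S4082
import Cfsg.Agent.H6.PByC
import Cfsg.Agent.H25.Cyc
import Cfsg.Agent.H12.DicksonPSL
-- import your own Cfsg.Agent.* helpers here

set_option autoImplicit false
open Cfsg

namespace Cfsg.Agent.S4082

open Cfsg.Agent.H6 Subgroup Pointwise

theorem eq_one_of_sq {G : Type*} [Group G] {p : ℕ} [hp : Fact p.Prime] (hp2 : p ≠ 2)
    {Q : Subgroup G} (hQ : IsPGroup p Q) {q : G} (hq : q ∈ Q) (h : q * q = 1) : q = 1 := by
  obtain ⟨k, hk⟩ := hQ ⟨q, hq⟩
  have h1 : q ^ p ^ k = 1 := congrArg Subtype.val hk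
  have h2 : q ^ 2 = 1 := by rw [sq, h]
  have h3 := pow_gcd_eq_one.2 ⟨h1, h2⟩
  rwa [Nat.Coprime.pow_left k ((Nat.coprime_primes hp.out Nat.prime_two).2 hp2), pow_one] at h3

theorem key {G : Type*} [Group G] [Finite G] {p : ℕ} [hp : Fact p.Prime] (hp2 : p ≠ 2)
    (h : ∀ H : Subgroup G, (∀ S : Sylow p ↥H, (S : Subgroup ↥H).Normal) →
        (∀ (S : Sylow p ↥H) [(S : Subgroup ↥H).Normal], IsCyclic (↥H ⧸ (S : Subgroup ↥H))) →
        IsCyclic H ∨ (∃ n : ℕ, Nonempty (H ≃* DihedralGroup (p ^ n))))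
    {Q : Subgroup G} (hQ : IsPGroup p Q) {x : G} (hx : x ∈ normalizer (Q : Set G))
    (hc : x ∉ centralizer (Q : Set G)) : orderOf x = 2 ∧ ∀ q ∈ Q, x * q * x⁻¹ = q⁻¹ := by
  have hH := pbc_sup Q hQ hx
  have hxH : x ∈ Q ⊔ zpowers x := mem_sup_right (mem_zpowers x)
  rcases h _ hH.1 hH.2 with h1 | ⟨n, ⟨f⟩⟩
  · exact absurd (fun q hq => congrArg Subtype.val
      (mul_comm' (⟨q, mem_sup_left hq⟩ : ↥(Q ⊔ zpowers x)) ⟨x, hxH⟩)) hc
  have hr : ∀ q (hq : q ∈ Q), ∃ i, f ⟨q, mem_sup_left hq⟩ = DihedralGroup.r i := fun q hq => by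
    rcases e : f ⟨q, mem_sup_left hq⟩ with i | i
    · exact ⟨i, rfl⟩
    · exfalso
      have h1 : q = 1 := eq_one_of_sq hp2 hQ hq (congrArg Subtype.val (f.injective (a₁ :=
        ⟨q, mem_sup_left hq⟩ * ⟨q, mem_sup_left hq⟩) (a₂ := 1) (by
          rw [map_mul, e, map_one]; simp)))
      subst h1
      rw [show (⟨1, mem_sup_left hq⟩ : ↥(Q ⊔ zpowers x)) = 1 from rfl, map_one] at e
      cases e
  rcases e : f ⟨x, hxH⟩ with j | j
  · refine absurd (fun q hq => ?_) hc
    obtain ⟨i, hi⟩ := hr q hq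
    exact congrArg Subtype.val (f.injective (a₁ := ⟨q, mem_sup_left hq⟩ * ⟨x, hxH⟩)
      (a₂ := ⟨x, hxH⟩ * ⟨q, mem_sup_left hq⟩) (by
        rw [map_mul, map_mul, hi, e]; simp [add_comm]))
  refine ⟨?_, fun q hq => ?_⟩
  · rw [← orderOf_mk (ha := hxH), ← f.orderOf_eq, e, DihedralGroup.orderOf_sr]
  · obtain ⟨i, hi⟩ := hr q hq
    exact congrArg Subtype.val (f.injective
      (a₁ := ⟨x, hxH⟩ * ⟨q, mem_sup_left hq⟩ * (⟨x, hxH⟩ : ↥(Q ⊔ zpowers x))⁻¹)
      (a₂ := (⟨q, mem_sup_left hq⟩ : ↥(Q ⊔ zpowers x))⁻¹) (by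
        rw [map_mul, map_mul, map_inv, map_inv, hi, e]; simp))

theorem inverts_of {G : Type*} [Group G] {Q : Subgroup G}
    (h : ∀ x ∈ normalizer (Q : Set G), x ∉ centralizer (Q : Set G) → orderOf x = 2)
    {x : G} (hx : x ∈ normalizer (Q : Set G)) (hc : x ∉ centralizer (Q : Set G)) {c : G}
    (hcc : c ∈ centralizer (Q : Set G)) : x * c * x⁻¹ = c⁻¹ := by
  have h1 := h x hx hc
  have h2 := h (x * c) (mul_mem hx (centralizer_le_normalizer _ hcc))
    (fun h3 => hc ((mul_mem_cancel_right hcc).1 h3))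
  have h3 : x * x = 1 := by rw [← sq, ← h1, pow_orderOf_eq_one]
  have h4 : x * c * (x * c) = 1 := by rw [← sq, ← h2, pow_orderOf_eq_one]
  rw [← eq_inv_of_mul_eq_one_left h3, eq_inv_iff_mul_eq_one, mul_assoc, h4]

/-- The condition on an element of order `p`. -/
def Cond {G : Type*} [Group G] (z : G) : Prop :=
  (∀ a b, z * a = a * z → z * b = b * z → a * b = b * a) ∧
    ∀ x, x * z * x⁻¹ ∈ zpowers z → z * x ≠ x * z →
      x * x = 1 ∧ ∀ c, z * c = c * z → x * c * x⁻¹ = c⁻¹

theorem Cond.of_map {G : Type*} [Group G] {z : G} (e : G ≃* G) (h : Cond (e z)) : Cond z := by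
  have h0 : ∀ a, z * a = a * z ↔ e z * e a = e a * e z := fun a => by
    rw [← map_mul, ← map_mul, e.apply_eq_iff_eq]
  refine ⟨fun a b ha hb => e.injective ?_, fun x ⟨k, hk⟩ hx => ?_⟩
  · rw [map_mul, map_mul]; exact h.1 _ _ ((h0 a).1 ha) ((h0 b).1 hb)
  · obtain ⟨h1, h2⟩ := h.2 (e x) ⟨k, by
      simp only at hk ⊢
      rw [← map_zpow, hk, map_mul, map_mul, map_inv]⟩ (fun h => hx ((h0 x).2 h))
    refine ⟨e.injective (by rw [map_mul, h1, map_one]), fun c hc => e.injective ?_⟩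
    rw [map_mul, map_mul, map_inv, map_inv, h2 _ ((h0 c).1 hc)]

theorem mem_cent_zpowers {G : Type*} [Group G] {z a : G} :
    a ∈ centralizer (zpowers z : Set G) ↔ z * a = a * z :=
  ⟨fun h => h z (mem_zpowers z), fun h => by
    rintro _ ⟨k, rfl⟩
    exact (Commute.zpow_left h k)⟩


/-- Let p be an odd prime and G a finite group with Sylow p-subgroup P. Say that G has restricted p-by-cyclic subgroups when every subgroup H of G whose Sylow p-subgroup is normal in H with cyclic quotient is itself cyclic or dihedral of order 2pⁿ for some n. Then G has restricted p-by-cyclic subgroups if and only if P is cyclic and one of the following holds: (1) N_G(P) = C_G(P); or (2) N_G(P)/C_G(P) has order 2 and, for the subgroup Q of order p of P, the centralizer C_G(Q) is abelian and every element of N_G(Q) outside C_G(Q) is an involution inverting every element of C_G(Q). -/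
theorem result {G : Type*} [Group G] [Finite G] {p : ℕ}
    [Fact p.Prime] (hp : p ≠ 2) (P : Sylow p G) :
    (∀ H : Subgroup G, (∀ S : Sylow p ↥H, (S : Subgroup ↥H).Normal) →
        (∀ (S : Sylow p ↥H) [(S : Subgroup ↥H).Normal], IsCyclic (↥H ⧸ (S : Subgroup ↥H))) →
        IsCyclic H ∨ (∃ n : ℕ, Nonempty (H ≃* DihedralGroup (p ^ n)))) ↔
    (IsCyclic P ∧
      (Subgroup.normalizer ((P : Subgroup G) : Set G) = Subgroup.centralizer ((P : Subgroup G) : Set G) ∨
       ((Subgroup.centralizer ((P : Subgroup G) : Set G)).relIndex (Subgroup.normalizer ((P : Subgroup G) : Set G)) = 2 ∧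
        ∀ Q : Subgroup G, Q ≤ P → Nat.card Q = p →
          IsMulCommutative ↥(Subgroup.centralizer (Q : Set G)) ∧
          ∀ x : G, x ∈ Subgroup.normalizer (Q : Set G) → x ∉ Subgroup.centralizer (Q : Set G) →
            orderOf x = 2 ∧ ∀ c : G, c ∈ Subgroup.centralizer (Q : Set G) → x * c * x⁻¹ = c⁻¹))) := by
  rename_i hpp
  constructor
  · intro h
    have hP := pbc_of_normal (p := p) (⊤ : Subgroup (P : Subgroup G))
      (P.2.of_equiv topEquiv.symm) 1 (fun x => ⟨x, trivial, 0, by simp⟩)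
    refine ⟨?_, ?_⟩
    · rcases h P hP.1 hP.2 with h1 | ⟨n, ⟨e⟩⟩
      · exact h1
      obtain ⟨k, hk⟩ := P.2.exists_card_eq
      rw [Nat.card_congr e.toEquiv, DihedralGroup.nat_card] at hk
      exact absurd ((Nat.prime_dvd_prime_iff_eq Nat.prime_two hpp.out).1
        (Nat.prime_two.dvd_of_dvd_pow (Dvd.intro _ hk))).symm hp
    by_cases h1 : normalizer ((P : Subgroup G) : Set G) ≤ centralizer ((P : Subgroup G) : Set G)
    · exact Or.inl (le_antisymm h1 (centralizer_le_normalizer _))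
    right
    obtain ⟨x, hxN, hxC⟩ := SetLike.not_le_iff_exists.1 h1
    obtain ⟨-, hx⟩ := key hp h P.2 hxN hxC
    refine ⟨relIndex_eq_two_iff_exists_notMem_and.2 ⟨x, hxN, hxC, fun b hb => ?_⟩, fun Q hQP hQ => ?_⟩
    · by_cases hbC : b ∈ centralizer ((P : Subgroup G) : Set G)
      · exact Or.inr hbC
      left
      obtain ⟨-, hb'⟩ := key hp h P.2 hb hbC
      intro s hs
      have h2 := hb' _ (inv_mem hs)
      rw [← hx s hs] at h2
      rw [hx s hs, inv_inv] at h2
      have h3 := hx s hs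
      calc s * (b * x) = b * s⁻¹ * b⁻¹ * (b * x) := by rw [h2]
        _ = b * (x * s * x⁻¹) * b⁻¹ * (b * x) := by rw [h3]
        _ = _ := by group
    have hQp : IsPGroup p Q := P.2.to_le hQP
    have h2 : ∀ y ∈ normalizer (Q : Set G), y ∉ centralizer (Q : Set G) → orderOf y = 2 :=
      fun y hy hy' => (key hp h hQp hy hy').1
    refine ⟨?_, fun y hy hy' => ⟨h2 y hy hy', fun c hc => inverts_of h2 hy hy' hc⟩⟩
    have hxQ : x ∈ normalizer (Q : Set G) := mem_normalizer_fintype fun q hq => by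
      rw [hx q (hQP hq)]; exact inv_mem hq
    have hxC' : x ∉ centralizer (Q : Set G) := fun hc => by
      have : Q = ⊥ := eq_bot_iff.2 fun q hq => eq_one_of_sq hp hQp hq (by
        have h3 := hx q (hQP hq)
        rw [← hc q hq, mul_inv_cancel_right] at h3
        exact mul_eq_one_iff_eq_inv.2 h3)
      rw [this, card_bot] at hQ
      exact hpp.out.one_lt.ne hQ
    refine ⟨⟨fun a b => Subtype.ext ?_⟩⟩
    have h3 := inverts_of h2 hxQ hxC' (mul_mem a.2 b.2)
    have h4 := inverts_of h2 hxQ hxC' a.2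
    have h5 := inverts_of h2 hxQ hxC' b.2
    have : (a : G)⁻¹ * (b : G)⁻¹ = (a * b : G)⁻¹ := by rw [← h3, ← h4, ← h5]; group
    rw [← mul_inv_rev, inv_inj] at this
    exact this.symm
  · rintro ⟨hPc, h⟩ H hn hc
    obtain ⟨S⟩ : Nonempty (Sylow p H) := inferInstance
    have := hn S
    let S' := (S : Subgroup H).map H.subtype
    have eS : (S : Subgroup H) ≃* S' := equivMapOfInjective _ _ H.subtype_injective
    have hS' : IsPGroup p S' := S.2.map _
    have hS : IsCyclic (S : Subgroup H) := by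
      obtain ⟨Q, hQ⟩ := hS'.exists_le_sylow
      have : IsCyclic (Q : Subgroup G) := isCyclic_of_surjective _ (P.equiv Q).surjective
      have := isCyclic_of_le hQ
      exact isCyclic_of_surjective _ eS.symm.surjective
    by_cases hcen : (S : Subgroup H) ≤ center H
    · exact Or.inl (isCyclic_of_central_sylow S hS (hc S) hcen)
    right
    rcases h with h | ⟨-, h⟩
    · exfalso
      refine hcen fun s hs => Subgroup.mem_center_iff.2 fun g => ?_
      have h1 := MonoidHom.ker_transferSylow_disjoint P h.le S' hS'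
      have h2 : (g : G) * (s : G) * (g : G)⁻¹ * (s : G)⁻¹ = 1 := by
        refine disjoint_def.1 h1 ?_ ⟨g * s * g⁻¹ * s⁻¹, mul_mem (this.conj_mem s hs g) (inv_mem hs), rfl⟩
        rw [MonoidHom.mem_ker, map_mul, map_mul, map_mul, map_inv, map_inv,
          mul_comm' (MonoidHom.transferSylow P h.le g)]
        group
      exact Subtype.ext (mul_inv_eq_iff_eq_mul.1 (mul_inv_eq_one.1 h2))
    have hC : ∀ z : G, orderOf z = p → Cond z := fun z hz => by
      have h1 : IsPGroup p (zpowers z) := IsPGroup.of_card (n := 1) (by rw [Nat.card_zpowers, hz, pow_one])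
      obtain ⟨Q, hQ⟩ := h1.exists_le_sylow
      obtain ⟨g, rfl⟩ := MulAction.exists_smul_eq G P Q
      have h2 := hQ (mem_zpowers z)
      rw [Sylow.coe_subgroup_smul, mem_pointwise_smul_iff_inv_smul_mem] at h2
      refine Cond.of_map (MulAut.conj g)⁻¹ ?_
      set w := (MulAut.conj g)⁻¹ z
      obtain ⟨h3, h4⟩ := h (zpowers w) (zpowers_le.2 h2) (by
        rw [Nat.card_zpowers, MulEquiv.orderOf_eq, hz])
      refine ⟨fun a b ha hb => congrArg Subtype.val (mul_comm'
        (⟨a, mem_cent_zpowers.2 ha⟩ : centralizer (zpowers w : Set G)) ⟨b, mem_cent_zpowers.2 hb⟩),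
        fun x hx hx' => ?_⟩
      obtain ⟨h5, h6⟩ := h4 x (mem_normalizer_fintype (by
        rintro _ ⟨k, rfl⟩
        simp only
        rw [← conj_zpow]
        exact zpow_mem hx k)) (fun h => hx' (mem_cent_zpowers.1 h))
      exact ⟨by rw [← sq, ← h5, pow_orderOf_eq_one], fun c hc => h6 c (mem_cent_zpowers.2 hc)⟩
    obtain ⟨k, hk⟩ := S.2.exists_card_eq
    obtain ⟨z, hz⟩ : ∃ z : (S : Subgroup H), orderOf z = p := by
      refine exists_prime_orderOf_dvd_card' p ?_
      rcases k with _ | k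
      · exact absurd (by rw [eq_bot_of_card_eq _ hk]; exact bot_le) hcen
      · rw [hk]; exact Dvd.intro_left _ (pow_succ p k).symm
    obtain ⟨g, hg⟩ := exists_gen_mod _ (hc S)
    obtain ⟨a, ha⟩ := hS.exists_generator
    have hcz := hC ((z : H) : G) (by rw [orderOf_coe, orderOf_coe, hz])
    have hSz : ∀ s : (S : Subgroup H), ((z : H) : G) * ((s : H) : G) = ((s : H) : G) * ((z : H) : G) :=
      fun s => congrArg (fun t : (S : Subgroup H) => ((t : H) : G)) (mul_comm' z s)
    have hga : (a : H) * g ≠ g * a := fun e => hcen fun s hs => Subgroup.mem_center_iff.2 fun x => by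
      obtain ⟨n, hn, j, rfl⟩ := hg x
      obtain ⟨i, hi⟩ := ha ⟨s, hs⟩
      have h1 : Commute g s := by
        have : s = (a : H) ^ i := (congrArg Subtype.val hi).symm
        rw [this]
        exact (Commute.zpow_right e.symm i)
      have h2 : Commute n s := congrArg Subtype.val (mul_comm' (⟨n, hn⟩ : (S : Subgroup H)) ⟨s, hs⟩)
      exact h2.mul_left (h1.zpow_left j)
    have hgz : ((z : H) : G) * g ≠ g * ((z : H) : G) := fun e =>
      hga (Subtype.ext (hcz.1 _ _ (hSz a) e))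
    obtain ⟨h1, h2⟩ := hcz.2 g (by
      obtain ⟨j, hj⟩ := H25.mem_zpowers_of_orderOf_dvd_of_isCyclic (C := (S : Subgroup H)) z.2
        (this.conj_mem _ z.2 g) (by
          rw [show g * (z : H) * g⁻¹ = MulAut.conj g (z : H) from rfl, MulEquiv.orderOf_eq])
      exact ⟨j, congrArg Subtype.val hj⟩) hgz
    have hD : H12.IsDihedralPair (⊤ : Subgroup H) (a : H) g := by
      refine ⟨(eq_top_iff.2 fun x _ => ?_).symm, Subtype.ext h1, Subtype.ext (h2 _ (hSz a)), ?_⟩
      · obtain ⟨n, hn, j, rfl⟩ := hg x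
        obtain ⟨i, hi⟩ := ha ⟨n, hn⟩
        have : n = (a : H) ^ i := (congrArg Subtype.val hi).symm
        rw [this]
        exact mul_mem (zpow_mem (subset_closure (by simp)) _) (zpow_mem (subset_closure (by simp)) _)
      · rintro ⟨j, rfl⟩
        exact hga (Commute.self_zpow _ j)
    obtain ⟨e⟩ := hD.nonempty_equiv
    rw [orderOf_coe, orderOf_eq_card_of_forall_mem_zpowers ha, hk] at e
    exact ⟨k, ⟨topEquiv.symm.trans e⟩⟩

end Cfsg.Agent.S4082
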