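import Cfsg.Statements.S4083
import Cfsg.Agent.H6.PByC
import Cfsg.Agent.GW.Cor2
-- import your own Cfsg.Agent.* helpers here

set_option autoImplicit false
open Cfsg

namespace Cfsg.Agent.S4083

open Cfsg.Agent.H6 Cfsg.Agent.GW Subgroup Pointwise

theorem not_pgroup_of_dvd {Q : Type*} [Group Q] [Finite Q] (h : IsPGroup 2 Q) (h3 : 3 ∣ Nat.card Q) :
    False := by
  obtain ⟨k, hk⟩ := h.exists_card_eq
  rw [hk] at h3
  exact absurd (Nat.Prime.dvd_of_dvd_pow Nat.prime_three h3) (by decide)

theorem card_alt4 : Nat.card (alternatingGroup (Fin 4)) = 12 := by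
  rw [nat_card_alternatingGroup]; simp; rfl

theorem klein_conj_into {G : Type*} [Group G] [Finite G] (P : Sylow 2 G)
    (h : ∀ K : Subgroup G, K ≤ P → Nat.card K = 4 → (∀ k ∈ K, k ^ 2 = 1) →
      centralizer (K : Set G) = K) {V : Subgroup G} (hV : IsKleinFour V) :
    centralizer (V : Set G) ≤ V := by
  obtain ⟨Q, hQ⟩ := (H11.klein_isPGroup hV).exists_le_sylow
  obtain ⟨g, rfl⟩ := MulAction.exists_smul_eq G P Q
  have hV' := H11.isKleinFour_cj hV g⁻¹
  have h1 := h (H11.cj g⁻¹ V) (by
    rintro _ ⟨v, hv, rfl⟩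
    have := hQ hv
    rw [Sylow.coe_subgroup_smul, mem_pointwise_smul_iff_inv_smul_mem] at this
    simpa using this) hV'.card_four (fun k hk => by rw [sq]; exact H11.klein_sq hV' hk)
  intro x hx
  have h2 : g⁻¹ * x * g⁻¹⁻¹ ∈ centralizer (H11.cj g⁻¹ V : Set G) := by
    rintro _ ⟨v, hv, rfl⟩
    have := hx v hv
    simp only [MulEquiv.toMonoidHom_eq_coe, MonoidHom.coe_coe, MulAut.conj_apply, inv_inv]
    calc g⁻¹ * v * g * (g⁻¹ * x * g) = g⁻¹ * (v * x) * g := by group
      _ = _ := by rw [this]; group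
  rw [h1] at h2
  obtain ⟨v, hv, e⟩ := h2
  simp only [MulEquiv.toMonoidHom_eq_coe, MonoidHom.coe_coe, MulAut.conj_apply, inv_inv,
    mul_left_inj, mul_right_inj] at e
  exact e ▸ hv


/-- Let G be a finite group with Sylow 2-subgroup P. Every subgroup H of G whose Sylow 2-subgroup is normal in H with cyclic quotient is cyclic, dihedral of 2-power order, or isomorphic to the alternating group of degree 4, if and only if either P is cyclic, or P is dihedral (of order at least 4) and every elementary abelian subgroup K of order 4 of P satisfies C_G(K) = K. -/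
theorem result {G : Type*} [Group G] [Finite G] (P : Sylow 2 G) :
    (∀ H : Subgroup G, (∀ S : Sylow 2 ↥H, (S : Subgroup ↥H).Normal) →
        (∀ (S : Sylow 2 ↥H) [(S : Subgroup ↥H).Normal], IsCyclic (↥H ⧸ (S : Subgroup ↥H))) →
        IsCyclic H ∨ (∃ n : ℕ, Nonempty (H ≃* DihedralGroup (2 ^ n))) ∨ Nonempty (H ≃* alternatingGroup (Fin 4))) ↔
    (IsCyclic P ∨
      ((∃ n : ℕ, 1 ≤ n ∧ Nonempty ((P : Subgroup G) ≃* DihedralGroup (2 ^ n))) ∧
        ∀ K : Subgroup G, K ≤ P → Nat.card K = 4 → (∀ k ∈ K, k ^ 2 = 1) → Subgroup.centralizer (K : Set G) = K)) := by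
  constructor
  · intro h
    have hP := pbc_of_normal (p := 2) (⊤ : Subgroup (P : Subgroup G))
      (P.2.of_equiv topEquiv.symm) 1 (fun x => ⟨x, trivial, 0, by simp⟩)
    rcases h P hP.1 hP.2 with h1 | ⟨n, ⟨e⟩⟩ | ⟨⟨e⟩⟩
    · exact Or.inl h1
    swap
    · exact (not_pgroup_of_dvd P.2 (by rw [Nat.card_congr e.toEquiv, card_alt4]; decide)).elim
    rcases Nat.eq_zero_or_pos n with rfl | hn
    · left
      have : Fact (Nat.Prime 2) := ⟨Nat.prime_two⟩
      exact isCyclic_of_prime_card (p := 2) (by
        rw [Nat.card_congr e.toEquiv, DihedralGroup.nat_card]; rfl)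
    refine Or.inr ⟨⟨n, hn, ⟨e⟩⟩, fun K _ hK4 hK2 => ?_⟩
    have hK : IsKleinFour K := H11.isKleinFour_iff.2 ⟨hK4, fun x hx => by rw [← sq]; exact hK2 x hx⟩
    refine le_antisymm (fun g hg => ?_) fun x hx y hy => H11.klein_comm hK hy hx
    have hH := pbc_sup K (H11.klein_isPGroup hK) (centralizer_le_normalizer _ hg)
    have hKH : K ≤ K ⊔ zpowers g := le_sup_left
    have hK' := H11.isKleinFour_subgroupOf hK hKH
    have hg' : (⟨g, mem_sup_right (mem_zpowers g)⟩ : ↥(K ⊔ zpowers g)) ∈
        centralizer (K.subgroupOf (K ⊔ zpowers g) : Set ↥(K ⊔ zpowers g)) :=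
      fun y hy => Subtype.ext (hg y hy)
    rcases h _ hH.1 hH.2 with h1 | ⟨m, ⟨f⟩⟩ | ⟨⟨f⟩⟩
    · exact klein_not_cyclic hK' inferInstance |>.elim
    · have : NeZero (2 ^ m) := ⟨by positivity⟩
      have h2 : IsKleinFour ((K.subgroupOf (K ⊔ zpowers g)).map f.toMonoidHom) := by
        rw [H11.isKleinFour_iff]
        refine ⟨by rw [card_map_of_injective f.injective, hK'.card_four], ?_⟩
        rintro _ ⟨x, hx, rfl⟩
        rw [← map_mul, H11.klein_sq hK' hx, map_one]
      have h3 := H11.dihedral_klein_centralizer h2 (x := f ⟨g, mem_sup_right (mem_zpowers g)⟩) (by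
        rintro _ ⟨x, hx, rfl⟩
        exact (map_mul f _ _).symm.trans ((congrArg f (hg' x hx)).trans (map_mul f _ _)))
      obtain ⟨y, hy, e⟩ := h3
      have := f.injective e
      subst this
      exact hy
    · exfalso
      have hc : ∀ a ∈ K ⊔ zpowers g, ∀ b ∈ K ⊔ zpowers g, a * b = b * a := by
        have h1 : K ⊔ zpowers g ≤ centralizer (K : Set G) :=
          sup_le (fun x hx y hy => H11.klein_comm hK hy hx) (zpowers_le.2 hg)
        have h2 : K ⊔ zpowers g ≤ centralizer ({g} : Set G) :=
          sup_le (fun x hx => mem_centralizer_singleton_iff.2 (hg x hx))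
            (zpowers_le.2 (mem_centralizer_singleton_iff.2 rfl))
        intro a ha
        have h3 : K ⊔ zpowers g ≤ centralizer ({a} : Set G) :=
          sup_le (fun x hx => mem_centralizer_singleton_iff.2 (h1 ha x hx))
            (zpowers_le.2 (mem_centralizer_singleton_iff.2
              (mem_centralizer_singleton_iff.1 (h2 ha)).symm))
        exact fun b hb => (mem_centralizer_singleton_iff.1 (h3 hb)).symm
      have h4 : ∀ a b : alternatingGroup (Fin 4), a * b = b * a := fun a b => by
        obtain ⟨a, rfl⟩ := f.surjective a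
        obtain ⟨b, rfl⟩ := f.surjective b
        rw [← map_mul, ← map_mul]
        exact congrArg f (Subtype.ext (hc _ a.2 _ b.2))
      revert h4
      decide
  · intro h H hn hc
    obtain ⟨S⟩ : Nonempty (Sylow 2 H) := inferInstance
    have := hn S
    by_cases hS : IsCyclic (S : Subgroup H)
    · refine Or.inl (isCyclic_of_central_sylow S hS (hc S) ?_)
      by_cases h2 : 2 ∣ Nat.card H
      · have h3 := hS.normalizer_le_centralizer ((Nat.minFac_eq_two_iff _).2 h2)
        intro s hs
        rw [Subgroup.mem_center_iff]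
        intro g
        have h4 : g ∈ normalizer (S : Set H) := by
          rw [show normalizer (S : Set H) = ⊤ from normalizer_eq_top (S : Subgroup H)]; trivial
        exact (h3 h4 s hs).symm
      · have h3 : (S : Subgroup H) = ⊥ := by
          obtain ⟨k, hk⟩ := S.2.exists_card_eq
          rcases k with _ | k
          · exact eq_bot_of_card_eq _ hk
          · exact absurd ((Dvd.intro_left _ (pow_succ 2 k).symm).trans
              (hk ▸ card_subgroup_dvd_card _)) h2
        rw [h3]; exact bot_le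
    right
    let S' := (S : Subgroup H).map H.subtype
    have eS : (S : Subgroup H) ≃* S' := equivMapOfInjective _ _ H.subtype_injective
    have hS' : IsPGroup 2 S' := S.2.map _
    rcases h with h | ⟨⟨n, hn1, hPn⟩, h⟩
    · exfalso
      obtain ⟨Q, hQ⟩ := hS'.exists_le_sylow
      have : IsCyclic (Q : Subgroup G) := isCyclic_of_surjective _ (P.equiv Q).surjective
      have := isCyclic_of_le hQ
      exact hS (isCyclic_of_surjective _ eS.symm.surjective)
    have hds : DS G := ⟨P, 2 ^ n, Nat.le_self_pow (by omega) 2, hPn⟩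
    have hcen : ∀ V : Subgroup H, IsKleinFour V → centralizer (V : Set H) ≤ V := fun V hV x hx => by
      have := klein_conj_into P h (H11.isKleinFour_map_subtype hV) (x := (x : G)) (by
        rintro _ ⟨v, hv, rfl⟩
        exact congrArg Subtype.val (hx v hv))
      obtain ⟨v, hv, e⟩ := this
      exact (Subtype.ext e : v = x) ▸ hv
    rcases hds.cd.cases' le_top hS' with h1 | ⟨m, hm, ⟨f⟩⟩
    · exact absurd (isCyclic_of_surjective _ eS.symm.surjective) hS
    have htop : IsPGroup 2 H → ∃ n : ℕ, Nonempty (H ≃* DihedralGroup (2 ^ n)) := fun h2 => by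
      have h3 : (S : Subgroup H) = ⊤ := (S.3 (h2.to_subgroup ⊤) le_top).symm
      obtain ⟨k, hk⟩ := hS'.exists_card_eq
      rw [Nat.card_congr f.toEquiv, DihedralGroup.nat_card] at hk
      obtain ⟨j, -, rfl⟩ := (Nat.dvd_prime_pow Nat.prime_two).1 (Dvd.intro_left _ hk)
      exact ⟨j, ⟨(topEquiv.symm.trans (MulEquiv.subgroupCongr h3.symm)).trans (eS.trans f)⟩⟩
    by_cases hK : IsKleinFour (S : Subgroup H)
    · rcases klein_cases hK (hcen _ hK) with h2 | h2 | ⟨⟨e⟩⟩
      · exact Or.inl (htop h2)
      · exact Or.inr h2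
      · exfalso
        have h3 := (S : Subgroup H).card_mul_index
        have h4 := S.not_dvd_index
        rw [hK.card_four, Nat.card_congr e.toEquiv, Nat.card_perm] at h3
        simp [Nat.factorial] at h3
        omega
    refine Or.inl (htop ?_)
    obtain ⟨V, hVS, hV⟩ := DS.exists_klein_le ⟨S, m, hm, ⟨eS.trans f⟩⟩ S
    intro x
    obtain ⟨k, hk⟩ := H11.exists_pow_odd_part x
    refine ⟨k, ?_⟩
    rcases H26.odd_cent_of_dihedral S.2 hm (eS.trans f) le_rfl (g := x ^ 2 ^ k)
      (by rw [normalizer_eq_top]; trivial) hk with h2 | h2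
    · have h3 := hcen V hV (centralizer_le hVS h2)
      by_contra h4
      rw [H11.klein_orderOf hV h3 h4] at hk
      exact absurd hk (by decide)
    · exact absurd h2 hK

end Cfsg.Agent.S4083
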