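import Cfsg.Statements.S4085
import Cfsg.Agent.H21.Base5
import Cfsg.Agent.H25.Cyc

set_option autoImplicit false
open Cfsg

namespace Cfsg.Agent.S4085

open Subgroup Cfsg.Agent.H20 Cfsg.Agent.H21 Cfsg.Agent.H25

/-- adjacency in the power graph (with loops) -/
def Cm {G : Type*} [Group G] (x y : G) : Prop := x ∈ zpowers y ∨ y ∈ zpowers x

section
variable {G H : Type*} [Group G] [Finite G] [Group H] [Finite H]

theorem card_gens (a : G) :
    Nat.card {y : G // y ∈ zpowers a ∧ orderOf y = orderOf a} = Nat.totient (orderOf a) := by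
  classical
  haveI : Fintype (zpowers a) := Fintype.ofFinite _
  have := IsCyclic.card_orderOf_eq_totient (α := zpowers a) (d := orderOf a)
    (by rw [← Nat.card_eq_fintype_card, Nat.card_zpowers])
  rw [← this, ← Fintype.card_subtype, ← Nat.card_eq_fintype_card]
  exact Nat.card_congr
    { toFun := fun y => ⟨⟨y.1, y.2.1⟩, by rw [← Subgroup.orderOf_coe]; exact y.2.2⟩
      invFun := fun y => ⟨y.1.1, y.1.2, by rw [Subgroup.orderOf_coe]; exact y.2⟩
      left_inv := fun _ => rfl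
      right_inv := fun _ => rfl }

theorem zp_eq {a y : G} (h : y ∈ zpowers a) (ho : orderOf a ≤ orderOf y) : zpowers y = zpowers a :=
  eq_of_le_card (zpowers_le.mpr h) (by rwa [Nat.card_zpowers, Nat.card_zpowers])

theorem cm_congr {a y : G} (h : zpowers y = zpowers a) (z : G) : Cm y z ↔ Cm a z := by
  unfold Cm
  rw [← zpowers_le, ← zpowers_le (g := a), h]

theorem cm_iff {x y z : G} (hy : y ∈ zpowers x) (hz : z ∈ zpowers x) :
    Cm y z ↔ orderOf y ∣ orderOf z ∨ orderOf z ∣ orderOf y :=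
  or_congr ⟨orderOf_dvd_of_mem_zpowers, mem_zpowers_of_orderOf_dvd_of_isCyclic hz hy⟩
    ⟨orderOf_dvd_of_mem_zpowers, mem_zpowers_of_orderOf_dvd_of_isCyclic hy hz⟩

theorem ex_ord (x : G) {d : ℕ} (h : d ∣ orderOf x) : ∃ y ∈ zpowers x, orderOf y = d :=
  ⟨x ^ (orderOf x / d), npow_mem_zpowers _ _, orderOf_pow_orderOf_div (orderOf_pos x).ne' h⟩

theorem main (e : G ≃ H) (he : ∀ x y, Cm x y ↔ Cm (e x) (e y)) (he1 : e 1 = 1) {p q : ℕ}
    (hp : p.Prime) (hq : q.Prime) (hpq : p ≠ q) {g : G} (hg : orderOf g = p * q) :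
    ∃ h : H, orderOf h = p * q := by
  classical
  obtain ⟨x0, hx0, hm0⟩ := Set.exists_max_image {x : G | g ∈ zpowers x} orderOf (Set.toFinite _)
    ⟨g, mem_zpowers g⟩
  obtain ⟨x, ⟨hx1, hx2⟩, hm⟩ := Set.exists_max_image
    {x : G | x ∈ zpowers x0 ∧ orderOf x = orderOf x0} (fun x => orderOf (e x)) (Set.toFinite _)
    ⟨x0, mem_zpowers x0, rfl⟩
  have hxx := zp_eq hx1 hx2.ge
  have hgx : g ∈ zpowers x := hxx ▸ hx0
  have hN : ∀ y, Cm y x → y ∈ zpowers x := by
    rintro y (h | h)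
    · exact h
    · have := zp_eq h (hx2 ▸ hm0 y (zpowers_le.mpr h hgx))
      exact this ▸ mem_zpowers y
  have hgen : ∀ y ∈ zpowers x, orderOf y = orderOf x → e y ∈ zpowers (e x) := by
    intro y hy ho
    rcases (he y x).mp (Or.inl hy) with h | h
    · exact h
    · have := zp_eq h (hm y ⟨hxx ▸ hy, ho.trans hx2⟩)
      exact this ▸ mem_zpowers _
  have hn : p * q ∣ orderOf x := hg ▸ orderOf_dvd_of_mem_zpowers hgx
  have step : ∀ y ∈ zpowers x, ∀ z ∈ zpowers x, ¬ orderOf y ∣ orderOf z → ¬ orderOf z ∣ orderOf y →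
      (e y ∈ zpowers (e x) ↔ e z ∈ zpowers (e x)) := by
    have : ∀ y ∈ zpowers x, ∀ z ∈ zpowers x, ¬ orderOf y ∣ orderOf z → ¬ orderOf z ∣ orderOf y →
        e y ∈ zpowers (e x) → e z ∈ zpowers (e x) := by
      intro y hy z hz h1 h2 h3
      rcases (he z x).mp (Or.inl hz) with h | h
      · exact h
      · exact absurd ((cm_iff hy hz).mp ((he y z).mpr (Or.inl (zpowers_le.mpr h h3))))
          (not_or.mpr ⟨h1, h2⟩)
    exact fun y hy z hz h1 h2 => ⟨this y hy z hz h1 h2, this z hz y hy h2 h1⟩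
  obtain ⟨a, ha, hao⟩ := ex_ord x ((dvd_mul_right p q).trans hn)
  obtain ⟨b, hb, hbo⟩ := ex_ord x ((dvd_mul_left q p).trans hn)
  have npp : ∀ {s t : ℕ}, s.Prime → t.Prime → s ≠ t → ¬ s ∣ t := fun hs ht h h' =>
    h ((Nat.prime_dvd_prime_iff_eq hs ht).mp h')
  have hab : e a ∈ zpowers (e x) ↔ e b ∈ zpowers (e x) :=
    step a ha b hb (by rw [hao, hbo]; exact npp hp hq hpq) (by rw [hao, hbo]; exact npp hq hp hpq.symm)
  have hpr : ∀ y ∈ zpowers x, (orderOf y).Prime → (e y ∈ zpowers (e x) ↔ e a ∈ zpowers (e x)) := by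
    intro y hy ho
    by_cases h : orderOf y = p
    · rw [hab]
      exact step y hy b hb (by rw [h, hbo]; exact npp hp hq hpq) (by rw [h, hbo]; exact npp hq hp hpq.symm)
    · exact step y hy a ha (by rw [hao]; exact npp ho hp h) (by rw [hao]; exact npp hp ho (Ne.symm h))
  have miss : ∀ y ∈ zpowers x, y ≠ 1 → ∀ s : ℕ, s.Prime → s ∣ orderOf x → ¬ s ∣ orderOf y →
      (e y ∈ zpowers (e x) ↔ e a ∈ zpowers (e x)) := by
    intro y hy hy1 s hs h1 h2
    obtain ⟨c, hc, hco⟩ := ex_ord x h1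
    rw [← hpr c hc (hco ▸ hs)]
    refine step y hy c hc (fun h => ?_) (by rwa [hco])
    rw [hco] at h
    rcases (Nat.dvd_prime hs).mp h with h | h
    · exact hy1 (orderOf_eq_one_iff.mp h)
    · exact h2 h.symm.dvd
  have conn : ∀ y ∈ zpowers x, y ≠ 1 → orderOf y ≠ orderOf x →
      (e y ∈ zpowers (e x) ↔ e a ∈ zpowers (e x)) := by
    intro y hy hy1 ho
    by_cases h : ∃ s : ℕ, s.Prime ∧ s ∣ orderOf x ∧ ¬ s ∣ orderOf y
    · obtain ⟨s, hs, h1, h2⟩ := h
      exact miss y hy hy1 s hs h1 h2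
    push Not at h
    have h0 : ¬ orderOf x ∣ orderOf y := fun h' =>
      ho (Nat.dvd_antisymm (orderOf_dvd_of_mem_zpowers hy) h')
    rw [Nat.dvd_iff_prime_pow_dvd_dvd] at h0
    push Not at h0
    obtain ⟨s, k, hs, h1, h2⟩ := h0
    obtain ⟨c, hc, hco⟩ := ex_ord x h1
    obtain ⟨t, ht, htn, hts⟩ : ∃ t : ℕ, t.Prime ∧ t ∣ orderOf x ∧ t ≠ s := by
      by_cases hs' : p = s
      · exact ⟨q, hq, (dvd_mul_left q p).trans hn, fun h => hpq (hs'.trans h.symm)⟩
      · exact ⟨p, hp, (dvd_mul_right p q).trans hn, hs'⟩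
    have h3 : ¬ t ∣ orderOf c := fun h' => npp ht hs hts (ht.dvd_of_dvd_pow (hco ▸ h'))
    have hc1 : c ≠ 1 := fun h' => h2 (by rw [← hco, h', orderOf_one]; exact one_dvd _)
    rw [← miss c hc hc1 t ht htn h3]
    exact step y hy c hc (fun h' => h3 ((h t ht htn).trans h')) (by rwa [hco])
  have back : ∀ w ∈ zpowers (e x), e.symm w ∈ zpowers x := fun w hw =>
    hN _ ((he _ _).mpr (Or.inl (by simpa using hw)))
  by_cases hA : e a ∈ zpowers (e x)
  · have h1 : ∀ y ∈ zpowers x, e y ∈ zpowers (e x) := by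
      intro y hy
      by_cases h : y = 1
      · rw [h, he1]; exact one_mem _
      by_cases h' : orderOf y = orderOf x
      · exact hgen y hy h'
      · exact (conn y hy h h').mpr hA
    have h2 : orderOf x = orderOf (e x) := by
      rw [← Nat.card_zpowers, ← Nat.card_zpowers]
      exact Nat.card_congr (e.subtypeEquiv fun y => ⟨h1 y, fun h => by simpa using back _ h⟩)
    obtain ⟨h, -, hh⟩ := ex_ord (e x) (h2 ▸ hn)
    exact ⟨h, hh⟩
  exfalso
  have hx1' : e x ≠ 1 := fun h => by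
    rw [← he1, e.apply_eq_iff_eq] at h
    rw [h, orderOf_one] at hn
    exact hp.one_lt.ne' (Nat.dvd_one.mp ((dvd_mul_right p q).trans hn))
  -- `e x` has prime power order
  have hpp : IsPrimePow (orderOf (e x)) := by
    rw [isPrimePow_iff_unique_prime_dvd]
    obtain ⟨r, hr, hr'⟩ := Nat.exists_prime_and_dvd (fun h => hx1' (orderOf_eq_one_iff.mp h))
    refine ⟨r, ⟨hr, hr'⟩, fun s ⟨hs, hs'⟩ => ?_⟩
    by_contra hne
    obtain ⟨u, hu, huo⟩ := ex_ord (e x) hr'
    obtain ⟨v, hv, hvo⟩ := ex_ord (e x) hs'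
    have h1 : ¬ Cm (e.symm u) (e.symm v) := by
      rw [he, e.apply_symm_apply, e.apply_symm_apply, cm_iff hu hv, huo, hvo]
      exact not_or.mpr ⟨npp hr hs (Ne.symm hne), npp hs hr hne⟩
    rw [cm_iff (back u hu) (back v hv), not_or] at h1
    refine hA ((conn _ (back u hu) (fun h => h1.1 (by rw [h, orderOf_one]; exact one_dvd _))
      (fun h => h1.2 (h ▸ orderOf_dvd_of_mem_zpowers (back v hv)))).mp (by simpa using hu))
  have t1 : Nat.totient (orderOf x) + 1 ≤ orderOf (e x) := by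
    rw [← card_gens, ← Nat.card_zpowers (e x)]
    have := Nat.card_le_card_of_injective (α := Option {y : G // y ∈ zpowers x ∧ orderOf y = orderOf x})
      (β := zpowers (e x)) (fun o => o.elim 1 fun y => ⟨e y.1, hgen _ y.2.1 y.2.2⟩) (by
        have hne : ∀ y : {y : G // y ∈ zpowers x ∧ orderOf y = orderOf x}, e y.1 ≠ 1 := by
          intro y h
          rw [← he1, e.apply_eq_iff_eq] at h
          have := y.2.2
          rw [h, orderOf_one] at this
          rw [orderOf_eq_one_iff.mp this.symm, he1] at hx1'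
          exact hx1' rfl
        rintro (_ | u) (_ | v) h
        · rfl
        · exact absurd (congrArg Subtype.val h).symm (hne v)
        · exact absurd (congrArg Subtype.val h) (hne u)
        · exact congrArg some (Subtype.ext (e.injective (congrArg Subtype.val h))))
    simpa using this
  have t2 : ∀ {p q : ℕ}, p.Prime → q.Prime → p ≠ q → orderOf g = p * q → ∀ a ∈ zpowers x,
      ∀ b ∈ zpowers x, orderOf a = p → orderOf b = q → e a ∉ zpowers (e x) →
      Nat.totient (orderOf (e x)) ≤ p - 1 := by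
    intro p q hp hq hpq hg a ha b hb hao hbo hA
    have h1 : e x ∈ zpowers (e a) := ((he a x).mp (Or.inl ha)).resolve_left hA
    refine (Nat.le_of_dvd (Nat.totient_pos.mpr (orderOf_pos _))
      (Nat.totient_dvd_of_dvd (orderOf_dvd_of_mem_zpowers h1))).trans ?_
    rw [← card_gens, ← Nat.totient_prime hp, ← hao, ← card_gens]
    have key : ∀ w : {y : H // y ∈ zpowers (e a) ∧ orderOf y = orderOf (e a)},
        e.symm w.1 ∈ zpowers a ∧ orderOf (e.symm w.1) = orderOf a := by
      intro w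
      have tw : ∀ z, Cm (e.symm w.1) z ↔ Cm a z := fun z => by
        rw [he, he a, e.apply_symm_apply]
        exact cm_congr (zp_eq w.2.1 w.2.2.ge) _
      have hw : e.symm w.1 ∈ zpowers x := hN _ ((tw x).mpr (Or.inl ha))
      have k1 := tw b
      have k2 := tw g
      rw [cm_iff hw hb, cm_iff ha hb, hao, hbo] at k1
      rw [cm_iff hw hgx, cm_iff ha hgx, hao, hg] at k2
      have k3 := mt k1.mp (not_or.mpr ⟨npp hp hq hpq, npp hq hp hpq.symm⟩)
      rw [not_or] at k3
      have k4 := (k2.mpr (Or.inl (dvd_mul_right p q))).resolve_right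
        fun h => k3.2 ((dvd_mul_left q p).trans h)
      have k5 : orderOf (e.symm w.1) ∣ p :=
        ((hq.coprime_iff_not_dvd.mpr k3.2).symm).dvd_of_dvd_mul_right k4
      have k6 : orderOf (e.symm w.1) = p := ((Nat.dvd_prime hp).mp k5).resolve_left
        fun h => k3.1 (h ▸ one_dvd _)
      exact ⟨mem_zpowers_of_orderOf_dvd_of_isCyclic ha hw (hao ▸ k5), k6.trans hao.symm⟩
    exact Nat.card_le_card_of_injective (fun w => ⟨_, key w⟩)
      fun u v h => Subtype.ext (e.symm.injective (congrArg Subtype.val h))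
  have t3 := t2 hp hq hpq hg a ha b hb hao hbo hA
  have t4 := t2 hq hp hpq.symm (hg.trans (mul_comm _ _)) b hb a ha hbo hao (mt hab.mpr hA)
  have t5 : (p - 1) * (q - 1) ≤ Nat.totient (orderOf x) := by
    rw [← Nat.totient_prime hp, ← Nat.totient_prime hq,
      ← Nat.totient_mul ((Nat.coprime_primes hp hq).mpr hpq)]
    exact Nat.le_of_dvd (Nat.totient_pos.mpr (orderOf_pos _)) (Nat.totient_dvd_of_dvd hn)
  have t6 : orderOf (e x) ≤ 2 * Nat.totient (orderOf (e x)) := by
    obtain ⟨r, k, hr, hk, h⟩ := (isPrimePow_nat_iff _).mp hpp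
    obtain ⟨k, rfl⟩ : ∃ j, k = j + 1 := ⟨k - 1, by omega⟩
    rw [← h, Nat.totient_prime_pow_succ hr, pow_succ, mul_left_comm]
    have := hr.two_le
    exact Nat.mul_le_mul_left _ (by omega)
  have hp2 := hp.two_le
  have hq2 := hq.two_le
  generalize Nat.totient (orderOf (e x)) = f at *
  obtain ⟨u, rfl⟩ : ∃ u, p = u + 1 := ⟨p - 1, by omega⟩
  obtain ⟨v, rfl⟩ : ∃ v, q = v + 1 := ⟨q - 1, by omega⟩
  simp only [Nat.add_sub_cancel] at t3 t4 t5
  have t7 : f * (f + 1) ≤ u * v := by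
    rcases Nat.lt_or_gt_of_ne hpq with h | h
    · exact Nat.mul_le_mul t3 (by omega)
    · rw [mul_comm u]; exact Nat.mul_le_mul t4 (by omega)
  nlinarith

theorem main' (e : G ≃ H) (he : ∀ x y, Cm x y ↔ Cm (e x) (e y)) {p q : ℕ}
    (hp : p.Prime) (hq : q.Prime) (hpq : p ≠ q) {g : G} (hg : orderOf g = p * q) :
    ∃ h : H, orderOf h = p * q := by
  classical
  have d1 : ∀ y : G, Cm 1 y := fun y => Or.inl (one_mem _)
  have d2 : ∀ y : G, Cm (e.symm 1) y := fun y => (he _ _).mpr (Or.inl (by simp))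
  have sy : ∀ x y : G, Cm x y ↔ Cm y x := fun x y => or_comm
  have k : ∀ x y : G, Cm (Equiv.swap 1 (e.symm 1) x) y ↔ Cm x y := by
    intro x y
    rw [Equiv.swap_apply_def]
    split_ifs with h1 h2
    · simp [h1, d1, d2]
    · simp [h2, d1, d2]
    · rfl
  have k2 : ∀ x y : G, Cm (Equiv.swap 1 (e.symm 1) x) (Equiv.swap 1 (e.symm 1) y) ↔ Cm x y := by
    intro x y
    rw [k, sy, k, sy]
  exact main ((Equiv.swap 1 (e.symm 1)).trans e) (fun x y => (k2 x y).symm.trans (he _ _))
    (by simp) hp hq hpq hg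

end

/-- Let G and H be finite groups whose power graphs are isomorphic: there is a bijection e : G → H such that, for all x, y, one of x, y is a power of the other exactly when one of e(x), e(y) is a power of the other. Then G and H have the same prime graph: for distinct primes p, q, G has an element of order pq if and only if H does. -/
theorem result {G H : Type*} [Group G] [Finite G] [Group H] [Finite H] (e : G ≃ H)
    (he : ∀ x y : G, (x ∈ Subgroup.zpowers y ∨ y ∈ Subgroup.zpowers x) ↔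
      (e x ∈ Subgroup.zpowers (e y) ∨ e y ∈ Subgroup.zpowers (e x)))
    {p q : ℕ} (hp : p.Prime) (hq : q.Prime) (hpq : p ≠ q) :
    (∃ g : G, orderOf g = p * q) ↔ (∃ h : H, orderOf h = p * q) := by
  exact ⟨fun ⟨_, h⟩ => main' e he hp hq hpq h, fun ⟨_, h⟩ => main' e.symm
    (fun x y => by simpa [Cm] using (he (e.symm x) (e.symm y)).symm) hp hq hpq h⟩

end Cfsg.Agent.S4085
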