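import Cfsg.Statements.S4086
import Cfsg.Agent.H26.PiPart

set_option autoImplicit false
open Cfsg

namespace Cfsg.Agent.S4086

theorem aux {G : Type*} [Group G] [Finite G] [IsCyclic G] {x y : G} (h : orderOf x ∣ orderOf y) :
    x ∈ Subgroup.zpowers y := by
  classical
  have := Fintype.ofFinite G
  have h1 := IsCyclic.card_pow_eq_one_le (α := G) (n := orderOf y) (orderOf_pos y)
  have h2 : (Subgroup.zpowers y : Set G).toFinset ⊆ Finset.univ.filter (fun a : G => a ^ orderOf y = 1) := by
    intro a ha
    simp only [Set.mem_toFinset, SetLike.mem_coe] at ha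
    simp only [Finset.mem_filter, Finset.mem_univ, true_and]
    exact orderOf_dvd_iff_pow_eq_one.mp (orderOf_dvd_of_mem_zpowers ha)
  have h3 := Finset.eq_of_subset_of_card_le h2 (by
    rw [Set.toFinset_card, ← Nat.card_eq_fintype_card]
    exact h1.trans (Nat.card_zpowers y).ge)
  have h4 : x ∈ Finset.univ.filter (fun a : G => a ^ orderOf y = 1) := by
    simp only [Finset.mem_filter, Finset.mem_univ, true_and]
    exact orderOf_dvd_iff_pow_eq_one.mp h
  rw [← h3] at h4
  simpa using h4

/-- For a finite group G the following are equivalent: every non-identity element has prime-power order; whenever two elements generate a cyclic subgroup, one of them is a power of the other (the enhanced power graph of G coincides with its power graph). -/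
theorem result {G : Type*} [Group G] [Finite G] :
    (∀ g : G, g ≠ 1 → IsPrimePow (orderOf g)) ↔
    (∀ x y : G, IsCyclic ↥(Subgroup.closure ({x, y} : Set G)) → (x ∈ Subgroup.zpowers y ∨ y ∈ Subgroup.zpowers x)) := by
  constructor
  · intro h x y hc
    set C := Subgroup.closure ({x, y} : Set G)
    have hx : x ∈ C := Subgroup.subset_closure (by simp)
    have hy : y ∈ C := Subgroup.subset_closure (by simp)
    have key : ∀ a b : C, orderOf a ∣ orderOf b → (a : G) ∈ Subgroup.zpowers (b : G) := by
      intro a b hab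
      obtain ⟨k, hk⟩ := aux hab
      exact ⟨k, by simpa using congrArg Subtype.val hk⟩
    obtain ⟨z, hz⟩ := IsCyclic.exists_generator (α := C)
    by_cases h1 : (z : G) = 1
    · left
      have := key ⟨x, hx⟩ ⟨y, hy⟩ (by
        have h2 := orderOf_dvd_of_mem_zpowers (hz ⟨x, hx⟩)
        rw [← Subgroup.orderOf_coe z, h1, orderOf_one] at h2
        exact h2.trans (one_dvd _))
      exact this
    · obtain ⟨p, k, hp, -, hk⟩ := (isPrimePow_nat_iff _).mp (h z h1)
      rw [Subgroup.orderOf_coe] at hk
      have a1 := orderOf_dvd_of_mem_zpowers (hz ⟨x, hx⟩)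
      have a2 := orderOf_dvd_of_mem_zpowers (hz ⟨y, hy⟩)
      rw [← hk, Nat.dvd_prime_pow hp] at a1 a2
      obtain ⟨i, -, hi⟩ := a1
      obtain ⟨j, -, hj⟩ := a2
      rcases le_total i j with hij | hij
      · exact Or.inl (key ⟨x, hx⟩ ⟨y, hy⟩ (by rw [hi, hj]; exact pow_dvd_pow _ hij))
      · exact Or.inr (key ⟨y, hy⟩ ⟨x, hx⟩ (by rw [hi, hj]; exact pow_dvd_pow _ hij))
  · intro h g hg
    have h0 : orderOf g ≠ 1 := by rwa [Ne, orderOf_eq_one_iff]
    rw [isPrimePow_iff_unique_prime_dvd]
    refine ⟨(orderOf g).minFac, ⟨Nat.minFac_prime h0, Nat.minFac_dvd _⟩, ?_⟩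
    suffices H : ∀ p q : ℕ, p.Prime → q.Prime → p ∣ orderOf g → q ∣ orderOf g → p = q by
      rintro q ⟨hq, hq'⟩
      exact H _ _ hq (Nat.minFac_prime h0) hq' (Nat.minFac_dvd _)
    intro p q hp hq hpd hqd
    have e1 := orderOf_pow_orderOf_div (orderOf_pos g).ne' hpd
    have e2 := orderOf_pow_orderOf_div (orderOf_pos g).ne' hqd
    have hle : Subgroup.closure ({g ^ (orderOf g / p), g ^ (orderOf g / q)} : Set G) ≤
        Subgroup.zpowers g := by
      rw [Subgroup.closure_le]
      rintro a (rfl | rfl) <;> exact Subgroup.npow_mem_zpowers _ _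
    rcases h _ _ (Subgroup.isCyclic_of_le hle) with h1 | h1
    · have := orderOf_dvd_of_mem_zpowers h1
      rw [e1, e2] at this
      exact (Nat.prime_dvd_prime_iff_eq hp hq).mp this
    · have := orderOf_dvd_of_mem_zpowers h1
      rw [e1, e2] at this
      exact ((Nat.prime_dvd_prime_iff_eq hq hp).mp this).symm

end Cfsg.Agent.S4086
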