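import Cfsg.Statements.S4088
import Cfsg.Agent.H1.Casolo

set_option autoImplicit false
open Cfsg
open scoped Pointwise

namespace Cfsg.Agent.S4088

/-- Let G be a finite group, p a prime dividing the order of G, H a p-subgroup of G and P a Sylow p-subgroup of G. Call the subnormalizer of H the set of elements g of G such that H is subnormal in the subgroup generated by H and g. Then the number of elements of the subnormalizer of H equals the number of Sylow p-subgroups of G containing H times the order of N_G(P), and also equals the number of conjugates of H contained in P times the order of N_G(H). -/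
theorem result {G : Type*} [Group G] [Finite G] (p : ℕ) [Fact p.Prime]
    (hp : p ∣ Nat.card G) (H : Subgroup G) (hH : IsPGroup p H) (P : Sylow p G) :
    Nat.card {g : G // ((H).subgroupOf (H ⊔ Subgroup.zpowers g)).IsSubnormal} =
        Nat.card {Q : Sylow p G // H ≤ (Q : Subgroup G)} * Nat.card (Subgroup.normalizer ((P : Subgroup G) : Set G)) ∧
    Nat.card {g : G // ((H).subgroupOf (H ⊔ Subgroup.zpowers g)).IsSubnormal} =
        Nat.card {K : Subgroup G // K ≤ (P : Subgroup G) ∧ ∃ g : G, K = H.map (MulAut.conj g).toMonoidHom} *
          Nat.card (Subgroup.normalizer (H : Set G)) := by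
  haveI := Fintype.ofFinite G
  obtain ⟨h1, h2⟩ := H1.Cas.casolo' hH P
  refine ⟨h1.trans h2, h1.trans (H1.Cas.card_fiber (fun g => H.map (MulAut.conj g).toMonoidHom) _
    (fun a b => ?_) (· ≤ (P : Subgroup G)))⟩
  rw [H3.mem_normalizer_iff_conj_smul, ← H3.conj_smul_conj_smul, map_inv, inv_smul_eq_iff, eq_comm]; rfl

end Cfsg.Agent.S4088
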