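import Cfsg.Statements.S4089
import Cfsg.Agent.H26.Subn

set_option autoImplicit false
open Cfsg

namespace Cfsg.Agent.S4089


/-- Let G be a finite group, p a prime and H a p-subgroup of G. Then the set of elements g of G such that H is subnormal in the subgroup generated by H and g is the union of the normalizers N_G(R) over the subgroups R of G containing H with R = O_p(N_G(R)); and this set does not change when H is replaced by the intersection of all Sylow p-subgroups of G containing H. -/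
theorem result {G : Type*} [Group G] [Finite G] (p : ℕ) [Fact p.Prime]
    (H : Subgroup G) (hH : IsPGroup p H) :
    {g : G | ((H).subgroupOf (H ⊔ Subgroup.zpowers g)).IsSubnormal} =
      {g : G | ∃ R : Subgroup G, H ≤ R ∧ (Cfsg.pCore p (Subgroup.normalizer (R : Set G))).map (Subgroup.normalizer (R : Set G)).subtype = R ∧ g ∈ Subgroup.normalizer (R : Set G)} ∧
    ∀ g : G, (((H).subgroupOf (H ⊔ Subgroup.zpowers g)).IsSubnormal ↔
      (((sInf {K : Subgroup G | ∃ Q : Sylow p G, H ≤ (Q : Subgroup G) ∧ K = (Q : Subgroup G)})).subgroupOf ((sInf {K : Subgroup G | ∃ Q : Sylow p G, H ≤ (Q : Subgroup G) ∧ K = (Q : Subgroup G)}) ⊔ Subgroup.zpowers g)).IsSubnormal) := by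
  constructor
  · ext g
    simp only [Set.mem_setOf_eq]
    rw [H26.subnormal_sup_zpowers_iff hH]
    constructor
    · rintro ⟨R, hR, h1, h2⟩
      obtain ⟨S, h3, h4, h5⟩ := H26.exists_radical_ge hR (Subgroup.zpowers_le.mpr h2)
      exact ⟨S, h1.trans h3, h4, Subgroup.zpowers_le.mp h5⟩
    · rintro ⟨R, h1, h2, h3⟩
      exact ⟨R, h2 ▸ H1.isPGroup_map_pCore p _, h1, h3⟩
  · intro g
    obtain ⟨Q0, hQ0⟩ := hH.exists_le_sylow
    rw [H26.subnormal_sup_zpowers_iff hH, H26.subnormal_sup_zpowers_iff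
      (Q0.isPGroup'.to_le (sInf_le (by exact ⟨Q0, hQ0, rfl⟩)))]
    constructor
    · rintro ⟨R, hR, h1, h2⟩
      obtain ⟨S, h3, h4, h5⟩ := H26.exists_radical_ge hR (Subgroup.zpowers_le.mpr h2)
      exact ⟨S, h4 ▸ H1.isPGroup_map_pCore p _, H26.le_of_radical h4 fun Q hQ =>
        sInf_le ⟨Q, (h1.trans h3).trans hQ, rfl⟩, Subgroup.zpowers_le.mp h5⟩
    · rintro ⟨R, hR, h1, h2⟩
      refine ⟨R, hR, le_trans (le_sInf ?_) h1, h2⟩
      rintro _ ⟨Q, hQ, rfl⟩
      exact hQ

end Cfsg.Agent.S4089
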