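import Cfsg.Statements.S4090
import Cfsg.Agent.H1.Casolo

set_option autoImplicit false
open scoped BigOperators
open Cfsg

namespace Cfsg.Agent.S4090

open Subgroup H3
open scoped Pointwise

theorem inf_le {G : Type*} [Group G] [Finite G] {p : ℕ} [hp : Fact p.Prime] {P A B : Subgroup G}
    (hP : IsPGroup p P) [A.Normal] (h : (A.relIndex B).Coprime p) : P ⊓ B ≤ A := fun y hy => by
  obtain ⟨k, hk⟩ := hP ⟨y, hy.1⟩
  obtain ⟨m, hm⟩ := exists_pow_eq_self_of_coprime (x := y) ((h.pow_right k).coprime_dvd_right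
    (orderOf_dvd_of_pow_eq_one (congrArg Subtype.val hk)))
  exact hm ▸ pow_mem ((A.subgroupOf B).pow_index_mem ⟨y, hy.2⟩ :) m

theorem step {G : Type*} [Group G] [Finite G] {p : ℕ} [hp : Fact p.Prime] {H : Subgroup G}
    (hH : IsPGroup p H) (P : Sylow p G) {A B : Subgroup G} [A.Normal] [B.Normal] (hAB : A ≤ B)
    (h : (A.relIndex B).Coprime p) : Nat.card {g : G // MulAut.conj g • H ≤ ↑P ⊔ A} * Nat.card B =
    Nat.card {g : G // MulAut.conj g • H ≤ ↑P ⊔ B} *
      Nat.card {u : G // u ∈ B ∧ ∀ h ∈ H, h * u * h⁻¹ * u⁻¹ ∈ A} := by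
  have h1 : ∀ x ∈ ↑P ⊔ A, x ∈ B → x ∈ A := fun x hx hB => by
    obtain ⟨y, hy, a, ha, rfl⟩ := mem_sup_of_normal_right.mp hx
    exact mul_mem (inf_le P.isPGroup' h ⟨hy, (mul_mem_cancel_right (hAB ha)).mp hB⟩) ha
  have h2 : ∀ g, MulAut.conj g • H ≤ ↑P ⊔ B → ∃ u ∈ B, MulAut.conj (u * g) • H ≤ P := fun g hg => by
    obtain ⟨x, hx, h2⟩ := (sylowIn_of_le P le_sup_left).exists_conj_le (isPGroup_conj_smul hH g) hg
    obtain ⟨y, hy, u, hu, rfl⟩ := mem_sup_of_normal_right.mp hx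
    refine ⟨u, hu, ?_⟩
    rwa [← conj_smul_conj_smul, conj_smul_conj_smul _ u, pointwise_smul_subset_iff, ← map_inv,
      conj_smul_eq_of_mem (inv_mem hy)] at h2
  choose! u hu h2 using h2
  rw [← Nat.card_prod, ← Nat.card_prod]
  have h3 : ∀ g, MulAut.conj g • H ≤ P → ∀ v ∈ B, (∀ h ∈ H, h * v * h⁻¹ * v⁻¹ ∈ A) ↔
      MulAut.conj (g * v) • H ≤ ↑P ⊔ A := fun g hg v hv => by
    rw [conj_smul_le_iff] at hg ⊢
    refine forall₂_congr fun h hh => ⟨fun e => ?_, fun e => ?_⟩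
    · convert mul_mem (mem_sup_right (Normal.conj_mem ‹_› _ (inv_mem e) g)) (mem_sup_left (hg h hh)) using 1
      simp [mul_assoc]
    · have := h1 _ (mul_mem (mem_sup_left (hg h hh)) (inv_mem e)) (by
        convert Normal.conj_mem ‹B.Normal› _ (mul_mem (Normal.conj_mem ‹_› _ hv h) (inv_mem hv)) g using 1
        simp [mul_assoc])
      convert Normal.conj_mem ‹A.Normal› _ this g⁻¹ using 1
      simp [mul_assoc]
  refine (Nat.card_congr (Equiv.ofBijective (fun x => (⟨u x.1 * x.1 * x.2, (h3 _ (h2 _ x.1.2) _ x.2.2.1).mp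
    x.2.2.2⟩, ⟨u x.1 * x.1 * x.2 * x.1.1⁻¹, by
      rw [mul_assoc (u _), mul_assoc (u _)]
      exact mul_mem (hu _ x.1.2) (Normal.conj_mem ‹_› _ x.2.2.1 _)⟩)) ⟨?_, ?_⟩)).symm
  · rintro ⟨⟨g, _⟩, ⟨v, _⟩⟩ ⟨⟨g', _⟩, ⟨v', _⟩⟩ e
    simp only [Prod.mk.injEq, Subtype.mk.injEq] at e ⊢
    obtain rfl : g = g' := by simpa [e.1] using e.2
    exact ⟨rfl, by simpa using e.1⟩
  · rintro ⟨⟨g, hg⟩, ⟨b, hb⟩⟩
    have h4 : MulAut.conj (b⁻¹ * g) • H ≤ ↑P ⊔ B := by
      rw [← conj_smul_conj_smul, ← conj_smul_eq_of_mem (inv_mem (mem_sup_right hb : b ∈ ↑P ⊔ B))]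
      exact conj_smul_mono _ (hg.trans (sup_le_sup_left hAB _))
    have h5 : (u (b⁻¹ * g) * (b⁻¹ * g))⁻¹ * g ∈ B := by
      convert Normal.conj_mem ‹B.Normal› _ (mul_mem hb (inv_mem (hu _ h4))) g⁻¹ using 1
      simp [mul_assoc]
    exact ⟨(⟨_, h4⟩, ⟨_, h5, (h3 _ (h2 _ h4) _ h5).mpr (by rwa [mul_inv_cancel_left])⟩), by simp [mul_assoc]⟩

/-- Let G be a finite p-solvable group, H a p-subgroup of G and P a Sylow p-subgroup, and fix a chain of normal subgroups 1 = M₀ ≤ M₁ ≤ ⋯ ≤ Mₙ = G of G each of whose factors is a p-group or a p'-group. Then the number of elements g of G such that H is subnormal in the subgroup generated by H and g equals the order of P times the product, over the factors Mᵢ₊₁/Mᵢ of order prime to p, of the order of the centralizer of H in Mᵢ₊₁/Mᵢ (counted as the number of u ∈ Mᵢ₊₁ with [h, u] ∈ Mᵢ for all h ∈ H, divided by the order of Mᵢ). -/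
theorem result {G : Type*} [Group G] [Finite G] (p : ℕ) [Fact p.Prime]
    (hG : Cfsg.IsPSolvable p G) (H : Subgroup G) (hH : IsPGroup p H) (P : Sylow p G)
    (n : ℕ) (M : Fin (n + 1) → Subgroup G) (h0 : M 0 = ⊥) (hn : M (Fin.last n) = ⊤) (hmono : Monotone M)
    (hnormal : ∀ i, (M i).Normal)
    (hfac : ∀ i : Fin n, (∃ m : ℕ, (M i.castSucc).relIndex (M i.succ) = p ^ m) ∨ ((M i.castSucc).relIndex (M i.succ)).Coprime p) :
    Nat.card {g : G // ((H).subgroupOf (H ⊔ Subgroup.zpowers g)).IsSubnormal} =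
      Nat.card (P : Subgroup G) *
        ∏ i : Fin n, (if ((M i.castSucc).relIndex (M i.succ)).Coprime p then
          Nat.card {u : G // u ∈ M i.succ ∧ ∀ h ∈ H, h * u * h⁻¹ * u⁻¹ ∈ M i.castSucc} / Nat.card (M i.castSucc)
          else 1) := by
  classical
  haveI := Fintype.ofFinite G
  rw [(H1.Cas.casolo' hH P).1]
  let t := fun A : Subgroup G => Nat.card {g : G // MulAut.conj g • H ≤ ↑P ⊔ A}
  let s := fun A : Subgroup G => Nat.card ((P : Subgroup G) ⊔ A : Subgroup G)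
  have h1 : ∀ i : Fin n, t (M i.castSucc) * s (M i.succ) = t (M i.succ) * s (M i.castSucc) *
      (if ((M i.castSucc).relIndex (M i.succ)).Coprime p then Nat.card {u : G // u ∈ M i.succ ∧
        ∀ h ∈ H, h * u * h⁻¹ * u⁻¹ ∈ M i.castSucc} / Nat.card (M i.castSucc) else 1) := fun i => by
    have hAB : M i.castSucc ≤ M i.succ := hmono (Fin.castSucc_le_succ i)
    have := hnormal i.castSucc
    have := hnormal i.succ
    have hp := hfac i
    generalize M i.castSucc = A, M i.succ = B at *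
    split_ifs with h
    · let C : Subgroup G :=
        { carrier := {u | u ∈ B ∧ ∀ h ∈ H, h * u * h⁻¹ * u⁻¹ ∈ A}
          one_mem' := ⟨one_mem _, fun h _ => by simp⟩
          mul_mem' := fun {a b} ha hb => ⟨mul_mem ha.1 hb.1, fun h hh => by
            convert mul_mem (ha.2 h hh) (Normal.conj_mem ‹A.Normal› _ (hb.2 h hh) a) using 1
            simp [mul_assoc]⟩
          inv_mem' := fun {a} ha => ⟨inv_mem ha.1, fun h hh => by
            convert Normal.conj_mem ‹A.Normal› _ (inv_mem (ha.2 h hh)) a⁻¹ using 1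
            simp [mul_assoc]⟩ }
      obtain ⟨c, hc⟩ := card_dvd_of_le (show A ≤ C from fun a ha =>
        ⟨hAB ha, fun h _ => mul_mem (Normal.conj_mem ‹A.Normal› _ ha h) (inv_mem ha)⟩)
      have h1 := step hH P hAB h
      have h2 := card_sup_mul_card_inf (H := P) (N := A) (by rw [normalizer_eq_top]; exact le_top)
      have h3 := card_sup_mul_card_inf (H := P) (N := B) (by rw [normalizer_eq_top]; exact le_top)
      rw [show (P : Subgroup G) ⊓ B = ↑P ⊓ A from (le_inf inf_le_left (inf_le P.isPGroup' h)).antisymm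
        (inf_le_inf_left _ hAB)] at h3
      rw [show Nat.card {u : G // u ∈ B ∧ ∀ h ∈ H, h * u * h⁻¹ * u⁻¹ ∈ A} = _ from hc] at h1 ⊢
      rw [Nat.mul_div_cancel_left _ Nat.card_pos]
      refine Nat.eq_of_mul_eq_mul_right (Nat.card_pos (α := ((P : Subgroup G) ⊓ A : Subgroup G))) ?_
      simp only [t, s]
      zify at h1 h2 h3 ⊢
      linear_combination (Nat.card P : ℤ) * h1 + (t A : ℤ) * h3 - (t B * c : ℤ) * h2
    · obtain ⟨m, hm⟩ := hp.resolve_right h
      have h1 : B ≤ ↑P ⊔ A := by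
        refine (relIndex_eq_one.mp (Nat.eq_one_of_dvd_coprimes (a := p ^ m) (Nat.Coprime.pow_left m
          ((Nat.Prime.coprime_iff_not_dvd Fact.out).mpr (sylowIn_inf_normal P B).not_dvd))
          (hm ▸ relIndex_dvd_of_le_left _ le_sup_right) (relIndex_dvd_of_le_left _ ?_)))
        exact inf_le_left.trans le_sup_left
      simp only [t, s, show (P : Subgroup G) ⊔ B = ↑P ⊔ A from
        (sup_le le_sup_left h1).antisymm (sup_le_sup_left hAB _), mul_one]
  have h2 := Finset.prod_congr rfl fun i (_ : i ∈ Finset.univ) => h1 i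
  simp only [Finset.prod_mul_distrib] at h2
  have h3 := (Fin.prod_univ_castSucc fun i => t (M i)).symm.trans (Fin.prod_univ_succ _)
  have h4 := (Fin.prod_univ_castSucc fun i => s (M i)).symm.trans (Fin.prod_univ_succ _)
  obtain ⟨g, -, hg⟩ := (sylowIn_top P).exists_conj_le hH le_top
  have h5 : 0 < (∏ i : Fin n, t (M i.succ)) * ∏ i : Fin n, s (M i.succ) :=
    mul_pos (Finset.prod_pos fun i _ => (Nat.card_pos_iff).mpr ⟨⟨⟨g, hg.trans le_sup_left⟩⟩, inferInstance⟩)
      (Finset.prod_pos fun i _ => Nat.card_pos)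
  have h6 : t ⊤ = s ⊤ := by simp [t, s]
  rw [h0, hn] at h3 h4
  simp only [show t ⊥ = Nat.card {g : G // MulAut.conj g • H ≤ P} by simp [t],
    show s ⊥ = Nat.card P by simp [s], h6] at h3 h4
  refine Nat.eq_of_mul_eq_mul_right h5 ?_
  generalize (∏ i : Fin n, (if ((M i.castSucc).relIndex (M i.succ)).Coprime p then _ else 1 : ℕ)) = c at *
  zify at h2 h3 h4 ⊢
  linear_combination (s ⊤ : ℤ) * h2 - (∏ i : Fin n, s (M i.succ) : ℤ) * h3 +
    (∏ i : Fin n, t (M i.succ) : ℤ) * c * h4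

end Cfsg.Agent.S4090
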