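import Cfsg.Statements.S4092
import Cfsg.Agent.H26.PElt

set_option autoImplicit false
open Cfsg

namespace Cfsg.Agent.S4092


/-- Let G be a finite group, p a prime and P a Sylow p-subgroup of G that is not normal in G. Then G has at least p·#P elements of p-power order (the identity included). -/
theorem result {G : Type*} [Group G] [Finite G] (p : ℕ) [Fact p.Prime]
    (P : Sylow p G) (hP : ¬ (P : Subgroup G).Normal) :
    p * Nat.card (P : Subgroup G) ≤ Nat.card {g : G // ∃ k : ℕ, orderOf g = p ^ k} := by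
  classical
  have := Fintype.ofFinite G
  have := Fintype.ofFinite (Sylow p G)
  have hp := (Fact.out : p.Prime)
  have hne : ∃ t : Sylow p G × Sylow p G, t.1 ≠ t.2 := by
    by_contra h
    push Not at h
    apply hP
    have : Subsingleton (Sylow p G) := ⟨fun a b => h (a, b)⟩
    exact Sylow.normal_of_subsingleton P
  obtain ⟨⟨A, B⟩, hAB, hmax⟩ := Set.exists_max_image {t : Sylow p G × Sylow p G | t.1 ≠ t.2}
    (fun t => Nat.card ((t.1 : Subgroup G) ⊓ t.2 : Subgroup G)) (Set.toFinite _) hne
  simp only [Set.mem_setOf_eq] at hAB hmax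
  set D : Subgroup G := (A : Subgroup G) ⊓ B with hD
  have hDp : IsPGroup p D := A.isPGroup'.to_inf_left
  set S : Finset (Sylow p G) := Finset.univ.filter fun Q => D ≤ Q with hS
  have hS1 : S.card ≡ 1 [MOD p] := by
    have := H26.ncard_sylow_ge_modEq_one hDp
    rwa [Set.ncard_eq_toFinset_card', Set.toFinset_setOf] at this
  have hS2 : 1 < S.card := Finset.one_lt_card.mpr ⟨A, by simp [hS, hD], B, by simp [hS, hD], hAB⟩
  have hS3 : p + 1 ≤ S.card := by
    have := Nat.le_of_dvd (by omega) ((Nat.modEq_iff_dvd' hS2.le).mp hS1.symm)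
    omega
  have hinf : ∀ Q ∈ S, ∀ R ∈ S, Q ≠ R → (Q : Subgroup G) ⊓ R = D := by
    intro Q hQ R hR hQR
    simp only [hS, Finset.mem_filter, Finset.mem_univ, true_and] at hQ hR
    exact (Subgroup.eq_of_le_of_card_ge (le_inf hQ hR) (hmax (Q, R) hQR)).symm
  have hlt : D < A := lt_of_le_of_ne inf_le_left fun h => hAB (Sylow.ext
    (B.is_maximal' A.isPGroup' (Subgroup.eq_of_le_of_card_ge (h ▸ inf_le_right)
      (H26.card_sylow_eq_card B A).le).ge))
  have hpD := H26.mul_card_le_of_lt A.isPGroup' hlt
  rw [H26.card_sylow_eq_card A P] at hpD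
  set T : Sylow p G → Finset G := fun Q => Finset.univ.filter fun g => g ∈ (Q : Subgroup G) ∧ g ∉ D
    with hT
  set E : Finset G := Finset.univ.filter fun g => g ∈ D with hE
  have hEc : E.card = Nat.card D := by
    rw [Nat.card_eq_fintype_card, Fintype.card_subtype]
  have hTc : ∀ Q ∈ S, (T Q).card = Nat.card (P : Subgroup G) - Nat.card D := by
    intro Q hQ
    simp only [hS, Finset.mem_filter, Finset.mem_univ, true_and] at hQ
    have : T Q = (Finset.univ.filter fun g => g ∈ (Q : Subgroup G)) \ E := by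
      ext g; simp [hT, hE]
    rw [this, Finset.card_sdiff_of_subset (by
      intro g hg
      simp only [hE, Finset.mem_filter, Finset.mem_univ, true_and] at hg ⊢
      exact hQ hg), hEc, H26.card_sylow_eq_card P Q, Nat.card_eq_fintype_card (α := (Q : Subgroup G)),
      Fintype.card_subtype]
  have hU : (E ∪ S.biUnion T).card = Nat.card D + S.card * (Nat.card (P : Subgroup G) - Nat.card D) := by
    rw [Finset.card_union_of_disjoint, hEc, Finset.card_biUnion, Finset.sum_congr rfl hTc,
      Finset.sum_const, smul_eq_mul]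
    · intro Q hQ R hR hQR
      refine Finset.disjoint_left.mpr fun g h1 h2 => ?_
      simp only [hT, Finset.mem_filter, Finset.mem_univ, true_and] at h1 h2
      exact h1.2 (hinf Q hQ R hR hQR ▸ ⟨h1.1, h2.1⟩)
    · refine Finset.disjoint_left.mpr fun g h1 h2 => ?_
      simp only [hT, hE, Finset.mem_filter, Finset.mem_univ, true_and, Finset.mem_biUnion] at h1 h2
      obtain ⟨Q, -, h2⟩ := h2
      exact h2.2 h1
  have hle : (E ∪ S.biUnion T).card ≤ Nat.card {g : G // ∃ k : ℕ, orderOf g = p ^ k} := by
    rw [Nat.card_eq_fintype_card, Fintype.card_subtype]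
    refine Finset.card_le_card fun g hg => ?_
    simp only [hT, hE, Finset.mem_filter, Finset.mem_univ, true_and, Finset.mem_biUnion,
      Finset.mem_union] at hg ⊢
    rcases hg with hg | ⟨Q, -, hg, -⟩
    · exact H26.exists_orderOf_of_mem hDp hg
    · exact H26.exists_orderOf_of_mem Q.isPGroup' hg
  refine le_trans ?_ hle
  rw [hU]
  have h1 : Nat.card D ≤ Nat.card (P : Subgroup G) := le_trans (Nat.le_mul_of_pos_left _ hp.pos) hpD
  obtain ⟨c, hc⟩ := Nat.exists_eq_add_of_le h1
  rw [hc] at hpD ⊢
  rw [Nat.add_sub_cancel_left]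
  nlinarith

end Cfsg.Agent.S4092
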