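import Cfsg.Statements.S4093
import Cfsg.Agent.H26.PElt

set_option autoImplicit false
open scoped BigOperators
open Cfsg

namespace Cfsg.Agent.S4093

theorem aux {G : Type*} [Group G] [Finite G] (p : ℕ) [Fact p.Prime]
    (P : Sylow p G) (N : Subgroup G) [N.Normal] (hNP : N.IsComplement' (P : Subgroup G))
    {x g : G} (hx : x ∈ (P : Subgroup G)) :
    ((∃ k : ℕ, orderOf g = p ^ k) ∧ g * x⁻¹ ∈ N) ↔ g ∈ (fun h => h * x * h⁻¹) '' (N : Set G) := by
  constructor
  · rintro ⟨h1, h2⟩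
    obtain ⟨Q, hQ⟩ := H26.pElt_iff_exists_sylow.mp h1
    obtain ⟨c, rfl⟩ := MulAction.exists_smul_eq G P Q
    obtain ⟨⟨n, y⟩, rfl⟩ := hNP.2 c
    rw [H26.mem_smul_sylow] at hQ
    simp only at hQ
    have h3 : (n : G)⁻¹ * g * n ∈ (P : Subgroup G) := by
      have := P.1.mul_mem (P.1.mul_mem y.2 hQ) (P.1.inv_mem y.2)
      convert this using 1
      group
    have h4 : (n : G)⁻¹ * g * n * x⁻¹ ∈ N := by
      have := N.mul_mem (N.mul_mem (N.inv_mem n.2) h2) (Subgroup.Normal.conj_mem inferInstance _ n.2 x)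
      convert this using 1
      group
    have h5 := (Subgroup.disjoint_def.mp hNP.disjoint) h4 (P.1.mul_mem h3 (P.1.inv_mem hx))
    refine ⟨n, n.2, ?_⟩
    rw [mul_inv_eq_one] at h5
    simp only [← h5]
    group
  · rintro ⟨n, hn, rfl⟩
    refine ⟨?_, ?_⟩
    · obtain ⟨k, hk⟩ := H26.exists_orderOf_of_mem P.isPGroup' hx
      exact ⟨k, by rw [← hk]; exact (MulAut.conj n).orderOf_eq x⟩
    · have := N.mul_mem hn (Subgroup.Normal.conj_mem inferInstance _ (N.inv_mem hn) x)
      convert this using 1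
      group

/-- Let G be a finite group with a normal subgroup N complementing a Sylow p-subgroup P (a normal p-complement). Then the number of elements of G of p-power order equals the sum over x ∈ P of the index of C_N(x) in N. -/
theorem result {G : Type*} [Group G] [Finite G] (p : ℕ) [Fact p.Prime]
    (P : Sylow p G) (N : Subgroup G) [N.Normal] (hNP : N.IsComplement' (P : Subgroup G)) :
    Nat.card {g : G // ∃ k : ℕ, orderOf g = p ^ k} =
      ∑ᶠ x : (P : Subgroup G), Nat.card N / Nat.card ↥(N ⊓ Subgroup.centralizer ({(x : G)} : Set G)) := by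
  classical
  have := Fintype.ofFinite (P : Subgroup G)
  have h1 := H26.card_prod_subtype_eq_sum (fun (x : (P : Subgroup G)) (g : G) =>
    (∃ k : ℕ, orderOf g = p ^ k) ∧ g * (x : G)⁻¹ ∈ N)
  rw [finsum_eq_sum_of_fintype]
  have h2 : Nat.card {t : ↥(P : Subgroup G) × G // (∃ k : ℕ, orderOf t.2 = p ^ k) ∧ t.2 * (t.1 : G)⁻¹ ∈ N}
      = Nat.card {g : G // ∃ k : ℕ, orderOf g = p ^ k} := by
    refine Nat.card_eq_of_bijective (fun t => ⟨t.1.2, t.2.1⟩) ⟨?_, ?_⟩
    · rintro ⟨⟨x, g⟩, h1, h2⟩ ⟨⟨y, h⟩, h3, h4⟩ e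
      simp only [Subtype.mk.injEq] at e h2 h4
      subst e
      have h5 : (x : G) * (y : G)⁻¹ ∈ N := by
        have := N.mul_mem (N.inv_mem h2) h4
        convert this using 1
        group
      have h6 := (Subgroup.disjoint_def.mp hNP.disjoint) h5 (P.1.mul_mem x.2 (P.1.inv_mem y.2))
      rw [mul_inv_eq_one] at h6
      simp [Subtype.ext h6]
    · rintro ⟨g, hg⟩
      obtain ⟨⟨n, y⟩, rfl⟩ := hNP.2 g
      exact ⟨⟨⟨y, n * y⟩, hg, by simp⟩, rfl⟩
  rw [← h2, h1]
  refine Finset.sum_congr rfl fun x _ => ?_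
  have h3 := H1.card_inf_mul_relIndex (Subgroup.centralizer ({(x : G)} : Set G)) N
  rw [← h3, inf_comm, Nat.mul_div_cancel_left _ Nat.card_pos, H26.relIndex_cent_eq_ncard,
    ← Nat.card_coe_set_eq]
  exact Nat.card_congr (Equiv.subtypeEquivRight fun g => aux p P N hNP x.2)

end Cfsg.Agent.S4093
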