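import Cfsg.Statements.S4106
import Cfsg.Agent.H26.PiPart
import Cfsg.Agent.H25.ClassCount

set_option autoImplicit false
open Cfsg

namespace Cfsg.Agent.S4106


/-- Let G be a finite group, π a set of primes and m the π-part of the order of G. Then the number of conjugacy classes of G consisting of π-elements (elements whose order is divisible only by primes in π) is at most m. -/
theorem result {G : Type*} [Group G] [Finite G]
    (π : Set ℕ) (hπ : ∀ q ∈ π, q.Prime)
    (m : ℕ) (hm : m ∣ Nat.card G) (hmπ : ∀ q : ℕ, q.Prime → q ∣ m → q ∈ π)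
    (hm' : ∀ q ∈ π, ¬ q ∣ Nat.card G / m) :
    Nat.card {C : ConjClasses G // ∀ q : ℕ, q.Prime → (∃ g : G, ConjClasses.mk g = C ∧ q ∣ orderOf g) → q ∈ π} ≤ m := by
  classical
  have h0 : Nat.card G ≠ 0 := Nat.card_pos.ne'
  have hm0 : m ≠ 0 := ne_zero_of_dvd_ne_zero h0 hm
  set σ : Finset ℕ := (Nat.card G).primeFactors.filter (· ∈ π) with hσ
  have h1 := H25.card_piCl_le σ (fun r hr => hπ r (Finset.mem_filter.mp hr).2) G
  have h2 : ∏ r ∈ σ, r ^ (Nat.card G).factorization r ∣ m := by
    apply Finset.prod_dvd_of_isRelPrime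
    · intro a ha b hb hab
      have ha' := hπ a (Finset.mem_filter.mp ha).2
      have hb' := hπ b (Finset.mem_filter.mp hb).2
      exact Nat.coprime_iff_isRelPrime.mp (((Nat.coprime_primes ha' hb').mpr hab).pow _ _)
    · intro r hr
      have hr' := (Finset.mem_filter.mp hr).2
      have h3 : r ^ (Nat.card G).factorization r ∣ m * (Nat.card G / m) := by
        rw [Nat.mul_div_cancel' hm]
        exact Nat.ordProj_dvd _ _
      exact (((hπ r hr').coprime_iff_not_dvd.mpr (hm' r hr')).pow_left _).dvd_of_dvd_mul_right h3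
  refine le_trans (le_of_eq ?_) (h1.trans (Nat.le_of_dvd (Nat.pos_of_ne_zero hm0) h2))
  refine Nat.card_congr (Equiv.subtypeEquivRight fun C => ?_)
  constructor
  · intro h x hx r hr hd
    exact Finset.mem_filter.mpr ⟨Nat.mem_primeFactors.mpr ⟨hr, hd.trans (orderOf_dvd_natCard x), h0⟩,
      h r hr ⟨x, ConjClasses.mem_carrier_iff_mk_eq.mp hx, hd⟩⟩
  · rintro h q hq ⟨g, hg, hd⟩
    exact (Finset.mem_filter.mp (h g (ConjClasses.mem_carrier_iff_mk_eq.mpr hg) q hq hd)).2

end Cfsg.Agent.S4106
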