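import Cfsg.Statements.S4107
import Cfsg.Agent.H26.Basic

set_option autoImplicit false
open Cfsg

namespace Cfsg.Agent.S4107

theorem aux {G : Type*} [Group G] [Finite G] (N : Subgroup G) [N.Normal]
    (heq : ∀ x : G, x ∉ N → ∀ n ∈ N, orderOf (x * n) = orderOf x) (p : ℕ) [Fact p.Prime]
    (h : ¬ pCore p G ≤ N) : IsPGroup p N := by
  obtain ⟨x, hx, hxN⟩ := SetLike.not_le_iff_exists.mp h
  intro y
  obtain ⟨k, hk⟩ := H1.isPGroup_pCore p G ⟨x, hx⟩
  have h1 : x ^ p ^ k = 1 := by simpa using congrArg Subtype.val hk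
  have h2 : (x * y) ^ p ^ k = 1 := by
    rw [← orderOf_dvd_iff_pow_eq_one, heq x hxN y y.2, orderOf_dvd_iff_pow_eq_one, h1]
  have h3 : (y : G) ^ p ^ k ∈ pCore p G := by
    rw [← QuotientGroup.eq_one_iff, QuotientGroup.mk_pow]
    have := congrArg (QuotientGroup.mk : G → G ⧸ pCore p G) h2
    rwa [QuotientGroup.mk_pow, QuotientGroup.mk_mul, (QuotientGroup.eq_one_iff x).mpr hx,
      one_mul] at this
  obtain ⟨j, hj⟩ := H1.isPGroup_pCore p G ⟨_, h3⟩
  refine ⟨k + j, Subtype.ext ?_⟩
  simpa [pow_add, pow_mul] using congrArg Subtype.val hj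

theorem aux2 {G : Type*} [Group G] [Finite G] (N : Subgroup G) (h : ¬ fittingSubgroup G ≤ N) :
    ∃ p : ℕ, p.Prime ∧ ¬ pCore p G ≤ N := by
  by_contra hn
  push Not at hn
  apply h
  apply H1.le_of_forall_pSubgroup_le
  intro p hp _ P hP hP2
  have : Fact p.Prime := ⟨hp⟩
  exact (H1.le_pCore_of_le_fittingSubgroup hP2 hP).trans (hn p hp)

/-- Let G be a finite group and N a proper non-trivial normal subgroup such that for every x outside N all elements of the coset xN have the same order as x. Then N ≤ F(G) or F(G) ≤ N, where F(G) is the Fitting subgroup; and if N is properly contained in F(G) then F(G) has prime-power order. -/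
theorem result {G : Type*} [Group G] [Finite G] (N : Subgroup G) [N.Normal] (hN1 : N ≠ ⊥) (hN2 : N ≠ ⊤)
    (heq : ∀ x : G, x ∉ N → ∀ n ∈ N, orderOf (x * n) = orderOf x) :
    (N ≤ Cfsg.fittingSubgroup G ∨ Cfsg.fittingSubgroup G ≤ N) ∧
    (N < Cfsg.fittingSubgroup G → IsPrimePow (Nat.card (Cfsg.fittingSubgroup G))) := by
  constructor
  · by_cases h : fittingSubgroup G ≤ N
    · exact Or.inr h
    · obtain ⟨p, hp, h1⟩ := aux2 N h
      have : Fact p.Prime := ⟨hp⟩
      exact Or.inl ((H1.le_pCore (aux N heq p h1)).trans (H1.pCore_le_fittingSubgroup p))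
  · intro h
    obtain ⟨p, hp, h1⟩ := aux2 N (not_le_of_gt h)
    have : Fact p.Prime := ⟨hp⟩
    have h2 := aux N heq p h1
    have h3 : fittingSubgroup G ≤ pCore p G := by
      apply H1.le_of_forall_pSubgroup_le
      intro q hq _ Q hQ hQ2
      have : Fact q.Prime := ⟨hq⟩
      have h4 := H1.le_pCore_of_le_fittingSubgroup hQ2 hQ
      by_cases hqp : q = p
      · subst hqp; exact h4
      by_cases h5 : pCore q G ≤ N
      · have := IsPGroup.disjoint_of_ne q p hqp _ _ (H1.isPGroup_pCore q G) h2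
        rw [disjoint_iff, inf_eq_left.mpr h5] at this
        rw [this] at h4
        exact h4.trans bot_le
      · have := IsPGroup.disjoint_of_ne q p hqp _ _ (aux N heq q h5) h2
        exact absurd (disjoint_self.mp this) hN1
    obtain ⟨k, hk⟩ := IsPGroup.iff_card.mp ((H1.isPGroup_pCore p G).to_le h3)
    rw [hk]
    refine (isPrimePow_nat_iff _).mpr ⟨p, k, hp, Nat.pos_of_ne_zero ?_, rfl⟩
    rintro rfl
    rw [pow_zero, Subgroup.card_eq_one] at hk
    rw [hk] at h
    exact not_lt_bot h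

end Cfsg.Agent.S4107
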