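import Cfsg.Statements.S4108
import Cfsg.Agent.H26.Frob
import Cfsg.Agent.H2.Frattini

set_option autoImplicit false
open Cfsg

namespace Cfsg.Agent.S4108


/-- Let G be a finite group, p a prime and N a proper non-trivial normal p-subgroup such that for every x outside N all elements of the coset xN have the same order as x. Then every non-trivial subgroup H of G of order prime to p acts fixed-point-freely on N: NH is a Frobenius group with complement H and kernel N. -/
theorem result {G : Type*} [Group G] [Finite G] (N : Subgroup G) [N.Normal] (hN1 : N ≠ ⊥) (hN2 : N ≠ ⊤)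
    (heq : ∀ x : G, x ∉ N → ∀ n ∈ N, orderOf (x * n) = orderOf x)
    (p : ℕ) [Fact p.Prime] (hNp : IsPGroup p N) :
    ∀ H : Subgroup G, H ≠ ⊥ → (Nat.card H).Coprime p →
      Cfsg.IsFrobeniusComplement (H.subgroupOf (N ⊔ H)) ∧ Cfsg.frobeniusKernel (H.subgroupOf (N ⊔ H)) = (N.subgroupOf (N ⊔ H) : Set ↥(N ⊔ H)) := by
  intro H hH hcop
  have hd : N ⊓ H = ⊥ := by
    obtain ⟨k, hk⟩ := hNp.exists_card_eq
    exact (Subgroup.disjoint_of_coprime_natCard (by rw [hk]; exact (hcop.pow_right k).symm)).eq_bot
  have hc : (N.subgroupOf (N ⊔ H)).IsComplement' (H.subgroupOf (N ⊔ H)) := by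
    apply H2.isComplement'_of_normal
    · rw [Subgroup.subgroupOf, Subgroup.subgroupOf, ← Subgroup.comap_inf, hd]
      simp
    · rw [← Subgroup.subgroupOf_sup le_sup_left le_sup_right, Subgroup.subgroupOf_self]
  have h1 : Cfsg.IsFrobeniusComplement (H.subgroupOf (N ⊔ H)) := by
    apply H1.isFrobeniusComplement_of_fpf hc
    · rw [Ne, Subgroup.subgroupOf_eq_bot, disjoint_iff, inf_eq_left.mpr le_sup_left]; exact hN1
    · rw [Ne, Subgroup.subgroupOf_eq_bot, disjoint_iff, inf_eq_left.mpr le_sup_right]; exact hH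
    · intro h hh hne
      rw [eq_bot_iff]
      rintro n ⟨hn, hc⟩
      have hhN : (h : G) ∉ N := fun h1 => hne (Subtype.ext (by
        have : (h : G) ∈ N ⊓ H := ⟨h1, hh⟩
        rwa [hd] at this))
      have e1 : Commute (h : G) n := (congrArg Subtype.val (H26.mem_cent.mp hc)).symm
      obtain ⟨k, hk⟩ := hNp.exists_card_eq
      have e2 : (orderOf (h : G)).Coprime (orderOf (n : G)) :=
        Nat.Coprime.coprime_dvd_left (H.orderOf_dvd_natCard hh)
          (Nat.Coprime.coprime_dvd_right (hk ▸ N.orderOf_dvd_natCard hn) (hcop.pow_right k))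
      have e3 := e1.orderOf_mul_eq_mul_orderOf_of_coprime e2
      rw [heq _ hhN (n : G) hn] at e3
      have e4 : orderOf (n : G) = 1 := by
        have := orderOf_pos (h : G)
        nth_rewrite 1 [← mul_one (orderOf (h : G))] at e3
        exact (Nat.eq_of_mul_eq_mul_left this e3).symm
      exact Subtype.ext (orderOf_eq_one_iff.mp e4)
  exact ⟨h1, H26.frobeniusKernel_eq_of_isComplement' h1 hc⟩

end Cfsg.Agent.S4108
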