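import Cfsg.Statements.S4112
import Cfsg.Agent.H26.PiPart
import Cfsg.Agent.H26.SylNum2
import Cfsg.Agent.H2.Frattini
import Cfsg.Agent.S0049
import Cfsg.Agent.H1.Coprime
import Cfsg.Agent.H11.Syl

set_option autoImplicit false
open Cfsg

namespace Cfsg.Agent.S4112


/-- Let G be a finite group and M ≤ N non-trivial proper normal subgroups such that for every g outside N the conjugacy class of g is a union of cosets of M (equivalently gm is conjugate to g for every m ∈ M). Then (1) and (2) below are equivalent, and they imply (3): (1) every g outside N acts fixed-point-freely on M, that is C_G(x) ≤ N for every x ∈ M, x ≠ 1; (2) the index of N in G is coprime to the order of M; (3) there is a subgroup H of G with HN = G and H ∩ M = 1. -/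
theorem result {G : Type*} [Group G] [Finite G] (N M : Subgroup G) [N.Normal] [M.Normal] (hMN : M ≤ N) (hM1 : M ≠ ⊥) (hN2 : N ≠ ⊤)
    (hcam : ∀ g : G, g ∉ N → ∀ m ∈ M, ∃ x : G, x * g * x⁻¹ = g * m) :
    ((∀ x ∈ M, x ≠ 1 → Subgroup.centralizer ({x} : Set G) ≤ N) ↔ N.index.Coprime (Nat.card M)) ∧
    ((∀ x ∈ M, x ≠ 1 → Subgroup.centralizer ({x} : Set G) ≤ N) → ∃ H : Subgroup G, H ⊔ N = ⊤ ∧ H ⊓ M = ⊥) := by
  have key : (∀ x ∈ M, x ≠ 1 → Subgroup.centralizer ({x} : Set G) ≤ N) ↔ N.index.Coprime (Nat.card M) := by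
    constructor
    · intro h
      by_contra hn
      obtain ⟨p, hp, h1, h2⟩ := Nat.Prime.not_coprime_iff_dvd.mp hn
      have : Fact p.Prime := ⟨hp⟩
      obtain ⟨P⟩ : Nonempty (Sylow p G) := inferInstance
      have h3 : (P : Subgroup G) ⊓ M ≠ ⊥ := by
        rw [Ne, (H3.sylowIn_inf_normal P M).eq_bot_iff]
        exact not_not.mpr h2
      obtain ⟨z, hz, hz1, hc⟩ := H11.exists_mem_centralizer_of_normalized P.isPGroup'
        (P.isPGroup'.to_inf_left (K := M)) h3
        (H1.le_normalizer_inf Subgroup.le_normalizer Subgroup.le_normalizer_of_normal)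
      exact H26.not_dvd_index_of_sylow_le P
        (le_trans (fun x hx => H26.mem_cent.mpr (hc x hx)) (h z hz.2 hz1)) h1
    · intro h x hx hx1 c hc
      by_contra hcN
      obtain ⟨y, hy, hp⟩ := H1.exists_prime_orderOf_mem (H := Subgroup.zpowers x)
        (by rwa [Ne, Subgroup.zpowers_eq_bot])
      have hyM : y ∈ M := Subgroup.zpowers_le.mpr hx hy
      have : Fact (orderOf y).Prime := ⟨hp⟩
      obtain ⟨a, b, ha, hb, ⟨k, hk⟩, hcop, rfl⟩ := H3.exists_p_part (orderOf y) c
      have haN : a ∈ N := by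
        apply H26.mem_of_forall_prime_pow
        intro q hq hd
        refine ⟨N.index, fun hd2 => ?_, N.pow_index_mem a⟩
        have := (Nat.prime_dvd_prime_iff_eq hq hp).mp
          (hq.dvd_of_dvd_pow (hd.trans (orderOf_dvd_of_pow_eq_one hk)))
        subst this
        exact hq.one_lt.ne' (Nat.eq_one_of_dvd_coprimes h hd2 (M.orderOf_dvd_natCard hyM))
      have hbN : b ∉ N := fun h => hcN (N.mul_mem haN h)
      have e1 : Commute b y := H26.mem_cent.mp
        (Subgroup.zpowers_le.mpr (H26.cent_le_cent_of_mem_zpowers hy hc) hb)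
      obtain ⟨g, hg⟩ := hcam b hbN y hyM
      have e2 : orderOf (g * b * g⁻¹) = orderOf b :=
        (SemiconjBy.orderOf_eq g (by simp [SemiconjBy])).symm
      rw [hg, e1.orderOf_mul_eq_mul_orderOf_of_coprime hcop] at e2
      have := orderOf_pos b
      nth_rewrite 2 [← mul_one (orderOf b)] at e2
      exact hp.one_lt.ne' (Nat.eq_of_mul_eq_mul_left this e2)
  refine ⟨key, fun h => ?_⟩
  obtain ⟨H, h1, h2⟩ := H2.exists_sup_eq_top_inf_le_frattini N
  refine ⟨H, by rw [sup_comm, h1], (Subgroup.disjoint_of_coprime_natCard ?_).eq_bot⟩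
  by_contra hn
  obtain ⟨p, hp, h3, h4⟩ := Nat.Prime.not_coprime_iff_dvd.mp hn
  have h5 := S0049.result p hp h3
  have h6 : N.subgroupOf H ≤ frattini H := by
    intro x hx
    obtain ⟨y, hy, e⟩ := h2 ⟨hx, x.2⟩
    rwa [← Subtype.ext e]
  have h7 := h5.trans ((Subgroup.index_dvd_of_le h6).trans (Subgroup.relIndex_dvd_index_of_normal N H))
  exact hp.one_lt.ne' (Nat.eq_one_of_dvd_coprimes (key.mp h) h7 h4)

end Cfsg.Agent.S4112
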