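import Cfsg.Statements.S4115
import Cfsg.Agent.S4118
import Cfsg.Agent.H4.Frobenius
import Cfsg.Agent.H26.Act
import Cfsg.Agent.H1.Generation
import Cfsg.Agent.H2.Prim
import Cfsg.Agent.H3.Misc1
import Cfsg.Agent.H2.Frattini

set_option autoImplicit false
universe u
open Cfsg

namespace Cfsg.Agent.S4115

open Subgroup

theorem exists_M {G : Type*} [Group G] [Finite G] (H : Subgroup G) (hTI : IsTISubset (H : Set G))
    (N : Subgroup G) (hN : N = normalizer (H : Set G))
    (hHall : (Nat.card H).Coprime (H.subgroupOf N).index) (K : Subgroup N) (hK : K.Normal)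
    (hc : K.IsComplement' (H.subgroupOf N)) :
    ∃ M : Subgroup G, M.Normal ∧ M.IsComplement' H ∧ M ⊓ N ≤ centralizer (H : Set G) ∧
      (Nat.card H).Coprime (Nat.card ↥(M ⊓ N)) := by
  haveI : (H.subgroupOf N).Normal := hN ▸ inferInstance
  have hHN : H ≤ N := hN ▸ le_normalizer
  have hcard : Nat.card (H.subgroupOf N) = Nat.card H := H1.card_subgroupOf_of_le hHN
  obtain ⟨M, hM, h1, h2, -⟩ := H4.frobenius_wielandt N (K.map N.subtype) (by
    rintro h hh _ _ ⟨l, hl, rfl⟩
    exact ⟨_, hK.conj_mem l hl ⟨h, hh⟩, rfl⟩) (by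
    intro g hg x hx hgx
    have a : x ^ (H.subgroupOf N).index ∈ H := (H.subgroupOf N).pow_index_mem ⟨x, hx⟩
    have b : (g * x * g⁻¹) ^ (H.subgroupOf N).index ∈ H := (H.subgroupOf N).pow_index_mem ⟨_, hgx⟩
    rw [conj_pow] at b
    have c := hTI g (hN ▸ hg) _ a b
    refine ⟨⟨x, hx⟩, ?_, rfl⟩
    have d : (⟨x, hx⟩ : N) ^ K.index ∈ K := K.pow_index_mem _
    rw [hc.symm.index_eq_card, hcard] at d
    have e : (⟨x, hx⟩ : N) ^ (H.subgroupOf N).index ∈ K := by
      rw [show (⟨x, hx⟩ : N) ^ (H.subgroupOf N).index = 1 from Subtype.ext c]; exact K.one_mem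
    exact H3.mem_of_pow_mem_of_coprime hHall d e)
  rw [inf_eq_left.2 (map_subtype_le K)] at h1
  have hd : K.map N.subtype ⊓ H = ⊥ := by
    rw [eq_bot_iff]
    rintro _ ⟨⟨x, hx, rfl⟩, hx'⟩
    have : x ∈ K ⊓ H.subgroupOf N := mem_inf.2 ⟨hx, hx'⟩
    rw [hc.disjoint.eq_bot, mem_bot] at this
    simp [this]
  have hs : K.map N.subtype ⊔ H = N := by
    have := congrArg (Subgroup.map N.subtype) hc.sup_eq_top
    rwa [Subgroup.map_sup, subgroupOf_map_subtype, inf_eq_left.2 hHN, ← MonoidHom.range_eq_map,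
      range_subtype] at this
  refine ⟨M, hM, H2.isComplement'_of_normal ?_ ?_, ?_, ?_⟩
  · rw [← inf_eq_right.2 hHN, ← inf_assoc, h1, hd]
  · rw [eq_top_iff, ← h2]
    refine sup_le le_sup_left (hs.ge.trans (sup_le_sup_right (h1 ▸ inf_le_left) _))
  · rw [h1, ← commutator_eq_bot_iff_le_centralizer, eq_bot_iff, ← hd]
    refine commutator_le.2 ?_
    rintro _ ⟨k, hk, rfl⟩ h hh
    refine mem_inf.2 ⟨⟨k * (⟨h, hHN hh⟩ * k⁻¹ * (⟨h, hHN hh⟩ : N)⁻¹),
      K.mul_mem hk (hK.conj_mem _ (K.inv_mem hk) _), by simp [commutatorElement_def, mul_assoc]⟩, ?_⟩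
    exact H.mul_mem (((hN.le k.2) h).1 hh) (H.inv_mem hh)
  · rw [h1, card_map_of_injective N.subtype_injective, ← hc.index_eq_card]
    exact hHall

/-- Let G be a finite group and H a subgroup that meets each of its conjugates by elements outside N_G(H) trivially and whose order is coprime to its index in N_G(H). Then H has a normal complement in N_G(H) if and only if H has a normal complement in G. Moreover, if H is not normal in G and has a normal complement in N_G(H), then H is isomorphic to a Frobenius complement of some finite Frobenius group. -/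
theorem result {G : Type u} [Group G] [Finite G] (H : Subgroup G)
    (hTI : Cfsg.IsTISubset (H : Set G)) (hHall : (Nat.card H).Coprime (H.subgroupOf (Subgroup.normalizer (H : Set G))).index) :
    ((∃ K : Subgroup (Subgroup.normalizer (H : Set G)), K.Normal ∧ K.IsComplement' (H.subgroupOf (Subgroup.normalizer (H : Set G)))) ↔
      (∃ N : Subgroup G, N.Normal ∧ N.IsComplement' H)) ∧
    (¬ H.Normal → (∃ K : Subgroup (Subgroup.normalizer (H : Set G)), K.Normal ∧ K.IsComplement' (H.subgroupOf (Subgroup.normalizer (H : Set G)))) →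
      ∃ (F : Type u) (_ : Group F) (_ : Finite F) (C : Subgroup F), Cfsg.IsFrobeniusComplement C ∧ Nonempty (H ≃* C)) := by
  refine ⟨⟨fun ⟨K, hK, hc⟩ => ?_, fun ⟨M, hM, hc⟩ => ⟨M.subgroupOf _, inferInstance, ?_⟩⟩,
    fun hnn ⟨K, hK, hc⟩ => ?_⟩
  · obtain ⟨M, h1, h2, -⟩ := exists_M H hTI _ rfl hHall K hK hc
    exact ⟨M, h1, h2⟩
  · refine H2.isComplement'_of_normal ?_ ?_
    · rw [subgroupOf, subgroupOf, ← comap_inf, hc.disjoint.eq_bot]; exact bot_subgroupOf _
    · rw [eq_top_iff]
      rintro ⟨x, hx⟩ -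
      obtain ⟨⟨m, h⟩, e⟩ := hc.2 x
      simp only at e
      have hm : (m : G) ∈ normalizer (H : Set G) := by
        rw [eq_mul_inv_of_mul_eq e]; exact mul_mem hx (inv_mem (le_normalizer h.2))
      rw [show (⟨x, hx⟩ : normalizer (H : Set G)) = ⟨m, hm⟩ * ⟨h, le_normalizer h.2⟩ from Subtype.ext e.symm]
      exact mul_mem_sup m.2 h.2
  · obtain ⟨M, hM, hc, h1, h2⟩ := exists_M H hTI _ rfl hHall K hK hc
    have hfix : ∀ x ∈ H, x ≠ 1 → M ⊓ centralizer ({x} : Set G) ≤ M ⊓ normalizer (H : Set G) := by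
      intro x hx hx1 m hm
      refine mem_inf.2 ⟨hm.1, ?_⟩
      by_contra h
      exact hx1 (hTI m h x hx (by rwa [mem_centralizer_singleton_iff.1 hm.2, mul_inv_cancel_right]))
    have hcop : (Nat.card H).Coprime (Nat.card M) := by
      apply Nat.coprime_of_dvd
      intro p hp hpH hpM
      haveI := Fact.mk hp
      obtain ⟨⟨x, hx⟩, ho⟩ := exists_prime_orderOf_dvd_card' (G := H) p hpH
      rw [Subgroup.orderOf_mk] at ho
      have hx1 : x ≠ 1 := fun h => by rw [h, orderOf_one] at ho; exact hp.one_lt.ne ho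
      have h3 := H2.card_modEq_card_inf_centralizer (q := p) (Q := zpowers x) (V := M)
        (IsPGroup.of_card (n := 1) (by rw [Nat.card_zpowers, ho, pow_one])) (H2.le_normalizer_of_normal' _ _)
      have h4 : p ∣ Nat.card ↥(M ⊓ normalizer (H : Set G)) :=
        ((h3.dvd_iff dvd_rfl).1 hpM).trans (card_dvd_of_le ((inf_le_inf_left _ (centralizer_le
          (Set.singleton_subset_iff.2 (mem_zpowers x)))).trans (hfix x hx hx1)))
      exact hp.one_lt.ne' (Nat.eq_one_of_dvd_coprimes h2 hpH h4)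
    obtain ⟨r, hr, R, hR, hHR, hRC⟩ : ∃ r : ℕ, r.Prime ∧ ∃ R, H1.IsSylowIn r R M ∧
        H ≤ normalizer (R : Set G) ∧ ¬ R ≤ centralizer (H : Set G) := by
      by_contra hcon
      push Not at hcon
      have : M ≤ centralizer (H : Set G) := H1.le_of_forall_exists_isSylowIn_le fun r hr => by
        haveI := Fact.mk hr
        obtain ⟨R, h1, h2⟩ := H1.exists_invariant_isSylowIn r (H2.le_normalizer_of_normal' M H) hcop
          (H26.solvable_or_of_coprime hcop)
        exact ⟨R, h1, hcon r hr R h1 h2⟩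
      exact hnn (H2.normal_of_sup_eq_top (this.trans (centralizer_le_normalizer _)) le_normalizer
        hc.sup_eq_top)
    haveI := Fact.mk hr
    have hfr := S4118.freeRep_of_semiprime hHR (H1.isSolvable_of_isPGroup hR.isPGroup)
      (hcop.coprime_dvd_right (card_dvd_of_le hR.le)).symm (fun h => hRC (le_centralizer_iff.1 h))
      fun x hx hx1 => ((inf_le_inf_right _ hR.le).trans (hfix x hx hx1)).trans h1
    haveI : Nontrivial H := (nontrivial_iff_ne_bot H).2 fun h => hnn (h ▸ inferInstance)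
    obtain ⟨V, _, _, _, _, φ, h⟩ := hfr.exists_semireg
    obtain ⟨L, _, _, C, h1, h2, -⟩ := H26.exists_frob_of_semireg h
    exact ⟨L, _, inferInstance, C, h1, h2⟩

end Cfsg.Agent.S4115
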