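import Cfsg.Statements.S4116
import Cfsg.Agent.H26.Frob

set_option autoImplicit false
open Cfsg

namespace Cfsg.Agent.S4116

open scoped Pointwise

/-- Let G be a finite group with a subgroup H whose order is coprime to its index (a Hall subgroup) and which meets each of its conjugates by elements outside N_G(H) trivially. Then every subgroup of G whose order is divisible only by primes dividing the order of H lies in a conjugate of H. -/
theorem result {G : Type*} [Group G] [Finite G] (H : Subgroup G)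
    (hHall : (Nat.card H).Coprime H.index) (hTI : Cfsg.IsTISubset (H : Set G))
    (K : Subgroup G) (hK : ∀ q : ℕ, q.Prime → q ∣ Nat.card K → q ∣ Nat.card H) :
    ∃ g : G, K ≤ H.map (MulAut.conj g).toMonoidHom := by
  have hA : ∀ x : G, (orderOf x).Prime → orderOf x ∣ Nat.card H → ∃ g : G, x ∈ MulAut.conj g • H := by
    intro x hp hd
    have : Fact (orderOf x).Prime := ⟨hp⟩
    obtain ⟨P, hP⟩ := H26.exists_sylow_le_of_not_dvd_index (p := orderOf x) (H := H)
      fun h => hp.one_lt.ne' (Nat.eq_one_of_dvd_coprimes hHall hd h)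
    have h1 : IsPGroup (orderOf x) (Subgroup.zpowers x) :=
      IsPGroup.of_card (n := 1) (by rw [Nat.card_zpowers, pow_one])
    obtain ⟨Q, hQ⟩ := h1.exists_le_sylow
    obtain ⟨g, rfl⟩ := MulAction.exists_smul_eq G P Q
    exact ⟨g, H1.mem_conj_smul.mpr (hP (H26.mem_smul_sylow.mp (hQ (Subgroup.mem_zpowers x))))⟩
  have hB : ∀ g : G, (MulAut.conj g • H).subgroupOf K ≠ ⊥ → (MulAut.conj g • H).subgroupOf K ≠ ⊤ →
      IsFrobeniusComplement ((MulAut.conj g • H).subgroupOf K) := by
    intro g h1 h2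
    refine ⟨h1, h2, fun k hk => eq_bot_iff.mpr ?_⟩
    rintro y ⟨hy1, hy2⟩
    have a1 : g⁻¹ * y * g ∈ H := H1.mem_conj_smul.mp hy1
    have a0 : k⁻¹ * y * k ∈ (MulAut.conj g • H).subgroupOf K := H1.mem_conj_smul.mp hy2
    have a2 : g⁻¹ * ((k : G)⁻¹ * y * k) * g ∈ H := H1.mem_conj_smul.mp a0
    by_contra hy
    apply hk
    have a3 : g⁻¹ * (k : G)⁻¹ * g ∈ Subgroup.normalizer (H : Set G) := by
      by_contra hn
      have := hTI _ hn _ a1 (by rw [SetLike.mem_coe]; convert a2 using 1; group)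
      apply hy
      rw [Subgroup.mem_bot]
      apply Subtype.ext
      calc (y : G) = g * (g⁻¹ * y * g) * g⁻¹ := by group
        _ = 1 := by rw [this]; group
    have a4 := H26.mem_of_mem_normalizer_of_hall a3 fun p hp hd hd2 => by
      have e : orderOf (g⁻¹ * (k : G)⁻¹ * g) = orderOf (k : G) := by
        rw [← orderOf_inv (k : G)]
        exact SemiconjBy.orderOf_eq g (by simp [SemiconjBy, mul_assoc])
      rw [e] at hd
      exact hp.one_lt.ne' (Nat.eq_one_of_dvd_coprimes hHall (hK p hp (hd.trans (K.orderOf_dvd_natCard k.2)))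
        (hd2.trans (Subgroup.relIndex_dvd_index_of_le Subgroup.le_normalizer)))
    rw [Subgroup.mem_subgroupOf, H1.mem_conj_smul]
    simpa [mul_assoc] using H.inv_mem a4
  by_contra hn
  push Not at hn
  have hT : ∀ g : G, (MulAut.conj g • H).subgroupOf K ≠ ⊤ := fun g h =>
    hn g (Subgroup.subgroupOf_eq_top.mp h)
  have hC : ∀ z : K, z ≠ 1 → ∃ g : G, z ∈ (MulAut.conj g • H).subgroupOf K ∧
      IsFrobeniusComplement ((MulAut.conj g • H).subgroupOf K) := by
    intro z hz
    obtain ⟨y, hy, hp⟩ := H1.exists_prime_orderOf_mem (H := Subgroup.zpowers z)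
      (by rwa [Ne, Subgroup.zpowers_eq_bot])
    have hp' : (orderOf (y : G)).Prime := by rwa [Subgroup.orderOf_coe]
    obtain ⟨g, hg⟩ := hA y hp' (hK _ hp' (K.orderOf_dvd_natCard y.2))
    have hy1 : y ≠ 1 := by rintro rfl; rw [orderOf_one] at hp; exact Nat.not_prime_one hp
    have h1 := hB g (fun h => hy1 (Subgroup.mem_bot.mp (h ▸ hg))) (hT g)
    exact ⟨g, H1.centralizer_le_of_isFrobeniusComplement h1 hg hy1
      (H26.cent_le_cent_of_mem_zpowers hy (H26.mem_cent_self z)), h1⟩
  have hK1 : K ≠ ⊥ := fun h => hn 1 (h ▸ bot_le)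
  obtain ⟨z, hz⟩ := @exists_ne _ ((Subgroup.nontrivial_iff_ne_bot K).mpr hK1) 1
  obtain ⟨g, -, h1⟩ := hC z hz
  have h2 : ∃ w : K, ∀ x : K, x * w * x⁻¹ ∉ (MulAut.conj g • H).subgroupOf K := by
    by_contra hc
    push Not at hc
    exact hT g (H4.eq_top_of_forall_exists_conj_mem _ hc)
  obtain ⟨w, hw⟩ := h2
  obtain ⟨g', h3, h4⟩ := hC w (by rintro rfl; exact hw 1 (by simp))
  obtain ⟨k, hk⟩ := H1.exists_conj_eq_of_isFrobeniusComplement h1 h4
  apply hw k
  rw [← hk, H1.mem_conj_smul]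
  simpa [mul_assoc] using h3

end Cfsg.Agent.S4116
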