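import Cfsg.Statements.S4117
import Cfsg.Agent.H26.HolAct
import Cfsg.Agent.BG.S01a
import Cfsg.Agent.H10.Comp
import Cfsg.Agent.H1.SylowIn

set_option autoImplicit false
open Cfsg

namespace Cfsg.Agent.S4117

open Subgroup in
theorem amb {Γ : Type*} [Group Γ] [Finite Γ] {K A : Subgroup Γ} (hK : IsZGroup K)
    (hAK : A ≤ normalizer (K : Set Γ)) (hcop : (Nat.card A).Coprime (Nat.card K)) :
    (Nat.card (K ⊓ centralizer (A : Set Γ) : Subgroup Γ)).Coprime
      ((K ⊓ centralizer (A : Set Γ)).relIndex K) ∧ IsCyclic (⁅K, A⁆ : Subgroup Γ) ∧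
      ⁅K, A⁆ ⊓ centralizer (A : Set Γ) = ⊥ := by
  have hs : Group.IsSolvable A ∨ Group.IsSolvable K := Or.inr inferInstance
  have hR : ⁅K, A⁆ ≤ K := H1.commutator_le_left_of_le_normalizer hAK
  have h2 : IsCyclic (⁅K, A⁆ : Subgroup Γ) := by
    have h3 : ⁅K ⊔ A, K ⊔ A⁆ ≤ centralizer ((⁅K, K⁆ : Subgroup Γ) : Set Γ) :=
      BG.der1_cent_cyclic (BG.Zgroup_der1_cyclic hK).1
        (H1.le_normalizer_commutator (H1.sup_le_normalizer_left hAK) (H1.sup_le_normalizer_left hAK))
    have h4 : ⁅K, A⁆ ≤ centralizer ((⁅K, K⁆ : Subgroup Γ) : Set Γ) :=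
      (commutator_mono le_sup_left le_sup_right).trans h3
    have h5 : Group.IsNilpotent (⁅K, A⁆ : Subgroup Γ) := H10.isNilpotent_of_commutator_commutator (by
      rw [commutator_comm, commutator_eq_bot_iff_le_centralizer]
      exact h4.trans (centralizer_le (commutator_mono hR hR)))
    have : IsZGroup (⁅K, A⁆ : Subgroup Γ) := IsZGroup.of_injective (f := inclusion hR)
      (inclusion_injective hR)
    infer_instance
  refine ⟨?_, h2, ?_⟩
  · refine Nat.coprime_of_dvd fun p hp h3 h4 => ?_
    have := Fact.mk hp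
    obtain ⟨P, hP, hAP⟩ := H1.exists_invariant_isSylowIn p hAK hcop hs
    have h5 := H1.isSylowIn_inf_centralizer hAK hcop hs hP hAP
    have : IsCyclic P := BG.Zgroup_iff.mp hK p hp P hP.le hP.isPGroup
    have hc : (Nat.card A).Coprime (Nat.card P) := hcop.coprime_dvd_right (card_dvd_of_le hP.le)
    rcases hP.isPGroup.commutator_eq_bot_or_commutator_eq_self hAP hc.symm with h6 | h6
    · have h7 : P ≤ K ⊓ centralizer (A : Set Γ) :=
        le_inf hP.le (le_centralizer_iff.mp (commutator_eq_bot_iff_le_centralizer.mp h6))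
      exact hP.not_dvd (h4.trans (Dvd.intro_left _ (relIndex_mul_relIndex _ _ _ h7 inf_le_left)))
    · have h7 := H1.inf_centralizer_inf_commutator_eq_bot hAP hc
      rw [commutator_comm, h6, inf_eq_left.mpr inf_le_left] at h7
      exact h5.ne_bot h3 h7
  · have h7 := H1.inf_centralizer_inf_commutator_eq_bot (A := A) (V := ⁅K, A⁆)
      (H1.le_normalizer_commutator hAK le_normalizer) (hcop.coprime_dvd_right (card_dvd_of_le hR))
    rwa [H1.commutator_commutator_eq hAK hcop, inf_eq_left.mpr inf_le_left] at h7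

/-- Let A be a finite group acting on the finite group G by automorphisms with the orders of A and G coprime, and suppose every Sylow subgroup of G is cyclic. Then the fixed-point subgroup C_G(A) is a Hall subgroup of G (its order is coprime to its index), the subgroup [G, A] generated by the elements g⁻¹·a(g) is cyclic and normal with [G, A] ∩ C_G(A) = 1 and [G, A]·C_G(A) = G. -/
theorem result {G A : Type*} [Group G] [Finite G] [Group A] [Finite A]
    [MulDistribMulAction A G] (hcop : (Nat.card A).Coprime (Nat.card G))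
    (hcyc : ∀ (p : ℕ) [Fact p.Prime] (P : Sylow p G), IsCyclic (P : Subgroup G)) :
    (Nat.card (MulAction.fixedPoints A G : Set G)).Coprime (Nat.card G / Nat.card (MulAction.fixedPoints A G : Set G)) ∧
    IsCyclic (Subgroup.closure {y : G | ∃ (a : A) (g : G), y = g⁻¹ * a • g}) ∧
    (Subgroup.closure {y : G | ∃ (a : A) (g : G), y = g⁻¹ * a • g}).Normal ∧
    (Subgroup.closure {y : G | ∃ (a : A) (g : G), y = g⁻¹ * a • g} : Set G) ∩ MulAction.fixedPoints A G = {1} ∧
    Subgroup.closure {y : G | ∃ (a : A) (g : G), y = g⁻¹ * a • g} ⊔ Subgroup.closure (MulAction.fixedPoints A G) = ⊤ := by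
  have hZ : IsZGroup G := ⟨fun p hp P => by have := Fact.mk hp; exact hcyc p P⟩
  set K := (⊤ : Subgroup G).map (H26.ambL A G) with hK
  have hKZ : IsZGroup K := by
    have : IsZGroup (⊤ : Subgroup G) := inferInstance
    exact IsZGroup.of_surjective (MonoidHom.subgroupMap_surjective (H26.ambL A G) ⊤)
  have hc : (Nat.card (H26.ambA A G)).Coprime (Nat.card K) := by
    rwa [H26.card_ambA, H26.card_ambL, Subgroup.card_top]
  obtain ⟨h1, h2, h3⟩ := amb hKZ H26.ambA_le_normalizer_top hc
  have h4 := H1.commutator_sup_centralizer H26.ambA_le_normalizer_top hc (Or.inr inferInstance)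
  rw [← H26.map_fixedPoints, ← H26.map_closure_comm] at h4
  rw [← H26.map_fixedPoints, H26.card_ambL, hK, Subgroup.relIndex_map_map_of_injective _ _ H26.ambL_inj,
    Subgroup.relIndex_top_right] at h1
  have h5 : ⁅K, H26.ambA A G⁆ ⊓ (K ⊓ Subgroup.centralizer (H26.ambA A G)) = ⊥ :=
    eq_bot_iff.mpr (h3 ▸ inf_le_inf_left _ inf_le_right)
  rw [← H26.map_fixedPoints, ← H26.map_closure_comm, ← Subgroup.map_inf _ _ _ H26.ambL_inj,
    Subgroup.map_eq_bot_iff_of_injective _ H26.ambL_inj] at h5
  refine ⟨?_, ?_, ?_, ?_, ?_⟩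
  · have : Nat.card G / Nat.card (FixedPoints.subgroup A G) = (FixedPoints.subgroup A G).index := by
      rw [← (FixedPoints.subgroup A G).card_mul_index, Nat.mul_div_cancel_left _ Nat.card_pos]
    change (Nat.card (FixedPoints.subgroup A G)).Coprime (Nat.card G / Nat.card (FixedPoints.subgroup A G))
    rwa [this]
  · rw [← H26.map_closure_comm] at h2
    exact isCyclic_of_surjective _ (Subgroup.equivMapOfInjective _ (H26.ambL A G) H26.ambL_inj).symm.surjective
  · refine ⟨fun x hx g => ?_⟩
    have h6 : K ≤ Subgroup.normalizer ((⁅K, H26.ambA A G⁆ : Subgroup _) : Set (H26.Amb A G)) :=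
      Subgroup.normalizer_commutator_ge_left _ _
    rw [← H26.map_closure_comm] at h6
    have := H1.conj_mem_of_le_normalizer h6 (x := H26.ambL A G g) ⟨g, trivial, rfl⟩
      (Subgroup.mem_map_of_mem _ hx)
    rwa [← map_inv, ← map_mul, ← map_mul, Subgroup.mem_map_iff_mem H26.ambL_inj] at this
  · exact congrArg (SetLike.coe) h5
  · rw [← Subgroup.map_sup] at h4
    rw [show MulAction.fixedPoints A G = (FixedPoints.subgroup A G : Set G) from rfl, Subgroup.closure_eq]
    exact Subgroup.map_injective H26.ambL_inj h4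

end Cfsg.Agent.S4117
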