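import Cfsg.Statements.S4125
import Cfsg.Agent.H26.Baer

set_option autoImplicit false
open Cfsg

namespace Cfsg.Agent.S4125


/-- Let G be a finite group and q a prime dividing its order such that every element of q-power order has a conjugacy class of prime-power size. Then G is q-solvable of q-length 1: there are normal subgroups K ≤ L of G with K of order prime to q, L/K a q-group and L of index prime to q. Moreover there is a prime p such that every element of q-power order has a class of p-power size (one prime serving for all of them), and for a Sylow q-subgroup Q: if p = q then Q is normal with a normal complement (a direct factor), while if p ≠ q then Q is abelian, the product of Q with the largest normal p-subgroup O_p(G) is normal in G, and G/O_{q'}(G) is solvable, where O_{q'}(G) is the largest normal subgroup of order prime to q. -/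
theorem result {G : Type*} [Group G] [Finite G] (q : ℕ) [Fact q.Prime] (hq : q ∣ Nat.card G)
    (hBaer : ∀ x : G, (∃ k : ℕ, orderOf x = q ^ k) → ∃ (r : ℕ) (a : ℕ), r.Prime ∧ (Subgroup.centralizer ({x} : Set G)).index = r ^ a) (Q : Sylow q G) :
    (∃ K L : Subgroup G, K.Normal ∧ L.Normal ∧ K ≤ L ∧ (Nat.card K).Coprime q ∧ (∃ m : ℕ, K.relIndex L = q ^ m) ∧ L.index.Coprime q) ∧
    ∃ p : ℕ, p.Prime ∧ (∀ x : G, (∃ k : ℕ, orderOf x = q ^ k) → ∃ a : ℕ, (Subgroup.centralizer ({x} : Set G)).index = p ^ a) ∧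
      (p = q → (Q : Subgroup G).Normal ∧ ∃ N : Subgroup G, N.Normal ∧ N.IsComplement' (Q : Subgroup G)) ∧
      (p ≠ q → IsMulCommutative (Q : Subgroup G) ∧ (Cfsg.pCore p G ⊔ (Q : Subgroup G)).Normal ∧
        ∀ _h : (Cfsg.pPrimeCore q G).Normal, Group.IsSolvable (G ⧸ Cfsg.pPrimeCore q G)) := by
  open Subgroup H26 in
  obtain ⟨p, hp, hall⟩ := baer_exists_prime hBaer
  haveI := Fact.mk hp
  have hq' : q.Prime := Fact.out
  have h1 : p = q → (Q : Subgroup G).Normal := by
    rintro rfl
    have hQ : (Q : Subgroup G) = pCore p G :=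
      le_antisymm (fun z hz => by
        obtain ⟨a, ha⟩ := hall z (exists_orderOf_of_mem Q.isPGroup' hz)
        exact mem_pCore_of_index_pow (exists_orderOf_of_mem Q.isPGroup' hz) ha) (H1.pCore_le_sylow Q)
    exact hQ ▸ inferInstance
  have h2 : p ≠ q → IsMulCommutative (Q : Subgroup G) ∧ (pCore p G ⊔ (Q : Subgroup G)).Normal := by
    intro hpq
    have hf := QuotientGroup.mk'_surjective (pCore p G)
    have key : ∀ x ∈ (Q : Subgroup G), QuotientGroup.mk' (pCore p G) x ∈ fittingSubgroup (G ⧸ pCore p G) ∧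
        fittingSubgroup (G ⧸ pCore p G) ≤ centralizer {QuotientGroup.mk' (pCore p G) x} := by
      intro x hx
      obtain ⟨a, ha⟩ := hall x (exists_orderOf_of_mem Q.isPGroup' hx)
      have := index_cent_map_dvd hf x
      rw [ha] at this
      obtain ⟨j, -, hj⟩ := (Nat.dvd_prime_pow hp).1 this
      exact mem_fitting_of_index_pow (H1.pCore_quotient_pCore p) hj
    constructor
    · refine ⟨⟨fun x y => Subtype.ext ?_⟩⟩
      have h3 := mem_cent.1 ((key y y.2).2 (key x x.2).1)
      rw [← map_mul, ← map_mul, QuotientGroup.mk'_apply, QuotientGroup.mk'_apply, QuotientGroup.eq] at h3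
      have h4 := (IsPGroup.disjoint_of_ne p q hpq _ _ (H1.isPGroup_pCore p G) Q.isPGroup').le_bot
        (mem_inf.2 ⟨h3, mul_mem (inv_mem (mul_mem x.2 y.2)) (mul_mem y.2 x.2)⟩)
      exact inv_mul_eq_one.1 (mem_bot.1 h4)
    · have h3 : (Q : Subgroup G).map (QuotientGroup.mk' (pCore p G)) ≤ pCore q (G ⧸ pCore p G) :=
        H1.le_pCore_of_le_fittingSubgroup (Q.isPGroup'.map _) (by rintro _ ⟨x, hx, rfl⟩; exact (key x hx).1)
      have h4 : (Q : Subgroup G).map (QuotientGroup.mk' (pCore p G)) = pCore q (G ⧸ pCore p G) :=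
        le_antisymm h3 (H1.pCore_le_sylow (Q.mapSurjective hf))
      have h5 : pCore p G ⊔ (Q : Subgroup G) = (pCore q (G ⧸ pCore p G)).comap (QuotientGroup.mk' _) := by
        rw [← h4, comap_map_eq, QuotientGroup.ker_mk', sup_comm]
      rw [h5]
      infer_instance
  refine ⟨?_, p, hp, hall, fun hpq => ⟨h1 hpq, ?_⟩, fun hpq => ⟨(h2 hpq).1, (h2 hpq).2, fun _ => ?_⟩⟩
  · by_cases hpq : p = q
    · refine ⟨⊥, Q, inferInstance, h1 hpq, bot_le, by simp, ?_, (hq'.coprime_iff_not_dvd.2 Q.not_dvd_index).symm⟩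
      rw [relIndex_bot_left]
      exact IsPGroup.iff_card.1 Q.isPGroup'
    · refine ⟨pCore p G, pCore p G ⊔ Q, inferInstance, (h2 hpq).2, le_sup_left, ?_, ?_,
        (hq'.coprime_iff_not_dvd.2 (not_dvd_index_of_sylow_le Q le_sup_right)).symm⟩
      · exact H1.coprime_card_of_isPGroup (H1.isPGroup_pCore p G)
          (fun hd => hpq ((Nat.prime_dvd_prime_iff_eq hp hq').1 hd))
      · rw [H1.relIndex_sup_of_le_normalizer (by rw [normalizer_eq_top]; exact le_top)]
        obtain ⟨n, hn⟩ := IsPGroup.iff_card.1 Q.isPGroup'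
        obtain ⟨j, -, hj⟩ := (Nat.dvd_prime_pow hq').1 (hn ▸ relIndex_dvd_card (pCore p G) (Q : Subgroup G))
        exact ⟨j, hj⟩
  · haveI := h1 hpq
    subst hpq
    exact exists_normal_complement_of_closure Q fun x hx =>
      subset_closure ⟨hx, hall x (exists_orderOf_of_mem Q.isPGroup' hx)⟩
  · obtain ⟨h3, h4⟩ := h2 hpq
    have hf := QuotientGroup.mk'_surjective (pPrimeCore q G)
    have h5 : ((Q.mapSurjective hf : Sylow q _) : Subgroup (G ⧸ pPrimeCore q G)) =
        (pCore p G ⊔ (Q : Subgroup G)).map (QuotientGroup.mk' _) := by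
      rw [Subgroup.map_sup, (Subgroup.map_eq_bot_iff _).2, bot_sup_eq]
      · rfl
      · rw [QuotientGroup.ker_mk']
        exact H1.pCore_le_pPrimeCore ((Nat.coprime_primes hq' hp).2 (Ne.symm hpq))
    haveI : ((Q.mapSurjective hf : Sylow q _) : Subgroup (G ⧸ pPrimeCore q G)).Normal := h5 ▸ h4.map _ hf
    haveI : IsMulCommutative ((Q.mapSurjective hf : Sylow q _) : Subgroup (G ⧸ pPrimeCore q G)) :=
      Subgroup.map_isMulCommutative _ _
    refine isSolvable_of_abelian_sylow_index_pow hp (Q.mapSurjective hf) (H1.pPrimeCore_quotient_pPrimeCore q) ?_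
    rintro _ ⟨x, hx, rfl⟩
    obtain ⟨a, ha⟩ := hall x (exists_orderOf_of_mem Q.isPGroup' hx)
    exact ⟨a, ha ▸ index_cent_map_dvd hf x⟩

end Cfsg.Agent.S4125
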