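import Cfsg.Statements.S4130
import Cfsg.Agent.H26.SqFree
import Cfsg.Agent.H1.Cores
import Cfsg.Agent.H2.SS

set_option autoImplicit false
open Cfsg

namespace Cfsg.Agent.S4130

open Subgroup commutatorElement in
theorem ucs_two {G : Type*} [Group G] (C : Subgroup G) (h : C ≤ centralizer (_root_.commutator G : Set G)) :
    Subgroup.upperCentralSeries C 2 = ⊤ := by
  rw [eq_top_iff]
  intro x _
  rw [Subgroup.mem_upperCentralSeries_succ_iff]
  intro y
  rw [Subgroup.upperCentralSeries_one, mem_center_iff]
  intro z
  apply Subtype.ext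
  have h1 : ((⁅x, y⁆ : C) : G) ∈ _root_.commutator G := by
    have : ((⁅x, y⁆ : C) : G) = ⁅(x : G), (y : G)⁆ := by simp [commutatorElement_def]
    rw [this, _root_.commutator_def]
    exact commutator_mem_commutator (mem_top _) (mem_top _)
  have := h z.2 _ h1
  simpa using this.symm

/-- Let G be a finite group all of whose conjugacy class sizes are square-free. Then G is supersolvable, G/F(G) and the derived subgroup G′ are cyclic of square-free order (F(G) the Fitting subgroup, which is normal), F(G) has nilpotency class at most 2, and G is metabelian. -/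
theorem result {G : Type*} [Group G] [Finite G]
    (h : ∀ x : G, Squarefree (Subgroup.centralizer ({x} : Set G)).index) :
    Cfsg.IsSupersolvable G ∧ (Cfsg.fittingSubgroup G).Normal ∧
    (∀ _h : (Cfsg.fittingSubgroup G).Normal, IsCyclic (G ⧸ Cfsg.fittingSubgroup G) ∧ Squarefree (Cfsg.fittingSubgroup G).index) ∧
    IsCyclic (commutator G) ∧ Squarefree (Nat.card (commutator G)) ∧
    Subgroup.upperCentralSeries ↥(Cfsg.fittingSubgroup G) 2 = ⊤ ∧ commutator ↥(commutator G) = ⊥ := by
  open Subgroup in
  have hsq : ∀ p : ℕ, p.Prime → ∀ x : G, ¬ p ^ 2 ∣ (centralizer ({x} : Set G)).index := by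
    intro p hp x hd
    exact Nat.squarefree_iff_prime_squarefree.1 (h x) p hp (by rwa [← sq])
  have hs : Group.IsSolvable G := H26.isSolvable_of_not_four_dvd G (fun x => hsq 2 Nat.prime_two x)
  have hss := H26.isSupersolvable_of_sqfree G hs hsq
  haveI hn := H2.isNilpotent_commutator_of_isSupersolvable hss
  have hsqf : Squarefree (Nat.card (_root_.commutator G)) := by
    rw [Nat.squarefree_iff_prime_squarefree]
    intro p hp
    haveI := Fact.mk hp
    rw [← sq]
    exact H26.not_sq_dvd_card_commutator H3.hasNormalPComplement_of_isNilpotent (hsq p hp)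
  haveI := IsZGroup.of_squarefree hsqf
  have hcyc : IsCyclic (_root_.commutator G) := inferInstance
  have hG'F : _root_.commutator G ≤ fittingSubgroup G := H1.le_fittingSubgroup hn
  haveI hFn := H1.isNilpotent_fittingSubgroup G
  have hFC : fittingSubgroup G ≤ centralizer (_root_.commutator G : Set G) := by
    rw [le_centralizer_iff]
    apply H1.le_of_forall_pSubgroup_le
    intro p hp _ P hP hPp
    haveI := Fact.mk hp
    by_cases hb : P = ⊥
    · rw [hb]; exact bot_le
    haveI : P.Normal := H2.normal_of_le_of_isCyclic hP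
    have hcard : Nat.card P = p := by
      obtain ⟨n, hn⟩ := IsPGroup.iff_card.1 hPp
      have hd := card_dvd_of_le hP
      rw [hn] at hd ⊢
      rcases n with _ | _ | n
      · exact absurd (eq_bot_of_card_eq P (by simpa using hn)) hb
      · simp
      · exfalso
        refine Nat.squarefree_iff_prime_squarefree.1 hsqf p hp (dvd_trans ?_ hd)
        rw [← sq]; exact pow_dvd_pow p (by omega)
    have hPF : P ≤ fittingSubgroup G := hP.trans hG'F
    have h1 := H2.inf_center_ne_bot (P.subgroupOf (fittingSubgroup G)) (by
      intro h0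
      apply hb
      rw [subgroupOf_eq_bot, disjoint_iff, inf_eq_left.2 hPF] at h0
      exact h0)
    obtain ⟨⟨x, hx⟩, hx1⟩ := (Subgroup.ne_bot_iff_exists_ne_one).1 h1
    have hx1' : (x : G) ≠ 1 := fun e => hx1 (Subtype.ext (Subtype.ext e))
    have hxP : (x : G) ∈ P := hx.1
    have hz : zpowers (x : G) = P := by
      apply eq_of_le_of_card_ge (zpowers_le.2 hxP)
      rw [hcard, Nat.card_zpowers]
      have h2 : orderOf (x : G) ∣ p := hcard ▸ Subgroup.orderOf_dvd_natCard _ hxP
      rcases (Nat.dvd_prime hp).1 h2 with h3 | h3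
      · exact absurd (orderOf_eq_one_iff.1 h3) hx1'
      · exact h3.ge
    rw [← hz, zpowers_le, mem_centralizer_iff]
    intro y hy
    have := mem_center_iff.1 hx.2 ⟨y, hy⟩
    exact congrArg Subtype.val this
  have hCF : centralizer (_root_.commutator G : Set G) ≤ fittingSubgroup G :=
    H1.le_fittingSubgroup ⟨2, ucs_two _ le_rfl⟩
  have hidx : Squarefree (fittingSubgroup G).index := by
    obtain ⟨c, hc⟩ := IsCyclic.exists_generator (α := _root_.commutator G)
    have : centralizer ({(c : G)} : Set G) ≤ fittingSubgroup G := by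
      refine le_trans ?_ hCF
      intro y hy
      rw [mem_centralizer_iff]
      intro z hz
      obtain ⟨k, hk⟩ := hc ⟨z, hz⟩
      have hk' : (c : G) ^ k = z := by simpa using congrArg Subtype.val hk
      have hyc : Commute (c : G) y := mem_centralizer_singleton_iff.1 hy |>.symm
      rw [← hk']
      exact (hyc.zpow_left k).eq
    exact (h c).squarefree_of_dvd (index_dvd_of_le this)
  refine ⟨hss, inferInstance, fun _ => ⟨?_, hidx⟩, hcyc, hsqf, ucs_two _ hFC, ?_⟩
  · haveI := IsZGroup.of_squarefree (G := G ⧸ fittingSubgroup G) hidx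
    haveI : IsMulCommutative (G ⧸ fittingSubgroup G) :=
      (Normal.quotient_commutative_iff_commutator_le).2 hG'F
    haveI : Group.IsNilpotent (G ⧸ fittingSubgroup G) := by
      refine ⟨1, ?_⟩
      rw [Subgroup.upperCentralSeries_one, eq_top_iff]
      intro x _
      rw [mem_center_iff]
      intro y
      exact mul_comm' y x
    infer_instance
  · letI := hcyc.commGroup
    rw [eq_bot_iff, _root_.commutator_def (_root_.commutator G), commutator_le]
    intro a _ b _
    rw [mem_bot, commutatorElement_eq_one_iff_mul_comm]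
    exact mul_comm a b

end Cfsg.Agent.S4130
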