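import Cfsg.Statements.S4139
import Cfsg.Agent.H26.PiPart
import Cfsg.Agent.H2.Frattini

set_option autoImplicit false
open Cfsg

namespace Cfsg.Agent.S4139

theorem card_idx {G : Type*} [Group G] [Finite G] (k : ℕ) :
    Nat.card {x : G // (Subgroup.centralizer ({x} : Set G)).index = k} =
      Nat.card {C : ConjClasses G // Nat.card C.carrier = k} * k := by
  have h1 : ∀ x : G, Nat.card (ConjClasses.mk x).carrier = (Subgroup.centralizer ({x} : Set G)).index := by
    intro x
    rw [← H4.card_isConj_eq_index]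
    refine Nat.card_congr (Equiv.subtypeEquivRight fun y => ?_)
    rw [ConjClasses.mem_carrier_iff_mk_eq, ConjClasses.mk_eq_mk_iff_isConj, isConj_comm]
  refine H26.card_eq_mul_of_fiber (fun x => ⟨ConjClasses.mk x.1, (h1 _).trans x.2⟩) k ?_
  rintro ⟨C, hC⟩
  obtain ⟨x, rfl⟩ := ConjClasses.mk_surjective C
  refine Eq.trans (Nat.card_congr ?_) hC
  exact ⟨fun y => ⟨y.1.1, ConjClasses.mem_carrier_iff_mk_eq.mpr (congrArg Subtype.val y.2)⟩,
    fun y => ⟨⟨y.1, by rw [← h1, ConjClasses.mem_carrier_iff_mk_eq.mp y.2, hC]⟩,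
      Subtype.ext (ConjClasses.mem_carrier_iff_mk_eq.mp y.2)⟩, fun _ => rfl, fun _ => rfl⟩

theorem idx_pow_iff {G : Type*} [Group G] [Finite G] (p : ℕ) [hp : Fact p.Prime] (x : G) :
    (∃ a, (Subgroup.centralizer ({x} : Set G)).index = p ^ a) ↔
      ∃ a, (Subgroup.centralizer ({x} : Set G)).relIndex (pResidual p G) = p ^ a := by
  constructor
  · rintro ⟨a, ha⟩
    obtain ⟨b, -, hb⟩ := (Nat.dvd_prime_pow hp.out).mp
      (ha ▸ H26.relIndex_dvd_index_of_normal_right _ (pResidual p G))
    exact ⟨b, hb⟩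
  · rintro ⟨a, ha⟩
    obtain ⟨n, hn⟩ := H3.exists_index_pResidual (G := G) (p := p)
    have h1 := Subgroup.relIndex_mul_index
      (inf_le_right : Subgroup.centralizer ({x} : Set G) ⊓ pResidual p G ≤ pResidual p G)
    rw [Subgroup.inf_relIndex_right, ha, hn, ← pow_add] at h1
    have h2 := Subgroup.index_dvd_of_le
      (inf_le_left : Subgroup.centralizer ({x} : Set G) ⊓ pResidual p G ≤ _)
    rw [← h1] at h2
    obtain ⟨b, -, hb⟩ := (Nat.dvd_prime_pow hp.out).mp h2
    exact ⟨b, hb⟩

theorem count {G : Type*} [Group G] [Finite G] (p : ℕ) [hp : Fact p.Prime] :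
    ∃ m, ¬ p ∣ m ∧ Nat.card {x : G // ∃ a, (Subgroup.centralizer ({x} : Set G)).index = p ^ a} =
      m * Nat.card (Subgroup.centralizer (pResidual p G : Set G)) := by
  set K := pResidual p G with hK
  set Z := Subgroup.centralizer (K : Set G) with hZ
  have hrel : ∀ x z : G, z ∈ Z → (Subgroup.centralizer ({x * z} : Set G)).relIndex K =
      (Subgroup.centralizer ({x} : Set G)).relIndex K := by
    intro x z hz
    rw [Subgroup.relIndex, Subgroup.relIndex]
    congr 1
    ext k
    rw [Subgroup.mem_subgroupOf, Subgroup.mem_subgroupOf, H26.mem_cent, H26.mem_cent,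
      mul_assoc x, ← hz k k.2, ← mul_assoc, ← mul_assoc, mul_left_inj]
  let Ω : Set (G ⧸ Z) := {q | ∃ x : G, (x : G ⧸ Z) = q ∧
    ∃ a, (Subgroup.centralizer ({x} : Set G)).index = p ^ a}
  refine ⟨Ω.ncard, ?_, ?_⟩
  · have h1 : (1 : G ⧸ Z) ∈ Ω := ⟨1, rfl, 0, H26.index_cent_eq_one_iff.mpr (Subgroup.one_mem _)⟩
    have h2 : p ∣ (Ω \ {1}).ncard := by
      apply H19.dvd_ncard_of_invariant' (H := ConjAct (G ⧸ Z))
      · rintro g _ ⟨⟨x, rfl, a, ha⟩, h2⟩
        obtain ⟨g, rfl⟩ := ConjAct.toConjAct.surjective g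
        obtain ⟨g, rfl⟩ := QuotientGroup.mk_surjective g
        rw [ConjAct.toConjAct_smul]
        refine ⟨⟨g * x * g⁻¹, rfl, a, by rw [H26.index_cent_conj, ha]⟩, fun h => h2 ?_⟩
        simpa using h
      · rintro _ ⟨⟨x, rfl, a, ha⟩, h2⟩
        have h3 : (MulAction.stabilizer (ConjAct (G ⧸ Z)) (x : G ⧸ Z)).index =
            (Subgroup.centralizer ({(x : G ⧸ Z)} : Set (G ⧸ Z))).index := by
          rw [Subgroup.centralizer_eq_comap_stabilizer]
          exact (Subgroup.index_comap_of_surjective _ ConjAct.toConjAct.surjective).symm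
        rw [h3]
        obtain ⟨b, -, hb⟩ := (Nat.dvd_prime_pow hp.out).mp
          (ha ▸ H26.index_cent_map_dvd (QuotientGroup.mk'_surjective Z) x)
        rw [QuotientGroup.mk'_apply] at hb
        rw [hb]
        refine dvd_pow_self p ?_
        rintro rfl
        rw [pow_zero, H26.index_cent_eq_one_iff] at hb
        apply h2
        rw [Set.mem_singleton_iff, QuotientGroup.eq_one_iff]
        obtain ⟨c, hc⟩ := (idx_pow_iff p x).mp ⟨a, ha⟩
        have h4 : ((Subgroup.centralizer ({x} : Set G)).subgroupOf K).Normal := by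
          refine ⟨fun n hn g => ?_⟩
          rw [Subgroup.mem_subgroupOf, H26.mem_cent] at hn ⊢
          have h5 : (x * g)⁻¹ * (g * x) ∈ Z := by
            rw [← QuotientGroup.eq, QuotientGroup.mk_mul, QuotientGroup.mk_mul]
            exact (Subgroup.mem_center_iff.mp hb _).symm
          have h7 := h5 _ (n * g⁻¹).2
          have h8 := h5 _ (g⁻¹).2
          simp only [Subgroup.coe_mul, Subgroup.coe_inv] at h7 h8 ⊢
          set z := (x * g)⁻¹ * (g * x) with hz
          have e1 : (g : G) * x = x * g * z := by rw [hz]; group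
          have e2 : (g : G)⁻¹ * x = x * (g : G)⁻¹ * z⁻¹ := by
            have h9 := (Z.inv_mem h5) _ (g⁻¹).2
            simp only [Subgroup.coe_inv] at h9
            calc (g : G)⁻¹ * x = (g : G)⁻¹ * (x * g * z) * z⁻¹ * (g : G)⁻¹ := by group
              _ = x * (z⁻¹ * (g : G)⁻¹) := by rw [← e1]; group
              _ = _ := by rw [← h9]; group
          have h9 := (Z.inv_mem h5) _ (n * g⁻¹).2
          simp only [Subgroup.coe_mul, Subgroup.coe_inv] at h9
          calc (g : G) * n * (g : G)⁻¹ * x = g * n * ((g : G)⁻¹ * x) := by group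
            _ = g * (n * x) * (g : G)⁻¹ * z⁻¹ := by rw [e2]; group
            _ = (g * x) * (n * (g : G)⁻¹ * z⁻¹) := by rw [hn]; group
            _ = _ := by rw [e1, h9]; group
        have h5 := H3.pResidual_le_of_isPGroup_quotient (p := p)
          (N := (Subgroup.centralizer ({x} : Set G)).subgroupOf K) (IsPGroup.of_card hc)
        rw [H3.pResidual_pResidual] at h5
        exact fun k hk => H26.mem_cent.mp (h5 (Subgroup.mem_top (⟨k, hk⟩ : K)))
    rw [← Set.ncard_sdiff_singleton_add_one h1]
    exact fun h => hp.out.one_lt.ne' (Nat.dvd_one.mp ((Nat.dvd_add_right h2).mp h))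
  · refine H26.card_eq_mul_of_fiber (β := Ω) (fun x => ⟨(x.1 : G ⧸ Z), x.1, rfl, x.2⟩) _ ?_
    rintro ⟨_, x, rfl, hx⟩
    refine Nat.card_congr ⟨fun y => ⟨x⁻¹ * y.1.1, QuotientGroup.eq.mp (congrArg Subtype.val y.2).symm⟩,
      fun z => ⟨⟨x * z, ?_⟩, Subtype.ext (QuotientGroup.mk_mul_of_mem x z.2)⟩, fun y => by simp,
      fun z => by simp⟩
    rw [idx_pow_iff, hrel _ _ z.2, ← idx_pow_iff]
    exact hx

/-- Let G and H be finite groups such that for every natural number k, G and H have the same number of conjugacy classes of size k. If H is nilpotent then G is nilpotent. -/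
theorem result {G H : Type*} [Group G] [Finite G] [Group H] [Finite H]
    (hH : Group.IsNilpotent H)
    (h : ∀ k : ℕ, Nat.card {C : ConjClasses G // Nat.card C.carrier = k} = Nat.card {C : ConjClasses H // Nat.card C.carrier = k}) :
    Group.IsNilpotent G := by
  have he : ∀ k, Nonempty ({x : G // (Subgroup.centralizer ({x} : Set G)).index = k} ≃
      {x : H // (Subgroup.centralizer ({x} : Set H)).index = k}) := fun k =>
    Finite.card_eq.mp (by rw [card_idx, card_idx, h])
  let e : G ≃ H := Equiv.ofFiberEquiv (f := fun x : G => (Subgroup.centralizer ({x} : Set G)).index)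
    (g := fun x : H => (Subgroup.centralizer ({x} : Set H)).index) fun k => (he k).some
  have he2 : ∀ x : G, (Subgroup.centralizer ({e x} : Set H)).index =
      (Subgroup.centralizer ({x} : Set G)).index := fun x =>
    Equiv.ofFiberEquiv_map (f := fun x : G => (Subgroup.centralizer ({x} : Set G)).index)
      (g := fun x : H => (Subgroup.centralizer ({x} : Set H)).index) _ x
  apply H2.isNilpotent_of_forall_sylow_normal
  intro p hp P
  obtain ⟨m, hm, h1⟩ := count (G := G) p
  obtain ⟨m', -, h2⟩ := count (G := H) p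
  rw [Nat.card_congr (e.subtypeEquiv (q := fun x : H => ∃ a, (Subgroup.centralizer ({x} : Set H)).index = p ^ a)
    fun x => by rw [he2]), h2] at h1
  obtain ⟨Q⟩ : Nonempty (Sylow p H) := inferInstance
  have hQ : (Q : Subgroup H) ≤ Subgroup.centralizer (pResidual p H : Set H) := by
    have hn : (Q : Subgroup H).Normal := Sylow.normal_of_normalizerCondition
      Group.normalizerCondition_of_isNilpotent Q
    rw [← Subgroup.commutator_eq_bot_iff_le_centralizer, eq_bot_iff,
      ← (H3.hasNormalPComplement_iff_inf_eq_bot Q).mp (H3.hasNormalPComplement_of_isNilpotent)]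
    exact Subgroup.commutator_le_inf _ _
  have h3 : Nat.card P ∣ Nat.card (Subgroup.centralizer (pResidual p G : Set G)) := by
    have a := Subgroup.card_dvd_of_le hQ
    rw [Q.card_eq_multiplicity, ← Nat.card_congr e] at a
    rw [P.card_eq_multiplicity]
    exact ((hp.out.coprime_iff_not_dvd.mpr hm).pow_left _).dvd_of_dvd_mul_left (h1 ▸ a.mul_left m')
  have h4 : ¬ p ∣ (Subgroup.centralizer (pResidual p G : Set G)).index := by
    intro hd
    have := Nat.mul_dvd_mul h3 hd
    rw [Subgroup.card_mul_index, ← (P : Subgroup G).card_mul_index] at this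
    exact P.not_dvd_index (Nat.dvd_of_mul_dvd_mul_left Nat.card_pos this)
  have h5 := H26.sylow_le_of_normal_of_not_dvd_index _ h4 P
  refine H2.normal_of_sup_eq_top ?_ Subgroup.le_normalizer (H3.pResidual_sup_sylow P)
  exact (Subgroup.le_centralizer_iff.mp h5).trans (Subgroup.centralizer_le_normalizer _)

end Cfsg.Agent.S4139
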