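import Cfsg.Statements.S4149
import Cfsg.Agent.H26.ClassSize
import Cfsg.Agent.H21.Base2

set_option autoImplicit false
open Cfsg

namespace Cfsg.Agent.S4149

open Subgroup Finset Cfsg.Agent.H20 Cfsg.Agent.H21 Cfsg.Agent.H26

/-- Let G be a finite group that has a normal p-complement for at most one prime p dividing its order, and let σ be a natural number such that every conjugacy class size of G has at most σ distinct prime divisors. Then the number of primes dividing at least one conjugacy class size of G is at most 2σ. -/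
theorem result {G : Type*} [Group G] [Finite G] (σ : ℕ)
    (hσ : ∀ x : G, ((Subgroup.centralizer ({x} : Set G)).index).primeFactors.card ≤ σ)
    (hnil : ∀ p q : ℕ, p.Prime → q.Prime → p ∣ Nat.card G → q ∣ Nat.card G →
      Cfsg.HasNormalPComplement p G → Cfsg.HasNormalPComplement q G → p = q) :
    Nat.card {p : ℕ | p.Prime ∧ ∃ x : G, p ∣ (Subgroup.centralizer ({x} : Set G)).index} ≤ 2 * σ := by
  classical
  haveI := Fintype.ofFinite G
  let ρ := (Nat.card G).primeFactors.filter fun p => ∃ x : G, p ∣ (C₁⟦x⟧).index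
  have e : {p : ℕ | p.Prime ∧ ∃ x : G, p ∣ (C₁⟦x⟧).index} = ρ := Set.ext fun p => by
    simpa [ρ, Nat.card_pos.ne'] using fun (x : G) (h : p ∣ (C₁⟦x⟧).index) (_ : p.Prime) =>
      h.trans (index_dvd_card _)
  rw [e, Nat.card_coe_set_eq, Set.ncard_coe_finset]
  have h1 : ∀ p ∈ ρ.filter fun p => ¬ HasNormalPComplement p G,
      Nat.card G ≤ 2 * #(univ.filter fun x : G => p ∣ (C₁⟦x⟧).index) := fun p hp => by
    haveI := Fact.mk (Nat.prime_of_mem_primeFactors (mem_filter.mp (mem_filter.mp hp).1).1)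
    obtain ⟨P⟩ : Nonempty (Sylow p G) := inferInstance
    have h2 : C⟦(P : Subgroup G)⟧ < N⟦(P : Subgroup G)⟧ := lt_of_le_of_ne (centralizer_le_normalizer _) fun e =>
      (mem_filter.mp hp).2 ⟨P, _, inferInstance, MonoidHom.ker_transferSylow_isComplement' P e.ge⟩
    have h3 := ncard_conj_le (norm_le_norm_cent (P : Subgroup G))
    have h4 : #((univ.filter fun x : G => ¬ p ∣ (C₁⟦x⟧).index).erase 1) ≤ _ := (Set.ncard_coe_finset _).ge.trans
      ((Set.ncard_le_ncard fun x hx => by
        obtain ⟨h5, h6⟩ := mem_erase.mp hx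
        obtain ⟨Q, hQ⟩ := exists_sylow_le_of_not_dvd_index (mem_filter.mp h6).2
        obtain ⟨g, rfl⟩ := MulAction.exists_smul_eq G P Q
        exact ⟨h5, g, fun y hy => by
          have e : g * y * g⁻¹ * x = x * (g * y * g⁻¹) :=
            H26.mem_cent.mp (hQ (smul_mem_pointwise_smul y (MulAut.conj g) _ hy))
          calc _ = g⁻¹ * (g * y * g⁻¹ * x) * g := by group
            _ = _ := by rw [e]; group⟩).trans h3)
    have h5 := card_filter_add_card_filter_not (s := univ) fun x : G => p ∣ (C₁⟦x⟧).index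
    have h6 := pred_card_le_card_erase (s := univ.filter fun x : G => ¬ p ∣ (C₁⟦x⟧).index) (a := 1)
    obtain ⟨k, hk⟩ := H21.card_dvd h2.le
    have h7 : 2 ≤ k := by
      have := H21.card_lt h2
      by_contra h
      interval_cases k <;> omega
    have h8 := (N⟦(P : Subgroup G)⟧).index_mul_card
    have h9 := Nat.pos_of_ne_zero (index_ne_zero_of_finite (H := N⟦(P : Subgroup G)⟧))
    obtain ⟨c, hc⟩ := Nat.exists_eq_add_one.mpr (Nat.card_pos (α := C⟦(P : Subgroup G)⟧))
    rw [card_univ, ← Nat.card_eq_fintype_card] at h5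
    rw [hk] at h8
    rw [hc, Nat.add_sub_cancel] at h4
    rw [hc] at h8
    have := Nat.mul_le_mul_left ((N⟦(P : Subgroup G)⟧).index * (c + 1)) h7
    nlinarith [Nat.sub_le_iff_le_add.mp (h6.trans h4)]
  have h2 := sum_card_bipartiteAbove_eq_sum_card_bipartiteBelow (s := ρ.filter fun p => ¬ HasNormalPComplement p G)
    (t := univ) fun p (x : G) => p ∣ (C₁⟦x⟧).index
  have h3 : ∀ x : G, #(bipartiteBelow (fun p (x : G) => p ∣ (C₁⟦x⟧).index)
      (ρ.filter fun p => ¬ HasNormalPComplement p G) x) ≤ #(C₁⟦x⟧).index.primeFactors := fun x =>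
    card_le_card fun p hp => Nat.mem_primeFactors.mpr ⟨Nat.prime_of_mem_primeFactors (mem_filter.mp
      (mem_filter.mp (mem_filter.mp hp).1).1).1, (mem_filter.mp hp).2, index_ne_zero_of_finite⟩
  have h4 : #(ρ.filter fun p => HasNormalPComplement p G) ≤ 1 := card_le_one.mpr fun p hp q hq => by
    simp only [ρ, mem_filter, Nat.mem_primeFactors] at hp hq
    exact hnil p q hp.1.1.1 hq.1.1.1 hp.1.1.2.1 hq.1.1.2.1 hp.2 hq.2
  obtain rfl | hσ0 := σ.eq_zero_or_pos
  · refine (card_eq_zero.mpr (filter_eq_empty_iff.mpr fun p hp ⟨x, hx⟩ => ?_)).le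
    exact absurd (hσ x) (card_pos.mpr ⟨p, Nat.mem_primeFactors.mpr ⟨Nat.prime_of_mem_primeFactors hp, hx,
      index_ne_zero_of_finite⟩⟩).not_ge
  have h5 := (sum_le_sum fun x (_ : x ∈ (univ : Finset G)) => h3 x).trans_lt (sum_lt_sum (fun x _ => hσ x)
    ⟨1, mem_univ _, by rwa [index_cent_eq_one_iff.mpr (one_mem _), Nat.primeFactors_one, card_empty]⟩)
  have h6 := sum_le_sum h1
  rw [← mul_sum, sum_const, smul_eq_mul] at h6
  rw [← h2, sum_const, card_univ, ← Nat.card_eq_fintype_card, smul_eq_mul] at h5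
  have h7 := Nat.lt_of_mul_lt_mul_right (h6.trans_lt ((Nat.mul_lt_mul_of_pos_left h5 two_pos).trans_eq
    (by ring : _ = 2 * σ * Nat.card G)))
  have := card_filter_add_card_filter_not (s := ρ) fun p => HasNormalPComplement p G
  omega

end Cfsg.Agent.S4149
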