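import Cfsg.Statements.S4151
import Cfsg.Agent.H1.PiSep
import Cfsg.Agent.H1.Quaternion

set_option autoImplicit false
open Cfsg

namespace Cfsg.Agent.S4151

open Subgroup Cfsg.Agent.H20 Cfsg.Agent.H21 Cfsg.Agent.BG Cfsg.Agent.H1

/-- Let G be a finite group and H a non-normal subgroup meeting each of its conjugates by elements outside N_G(H) trivially, with the order of H coprime to its index in N_G(H), such that G is π-separable for π the set of primes dividing the order of H (G has a chain of normal subgroups from 1 to G each of whose factors has order divisible only by primes dividing the order of H or coprime to it). Suppose a Sylow 2-subgroup of H is abelian and Q is a complement of H in N_G(H). Then C_H(Q), the subgroup of elements of H commuting with Q, has order coprime to its index in G and has a normal complement in G. -/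
theorem result {G : Type*} [Group G] [Finite G] (H : Subgroup G)
    (hTI : Cfsg.IsTISubset (H : Set G)) (hnn : ¬ H.Normal)
    (hHall : (Nat.card H).Coprime (H.subgroupOf (Subgroup.normalizer (H : Set G))).index)
    (hsep : ∃ (n : ℕ) (M : Fin (n + 1) → Subgroup G), M 0 = ⊥ ∧ M (Fin.last n) = ⊤ ∧ Monotone M ∧ (∀ i, (M i).Normal) ∧
      ∀ i : Fin n, (∀ q : ℕ, q.Prime → q ∣ (M i.castSucc).relIndex (M i.succ) → q ∣ Nat.card H) ∨
        ((M i.castSucc).relIndex (M i.succ)).Coprime (Nat.card H))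
    (h2 : ∀ P : Sylow 2 H, IsMulCommutative (P : Subgroup H))
    (Q : Subgroup G) (hQ : Q ≤ Subgroup.normalizer (H : Set G)) (hQH : Q ⊓ H = ⊥) (hQH' : Q ⊔ H = Subgroup.normalizer (H : Set G)) :
    (Nat.card ↥(H ⊓ Subgroup.centralizer (Q : Set G))).Coprime (H ⊓ Subgroup.centralizer (Q : Set G)).index ∧
    ∃ N : Subgroup G, N.Normal ∧ N.IsComplement' (H ⊓ Subgroup.centralizer (Q : Set G)) := by
  have hs := piSep_primesOf hsep
  have hHall' : (♯H).Coprime (H.relIndex N⟦H⟧) := hHall
  have hcyc := fun A (hA : A ≤ H) hc => ti_cyclic_of_comm hTI hnn hHall' hs hA hc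
  have hZ : IsZGroup H := by
    rw [Zgroup_iff]
    intro p hp P hPH hP
    haveI := Fact.mk hp
    rcases isCyclic_or_quaternion_of_forall_abelian_isCyclic hP (fun A hA => by
      have := hcyc (A.map P.subtype) ((map_subtype_le A).trans hPH) inferInstance
      exact isCyclic_of_surjective _ (A.equivMapOfInjective _ P.subtype_injective).symm.surjective) with h | ⟨rfl, -⟩
    · exact h
    obtain ⟨S, hS, hPS⟩ := exists_sylowOf_ge hP hPH
    obtain ⟨T, rfl⟩ := Hall.exists_sylow hS
    have := h2 T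
    exact hcyc P hPH (comm_of_le hPS inferInstance)
  set O := piCoreOf (primesOf H)ᶜ (⊤ : Subgroup G)
  have hOn : O ⊴ ⊤ := piCoreOf_normalIn _ _
  have hO : IsPi (primesOf H)ᶜ O := isPi_piCoreOf _ _
  have hG : O ⊔ N⟦H⟧ = ⊤ := ti_core_sup_norm hTI hnn hHall' hs
  have hc : IsComplIn H Q N⟦H⟧ := Compl.of_norm (Or.inr hQ) (by rw [sup_comm, hQH']) (by rw [inf_comm, hQH])
  have hcop : (♯H).Coprime (♯Q) := by rwa [Compl.relIndex_left hc] at hHall'
  have hQπ : IsPi (primesOf H)ᶜ Q := isPi_compl_primesOf_iff.mpr hcop.symm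
  have h3 := zgroup_coprime_commg_cent hZ hQ hcop
  have h4 := coprime_commg_sup_cent hQ hcop (solOr_of_coprime hcop)
  set K := ⁅H, Q⁆
  have hKH : K ≤ H := commg_le_left hQ
  have hQK : Q ≤ N⟦K⟧ := le_sup_right.trans (sup_le_norm_commg H Q)
  have hHK : H ≤ N⟦K⟧ := le_sup_left.trans (sup_le_norm_commg H Q)
  have hn1 : N⟦H⟧ ≤ N⟦K ⊔ Q⟧ := by
    rw [← hQH', ← h4]
    refine sup_le (norm_of_le le_sup_right) (sup_le (norm_of_le le_sup_left) ?_)
    exact norm_sup (inf_le_left.trans hHK) (inf_le_right.trans (cent_le_norm Q))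
  have hn2 : O ⊔ (K ⊔ Q) ⊴ ⊤ := by
    refine ⟨le_top, ?_⟩
    rw [← hG]
    exact sup_le (norm_of_le le_sup_left) (norm_sup (le_top.trans hOn.norm) hn1)
  have hcop2 : (♯(H ⊓ C⟦Q⟧)).Coprime (♯(O ⊔ (K ⊔ Q))) :=
    coprime_sup_right (((isPi_primesOf H).inf_left _).coprime hO)
      (coprime_sup_right h3 (coprime_of_le_left hcop inf_le_left) (Or.inr hQK))
      (Or.inr (le_top.trans hOn.norm))
  have hcompl : IsComplIn (O ⊔ (K ⊔ Q)) (H ⊓ C⟦Q⟧) ⊤ := by
    refine Compl.of_norm (Or.inr (le_top.trans hn2.norm)) ?_ (inf_eq_bot_coprime hcop2.symm)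
    rw [sup_assoc, sup_assoc, sup_comm Q, ← sup_assoc K, h4, sup_comm H, hQH', hG]
  refine ⟨?_, _, hn2.normal, Compl.iff_isComplement'.mp hcompl⟩
  rw [← relIndex_top_right, Compl.relIndex_right hcompl]
  exact hcop2

end Cfsg.Agent.S4151
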