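import Cfsg.Statements.S4152
import Cfsg.Agent.H26.PiPart

set_option autoImplicit false
open Cfsg

namespace Cfsg.Agent.S4152


/-- Let G be a finite group, N a normal subgroup and π a set of primes. Then the number of conjugacy classes of π-elements of G (elements whose order is divisible only by primes in π) is at most the number of conjugacy classes of π-elements of N (under conjugation by N) times the number of conjugacy classes of π-elements of G/N. -/
theorem result {G : Type*} [Group G] [Finite G] (N : Subgroup G) [N.Normal] (π : Set ℕ) :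
    Nat.card {C : ConjClasses G // ∀ q : ℕ, q.Prime → (∃ g : G, ConjClasses.mk g = C ∧ q ∣ orderOf g) → q ∈ π} ≤ Nat.card {C : ConjClasses N // ∀ q : ℕ, q.Prime → (∃ g : N, ConjClasses.mk g = C ∧ q ∣ orderOf g) → q ∈ π} * Nat.card {C : ConjClasses (G ⧸ N) // ∀ q : ℕ, q.Prime → (∃ g : (G ⧸ N), ConjClasses.mk g = C ∧ q ∣ orderOf g) → q ∈ π} := by
  have h := H26.card_pi_comm_le N π
  rw [← H26.card_pi_classes_mul, ← H26.card_pi_classes_mul, ← H26.card_pi_classes_mul,
    Subgroup.card_eq_card_quotient_mul_card_subgroup N] at h
  have hp : 0 < Nat.card (G ⧸ N) * Nat.card N := Nat.mul_pos Nat.card_pos Nat.card_pos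
  refine Nat.le_of_mul_le_mul_right (h.trans (le_of_eq ?_)) hp
  ring

end Cfsg.Agent.S4152
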