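import Cfsg.Statements.S4153
import Cfsg.Agent.H26.PElt
import Cfsg.Agent.H1.SylowIn

set_option autoImplicit false
open Cfsg

namespace Cfsg.Agent.S4153

theorem card_le_of_fiber {α β : Type*} [Finite α] [Finite β] (f : α → β) (n : ℕ)
    (h : ∀ b, n ≤ Nat.card {a // f a = b}) : Nat.card β * n ≤ Nat.card α := by
  classical
  have := Fintype.ofFinite β
  rw [← Nat.card_congr (Equiv.sigmaFiberEquiv f), Nat.card_sigma, Nat.card_eq_fintype_card,
    ← Finset.card_univ, ← smul_eq_mul, ← Finset.sum_const]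
  exact Finset.sum_le_sum fun b _ => h b

/-- Let G be a finite group, p a prime, N a normal subgroup, P a Sylow p-subgroup of G and P̄ a Sylow p-subgroup of G/N. Count the elements of p-power order, the identity included. Then (number of such elements of G/N)/#P̄ ≤ (number of such elements of G)/#P, stated as a cross-multiplied inequality, with equality when N is central. -/
theorem result {G : Type*} [Group G] [Finite G] (p : ℕ) [Fact p.Prime] (N : Subgroup G) [N.Normal]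
    (P : Sylow p G) (Pbar : Sylow p (G ⧸ N)) :
    Nat.card {g : (G ⧸ N) // ∃ k : ℕ, orderOf g = p ^ k} * Nat.card (P : Subgroup G) ≤ Nat.card {g : G // ∃ k : ℕ, orderOf g = p ^ k} * Nat.card (Pbar : Subgroup (G ⧸ N)) ∧
    (N ≤ Subgroup.center G → Nat.card {g : (G ⧸ N) // ∃ k : ℕ, orderOf g = p ^ k} * Nat.card (P : Subgroup G) = Nat.card {g : G // ∃ k : ℕ, orderOf g = p ^ k} * Nat.card (Pbar : Subgroup (G ⧸ N))) := by
  have hp := (Fact.out : p.Prime)
  have hc : Nat.card (P : Subgroup G) =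
      Nat.card (Pbar : Subgroup (G ⧸ N)) * Nat.card (N ⊓ P : Subgroup G) := by
    have h1 := H1.card_map_mul_card_ker_inf (QuotientGroup.mk' N) P
    rw [QuotientGroup.ker_mk'] at h1
    rw [← h1, H26.card_sylow_eq_card Pbar (P.mapSurjective (QuotientGroup.mk'_surjective N))]
    rfl
  have hc2 : ∀ Q : Sylow p G, Nat.card (N ⊓ Q : Subgroup G) = Nat.card (N ⊓ P : Subgroup G) := by
    intro Q
    rw [inf_comm N, inf_comm N]
    exact ((H1.isSylowIn_top Q).inf le_top Subgroup.le_normalizer_of_normal).card_eq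
      ((H1.isSylowIn_top P).inf le_top Subgroup.le_normalizer_of_normal)
  let f : {g : G // ∃ k : ℕ, orderOf g = p ^ k} → {g : (G ⧸ N) // ∃ k : ℕ, orderOf g = p ^ k} :=
    fun g => ⟨(g.1 : G ⧸ N), by
      obtain ⟨k, hk⟩ := g.2
      have := orderOf_map_dvd (QuotientGroup.mk' N) g.1
      rw [hk] at this
      obtain ⟨j, -, hj⟩ := (Nat.dvd_prime_pow hp).mp this
      exact ⟨j, hj⟩⟩
  have key : ∀ b : {g : (G ⧸ N) // ∃ k : ℕ, orderOf g = p ^ k}, ∃ (x : G) (Q : Sylow p G),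
      x ∈ (Q : Subgroup G) ∧ (x : G ⧸ N) = b.1 ∧
      ∃ φ : (N ⊓ Q : Subgroup G) → {a // f a = b}, ∀ n, (φ n).1.1 = x * n := by
    rintro ⟨b, hb⟩
    obtain ⟨g, rfl⟩ := QuotientGroup.mk'_surjective N b
    obtain ⟨x, -, hx, hx'⟩ := H26.exists_pElt_map_eq _ hb
    obtain ⟨Q, hQ⟩ := H26.pElt_iff_exists_sylow.mp hx
    refine ⟨x, Q, hQ, hx', fun n => ⟨⟨x * n, H26.exists_orderOf_of_mem Q.isPGroup'
      (Q.1.mul_mem hQ n.2.2)⟩, Subtype.ext ?_⟩, fun n => rfl⟩
    exact (QuotientGroup.mk_mul_of_mem x n.2.1).trans hx'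
  have hinj : ∀ {b} {x : G} {Q : Sylow p G} (φ : (N ⊓ Q : Subgroup G) → {a // f a = b}),
      (∀ n, (φ n).1.1 = x * n) → Function.Injective φ := by
    intro b x Q φ hφ m n h
    have := hφ m
    rw [h, hφ n] at this
    exact Subtype.ext (mul_left_cancel this).symm
  constructor
  · rw [hc, mul_comm (Nat.card (Pbar : Subgroup (G ⧸ N))), ← mul_assoc]
    refine Nat.mul_le_mul_right _ (card_le_of_fiber f _ fun b => ?_)
    obtain ⟨x, Q, -, -, φ, hφ⟩ := key b
    rw [← hc2 Q]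
    exact Nat.card_le_card_of_injective φ (hinj φ hφ)
  · intro hN
    rw [hc, mul_comm (Nat.card (Pbar : Subgroup (G ⧸ N))), ← mul_assoc]
    congr 1
    refine (H26.card_eq_mul_of_fiber f _ fun b => ?_).symm
    obtain ⟨x, Q, hxQ, hxb, φ, hφ⟩ := key b
    rw [← hc2 Q]
    refine (Nat.card_eq_of_bijective φ ⟨hinj φ hφ, ?_⟩).symm
    rintro ⟨⟨g, hg⟩, hgb⟩
    have h1 : x⁻¹ * g ∈ N := by
      rw [← QuotientGroup.eq, hxb, ← hgb]
    have h2 : x⁻¹ * g ∈ (Q : Subgroup G) := by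
      obtain ⟨i, hi⟩ := H26.pElt_iff_pow.mp hg
      obtain ⟨j, hj⟩ := H26.pElt_iff_pow.mp (H26.exists_orderOf_of_mem Q.isPGroup' hxQ)
      have hcm : Commute x (x⁻¹ * g) := Subgroup.mem_center_iff.mp (hN h1) x
      have h3 : (x⁻¹ * g) ^ p ^ (i + j) = 1 := by
        have h4 := hcm.mul_pow (p ^ (i + j))
        rw [mul_inv_cancel_left, pow_add, pow_mul, hi, one_pow, mul_comm (p ^ i), pow_mul, hj, one_pow,
          one_mul] at h4
        rw [pow_add, mul_comm (p ^ i), ← h4]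
      obtain ⟨k, hk⟩ := H26.pElt_iff_pow.mpr ⟨_, h3⟩
      refine H26.le_of_le_normalizer_sylow (H26.isPGroup_zpowers_of_orderOf hk) Q ?_
        (Subgroup.mem_zpowers _)
      exact (Subgroup.zpowers_le.mpr (hN h1)).trans (Subgroup.center_le_normalizer _)
    refine ⟨⟨x⁻¹ * g, h1, h2⟩, Subtype.ext (Subtype.ext ?_)⟩
    rw [hφ]
    simp

end Cfsg.Agent.S4153
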