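import Cfsg.Statements.S4155
import Cfsg.Agent.S4107
import Cfsg.Agent.H26.Frob

set_option autoImplicit false
open Cfsg

namespace Cfsg.Agent.S4155


/-- Let G be a finite group and N a proper non-trivial normal nilpotent subgroup whose order is not a prime power, such that for every x outside N all elements of the coset xN have the same order as x. Then N is the Fitting subgroup of G, and for every prime q every Sylow q-subgroup of G/N is cyclic or generalized quaternion. -/
theorem result {G : Type*} [Group G] [Finite G] (N : Subgroup G) [N.Normal] (hN1 : N ≠ ⊥) (hN2 : N ≠ ⊤)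
    (heq : ∀ x : G, x ∉ N → ∀ n ∈ N, orderOf (x * n) = orderOf x)
    (hnil : Group.IsNilpotent N) (hnpp : ¬ IsPrimePow (Nat.card N)) :
    N = Cfsg.fittingSubgroup G ∧
    ∀ (q : ℕ) [Fact q.Prime] (Q : Sylow q (G ⧸ N)), IsCyclic (Q : Subgroup (G ⧸ N)) ∨ ∃ n : ℕ, Nonempty ((Q : Subgroup (G ⧸ N)) ≃* QuaternionGroup (2 ^ n)) := by
  have hle : N ≤ fittingSubgroup G := H1.le_fittingSubgroup hnil
  have hpp : ∀ (p : ℕ) [Fact p.Prime], ¬ IsPGroup p N := by
    intro p hp h
    obtain ⟨k, hk⟩ := h.exists_card_eq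
    apply hnpp
    rw [hk]
    refine (isPrimePow_nat_iff _).mpr ⟨p, k, hp.out, Nat.pos_of_ne_zero ?_, rfl⟩
    rintro rfl
    exact hN1 (Subgroup.card_eq_one.mp hk)
  constructor
  · by_contra hne
    obtain ⟨p, hp, h1⟩ := S4107.aux2 N fun h => hne (le_antisymm hle h)
    have : Fact p.Prime := ⟨hp⟩
    exact hpp p (S4107.aux N heq p h1)
  · intro q hq Q
    obtain ⟨Q, rfl⟩ := Sylow.mapSurjective_surjective (QuotientGroup.mk'_surjective N) q Q
    set L := pCore q G ⊓ N with hL
    have hLN : L ≤ N := inf_le_right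
    have hQN : (Q : Subgroup G) ⊓ N ≤ L := by
      refine le_inf ?_ inf_le_right
      exact H1.le_pCore_of_le_fittingSubgroup Q.isPGroup'.to_inf_left (inf_le_right.trans hle)
    have hK : N.map (QuotientGroup.mk' L) ≠ ⊥ := by
      rw [Ne, Subgroup.map_eq_bot_iff, QuotientGroup.ker_mk']
      intro h
      exact hpp q ((H1.isPGroup_pCore q G).to_le (h.trans inf_le_left))
    have h1 := H1.isCyclic_or_quaternion_of_fpf (Q.isPGroup'.map (QuotientGroup.mk' L)) hK
      Subgroup.le_normalizer_of_normal (by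
        rintro _ ⟨x, hx, rfl⟩ hx1
        rw [eq_bot_iff]
        rintro _ ⟨⟨y, hy, rfl⟩, hc⟩
        have hxN : x ∉ N := fun h => hx1 ((QuotientGroup.eq_one_iff x).mpr (hQN ⟨hx, h⟩))
        obtain ⟨k, hk⟩ := Q.isPGroup' ⟨x, hx⟩
        have e1 : x ^ q ^ k = 1 := by simpa using congrArg Subtype.val hk
        have e2 : (x * y) ^ q ^ k = 1 := by
          rw [← orderOf_dvd_iff_pow_eq_one, heq x hxN y hy, orderOf_dvd_iff_pow_eq_one, e1]
        have e3 : Commute (QuotientGroup.mk' L x) (QuotientGroup.mk' L y) := (H26.mem_cent.mp hc).symm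
        have e4 := congrArg (QuotientGroup.mk' L) e2
        rw [map_pow, map_mul, e3.mul_pow, ← map_pow, e1, map_one, one_mul, ← map_pow,
          QuotientGroup.mk'_apply, QuotientGroup.eq_one_iff] at e4
        obtain ⟨j, hj⟩ := H1.isPGroup_pCore q G ⟨_, e4.1⟩
        have e5 : y ^ q ^ (k + j) = 1 := by simpa [pow_add, pow_mul] using congrArg Subtype.val hj
        have e6 : IsPGroup q (Subgroup.zpowers y) := by
          obtain ⟨i, -, hi⟩ := (Nat.dvd_prime_pow hq.out).mp (orderOf_dvd_of_pow_eq_one e5)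
          exact IsPGroup.of_card (by rw [Nat.card_zpowers, hi])
        rw [Subgroup.mem_bot, QuotientGroup.mk'_apply, QuotientGroup.eq_one_iff]
        exact ⟨H1.le_pCore_of_le_fittingSubgroup e6 ((Subgroup.zpowers_le.mpr hy).trans hle)
          (Subgroup.mem_zpowers y), hy⟩)
    let f : G ⧸ L →* G ⧸ N := QuotientGroup.map L N (MonoidHom.id G) hLN
    have hf : ((Q : Subgroup G).map (QuotientGroup.mk' L)).map f = (Q : Subgroup G).map (QuotientGroup.mk' N) := by
      rw [Subgroup.map_map]; rfl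
    have hinj : Function.Injective (f.subgroupMap ((Q : Subgroup G).map (QuotientGroup.mk' L))) := by
      rw [injective_iff_map_eq_one]
      rintro ⟨_, x, hx, rfl⟩ h
      have h2 : (x : G ⧸ N) = 1 := congrArg Subtype.val h
      exact Subtype.ext ((QuotientGroup.eq_one_iff x).mpr (hQN ⟨hx, (QuotientGroup.eq_one_iff x).mp h2⟩))
    have e := (MulEquiv.ofBijective _ ⟨hinj, f.subgroupMap_surjective _⟩).trans (MulEquiv.subgroupCongr hf)
    rcases h1 with h1 | ⟨-, n, -, ⟨e2⟩⟩
    · exact Or.inl (isCyclic_of_surjective e e.surjective)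
    · exact Or.inr ⟨n, ⟨e.symm.trans e2⟩⟩

end Cfsg.Agent.S4155
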