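import Cfsg.Statements.S4156
import Cfsg.Agent.H1.Basic

set_option autoImplicit false
open Cfsg

namespace Cfsg.Agent.S4156


/-- Let n ≥ 5 and F a finite field. Then the projective special linear group PSL_n(F) contains a subgroup isomorphic to the alternating group of degree n + 1. -/
theorem result (n : ℕ) (hn : 5 ≤ n) (F : Type*) [Field F] [Finite F] :
    ∃ f : alternatingGroup (Fin (n + 1)) →* Matrix.ProjectiveSpecialLinearGroup (Fin n) F, Function.Injective f := by
  classical
  have hs : IsSimpleGroup (alternatingGroup (Fin (n + 1))) := alternatingGroup.isSimpleGroup (by simp; omega)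
  let s : (Fin (n + 1) → F) →ₗ[F] F := ∑ i, LinearMap.proj i
  have hs1 : ∀ v, s v = ∑ i, v i := fun v => by simp [s]
  have hr : Module.finrank F (LinearMap.ker s) = n := by
    have h1 := LinearMap.finrank_range_add_finrank_ker s
    rw [LinearMap.range_eq_top.mpr fun c => ⟨Pi.single 0 c, by simp [hs1]⟩] at h1
    simp at h1
    omega
  let b : Module.Basis (Fin n) F (LinearMap.ker s) := Module.finBasisOfFinrankEq F _ hr
  let ρ : Equiv.Perm (Fin (n + 1)) →* Module.End F (LinearMap.ker s) :=
    { toFun := fun σ => (LinearMap.funLeft F F (σ⁻¹ : Equiv.Perm (Fin (n + 1)))).restrict fun v hv => by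
        rw [LinearMap.mem_ker, hs1] at hv ⊢
        rw [← hv]
        exact Equiv.sum_comp (σ⁻¹ : Equiv.Perm (Fin (n + 1))) v
      map_one' := by ext; rfl
      map_mul' := fun σ τ => by ext; rfl }
  let φ : alternatingGroup (Fin (n + 1)) →* Matrix (Fin n) (Fin n) F :=
    (LinearMap.toMatrixAlgEquiv b).toMulEquiv.toMonoidHom.comp (ρ.comp (Subgroup.subtype _))
  have hnc : ¬ ∀ x y : alternatingGroup (Fin (n + 1)), x * y = y * x := by
    intro h
    have h1 := alternatingGroup.center_eq_bot (α := Fin (n + 1)) (by simp; omega)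
    have h2 : Subgroup.center (alternatingGroup (Fin (n + 1))) = ⊤ :=
      (Subgroup.eq_top_iff' _).mpr fun x => Subgroup.mem_center_iff.mpr fun y => h y x
    exact bot_ne_top (h1.symm.trans h2)
  have hinj : ∀ {M : Type _} [Monoid M] (f : alternatingGroup (Fin (n + 1)) →* M),
      Function.Injective f ∨ ∀ x, f x = 1 := by
    intro M _ f
    rcases hs.eq_bot_or_eq_top_of_normal f.toHomUnits.ker inferInstance with h | h
    · left
      intro x y e
      exact (MonoidHom.ker_eq_bot_iff _).mp h (Units.ext e)
    · right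
      intro x
      have : x ∈ f.toHomUnits.ker := h ▸ Subgroup.mem_top x
      exact congrArg Units.val this
  have hφ : Function.Injective φ := by
    refine (hinj φ).resolve_right fun h => ?_
    apply hnc
    suffices H : ∀ x : alternatingGroup (Fin (n + 1)), x = 1 by
      intro x y; rw [H x, H y]
    intro x
    have h1 : ρ x = 1 := (LinearMap.toMatrixAlgEquiv b).injective ((h x).trans (map_one _).symm)
    ext i
    by_contra hi
    obtain ⟨j, hj1, hj2⟩ : ∃ j : Fin (n + 1), j ≠ i ∧ j ≠ (x : Equiv.Perm (Fin (n + 1))) i := by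
      by_contra hc
      push Not at hc
      have : Finset.univ ⊆ ({i, (x : Equiv.Perm (Fin (n + 1))) i} : Finset (Fin (n + 1))) := by
        intro j _
        by_cases h : j = i
        · simp [h]
        · simp [hc j h]
      have h2 := (Finset.card_le_card this).trans Finset.card_le_two
      simp at h2
      omega
    have h2 := congrFun (congrArg Subtype.val (LinearMap.congr_fun h1
      ⟨Pi.single i 1 - Pi.single j 1, by simp [hs1]⟩)) ((x : Equiv.Perm (Fin (n + 1))) i)
    have h3 : (x : Equiv.Perm (Fin (n + 1))) i ≠ i := fun e => hi (by rw [e]; rfl)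
    simp [ρ, LinearMap.funLeft, hj1.symm, hj2.symm, h3] at h2
  have hdet : ∀ x, (φ x).det = 1 :=
    (hinj (Matrix.detMonoidHom.comp φ)).resolve_left fun h => hnc fun x y => h (by
      rw [map_mul, map_mul, mul_comm])
  let ψ : alternatingGroup (Fin (n + 1)) →* Matrix.SpecialLinearGroup (Fin n) F :=
    { toFun := fun x => ⟨φ x, hdet x⟩
      map_one' := Subtype.ext (map_one φ)
      map_mul' := fun x y => Subtype.ext (map_mul φ x y) }
  refine ⟨(QuotientGroup.mk' _).comp ψ, (hinj _).resolve_right fun h => hnc fun x y => hφ ?_⟩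
  have h1 : ψ y ∈ Subgroup.center _ := (QuotientGroup.eq_one_iff _).mp (h y)
  rw [map_mul, map_mul]
  exact congrArg Subtype.val (Subgroup.mem_center_iff.mp h1 (ψ x))

end Cfsg.Agent.S4156
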