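import Cfsg.Statements.S4159
import Cfsg.Agent.H26.Real

set_option autoImplicit false
open Cfsg

namespace Cfsg.Agent.S4159


/-- Let G be a finite group such that in every subgroup H of G, any two conjugacy classes of H of size greater than 1 have non-coprime sizes. Then G is solvable. -/
theorem result {G : Type*} [Group G] [Finite G]
    (h : ∀ (H : Subgroup G) (x y : H), 1 < (Subgroup.centralizer ({x} : Set H)).index → 1 < (Subgroup.centralizer ({y} : Set H)).index →
      ¬ ((Subgroup.centralizer ({x} : Set H)).index).Coprime (Subgroup.centralizer ({y} : Set H)).index) : Group.IsSolvable G := by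
  refine H26.isSolvable_of_no_real ?_
  rintro s y ⟨k, hk⟩ ⟨r, j, hr, hr2, hj⟩ hi
  by_contra hy
  have hN : Subgroup.zpowers s ≤ Subgroup.normalizer (Subgroup.zpowers y : Set G) := by
    rw [Subgroup.zpowers_le]
    apply H3.mem_normalizer_of_conj_mem
    rintro _ ⟨i, rfl⟩
    rw [← conj_zpow, hi]
    exact Subgroup.zpow_mem _ (Subgroup.inv_mem _ (Subgroup.mem_zpowers y)) i
  have hnc : s * y ≠ y * s := by
    intro e
    rw [e, mul_inv_cancel_right] at hi
    have h2 : y ^ 2 = 1 := by rw [pow_two]; exact mul_eq_one_iff_eq_inv.2 hi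
    have h3 := orderOf_eq_prime h2 hy
    rw [hj] at h3
    exact hr2 ((Nat.prime_dvd_prime_iff_eq Nat.prime_two hr).1 (Nat.prime_two.dvd_of_dvd_pow h3.symm.dvd)).symm
  have hyH : y ∈ Subgroup.zpowers y ⊔ Subgroup.zpowers s := Subgroup.mem_sup_left (Subgroup.mem_zpowers y)
  have hsH : s ∈ Subgroup.zpowers y ⊔ Subgroup.zpowers s := Subgroup.mem_sup_right (Subgroup.mem_zpowers s)
  refine h (Subgroup.zpowers y ⊔ Subgroup.zpowers s) ⟨y, hyH⟩ ⟨s, hsH⟩ ?_ ?_ ?_
  · rw [H26.index_cent_subgroup]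
    refine lt_of_le_of_ne (Nat.pos_of_ne_zero (H26.relIndex_ne_zero' _ _)) fun e => hnc ?_
    exact H26.mem_cent.1 (Subgroup.relIndex_eq_one.1 e.symm hsH)
  · rw [H26.index_cent_subgroup]
    refine lt_of_le_of_ne (Nat.pos_of_ne_zero (H26.relIndex_ne_zero' _ _)) fun e => hnc ?_
    exact (H26.mem_cent.1 (Subgroup.relIndex_eq_one.1 e.symm hyH)).symm
  · rw [H26.index_cent_subgroup, H26.index_cent_subgroup]
    have h1 := Subgroup.relIndex_dvd_of_le_left (Subgroup.zpowers y ⊔ Subgroup.zpowers s)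
      (Subgroup.zpowers_le.2 (H26.mem_cent_self y))
    have h2 := Subgroup.relIndex_dvd_of_le_left (Subgroup.zpowers y ⊔ Subgroup.zpowers s)
      (Subgroup.zpowers_le.2 (H26.mem_cent_self s))
    rw [H1.relIndex_sup_of_le_normalizer hN] at h1
    rw [H26.relIndex_sup_eq hN] at h2
    have h3 := h1.trans (Subgroup.relIndex_dvd_card _ _)
    have h4 := h2.trans (Subgroup.relIndex_dvd_card _ _)
    rw [Nat.card_zpowers, hk] at h3
    rw [Nat.card_zpowers, hj] at h4
    exact Nat.Coprime.coprime_dvd_left h3 (Nat.Coprime.coprime_dvd_right h4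
      (Nat.coprime_pow_primes _ _ Nat.prime_two hr hr2.symm))

end Cfsg.Agent.S4159
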