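import Cfsg.Statements.S4168
import Cfsg.Agent.H26.PiPart

set_option autoImplicit false
open Cfsg

namespace Cfsg.Agent.S4168
open scoped IsMulCommutative


/-- Let L be a finite quasisimple group (perfect with L/Z(L) simple). Then every prime dividing the order of the centre Z(L) also divides the order of L/Z(L). -/
theorem result {L : Type*} [Group L] [Finite L] (hL : Cfsg.IsQuasisimple L)
    (p : ℕ) (hp : p.Prime) (hdiv : p ∣ Nat.card (Subgroup.center L)) : p ∣ (Subgroup.center L).index := by
  have := Fact.mk hp
  obtain ⟨z, hz⟩ := exists_prime_orderOf_dvd_card' p hdiv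
  have h2 : commutator L = ⊤ := hL.1.commutator_eq_top
  have h5 : (z : L) ∈ commutator L := by rw [h2]; trivial
  have h3 := Abelianization.commutator_subset_ker (MonoidHom.transferCenterPow L) h5
  rw [MonoidHom.mem_ker] at h3
  have h4 := congrArg Subtype.val h3
  rw [MonoidHom.transferCenterPow_apply] at h4
  rw [← hz, ← Subgroup.orderOf_coe]
  exact orderOf_dvd_of_pow_eq_one h4

end Cfsg.Agent.S4168
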