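import Cfsg.Statements.S4172
import Cfsg.Agent.H10.Comp
import Cfsg.Agent.H3.Tate
import Cfsg.Agent.H1.Hall
import Cfsg.Agent.H1.Coprime
import Cfsg.Agent.H1.Generation
import Cfsg.Agent.H26.SRank2

set_option autoImplicit false
open Cfsg

namespace Cfsg.Agent.S4172

open Subgroup
open scoped commutatorElement

theorem cyc_npc {X : Type*} [Group X] [Finite X] {p : ℕ} [Fact p.Prime] (S : Sylow p X) [IsCyclic S]
    {z : X} (hz : z ∈ (S : Subgroup X)) (hz1 : z ≠ 1) (hc : z ∈ center X) : HasNormalPComplement p X := by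
  rcases S.normalizer_le_centralizer_or_le_commutator with h | h
  · exact H3.hasNormalPComplement_of_normalizer_le_centralizer S h
  · have := H3.mem_commutator_of_mem_center S.card_coprime_index hz (h hz) hc
    rw [commutator_eq_bot_iff_le_centralizer.2 (le_centralizer _)] at this
    exact absurd this hz1

theorem tateA {G : Type*} [Group G] [Finite G] {p : ℕ} [Fact p.Prime] (P : Sylow p G) {A : Subgroup G}
    (hPA : (P : Subgroup G) ≤ normalizer (A : Set G))
    (h : A ⊓ (P : Subgroup G) ≤ (frattini P).map (P : Subgroup G).subtype) : HasNormalPComplement p A := by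
  have hle : (P : Subgroup G) ≤ A ⊔ P := le_sup_right
  haveI : (A.subgroupOf (A ⊔ P)).Normal :=
    (normal_subgroupOf_iff_le_normalizer le_sup_left).2 (H1.sup_le_normalizer_left hPA)
  rw [← H3.hasNormalPComplement_subgroupOf_iff (le_sup_left : A ≤ A ⊔ P)]
  refine H3.hasNormalPComplement_of_inf_le_frattini (P.subtype hle) _ fun x hx => ?_
  obtain ⟨y, hy, e⟩ := h (mem_inf.2 ⟨hx.1, hx.2⟩)
  have := H2.map_frattini_le_of_surjective (f := (subgroupOfEquivOfLe hle).symm.toMonoidHom)
    (subgroupOfEquivOfLe hle).symm.surjective (mem_map_of_mem _ hy)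
  exact ⟨_, this, Subtype.ext e⟩

theorem pg_of_npc {G : Type*} [Group G] [Finite G] {p : ℕ} [hp : Fact p.Prime] (hcore : pPrimeCore p G = ⊥)
    {K : Subgroup G} (hK : K.IsSubnormal) (h : HasNormalPComplement p K) : IsPGroup p K := by
  have h1 := H10.OqOf_eq_of_subnormal (p := p) hK
  rw [hcore, inf_bot_eq, H10.OqOf_def, Subgroup.map_eq_bot_iff_of_injective _ K.subtype_injective] at h1
  obtain ⟨N, hN, h2, h3⟩ := H3.hasNormalPComplement_iff_exists_normal.1 h
  have h4 : N = ⊥ := le_bot_iff.1 (h1 ▸ H1.le_pPrimeCore ((Nat.Prime.coprime_iff_not_dvd hp.out).2 h2).symm)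
  subst h4
  exact h3.of_equiv QuotientGroup.quotientBot

theorem two_gen {R : Type*} [Group R] [Finite R] {p : ℕ} [hp : Fact p.Prime] (hR : IsPGroup p R)
    (hgen : (frattini R).index = p ^ 2) {x : R} (hx : x ∉ frattini R) : ∃ y, zpowers x ⊔ zpowers y = ⊤ := by
  set M := frattini R ⊔ zpowers x with hM
  have h2 : (frattini R).relIndex M = p := H1.relIndex_sup_zpowers hx (H1.pow_mem_frattini hR x)
  have h3 : (frattini R).relIndex M * M.index = _ := relIndex_mul_index le_sup_left
  rw [h2, hgen, pow_two] at h3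
  have hi : M.index = p := Nat.eq_of_mul_eq_mul_left hp.out.pos h3
  have hc := H1.isCoatom_of_index_prime (hi ▸ hp.out : M.index.Prime)
  obtain ⟨y, hy⟩ : ∃ y, y ∉ M := by
    by_contra hcon; push Not at hcon; exact hc.1 (eq_top_iff.2 fun y _ => hcon y)
  refine ⟨y, frattini_nongenerating ?_⟩
  rw [sup_comm, ← sup_assoc]
  exact H1.sup_zpowers_eq_top_of_isCoatom hc hy

theorem gen_of {G : Type*} [Group G] [Finite G] {p : ℕ} [Fact p.Prime] (P : Sylow p G)
    (hgen : (frattini ↥(P : Subgroup G)).index = p ^ 2) {A : Subgroup G}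
    (hPA : (P : Subgroup G) ≤ normalizer (A : Set G))
    (h : ¬ A ⊓ (P : Subgroup G) ≤ (frattini P).map (P : Subgroup G).subtype) :
    (∃ y ∈ (P : Subgroup G), (P : Subgroup G) ≤ A ⊔ zpowers y) ∧ ⁅(P : Subgroup G), (P : Subgroup G)⁆ ≤ A := by
  obtain ⟨x, hx, hx'⟩ := SetLike.not_le_iff_exists.1 h
  obtain ⟨y, hy⟩ := two_gen P.2 hgen (x := ⟨x, hx.2⟩) fun h => hx' ⟨_, h, rfl⟩
  have h1 : (P : Subgroup G) ≤ A ⊔ zpowers (y : G) := by
    have := congrArg (Subgroup.map (P : Subgroup G).subtype) hy
    rw [Subgroup.map_sup, MonoidHom.map_zpowers, MonoidHom.map_zpowers, ← MonoidHom.range_eq_map,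
      range_subtype] at this
    exact this.ge.trans (sup_le_sup_right (zpowers_le_of_mem hx.1) _)
  refine ⟨⟨y, y.2, h1⟩, commutator_le.2 fun a ha b hb => ?_⟩
  obtain ⟨n, hn, k, rfl⟩ := (H3.mem_sup_zpowers_iff (hPA y.2)).1 (h1 ha)
  obtain ⟨m, hm, l, rfl⟩ := (H3.mem_sup_zpowers_iff (hPA y.2)).1 (h1 hb)
  have e : ⁅n * (y : G) ^ k, m * (y : G) ^ l⁆ =
      n * ((y : G) ^ k * m * ((y : G) ^ k)⁻¹) * ((y : G) ^ l * n⁻¹ * ((y : G) ^ l)⁻¹) * m⁻¹ := by
    rw [commutatorElement_def]; group
  rw [e]
  exact A.mul_mem (A.mul_mem (A.mul_mem hn (H1.conj_mem_of_le_normalizer hPA (zpow_mem y.2 k) hm))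
    (H1.conj_mem_of_le_normalizer hPA (zpow_mem y.2 l) (A.inv_mem hn))) (A.inv_mem hm)

/-- Let p be a prime and G a finite group with a non-commutative Sylow p-subgroup P whose Frattini subgroup has index p² in P (P is generated by two elements). Suppose G has no nontrivial normal subgroup of order prime to p and the Frattini subgroup of P contains no nontrivial normal subgroup of G. Then the generalized Fitting subgroup F*(G) is the unique minimal normal subgroup of G, the image of P in G/F*(G) is cyclic, and if F*(G) is not commutative then P permutes the components of G transitively by conjugation. -/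
theorem result {G : Type*} [Group G] [Finite G] (p : ℕ) [Fact p.Prime] (P : Sylow p G) (hna : ¬ IsMulCommutative (P : Subgroup G)) (hgen : (frattini ↥(P : Subgroup G)).index = p ^ 2) (hcore : Cfsg.pPrimeCore p G = ⊥) (hfrat : ((frattini ↥(P : Subgroup G)).map (P : Subgroup G).subtype).normalCore = ⊥) [hFn : (Cfsg.generalizedFittingSubgroup G).Normal] :
    (Cfsg.generalizedFittingSubgroup G ≠ ⊥ ∧ ∀ K : Subgroup G, K.Normal → K ≠ ⊥ → Cfsg.generalizedFittingSubgroup G ≤ K) ∧
      IsCyclic ↥((P : Subgroup G).map (QuotientGroup.mk' (Cfsg.generalizedFittingSubgroup G))) ∧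
      (¬ IsMulCommutative (Cfsg.generalizedFittingSubgroup G) → ∀ K L : Subgroup G, Cfsg.IsComponent K → Cfsg.IsComponent L → ∃ x ∈ (P : Subgroup G), L = K.map (MulAut.conj x).toMonoidHom) := by
  have hp : p.Prime := Fact.out
  set Φ := (frattini ↥(P : Subgroup G)).map (P : Subgroup G).subtype with hΦ
  have hΦ0 : ∀ N : Subgroup G, N.Normal → N ≤ Φ → N = ⊥ := fun N hN h =>
    le_bot_iff.1 (hfrat ▸ normal_le_normalCore.2 h)
  have hT : ∀ N : Subgroup G, N.Normal → N ≠ ⊥ → ¬ N ⊓ (P : Subgroup G) ≤ Φ := by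
    intro N hN h0 h
    have h1 := pg_of_npc hcore hN.isSubnormal (H3.hasNormalPComplement_of_inf_le_frattini P N h)
    have h2 : N ≤ P := h1.le_sylow_of_normal P
    exact h0 (hΦ0 N hN ((le_inf le_rfl h2).trans h))
  have hT' := fun (N : Subgroup G) (hN : N.Normal) (h0 : N ≠ ⊥) =>
    gen_of P hgen (H2.le_normalizer_of_normal' N _) (hT N hN h0)
  have hD : ⁅(P : Subgroup G), (P : Subgroup G)⁆ ≠ ⊥ := fun h =>
    hna (H3.isMulCommutative_iff_mem.2 fun a ha b hb =>
      commutator_eq_bot_iff_le_centralizer.1 h hb a ha)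
  set F := generalizedFittingSubgroup G with hF
  have hF0 : F ≠ ⊥ := fun h => by
    have := H10.centralizer_fstar_le G
    rw [← hF, h] at this
    exact hD (le_bot_iff.1 fun x _ => this fun y hy => by rw [mem_bot.1 hy, one_mul, mul_one])
  have hcyc : ∀ (N : Subgroup G) [N.Normal], N ≠ ⊥ →
      IsCyclic ↥((P : Subgroup G).map (QuotientGroup.mk' N)) := by
    intro N hN h0
    obtain ⟨y, -, hy⟩ := (hT' N hN h0).1
    have : (P : Subgroup G).map (QuotientGroup.mk' N) ≤ zpowers (y : G ⧸ N) := by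
      refine (map_mono hy).trans ?_
      rw [Subgroup.map_sup, MonoidHom.map_zpowers, QuotientGroup.map_mk'_self, bot_sup_eq]
      exact le_rfl
    exact Subgroup.isCyclic_of_le this
  by_cases hE : layer G = ⊥
  · refine ⟨⟨hF0, fun N hN h0 => ?_⟩, hcyc F hF0, fun _ K _ hK _ => absurd hK (H10.layer_eq_bot_iff.1 hE K)⟩
    have hFQ : F = pCore p G := H10.fstar_eq_pCore_iff'.2 ⟨hE, hcore⟩
    have hCQ := H10.fstar_eq_pCore_iff.1 hFQ
    refine hFQ.le.trans ?_
    rw [hFQ] at hF0
    set Q := pCore p G with hQ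
    have hQp : IsPGroup p Q := H1.isPGroup_pCore p G
    have hQP : Q ≤ P := H1.pCore_le_sylow P
    have hQc : ⁅Q, Q⁆ = ⊥ := hΦ0 _ inferInstance ((commutator_mono hQP hQP).trans (H3.commutator_le_frattiniOf P.2))
    have hQc' : Q ≤ centralizer (Q : Set G) := commutator_eq_bot_iff_le_centralizer.1 hQc
    set M := normalClosure ((⁅(P : Subgroup G), (P : Subgroup G)⁆ : Subgroup G) : Set G) with hM
    have hMmin : ∀ N : Subgroup G, N.Normal → N ≠ ⊥ → M ≤ N := fun N hN h0 =>
      normalClosure_le_normal (hT' N hN h0).2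
    have hM0 : M ≠ ⊥ := fun h => hD (le_bot_iff.1 (h ▸ le_normalClosure))
    refine le_trans ?_ (hMmin N hN h0)
    by_contra hQM
    have hMQ : M ≤ Q := hMmin Q inferInstance hF0
    set π := QuotientGroup.mk' M with hπ
    have hπs : Function.Surjective π := QuotientGroup.mk'_surjective M
    haveI : (Q.map π).Normal := Normal.map inferInstance _ hπs
    set C := centralizer ((Q.map π : Subgroup (G ⧸ M)) : Set (G ⧸ M)) with hC
    haveI : C.Normal := inferInstance
    haveI : IsCyclic (P.mapSurjective hπs) := hcyc M hM0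
    have hPC : ((P.mapSurjective hπs : Sylow p (G ⧸ M)) : Subgroup (G ⧸ M)) ≤ C :=
      (le_centralizer _).trans (centralizer_le (map_mono hQP))
    obtain ⟨z, hzQ, hzM⟩ := SetLike.not_le_iff_exists.1 hQM
    have hzP : π z ∈ ((P.mapSurjective hπs : Sylow p (G ⧸ M)) : Subgroup (G ⧸ M)) :=
      mem_map_of_mem π (hQP hzQ)
    haveI : IsCyclic ((P.mapSurjective hπs).subtype hPC) :=
      isCyclic_of_surjective _ (subgroupOfEquivOfLe hPC).symm.surjective
    have hnpc : HasNormalPComplement p C := cyc_npc ((P.mapSurjective hπs).subtype hPC)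
      (z := ⟨π z, hPC hzP⟩) hzP (fun h => hzM ((QuotientGroup.eq_one_iff z).1 (congrArg Subtype.val h)))
      (mem_center_iff.2 fun c => Subtype.ext (c.2 _ (mem_map_of_mem π hzQ)).symm)
    set L' := pPrimeCore p (G ⧸ M) ⊓ C with hL'
    set L := L'.comap π with hL
    haveI : L.Normal := Normal.comap inferInstance _
    have hML : M ≤ L := fun m hm => by
      rw [hL, mem_comap, hπ, QuotientGroup.mk'_apply, (QuotientGroup.eq_one_iff m).2 hm]; exact one_mem _
    have hrel : M.relIndex L = Nat.card L' := by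
      have h1 := H1.card_comap_mk' M L'
      rw [← hπ, ← hL, ← H1.card_mul_relIndex hML] at h1
      exact Nat.eq_of_mul_eq_mul_left Nat.card_pos h1
    have hL'c : (Nat.card L').Coprime p :=
      (H1.coprime_card_pPrimeCore p (G ⧸ M)).coprime_dvd_left (card_dvd_of_le inf_le_left)
    obtain ⟨H, hHL, hMH, -, hHc⟩ := H1.exists_complement_le hML (H2.le_normalizer_of_normal' _ _)
      (H1.coprime_card_of_isPGroup_of_coprime (hQp.to_le hMQ) (hrel ▸ hL'c))
    rw [hrel] at hHc
    have hHQ : (Nat.card H).Coprime (Nat.card Q) :=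
      (H1.coprime_card_of_isPGroup_of_coprime hQp (hHc ▸ hL'c)).symm
    have hQH : ⁅Q, H⁆ ≤ M := commutator_le.2 fun a ha b hb => by
      rw [← QuotientGroup.eq_one_iff]
      exact commutatorElement_eq_one_iff_mul_comm.2 ((hHL hb).2 _ (mem_map_of_mem π ha))
    have h1 := H1.commutator_sup_centralizer (H2.le_normalizer_of_normal' Q H) hHQ
      (Or.inr (H1.isSolvable_of_isPGroup hQp))
    have h2 : Q ⊓ centralizer (L : Set G) ≠ ⊥ := fun h => hQM (by
      have : Q ⊓ centralizer (H : Set G) ≤ Q ⊓ centralizer (L : Set G) := fun q hq => mem_inf.2 ⟨hq.1, by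
        have : L ≤ centralizer ({q} : Set G) := hMH ▸ sup_le
          (fun m hm => mem_centralizer_singleton_iff.2 (hQc' hq.1 m (hMQ hm)))
          (fun m hm => mem_centralizer_singleton_iff.2 (hq.2 m hm))
        exact fun l hl => mem_centralizer_singleton_iff.1 (this hl)⟩
      rw [h] at this
      rw [← h1]
      exact sup_le hQH (this.trans bot_le))
    have h3 : H ≤ centralizer (M : Set G) := le_centralizer_iff.1
      (((hMmin _ inferInstance h2).trans inf_le_right).trans (centralizer_le hHL))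
    have h4 := (H1.le_centralizer_of_commutator_le (hHQ.coprime_dvd_right (card_dvd_of_le hMQ)) hQH h3).trans hCQ
    have h5 : Nat.card L' = 1 := by
      rw [← hHc]; exact Nat.Coprime.eq_one_of_dvd hHQ (card_dvd_of_le h4)
    have h6 : IsPGroup p C := by
      obtain ⟨R, hR, h7, h8⟩ := H3.hasNormalPComplement_iff_exists_normal.1 hnpc
      have h9 : R ≤ pPrimeCore p C := H1.le_pPrimeCore ((Nat.Prime.coprime_iff_not_dvd hp).2 h7).symm
      have h10 := H1.map_subtype_pPrimeCore_eq (p := p) C
      rw [← hL', card_eq_one.1 h5, Subgroup.map_eq_bot_iff_of_injective _ C.subtype_injective] at h10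
      have h4 : R = ⊥ := le_bot_iff.1 (h10 ▸ h9)
      subst h4
      exact h8.of_equiv QuotientGroup.quotientBot
    haveI : (C.comap π).Normal := Normal.comap inferInstance _
    have h7 : C.comap π ≤ Q := H1.le_pCore (h6.comap_of_ker_isPGroup π (by
      rw [hπ, QuotientGroup.ker_mk']; exact hQp.to_le hMQ))
    have h8 : (P : Subgroup G) ≤ Q := fun x hx => h7 (hPC (mem_map_of_mem π hx))
    exact hD (le_bot_iff.1 (hQc ▸ commutator_mono h8 h8))
  · set E := layer G with hEd
    have hZE : E ⊓ centralizer (E : Set G) = ⊥ := by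
      refine hΦ0 _ inferInstance fun z hz => ?_
      have hzF : z ∈ pCore p G := by
        rw [← H1.fittingSubgroup_eq_pCore hcore, ← H10.FitOf_top]
        exact H10.SubnormalIn.center_le_FitOf (H10.subnormalIn_top.2 (Normal.isSubnormal inferInstance)) hz
      have hS := H3.sylowIn_inf_normal P E
      have h1 := H3.mem_commutator_of_mem_center (G := E) hS.toSylow.card_coprime_index (z := ⟨z, hz.1⟩)
        (show z ∈ (P : Subgroup G) ⊓ E from mem_inf.2 ⟨H1.pCore_le_sylow P hzF, hz.1⟩) (by
          have h2 : ⁅E, E⁆ = E := by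
            have := H10.LayOf_perfect (H := (⊤ : Subgroup G)); rwa [H10.LayOf_top] at this
          have h3 : z ∈ (_root_.commutator E).map E.subtype := by
            rw [map_subtype_commutator, h2]; exact hz.1
          obtain ⟨y, hy, e⟩ := h3
          rwa [show (⟨z, hz.1⟩ : E) = y from Subtype.ext e.symm])
        (mem_center_iff.2 fun e => Subtype.ext (hz.2 e e.2))
      have h2 := mem_map_of_mem E.subtype h1
      rw [map_commutator] at h2
      have h3 : (hS.toSylow : Subgroup E).map E.subtype ≤ P := by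
        rintro _ ⟨x, hx, rfl⟩; exact hx.1
      exact H3.commutator_le_frattiniOf P.2 (commutator_mono h3 h3 h2)
    have htr : ∀ K L : Subgroup G, IsComponent K → IsComponent L →
        ∃ x ∈ (P : Subgroup G), L = K.map (MulAut.conj x).toMonoidHom := by
      intro K L hK hL
      by_contra hcon
      set S : Set (Subgroup G) := {L | ∃ x ∈ (P : Subgroup G), L = K.map (MulAut.conj x).toMonoidHom} with hS
      have hSc : ∀ g ∈ (P : Subgroup G), ∀ L ∈ S, H11.cj g L ∈ S := by
        rintro g hg _ ⟨x, hx, rfl⟩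
        exact ⟨g * x, mul_mem hg hx, (H11.cj_mul g x K).symm⟩
      have hnorm : ∀ T : Set (Subgroup G), (∀ g ∈ (P : Subgroup G), ∀ L ∈ T, H11.cj g L ∈ T) →
          (P : Subgroup G) ≤ normalizer ((sSup T : Subgroup G) : Set G) := by
        intro T hT g hg
        refine H11.mem_normalizer_of_cj_le (H11.cj_le_iff'.2 (sSup_le fun L hL => H11.cj_le_iff'.1 ?_))
        exact le_sSup (hT g hg L hL)
      have hkey : ∀ T : Set (Subgroup G), (∀ g ∈ (P : Subgroup G), ∀ L ∈ T, H11.cj g L ∈ T) →
          ∀ L ∈ T, IsComponent L → ⁅(P : Subgroup G), (P : Subgroup G)⁆ ≤ sSup T := by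
        intro T hT L hL hLc
        refine (gen_of P hgen (hnorm T hT) fun h => ?_).2
        have := pg_of_npc hcore hLc.1 (H3.hasNormalPComplement_of_le (le_sSup hL) (tateA P (hnorm T hT) h))
        exact H10.QS.not_solvable hLc.2 (H1.isSolvable_of_isPGroup this)
      have hA := hkey {L | H10.CompOf L ⊤ ∧ L ∈ S} (fun g hg L hL =>
        ⟨hL.1.conj (by rw [normalizer_eq_top]; trivial), hSc g hg L hL.2⟩) K
        ⟨H10.compOf_top.2 hK, 1, one_mem _, (H11.cj_one K).symm⟩ hK
      have hB := hkey {L | H10.CompOf L ⊤ ∧ L ∉ S} (fun g hg L hL =>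
        ⟨hL.1.conj (by rw [normalizer_eq_top]; trivial), fun h => hL.2 (by
          have := hSc g⁻¹ (inv_mem hg) _ h
          rwa [H11.cj_inv_cj] at this)⟩) L ⟨H10.compOf_top.2 hL, hcon⟩ hL
      have hAB := commutator_eq_bot_iff_le_centralizer.1 (H10.commutator_comps_eq_bot (H := ⊤) S)
      have hE2 := H10.LayOf_eq_sup (H := (⊤ : Subgroup G)) S
      rw [H10.LayOf_top, ← hEd] at hE2
      apply hD
      rw [eq_bot_iff, ← hZE]
      refine le_inf (hE2 ▸ hA.trans le_sup_left) ?_
      rw [le_centralizer_iff, hE2]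
      exact sup_le (hAB.trans (centralizer_le hB)) ((le_centralizer_iff.1 hAB).trans (centralizer_le hA))
    have hDE := (hT' E inferInstance hE).2
    have hcent : ∀ M : Subgroup G, M.Normal → M ≠ ⊥ → ¬ M ≤ centralizer (E : Set G) := fun M hM h0 h =>
      hD (le_bot_iff.1 (hZE ▸ le_inf hDE ((hT' M hM h0).2.trans h)))
    have hFit : fittingSubgroup G = ⊥ := by
      by_contra h
      exact hcent _ inferInstance h (le_centralizer_iff.1
        (commutator_eq_bot_iff_le_centralizer.1 H10.commutator_layer_fitting))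
    refine ⟨⟨hF0, fun M hM h0 => ?_⟩, hcyc F hF0, fun _ => htr⟩
    rw [H10.fstar_def, hFit, sup_bot_eq, H10.layer_le_iff]
    intro L hL
    by_contra hLM
    apply hcent M hM h0
    rw [le_centralizer_iff, hEd, H10.layer_le_iff]
    intro K hK
    rcases (H10.compOf_top.2 hK).le_or_of_normalizes (U := M) le_top (H2.le_normalizer_of_normal' _ _) with h | h
    · obtain ⟨x, -, rfl⟩ := htr K L hK hL
      exact absurd (H11.cj_le_iff.2 fun k hk => hM.conj_mem k (h hk) x) hLM
    · exact commutator_eq_bot_iff_le_centralizer.1 h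

end Cfsg.Agent.S4172
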