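import Cfsg.Statements.S4177
import Cfsg.Agent.H1.SylowIn

set_option autoImplicit false
open Cfsg

namespace Cfsg.Agent.S4177

theorem sum_inv {k V H : Type*} [Field k] [AddCommGroup V] [Module k V] [Group H] [Finite H]
    (ρ : Representation k H V) (B : Subgroup H) [Fintype B] (a : V)
    (hB : ∀ h : H, ∃ b ∈ B, ρ h a = ρ b a) (h : H) :
    ρ h (∑ b : B, ρ b a) = ∑ b : B, ρ b a := by
  classical
  have := Fintype.ofFinite H
  set O : Finset V := Finset.univ.image fun h : H => ρ h a with hO
  have h1 : ∀ o ∈ O, (Finset.univ.filter fun b : B => ρ b a = o).card =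
      (Finset.univ.filter fun b : B => ρ b a = a).card := by
    intro o ho
    obtain ⟨g, -, rfl⟩ := Finset.mem_image.mp ho
    obtain ⟨c, hc, e⟩ := hB g
    rw [e]
    refine Finset.card_bijective (fun b => (⟨c, hc⟩ : B)⁻¹ * b) (Group.mulLeft_bijective _) fun b => ?_
    simp only [Finset.mem_filter, Finset.mem_univ, true_and, Subgroup.coe_mul, Subgroup.coe_inv, map_mul,
      Module.End.mul_apply]
    constructor
    · intro h; rw [h]; simp
    · intro h; simpa using congrArg (ρ c) h
  have h2 : ∑ b : B, ρ b a = (Finset.univ.filter fun b : B => ρ b a = a).card • ∑ o ∈ O, o := by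
    rw [← Finset.sum_fiberwise_of_maps_to (s := Finset.univ) (t := O) (g := fun b : B => ρ b a)
      (fun b _ => Finset.mem_image.mpr ⟨b, Finset.mem_univ _, rfl⟩), Finset.smul_sum]
    refine Finset.sum_congr rfl fun o ho => ?_
    rw [← h1 o ho, ← Finset.sum_const]
    exact Finset.sum_congr rfl fun b hb => (Finset.mem_filter.mp hb).2
  rw [h2, map_nsmul, map_sum]
  congr 1
  refine Finset.sum_bij (fun o _ => ρ h o) ?_ ?_ ?_ (fun _ _ => rfl)
  · intro o ho
    obtain ⟨g, -, rfl⟩ := Finset.mem_image.mp ho
    exact Finset.mem_image.mpr ⟨h * g, Finset.mem_univ _, by simp⟩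
  · intro o _ o' _ e
    simpa using congrArg (ρ h⁻¹) e
  · intro o ho
    obtain ⟨g, -, rfl⟩ := Finset.mem_image.mp ho
    exact ⟨ρ (h⁻¹ * g) a, Finset.mem_image.mpr ⟨_, Finset.mem_univ _, rfl⟩, by simp⟩

/-- stabilizer of a vector -/
def stab {k V H : Type*} [Field k] [AddCommGroup V] [Module k V] [Group H]
    (ρ : Representation k H V) (a : V) : Subgroup H where
  carrier := {h | ρ h a = a}
  one_mem' := by simp
  mul_mem' := by
    intro x y hx hy
    simp only [Set.mem_setOf_eq, map_mul, Module.End.mul_apply] at *
    rw [hy, hx]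
  inv_mem' := by
    intro x hx
    simp only [Set.mem_setOf_eq] at *
    conv_lhs => rw [← hx]
    simp

theorem index_stab {k V H : Type*} [Field k] [AddCommGroup V] [Module k V] [Group H]
    (ρ : Representation k H V) (a : V) :
    (stab ρ a).index = Nat.card {u : V | ∃ h : H, ρ h a = u} := by
  let _ : MulAction H V := MulAction.compHom V (ρ : H →* Module.End k V)
  exact MulAction.index_stabilizer H a

/-- Let k be a field whose characteristic does not divide the order of the finite group H (for instance a field of characteristic zero), and ρ a k-linear representation of H on V. Let a be a vector whose H-orbit spans V. Then the space of H-fixed vectors has dimension at most 1, and every vector b whose H-orbit has size coprime to the size of the orbit of a is fixed by H. -/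
theorem result {k V H : Type*} [Field k] [AddCommGroup V] [Module k V] [Group H] [Finite H]
    (hchar : ¬ ringChar k ∣ Nat.card H) (ρ : Representation k H V) (a : V)
    (hspan : Submodule.span k {u : V | ∃ h : H, ρ h a = u} = ⊤) :
    Module.finrank k ρ.invariants ≤ 1 ∧
    ∀ b : V, (Nat.card {u : V | ∃ h : H, ρ h a = u}).Coprime (Nat.card {u : V | ∃ h : H, ρ h b = u}) → ∀ h : H, ρ h b = b := by
  classical
  have := Fintype.ofFinite H
  have hne : ∀ B : Subgroup H, (Nat.card B : k) ≠ 0 := fun B h =>
    hchar (((ringChar.spec k _).mp h).trans B.card_subgroup_dvd_card)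
  have key : ∀ (B : Subgroup H) (b : V), (∀ g ∈ B, ρ g b = b) →
      (Nat.card B : k)⁻¹ • ∑ g : B, ρ g b = b := by
    intro B b hb
    rw [Finset.sum_congr rfl fun (g : B) _ => hb g g.2, Finset.sum_const, Finset.card_univ,
      ← Nat.card_eq_fintype_card, ← Nat.cast_smul_eq_nsmul k, smul_smul, inv_mul_cancel₀ (hne B), one_smul]
  constructor
  · have h1 : ρ.invariants ≤ Submodule.span k {∑ g : (⊤ : Subgroup H), ρ g a} := by
      intro b hb
      rw [← key ⊤ b fun g _ => hb g]
      refine Submodule.smul_mem _ _ ?_
      have h2 : b ∈ Submodule.span k {u : V | ∃ h : H, ρ h a = u} := hspan ▸ Submodule.mem_top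
      clear hb
      induction h2 using Submodule.span_induction with
      | mem x hx =>
        obtain ⟨h, rfl⟩ := hx
        refine Submodule.subset_span ?_
        exact Fintype.sum_equiv (Equiv.mulRight (⟨h, trivial⟩ : (⊤ : Subgroup H))) _ _ fun g => by simp
      | zero => simp
      | add x y _ _ hx hy => simpa [Finset.sum_add_distrib] using Submodule.add_mem _ hx hy
      | smul c x _ hx => simpa [← Finset.smul_sum] using Submodule.smul_mem _ c hx
    exact (Submodule.finrank_mono h1).trans ((finrank_span_le_card _).trans (by simp))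
  · intro b hb h
    rw [← key (stab ρ b) b fun g hg => hg, map_smul]
    congr 1
    have h2 : b ∈ Submodule.span k {u : V | ∃ h : H, ρ h a = u} := hspan ▸ Submodule.mem_top
    rw [← index_stab, ← index_stab] at hb
    generalize stab ρ b = B at hb
    induction h2 using Submodule.span_induction with
    | mem x hx =>
      obtain ⟨g, rfl⟩ := hx
      refine sum_inv ρ B _ (fun c => ?_) h
      obtain ⟨y, hy, z, hz, e⟩ := H1.exists_mul_of_coprime_relIndex (H := B) (L := stab ρ (ρ g a))
        (K := ⊤) le_top le_top (by
          rw [Subgroup.relIndex_top_right, Subgroup.relIndex_top_right]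
          convert hb.symm using 1
          rw [index_stab, index_stab]
          congr 2
          ext u
          exact ⟨fun ⟨c, hc⟩ => ⟨c * g, by simpa using hc⟩, fun ⟨c, hc⟩ => ⟨c * g⁻¹, by simpa using hc⟩⟩)
        (Subgroup.mem_top c)
      refine ⟨y, hy, ?_⟩
      rw [← e, map_mul, Module.End.mul_apply, show ρ z (ρ g a) = ρ g a from hz]
    | zero => simp
    | add x y _ _ hx hy => simp only [map_add, Finset.sum_add_distrib, hx, hy]
    | smul c x _ hx => simp only [map_smul, ← Finset.smul_sum, hx]

end Cfsg.Agent.S4177
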