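import Cfsg.Statements.S4176
import Cfsg.Agent.S4177
import Cfsg.Agent.H9.PSolv
import Cfsg.Agent.H26.Basic
import Cfsg.Agent.H2.Basic
import Cfsg.Agent.H10.Cores

set_option autoImplicit false
open Cfsg

namespace Cfsg.Agent.S4176

open S4177

universe u v w

/-- the inductive claim -/
def Claim (k : Type u) [Field k] (p : ℕ) (H : Type w) [Group H] : Prop :=
  ∀ (V : Type v) [AddCommGroup V] [Module k V] (ρ : Representation k H V) (a : V),
    ¬ p ∣ (stab ρ a).index → Submodule.span k {u : V | ∃ h : H, ρ h a = u} = ⊤ →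
    (∃ c : V, ∀ v : V, (∀ h : H, ρ h v = v) → v ∈ Submodule.span k {c}) ∧
    ∀ b : V, (stab ρ a).index.Coprime (stab ρ b).index → ∀ h : H, ρ h b = b

theorem index_stab_conj {k V H : Type*} [Field k] [AddCommGroup V] [Module k V] [Group H]
    (ρ : Representation k H V) (a : V) (g : H) : (stab ρ (ρ g a)).index = (stab ρ a).index := by
  rw [index_stab, index_stab]
  congr 2
  ext u
  exact ⟨fun ⟨c, hc⟩ => ⟨c * g, by simpa using hc⟩, fun ⟨c, hc⟩ => ⟨c * g⁻¹, by simpa using hc⟩⟩

theorem step {k : Type u} [Field k] {p : ℕ} {H : Type w} [Group H] (N : Subgroup H) [N.Normal]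
    (ih : Claim.{u, v, w} k p (H ⧸ N)) {V : Type v} [AddCommGroup V] [Module k V]
    (ρ : Representation k H V) (a a' : V) (hp : ¬ p ∣ (stab ρ a).index)
    (h1 : ∀ n ∈ N, ρ n a' = a') (h2 : stab ρ a ≤ stab ρ a')
    (h3 : ∀ v : V, (∀ n ∈ N, ρ n v = v) → v ∈ Submodule.span k {u : V | ∃ h : H, ρ h a' = u})
    (h4 : ∀ b : V, (stab ρ a).index.Coprime (stab ρ b).index → ∀ n ∈ N, ρ n b = b) :
    (∃ c : V, ∀ v : V, (∀ h : H, ρ h v = v) → v ∈ Submodule.span k {c}) ∧
    ∀ b : V, (stab ρ a).index.Coprime (stab ρ b).index → ∀ h : H, ρ h b = b := by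
  set W := Representation.invariants (ρ.comp N.subtype)
  set σ := ρ.quotientToInvariants N
  have hσ : ∀ (h : H) (x : W), (σ (h : H ⧸ N) x : V) = ρ h x := fun _ _ => rfl
  have hi : ∀ x : W, (stab σ x).index = (stab ρ (x : V)).index := fun x => by
    rw [← Subgroup.index_comap_of_surjective _ (QuotientGroup.mk'_surjective N)]
    congr 1
    ext h
    exact Subtype.ext_iff
  have hW : ∀ x : V, x ∈ W ↔ ∀ n ∈ N, ρ n x = x := fun x =>
    ⟨fun h n hn => h ⟨n, hn⟩, fun h n => h n n.2⟩
  have hd : (stab σ ⟨a', (hW a').mpr h1⟩).index ∣ (stab ρ a).index := by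
    rw [hi]
    exact Subgroup.index_dvd_of_le h2
  obtain ⟨⟨c, hc⟩, hb⟩ := ih W σ ⟨a', (hW a').mpr h1⟩ (fun h => hp (h.trans hd)) (by
    apply Submodule.map_injective_of_injective W.injective_subtype
    rw [Submodule.map_span, Submodule.map_top, Submodule.range_subtype]
    apply le_antisymm
    · rw [Submodule.span_le]
      rintro _ ⟨x, -, rfl⟩
      exact x.2
    · intro x hx
      refine Submodule.span_mono ?_ (h3 x ((hW x).mp hx))
      rintro _ ⟨h, rfl⟩
      exact ⟨_, ⟨(h : H ⧸ N), rfl⟩, rfl⟩)
  refine ⟨⟨c, fun v hv => ?_⟩, fun b hb' h => ?_⟩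
  · have := hc ⟨v, (hW v).mpr fun n _ => hv n⟩ fun h => by
      obtain ⟨h, rfl⟩ := QuotientGroup.mk_surjective h
      exact Subtype.ext (hv h)
    obtain ⟨t, ht⟩ := Submodule.mem_span_singleton.mp this
    exact Submodule.mem_span_singleton.mpr ⟨t, congrArg Subtype.val ht⟩
  · have := hb ⟨b, (hW b).mpr (h4 b hb')⟩ (by
      rw [hi ⟨b, _⟩]
      exact hb'.coprime_dvd_left hd) (h : H ⧸ N)
    exact congrArg Subtype.val this

theorem main (k : Type u) [Field k] (p : ℕ) [hp : Fact p.Prime] [CharP k p] (H : Type w) [Group H]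
    [Finite H] : IsPSolvable p H → Claim.{u, v, w} k p H := by
  classical
  refine H2.card_induction (P := fun H _ _ => IsPSolvable p H → Claim.{u, v, w} k p H) ?_ H
  intro H _ _ ih hsol V _ _ ρ a ha hspan
  rcases subsingleton_or_nontrivial H with hH | hH
  · refine ⟨⟨a, fun v _ => ?_⟩, fun b _ h => by rw [Subsingleton.elim h 1]; simp⟩
    have : v ∈ Submodule.span k {u : V | ∃ h : H, ρ h a = u} := hspan ▸ Submodule.mem_top
    refine Submodule.span_mono ?_ this
    rintro _ ⟨h, rfl⟩
    rw [Subsingleton.elim h 1]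
    simp
  have hall : ∀ v : V, v ∈ Submodule.span k {u : V | ∃ h : H, ρ h a = u} := fun v =>
    hspan ▸ Submodule.mem_top
  rcases H9.core_ne_bot_of_isPSolvable hsol with hN | hN
  · set N := pCore p H
    have h1 : ∀ v : V, ∀ n ∈ N, ρ n v = v := fun v n hn => by
      induction hall v using Submodule.span_induction with
      | mem x hx =>
        obtain ⟨g, rfl⟩ := hx
        have h2 := H26.relIndex_dvd_index_of_normal_right (stab ρ (ρ g a)) N
        rw [index_stab_conj] at h2
        obtain ⟨m, hm⟩ := (H10.pCore_isPGroup' p H).index ((stab ρ (ρ g a)).subgroupOf N)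
        have h3 : (stab ρ (ρ g a)).relIndex N = 1 := by
          rcases m with _ | m
          · exact hm
          · exact absurd ((dvd_pow_self p m.succ_ne_zero).trans (hm ▸ h2)) ha
        exact Subgroup.relIndex_eq_one.mp h3 hn
      | zero => simp
      | add x y _ _ hx hy => rw [map_add, hx, hy]
      | smul c x _ hx => rw [map_smul, hx]
    exact step N (ih _ (H1.card_quotient_lt hN) (H9.isPSolvable_quotient hsol N)) ρ a a ha (h1 a) le_rfl
      (fun v _ => hall v) (fun b _ => h1 b)
  · set N := pPrimeCore p H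
    have := Fintype.ofFinite N
    have hne : ∀ B : Subgroup N, (Nat.card B : k) ≠ 0 := fun B h =>
      (Nat.Prime.coprime_iff_not_dvd hp.out).mp (H10.pPrimeCore_coprime p H).symm
        (((CharP.cast_eq_zero_iff k p _).mp h).trans B.card_subgroup_dvd_card)
    set τ : Representation k N V := ρ.comp N.subtype
    have hτ : ∀ (n : N) (x : V), τ n x = ρ n x := fun _ _ => rfl
    have key : ∀ (B : Subgroup N) (b : V), (∀ g ∈ B, τ g b = b) →
        (Nat.card B : k)⁻¹ • ∑ g : B, τ g b = b := by
      intro B b hb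
      rw [Finset.sum_congr rfl fun (g : B) _ => hb g g.2, Finset.sum_const, Finset.card_univ,
        ← Nat.card_eq_fintype_card, ← Nat.cast_smul_eq_nsmul k, smul_smul, inv_mul_cancel₀ (hne B),
        one_smul]
    have hconj : ∀ (h : H) (x : V), ρ h (∑ g : (⊤ : Subgroup N), τ g x) =
        ∑ g : (⊤ : Subgroup N), τ g (ρ h x) := fun h x => by
      rw [map_sum]
      refine Fintype.sum_equiv (Subgroup.topEquiv.toEquiv.trans
        ((MulAut.conjNormal h).toEquiv.trans Subgroup.topEquiv.toEquiv.symm)) _ _ fun g => ?_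
      simp [hτ]
    refine step N (ih _ (H1.card_quotient_lt hN) (H9.isPSolvable_quotient hsol N)) ρ a
      ((Nat.card (⊤ : Subgroup N) : k)⁻¹ • ∑ g : (⊤ : Subgroup N), τ g a) ha ?_ ?_ ?_ ?_
    · intro n hn
      rw [map_smul, ← hτ ⟨n, hn⟩, sum_inv τ ⊤ a (fun h => ⟨h, trivial, rfl⟩)]
    · intro h hh
      show ρ h _ = _
      rw [map_smul, hconj, show ρ h a = a from hh]
    · intro v hv
      rw [← key ⊤ v fun g _ => hv g g.2]
      clear hv
      induction hall v using Submodule.span_induction with
      | mem x hx =>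
        obtain ⟨h, rfl⟩ := hx
        exact Submodule.subset_span ⟨h, by rw [map_smul, hconj]⟩
      | zero => simp
      | add x y _ _ hx hy => simpa [Finset.sum_add_distrib] using Submodule.add_mem _ hx hy
      | smul c x _ hx =>
        rw [Finset.sum_congr rfl fun (g : (⊤ : Subgroup N)) _ => map_smul (τ g) c x, ← Finset.smul_sum,
          smul_comm]
        exact Submodule.smul_mem _ c hx
    · intro b hb n hn
      rw [← key ((stab ρ b).subgroupOf N) b fun g hg => hg, map_smul]
      congr 1
      generalize stab ρ b = B at hb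
      induction hall b using Submodule.span_induction with
      | mem x hx =>
        obtain ⟨g, rfl⟩ := hx
        refine sum_inv τ _ _ (fun c => ?_) ⟨n, hn⟩
        obtain ⟨y, hy, z, hz, e⟩ := H1.exists_mul_of_coprime_relIndex (H := B.subgroupOf N)
          (L := (stab ρ (ρ g a)).subgroupOf N) (K := ⊤) le_top le_top (by
            rw [Subgroup.relIndex_top_right, Subgroup.relIndex_top_right]
            refine (hb.symm.coprime_dvd_left (H26.relIndex_dvd_index_of_normal_right B N)).coprime_dvd_right ?_
            rw [← index_stab_conj ρ a g]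
            exact H26.relIndex_dvd_index_of_normal_right _ N)
          (Subgroup.mem_top c)
        refine ⟨y, hy, ?_⟩
        rw [← e, map_mul, Module.End.mul_apply, show τ z (ρ g a) = ρ g a from hz]
      | zero => simp
      | add x y _ _ hx hy => simp only [map_add, Finset.sum_add_distrib, hx, hy]
      | smul c x _ hx => simp only [map_smul, ← Finset.smul_sum, hx]

/-- Let k be a field of prime characteristic p, H a finite p-soluble group and ρ a k-linear representation of H on V. Let a be a vector that is fixed by some Sylow p-subgroup of H and whose H-orbit spans V. Then the space of H-fixed vectors has dimension at most 1, and every vector b whose H-orbit has size coprime to the size of the orbit of a is fixed by H. -/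
theorem result {k V H : Type*} [Field k] (p : ℕ) [Fact p.Prime] [CharP k p] [AddCommGroup V] [Module k V]
    [Group H] [Finite H] (hsol : Cfsg.IsPSolvable p H) (ρ : Representation k H V) (a : V)
    (hfix : ∃ P : Sylow p H, ∀ x : H, x ∈ (P : Subgroup H) → ρ x a = a)
    (hspan : Submodule.span k {u : V | ∃ h : H, ρ h a = u} = ⊤) :
    Module.finrank k ρ.invariants ≤ 1 ∧
    ∀ b : V, (Nat.card {u : V | ∃ h : H, ρ h a = u}).Coprime (Nat.card {u : V | ∃ h : H, ρ h b = u}) → ∀ h : H, ρ h b = b := by
  obtain ⟨P, hP⟩ := hfix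
  obtain ⟨⟨c, hc⟩, h2⟩ := main k p H hsol V ρ a
    (fun h => P.not_dvd_index (h.trans (Subgroup.index_dvd_of_le (H := (P : Subgroup H)) hP))) hspan
  refine ⟨?_, fun b hb => h2 b (by rwa [index_stab, index_stab])⟩
  exact (Submodule.finrank_mono (s := ρ.invariants) fun v hv => hc v hv).trans
    ((finrank_span_le_card _).trans (by simp))

end Cfsg.Agent.S4176
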