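import Cfsg.Statements.S4178
import Cfsg.Agent.H1.Basic

set_option autoImplicit false
open Cfsg

namespace Cfsg.Agent.S4178

theorem aux {H X : Type*} [Group H] [Finite X] [Zero X] [MulAction H X] (R : Subgroup H)
    (h0 : ∀ h : H, h • (0 : X) = 0) (v : X) (hv : v ≠ 0) (hR : ∀ h : H, h • v = v → h ∈ R) :
    R.index ≤ Nat.card X - 1 := by
  have h1 : (MulAction.stabilizer H v).index = (MulAction.orbit H v).ncard := MulAction.index_stabilizer H v
  have h2 : (MulAction.orbit H v).ncard < Nat.card X := by
    rw [← Set.ncard_univ]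
    refine Set.ncard_lt_ncard (Set.ssubset_univ_iff.mpr fun h => ?_) (Set.toFinite _)
    obtain ⟨g, hg⟩ : (0 : X) ∈ MulAction.orbit H v := h ▸ Set.mem_univ _
    exact hv (smul_left_cancel g (hg.trans (h0 g).symm))
  have h3 := Nat.le_of_dvd (by
    rw [h1, Set.ncard_pos]; exact ⟨v, MulAction.mem_orbit_self v⟩)
    (Subgroup.index_dvd_of_le (show MulAction.stabilizer H v ≤ R from hR))
  omega

/-- Let F be a finite field with q elements, V a non-zero finite-dimensional F-space of dimension d, H a group of invertible linear maps of V, and R the subgroup of H generated by the elements of H that fix some non-zero vector (have eigenvalue 1). Then the index of R in H is at most q^d − 1; and if H leaves invariant some proper non-zero subspace, the index is at most q^(d/2) − 1. -/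
theorem result {F V : Type*} [Field F] [Fintype F] [AddCommGroup V] [Module F V] [FiniteDimensional F V] [Nontrivial V]
    (H : Subgroup (V ≃ₗ[F] V)) :
    (Subgroup.closure {h : ↥H | ∃ v : V, v ≠ 0 ∧ (h : V ≃ₗ[F] V) v = v}).index ≤ Fintype.card F ^ Module.finrank F V - 1 ∧
    ((∃ W : Submodule F V, W ≠ ⊥ ∧ W ≠ ⊤ ∧ ∀ h ∈ H, ∀ w ∈ W, h w ∈ W) →
      ((Subgroup.closure {h : ↥H | ∃ v : V, v ≠ 0 ∧ (h : V ≃ₗ[F] V) v = v}).index : ℝ) ≤ Real.sqrt ((Fintype.card F : ℝ) ^ Module.finrank F V) - 1) := by
  have : Finite V := Module.finite_of_finite F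
  have hV : Nat.card V = Fintype.card F ^ Module.finrank F V := by
    rw [Module.natCard_eq_pow_finrank (K := F), Nat.card_eq_fintype_card]
  set R := Subgroup.closure {h : ↥H | ∃ v : V, v ≠ 0 ∧ (h : V ≃ₗ[F] V) v = v} with hR
  constructor
  · obtain ⟨v, hv⟩ := exists_ne (0 : V)
    rw [← hV]
    exact aux R (fun h => map_zero h.1) v hv fun h hh => Subgroup.subset_closure ⟨v, hv, hh⟩
  · rintro ⟨W, h1, h2, h3⟩
    have : Finite (V ⧸ W) := Finite.of_surjective _ W.mkQ_surjective
    let _ : MulAction H W :=
      { smul := fun h w => ⟨h.1 w, h3 _ h.2 _ w.2⟩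
        one_smul := fun w => rfl
        mul_smul := fun a b w => rfl }
    let _ : MulAction H (V ⧸ W) :=
      { smul := fun h w => W.mapQ W h.1.toLinearMap (fun w hw => h3 _ h.2 _ hw) w
        one_smul := fun w => by induction w using Submodule.Quotient.induction_on; rfl
        mul_smul := fun a b w => by induction w using Submodule.Quotient.induction_on; rfl }
    obtain ⟨w, hw, hw0⟩ := W.exists_mem_ne_zero_of_ne_bot h1
    have a1 := aux (X := W) R (fun h => Subtype.ext (map_zero h.1)) ⟨w, hw⟩
      (fun h => hw0 (congrArg Subtype.val h))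
      fun h hh => Subgroup.subset_closure ⟨w, hw0, congrArg Subtype.val hh⟩
    obtain ⟨v, hv⟩ : ∃ v, v ∉ W := by
      by_contra h
      push Not at h
      exact h2 (Submodule.eq_top_iff'.mpr h)
    have a2 := aux (X := V ⧸ W) R (fun h => map_zero (W.mapQ W h.1.toLinearMap _))
      (Submodule.Quotient.mk v) (fun h => hv ((Submodule.Quotient.mk_eq_zero W).mp h)) fun h hh => by
        refine Subgroup.subset_closure ?_
        by_contra hc
        simp only [Set.mem_setOf_eq, not_exists, not_and] at hc
        have h4 : h.1 v - v ∈ W := (Submodule.Quotient.eq W).mp hh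
        let f : W →ₗ[F] W := (h.1.toLinearMap - LinearMap.id).restrict
          fun w hw => W.sub_mem (h3 _ h.2 _ hw) hw
        have hf : Function.Injective f := by
          rw [injective_iff_map_eq_zero]
          intro u hu
          by_contra hu0
          exact hc u (fun e => hu0 (Subtype.ext e)) (sub_eq_zero.mp (congrArg Subtype.val hu))
        obtain ⟨u, hu⟩ := (Finite.injective_iff_surjective.mp hf) ⟨_, h4⟩
        have h5 : h.1 u - u = h.1 v - v := congrArg Subtype.val hu
        refine hc (v - u) (fun e => hv (sub_eq_zero.mp e ▸ u.2)) ?_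
        rw [map_sub]
        linear_combination (norm := abel) -h5
    have h4 := Submodule.card_eq_card_quotient_mul_card W
    have p1 : 0 < Nat.card W := Nat.card_pos
    have p2 : 0 < Nat.card (V ⧸ W) := Nat.card_pos
    have h5 : (R.index + 1) ^ 2 ≤ Nat.card V := by
      rw [h4, sq]
      exact Nat.mul_le_mul (by omega) (by omega)
    rw [le_sub_iff_add_le]
    refine Real.le_sqrt_of_sq_le ?_
    rw [hV] at h5
    exact_mod_cast h5

end Cfsg.Agent.S4178
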