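import Cfsg.Statements.S4184
import Cfsg.Agent.H4.Frobenius

set_option autoImplicit false
open Cfsg

namespace Cfsg.Agent.S4184

open Subgroup

theorem conj_mem {X : Type*} [Group X] [Finite X] {q : ℕ} [Fact q.Prime] (K : Subgroup X) (hK : ¬ q ∣ K.index)
    {w : X} (hw : orderOf w = q) : ∃ h : X, h⁻¹ * w * h ∈ K := by
  have hp : IsPGroup q (zpowers w) := IsPGroup.of_card (n := 1) (by rw [Nat.card_zpowers, hw, pow_one])
  obtain ⟨a, ha⟩ := hp.nonempty_fixed_point_of_prime_not_dvd_card (X ⧸ K) hK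
  obtain ⟨g, rfl⟩ := QuotientGroup.mk_surjective a
  have := ha ⟨w, mem_zpowers w⟩
  refine ⟨g, ?_⟩
  have e : ((w * g : X) : X ⧸ K) = (g : X ⧸ K) := this
  simpa [mul_assoc] using QuotientGroup.eq.1 e.symm

theorem exists_central {G : Type*} [Group G] [Finite G] {r : ℕ} [Fact r.Prime] (hr : r ∣ Nat.card G) {y : G}
    (hy : y ^ r = 1) : ∃ w : G, orderOf w = r ∧ ¬ r ∣ (centralizer {w}).index ∧ Commute w y := by
  have hp : IsPGroup r (zpowers y) := by
    rintro ⟨_, n, rfl⟩
    exact ⟨1, Subtype.ext (by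
      simp only [SubgroupClass.coe_pow, coe_one, pow_one]
      rw [← zpow_natCast, ← zpow_mul, mul_comm, zpow_mul, zpow_natCast, hy, one_zpow])⟩
  obtain ⟨S, hS⟩ := hp.exists_le_sylow
  have h1 : r ∣ Nat.card S := by
    have := S.1.card_mul_index ▸ hr
    exact ((Fact.out : r.Prime).dvd_mul.1 this).resolve_right S.not_dvd_index
  have : Nontrivial S := Finite.one_lt_card_iff_nontrivial.1
    (lt_of_lt_of_le (Fact.out : r.Prime).one_lt (Nat.le_of_dvd Nat.card_pos h1))
  have := S.isPGroup'.center_nontrivial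
  obtain ⟨n, hn, e⟩ := (S.isPGroup'.to_subgroup (center S)).nontrivial_iff_card.1 this
  obtain ⟨w, hw⟩ := exists_prime_orderOf_dvd_card' (G := center S) r (e ▸ dvd_pow_self r hn.ne')
  have hc : (S : Subgroup G) ≤ centralizer {w.1.1} := fun g hg =>
    mem_centralizer_singleton_iff.2 (congrArg Subtype.val (mem_center_iff.1 w.2 ⟨g, hg⟩))
  refine ⟨w.1.1, by rw [orderOf_coe, orderOf_coe, hw], fun h => S.not_dvd_index (h.trans (index_dvd_of_le hc)), ?_⟩
  exact (mem_centralizer_singleton_iff.1 (hc (hS (mem_zpowers y)))).symm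

theorem cent_mul_le {G : Type*} [Group G] [Finite G] {x y : G} (h : Commute x y)
    (hc : (orderOf x).Coprime (orderOf y)) : centralizer {x * y} ≤ centralizer {x} := by
  intro g hg
  obtain ⟨k, h1, h2⟩ := Nat.chineseRemainder hc 1 0
  have e : (x * y) ^ k = x := by
    rw [h.mul_pow, pow_eq_pow_iff_modEq.2 h1, pow_eq_pow_iff_modEq.2 h2, pow_one, pow_zero, mul_one]
  have : Commute g (x * y) := mem_centralizer_singleton_iff.1 hg
  exact mem_centralizer_singleton_iff.2 (e ▸ this.pow_right k)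

theorem index_conj {G : Type*} [Group G] (w h : G) :
    (centralizer {h⁻¹ * w * h}).index = (centralizer {w}).index := by
  have : centralizer {h⁻¹ * w * h} = (centralizer {w}).comap (MulAut.conj h).toMonoidHom := by
    ext g
    simp only [mem_centralizer_singleton_iff, mem_comap, MulEquiv.coe_toMonoidHom, MulAut.conj_apply]
    constructor
    · intro e
      calc h * g * h⁻¹ * w = h * (g * (h⁻¹ * w * h)) * h⁻¹ := by group
        _ = _ := by rw [e]; group
    · intro e
      calc g * (h⁻¹ * w * h) = h⁻¹ * (h * g * h⁻¹ * w) * h := by group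
        _ = _ := by rw [e]; group
  rw [this, index_comap_of_surjective _ (MulAut.conj h).surjective]

theorem core {G : Type*} [Group G] [Finite G] (hZ : center G = ⊥) {m : ℕ} (hm : m ≠ 0) {A : Set ℕ}
    (hd : ∀ g : G, (centralizer {g}).index ∣ m)
    (hT : ∀ g : G, (centralizer {g}).index ≠ 1 → (∀ s ∉ A, s.Prime → ¬ s ∣ m / (centralizer {g}).index) ∨
      (∀ s ∈ A, s.Prime → ¬ s ∣ m / (centralizer {g}).index))
    (hN : ∀ g : G, m / (centralizer {g}).index ≠ 1) {p q k : ℕ} (pp : p.Prime) (pA : p ∈ A) (pm : p ∣ m)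
    (pG : p ∣ Nat.card G) (qq : q.Prime) (qA : q ∉ A) (hk : q ^ k ∣ Nat.card G) : q ^ k ∣ m := by
  have := Fact.mk pp
  have := Fact.mk qq
  by_contra hq
  have hpq : p ≠ q := fun e => qA (e ▸ pA)
  have ne1 : ∀ g : G, ∀ r : ℕ, r.Prime → orderOf g = r → (centralizer {g}).index ≠ 1 := by
    intro g r rr e h1
    have : g ∈ center G := mem_center_iff.2 fun a =>
      mem_centralizer_singleton_iff.1 (index_eq_one.1 h1 ▸ mem_top a)
    rw [hZ, mem_bot] at this
    rw [this, orderOf_one] at e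
    exact rr.one_lt.ne e
  have mono : ∀ {a b : G}, centralizer {a} ≤ centralizer {b} →
      m / (centralizer {a}).index ∣ m / (centralizer {b}).index := fun h =>
    Nat.div_dvd_div_left (hd _) (index_dvd_of_le h)
  have both : ∀ a b : G, Commute a b → (orderOf a).Coprime (orderOf b) →
      (∀ s ∉ A, s.Prime → ¬ s ∣ m / (centralizer {a}).index) →
      (∀ s ∈ A, s.Prime → ¬ s ∣ m / (centralizer {b}).index) → False := by
    intro a b h hc h1 h2
    obtain ⟨s, ss, hs⟩ := Nat.exists_prime_and_dvd (hN (a * b))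
    by_cases sA : s ∈ A
    · exact h2 s sA ss (hs.trans (mono (h.eq ▸ cent_mul_le h.symm hc.symm)))
    · exact h1 s sA ss (hs.trans (mono (cent_mul_le h hc)))
  have dv : ∀ (g : G) (r : ℕ), r.Prime → r ∣ m → ¬ r ∣ (centralizer {g}).index → r ∣ m / (centralizer {g}).index := by
    intro g r rr h1 h2
    rw [← Nat.mul_div_cancel' (hd g)] at h1
    exact (rr.dvd_mul.1 h1).resolve_left h2
  have qC : ∀ g : G, q ∣ Nat.card (centralizer {g}) := by
    intro g
    by_contra h
    rw [← (centralizer {g}).card_mul_index] at hk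
    exact hq ((((Nat.Prime.coprime_iff_not_dvd qq).2 h).pow_left k).dvd_of_dvd_mul_left hk |>.trans (hd g))
  have qG : q ∣ Nat.card G := (qC 1).trans (card_subgroup_dvd_card _)
  by_cases qm : q ∣ m
  swap
  · obtain ⟨w, hw⟩ := exists_prime_orderOf_dvd_card' q qG
    refine ne1 w q qq hw (index_eq_one.2 (H4.eq_top_of_forall_exists_conj_mem _ fun g => ?_))
    obtain ⟨h, hh⟩ := conj_mem (centralizer {g}) (fun h => qm (h.trans (hd g))) hw
    refine ⟨h, mem_centralizer_singleton_iff.2 ?_⟩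
    have e := mem_centralizer_singleton_iff.1 hh
    calc h * g * h⁻¹ * w = h * (g * (h⁻¹ * w * h)) * h⁻¹ := by group
      _ = _ := by rw [← e]; group
  obtain ⟨x, hx, hx1, -⟩ := exists_central pG (one_pow p)
  have xI := (hT x (ne1 x p pp hx)).resolve_right fun h => h p pA pp (dv x p pp pm hx1)
  obtain ⟨⟨y, hy⟩, hy1⟩ := exists_prime_orderOf_dvd_card' q (qC x)
  rw [← orderOf_coe] at hy1
  have xy : Commute x y := (mem_centralizer_singleton_iff.1 hy).symm
  have co : ∀ z : G, orderOf z = q → (orderOf x).Coprime (orderOf z) := fun z hz => by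
    rw [hx, hz]; exact (Nat.coprime_primes pp qq).2 hpq
  have yI := (hT y (ne1 y q qq hy1)).resolve_right (both x y xy (co y hy1) xI)
  have l1 := cent_mul_le xy (co y hy1)
  have l2 : centralizer {x * y} ≤ centralizer {y} := xy.eq ▸ cent_mul_le xy.symm (co y hy1).symm
  have nd : ¬ q ∣ (centralizer {x * y}).relIndex (centralizer {y}) := by
    intro h
    refine yI q qA qq (h.trans ?_)
    have h0 := hd (x * y)
    rw [← relIndex_mul_index l2] at h0
    exact (Nat.dvd_div_iff_mul_dvd (hd y)).2 (by rwa [mul_comm] at h0)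
  obtain ⟨w, hw, hw1, hw2⟩ := exists_central qG (hy1 ▸ pow_orderOf_eq_one y : y ^ q = 1)
  have wII := (hT w (ne1 w q qq hw)).resolve_left fun h => h q qA qq (dv w q qq qm hw1)
  obtain ⟨h, hh⟩ := conj_mem ((centralizer {x * y}).subgroupOf (centralizer {y})) nd
    (w := ⟨w, mem_centralizer_singleton_iff.2 hw2⟩) (by rw [← orderOf_coe]; exact hw)
  have e : h.1⁻¹ * w * h.1 ∈ centralizer {x} := l1 hh
  have ho : orderOf (h.1⁻¹ * w * h.1) = q := by
    rw [← hw]; simpa using (MulAut.conj h.1⁻¹).orderOf_eq w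
  exact both x _ (mem_centralizer_singleton_iff.1 e).symm (co _ ho) xI (by rw [index_conj]; exact wII)

theorem typ {M : Type*} [Group M] [Finite M] {x : M} {a s : ℕ} (aa : a.Prime) (ss : s.Prime) (hne : a ≠ s)
    (ha : a ∣ orderOf x) (hs : s ∣ Nat.card M / (centralizer {x}).index) : ∃ z : M, orderOf z = a * s := by
  have := Fact.mk ss
  rw [← (centralizer {x}).card_mul_index, Nat.mul_div_cancel _ (Nat.pos_of_ne_zero index_ne_zero_of_finite)] at hs
  obtain ⟨⟨y, hy⟩, hy1⟩ := exists_prime_orderOf_dvd_card' s hs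
  rw [← orderOf_coe] at hy1
  have xy : Commute x y := (mem_centralizer_singleton_iff.1 hy).symm
  have o1 : orderOf (x ^ (orderOf x / a)) = a := orderOf_pow_orderOf_div (orderOf_pos x).ne' ha
  refine ⟨x ^ (orderOf x / a) * y, ?_⟩
  rw [(xy.pow_left _).orderOf_mul_eq_mul_orderOf_of_coprime, o1, hy1]
  rw [o1, hy1]; exact (Nat.coprime_primes aa ss).2 hne

/-- Let G and M be finite groups with trivial centres and the same set of conjugacy class sizes, and suppose the prime graph of M is disconnected: the prime divisors of #M split into two non-empty parts such that M has no element of order pq with p in one part and q in the other. Then #G = #M. -/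
theorem result {G M : Type*}
    [Group G] [Finite G] [Group M] [Finite M] (hZG : Subgroup.center G = ⊥) (hZM : Subgroup.center M = ⊥)
    (h : Set.range (fun g : G => (Subgroup.centralizer ({g} : Set G)).index) = Set.range (fun g : M => (Subgroup.centralizer ({g} : Set M)).index))
    (hdisc : ∃ A : Set ℕ, (∃ a ∈ A, a.Prime ∧ a ∣ Nat.card M) ∧ (∃ b ∉ A, b.Prime ∧ b ∣ Nat.card M) ∧
      ∀ a ∈ A, ∀ b ∉ A, a.Prime → b.Prime → a ∣ Nat.card M → b ∣ Nat.card M → ¬ ∃ x : M, orderOf x = a * b) :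
    Nat.card G = Nat.card M := by
  obtain ⟨A, ⟨a, aA, aa, am⟩, ⟨b, bA, bb, bm⟩, hA⟩ := hdisc
  have hGM : ∀ g : G, ∃ x : M, (centralizer {x}).index = (centralizer {g}).index := fun g =>
    (h ▸ Set.mem_range_self g : _ ∈ Set.range fun g : M => (centralizer {g}).index)
  have hMG : ∀ g : M, ∃ x : G, (centralizer {x}).index = (centralizer {g}).index := fun g =>
    (h ▸ Set.mem_range_self g : _ ∈ Set.range fun g : G => (centralizer {g}).index)
  have sd : ∀ {s : ℕ} {x : M}, s ∣ Nat.card M / (centralizer {x}).index → s ∣ Nat.card M := fun h =>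
    h.trans (Nat.div_dvd_of_dvd (index_dvd_card _))
  have t1 : ∀ (x : M) (r : ℕ), r.Prime → r ∈ A → r ∣ orderOf x →
      ∀ s ∉ A, s.Prime → ¬ s ∣ Nat.card M / (centralizer {x}).index := fun x r rr rA hr s sA ss hs =>
    hA r rA s sA rr ss (hr.trans (orderOf_dvd_natCard x)) (sd hs) (typ rr ss (fun e => sA (e ▸ rA)) hr hs)
  have t2 : ∀ (x : M) (r : ℕ), r.Prime → r ∉ A → r ∣ orderOf x →
      ∀ s ∈ A, s.Prime → ¬ s ∣ Nat.card M / (centralizer {x}).index := fun x r rr rA hr s sA ss hs =>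
    hA s sA r rA ss rr (sd hs) (hr.trans (orderOf_dvd_natCard x))
      (mul_comm r s ▸ typ rr ss (fun e => rA (e ▸ sA)) hr hs)
  have hMd : Nat.card M ∣ Nat.card G := by
    refine (Nat.dvd_iff_prime_pow_dvd_dvd _ _).2 fun q k qq hk => ?_
    have key : ∀ x : M, ¬ q ∣ Nat.card M / (centralizer {x}).index → q ^ k ∣ Nat.card G := by
      intro x hx
      obtain ⟨g, hg⟩ := hMG x
      rw [← Nat.div_mul_cancel (index_dvd_card (centralizer {x}))] at hk
      exact ((((Nat.Prime.coprime_iff_not_dvd qq).2 hx).pow_left k).dvd_of_dvd_mul_left hk).trans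
        (hg ▸ index_dvd_card _)
    by_cases qA : q ∈ A
    · have := Fact.mk bb
      obtain ⟨x, hx⟩ := exists_prime_orderOf_dvd_card' b bm
      exact key x (t2 x b bb bA (hx ▸ dvd_rfl) q qA qq)
    · have := Fact.mk aa
      obtain ⟨x, hx⟩ := exists_prime_orderOf_dvd_card' a am
      exact key x (t1 x a aa aA (hx ▸ dvd_rfl) q qA qq)
  have hd : ∀ g : G, (centralizer {g}).index ∣ Nat.card M := fun g => by
    obtain ⟨x, hx⟩ := hGM g
    exact hx ▸ index_dvd_card _
  have hT : ∀ g : G, (centralizer {g}).index ≠ 1 →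
      (∀ s ∉ A, s.Prime → ¬ s ∣ Nat.card M / (centralizer {g}).index) ∨
      (∀ s ∈ A, s.Prime → ¬ s ∣ Nat.card M / (centralizer {g}).index) := fun g hg => by
    obtain ⟨x, hx⟩ := hGM g
    rw [← hx] at hg ⊢
    have x1 : orderOf x ≠ 1 := fun e => hg (by
      rw [orderOf_eq_one_iff.1 e]; exact index_eq_one.2 (eq_top_iff.2 fun _ _ => by simp [mem_centralizer_singleton_iff]))
    obtain ⟨r, rr, hr⟩ := Nat.exists_prime_and_dvd x1
    by_cases rA : r ∈ A
    · exact .inl (t1 x r rr rA hr)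
    · exact .inr (t2 x r rr rA hr)
  have hN : ∀ g : G, Nat.card M / (centralizer {g}).index ≠ 1 := fun g hg => by
    obtain ⟨x, hx⟩ := hGM g
    rw [← hx, ← (centralizer {x}).card_mul_index,
      Nat.mul_div_cancel _ (Nat.pos_of_ne_zero index_ne_zero_of_finite), card_eq_one] at hg
    have x1 : x = 1 := mem_bot.1 (hg ▸ mem_centralizer_singleton_iff.2 rfl)
    have : (⊤ : Subgroup M) = ⊥ := by
      rw [← hg, x1]; exact (eq_top_iff.2 fun _ _ => by simp [mem_centralizer_singleton_iff]).symm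
    have h1 : Nat.card M = 1 := by rw [← card_top, this, card_bot]
    exact aa.one_lt.ne' (Nat.dvd_one.1 (h1 ▸ am))
  refine Nat.dvd_antisymm ((Nat.dvd_iff_prime_pow_dvd_dvd _ _).2 fun q k qq hk => ?_) hMd
  by_cases qA : q ∈ A
  · refine core hZG Nat.card_pos.ne' (A := Aᶜ) hd (fun g hg => ?_) hN bb bA bm (bm.trans hMd) qq (by simpa using qA) hk
    simpa only [Set.mem_compl_iff, not_not] using (hT g hg).symm
  · exact core hZG Nat.card_pos.ne' hd hT hN aa aA am (am.trans hMd) qq qA hk

end Cfsg.Agent.S4184
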