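import Cfsg.Statements.S4188
import Cfsg.Agent.H11.TwoGp
import Cfsg.Agent.H11.Dih
import Cfsg.Agent.H1.Frattini
import Cfsg.Agent.H3.PGroup1
-- import your own Cfsg.Agent.* helpers here

set_option autoImplicit false
open Cfsg

namespace Cfsg.Agent.S4188

open Subgroup

universe u

/-- The bound on the index, in terms of the order of the module. -/
def Bd (n i : ℕ) : Prop := (n = 1 ∧ i = 1) ∨ (n = 3 ∧ i ≤ 2) ∨ 2 * i ≤ n

/-- The statement proved by induction. -/
def St (V : Type u) [CommGroup V] : Prop :=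
  ∀ (P : Type u) [Group P] [Finite P], IsPGroup 2 P → ∀ (φ : P →* MulAut V) (M : Subgroup P),
    φ.ker ≤ M → (∀ x : P, x ^ 2 ∈ M) → Bd (Nat.card V) M.index

section
variable {V : Type u} [CommGroup V] {P : Type u} [Group P]

/-- Restriction of an action to an invariant subgroup. -/
def res (φ : P →* MulAut V) (W : Subgroup V) (h : ∀ x, ∀ w ∈ W, φ x w ∈ W) : P →* MulAut W where
  toFun x :=
    { toFun := fun w => ⟨φ x w, h x w w.2⟩
      invFun := fun w => ⟨φ x⁻¹ w, h _ w w.2⟩
      left_inv := fun w => by ext; simp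
      right_inv := fun w => by ext; simp
      map_mul' := fun a b => by ext; simp }
  map_one' := by ext; simp
  map_mul' a b := by ext; simp

theorem mem_ker_res {φ : P →* MulAut V} {W : Subgroup V} {h : ∀ x, ∀ w ∈ W, φ x w ∈ W} {x : P} :
    x ∈ (res φ W h).ker ↔ ∀ w ∈ W, φ x w = w :=
  ⟨fun hx w hw => congrArg Subtype.val (DFunLike.congr_fun (MonoidHom.mem_ker.1 hx) (⟨w, hw⟩ : W)),
    fun hx => MulEquiv.ext fun w => Subtype.ext (hx w w.2)⟩

theorem comm_mem {M : Subgroup P} (h : ∀ x, x ^ 2 ∈ M) (a b : P) : a * b * a⁻¹ * b⁻¹ ∈ M := by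
  have : a * b * a⁻¹ * b⁻¹ = a ^ 2 * (a⁻¹ * b) ^ 2 * (b⁻¹) ^ 2 := by simp only [sq]; group
  rw [this]
  exact mul_mem (mul_mem (h _) (h _)) (h _)

theorem normal_of_sq {M : Subgroup P} (h : ∀ x, x ^ 2 ∈ M) : M.Normal :=
  ⟨fun n hn g => by simpa using mul_mem (comm_mem h g n) hn⟩

theorem commutator_le_of_sq {M : Subgroup P} (h : ∀ x, x ^ 2 ∈ M) : _root_.commutator P ≤ M :=
  commutator_le.2 fun a _ b _ => comm_mem h a b

/-- Fixed points of an automorphism. -/
def Fx (a : MulAut V) : Subgroup V := (a : V →* V).eqLocus (MonoidHom.id V)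

/-- Elements inverted by an automorphism. -/
def Iv (a : MulAut V) : Subgroup V := (a : V →* V).eqLocus invMonoidHom

theorem mem_Fx {a : MulAut V} {v : V} : v ∈ Fx a ↔ a v = v := Iff.rfl
theorem mem_Iv {a : MulAut V} {v : V} : v ∈ Iv a ↔ a v = v⁻¹ := Iff.rfl

variable [Finite V]

theorem compl (hV : Odd (Nat.card V)) {a : MulAut V} (ha : a * a = 1) :
    IsComplement' (Fx a) (Iv a) := by
  have hc : (Nat.card V).Coprime 2 := Nat.coprime_two_right.2 hV
  have haa : ∀ v, a (a v) = v := fun v => DFunLike.congr_fun ha v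
  refine isComplement'_of_disjoint_and_mul_eq_univ (disjoint_def.2 fun {v} h1 h2 => ?_)
    (Set.eq_univ_of_forall fun v => ?_)
  · apply (powCoprime hc).injective
    rw [powCoprime_apply, powCoprime_apply, one_pow, sq]
    exact mul_eq_one_iff_eq_inv.2 ((mem_Fx.1 h1).symm.trans h2)
  · obtain ⟨w, rfl⟩ := (powCoprime hc).surjective v
    refine ⟨w * a w, mem_Fx.2 (by rw [map_mul, haa, mul_comm]), w * (a w)⁻¹,
      mem_Iv.2 (by rw [map_mul, map_inv, haa, mul_inv, inv_inv, mul_comm]), ?_⟩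
    simp only [powCoprime_apply, sq]
    rw [mul_mul_mul_comm, mul_inv_cancel, mul_one]

theorem index_ker_le_two (h3 : Nat.card V = 3) (φ : P →* MulAut V) : φ.ker.index ≤ 2 := by
  have : Fact (Nat.Prime 3) := ⟨Nat.prime_three⟩
  have : IsCyclic V := isCyclic_of_prime_card h3
  rw [index_ker]
  have h1 := card_le_card_group φ.range
  rwa [IsCyclic.card_mulAut, h3, Nat.totient_prime Nat.prime_three] at h1

theorem split [Finite P] (hV : Odd (Nat.card V)) (hP : IsPGroup 2 P) {a : MulAut V}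
    (ha : a * a = 1) (h1 : St (Fx a)) (h2 : St (Iv a)) (φ : P →* MulAut V)
    (hc : ∀ x, φ x * a = a * φ x) (M : Subgroup P) (hk : φ.ker ≤ M) (hM : ∀ x, x ^ 2 ∈ M) :
    ∃ i j, M.index = i * j ∧ Bd (Nat.card (Fx a)) i ∧ Bd (Nat.card (Iv a)) j ∧
      (Nat.card (Fx a) = 3 → (∃ x ∈ M, ∃ v ∈ Fx a, φ x v ≠ v) → i = 1) := by
  have hc' : ∀ x v, φ x (a v) = a (φ x v) := fun x v => DFunLike.congr_fun (hc x) v
  have i1 : ∀ x, ∀ w ∈ Fx a, φ x w ∈ Fx a := fun x w hw => by
    rw [mem_Fx, ← hc', mem_Fx.1 hw]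
  have i2 : ∀ x, ∀ w ∈ Iv a, φ x w ∈ Iv a := fun x w hw => by
    rw [mem_Iv, ← hc', mem_Iv.1 hw, map_inv]
  have := normal_of_sq hM
  set K := (res φ _ i1).ker
  refine ⟨(M ⊔ K).index, M.relIndex K, ?_, h1 P hP _ _ le_sup_right
    (fun x => mem_sup_left (hM x)), h2 K (hP.to_subgroup K)
      (res (φ.comp K.subtype) _ (fun x => i2 x)) (M.subgroupOf K) (fun x hx => hk ?_)
      (fun x => hM x), fun h3 ⟨x, hx, v, hv, hxv⟩ => ?_⟩
  · rw [mul_comm, ← relIndex_sup_left, relIndex_mul_index le_sup_left]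
  · refine MulEquiv.ext fun v => ?_
    obtain ⟨⟨u, w⟩, rfl⟩ := (compl hV ha).2 v
    change φ x (u * w) = u * w
    rw [map_mul, mem_ker_res.1 x.2 u u.2]
    exact congrArg _ (mem_ker_res.1 hx w w.2)
  · have h4 : K.index ≤ 2 := index_ker_le_two h3 (res φ _ i1)
    have h5 : K < M ⊔ K := lt_of_le_of_ne le_sup_right fun e =>
      hxv (mem_ker_res.1 (e ▸ mem_sup_left hx : x ∈ K) v hv)
    have h6 := index_strictAnti h5
    have h7 : (M ⊔ K).index ≠ 0 := index_ne_zero_of_finite
    omega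

theorem bd_mul {a b i j : ℕ} (ha : Odd a) (hb : Odd b) (ha1 : a ≠ 1) (hb1 : b ≠ 1)
    (h1 : Bd a i) (h2 : Bd b j) : 2 * (i * j) ≤ a * b := by
  obtain ⟨a, rfl⟩ := ha
  obtain ⟨b, rfl⟩ := hb
  rcases h1 with h1 | ⟨h1, h1'⟩ | h1
  · omega
  · rcases h2 with h2 | ⟨h2, h2'⟩ | h2
    · omega
    · rw [h1, h2]; nlinarith
    · rw [h1]; nlinarith
  · rcases h2 with h2 | ⟨h2, h2'⟩ | h2
    · omega
    · rw [h2]; nlinarith
    · nlinarith

theorem index_le_of_gen [Finite P] {M : Subgroup P} (hM : ∀ x, x ^ 2 ∈ M) (T : Finset P)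
    (hT : closure (T : Set P) = ⊤) : M.index ≤ 2 ^ T.card := by
  have := H1.relIndex_sup_closure_dvd (commutator_le_of_sq hM) hM T
  rw [hT, sup_top_eq, relIndex_top_right] at this
  exact Nat.le_of_dvd (by positivity) this

theorem index_le_of_cyclic [Finite P] {M : Subgroup P} (hM : ∀ x, x ^ 2 ∈ M) (h : IsCyclic P) :
    M.index ≤ 2 := by
  obtain ⟨g, hg⟩ := h.exists_generator
  simpa using index_le_of_gen hM {g} (by
    rw [Finset.coe_singleton, ← zpowers_eq_closure]; exact eq_top_iff.2 fun x _ => hg x)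

end

theorem main (n : ℕ) : ∀ (V : Type u) [CommGroup V] [Finite V], Nat.card V = n →
    Odd (Nat.card V) → St V := by
  induction n using Nat.strong_induction_on with
  | _ n ih =>
  intro V _ _ hn hV
  classical
  have hfin : Finite (MulAut V) := Finite.of_injective _ (DFunLike.coe_injective (F := MulAut V))
  have hsub : ∀ W : Subgroup V, W ≠ ⊤ → St W := fun W hW =>
    ih _ (hn ▸ (card_le_card_group W).lt_of_ne fun e => hW (eq_top_of_card_eq _ e)) W rfl
      (hV.of_dvd_nat (card_subgroup_dvd_card W))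
  suffices key : ∀ (P : Type u) [Group P] [Finite P], IsPGroup 2 P → ∀ (φ : P →* MulAut V),
      Function.Injective φ → ∀ (M : Subgroup P), (∀ x : P, x ^ 2 ∈ M) → Bd (Nat.card V) M.index by
    intro P _ _ hP φ M hk hM
    have := key φ.range (hP.of_surjective _ φ.rangeRestrict_surjective) φ.range.subtype
      (subtype_injective _) (M.map φ.rangeRestrict) (fun x => by
        obtain ⟨x, rfl⟩ := φ.rangeRestrict_surjective x
        exact ⟨x ^ 2, hM x, map_pow _ _ _⟩)
    rwa [index_map_eq _ φ.rangeRestrict_surjective (by rwa [MonoidHom.ker_rangeRestrict])] at this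
  intro P _ _ hP φ hφ M hM
  have hk : φ.ker ≤ M := by rw [(MonoidHom.ker_eq_bot_iff φ).2 hφ]; exact bot_le
  have hsplit : ∀ (a : MulAut V), a * a = 1 → a ≠ 1 → Fx a ≠ ⊥ →
      Fx a ≠ ⊤ ∧ Iv a ≠ ⊤ ∧ Nat.card (Fx a) ≠ 1 ∧ Nat.card (Iv a) ≠ 1 := fun a ha h1 h2 => by
    have h3 : Fx a ≠ ⊤ := fun e => h1 (MulEquiv.ext fun v => mem_Fx.1 (e ▸ mem_top v))
    have h4 := compl hV ha
    refine ⟨h3, fun e => h2 ?_, fun e => h2 (eq_bot_of_card_eq _ e), fun e => h3 ?_⟩
    · rw [e] at h4; exact isComplement'_top_right.1 h4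
    · rw [eq_bot_of_card_eq _ e] at h4; exact isComplement'_bot_right.1 h4
  have hodd : ∀ W : Subgroup V, Odd (Nat.card W) := fun W =>
    hV.of_dvd_nat (card_subgroup_dvd_card W)
  have hcent : ∀ a : P, a * a = 1 → a ≠ 1 → Fx (φ a) ≠ ⊥ → (∀ x, x * a = a * x) →
      Bd (Nat.card V) M.index := fun a ha h1 h2 h3 => by
    have ha' : φ a * φ a = 1 := by rw [← map_mul, ha, map_one]
    obtain ⟨h4, h5, h6, h7⟩ := hsplit _ ha' (fun e => h1 (hφ (e.trans (map_one φ).symm))) h2
    obtain ⟨i, j, e, hi, hj, -⟩ := split hV hP ha' (hsub _ h4) (hsub _ h5) φ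
      (fun x => by rw [← map_mul, h3, map_mul]) M hk hM
    rw [e, ← (compl hV ha').card_mul]
    exact Or.inr (Or.inr (bd_mul (hodd _) (hodd _) h6 h7 hi hj))
  by_cases hE : ∃ E : Subgroup P, E.Normal ∧ IsKleinFour E
  swap
  · push Not at hE
    by_cases h1 : Nat.card V = 1
    · left
      refine ⟨h1, ?_⟩
      have : Subsingleton V := (Nat.card_eq_one_iff_unique.1 h1).1
      rw [index_eq_one, eq_top_iff]
      exact fun x _ => hk (MulEquiv.ext fun v => Subsingleton.elim _ _)
    by_cases h3 : Nat.card V = 3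
    · exact Or.inr (Or.inl ⟨h3, (index_antitone hk).trans (index_ker_le_two h3 φ)⟩)
    refine Or.inr (Or.inr ?_)
    have h4 : M.index ≤ 4 := by
      rcases H11.isCyclic_or_MC_of_no_normal_klein hP hE with h | ⟨n, e, f, X, Y, h⟩
      · exact (index_le_of_cyclic hM h).trans (by decide)
      · refine (index_le_of_gen hM {X 1, Y 0} (eq_top_iff.2 fun s hs => ?_)).trans
          (Nat.pow_le_pow_right (by decide) Finset.card_le_two)
        have hX : ∀ a, X a ∈ closure (({X 1, Y 0} : Finset P) : Set P) := fun a =>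
          zpowers_le.2 (subset_closure (by simp)) (h.X_mem_zpowers_one a)
        obtain ⟨a, rfl | rfl⟩ := (h.mem s).1 hs
        · exact hX a
        · rw [← zero_add a, ← h.YX]
          exact mul_mem (subset_closure (by simp)) (hX a)
    by_cases h8 : 8 ≤ Nat.card V
    · omega
    obtain ⟨k, hk'⟩ := hV
    have h57 : (Nat.card V).Prime := by
      have : Nat.card V = 5 ∨ Nat.card V = 7 := by omega
      rcases this with e | e <;> rw [e] <;> decide
    have : Fact (Nat.card V).Prime := ⟨h57⟩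
    have : IsCyclic V := isCyclic_of_prime_card rfl
    have : IsCyclic (MulAut V) := by
      have : IsCyclic (ZMod (Nat.card V))ˣ := inferInstance
      exact isCyclic_of_surjective _ (IsCyclic.mulAutMulEquiv V).symm.surjective
    have := index_le_of_cyclic hM (isCyclic_of_injective φ hφ)
    omega
  obtain ⟨E, hEn, hE⟩ := hE
  obtain ⟨z, hzE, hz1, hzc⟩ : ∃ z ∈ E, z ≠ 1 ∧ ∀ x, x * z = z * x := by
    obtain ⟨a, ha, -, -, ha1, -⟩ := H11.klein_exists_gens hE
    have h1 := H3.inf_center_ne_bot hP.isNilpotent E (fun e => ha1 (by rwa [e] at ha))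
    obtain ⟨⟨z, hz⟩, hz1⟩ := ne_bot_iff_exists_ne_one.1 h1
    exact ⟨z, hz.1, fun e => hz1 (Subtype.ext e), Subgroup.mem_center_iff.1 hz.2⟩
  by_cases hFz : Fx (φ z) = ⊥
  swap
  · exact hcent z (H11.klein_sq hE hzE) hz1 hFz hzc
  have hinv : ∀ a : P, a * a = 1 → Fx (φ a) = ⊥ → ∀ v, φ a v = v⁻¹ := fun a ha h v => by
    have h4 := compl hV (a := φ a) (by rw [← map_mul, ha, map_one])
    rw [h] at h4
    exact mem_Iv.1 (isComplement'_bot_left.1 h4 ▸ mem_top v)
  have hz := hinv z (H11.klein_sq hE hzE) hFz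
  obtain ⟨e, heE, he1, hez⟩ := H11.klein_exists_other hE z
  have he2 := H11.klein_sq hE heE
  have hFe : Fx (φ e) ≠ ⊥ := fun h => hez (hφ (MulEquiv.ext fun v => by
    rw [hinv e he2 h, hz]))
  by_cases hec : ∀ x, x * e = e * x
  · exact hcent e he2 he1 hFe hec
  push Not at hec
  obtain ⟨t, ht⟩ := hec
  have hconj : ∀ x, x * e ≠ e * x → x * e * x⁻¹ = z * e := fun x hx => by
    rcases (H11.klein_mem_iff hE hzE heE hz1 he1 hez.symm).1 (hEn.conj_mem e heE x) with h | h | h | h
    · exact absurd (conj_eq_one_iff.1 h) he1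
    · exfalso
      apply hez
      calc e = x⁻¹ * (x * e * x⁻¹) * x := by group
        _ = z := by rw [h, hzc, inv_mul_cancel_right]
    · exact absurd (mul_inv_eq_iff_eq_mul.1 h) hx
    · exact h
  let C := centralizer ({e} : Set P)
  have hCi : C.index = 2 := index_eq_two_iff_exists_notMem_and.2
    ⟨t, fun h => ht (mem_centralizer_singleton_iff.1 h), fun b => by
      by_cases hb : b * e = e * b
      · exact Or.inr (mem_centralizer_singleton_iff.2 hb)
      · refine Or.inl (mem_centralizer_singleton_iff.2 (mul_inv_eq_iff_eq_mul.1 ?_))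
        calc b * t * e * (b * t)⁻¹ = b * (t * e * t⁻¹) * b⁻¹ := by group
          _ = z * (b * e * b⁻¹) := by rw [hconj t ht, ← mul_assoc, hzc]; group
          _ = e := by rw [hconj b hb, ← mul_assoc, H11.klein_sq hE hzE, one_mul]⟩
  have ha' : φ e * φ e = 1 := by rw [← map_mul, he2, map_one]
  obtain ⟨h4, h5, h6, h7⟩ := hsplit _ ha' (fun h => he1 (hφ (h.trans (map_one φ).symm))) hFe
  obtain ⟨i, j, h8, hi, hj, h9⟩ := split hV (hP.to_subgroup C) ha' (hsub _ h4) (hsub _ h5)
    (φ.comp C.subtype) (fun x => by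
      rw [MonoidHom.comp_apply, ← map_mul, ← map_mul]
      exact congrArg φ (mem_centralizer_singleton_iff.1 x.2)) (M.subgroupOf C)
    (fun x hx => hk hx) (fun x => hM x)
  have h10 : M.index ≤ 2 * (i * j) := by
    rw [← h8, ← hCi, mul_comm, ← relIndex, ← inf_relIndex_right, relIndex_mul_index inf_le_right]
    exact index_antitone inf_le_left
  have h11 : Nat.card (Fx (φ e)) = Nat.card (Iv (φ e)) := by
    have h12 : (Fx (φ e)).map (φ t : V →* V) = Iv (φ e) := by
      have h13 : ∀ v, φ e (φ t v) = (φ t (φ e v))⁻¹ := fun v => by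
        have : e * t = z * (t * e) := by
          calc e * t = z * (z * e) * t := by rw [← mul_assoc, H11.klein_sq hE hzE, one_mul]
            _ = z * (t * e) := by rw [← hconj t ht]; group
        rw [← hz, ← MulAut.mul_apply, ← MulAut.mul_apply, ← MulAut.mul_apply, ← map_mul, ← map_mul,
          ← map_mul, this, mul_assoc]
      ext v
      obtain ⟨w, rfl⟩ := (φ t).surjective v
      rw [mem_Iv, h13, inv_inj, (φ t).apply_eq_iff_eq, ← mem_Fx]
      exact mem_map_iff_mem (φ t).injective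
    rw [← h12, card_map_of_injective (φ t).injective]
  refine Or.inr (Or.inr ?_)
  rw [← (compl hV ha').card_mul, ← h11]
  rw [← h11] at hj
  by_cases h3 : Nat.card (Fx (φ e)) = 3
  · obtain ⟨⟨v, hv⟩, hv1⟩ := ne_bot_iff_exists_ne_one.1 hFe
    have hzM : z ∈ M := by
      have := comm_mem hM t e
      rwa [hconj t ht, mul_inv_cancel_right] at this
    have h14 := h9 h3 ⟨⟨z, mem_centralizer_singleton_iff.2 (hzc e).symm⟩, hzM, v, hv, fun h => by
      have : v ∈ Fx (φ z) := h
      rw [hFz] at this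
      exact hv1 (Subtype.ext this)⟩
    subst h14
    rw [h3] at hj ⊢
    rcases hj with hj | hj | hj <;> omega
  · rcases hi with hi | hi | hi
    · omega
    · omega
    rcases hj with hj | hj | hj
    · omega
    · omega
    nlinarith


/-- Let G be a finite group that is the semidirect product of a normal abelian subgroup N of odd order by a 2-subgroup P, and suppose N is the unique minimal normal subgroup of G. Then the index of the Frattini subgroup of P in P is at most #N − 1. -/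
theorem result {G : Type*} [Group G] [Finite G] (N P : Subgroup G) (hN : N.Normal) (hNab : IsMulCommutative ↥N) (hNodd : Odd (Nat.card ↥N)) (hP : IsPGroup 2 ↥P) (hdisj : N ⊓ P = ⊥) (hprod : N ⊔ P = ⊤) (hmin : N ≠ ⊥ ∧ ∀ M : Subgroup G, M.Normal → M ≠ ⊥ → N ≤ M) : (frattini ↥P).index ≤ Nat.card ↥N - 1 := by
  have hk : N ⊓ centralizer (N : Set G) = N := inf_eq_left.2 fun x hx y hy =>
    congrArg Subtype.val (mul_comm' (⟨y, hy⟩ : N) ⟨x, hx⟩)
  letI : CommGroup N := { (inferInstance : Group N) with mul_comm := mul_comm' }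
  let φ : P →* MulAut N := (MulAut.conjNormal : G →* MulAut N).comp P.subtype
  have hφ : φ.ker = ⊥ := by
    by_contra h
    have h1 : (φ.ker.map P.subtype).Normal := by
      rw [← normalizer_eq_top_iff, eq_top_iff, ← hprod]
      refine sup_le (fun n hn => centralizer_le_normalizer _ ?_) ?_
      · rintro _ ⟨x, hx, rfl⟩
        exact mul_inv_eq_iff_eq_mul.1 (congrArg Subtype.val
          (DFunLike.congr_fun (MonoidHom.mem_ker.1 hx) (⟨n, hn⟩ : N)))
      · intro g hg
        refine mem_normalizer_fintype ?_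
        rintro _ ⟨x, hx, rfl⟩
        exact ⟨_, φ.normal_ker.conj_mem x hx ⟨g, hg⟩, rfl⟩
    have h2 := hmin.2 _ h1 (fun e => h ((map_eq_bot_iff_of_injective _ P.subtype_injective).1 e))
    exact hmin.1 (eq_bot_iff.2 (hdisj ▸ le_inf le_rfl (h2.trans (map_subtype_le _))))
  have h1 : Nat.card N ≠ 1 := fun e => hmin.1 (eq_bot_of_card_eq _ e)
  have h2 : (frattini P).index ≠ 0 := index_ne_zero_of_finite
  rcases main _ N rfl hNodd P hP φ (frattini P) (hφ ▸ bot_le) (H1.pow_mem_frattini hP) with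
    h | h | h <;> omega

end Cfsg.Agent.S4188
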