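import Cfsg.Statements.S4189
import Cfsg.Agent.H26.Taussky

set_option autoImplicit false
open Cfsg

namespace Cfsg.Agent.S4189


/-- Let P be a finite non-abelian 2-group whose commutator subgroup has index 4 and whose automorphism group is not a 2-group (some automorphism has order that is not a power of 2). Then P is isomorphic to the quaternion group of order 8. -/
theorem result {P : Type*} [Group P] [Finite P] (hP : IsPGroup 2 P) (hna : ¬ IsMulCommutative P) (h4 : (commutator P).index = 4) (haut : ¬ IsPGroup 2 (MulAut P)) : Nonempty (P ≃* QuaternionGroup 2) := by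
  have hb : commutator P ≠ ⊥ := fun hb => hna ((commutator_eq_bot_iff P).1 hb)
  obtain ⟨m, e, f, A, B, h, hef⟩ := H26.exists_MC_of_index_four hP h4 hb
  have h2 := h.two_le
  by_cases h3 : 3 ≤ m
  · exact absurd (H26.MC_isPGroup_mulAut h (Or.inr h3)) haut
  obtain rfl : m = 2 := by omega
  rcases h.he with rfl | ⟨h3', -⟩
  · rcases h.hf with rfl | rfl
    · exact absurd (H26.MC_isPGroup_mulAut h (Or.inl ⟨rfl, rfl⟩)) haut
    · exact H26.MC_quaternion_equiv h
  · omega

end Cfsg.Agent.S4189
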