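import Cfsg.Statements.S4193
import Cfsg.Agent.H26.Real

set_option autoImplicit false
open Cfsg

namespace Cfsg.Agent.S4193


/-- Let G be a finite group in which the conjugacy classes of all non-central real elements (elements conjugate to their inverses) have sizes with the same 2-part, and suppose G has a Sylow 2-subgroup S such that every element of S that is conjugate in S to its inverse lies in the centre of S. Then G is solvable and the subgroup generated by the 2-elements of G (the smallest normal subgroup of odd index) has a normal 2-complement. -/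
theorem result {G : Type*} [Group G] [Finite G] (a : ℕ) (h : ∀ x : G, IsConj x x⁻¹ → x ∉ Subgroup.center G → ((Subgroup.centralizer ({x} : Set G)).index).factorization 2 = a) (S : Sylow 2 G) (hS : ∀ s : ↥(S : Subgroup G), IsConj s s⁻¹ → s ∈ Subgroup.center ↥(S : Subgroup G)) : Group.IsSolvable G ∧ Cfsg.HasNormalPComplement 2 ↥(Subgroup.closure {g : G | ∃ k : ℕ, orderOf g = 2 ^ k}) := by
  haveI : Fact (Nat.Prime 2) := ⟨Nat.prime_two⟩
  have hSy := H1.isSylowIn_top S
  have hR : ∀ P : Subgroup G, IsPGroup 2 P → ∀ s ∈ P, ∀ u ∈ P, u * s * u⁻¹ = s⁻¹ →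
      ∃ g : G, (S : Subgroup G) ≤ Subgroup.centralizer {g⁻¹ * s * g} ∧ g⁻¹ * u * g ∈ (S : Subgroup G) := by
    intro P hP s hs u hu e
    obtain ⟨k, -, hk⟩ := hSy.exists_le_conj le_top hP
    have h1 := H1.mem_conj_smul.1 (hk hs)
    have h2 := H1.mem_conj_smul.1 (hk hu)
    have h3 := hS ⟨_, h1⟩ (isConj_iff.2 ⟨⟨_, h2⟩, Subtype.ext (by
      change k⁻¹ * u * k * (k⁻¹ * s * k) * (k⁻¹ * u * k)⁻¹ = (k⁻¹ * s * k)⁻¹
      calc k⁻¹ * u * k * (k⁻¹ * s * k) * (k⁻¹ * u * k)⁻¹ = k⁻¹ * (u * s * u⁻¹) * k := by group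
        _ = _ := by rw [e]; group)⟩)
    refine ⟨k, fun z hz => H26.mem_cent.2 ?_, h2⟩
    exact congrArg Subtype.val (Subgroup.mem_center_iff.1 h3 ⟨z, hz⟩)
  rcases Nat.eq_zero_or_pos a with rfl | ha
  · have hno : ∀ s y : G, (∃ k, orderOf s = 2 ^ k) → (∃ r k : ℕ, r.Prime ∧ r ≠ 2 ∧ orderOf y = r ^ k) →
        s * y * s⁻¹ = y⁻¹ → y = 1 := by
      rintro s y - ⟨r, j, hr, hr2, hj⟩ hi
      by_contra hy
      have hyy : y * y ≠ 1 := by
        intro e
        have h3 := orderOf_eq_prime (by rw [pow_two]; exact e) hy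
        rw [hj] at h3
        exact hr2 ((Nat.prime_dvd_prime_iff_eq Nat.prime_two hr).1 (Nat.prime_two.dvd_of_dvd_pow h3.symm.dvd)).symm
      have h1 := h y (isConj_iff.2 ⟨s, hi⟩) (fun hz => hyy (by
        rw [Subgroup.mem_center_iff.1 hz s, mul_inv_cancel_right] at hi
        exact mul_eq_one_iff_eq_inv.2 hi))
      have h2 := Nat.prime_two.factorization_pos_of_dvd Subgroup.index_ne_zero_of_finite
        (H26.two_dvd_index_cent_of_real hi hyy)
      omega
    refine ⟨H26.isSolvable_of_no_real hno, H3.hasNormalPComplement_of_isPGroup ((H1.isPGroup_pCore 2 G).to_le ?_)⟩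
    have hO : H1.IsSylowIn 2 (pCore 2 G) ⊤ := ⟨le_top, H1.isPGroup_pCore 2 G, by
      rw [Subgroup.relIndex_top_right]; exact H26.odd_index_pCore_of_no_real hno⟩
    rw [Subgroup.closure_le]
    rintro g ⟨k, hk⟩
    exact hO.le_of_le_normalizer' le_top (H26.isPGroup_zpowers_of_orderOf hk)
      (by rw [Subgroup.normalizer_eq_top]; exact le_top) (Subgroup.mem_zpowers g)
  · have hN : HasNormalPComplement 2 G := by
      refine H26.npc_two_of_real G ?_ ?_
      · intro P hP s hs u hu e
        obtain ⟨g, h1, h2⟩ := hR P hP s hs u hu e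
        have h3 := H26.mem_cent.1 (h1 h2)
        have h4 : u * s = s * u := by
          calc u * s = g * (g⁻¹ * u * g * (g⁻¹ * s * g)) * g⁻¹ := by group
            _ = _ := by rw [h3]; group
        rw [h4, mul_inv_cancel_right] at e
        exact mul_eq_one_iff_eq_inv.2 e
      · intro t ht g
        have htt : t = t⁻¹ := by rw [← mul_eq_one_iff_eq_inv, ← pow_two, ← ht, pow_orderOf_eq_one]
        have hz : t ∈ Subgroup.center G := by
          by_contra hz
          have h1 := h t (htt ▸ IsConj.refl t) hz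
          obtain ⟨k, h2, -⟩ := hR _ (H26.isPGroup_zpowers_of_orderOf (k := 1) ht) t (Subgroup.mem_zpowers t) 1
            (Subgroup.one_mem _) (by simpa using htt)
          have h3 := H26.not_dvd_index_of_sylow_le S h2
          rw [show k⁻¹ * t * k = k⁻¹ * t * k⁻¹⁻¹ by rw [inv_inv], H26.index_cent_conj] at h3
          rw [Nat.factorization_eq_zero_of_not_dvd h3] at h1
          omega
        rw [← Subgroup.mem_center_iff.1 hz g]
        simp
    refine ⟨H2.isSolvable_of_normal_of_quotient (pResidual 2 G) (FT.solvable_of_odd ?_)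
      (H1.isSolvable_of_isPGroup H3.isPGroup_quotient_pResidual), H3.hasNormalPComplement_subgroup hN _⟩
    rw [← Nat.not_even_iff_odd, even_iff_two_dvd]
    exact H3.hasNormalPComplement_iff_not_dvd.1 hN

end Cfsg.Agent.S4193
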