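import Cfsg.Statements.S4194
import Cfsg.Agent.L0.CamHer

set_option autoImplicit false
open Cfsg

namespace Cfsg.Agent.S4194

open Subgroup Cfsg.FusionSystem Cfsg.Agent.H23 Cfsg.Agent.H23.LF


/-- A finite group G has commutative Sylow 2-subgroups if and only if every 2-element of G (element of order a power of 2) is 2-central, that is, its centralizer contains a Sylow 2-subgroup of G. -/
theorem result {G : Type*} [Group G] [Finite G] (P : Sylow 2 G) :
    IsMulCommutative (P : Subgroup G) ↔ ∀ x : G, (∃ k : ℕ, orderOf x = 2 ^ k) → (∃ Q : Sylow 2 G, (Q : Subgroup G) ≤ Subgroup.centralizer ({x} : Set G)) := by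
  refine ⟨fun h x ⟨k, hk⟩ => ?_, camina_herzog_group P⟩
  obtain ⟨Q, hQ⟩ := (IsPGroup.of_card (n := k) (by rw [Nat.card_zpowers, hk]) :
    IsPGroup 2 (zpowers x)).exists_le_sylow
  have h1 : IsMulCommutative (Q : Subgroup G) := ⟨⟨fun a b => (P.equiv Q).symm.injective (by
    rw [map_mul, map_mul]
    exact h.1.1 _ _)⟩⟩
  exact ⟨Q, fun y hy => mem_centralizer_singleton_iff.2
    (congrArg Subtype.val (h1.1.1 ⟨y, hy⟩ ⟨x, hQ (mem_zpowers x)⟩))⟩

end Cfsg.Agent.S4194
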