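import Cfsg.Statements.S4195
import Cfsg.Agent.H26.Basic

set_option autoImplicit false
open Cfsg

namespace Cfsg.Agent.S4195

theorem aux {G : Type*} [Group G] [Finite G] (x : G) (P : Sylow 2 G)
    (hP : (P : Subgroup G) ≤ Subgroup.centralizer ({x} : Set G)) (hreal : IsConj x x⁻¹) :
    x ^ 2 = 1 := by
  obtain ⟨c, hc⟩ := isConj_iff.mp hreal
  by_contra hx
  -- the 2-part of c inverts x
  set C := Subgroup.centralizer ({x} : Set G) with hC
  have hodd : ¬ 2 ∣ C.index := fun h => P.not_dvd_index (h.trans (Subgroup.index_dvd_of_le hP))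
  have hc2 : c * x⁻¹ * c⁻¹ = x := by
    have : c * x⁻¹ * c⁻¹ = (c * x * c⁻¹)⁻¹ := by group
    rw [this, hc, inv_inv]
  let D : Subgroup G :=
    { carrier := {g | g * x * g⁻¹ = x ∨ g * x * g⁻¹ = x⁻¹}
      one_mem' := by simp
      mul_mem' := by
        intro a b ha hb
        have e : a * b * x * (a * b)⁻¹ = a * (b * x * b⁻¹) * a⁻¹ := by group
        have e2 : a * x⁻¹ * a⁻¹ = (a * x * a⁻¹)⁻¹ := by group
        simp only [Set.mem_setOf_eq] at *
        rw [e]
        rcases hb with hb | hb <;> rw [hb]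
        · exact ha
        · rw [e2]
          rcases ha with ha | ha <;> rw [ha] <;> simp
      inv_mem' := by
        intro a ha
        simp only [Set.mem_setOf_eq] at *
        rcases ha with ha | ha
        · left
          conv_lhs => rw [← ha]
          group
        · right
          have : a * x⁻¹ * a⁻¹ = x := by
            have e2 : a * x⁻¹ * a⁻¹ = (a * x * a⁻¹)⁻¹ := by group
            rw [e2, ha, inv_inv]
          conv_lhs => rw [← this]
          group }
  have hmem : ∀ g, g ∈ C ↔ g * x * g⁻¹ = x := by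
    intro g
    rw [hC, Subgroup.mem_centralizer_singleton_iff, mul_inv_eq_iff_eq_mul]
  have hCD : C ≤ D := fun g hg => Or.inl ((hmem g).mp hg)
  have hne : x ≠ x⁻¹ := fun h => hx (by rw [sq]; nth_rewrite 2 [h]; simp)
  have h2 : C.relIndex D = 2 := by
    rw [Subgroup.relIndex, Subgroup.index_eq_two_iff]
    refine ⟨⟨c, Or.inr hc⟩, fun b => ?_⟩
    simp only [Subgroup.mem_subgroupOf, hmem, Subgroup.coe_mul]
    have e : (b : G) * c * x * ((b : G) * c)⁻¹ = b * (c * x * c⁻¹) * (b : G)⁻¹ := by group
    have e2 : (b : G) * x⁻¹ * (b : G)⁻¹ = ((b : G) * x * (b : G)⁻¹)⁻¹ := by group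
    rw [e, hc, e2]
    rcases b.2 with hb | hb
    · right
      rw [hb]
      exact ⟨rfl, hne.symm⟩
    · left
      rw [hb]
      exact ⟨inv_inv x, hne.symm⟩
  exact hodd (h2 ▸ Subgroup.relIndex_dvd_index_of_le hCD)

/-- Let x be a non-identity element of a finite group G whose centralizer contains a Sylow 2-subgroup of G. If x is conjugate to its inverse, then x has order 2. -/
theorem result {G : Type*} [Group G] [Finite G] (x : G) (hx : x ≠ 1) (P : Sylow 2 G) (hP : (P : Subgroup G) ≤ Subgroup.centralizer ({x} : Set G)) (hreal : IsConj x x⁻¹) : orderOf x = 2 := by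
  exact orderOf_eq_prime (aux x P hP hreal) hx

end Cfsg.Agent.S4195
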