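import Cfsg.Statements.S4196
import Cfsg.Agent.S4195

set_option autoImplicit false
open Cfsg

namespace Cfsg.Agent.S4196


/-- A finite group G has elementary abelian Sylow 2-subgroups (commutative with every element squaring to the identity) if and only if every 2-element of G has a Sylow 2-subgroup in its centralizer and is conjugate to its inverse. -/
theorem result {G : Type*} [Group G] [Finite G] (P : Sylow 2 G) :
    (IsMulCommutative (P : Subgroup G) ∧ ∀ x ∈ (P : Subgroup G), x ^ 2 = 1) ↔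
      ∀ x : G, (∃ k : ℕ, orderOf x = 2 ^ k) → (∃ Q : Sylow 2 G, (Q : Subgroup G) ≤ Subgroup.centralizer ({x} : Set G)) ∧ IsConj x x⁻¹ := by
  constructor
  · rintro ⟨h1, h2⟩ x ⟨k, hk⟩
    have hp : IsPGroup 2 (Subgroup.zpowers x) := IsPGroup.of_card (by rw [Nat.card_zpowers, hk])
    obtain ⟨Q, hQ⟩ := hp.exists_le_sylow
    obtain ⟨g, rfl⟩ := MulAction.exists_smul_eq G P Q
    have hx := H1.mem_conj_smul.mp (hQ (Subgroup.mem_zpowers x))
    refine ⟨⟨g • P, fun y hy => ?_⟩, ?_⟩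
    · have hy := H1.mem_conj_smul.mp hy
      rw [Subgroup.mem_centralizer_singleton_iff]
      have := setLike_mul_comm hy hx
      calc y * x = g * (g⁻¹ * y * g * (g⁻¹ * x * g)) * g⁻¹ := by group
        _ = g * (g⁻¹ * x * g * (g⁻¹ * y * g)) * g⁻¹ := by rw [this]
        _ = _ := by group
    · have h3 := h2 _ hx
      have h4 : x ^ 2 = 1 := by
        calc x ^ 2 = g * (g⁻¹ * x * g) ^ 2 * g⁻¹ := by simp only [sq]; group
          _ = 1 := by rw [h3]; group
      have : x⁻¹ = x := by rw [inv_eq_iff_mul_eq_one, ← sq, h4]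
      rw [this]
  · intro h
    have h2 : ∀ x ∈ (P : Subgroup G), x ^ 2 = 1 := by
      intro x hx
      obtain ⟨k, hk⟩ := IsPGroup.iff_orderOf.mp P.isPGroup' ⟨x, hx⟩
      obtain ⟨⟨Q, hQ⟩, h3⟩ := h x ⟨k, by rw [← hk]; exact Subgroup.orderOf_coe (⟨x, hx⟩ : (P : Subgroup G))⟩
      exact S4195.aux x Q hQ h3
    refine ⟨⟨⟨fun a b => Subtype.ext ?_⟩⟩, h2⟩
    have ha := h2 a a.2
    have hb := h2 b b.2
    have hab := h2 _ (a * b).2
    simp only [Subgroup.coe_mul, sq] at *
    calc (a : G) * b = (a * b)⁻¹ := eq_inv_of_mul_eq_one_left hab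
      _ = (b : G)⁻¹ * (a : G)⁻¹ := mul_inv_rev _ _
      _ = b * a := by rw [← eq_inv_of_mul_eq_one_left ha, ← eq_inv_of_mul_eq_one_left hb]

end Cfsg.Agent.S4196
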