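import Cfsg.Statements.S4200
import Cfsg.Agent.H26.PiPart
import Cfsg.Agent.H2.Product

set_option autoImplicit false
open Cfsg

namespace Cfsg.Agent.S4200


/-- Let Y be a subgroup of the finite group X, of index m. Then the numbers of conjugacy classes satisfy k(Y) ≤ m·k(X) and k(X) ≤ m·k(Y), and the second inequality is strict unless Y is normal in X. -/
theorem result {X : Type*} [Group X] [Finite X] (Y : Subgroup X) : Nat.card (ConjClasses Y) ≤ Y.index * Nat.card (ConjClasses X) ∧ Nat.card (ConjClasses X) ≤ Y.index * Nat.card (ConjClasses Y) ∧ (¬ Y.Normal → Nat.card (ConjClasses X) < Y.index * Nat.card (ConjClasses Y)) := by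
  classical
  have := Fintype.ofFinite X
  have hX := H26.card_conjClasses_mul (G := X)
  have hY := H26.card_conjClasses_mul (G := Y)
  have hi := Y.index_mul_card
  have hp : 0 < Nat.card Y := Nat.card_pos
  have hi0 : 0 < Y.index := Nat.pos_of_ne_zero Subgroup.index_ne_zero_of_finite
  have e1 : ∀ y : Y, Nat.card (Subgroup.centralizer ({y} : Set Y)) =
      Nat.card (Y ⊓ Subgroup.centralizer ({(y : X)} : Set X) : Subgroup X) := fun y => by
    rw [H26.cent_subgroupOf, H1.card_subgroupOf_eq_inf, inf_comm]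
  have e2 : ∀ x : X, Nat.card (Subgroup.centralizer ({x} : Set X)) ≤
      Y.index * Nat.card (Y ⊓ Subgroup.centralizer ({x} : Set X) : Subgroup X) := fun x => by
    rw [← H1.card_inf_mul_relIndex Y, mul_comm]
    exact Nat.mul_le_mul_right _ ((Subgroup.relIndex_le_of_le_right le_top
      (by rw [Subgroup.relIndex_top_right]; exact hi0.ne')).trans_eq Y.relIndex_top_right)
  have e3 : ∑ x : X, Nat.card (Y ⊓ Subgroup.centralizer ({x} : Set X) : Subgroup X) =
      ∑ y : Y, Nat.card (Subgroup.centralizer ({(y : X)} : Set X)) := by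
    have a := H26.card_prod_subtype_eq_sum (fun (x : X) (y : Y) => (y : X) * x = x * y)
    have b := H26.card_prod_subtype_eq_sum (fun (y : Y) (x : X) => (y : X) * x = x * y)
    rw [H26.card_prod_subtype_comm (fun (x : X) (y : Y) => (y : X) * x = x * y), b] at a
    calc _ = ∑ x : X, Nat.card {y : Y // (y : X) * x = x * y} := by
          refine Finset.sum_congr rfl fun x _ => Nat.card_congr ?_
          exact ⟨fun z => ⟨⟨z.1, z.2.1⟩, H26.mem_cent.mp z.2.2⟩,
            fun z => ⟨z.1.1, z.1.2, H26.mem_cent.mpr z.2⟩, fun _ => rfl, fun _ => rfl⟩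
      _ = _ := a.symm
      _ = _ := Finset.sum_congr rfl fun y _ =>
          Nat.card_congr (Equiv.subtypeEquivRight fun x => by rw [H26.mem_cent, eq_comm])
  have e4 : Nat.card (ConjClasses X) * Nat.card X ≤
      Y.index * ∑ y : Y, Nat.card (Subgroup.centralizer ({(y : X)} : Set X)) := by
    rw [hX, ← e3, Finset.mul_sum]
    exact Finset.sum_le_sum fun x _ => e2 x
  refine ⟨?_, ?_, fun hn => ?_⟩
  · refine Nat.le_of_mul_le_mul_right ?_ hp
    rw [hY, mul_right_comm, hi, mul_comm, hX]
    calc _ ≤ ∑ y : Y, Nat.card (Subgroup.centralizer ({(y : X)} : Set X)) :=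
          Finset.sum_le_sum fun y _ => (e1 y).trans_le (Subgroup.card_le_of_le inf_le_right)
      _ = ∑ x ∈ Finset.univ.filter (· ∈ Y), Nat.card (Subgroup.centralizer ({x} : Set X)) :=
          (Finset.sum_subtype (p := (· ∈ Y)) _ (by simp) (fun x => Nat.card (Subgroup.centralizer ({x} : Set X)))).symm
      _ ≤ _ := Finset.sum_le_sum_of_subset (Finset.filter_subset _ _)
  · have e5 : ∑ y : Y, Nat.card (Subgroup.centralizer ({(y : X)} : Set X)) ≤
        Y.index * (Nat.card (ConjClasses Y) * Nat.card Y) := by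
      rw [hY, Finset.mul_sum]
      exact Finset.sum_le_sum fun y _ => (e1 y) ▸ e2 y
    refine Nat.le_of_mul_le_mul_right ?_ (Nat.mul_pos hi0 hp)
    rw [← hi] at e4
    calc _ ≤ _ := e4
      _ ≤ _ := Nat.mul_le_mul_left _ e5
      _ = _ := by ring
  · have e5 : ∑ y : Y, Nat.card (Subgroup.centralizer ({(y : X)} : Set X)) <
        Y.index * (Nat.card (ConjClasses Y) * Nat.card Y) := by
      rw [hY, Finset.mul_sum]
      refine Finset.sum_lt_sum (fun y _ => (e1 y) ▸ e2 y) ?_
      by_contra hc
      push Not at hc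
      refine hn ⟨fun y hy g => ?_⟩
      have h1 := hc ⟨y, hy⟩ (Finset.mem_univ _)
      rw [e1, ← H1.card_inf_mul_relIndex Y (Subgroup.centralizer _), mul_comm] at h1
      have h2 := Nat.le_of_mul_le_mul_left h1 Nat.card_pos
      obtain ⟨a, ha, c, hc, rfl⟩ := (H2.fac_of_relIndex_le (H := Y)
        (K := Subgroup.centralizer ({y} : Set X)) le_top le_top
        (by rwa [Subgroup.relIndex_top_right])).top g
      have h3 : a * c * y * (a * c)⁻¹ = a * y * a⁻¹ := by
        rw [mul_assoc a c y, H26.mem_cent.mp hc]; group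
      rw [h3]
      exact Y.mul_mem (Y.mul_mem ha hy) (Y.inv_mem ha)
    refine Nat.lt_of_mul_lt_mul_right (a := Y.index * Nat.card Y) ?_
    rw [← hi] at e4
    calc _ ≤ _ := e4
      _ < _ := Nat.mul_lt_mul_of_pos_left e5 hi0
      _ = _ := by ring

end Cfsg.Agent.S4200
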