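import Cfsg.Statements.S4221
import Mathlib
import Cfsg.Agent.H2.Hall4

set_option autoImplicit false
open Cfsg

namespace Cfsg.Agent.S4221

open H2.Pm MulAction

/-- Let `G` be a `4`-fold transitive permutation group on a finite set of `n` points in which the pointwise stabilizer of some four distinct points has odd order. Then `n = 4` or `n = 5` with `G` the full symmetric group, or `n = 6` or `n = 7` with `G` the alternating group, or `n = 11` and `G` has order `7920`. -/
theorem result {α : Type*} [Fintype α] [DecidableEq α] (G : Subgroup (Equiv.Perm α)) (hG : MulAction.IsMultiplyPretransitive G α 4) (x : Fin 4 ↪ α) (hodd : Odd (Nat.card (MulAction.stabilizer G x))) : ((Fintype.card α = 4 ∨ Fintype.card α = 5) ∧ G = ⊤) ∨ ((Fintype.card α = 6 ∨ Fintype.card α = 7) ∧ G = alternatingGroup α) ∨ (Fintype.card α = 11 ∧ Nat.card G = 7920) := by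
  have := Fintype.ofFinite G
  have ho : Odd4 G α := fun g a b c d h1 h2 h3 h4 h5 h6 ha hb hc hd => by
    obtain ⟨k, hk⟩ := mt_iff.1 hG _ x (inj4 h1 h2 h3 h4 h5 h6) x.injective
    have : k * g * k⁻¹ ∈ stabilizer G x := Function.Embedding.ext fun i => by
      change (k * g * k⁻¹) • x i = x i
      rw [← hk]
      refine conj_mem_stab ?_
      fin_cases i <;> assumption
    refine hodd.of_dvd_nat ?_
    rw [← (show SemiconjBy k g (k * g * k⁻¹) by simp [SemiconjBy]).orderOf_eq.symm]
    exact Subgroup.orderOf_dvd_natCard _ this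
  have hn : 4 ≤ Fintype.card α := by simpa using Fintype.card_le_of_embedding x
  by_cases h8 : 8 ≤ Fintype.card α
  · exact .inr (.inr ⟨ho.eq_eleven hG h8, ho.card_eleven hG (ho.eq_eleven hG h8)⟩)
  by_cases h5 : Fintype.card α ≤ 5
  · exact .inl ⟨by omega, Equiv.Perm.eq_top_of_isMultiplyPretransitive (mt_le hG
      (by rw [Nat.card_eq_fintype_card]; omega) (by rwa [Nat.card_eq_fintype_card]))⟩
  have h1 : alternatingGroup α ≤ G := (ho.alt_le hG hn (by omega)).trans (by rintro _ ⟨g, rfl⟩; exact g.2)
  have : Nontrivial α := Fintype.one_lt_card_iff_nontrivial.1 (by omega)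
  refine .inr (.inl ⟨by omega, Equiv.Perm.eq_alternatingGroup_of_index_eq_two
    (((Nat.dvd_prime Nat.prime_two).1 (alternatingGroup.index_eq_two (α := α) ▸
      Subgroup.index_dvd_of_le h1)).resolve_left fun h => ?_)⟩)
  obtain rfl := Subgroup.index_eq_one.1 h
  obtain ⟨f⟩ := Function.Embedding.nonempty_of_card_le (α := Fin 6) (β := α) (by simp; omega)
  have := ho ⟨Equiv.swap (f 0) (f 1), Subgroup.mem_top _⟩ (f 2) (f 3) (f 4) (f 5) (by simp) (by simp) (by simp)
    (by simp) (by simp) (by simp) (by simp [Equiv.swap_apply_def, Subgroup.smul_def]) (by simp [Equiv.swap_apply_def, Subgroup.smul_def])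
    (by simp [Equiv.swap_apply_def, Subgroup.smul_def]) (by simp [Equiv.swap_apply_def, Subgroup.smul_def])
  simpa [Subtype.ext_iff] using eq_one_of_odd_of_sq this (Subtype.ext (by simp))

end Cfsg.Agent.S4221
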