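import Cfsg.Statements.S4231
import Cfsg.Agent.H26.AltOdd

set_option autoImplicit false
open Cfsg

namespace Cfsg.Agent.S4231

open Equiv Equiv.Perm Subgroup

theorem main (n : ℕ) (hn : 5 ≤ n) (G : Subgroup (MulAut (alternatingGroup (Fin n))))
    (hG : (MulAut.conj : alternatingGroup (Fin n) →* MulAut (alternatingGroup (Fin n))).range ≤ G)
    (p q : ℕ) [hp : Fact p.Prime] [hq : Fact q.Prime] (hpq : p < q) (h : ∀ g : G, orderOf g ≠ p * q)
    (Q : Sylow q G) : IsMulCommutative (Q : Subgroup G) := by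
  have h5 : 5 ≤ Fintype.card (Fin n) := by simpa using hn
  have hinj := H26.conjNormal_alt_injective (α := Fin n) (by omega)
  have hp2 := hp.out.two_le
  have hqo : Odd q := hq.out.odd_of_ne_two (by omega)
  have hq3 : 3 ≤ q := by omega
  by_cases hlt : n < q ^ 2
  · set R := ((Q : Subgroup G).map G.subtype).comap
      (MulAut.conjNormal : Perm (Fin n) →* MulAut (alternatingGroup (Fin n))) with hR
    have hRp : IsPGroup q R := (Q.2.map G.subtype).comap_of_injective _ hinj
    have hc := H26.comm_of_card_lt_sq (by simpa using hlt) hRp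
    have hm : ∀ a : (Q : Subgroup G), ∃ g : R, MulAut.conjNormal (g : Perm (Fin n)) = a.1.1 := by
      intro a
      obtain ⟨k, hk⟩ := IsPGroup.iff_orderOf.1 Q.2 a
      obtain ⟨g, hg⟩ := H26.mem_range_conjNormal_of_odd h5 a.1.1 (by
        rw [orderOf_coe, orderOf_coe, hk]; exact hqo.pow)
      exact ⟨⟨g, a.1, a.2, hg.symm⟩, hg⟩
    refine ⟨⟨fun a b => Subtype.ext (Subtype.ext ?_)⟩⟩
    obtain ⟨x, hx⟩ := hm a
    obtain ⟨y, hy⟩ := hm b
    show a.1.1 * b.1.1 = b.1.1 * a.1.1
    rw [← hx, ← hy, ← map_mul, ← map_mul]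
    exact congrArg _ (congrArg Subtype.val (hc.is_comm.comm x y))
  exfalso
  obtain ⟨σ, h1, h2⟩ : ∃ σ : Perm (Fin n), sign σ = 1 ∧ orderOf σ = p * q := by
    have hco : Nat.lcm p q = p * q := ((Nat.coprime_primes hp.out hq.out).2 hpq.ne).lcm_eq_mul
    rcases hp.out.eq_two_or_odd' with rfl | hpo
    · obtain ⟨σ, hσ⟩ := (exists_with_cycleType_iff (Fin n) (m := {2, 2, q})).2 ⟨by
        simp only [Multiset.insert_eq_cons, Multiset.sum_cons, Multiset.sum_singleton, Fintype.card_fin]
        nlinarith, by simp; omega⟩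
      refine ⟨σ, ?_, ?_⟩
      · rw [sign_of_cycleType, hσ]
        refine Even.neg_one_pow ?_
        obtain ⟨k, rfl⟩ := hqo
        exact ⟨k + 4, by simp; omega⟩
      · rw [← lcm_cycleType, hσ, ← hco]
        simp [← lcm_assoc, lcm_eq_nat_lcm]
    · obtain ⟨σ, hσ⟩ := (exists_with_cycleType_iff (Fin n) (m := {p, q})).2 ⟨by
        simp only [Multiset.insert_eq_cons, Multiset.sum_cons, Multiset.sum_singleton, Fintype.card_fin]
        nlinarith, by simp; omega⟩
      refine ⟨σ, ?_, ?_⟩
      · rw [sign_of_cycleType, hσ]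
        refine Even.neg_one_pow ?_
        obtain ⟨k, rfl⟩ := hqo
        obtain ⟨l, rfl⟩ := hpo
        exact ⟨k + l + 2, by simp; omega⟩
      · rw [← lcm_cycleType, hσ, ← hco]
        simp [lcm_eq_nat_lcm]
  refine h ⟨_, hG ⟨⟨σ, h1⟩, rfl⟩⟩ ?_
  rw [Subgroup.orderOf_mk, ← h2, ← orderOf_injective _ hinj σ]
  rfl

/-- Let n ≥ 5 and let G be a group of automorphisms of the alternating group of degree n containing all inner automorphisms. If p ≠ q are primes and G has no element of order pq, then every Sylow p-subgroup of G is abelian or every Sylow q-subgroup of G is abelian. -/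
theorem result (n : ℕ) (hn : 5 ≤ n) (G : Subgroup (MulAut (alternatingGroup (Fin n))))
    (hG : (MulAut.conj : alternatingGroup (Fin n) →* MulAut (alternatingGroup (Fin n))).range ≤ G)
    (p q : ℕ) [Fact p.Prime] [Fact q.Prime] (hpq : p ≠ q) (h : ∀ g : G, orderOf g ≠ p * q) :
    (∀ P : Sylow p G, IsMulCommutative (P : Subgroup G)) ∨ (∀ Q : Sylow q G, IsMulCommutative (Q : Subgroup G)) := by
  rcases lt_or_gt_of_ne hpq with h1 | h1
  · exact Or.inr (main n hn G hG p q h1 h)
  · exact Or.inl (main n hn G hG q p h1 fun g => mul_comm p q ▸ h g)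

end Cfsg.Agent.S4231
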