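import Cfsg.Statements.S4238
import Cfsg.Agent.H3.Action
import Cfsg.Agent.H1.SylowIn
import Cfsg.Agent.H1.Coprime
import Cfsg.Agent.H10.Cores

set_option autoImplicit false
open Cfsg

namespace Cfsg.Agent.S4238

theorem aux {K : Type*} [Group K] [Finite K] {p q : ℕ} [hp : Fact p.Prime] [hq : Fact q.Prime]
    (hqp : q ≠ p) {B A : Subgroup K} [B.Normal] [IsMulCommutative B] (hB : IsPGroup p B) (hB0 : B ≠ ⊥)
    (hA : IsPGroup q A) (hc : IsCyclic A) (hs : B ⊔ A = ⊤) (hBA : ⁅B, A⁆ = B) (k : K) :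
    orderOf k ≠ Monoid.exponent K := by
  intro hk
  have hcop : (Nat.card A).Coprime (Nat.card B) :=
    IsPGroup.coprime_card_of_ne q p hqp A B hA hB
  have hd : B ⊓ A = ⊥ := disjoint_iff.mp (Subgroup.disjoint_of_coprime_natCard hcop.symm)
  have hcard : Nat.card K = Nat.card B * Nat.card A := by
    rw [← Subgroup.card_top (G := K), ← hs,
      H1.card_sup_of_disjoint Subgroup.le_normalizer_of_normal hd]
  have hAi : A.index = Nat.card B := by
    have := A.card_mul_index
    rw [hcard, mul_comm (Nat.card B)] at this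
    exact Nat.eq_of_mul_eq_mul_left Nat.card_pos this
  have hBi : B.index = Nat.card A := by
    have := B.card_mul_index
    rw [hcard] at this
    exact Nat.eq_of_mul_eq_mul_left Nat.card_pos this
  have sA : H1.IsSylowIn q A ⊤ := ⟨le_top, hA, by
    rw [Subgroup.relIndex_top_right, hAi]
    exact (Nat.Prime.coprime_iff_not_dvd hq.out).mp (H10.coprime_of_isPGroup hqp.symm hB).symm⟩
  have sB : H1.IsSylowIn p B ⊤ := ⟨le_top, hB, by
    rw [Subgroup.relIndex_top_right, hBi]
    exact (Nat.Prime.coprime_iff_not_dvd hp.out).mp (H10.coprime_of_isPGroup hqp hA).symm⟩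
  obtain ⟨a, ha⟩ := hc.exists_ofOrder_eq_natCard
  have h1 : Nat.card A ∣ orderOf k := by
    rw [hk, ← ha, ← Subgroup.orderOf_coe]
    exact Monoid.order_dvd_exponent _
  have h2 : p ∣ orderOf k := by
    obtain ⟨n, hn⟩ := IsPGroup.iff_card.mp hB
    have : p ∣ Nat.card B := by
      rw [hn]
      refine dvd_pow_self p fun e => hB0 (Subgroup.card_eq_one.mp ?_)
      rw [hn, e, pow_zero]
    obtain ⟨b, hb⟩ := exists_prime_orderOf_dvd_card' p this
    rw [hk, ← hb, ← Subgroup.orderOf_coe]
    exact Monoid.order_dvd_exponent _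
  have h0 : orderOf k ≠ 0 := (orderOf_pos k).ne'
  have h3 := orderOf_pow_orderOf_div h0 h1
  have h4 := orderOf_pow_orderOf_div h0 h2
  set u := k ^ (orderOf k / Nat.card A)
  set v := k ^ (orderOf k / p)
  have huv : Commute u v := Commute.pow_pow_self k _ _
  have hu : IsPGroup q (Subgroup.zpowers u) := by
    obtain ⟨n, hn⟩ := IsPGroup.iff_card.mp hA
    exact IsPGroup.of_card (by rw [Nat.card_zpowers, h3, hn])
  have hv : IsPGroup p (Subgroup.zpowers v) :=
    IsPGroup.of_card (n := 1) (by rw [Nat.card_zpowers, h4, pow_one])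
  have hvB : v ∈ B := sB.le_of_le_normalizer' le_top hv Subgroup.le_normalizer_of_normal
    (Subgroup.mem_zpowers v)
  obtain ⟨g, -, hg⟩ := (sA.of_card_eq (Q := Subgroup.zpowers u) le_top
    (by rw [Nat.card_zpowers, h3])).exists_conj_eq sA
  have h5 : g * v * g⁻¹ ∈ (B ⊓ Subgroup.centralizer (A : Set K)) ⊓ ⁅B, A⁆ := by
    have h6 : g * v * g⁻¹ ∈ B := Subgroup.Normal.conj_mem inferInstance v hvB g
    refine ⟨⟨h6, fun x hx => ?_⟩, hBA.symm ▸ h6⟩
    rw [← hg, SetLike.mem_coe, H1.mem_conj_smul] at hx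
    obtain ⟨n, hn⟩ := hx
    have h7 : Commute (g⁻¹ * x * g) v := hn ▸ huv.zpow_left n
    have := h7.eq
    calc x * (g * v * g⁻¹) = g * (g⁻¹ * x * g * v) * g⁻¹ := by group
      _ = _ := by rw [this]; group
  rw [H1.inf_centralizer_inf_commutator_eq_bot Subgroup.le_normalizer_of_normal hcop,
    Subgroup.mem_bot, conj_eq_one_iff] at h5
  rw [h5, orderOf_one] at h4
  exact hp.out.one_lt.ne h4

theorem aux2 {G : Type*} [Group G] [Finite G] {p q : ℕ} [hp : Fact p.Prime] [hq : Fact q.Prime]
    (hqp : q ≠ p) {B A : Subgroup G} [B.Normal] (hB : IsPGroup p B) (hB0 : B ≠ ⊥)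
    (hA : IsPGroup q A) (hc : IsCyclic A) (hs : B ⊔ A = ⊤) (hBA : ⁅B, A⁆ = B) :
    ∃ (N : Subgroup G) (_ : N.Normal), pPrimeCore p (G ⧸ N) = ⊥ ∧
      ∀ k : G ⧸ N, orderOf k ≠ Monoid.exponent (G ⧸ N) := by
  obtain ⟨N, -, hN⟩ := Finite.exists_le_maximal (p := fun N : Subgroup G => N.Normal ∧ ¬ B ≤ N)
    (a := ⊥) ⟨inferInstance, fun h => hB0 (le_bot_iff.mp h)⟩
  have := hN.1.1
  set f := QuotientGroup.mk' N
  have hf : Function.Surjective f := QuotientGroup.mk'_surjective N
  have h1 : ∀ M : Subgroup (G ⧸ N), M.Normal → M ≠ ⊥ → B.map f ≤ M := fun M hM hM0 => by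
    rw [Subgroup.map_le_iff_le_comap]
    by_contra hc
    have h2 : N ≤ M.comap f := by
      intro x hx
      simp [f, (QuotientGroup.eq_one_iff x).mpr hx]
    have h3 := hN.2 (y := M.comap f) ⟨inferInstance, hc⟩ h2
    refine hM0 (eq_bot_iff.mpr fun y hy => ?_)
    obtain ⟨x, rfl⟩ := hf y
    exact (QuotientGroup.eq_one_iff x).mpr (h3 hy)
  have h2 : B.map f ≠ ⊥ := fun e => hN.1.2 (by
    rwa [Subgroup.map_eq_bot_iff, QuotientGroup.ker_mk'] at e)
  have hB' : IsPGroup p (B.map f) := hB.map f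
  have : (B.map f).Normal := Subgroup.Normal.map inferInstance f hf
  refine ⟨N, inferInstance, ?_, ?_⟩
  · by_contra hc
    exact h2 (H10.eq_bot_of_isPGroup_of_coprime hB' ((H10.pPrimeCore_coprime p _).coprime_dvd_left
      (Subgroup.card_dvd_of_le (h1 _ inferInstance hc))))
  · have : IsMulCommutative (B.map f) := by
      rw [← Subgroup.le_centralizer_iff_isMulCommutative, ← Subgroup.commutator_eq_bot_iff_le_centralizer]
      by_contra hc
      exact (H1.commutator_lt_of_isSolvable (H1.isSolvable_of_isPGroup hB') h2).not_ge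
        (h1 _ inferInstance hc)
    refine aux hqp hB' h2 (hA.map f) (isCyclic_of_surjective _ (f.subgroupMap_surjective A)) ?_ ?_
    · rw [← Subgroup.map_sup, hs, Subgroup.map_top_of_surjective f hf]
    · rw [← Subgroup.map_commutator, hBA]

/-- Let G be a finite group and p a prime. Then G has a normal p-complement if and only if every section K = H/N of G (N a normal subgroup of a subgroup H) whose largest normal subgroup of order prime to p is trivial contains an element whose order equals the exponent of K. -/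
theorem result {G : Type*} [Group G] [Finite G] (p : ℕ) [Fact p.Prime] :
    Cfsg.HasNormalPComplement p G ↔
      ∀ (H : Subgroup G) (N : Subgroup H) [N.Normal], Cfsg.pPrimeCore p (H ⧸ N) = ⊥ →
        ∃ k : H ⧸ N, orderOf k = Monoid.exponent (H ⧸ N) := by
  constructor
  · intro h H N _ hO
    have h1 := H3.hasNormalPComplement_quotient (H3.hasNormalPComplement_subgroup h H) N
    have h2 : IsPGroup p (H ⧸ N) := by
      rw [← H3.pResidual_eq_bot_iff, eq_bot_iff, ← hO]
      exact H10.le_pPrimeCore ((Nat.Prime.coprime_iff_not_dvd Fact.out).mpr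
        (H3.hasNormalPComplement_iff_not_dvd.mp h1)).symm
    obtain ⟨n, hn⟩ := IsPGroup.iff_card.mp h2
    obtain ⟨m, -, hm⟩ := (Nat.dvd_prime_pow (Fact.out : p.Prime)).mp
      (hn ▸ Group.exponent_dvd_nat_card (G := H ⧸ N))
    obtain ⟨g, hg⟩ := Nat.Prime.exists_orderOf_eq_pow_factorization_exponent (H ⧸ N) (Fact.out : p.Prime)
    exact ⟨g, by rw [hg, hm, Nat.Prime.factorization_pow Fact.out, Finsupp.single_eq_same]⟩
  · intro h
    by_contra hc
    obtain ⟨P⟩ : Nonempty (Sylow p G) := inferInstance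
    obtain ⟨B, A, q, -, hq, hqp, -, hA, hcA, hM⟩ := H3.exists_minAct_of_not P hc
    have := Fact.mk hq
    have : (B.subgroupOf (B ⊔ A)).Normal :=
      (Subgroup.normal_subgroupOf_iff_le_normalizer le_sup_left).mpr (H1.sup_le_normalizer_left hM.le_normalizer)
    obtain ⟨N, _, h1, h2⟩ := aux2 (G := (B ⊔ A : Subgroup G)) hqp (B := B.subgroupOf _) (A := A.subgroupOf _)
      (H10.isPGroup_subgroupOf hM.isPGroup _)
      (by rw [Ne, Subgroup.subgroupOf_eq_bot, disjoint_iff, inf_eq_left.mpr le_sup_left]; exact hM.ne_bot)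
      (H10.isPGroup_subgroupOf hA _)
      (isCyclic_of_surjective _ (Subgroup.subgroupOfEquivOfLe le_sup_right).symm.surjective)
      (by rw [← Subgroup.subgroupOf_sup le_sup_left le_sup_right, Subgroup.subgroupOf_self])
      (by
        apply Subgroup.map_injective (B ⊔ A).subtype_injective
        rw [Subgroup.map_commutator, Subgroup.map_subgroupOf_eq_of_le le_sup_left,
          Subgroup.map_subgroupOf_eq_of_le le_sup_right, hM.commutator_eq])
    obtain ⟨k, hk⟩ := h _ N h1
    exact h2 k hk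

end Cfsg.Agent.S4238
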