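import Cfsg.Statements.S4240
import Cfsg.Agent.H26.Act
import Cfsg.Agent.H9.NPC
import Cfsg.Agent.H3.PNil
import Cfsg.Agent.H2.Wiel
import Cfsg.Agent.H2.Basic
import Cfsg.Agent.H1.Cores

set_option autoImplicit false
open Cfsg

namespace Cfsg.Agent.S4240

open Subgroup H26 in
theorem solv {A : Type*} [Group A] [Finite A] (G : Type*) [Group G] [Finite G] :
    ∀ [MulDistribMulAction A G], (Nat.card A).Coprime (Nat.card G) →
    (∀ H : Subgroup G, H ≠ ⊤ → AInv A H → Group.IsNilpotent H) → Group.IsSolvable G := by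
  refine H2.card_induction (P := fun G _ _ => ∀ [MulDistribMulAction A G], (Nat.card A).Coprime (Nat.card G) →
    (∀ H : Subgroup G, H ≠ ⊤ → AInv A H → Group.IsNilpotent H) → Group.IsSolvable G) ?_ G
  intro G _ _ ih _ hcop h
  by_cases hN : ∃ N : Subgroup G, N.Normal ∧ AInv A N ∧ N ≠ ⊥ ∧ N ≠ ⊤
  · obtain ⟨N, hNn, hNA, h1, h2⟩ := hN
    haveI := h N h2 hNA
    refine H2.isSolvable_of_normal_of_quotient N inferInstance ?_
    letI := hNA.quotAct
    refine ih (G ⧸ N) (H1.card_quotient_lt h1) (hcop.coprime_dvd_right (card_quotient_dvd_card N)) ?_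
    intro H hH hHA
    have := h (H.comap (QuotientGroup.mk' N)) (fun e => hH (by
      rw [← map_comap_eq_self_of_surjective (QuotientGroup.mk'_surjective N) H, e]
      exact map_top_of_surjective _ (QuotientGroup.mk'_surjective N))) (hNA.comap_mk hHA)
    rw [← map_comap_eq_self_of_surjective (QuotientGroup.mk'_surjective N) H]
    exact H1.isNilpotent_map _ this
  push Not at hN
  by_cases h2 : IsPGroup 2 G
  · exact H1.isSolvable_of_isPGroup h2
  obtain ⟨p, hp, hpG, hp2⟩ : ∃ p : ℕ, p.Prime ∧ p ∣ Nat.card G ∧ p ≠ 2 := by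
    by_contra hc
    push Not at hc
    apply h2
    exact IsPGroup.iff_card.2 ⟨_, Nat.eq_prime_pow_of_unique_prime_dvd Nat.card_pos.ne' (fun hd hd' => hc _ hd hd')⟩
  haveI := Fact.mk hp
  obtain ⟨P, hP⟩ := exists_aInv_sylow hcop p
  have hPb : (P : Subgroup G) ≠ ⊥ := P.ne_bot_of_dvd_card hpG
  have hZ : AInv A (centerThompsonOf p (P : Subgroup G)) := aInv_of_map_eq fun a => by
    rw [H9.map_centerThompsonOf_equiv, hP.map_eq]
  by_cases hn : normalizer (centerThompsonOf p (P : Subgroup G) : Set G) = ⊤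
  · have := hN _ (normalizer_eq_top_iff.1 hn) hZ (H9.centerThompsonOf_ne_bot dvd_rfl P.isPGroup' hPb)
    have hP' : (P : Subgroup G) = ⊤ := top_le_iff.1 (this ▸ H9.centerThompsonOf_le p (P : Subgroup G))
    exact H1.isSolvable_of_isPGroup ((hP' ▸ P.isPGroup').of_equiv topEquiv)
  · haveI := h _ hn hZ.normalizer
    have hc := H9.npc_of_centerThompsonOf hp2 dvd_rfl P H3.hasNormalPComplement_of_isNilpotent
    by_cases hb : pResidual p G = ⊥
    · exact H1.isSolvable_of_isPGroup (H3.pResidual_eq_bot_iff.1 hb)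
    · have := hN _ inferInstance (aInv_of_characteristic _) hb
      rw [H3.hasNormalPComplement_iff_not_dvd, this, card_top] at hc
      exact absurd hpG hc

/-- Let a finite group A act by automorphisms on a finite group G of order coprime to that of A. Suppose every maximal A-invariant proper subgroup of G is nilpotent while G is not. Then G is solvable, the order of G has the form p^a·q^b for two distinct primes p and q, and G has a normal A-invariant Sylow subgroup for some prime dividing its order. -/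
theorem result {A G : Type*} [Group A] [Group G] [Finite A] [Finite G] [MulDistribMulAction A G]
    (hcop : (Nat.card A).Coprime (Nat.card G))
    (hmax : ∀ H : Subgroup G, H ≠ ⊤ → (∀ a : A, ∀ x ∈ H, a • x ∈ H) →
      (∀ K : Subgroup G, H < K → (∀ a : A, ∀ x ∈ K, a • x ∈ K) → K = ⊤) → Group.IsNilpotent H)
    (hG : ¬ Group.IsNilpotent G) :
    Group.IsSolvable G ∧
      (∃ p q a b : ℕ, p.Prime ∧ q.Prime ∧ p ≠ q ∧ Nat.card G = p ^ a * q ^ b) ∧
      ∃ (p : ℕ) (P : Sylow p G), p.Prime ∧ p ∣ Nat.card G ∧ (P : Subgroup G).Normal ∧ (∀ a : A, ∀ x ∈ (P : Subgroup G), a • x ∈ (P : Subgroup G)) := by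
  open Subgroup H26 in
  have h : ∀ H : Subgroup G, H ≠ ⊤ → AInv A H → Group.IsNilpotent H := by
    intro H hH hHA
    obtain ⟨M, ⟨hM1, hM2, hM3⟩, hM⟩ := (wellFounded_gt (α := Subgroup G)).has_min
      {M : Subgroup G | M ≠ ⊤ ∧ AInv A M ∧ H ≤ M} ⟨H, hH, hHA, le_rfl⟩
    refine H1.isNilpotent_of_le hM3 (hmax M hM1 hM2 ?_)
    intro K hK hKA
    by_contra hc
    exact hM K ⟨hc, hKA, hM3.trans hK.le⟩ hK
  have hs := solv G hcop h
  refine ⟨hs, ?_⟩
  have hnp : ∀ p : ℕ, p.Prime → ¬ IsPGroup p G := fun p hp hG' => by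
    haveI := Fact.mk hp
    exact hG hG'.isNilpotent
  have htop : (⊤ : Subgroup G) ≠ ⊥ := fun e => hnp 2 Nat.prime_two (by
    intro g
    have : g = 1 := mem_bot.1 (e ▸ mem_top g)
    exact ⟨0, by simp [this]⟩)
  have hlt : _root_.commutator G < ⊤ :=
    H1.commutator_lt_of_isSolvable (H1.isSolvable_of_mulEquiv topEquiv.symm hs) htop
  obtain ⟨p, hp, hpd⟩ := Nat.exists_prime_and_dvd (n := Nat.card (G ⧸ _root_.commutator G))
    (fun e => hlt.ne (index_eq_one.1 e))
  haveI := Fact.mk hp
  have hK : pResidual p G ≠ ⊤ := by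
    intro e
    haveI : IsMulCommutative (G ⧸ _root_.commutator G) :=
      (Normal.quotient_commutative_iff_commutator_le).2 le_rfl
    haveI : Group.IsNilpotent (G ⧸ _root_.commutator G) := by
      refine ⟨1, ?_⟩
      rw [Subgroup.upperCentralSeries_one, eq_top_iff]
      intro x _
      rw [mem_center_iff]
      intro y
      exact mul_comm' y x
    have h1 := H3.hasNormalPComplement_of_isNilpotent (p := p) (G := G ⧸ _root_.commutator G)
    rw [H3.hasNormalPComplement_iff_not_dvd, ← H3.pResidual_map_of_surjective (QuotientGroup.mk'_surjective _), e,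
      map_top_of_surjective _ (QuotientGroup.mk'_surjective _), card_top] at h1
    exact h1 hpd
  have hKn := h _ hK (aInv_of_characteristic _)
  have hQ : ∀ q : ℕ, q.Prime → q ≠ p → ∀ Q : Sylow q G, (Q : Subgroup G).Normal := by
    intro q hq hqp Q
    haveI := Fact.mk hq
    have h1 : (Q : Subgroup G) ≤ pResidual p G := H3.le_pResidual_of_coprime
      (H1.coprime_card_of_isPGroup Q.isPGroup' (fun hd => hqp ((Nat.prime_dvd_prime_iff_eq hq hp).1 hd)))
    have h2 := H1.le_map_pCore_of_isNilpotent hKn Q.isPGroup' h1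
    have h3 := Q.is_maximal' ((H1.isPGroup_pCore (p := q) (G := pResidual p G)).map _) h2
    rw [← h3]
    exact ConjAct.normal_of_characteristic_of_normal
  have hQA : ∀ q : ℕ, q.Prime → q ≠ p → ∀ Q : Sylow q G, AInv A (Q : Subgroup G) := by
    intro q hq hqp Q
    haveI := Fact.mk hq
    haveI := hQ q hq hqp Q
    haveI := Q.characteristic_of_normal inferInstance
    exact aInv_of_characteristic _
  obtain ⟨P, hP⟩ := exists_aInv_sylow hcop p
  by_cases hall : ∀ q : ℕ, q.Prime → q ≠ p → ∀ Q : Sylow q G, (Q : Subgroup G) ⊔ (P : Subgroup G) ≠ ⊤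
  · exfalso
    apply hG
    have hPn : (P : Subgroup G).Normal := by
      rw [← normalizer_eq_top_iff, ← index_eq_one]
      by_contra hc
      obtain ⟨r, hr, hrd⟩ := Nat.exists_prime_and_dvd hc
      haveI := Fact.mk hr
      by_cases hrp : r = p
      · subst hrp
        exact P.not_dvd_index (hrd.trans (index_dvd_of_le le_normalizer))
      · obtain ⟨R⟩ : Nonempty (Sylow r G) := inferInstance
        have h1 := h _ (hall r hr hrp R) ((hQA r hr hrp R).sup hP)
        have h2 := H1.le_map_pCore_of_isNilpotent h1 P.isPGroup' le_sup_right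
        have h3 := P.is_maximal' ((H1.isPGroup_pCore (p := p)
          (G := ((R : Subgroup G) ⊔ (P : Subgroup G) : Subgroup G))).map _) h2
        have h4 : (R : Subgroup G) ≤ normalizer ((P : Subgroup G) : Set G) := by
          rw [← h3]
          exact le_sup_left.trans (le_normalizer.trans (H1.normalizer_le_normalizer_map_subtype_of_characteristic _ _))
        exact R.not_dvd_index (hrd.trans (index_dvd_of_le h4))
    refine (Group.isNilpotent_of_finite_tfae.out 0 3 rfl rfl).2 ?_
    intro q hq Q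
    by_cases hqp : q = p
    · subst hqp
      haveI := Sylow.unique_of_normal P hPn
      rwa [Subsingleton.elim Q P]
    · exact hQ q hq.out hqp Q
  push Not at hall
  obtain ⟨q, hq, hqp, Q, hQP⟩ := hall
  haveI := Fact.mk hq
  haveI := hQ q hq hqp Q
  refine ⟨?_, q, Q, hq, ?_, this, hQA q hq hqp Q⟩
  · obtain ⟨a, ha⟩ := IsPGroup.iff_card.1 P.isPGroup'
    obtain ⟨b, hb⟩ := IsPGroup.iff_card.1 Q.isPGroup'
    refine ⟨p, q, a, b, hp, hq, hqp.symm, ?_⟩
    rw [← card_top, ← hQP, H1.card_sup_of_disjoint (by rw [normalizer_eq_top]; exact le_top)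
      (IsPGroup.disjoint_of_ne q p hqp _ _ Q.isPGroup' P.isPGroup').eq_bot, ha, hb, mul_comm]
  · by_contra hc
    have h1 : (Q : Subgroup G) = ⊥ := by
      obtain ⟨b, hb⟩ := IsPGroup.iff_card.1 Q.isPGroup'
      rcases b with _ | b
      · exact eq_bot_of_card_eq _ (by simpa using hb)
      · exact absurd ((dvd_pow_self q (Nat.succ_ne_zero b)).trans (hb ▸ card_subgroup_dvd_card _)) hc
    rw [h1, bot_sup_eq] at hQP
    exact hnp p hp ((hQP ▸ P.isPGroup').of_equiv topEquiv)

end Cfsg.Agent.S4240
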