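import Cfsg.Statements.S4242
import Cfsg.Agent.H2.Schmidt
import Cfsg.Agent.H3.Frobenius
import Cfsg.Agent.H1.Coprime
import Cfsg.Agent.H1.Generation
import Cfsg.Agent.H1.SylowIn
import Cfsg.Agent.H21.Base3
import Cfsg.Agent.H26.PElt

set_option autoImplicit false
open Cfsg

namespace Cfsg.Agent.S4242

open scoped IsMulCommutative in
theorem cyc_nil {G : Type*} [Group G] (H : Subgroup G) [IsMulCommutative H] : Group.IsNilpotent H :=
  CommGroup.isNilpotent

theorem not_cyc {G : Type*} [Group G] [Finite G] {K C : Subgroup G} (hK : ¬ Group.IsNilpotent K)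
    (h : ∀ L < K, L ≤ C) : K ≤ C := by
  intro x hx
  refine h (Subgroup.zpowers x) (lt_of_le_of_ne (Subgroup.zpowers_le.mpr hx) fun e => hK ?_)
    (Subgroup.mem_zpowers x)
  rw [← e]
  exact cyc_nil _

/-- Let G be a finite group and p a prime dividing its order. Every maximal subgroup of G of order divisible by p is nilpotent if and only if G is nilpotent, or G is a minimal non-nilpotent group, or G is the internal direct product of a normal subgroup of order p and a normal minimal non-nilpotent subgroup of order prime to p. -/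
theorem result {G : Type*} [Group G] [Finite G] (p : ℕ) (hp : p.Prime) (hpG : p ∣ Nat.card G) :
    (∀ M : Subgroup G, IsCoatom M → p ∣ Nat.card M → Group.IsNilpotent M) ↔
      (Group.IsNilpotent G ∨ Cfsg.IsMinimalNonNilpotent G ∨
        ∃ Z K : Subgroup G, Z.Normal ∧ K.Normal ∧ Z ⊓ K = ⊥ ∧ Z ⊔ K = ⊤ ∧ Nat.card Z = p ∧
          Cfsg.IsMinimalNonNilpotent K ∧ ¬ p ∣ Nat.card K) := by
  have := Fact.mk hp
  constructor
  · intro h
    have h1 : ∀ H : Subgroup G, H ≠ ⊤ → p ∣ Nat.card H → Group.IsNilpotent H := fun H hH hd => by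
      obtain ⟨M, hM, hle⟩ := H2.exists_isCoatom_ge hH
      exact H1.isNilpotent_of_le hle (h M hM (hd.trans (Subgroup.card_dvd_of_le hle)))
    by_contra hcon
    simp only [not_or] at hcon
    obtain ⟨c1, c2, c3⟩ := hcon
    obtain ⟨K0, hK0, hK0'⟩ : ∃ K : Subgroup G, K ≠ ⊤ ∧ ¬ Group.IsNilpotent K := by
      by_contra hc
      push Not at hc
      exact c2 ⟨c1, hc⟩
    obtain ⟨K, hK, hle⟩ := H2.exists_isCoatom_ge hK0
    have hKn : ¬ Group.IsNilpotent K := fun h => hK0' (H1.isNilpotent_of_le hle h)
    have hKp : ¬ p ∣ Nat.card K := fun hd => hKn (h K hK hd)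
    have hO : pCore p G ≠ ⊥ := by
      intro hO
      obtain ⟨P⟩ : Nonempty (Sylow p G) := inferInstance
      have h2 : HasNormalPComplement p G := H3.hasNormalPComplement_of_forall_normalizer P fun X hX hX0 => by
        have := h1 (Subgroup.normalizer (X : Set G)) (fun e => hX0 (by
          have := Subgroup.normalizer_eq_top_iff.mp e
          exact le_bot_iff.mp (hO ▸ H1.le_pCore (P.isPGroup'.to_le hX)))) (by
          obtain ⟨n, hn⟩ := IsPGroup.iff_card.mp (P.isPGroup'.to_le hX)
          refine dvd_trans ?_ (Subgroup.card_dvd_of_le Subgroup.le_normalizer)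
          rw [hn]
          refine dvd_pow_self p fun e => hX0 (Subgroup.card_eq_one.mp ?_)
          rw [hn, e, pow_zero])
        exact H3.hasNormalPComplement_of_isNilpotent
      obtain ⟨N, hN, h3⟩ := (H3.hasNormalPComplement_iff_sylow P).mp h2
      have hc : (Nat.card P).Coprime (Nat.card N) :=
        H1.coprime_card_of_isPGroup P.isPGroup' (by rw [← h3.index_eq_card]; exact P.not_dvd_index)
      have hP0 : (P : Subgroup G) ≠ ⊥ := P.ne_bot_of_dvd_card hpG
      have hPd : p ∣ Nat.card P := P.dvd_card_of_dvd_card hpG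
      have h4 : N ≤ Subgroup.centralizer (P : Subgroup G) := by
        refine H1.le_of_forall_exists_isSylowIn_le fun q hq => ?_
        have := Fact.mk hq
        obtain ⟨Q, hQ, hPQ⟩ := H1.exists_invariant_isSylowIn q (A := P) (K := N)
          Subgroup.le_normalizer_of_normal hc (Or.inl (H1.isSolvable_of_isPGroup P.isPGroup'))
        refine ⟨Q, hQ, ?_⟩
        have hne : Q ⊔ (P : Subgroup G) ≠ ⊤ := by
          intro e
          have h5 := H1.card_sup_dvd hPQ
          rw [e, Subgroup.card_top] at h5
          have h6 : Nat.card K ∣ Nat.card Q :=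
            (Nat.Coprime.symm (H1.coprime_card_of_isPGroup P.isPGroup' hKp)).dvd_of_dvd_mul_right
              ((Subgroup.card_subgroup_dvd_card K).trans h5)
          obtain ⟨n, hn⟩ := IsPGroup.iff_card.mp hQ.isPGroup
          rw [hn] at h6
          obtain ⟨m, -, hm⟩ := (Nat.dvd_prime_pow hq).mp h6
          exact hKn (IsPGroup.of_card hm).isNilpotent
        exact H2.le_centralizer_of_coprime_of_isNilpotent
          (h1 _ hne (hPd.trans (Subgroup.card_dvd_of_le le_sup_right))) le_sup_left le_sup_right
          (Nat.Coprime.symm (hc.coprime_dvd_right (Subgroup.card_dvd_of_le hQ.le)))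
      have h5 : (P : Subgroup G).Normal := by
        rw [← Subgroup.normalizer_eq_top_iff, eq_top_iff, ← h3.sup_eq_top]
        exact sup_le (h4.trans (Subgroup.centralizer_le_normalizer _)) Subgroup.le_normalizer
      exact hP0 (le_bot_iff.mp (hO ▸ H1.le_pCore P.isPGroup'))
    set O := pCore p G with hOdef
    have hOp : IsPGroup p O := H1.isPGroup_pCore p G
    have hOK : O ⊓ K = ⊥ := disjoint_iff.mp (Subgroup.disjoint_of_coprime_natCard
      (H1.coprime_card_of_isPGroup hOp hKp))
    have hOd : p ∣ Nat.card O := by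
      obtain ⟨n, hn⟩ := IsPGroup.iff_card.mp hOp
      rw [hn]
      refine dvd_pow_self p fun e => hO (Subgroup.card_eq_one.mp ?_)
      rw [hn, e, pow_zero]
    have htop : ∀ Y : Subgroup G, Y ≤ O → Y ≠ ⊥ → Y ⊔ K = ⊤ := fun Y hY hY0 => by
      refine hK.2 _ (lt_of_le_of_ne le_sup_right fun e => hY0 ?_)
      exact le_bot_iff.mp (hOK ▸ le_inf hY (e ▸ le_sup_left))
    have hL : ∀ L < K, Group.IsNilpotent (O ⊔ L : Subgroup G) := fun L hL => by
      refine h1 _ (fun e => hL.ne ?_) (hOd.trans (Subgroup.card_dvd_of_le le_sup_left))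
      have := H1.sup_inf_of_le_normalizer' (N := O) (H := L) (L := K)
        Subgroup.le_normalizer_of_normal hL.le
      rw [e, hOK, top_inf_eq, bot_sup_eq] at this
      exact this.symm
    have hKC : K ≤ Subgroup.centralizer O := not_cyc hKn fun L hL' =>
      H2.le_centralizer_of_coprime_of_isNilpotent (hL L hL') le_sup_right le_sup_left
        (Nat.Coprime.symm ((H1.coprime_card_of_isPGroup hOp hKp).coprime_dvd_right
          (Subgroup.card_dvd_of_le hL'.le)))
    have hOC : O ≤ Subgroup.normalizer (K : Set G) :=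
      (Subgroup.le_centralizer_iff.mp hKC).trans (Subgroup.centralizer_le_normalizer _)
    have hKN : K.Normal := by
      rw [← Subgroup.normalizer_eq_top_iff, eq_top_iff, ← htop O le_rfl hO]
      exact sup_le hOC Subgroup.le_normalizer
    obtain ⟨z, hz⟩ := exists_prime_orderOf_dvd_card' (G := O) p hOd
    have hz1 : orderOf (z : G) = p := by rw [Subgroup.orderOf_coe, hz]
    have hz2 : Subgroup.zpowers (z : G) ≤ O := Subgroup.zpowers_le.mpr z.2
    have hz3 : Subgroup.zpowers (z : G) = O := by
      have h7 := htop _ hz2 (by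
        rw [Ne, Subgroup.zpowers_eq_bot]
        intro e
        rw [e, orderOf_one] at hz1
        exact hp.one_lt.ne hz1)
      have := H1.sup_inf_of_le_normalizer' (N := K) (H := Subgroup.zpowers (z : G)) (L := O)
        Subgroup.le_normalizer_of_normal hz2
      rw [sup_comm, h7, inf_comm K, hOK, top_inf_eq, bot_sup_eq] at this
      exact this.symm
    refine c3 ⟨O, K, inferInstance, hKN, hOK, htop O le_rfl hO, ?_, ⟨hKn, fun H hH => ?_⟩, hKp⟩
    · rw [← hz3, Nat.card_zpowers, hz1]
    · have h8 : H.map K.subtype < K := by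
        refine lt_of_le_of_ne (Subgroup.map_subtype_le H) fun e => hH ?_
        rw [eq_top_iff]
        intro x _
        have : (x : G) ∈ H.map K.subtype := e.symm ▸ x.2
        obtain ⟨y, hy, e'⟩ := this
        exact (Subtype.ext e' : y = x) ▸ hy
      have := H1.isNilpotent_of_le le_sup_right (hL _ h8)
      exact nilpotent_of_mulEquiv (Subgroup.equivMapOfInjective H K.subtype K.subtype_injective).symm
  · rintro (h | h | ⟨Z, K, _, _, h1, h2, h3, h4, h5⟩) M hM hd
    · infer_instance
    · exact h.2 M hM.1
    · have hZp : IsPGroup p Z := IsPGroup.of_card (h3.trans (pow_one p).symm)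
      have hcard : Nat.card G = p * Nat.card K := by
        rw [← Subgroup.card_top (G := G), ← h2,
          H1.card_sup_of_disjoint Subgroup.le_normalizer_of_normal h1, h3]
      have hZM : Z ≤ M := by
        by_contra hc
        have h6 : Z ⊓ M = ⊥ := by
          have h7 : Nat.card (Z ⊓ M : Subgroup G) ∣ p := h3 ▸ Subgroup.card_dvd_of_le inf_le_left
          rcases (Nat.dvd_prime hp).mp h7 with h8 | h8
          · exact Subgroup.card_eq_one.mp h8
          · exact absurd (inf_eq_left.mp (Subgroup.eq_of_le_of_card_ge inf_le_left (by rw [h8, h3]))) hc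
        have h7 := H1.card_sup_of_disjoint (N := Z) (H := M) Subgroup.le_normalizer_of_normal h6
        have h8 := Subgroup.card_subgroup_dvd_card (Z ⊔ M)
        rw [h7, hcard, h3] at h8
        exact h5 (hd.trans (Nat.dvd_of_mul_dvd_mul_left hp.pos h8))
      have h6 := H1.sup_inf_of_le_normalizer (N := Z) (H := K) (L := M)
        Subgroup.le_normalizer_of_normal hZM
      rw [h2, top_inf_eq] at h6
      have h7 : Group.IsNilpotent (K ⊓ M : Subgroup G) := by
        have h8 : (K ⊓ M).subgroupOf K ≠ ⊤ := by
          intro e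
          rw [Subgroup.subgroupOf_eq_top] at e
          exact hM.1 (eq_top_iff.mpr (h2 ▸ sup_le hZM (e.trans inf_le_right)))
        have := h4.2 _ h8
        exact nilpotent_of_mulEquiv (Subgroup.subgroupOfEquivOfLe inf_le_left)
      have h8 : Z ≤ Subgroup.centralizer K := H2.le_centralizer_of_inf_eq_bot
        Subgroup.le_normalizer_of_normal Subgroup.le_normalizer_of_normal h1
      rw [h6]
      exact H21.nil_sup_of_cent hZp.isNilpotent h7 (h8.trans (Subgroup.centralizer_le inf_le_left))

end Cfsg.Agent.S4242
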