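import Cfsg.Statements.S4245
import Cfsg.Agent.H26.Baer
import Cfsg.Agent.H2.SS

set_option autoImplicit false
open Cfsg

namespace Cfsg.Agent.S4245

open Subgroup H26 in
theorem aux (G : Type*) [Group G] [Finite G] : ∀ (A : Subgroup G) (B : Subgroup A) [B.Normal] (p s : ℕ), p.Prime → p ≠ 2 →
    A.index ∣ p ^ s → IsCyclic B → IsCyclic (A ⧸ B) → Group.IsSolvable G := by
  refine H2.card_induction (P := fun G _ _ => ∀ (A : Subgroup G) (B : Subgroup A) [B.Normal] (p s : ℕ), p.Prime → p ≠ 2 →
    A.index ∣ p ^ s → IsCyclic B → IsCyclic (A ⧸ B) → Group.IsSolvable G) ?_ G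
  intro G _ _ ih A B _ p s hp hp2 hA hB hc
  haveI : Fact (Nat.Prime 2) := ⟨Nat.prime_two⟩
  by_cases hev : 2 ∣ Nat.card B
  · obtain ⟨z, hz⟩ := exists_prime_orderOf_dvd_card' (G := B) 2 hev
    have hz' : orderOf (z : A) = 2 := by rw [Subgroup.orderOf_coe, hz]
    have hz1 : (z : A) ≠ 1 := fun e => by rw [e, orderOf_one] at hz'; omega
    haveI : (zpowers (z : A)).Normal := H2.normal_of_le_of_isCyclic (zpowers_le.2 z.2)
    have hAz : A ≤ centralizer ({((z : A) : G)} : Set G) := by
      intro a ha
      have h1 := (inferInstance : (zpowers (z : A)).Normal).conj_mem _ (mem_zpowers _) ⟨a, ha⟩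
      classical
      rw [mem_zpowers_iff_mem_range_orderOf, hz', Finset.mem_image] at h1
      obtain ⟨k, hk, h1⟩ := h1
      rw [Finset.mem_range] at hk
      interval_cases k
      · exact absurd (by simpa using h1.symm) hz1
      · rw [pow_one, eq_mul_inv_iff_mul_eq] at h1
        exact mem_cent.2 (congrArg Subtype.val h1).symm
    obtain ⟨j, -, hj⟩ := (Nat.dvd_prime_pow hp).1 ((index_dvd_of_le hAz).trans hA)
    set N := normalClosure ({((z : A) : G)} : Set G)
    have hN : N ≠ ⊥ := fun e => hz1 (Subtype.ext (mem_bot.1 (e ▸ subset_normalClosure rfl)))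
    refine H2.isSolvable_of_normal_of_quotient N (H25.kazarin _ hp hj) ?_
    have hf := QuotientGroup.mk'_surjective N
    have hg := (QuotientGroup.mk' N).subgroupMap_surjective A
    haveI : (B.map ((QuotientGroup.mk' N).subgroupMap A)).Normal := Normal.map inferInstance _ hg
    refine ih (G ⧸ N) (H1.card_quotient_lt hN) (A.map (QuotientGroup.mk' N)) (B.map ((QuotientGroup.mk' N).subgroupMap A))
      p s hp hp2 ((index_map_dvd _ hf).trans hA) (isCyclic_of_surjective _ (MonoidHom.subgroupMap_surjective _ B)) ?_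
    exact isCyclic_of_surjective (QuotientGroup.map B _ ((QuotientGroup.mk' N).subgroupMap A) (le_comap_map _ _))
      (QuotientGroup.map_surjective_of_surjective _ _ _ ((QuotientGroup.mk_surjective).comp hg) _)
  · obtain ⟨S, hS⟩ := exists_sylow_le_of_not_dvd_index (p := 2) (H := A) (fun hd => hp2
      ((Nat.prime_dvd_prime_iff_eq Nat.prime_two hp).1 (Nat.prime_two.dvd_of_dvd_pow (hd.trans hA))).symm)
    have hcyc : IsCyclic (S : Subgroup G) := by
      refine isCyclic_of_injective ((QuotientGroup.mk' B).comp (inclusion hS)) ?_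
      rw [injective_iff_map_eq_one]
      intro x hx
      have h1 : inclusion hS x ∈ B := (QuotientGroup.eq_one_iff _).1 hx
      have h2 := Subgroup.orderOf_dvd_natCard _ h1
      rw [orderOf_injective _ (inclusion_injective hS)] at h2
      rw [← orderOf_eq_one_iff]
      exact Nat.eq_one_of_dvd_coprimes (H1.coprime_card_of_isPGroup S.isPGroup' hev) (orderOf_dvd_natCard x) h2
    obtain ⟨N, hNn, hN⟩ := H11.exists_complement_of_isCyclic S hcyc
    refine H2.isSolvable_of_normal_of_quotient N (FT.solvable_of_odd ?_) (H1.isSolvable_of_isPGroup (p := 2) ?_)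
    · rw [← hN.index_eq_card, ← Nat.not_even_iff_odd, even_iff_two_dvd]
      exact S.not_dvd_index
    · exact S.isPGroup'.of_equiv hN.symm.QuotientMulEquiv.symm

/-- Let G be a finite group with a subgroup A of prime-power index. Suppose A has a normal cyclic subgroup B such that A/B is cyclic of order a power of 2. Then G is solvable. -/
theorem result {G : Type*} [Group G] [Finite G] (A : Subgroup G) (p s : ℕ) (hp : p.Prime) (hA : A.index = p ^ s)
    (B : Subgroup A) [B.Normal] (hB : IsCyclic B) (hAB : IsCyclic (A ⧸ B)) (r : ℕ) (hr : Nat.card (A ⧸ B) = 2 ^ r) :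
    Group.IsSolvable G := by
  by_cases hp2 : p = 2
  · subst hp2
    refine H26.isSolvable_of_abelian_index_pow (k := r + s) Nat.prime_two (C := B.map A.subtype) ?_ ?_
    · rintro _ ⟨a, ha, rfl⟩ _ ⟨b, hb, rfl⟩
      letI := hB.commGroup
      exact congrArg (fun x : B => ((x : A) : G)) (mul_comm (⟨a, ha⟩ : B) ⟨b, hb⟩)
    · rw [Subgroup.index_map_subtype, hA, pow_add, ← hr]
      rfl
  · exact aux G A B p s hp hp2 hA.dvd hB hAB

end Cfsg.Agent.S4245
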