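import Cfsg.Statements.S4249
import Cfsg.Agent.H1.Kegel

set_option autoImplicit false
open Cfsg

namespace Cfsg.Agent.S4249

open Subgroup Cfsg.Agent.H20 Cfsg.Agent.H21 Cfsg.Agent.BG

/-- Let G be a finite group and p a prime such that G is not a p-group, and suppose the Hughes subgroup H_p(G), generated by all elements g with g^p ≠ 1, is a proper subgroup. Then H_p(G) is nilpotent and has index p in G. -/
theorem result {G : Type*} [Group G] [Finite G] (p : ℕ) (hp : p.Prime) (hG : ¬ IsPGroup p G)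
    (hH : Subgroup.closure {g : G | g ^ p ≠ 1} ≠ ⊤) :
    Group.IsNilpotent (Subgroup.closure {g : G | g ^ p ≠ 1}) ∧ (Subgroup.closure {g : G | g ^ p ≠ 1}).index = p := by
  haveI := Fact.mk hp
  set H := Subgroup.closure {g : G | g ^ p ≠ 1}
  have h1 : ∀ g, g ∉ H → g ^ p = 1 := fun g hg => by_contra fun e => hg (subset_closure e)
  haveI hn : H.Normal := ⟨fun x hx g => by
    have : H ≤ H.comap (MulAut.conj g).toMonoidHom := (closure_le _).mpr fun y hy =>
      subset_closure (by simpa [conj_pow] using hy)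
    exact this hx⟩
  have h2 : ∀ K : Subgroup G, K.Normal → H ≤ K → K ≠ ⊤ → Group.IsNilpotent K := fun K _ h3 h4 => by
    obtain ⟨y, -, hy⟩ := SetLike.exists_of_lt (lt_top_iff_ne_top.mpr h4)
    exact H1.kegel hp (y := y) (le_normalizer_of_normal (mem_top y)) fun k hk =>
      h1 _ fun e => hy ((K.mul_mem_cancel_left hk).mp (h3 e))
  refine ⟨h2 H hn le_rfl hH, ?_⟩
  have h3 : IsPGroup p (G ⧸ H) := fun x => by
    obtain ⟨x, rfl⟩ := QuotientGroup.mk_surjective x
    refine ⟨1, ?_⟩
    rw [pow_one, ← QuotientGroup.mk_pow, QuotientGroup.eq_one_iff]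
    by_cases h : x ∈ H
    exacts [pow_mem h _, h1 x h ▸ one_mem _]
  haveI : Nontrivial (G ⧸ H) := QuotientGroup.nontrivial_iff.mpr hH
  obtain ⟨z, hz, z1⟩ := exists_prime_order_mem hp (dvd_card_of_isPGroup (h3.to_subgroup (center _))
    ((nontrivial_iff_ne_bot _).mp h3.center_nontrivial))
  haveI : (zpowers z).Normal := ⟨fun x hx g => by
    rwa [mem_center_iff.mp (zpowers_le.mpr hz hx) g, mul_inv_cancel_right]⟩
  by_cases h4 : (zpowers z).comap (QuotientGroup.mk' H) = ⊤
  · rw [index_eq_card, ← card_top, ← z1, ← Nat.card_zpowers, ← map_top_of_surjective _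
      (QuotientGroup.mk'_surjective H), ← h4, map_comap_eq_self_of_surjective
      (QuotientGroup.mk'_surjective H)]
  have h5 : H ≤ (zpowers z).comap (QuotientGroup.mk' H) := 
    (QuotientGroup.ker_mk' H).ge.trans (ker_le_comap _ _)
  have h6 := h2 _ inferInstance h5 h4
  obtain ⟨q, hq, hd, hqp⟩ : ∃ q, q.Prime ∧ q ∣ ♯(⊤ : Subgroup G) ∧ q ≠ p := by
    by_contra! hc
    exact hG (pgroup_top_iff.mp (IsPi.isPGroup hc))
  obtain ⟨y, -, hy⟩ := exists_prime_order_mem hq hd
  obtain ⟨x, rfl⟩ := QuotientGroup.mk_surjective z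
  have hx : x ∉ H := fun e => hp.one_lt.ne (by rw [← z1, (QuotientGroup.eq_one_iff x).mpr e, orderOf_one])
  have hc : p.Coprime q := (Nat.coprime_primes hp hq).mpr hqp.symm
  have h7 : y ^ p ≠ 1 := fun e => hq.one_lt.ne' (Nat.eq_one_of_dvd_coprimes hc
    (hy ▸ orderOf_dvd_of_pow_eq_one e) dvd_rfl)
  have h8 : y ∈ H := subset_closure h7
  have h9 : Commute x y := by
    exact cent_of_nil_coprime h6 (zpowers_le.mpr (h5 h8)) (zpowers_le.mpr (mem_zpowers _ :
      QuotientGroup.mk' H x ∈ _)) (by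
        rw [Nat.card_zpowers, Nat.card_zpowers, hy]
        exact (hc.coprime_dvd_left (orderOf_dvd_of_pow_eq_one (h1 x hx))).symm)
      (mem_zpowers y) x (mem_zpowers x)
  have := h1 (x * y) fun e => hx ((H.mul_mem_cancel_right h8).mp e)
  rw [h9.mul_pow, h1 x hx, one_mul] at this
  exact absurd this h7

end Cfsg.Agent.S4249
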