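import Cfsg.Statements.S4250
import Cfsg.Agent.H3.Alperin

set_option autoImplicit false
open Cfsg

namespace Cfsg.Agent.S4250

open Cfsg.Agent.H3

open scoped Pointwise

theorem fusionRel_mem {G : Type*} [Group G] (K : Subgroup G) :
    FusionRel fun (A : Subgroup G) g => ∀ a ∈ A, a⁻¹ * (g * a * g⁻¹) ∈ K where
  mono h1 h2 a ha := h2 a (h1 ha)
  mul := by
    intro A g h h1 h2 a ha
    have := mul_mem (h1 a ha) (h2 _ (conj_mem_conj_smul.mpr ha))
    convert this using 1
    group
  inv := by
    intro A g h a ha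
    have := inv_mem (h _ (mem_conj_smul.mp ha))
    convert this using 1
    group

/-- Let P be a Sylow p-subgroup of a finite group G. Call an intersection H = P ∩ Q with a Sylow p-subgroup Q tame when N_P(H) and N_Q(H) are Sylow p-subgroups of N_G(H). Then P ∩ G′ is generated by [P, N_G(P)] together with the commutator subgroups [P ∩ Q, ⟨x⟩] for all tame intersections P ∩ Q and all p-elements x of N_G(P ∩ Q). -/
theorem result {G : Type*} [Group G] [Finite G] (p : ℕ) [Fact p.Prime] (P : Sylow p G) :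
    (P : Subgroup G) ⊓ commutator G =
      ⁅(P : Subgroup G), Subgroup.normalizer ((P : Subgroup G) : Set G)⁆ ⊔
        ⨆ (Q : Sylow p G) (_ : (¬ p ∣ ((P : Subgroup G) ⊓ Subgroup.normalizer (((P : Subgroup G) ⊓ (Q : Subgroup G) : Subgroup G) : Set G)).relIndex (Subgroup.normalizer (((P : Subgroup G) ⊓ (Q : Subgroup G) : Subgroup G) : Set G)) ∧ ¬ p ∣ ((Q : Subgroup G) ⊓ Subgroup.normalizer (((P : Subgroup G) ⊓ (Q : Subgroup G) : Subgroup G) : Set G)).relIndex (Subgroup.normalizer (((P : Subgroup G) ⊓ (Q : Subgroup G) : Subgroup G) : Set G))))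
          (x : G) (_ : x ∈ Subgroup.normalizer (((P : Subgroup G) ⊓ (Q : Subgroup G) : Subgroup G) : Set G) ∧ ∃ k : ℕ, orderOf x = p ^ k),
          ⁅(P : Subgroup G) ⊓ (Q : Subgroup G), Subgroup.zpowers x⁆ := by
  apply le_antisymm
  · rw [inf_comm]
    apply commutator_inf_sylow_le
    intro x hx g hg
    refine alperin_tame P (fusionRel_mem _) ?_ ?_ (Subgroup.zpowers x) g (by simpa using hx) ?_ x
      (Subgroup.mem_zpowers x)
    · intro n hn a ha
      exact Subgroup.mem_sup_left (commutator_mem_of_mem ha hn)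
    · rintro Q - h1 h2 y hy ⟨k, hk⟩ a ha
      obtain ⟨j, -, hj⟩ := (Nat.dvd_prime_pow Fact.out).mp (orderOf_dvd_of_pow_eq_one hk)
      refine Subgroup.mem_sup_right (Subgroup.mem_iSup_of_mem Q (Subgroup.mem_iSup_of_mem
        ⟨h1.not_dvd, h2.not_dvd⟩ (Subgroup.mem_iSup_of_mem y (Subgroup.mem_iSup_of_mem
          ⟨hy, j, hj⟩ (commutator_mem_of_mem ha (Subgroup.mem_zpowers y))))))
    · rw [← map_conj_eq_smul, MonoidHom.map_zpowers]
      simpa using hg
  · refine sup_le (le_inf (Subgroup.le_normalizer_iff_commutator_le_left.mp le_rfl)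
      (Subgroup.commutator_mono le_top le_top)) ?_
    refine iSup_le fun Q => iSup_le fun _ => iSup_le fun x => iSup_le fun hx => ?_
    refine le_inf (le_trans ?_ (inf_le_left (b := (Q : Subgroup G)))) (Subgroup.commutator_mono le_top le_top)
    exact Subgroup.le_normalizer_iff_commutator_le_left.mp (by simpa using hx.1)

end Cfsg.Agent.S4250
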