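import Cfsg.Statements.S4261
import Cfsg.Agent.H26.Basic
import Cfsg.Agent.H2.Frattini
import Cfsg.Agent.S0048

set_option autoImplicit false
open Cfsg

namespace Cfsg.Agent.S4261


/-- Let M be a maximal subgroup of a finite solvable group G such that x^[G : M] lies in M for every x in G. Then M is normal in G. -/
theorem result {G : Type*} [Group G] [Finite G] (hG : Group.IsSolvable G) (M : Subgroup G) (hM : IsCoatom M)
    (hexp : ∀ x : G, x ^ M.index ∈ M) : M.Normal := by
  obtain ⟨p, k, hp, hk, hpk⟩ := (isPrimePow_nat_iff _).mp (S0048.result M hM)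
  have : Fact p.Prime := ⟨hp⟩
  have h1 : pResidual p G ≤ M := by
    refine (Subgroup.closure_le _).mpr fun x hx => ?_
    apply H26.mem_of_forall_prime_pow
    intro q hq hd
    refine ⟨M.index, fun hd2 => ?_, hexp _⟩
    rw [← hpk] at hd2
    exact hq.one_lt.ne' (Nat.eq_one_of_dvd_coprimes hx hd (hq.dvd_of_dvd_pow hd2))
  have h2 := H2.isCoatom_map_mk' hM h1
  have h3 : Group.IsNilpotent (G ⧸ pResidual p G) := (H3.isPGroup_quotient_pResidual (p := p)).isNilpotent
  have h4 := H2.normal_of_isCoatom_of_isNilpotent h2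
  have h5 := h4.comap (QuotientGroup.mk' (pResidual p G))
  rwa [Subgroup.comap_map_eq, QuotientGroup.ker_mk', sup_eq_left.mpr h1] at h5

end Cfsg.Agent.S4261
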