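import Cfsg.Statements.S4262
import Cfsg.Agent.H25.NilMax
import Cfsg.Agent.H25.ClassSize
import Cfsg.Agent.H26.ClassSize
import Cfsg.Agent.H26.PElt

set_option autoImplicit false
open Cfsg

namespace Cfsg.Agent.S4262


/-- Let G be a finite group in which the centralizer of every non-central element is a maximal subgroup of G. Then G is solvable. -/
theorem result {G : Type*} [Group G] [Finite G]
    (h : ∀ g : G, g ∉ Subgroup.center G → IsCoatom (Subgroup.centralizer ({g} : Set G))) :
    Group.IsSolvable G := by
  open Subgroup H26 in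
  by_cases hx : ∃ (p : ℕ) (x : G), p.Prime ∧ p ≠ 2 ∧ (∃ k, orderOf x = p ^ k) ∧ x ∉ center G
  · obtain ⟨p, x, hp, hp2, ⟨k, hk⟩, hx⟩ := hx
    haveI := Fact.mk hp
    set M := centralizer ({x} : Set G) with hM
    have key : ∀ y : M, (orderOf y).Coprime p → y ∈ center M := by
      intro y hy
      have hc : Commute x (y : G) := (mem_cent.1 y.2).symm
      have hco : (orderOf x).Coprime (orderOf (y : G)) := by
        rw [hk, Subgroup.orderOf_coe]; exact hy.symm.pow_left k
      have h1 := cent_mul_of_coprime hc hco
      have h2 : x * y ∉ center G := fun h0 => hx (by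
        rw [← cent_eq_top_iff] at h0 ⊢
        exact top_le_iff.1 ((h0.symm.trans h1).le.trans inf_le_left))
      have h3 : centralizer ({x * y} : Set G) = M := by
        by_contra hne
        exact (h x hx).1 ((h _ h2).2 M (lt_of_le_of_ne (h1.le.trans inf_le_left) hne))
      rw [mem_center_iff]
      intro g
      exact Subtype.ext (mem_cent.1 ((h3.symm.trans h1).le g.2).2)
    have hnil : Group.IsNilpotent M := by
      apply Group.of_quotient_center_nilpotent
      refine IsPGroup.isNilpotent (p := p) (H25.isPGroup_of_forall_coprime fun y hy => ?_)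
      obtain ⟨z, hz, rfl⟩ := H25.exists_lift_coprime _ (QuotientGroup.mk'_surjective (center M)) p hy
      exact (QuotientGroup.eq_one_iff z).2 (key z hz)
    refine H25.solvable_of_coatom G ⊤ M inferInstance (h x hx) (fun h0 => (h x hx).1 (top_le_iff.1 h0)) (by simp)
      inferInstance (by rwa [inf_top_eq]) ?_
    rw [inf_top_eq]
    refine H25.exists_sylowIn_cl2 (fun S => le_trans ?_ one_le_two)
    haveI : Fact (Nat.Prime 2) := ⟨Nat.prime_two⟩
    rw [Group.IsNilpotent.nilpotencyClass_le_one_iff]
    refine ⟨⟨fun a b => Subtype.ext (mem_center_iff.1 (key b ?_) a)⟩⟩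
    obtain ⟨j, hj⟩ := exists_orderOf_of_mem S.isPGroup' b.2
    rw [hj]
    exact ((Nat.coprime_primes Nat.prime_two hp).2 (Ne.symm hp2)).pow_left j
  · push Not at hx
    haveI : Fact (Nat.Prime 2) := ⟨Nat.prime_two⟩
    haveI : Group.IsNilpotent G := by
      apply Group.of_quotient_center_nilpotent
      refine IsPGroup.isNilpotent (p := 2) (IsPGroup.iff_card.2 ⟨_, Nat.eq_prime_pow_of_unique_prime_dvd
        Nat.card_pos.ne' fun {p} hp hd => ?_⟩)
      by_contra hp2
      haveI := Fact.mk hp
      obtain ⟨P⟩ : Nonempty (Sylow p G) := inferInstance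
      exact not_dvd_index_of_sylow_le P (H := center G)
        (fun y hy => hx p y hp hp2 (exists_orderOf_of_mem P.isPGroup' hy)) hd
    infer_instance

end Cfsg.Agent.S4262
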