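import Cfsg.Statements.S4263
import Cfsg.Agent.H26.Basic

set_option autoImplicit false
open Cfsg

namespace Cfsg.Agent.S4263


/-- Let G be a finite group. An element x lies in the Fitting subgroup F(G) if and only if, for every subgroup H of G, the power x^[G : H] lies in H. -/
theorem result {G : Type*} [Group G] [Finite G] (x : G) :
    x ∈ Cfsg.fittingSubgroup G ↔ ∀ H : Subgroup G, x ^ H.index ∈ H := by
  constructor
  · intro hx H
    have h1 := H26.pow_relIndex_mem_of_isNilpotent (H1.isNilpotent_fittingSubgroup G) H hx
    obtain ⟨k, hk⟩ := H26.relIndex_dvd_index_of_normal_right H (Cfsg.fittingSubgroup G)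
    rw [hk, pow_mul]
    exact H.pow_mem h1 k
  · intro h
    apply H26.mem_of_forall_prime_pow
    intro p hp hd
    have : Fact p.Prime := ⟨hp⟩
    obtain ⟨P⟩ : Nonempty (Sylow p G) := inferInstance
    refine ⟨(P : Subgroup G).index, P.not_dvd_index, ?_⟩
    apply H1.pCore_le_fittingSubgroup p
    rw [H1.pCore_eq_iInf_sylow, Subgroup.mem_iInf]
    intro Q
    have h1 := h Q
    have h2 : (Q : Subgroup G).index = (P : Subgroup G).index := by
      have a := (Q : Subgroup G).card_mul_index
      have b := (P : Subgroup G).card_mul_index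
      rw [Q.card_eq_multiplicity] at a
      rw [P.card_eq_multiplicity] at b
      exact (Nat.eq_of_mul_eq_mul_left (pow_pos hp.pos _) (b.trans a.symm)).symm
    rwa [h2] at h1

end Cfsg.Agent.S4263
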