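import Cfsg.Statements.S4269
import Cfsg.Agent.H1.Basic
import Cfsg.Agent.H2.Basic

set_option autoImplicit false
open Cfsg

namespace Cfsg.Agent.S4269

open scoped Pointwise commutatorElement

/-- Let G be a finite group, V an abelian normal subgroup and H a subgroup with HV = G. Then H is pronormal in G (H and gHg⁻¹ are conjugate inside the subgroup they generate, for every g) if and only if every H-invariant subgroup U of V satisfies U = N_U(H)·[H, U], that is, U is the join of U ∩ N_G(H) and the commutator subgroup [H, U]. -/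
theorem result {G : Type*} [Group G] [Finite G]
    (V : Subgroup G) [V.Normal] (hV : IsMulCommutative ↥V) (H : Subgroup G) (hHV : H ⊔ V = ⊤) :
    Cfsg.IsPronormal H ↔
      ∀ U : Subgroup G, U ≤ V → (∀ h ∈ H, U.map (MulAut.conj h).toMonoidHom = U) →
        U = (U ⊓ Subgroup.normalizer (H : Set G)) ⊔ ⁅H, U⁆ := by
  constructor
  · intro hp U hUV hU
    have hHU : H ≤ Subgroup.normalizer (U : Set G) := fun h hh =>
      H1.conj_smul_eq_iff_mem_normalizer.mp (hU h hh)
    have hle : ⁅H, U⁆ ≤ U := by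
      rw [Subgroup.commutator_le]
      intro h hh u hu
      exact U.mul_mem (H1.conj_mem_of_le_normalizer hHU hh hu) (U.inv_mem hu)
    refine le_antisymm (fun u hu => ?_) (sup_le inf_le_left hle)
    obtain ⟨x, hx, e⟩ := hp u
    have h1 : H ⊔ H.map (MulAut.conj u).toMonoidHom ≤ ⁅H, U⁆ ⊔ H := by
      refine sup_le le_sup_right ?_
      rintro _ ⟨h, hh, rfl⟩
      have := Subgroup.mul_mem_sup (inv_mem (Subgroup.commutator_mem_commutator hh hu)) hh
      simpa [commutatorElement_def, mul_assoc] using this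
    obtain ⟨c, hc, h, hh, rfl⟩ := (H1.mem_sup_of_le_normalizer_left
      (H1.le_normalizer_commutator Subgroup.le_normalizer hHU)).mp (h1 hx)
    rw [← H1.conj_smul_eq_map, ← H1.conj_smul_eq_map, map_mul, mul_smul,
      H1.conj_smul_eq_iff_mem_normalizer.mpr (Subgroup.le_normalizer hh), ← inv_smul_eq_iff, ← map_inv,
      ← mul_smul, ← map_mul, H1.conj_smul_eq_iff_mem_normalizer] at e
    have := Subgroup.mul_mem_sup hc (Subgroup.mem_inf.mpr ⟨U.mul_mem (U.inv_mem (hle hc)) hu, e⟩)
    rw [sup_comm]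
    simpa using this
  · intro hU g
    obtain ⟨v, hv, h, hh, rfl⟩ := (H1.mem_sup_of_le_normalizer_left (N := V) (H := H)
      Subgroup.le_normalizer_of_normal).mp (by rw [sup_comm, hHV]; exact Subgroup.mem_top g)
    have e1 : H.map (MulAut.conj (v * h)).toMonoidHom = H.map (MulAut.conj v).toMonoidHom := by
      rw [← H1.conj_smul_eq_map, ← H1.conj_smul_eq_map, map_mul, mul_smul,
        H1.conj_smul_eq_iff_mem_normalizer.mpr (Subgroup.le_normalizer hh)]
    rw [e1]
    set L := H ⊔ H.map (MulAut.conj v).toMonoidHom with hL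
    have hn : V.Normal := inferInstance
    let W : Subgroup G :=
      { carrier := {u | u ∈ V ∧ ∀ h ∈ H, ⁅h, u⁆ ∈ L}
        one_mem' := ⟨V.one_mem, fun h _ => by simp⟩
        mul_mem' := by
          rintro a b ⟨ha, ha'⟩ ⟨hb, hb'⟩
          refine ⟨V.mul_mem ha hb, fun h hh => ?_⟩
          have h1 := H2.mul_comm_of_mem (V.mul_mem (hn.conj_mem _ hb h) (V.inv_mem hb)) (V.inv_mem ha)
          have h2 : ⁅h, a * b⁆ = ⁅h, a⁆ * ⁅h, b⁆ := by
            simp only [commutatorElement_def]
            calc _ = h * a * h⁻¹ * (h * b * h⁻¹ * b⁻¹ * a⁻¹) := by group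
              _ = _ := by rw [h1]; group
          rw [h2]
          exact L.mul_mem (ha' h hh) (hb' h hh)
        inv_mem' := by
          rintro a ⟨ha, ha'⟩
          refine ⟨V.inv_mem ha, fun h hh => ?_⟩
          have h1 := H2.mul_comm_of_mem (hn.conj_mem _ (V.inv_mem ha) h) ha
          have h2 : ⁅h, a⁻¹⁆ = ⁅h, a⁆⁻¹ := by
            simp only [commutatorElement_def]
            rw [inv_inv, h1]
            group
          rw [h2]
          exact L.inv_mem (ha' h hh) }
    have hW : ∀ k ∈ H, ∀ u ∈ W, k * u * k⁻¹ ∈ W := by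
      rintro k hk u ⟨hu, hu'⟩
      refine ⟨hn.conj_mem _ hu k, fun h hh => ?_⟩
      have := L.mul_mem (L.mul_mem (Subgroup.mem_sup_left hk) (hu' _
        (H.mul_mem (H.mul_mem (H.inv_mem hk) hh) hk))) (L.inv_mem (Subgroup.mem_sup_left hk))
      simpa only [commutatorElement_def, mul_assoc, mul_inv_rev, inv_inv, mul_inv_cancel_left] using this
    have h1 := hU W (fun u hu => hu.1) fun k hk => H1.conj_smul_eq_iff_mem_normalizer.mpr
      (Subgroup.mem_normalizer_fintype (hW k hk))
    have hvW : v ∈ W := ⟨hv, fun k hk => by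
      have := L.mul_mem (Subgroup.mem_sup_left hk) (Subgroup.mem_sup_right ⟨k⁻¹, H.inv_mem hk, rfl⟩)
      simpa [commutatorElement_def, mul_assoc] using this⟩
    have h2 : ⁅H, W⁆ ≤ L ⊓ V := by
      rw [Subgroup.commutator_le]
      intro k hk u hu
      exact ⟨hu.2 k hk, V.mul_mem (hn.conj_mem _ hu.1 k) (V.inv_mem hu.1)⟩
    rw [h1, sup_comm] at hvW
    obtain ⟨c, hc, n, hn', rfl⟩ := (H1.mem_sup_of_le_normalizer_left
      ((inf_le_left.trans fun u (hu : u ∈ W) => hu.1).trans
        (H2.le_normalizer_of_le_of_isMulCommutative (h2.trans inf_le_right)))).mp hvW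
    refine ⟨c, (h2 hc).1, ?_⟩
    rw [← H1.conj_smul_eq_map, ← H1.conj_smul_eq_map, map_mul, mul_smul,
      H1.conj_smul_eq_iff_mem_normalizer.mpr hn'.2]

end Cfsg.Agent.S4269
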