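import Cfsg.Statements.S4271
import Cfsg.Agent.H10.Pron

set_option autoImplicit false
open Cfsg

namespace Cfsg.Agent.S4271

/-- Let p be a prime and G a finite group with a normal subgroup A such that every subgroup of A containing a Sylow p-subgroup of A is pronormal in A, and the Sylow p-subgroups of G/A are self-normalizing. Let T be a Sylow p-subgroup of A. Then every subgroup of G containing a Sylow p-subgroup of G is pronormal in G if and only if every subgroup of N_G(T)/T containing a Sylow p-subgroup of N_G(T)/T is pronormal in N_G(T)/T. (Pronormal: H and gHg⁻¹ are conjugate inside the subgroup they generate, for every g.) -/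
theorem result {G : Type*} [Group G] [Finite G] {p : ℕ} [Fact p.Prime]
    (A : Subgroup G) [A.Normal] (hA : (∀ K : Subgroup ↥A, (∃ P : Sylow p ↥A, (P : Subgroup ↥A) ≤ K) → Cfsg.IsPronormal K))
    (hQ : ∀ P : Sylow p (G ⧸ A), Subgroup.normalizer ((P : Subgroup (G ⧸ A)) : Set (G ⧸ A)) = P)
    (T : Subgroup G) (hT : ∃ P : Sylow p ↥A, (P : Subgroup ↥A).map A.subtype = T) [(T.subgroupOf (Subgroup.normalizer (T : Set G))).Normal] :
    (∀ K : Subgroup G, (∃ P : Sylow p G, (P : Subgroup G) ≤ K) → Cfsg.IsPronormal K) ↔ (∀ K : Subgroup (↥(Subgroup.normalizer (T : Set G)) ⧸ T.subgroupOf (Subgroup.normalizer (T : Set G))), (∃ P : Sylow p (↥(Subgroup.normalizer (T : Set G)) ⧸ T.subgroupOf (Subgroup.normalizer (T : Set G))), (P : Subgroup (↥(Subgroup.normalizer (T : Set G)) ⧸ T.subgroupOf (Subgroup.normalizer (T : Set G)))) ≤ K) → Cfsg.IsPronormal K) := by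
  open Subgroup Cfsg.Agent.H10 in
  obtain ⟨T', rfl⟩ := hT
  have hT := H11.isSylIn_map T'
  rw [pronormal_quot_iff hT]
  refine ⟨fun h K P hP hPK _ g _ => ?_, fun h => pronormal_of_ext hT hA ?_ h ?_⟩
  · obtain ⟨P, rfl⟩ := hP.exists_sylow_top
    exact h K ⟨P, hPK⟩ g
  · rintro K ⟨P, hP⟩
    exact isPronormal_of_normalizer_le (H11.isSylIn_top P) ((hQ P).le.trans hP)
  · rintro K ⟨P, hP⟩
    have hf := QuotientGroup.mk'_surjective A
    refine le_antisymm (map_le_normalizer_map le_rfl _) fun g hg => map_mono le_normalizer ?_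
    have h1 : ((P.mapSurjective hf : Sylow p _) : Subgroup _) ≤ K.map (QuotientGroup.mk' A) :=
      map_mono hP
    obtain ⟨n, hn, h2⟩ := (H11.isSylIn_of_sylow_le _ h1).frattini hg
    rw [hQ] at h2
    simpa using mul_mem (inv_mem hn) (h1 h2)

end Cfsg.Agent.S4271
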