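import Cfsg.Agent.WA.Sm1
import Cfsg.Statements.S4273
-- import your own Cfsg.Agent.* helpers here

set_option autoImplicit false
open Cfsg

namespace Cfsg.Agent.S4273

theorem aux {K : Type*} [Group K] [Finite K] [IsSimpleGroup K] (h : Nat.card K = 175560) :
    ¬ IsMulCommutative K := fun c => by
  have := Group.is_simple_iff_prime_card.1 (inferInstance : IsSimpleGroup K)
  rw [h] at this
  norm_num at this

/-- Uniqueness of the simple group of order 175560: any two finite simple groups of order 175560 are isomorphic. -/
theorem result {G : Type*} {H : Type*} [Group G] [Finite G] [IsSimpleGroup G] [Group H] [Finite H] [IsSimpleGroup H] (hG : Nat.card G = 175560) (hH : Nat.card H = 175560) : Nonempty (G ≃* H) := by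
  obtain ⟨e⟩ := WA.j1_of_dvd (aux hG) (by omega) hG.dvd
  obtain ⟨f⟩ := WA.j1_of_dvd (aux hH) (by omega) hH.dvd
  exact ⟨e.trans f.symm⟩

end Cfsg.Agent.S4273
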