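import Cfsg.Agent.WA.Sm1
import Cfsg.Statements.S4274
-- import your own Cfsg.Agent.* helpers here

set_option autoImplicit false
open Cfsg

namespace Cfsg.Agent.S4274

open Subgroup Cfsg.Agent.H11 in
theorem aux.{u} (n : ℕ) : ∀ (G : Type u) [Group G] [Finite G], Nat.card G < n →
    Nat.card G ∣ 175560 →
    (IsSimpleGroup G ∧ Nat.card G = 175560) ∨ ∀ P : Sylow 19 G, (P : Subgroup G).Normal := by
  induction n with
  | zero => intro G _ _ h; omega
  | succ n ih =>
  intro G _ _ hn hd
  haveI : Fact (Nat.Prime 19) := ⟨by norm_num⟩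
  by_cases h19 : 19 ∣ Nat.card G
  swap
  · refine Or.inr fun P => ?_
    rw [P.2.card_eq_or_dvd.resolve_right (fun a => h19 (a.trans (card_subgroup_dvd_card _))) |>
      card_eq_one.1]
    infer_instance
  by_cases hs : IsSimpleGroup G
  · by_cases c : IsMulCommutative G
    · exact Or.inr fun P => inferInstance
    · exact Or.inl ⟨hs, (JR.isJ1_of_iso (WA.j1_of_dvd c h19 hd)).2⟩
  refine Or.inr fun P => ?_
  haveI : Nontrivial G := Finite.one_lt_card_iff_nontrivial.1
    (lt_of_lt_of_le (by omega) (Nat.le_of_dvd Nat.card_pos h19))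
  obtain ⟨N, hN, h0, h1⟩ : ∃ N : Subgroup G, N.Normal ∧ N ≠ ⊥ ∧ N ≠ ⊤ := by
    by_contra! a
    exact hs ⟨fun N hN => (em (N = ⊥)).imp_right (a N hN)⟩
  have c := N.card_mul_index
  have le := Nat.le_of_dvd (by omega) hd
  have l1 : Nat.card N < Nat.card G := by
    simpa using card_lt_of_lt (lt_top_iff_ne_top.2 h1)
  have l2 : Nat.card (G ⧸ N) < Nat.card G := by
    have := (one_lt_card_iff_ne_bot N).2 h0
    have p : 0 < N.index := Nat.pos_of_ne_zero index_ne_zero_of_finite
    rw [← index_eq_card]; nlinarith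
  have cP : Nat.card P = 19 := by
    obtain ⟨k, hk⟩ := P.2.exists_card_eq
    have a := (hk ▸ card_subgroup_dvd_card _).trans hd
    have b := P.pow_dvd_card_of_pow_dvd_card (n := 1) (by simpa using h19)
    rcases k with _ | _ | k
    · rw [hk] at b; omega
    · exact hk
    · have := (Nat.pow_dvd_pow 19 (show 2 ≤ k + 1 + 1 by omega)).trans a
      omega
  suffices ∃ M : Subgroup G, M.Normal ∧ (P : Subgroup G) ≤ M ∧
      M ≤ normalizer ((P : Subgroup G) : Set G) by
    obtain ⟨M, _, a, b⟩ := this
    have := P.normalizer_sup_eq_top' a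
    exact normalizer_eq_top_iff.1 ((sup_eq_left.2 b).symm.trans this)
  by_cases a : 19 ∣ Nat.card N
  · have hP : (P : Subgroup G) ≤ N := by
      have s := (isSylIn_top P).inf_of_normalized le_top (normalizer_eq_top N).ge
      have : 19 ∣ Nat.card ((P : Subgroup G) ⊓ N : Subgroup G) := by
        rw [s.card_eq_pow]
        exact dvd_pow_self _ (Nat.Prime.factorization_pos_of_dvd Fact.out Nat.card_pos.ne' a).ne'
      exact inf_eq_left.1 (eq_of_le_of_card_ge inf_le_left
        (cP.le.trans (Nat.le_of_dvd Nat.card_pos this)))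
    have := (ih N (by omega) ((card_subgroup_dvd_card N).trans hd)).resolve_left (by omega)
      (P.subtype hP)
    exact ⟨N, hN, hP, (normal_subgroupOf_iff_le_normalizer hP).1 this⟩
  have k := (ih (G ⧸ N) (by omega) ((card_quotient_dvd_card N).trans hd)).resolve_left (by omega)
    (P.mapSurjective (QuotientGroup.mk'_surjective N))
  refine ⟨_, k.comap (QuotientGroup.mk' N), le_comap_map _ _, ?_⟩
  change ((P : Subgroup G).map _).comap _ ≤ _
  rw [comap_map_eq, QuotientGroup.ker_mk']
  refine sup_le le_normalizer ((le_centralizer_iff.1 fun y hy => ?_).trans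
    (centralizer_le_normalizer _))
  have d : Nat.card N ∣ 9240 := ((Nat.Prime.coprime_iff_not_dvd Fact.out).2 a).symm.dvd_of_dvd_mul_left
    ((card_subgroup_dvd_card N).trans hd)
  rcases (Nat.dvd_prime Fact.out).1 (cP ▸ (P : Subgroup G).orderOf_dvd_natCard hy) with e | e
  · rw [orderOf_eq_one_iff.1 e]; exact one_mem _
  · have := WA.cent_of_small Fact.out e ((normalizer_eq_top N).ge trivial) a
      fun r k d' hr a1 a2 a3 => by
        have := WA.pp_le hr (a1.trans d)
        have := Nat.le_of_dvd (pow_pos hr.pos k) a2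
        unfold Nat.ModEq at a3
        omega
    exact fun x hx => mem_cent1.1 (this hx)

/-- A finite group of order 175560 = 2³·3·5·7·11·19 is either simple or has a normal Sylow 19-subgroup. -/
theorem result {G : Type*} [Group G] [Finite G] (hG : Nat.card G = 175560) : IsSimpleGroup G ∨ ∀ P : Sylow 19 G, (P : Subgroup G).Normal := by
  exact (aux _ G (Nat.lt_succ_self _) hG.dvd).imp_left And.left

end Cfsg.Agent.S4274
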