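import Cfsg.Statements.S4341
import Cfsg.Agent.H26.SylCount

set_option autoImplicit false
open Cfsg

namespace Cfsg.Agent.S4341


/-- Let K be a normal subgroup of a finite group G, p a prime and P a Sylow p-subgroup of G; let N be the normalizer of P ∩ K inside the subgroup PK. Then the number of Sylow p-subgroups of G equals the product of the numbers of Sylow p-subgroups of G/K, of K, and of N/(P ∩ K). (The normality of P ∩ K in N, which always holds, is assumed as a hypothesis so that the quotient can be formed.) -/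
theorem result {G : Type*} [Group G] [Finite G]
    (p : ℕ) [Fact p.Prime] (K : Subgroup G) [K.Normal] (P : Sylow p G) (N : Subgroup G)
    (hN : N = ((P : Subgroup G) ⊔ K) ⊓ Subgroup.normalizer (((P : Subgroup G) ⊓ K : Subgroup G) : Set G))
    [hn : (((P : Subgroup G) ⊓ K).subgroupOf N).Normal] :
    Nat.card (Sylow p G) =
      Nat.card (Sylow p (G ⧸ K)) * Nat.card (Sylow p K) * Nat.card (Sylow p (N ⧸ ((P : Subgroup G) ⊓ K).subgroupOf N)) := by
  set Q : Subgroup G := (P : Subgroup G) ⊓ K with hQ
  have hPQ : (P : Subgroup G) ≤ Subgroup.normalizer (Q : Set G) :=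
    H1.le_normalizer_inf Subgroup.le_normalizer Subgroup.le_normalizer_of_normal
  have hPN : (P : Subgroup G) ≤ N := hN ▸ le_inf le_sup_left hPQ
  have h1 : H1.IsSylowIn p Q K := (H1.isSylowIn_top P).inf le_top Subgroup.le_normalizer_of_normal
  have h2 := H1.isSylowIn_of_le P hPN
  obtain ⟨R, hR⟩ := h2.exists_sylow
  rw [H26.card_sylow_quotient _ R, H26.card_sylow_eq_relIndex h1, H26.card_sylow_eq_relIndex h2,
    H26.card_sylow_eq_mul K P, mul_assoc]
  · congr 1
    have h3 : N = (K ⊓ Subgroup.normalizer (Q : Set G)) ⊔ P := by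
      rw [hN, sup_comm (P : Subgroup G) K, H1.sup_inf_of_le_normalizer' Subgroup.le_normalizer_of_normal hPQ]
    have h4 : Subgroup.normalizer (P : Set G) ≤ Subgroup.normalizer (Q : Set G) :=
      H1.le_normalizer_inf le_rfl Subgroup.le_normalizer_of_normal
    have h5 := Subgroup.relIndex_inf_mul_relIndex (Subgroup.normalizer (P : Set G))
      (Subgroup.normalizer (Q : Set G)) K
    rw [inf_of_le_left h4] at h5
    rw [← h5, mul_comm]
    congr 1
    rw [← Subgroup.inf_relIndex_right _ N, ← Subgroup.inf_relIndex_right _ (_ ⊓ K), inf_comm _ K]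
    have h6 : Subgroup.normalizer (P : Set G) ⊓ N ≤ Subgroup.normalizer
        ((K ⊓ Subgroup.normalizer (Q : Set G) : Subgroup G) : Set G) :=
      H1.le_normalizer_inf Subgroup.le_normalizer_of_normal
        (H1.le_normalizer_normalizer (inf_le_left.trans h4))
    have h7 := H26.relIndex_sup_eq h6
    have h8 : K ⊓ Subgroup.normalizer (Q : Set G) ⊔ Subgroup.normalizer (P : Set G) ⊓ N = N :=
      le_antisymm (sup_le (h3 ▸ le_sup_left) inf_le_right)
        (h3.le.trans (sup_le_sup_left (le_inf Subgroup.le_normalizer hPN) _))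
    rw [h8] at h7
    refine Eq.trans ?_ h7.symm
    rw [← Subgroup.inf_relIndex_right (_ ⊓ N), inf_assoc,
      inf_of_le_right (h3 ▸ le_sup_left : K ⊓ Subgroup.normalizer (Q : Set G) ≤ N)]
  · refine le_trans (fun x hx => ?_) Subgroup.le_normalizer
    have : (x : G) ∈ (R : Subgroup N).map N.subtype := hR ▸ hx.1
    exact (Subgroup.mem_map_iff_mem N.subtype_injective).mp this

end Cfsg.Agent.S4341
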