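import Cfsg.Statements.S4303
import Cfsg.Agent.H26.SylCount
import Cfsg.Agent.S4341

set_option autoImplicit false
universe u
open Cfsg

namespace Cfsg.Agent.S4303

def Good (p n : ℕ) : Prop := ∃ l : List ℕ, l.prod = n ∧
      ∀ m ∈ l, (IsPrimePow m ∧ m % p = 1) ∨
        ∃ (S : Type u) (_ : Group S) (_ : Finite S), IsSimpleGroup S ∧ m = Nat.card (Sylow p S)

theorem Good.mul {p a b : ℕ} (ha : Good.{u} p a) (hb : Good.{u} p b) : Good.{u} p (a * b) := by
  obtain ⟨l, rfl, h⟩ := ha
  obtain ⟨l', rfl, h'⟩ := hb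
  exact ⟨l ++ l', List.prod_append, fun m hm => (List.mem_append.mp hm).elim (h m) (h' m)⟩

theorem good_of {p : ℕ} (hp : p.Prime) (n : ℕ) (hn : n ≠ 0)
    (h : ∀ l : ℕ, l.Prime → l ^ n.factorization l ≡ 1 [MOD p]) : Good.{u} p n := by
  refine ⟨(n.primeFactors.toList).map fun l => l ^ n.factorization l, ?_, fun m hm => Or.inl ?_⟩
  · rw [Finset.prod_map_toList]
    exact Nat.prod_factorization_pow_eq_self hn
  · obtain ⟨l, hl, rfl⟩ := List.mem_map.mp hm
    rw [Finset.mem_toList] at hl
    have hl' := Nat.prime_of_mem_primeFactors hl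
    refine ⟨hl'.isPrimePow.pow (hl'.factorization_pos_of_dvd hn (Nat.dvd_of_mem_primeFactors hl)).ne', ?_⟩
    rw [h l hl', Nat.mod_eq_of_lt hp.one_lt]

theorem aux (p : ℕ) [hp : Fact p.Prime] (G : Type u) [Group G] [Finite G] :
    Good.{u} p (Nat.card (Sylow p G)) := by
  refine H2.card_induction (P := fun G _ _ => Good.{u} p (Nat.card (Sylow p G))) ?_ G
  intro G _ _ ih
  rcases subsingleton_or_nontrivial G with h | h
  · have : Subsingleton (Sylow p G) := ⟨fun a b => Sylow.ext (Subsingleton.elim _ _)⟩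
    rw [Nat.card_of_subsingleton (default : Sylow p G)]
    exact ⟨[], rfl, by simp⟩
  by_cases hs : IsSimpleGroup G
  · exact ⟨[_], by simp, fun m hm => Or.inr ⟨G, _, inferInstance, hs, List.mem_singleton.mp hm⟩⟩
  obtain ⟨K, hK, h1, h2⟩ : ∃ K : Subgroup G, K.Normal ∧ K ≠ ⊥ ∧ K ≠ ⊤ := by
    by_contra hc
    refine hs ⟨fun K hK => ?_⟩
    by_contra h3
    rw [not_or] at h3
    exact hc ⟨K, hK, h3⟩
  obtain ⟨P⟩ : Nonempty (Sylow p G) := inferInstance
  have a1 := ih (G ⧸ K) (H1.card_quotient_lt h1)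
  by_cases hd : p ∣ Nat.card K
  · have hn : (((P : Subgroup G) ⊓ K).subgroupOf (((P : Subgroup G) ⊔ K) ⊓
        Subgroup.normalizer (((P : Subgroup G) ⊓ K : Subgroup G) : Set G))).Normal :=
      Subgroup.normal_subgroupOf_of_le_normalizer inf_le_right
    rw [S4341.result p K P _ rfl]
    refine (a1.mul (ih K (H1.card_lt_of_ne_top h2))).mul (ih _ ?_)
    refine lt_of_lt_of_le (H1.card_quotient_lt ?_) (Subgroup.card_le_card_group _)
    rw [Ne, Subgroup.subgroupOf_eq_bot, disjoint_iff,
      inf_of_le_left (le_inf (inf_le_left.trans le_sup_left) Subgroup.le_normalizer)]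
    exact ((H1.isSylowIn_top P).inf le_top Subgroup.le_normalizer_of_normal).ne_bot hd
  · rw [H26.card_sylow_eq_mul_of_not_dvd K P hd]
    exact a1.mul (good_of hp.out _ (H26.relIndex_ne_zero' _ _) fun l hl =>
      H26.pow_factorization_relIndex_modEq_one P.isPGroup' Subgroup.le_normalizer_of_normal hd hl)

/-- For a finite group `G` and a prime `p`, the number of Sylow `p`-subgroups of `G` is a product of natural numbers each of which is either a prime power congruent to 1 modulo `p` or the number of Sylow `p`-subgroups of some finite simple group. -/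
theorem result {G : Type u} [Group G] [Finite G]
    (p : ℕ) [Fact p.Prime] :
    ∃ l : List ℕ, l.prod = Nat.card (Sylow p G) ∧
      ∀ m ∈ l, (IsPrimePow m ∧ m % p = 1) ∨
        ∃ (S : Type u) (_ : Group S) (_ : Finite S), IsSimpleGroup S ∧ m = Nat.card (Sylow p S) := by
  exact aux p G

end Cfsg.Agent.S4303
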