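import Cfsg.Statements.S4314
import Cfsg.Agent.S4130
import Cfsg.Agent.H26.ClassSize
import Cfsg.Agent.H21.Base2

set_option autoImplicit false
open Cfsg

namespace Cfsg.Agent.S4314

open Subgroup Cfsg.Agent.H20 Cfsg.Agent.H21 Cfsg.Agent.H26

/-- Let `G` be a finite group every conjugacy class of which has size 1 or a prime. Then either `G` is nilpotent of class at most 2, or `G/Z(G)` is a non-abelian group of order `pq` for distinct primes `p, q` (a Frobenius group of order `pq`). -/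
theorem result {G : Type*} [Group G] [Finite G]
    (h : ∀ x : G, (Subgroup.centralizer ({x} : Set G)).index = 1 ∨ ((Subgroup.centralizer ({x} : Set G)).index).Prime) :
    Subgroup.upperCentralSeries G 2 = ⊤ ∨
      ∃ p q : ℕ, p.Prime ∧ q.Prime ∧ p ≠ q ∧ Nat.card (G ⧸ Subgroup.center G) = p * q ∧ ¬ IsMulCommutative (G ⧸ Subgroup.center G) := by
  refine or_iff_not_imp_left.mpr fun h0 => ?_
  have h1 : ¬ commutator G ≤ center G := fun h1 => h0 (eq_top_iff.mpr fun x _ =>
    Subgroup.mem_upperCentralSeries_succ_iff.mpr fun y => by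
      rw [Subgroup.upperCentralSeries_one]; exact h1 (commutator_mem_commutator (mem_top x) (mem_top y)))
  have h2 : ¬ IsMulCommutative (G ⧸ center G) := fun h2 => h1 (Normal.quotient_commutative_iff_commutator_le.mp h2)
  obtain ⟨-, -, -, h3, h4, -⟩ := S4130.result fun x : G => (h x).elim (fun e => e ▸ squarefree_one) fun e => e.prime.squarefree
  obtain ⟨c, hc⟩ := (isCyclic_iff_exists_zpowers_eq_top).mp h3
  replace hc : zpowers (c : G) = commutator G := by
    rw [← coe_subtype, ← MonoidHom.map_zpowers, hc, ← MonoidHom.range_eq_map, range_subtype]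
  rw [← hc, Nat.card_zpowers] at h4
  obtain ⟨q, hq, h5, ha⟩ : ∃ q : ℕ, q.Prime ∧ q ∣ orderOf (c : G) ∧ (c : G) ^ (orderOf (c : G) / q) ∉ center G := by
    by_contra h5
    push Not at h5
    exact h1 (hc ▸ zpowers_le.mpr (mem_of_forall_prime_pow fun q hq hd => ⟨_, fun e => hq.not_isUnit
      (h4 q (Nat.mul_dvd_of_dvd_div hd e)), h5 q hq hd⟩))
  have h6 := orderOf_pow_orderOf_div (orderOf_pos _).ne' h5
  haveI hn : (zpowers ((c : G) ^ (orderOf (c : G) / q))).Normal := ⟨by
    rintro _ ⟨i, rfl⟩ g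
    obtain ⟨k, hk⟩ := hc.ge (Normal.conj_mem inferInstance _ c.2 g)
    rw [← conj_zpow, ← conj_pow, ← hk]
    refine zpow_mem (mem_zpowers_iff.mpr ⟨k, ?_⟩) i
    simp only [← zpow_natCast, ← zpow_mul, mul_comm]⟩
  generalize (c : G) ^ (orderOf (c : G) / q) = a at *
  have hp : ∀ {x : G}, x ∉ center G → (C₁⟦x⟧).index.Prime := fun {x} hx =>
    (h x).resolve_left fun e => hx (index_cent_eq_one_iff.mp e)
  have hsup : ∀ {x u : G}, x ∉ center G → ∀ K, C₁⟦x⟧ ≤ K → u ∈ K → u ∉ C₁⟦x⟧ → K = ⊤ := fun {x u} hx K h7 h8 h9 =>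
    index_eq_one.mp (((hp hx).eq_one_or_self_of_dvd _ (index_dvd_of_le h7)).resolve_right fun e => h9 <|
      relIndex_eq_one.mp (Nat.eq_of_mul_eq_mul_right (hp hx).pos (by
        rw [one_mul]; conv_lhs => rw [← e]
        exact relIndex_mul_index h7)) h8)
  have h7 : ∀ {u : G}, u ∉ C₁⟦a⟧ → zpowers a ⊔ C₁⟦u⟧ = ⊤ ∧ zpowers a ⊓ C₁⟦u⟧ = ⊥ := fun {u} hu =>
    ⟨hsup (fun e => hu (center_le_cent a e)) _ le_sup_right (mem_sup_left (mem_zpowers a)) (mt mem_cent_comm.mp hu),
      (prime_inf_eq_bot_or_le (by rwa [Nat.card_zpowers, h6])).resolve_right fun e =>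
        hu (mem_cent_comm.mp (e (mem_zpowers a)))⟩
  obtain ⟨y, hy⟩ : ∃ y, y ∉ C₁⟦a⟧ := by simpa [eq_top_iff'] using mt cent_eq_top_iff.mp ha
  have h8 : center G = C₁⟦a⟧ ⊓ C₁⟦y⟧ := le_antisymm (le_inf (center_le_cent _) (center_le_cent _)) fun d hd =>
    cent_eq_top_iff.mp (eq_top_iff.mpr ((h7 hy).1.ge.trans (sup_le (zpowers_le.mpr (mem_cent_comm.mp hd.1))
      fun g hg => by
        obtain ⟨b, hb, x, hx, e⟩ := (mem_sup_of_norm' le_normalizer_of_normal).mp
          ((h7 (u := y * d) (by rwa [mul_mem_cancel_right (mem_inf.mp hd).1])).1.ge (mem_top g))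
        have h9 : g * (y * d) * g⁻¹ * (y * d)⁻¹ = 1 := mem_bot.mp ((h7 hy).2.le (mem_inf.mpr ⟨by
          rw [← e, mul_assoc b, H26.mem_cent.mp hx, show b * (y * d * x) * (b * x)⁻¹ * (y * d)⁻¹ =
            b * (y * d * b⁻¹ * (y * d)⁻¹) by group]
          exact mul_mem hb (hn.conj_mem _ (inv_mem hb) _), by
          have := mul_mem (mem_cent_self y) (mem_inf.mp hd).2
          exact mul_mem (mul_mem (mul_mem hg this) (inv_mem hg)) (inv_mem this)⟩))
        rw [mul_inv_eq_one, mul_inv_eq_iff_eq_mul, ← mul_assoc, H26.mem_cent.mp hg, mul_assoc, mul_assoc] at h9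
        exact H26.mem_cent.mpr (mul_left_cancel h9))))
  haveI : (C₁⟦a⟧).Normal := by
    rw [← centralizer_closure, ← zpowers_eq_closure]; infer_instance
  have h9 : Nat.card (G ⧸ center G) = (C₁⟦a⟧).index * q := by
    have e := card_sup_of_disjoint (.inr le_normalizer_of_normal) (h7 hy).2
    rw [(h7 hy).1, card_top, Nat.card_zpowers, h6, ← (C₁⟦y⟧).index_mul_card] at e
    rw [← index, h8, ← relIndex_mul_index inf_le_right, inf_relIndex_right, ← relIndex_sup_right,
      hsup ha _ le_sup_right (mem_sup_left (mem_cent_self y)) hy, relIndex_top_right,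
      Nat.eq_of_mul_eq_mul_right Nat.card_pos e]
  refine ⟨_, q, hp ha, hq, fun e => h2 ?_, h9, h2⟩
  haveI := Fact.mk hq
  exact IsPGroup.isMulCommutative_of_card_eq_prime_sq (p := q) (by rw [h9, e, sq])

end Cfsg.Agent.S4314
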