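import Cfsg.Statements.S4321
import Mathlib
import Cfsg.Agent.H2.CSz
import Cfsg.Agent.H1.Frattini
import Cfsg.Agent.H1.Coprime
import Cfsg.Agent.H3.PNil

set_option autoImplicit false
open Cfsg

namespace Cfsg.Agent.S4321

open Subgroup H2 H2.CS MulAction
open scoped Pointwise commutatorElement

variable {G : Type*} [Group G] [Finite G] {p : ℕ} [hp : Fact p.Prime]

theorem stab {d x : G} (hd : (cs d).Coprime (cs x)) (h : cs (d * x) ≤ cs x) :
    ∃ N : Subgroup G, Nat.card N ∣ cs x ∧ N ≤ centralizer {d} ∧ ∀ g, d⁻¹ * (g * d * g⁻¹) ∈ N := by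
  let N := stabilizer G (cl x)
  have hN : ∀ n, n ∈ N ↔ ∀ y ∈ cl x, n * y ∈ cl x := fun n =>
    mem_stabilizer_set_iff_smul_set_subset (Set.toFinite _) |>.trans
      ⟨fun h y hy => h ⟨y, hy, rfl⟩, by rintro h _ ⟨y, hy, rfl⟩; exact h y hy⟩
  have hc : ∀ y ∈ cl x, ∀ h, h * y * h⁻¹ ∈ cl x := by
    rintro _ ⟨k, rfl⟩ h
    exact ⟨h * k, by group⟩
  haveI hNn : N.Normal := ⟨fun n hn g => (hN _).2 fun y hy => by
    have := hc _ ((hN n).1 hn _ (hc y hy g⁻¹)) g
    convert this using 1; group⟩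
  have h1 : Nat.card N ∣ cs x := by
    rw [← ncard_cl]
    exact Pm.card_dvd_ncard_of_free N _ (fun g hg y hy => (hN g).1 hg y hy)
      fun g _ y _ e => mul_eq_right.1 e
  refine ⟨N, h1, le_cent_of_coprime N ((relIndex_dvd_card _ _).trans h1) hd, fun g => ?_⟩
  refine (hN _).2 fun y hy => ?_
  have e : (d * ·) '' cl x = cl (d * x) := Set.eq_of_subset_of_ncard_le
    (by rintro _ ⟨y, hy, rfl⟩; exact mul_mem_cl hd ⟨1, by simp⟩ hy)
    (by rwa [Set.ncard_image_of_injective _ (mul_right_injective d), ncard_cl, ncard_cl])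
  obtain ⟨z, hz, e'⟩ : _ ∈ (d * ·) '' cl x := e ▸ mul_mem_cl hd ⟨g, rfl⟩ hy
  rwa [mul_assoc, ← e', inv_mul_cancel_left]

theorem cs_ne (hZ : ¬ p ∣ Nat.card (center G)) {y : G} (hy : orderOf y = p) : cs y ≠ 1 := fun e =>
  hZ (hy ▸ orderOf_dvd_natCard _
    (mem_center_iff.2 fun g => mem_cent.1 (index_eq_one.1 e ▸ mem_top g)))

theorem dvd_of_stab (hZ : ¬ p ∣ Nat.card (center G)) {d x : G} (h0 : orderOf d = p)
    (hd : (cs d).Coprime (cs x)) (h : cs (d * x) ≤ cs x) :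
    p ∣ cs x ∧ ∀ g, Commute (g * d * g⁻¹) d := by
  obtain ⟨N, h1, h2, h3⟩ := stab hd h
  have k : ∀ g, Commute d (d⁻¹ * (g * d * g⁻¹)) := fun g => (mem_cent.1 (h2 (h3 g))).symm
  refine ⟨by_contra fun hn => cs_ne hZ h0 (index_eq_one.2 (eq_top_iff.2 fun g _ => ?_)),
    fun g => by simpa using ((Commute.refl d).mul_right (k g)).symm⟩
  have a1 := (k g).mul_pow p
  rw [mul_inv_cancel_left, conj_pow, ← h0, pow_orderOf_eq_one, h0, one_mul] at a1
  have a2 : d⁻¹ * (g * d * g⁻¹) = 1 := by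
    rw [← orderOf_eq_one_iff]
    refine Nat.eq_one_of_dvd_coprimes ((Nat.Prime.coprime_iff_not_dvd hp.out).2 hn) ?_
      ((orderOf_dvd_natCard _ (h3 g)).trans h1)
    exact orderOf_dvd_of_pow_eq_one (by rw [← a1]; simp)
  rw [mem_cent, ← mul_inv_eq_iff_eq_mul]
  exact (inv_mul_eq_one.1 a2).symm

theorem syl {D R : Subgroup G} (hD : ¬ p ∣ D.index) (hR : IsPGroup p R) (h : R ≤ D) :
    ∃ P : Sylow p G, R ≤ P ∧ (P : Subgroup G) ≤ D := by
  obtain ⟨Q, hQ⟩ := hR.comap_subtype.exists_le_sylow (P := R.comap D.subtype)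
  obtain ⟨P, hP⟩ := (Q.isPGroup'.map D.subtype).exists_le_sylow
  have e : (Q : Subgroup _).map D.subtype = P := by
    refine eq_of_le_of_card_ge hP ?_
    rw [card_subtype, Sylow.card_eq_multiplicity, Sylow.card_eq_multiplicity,
      ← D.index_mul_card, Nat.factorization_mul
      index_ne_zero_of_finite Nat.card_pos.ne', Finsupp.add_apply,
      Nat.factorization_eq_zero_of_not_dvd hD, zero_add]
  exact ⟨P, fun x hx => hP ⟨⟨x, h hx⟩, hQ hx, rfl⟩, e ▸ map_subtype_le _⟩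

theorem pz {t : G} (h : ∃ k, t ^ p ^ k = 1) : IsPGroup p (zpowers t) := by
  obtain ⟨k, hk⟩ := h
  rintro ⟨_, j, rfl⟩
  exact ⟨k, Subtype.ext (by
    change (t ^ j) ^ p ^ k = 1
    rw [← zpow_natCast, ← zpow_mul, mul_comm, zpow_mul, zpow_natCast, hk, one_zpow])⟩

theorem exists_conj (P : Sylow p G) {t : G} (h : ∃ k, t ^ p ^ k = 1) : ∃ g, g * t * g⁻¹ ∈ P := by
  obtain ⟨Q, hQ⟩ := (pz h).exists_le_sylow
  obtain ⟨g, rfl⟩ := exists_smul_eq G Q P
  exact ⟨g, smul_mem_pointwise_smul t (MulAut.conj g) _ (hQ (mem_zpowers t))⟩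

theorem key (hZ : ¬ p ∣ Nat.card (center G)) {y z : G} (hz : orderOf z = p) (h1 : ¬ p ∣ cs z)
    (h2 : ∀ g, Commute (g * z * g⁻¹) z) (hy : orderOf y = p) (h3 : p ∣ cs y)
    (H : ∀ g : G, p ∣ orderOf g → p ∣ cs g → (cs g).Coprime (cs z)) : False := by
  obtain ⟨P, -, hP⟩ := syl h1 IsPGroup.of_bot bot_le
  set M := normalClosure ({z} : Set G)
  have hM : ∀ c : G, (∀ g, Commute (g * z * g⁻¹) c) → c ∈ centralizer (M : Set G) := fun c h => by
    have : M ≤ centralizer {c} := (closure_le _).2 fun a ha => by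
      obtain ⟨_, rfl, e⟩ := Group.mem_conjugatesOfSet_iff.1 ha
      obtain ⟨g, rfl⟩ := isConj_iff.1 e
      exact mem_cent.2 (h g)
    exact fun m hm => mem_cent.1 (this hm)
  have hMc : M ≤ centralizer (M : Set G) := normalClosure_le_normal (by simpa using hM z h2)
  have hMp : IsPGroup p M := isPGroup_of_forall_pow_eq_one fun m hm => by
    induction hm using closure_induction with
    | mem a ha =>
      obtain ⟨_, rfl, e⟩ := Group.mem_conjugatesOfSet_iff.1 ha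
      obtain ⟨g, rfl⟩ := isConj_iff.1 e
      rw [conj_pow, ← hz, pow_orderOf_eq_one]; simp
    | one => simp
    | mul a b ha hb h h' => rw [Commute.mul_pow (hMc hb a ha), h, h', one_mul]
    | inv a _ h => rw [inv_pow, h, inv_one]
  have H' : ∀ t : G, (∃ k, t ^ p ^ k = 1) → p ∣ cs t → (cs t).Coprime (cs z) := fun t ⟨k, hk⟩ h => by
    refine H t ?_ h
    obtain ⟨j, -, e⟩ := (Nat.dvd_prime_pow hp.out).1 (orderOf_dvd_of_pow_eq_one hk)
    rw [e]
    refine dvd_pow_self p fun h0 => ?_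
    rw [h0, pow_zero, orderOf_eq_one_iff] at e
    rw [e, cs, centralizer_eq_top_iff_subset.2 (by simp), index_top] at h
    exact hp.out.one_lt.ne' (Nat.dvd_one.1 h)
  have hK : ∀ t : G, (∃ k, t ^ p ^ k = 1) → t ∈ centralizer (M : Set G) := fun t ht => by
    by_cases h : p ∣ cs t
    · obtain ⟨u, hu⟩ := exists_conj P ht
      suffices u * t * u⁻¹ ∈ centralizer (M : Set G) by
        simpa [mul_assoc] using Normal.conj_mem inferInstance _ this u⁻¹
      refine hM _ fun g => ?_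
      obtain ⟨a, ha, b, hb, rfl⟩ := (fac_of_coprime_index (cs_conj t u ▸ H' t ht h :
        (cs (u * t * u⁻¹)).Coprime (cs z))).top g
      have e1 : Commute a (u * t * u⁻¹) := mem_cent.1 ha
      have e2 : Commute z (u * t * u⁻¹) := (mem_cent.1 (hP hu)).symm
      rw [show a * b * z * (a * b)⁻¹ = a * (b * z * b⁻¹) * a⁻¹ by group, mem_cent.1 hb,
        mul_inv_cancel_right]
      exact (e1.mul_left e2).mul_left e1.inv_left
    · obtain ⟨Q, -, hQ⟩ := syl h IsPGroup.of_bot bot_le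
      exact fun m hm => mem_cent.1 (hQ (hMp.le_sylow_of_normal Q hm))
  have hzM : z ∈ M := subset_normalClosure rfl
  have hKz : ∀ t : G, (∃ k, t ^ p ^ k = 1) → t ∈ centralizer {z} := fun t ht =>
    mem_cent.2 (hK t ht z hzM).symm
  have pw : ∀ (Q : Sylow p G), ∀ t ∈ Q, ∃ k, t ^ p ^ k = 1 := fun Q t ht =>
    (Q.isPGroup' ⟨t, ht⟩).imp fun k e => congrArg Subtype.val e
  have hC : centralizer {z} ≤ centralizer ((P : Subgroup G) : Set G) ⊔ P := by
    rw [← subgroupOf_eq_top]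
    by_contra hn
    obtain ⟨⟨g, hg⟩, h⟩ := Pm.exists_not_conj_mem hn
    obtain ⟨a, b, ha, hb, h4, h5, e⟩ := H3.exists_p_part p g
    have hbz : Commute z b := (mem_cent.1 (zpowers_le.2 hg hb)).symm
    have h6 : (orderOf z).Coprime (orderOf b) := hz ▸ h5.symm
    have h7 : centralizer {z * b} ≤ centralizer {z} ⊓ centralizer {b} := fun x hx => by
      have k : ∀ u ∈ zpowers (z * b), x ∈ centralizer {u} := by
        rintro _ ⟨j, rfl⟩
        exact mem_cent.2 (Commute.zpow_right (mem_cent.1 hx) j)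
      have k2 : z ∈ zpowers (z * b) := by
        refine zpowers_le.2 (pow_mem (mem_zpowers _) (orderOf b)) ?_
        rw [hbz.mul_pow, pow_orderOf_eq_one, mul_one]
        exact mem_zpowers_pow_iff.2 h6.symm
      exact ⟨k _ k2, k _ (by simpa using mul_mem (inv_mem k2) (mem_zpowers _))⟩
    have h8 : ¬ p ∣ cs (z * b) := fun e => cs_ne hZ hz (Nat.Coprime.eq_one_of_dvd (H _ (by
      rw [hbz.orderOf_mul_eq_mul_orderOf_of_coprime h6, hz]; exact dvd_mul_right _ _) e).symm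
      (index_dvd_of_le (h7.trans inf_le_left)))
    obtain ⟨Q, q1, q2⟩ := syl h8 (pz h4) (zpowers_le.2 (mem_cent.2 (Commute.mul_right
      (mem_cent.1 (zpowers_le.2 hg ha)) (mul_comm_of_mem ha hb))))
    have q3 := q2.trans (h7.trans inf_le_left)
    obtain ⟨u, hu⟩ := exists_smul_eq (centralizer ({z} : Set G)) (P.subtype hP) (Q.subtype q3)
    rw [Sylow.smul_subtype] at hu
    obtain rfl := Sylow.subtype_injective hu
    have q4 : ∀ x : G, x ∈ P → (u : G) * x * (u : G)⁻¹ ∈ (u • P : Sylow p G) := fun x hx =>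
      smul_mem_pointwise_smul x (MulAut.conj (u : G)) _ hx
    refine h u (mem_subgroupOf.2 ?_)
    change (u : G)⁻¹ * g * u ∈ _
    rw [e, mul_comm_of_mem ha hb,
      show (u : G)⁻¹ * (b * a) * u = ((u : G)⁻¹ * b * u) * ((u : G)⁻¹ * a * u) by group]
    refine mul_mem (mem_sup_left fun x hx => ?_) (mem_sup_right ?_)
    · have := mem_cent.1 (h7 (q2 (q4 x hx))).2
      calc _ = (u : G)⁻¹ * (u * x * (u : G)⁻¹ * b) * u := by group
        _ = _ := by rw [this]; group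
    · simpa using mem_pointwise_smul_iff_inv_smul_mem.1 (q1 (mem_zpowers a))
  have hCN : centralizer {z} ≤ normalizer ((P : Subgroup G) : Set G) :=
    hC.trans (sup_le (centralizer_le_normalizer _) le_normalizer)
  have hPt : ∀ t : G, (∃ k, t ^ p ^ k = 1) → t ∈ P := fun t ht => by
    have := (P.is_maximal' (P.isPGroup'.to_sup_of_normal_left' (pz ht)
      (zpowers_le.2 (hCN (hKz t ht)))) le_sup_left)
    exact this.le (mem_sup_right (mem_zpowers t))
  haveI hPn : (P : Subgroup G).Normal := ⟨fun t ht g => hPt _ ((pw P t ht).imp fun k e => by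
    rw [conj_pow, e]; simp)⟩
  have hcom : ∀ t ∈ P, p ∣ cs t → ∀ g, ⁅t, g⁆ ∈ ⁅(P : Subgroup G), (P : Subgroup G)⁆ :=
    fun t ht h g => by
    obtain ⟨b, hb, a, ha, rfl⟩ := (fac_of_coprime_index (H' t (pw P t ht) h)).symm.top g
    have := hC hb
    rw [← SetLike.mem_coe, mul_normal] at this
    obtain ⟨c, hc, d, hd, rfl⟩ := this
    have e1 := hc _ (mul_mem (mul_mem hd (inv_mem ht)) (inv_mem hd))
    have e2 : a * t⁻¹ * a⁻¹ = t⁻¹ := by
      rw [show a * t⁻¹ * a⁻¹ = (a * t * a⁻¹)⁻¹ by group, mem_cent.1 ha]; group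
    convert commutator_mem_commutator ht hd using 1
    calc _ = t * (c * (d * (a * t⁻¹ * a⁻¹) * d⁻¹)) * c⁻¹ := by
          rw [commutatorElement_def]; group
      _ = _ := by rw [e2, ← e1, commutatorElement_def]; group
  have hd : ∀ t ∈ P, ¬ (P : Subgroup G) ≤ centralizer {t} → p ∣ cs t := fun t ht h => by
    obtain ⟨k, hk⟩ := P.isPGroup'.index ((centralizer {t}).subgroupOf P)
    refine .trans ?_ (relIndex_dvd_index_of_normal_right _ (P : Subgroup G))
    rw [relIndex, hk]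
    exact dvd_pow_self p fun e => h (by rwa [e, pow_zero, index_eq_one, subgroupOf_eq_top] at hk)
  have hyP : y ∈ P := hPt y ⟨1, by rw [pow_one, ← hy, pow_orderOf_eq_one]⟩
  have hcom' : ∀ t ∈ P, ∀ g, ⁅t, g⁆ ∈ ⁅(P : Subgroup G), (P : Subgroup G)⁆ := fun t ht g => by
    by_cases h : (P : Subgroup G) ≤ centralizer {t}
    swap
    · exact hcom t ht (hd t ht h) g
    have a1 := hcom _ (mul_mem hyP ht) (hd _ (mul_mem hyP ht) fun e => P.not_dvd_index
      (h3.trans (index_dvd_of_le fun x hx => mem_cent.2 (mul_right_cancel (b := t) (by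
        rw [mul_assoc, mem_cent.1 (e hx), mul_assoc, ← mem_cent.1 (h hx), mul_assoc]))))) g
    have := Normal.conj_mem inferInstance _ (mul_mem a1 (inv_mem (hcom y hyP h3 g))) y⁻¹
    convert this using 1
    simp only [commutatorElement_def]; group
  refine cs_ne hZ hz (index_eq_one.2 (eq_top_iff.2 fun g _ => ?_))
  obtain ⟨a, b, -, -, h4, h5, rfl⟩ := H3.exists_p_part p g
  refine mul_mem (hKz a h4) (mem_cent.2 ?_)
  have := H1.le_centralizer_of_commutator_le_frattini (A := zpowers b) (K := P)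
    (le_normalizer_of_normal' _ _) (by
      obtain ⟨k, hk⟩ := IsPGroup.iff_card.1 (P.isPGroup'.to_subgroup (frattini P))
      rw [Nat.card_zpowers, hk]; exact h5.pow_right k)
    (.trans (commutator_le.2 fun t ht g _ => hcom' t ht g)
      (H1.commutator_le_map_frattini P.isPGroup'.isNilpotent))
  exact (this (mem_zpowers b) z (hPt z ⟨1, by rw [pow_one, ← hz, pow_orderOf_eq_one]⟩)).symm

theorem walk (hZ : ¬ p ∣ Nat.card (center G)) {y z : G} (hy : orderOf y = p) (hz : orderOf z = p)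
    (hc : (cs y).Coprime (cs z)) (h1 : ¬ p ∣ cs z) : ∃ t u : ℕ, t.Prime ∧ u.Prime ∧ t ∣ cs y ∧
      u ∣ cs z ∧ ∃ g : G, p ∣ orderOf g ∧ t ∣ cs g ∧ u ∣ cs g := by
  obtain ⟨P, -, hP⟩ := syl h1 IsPGroup.of_bot bot_le
  obtain ⟨k, hk⟩ := exists_conj P (t := y) ⟨1, by rw [pow_one, ← hy, pow_orderOf_eq_one]⟩
  rw [← cs_conj y k] at hc ⊢
  replace hy : orderOf (k * y * k⁻¹) = p := by
    rw [← hy]; exact orderOf_injective (MulAut.conj k).toMonoidHom (MulAut.conj k).injective y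
  generalize k * y * k⁻¹ = y at *
  have e : Commute y z := mem_cent.1 (hP hk)
  have h2 : orderOf (y * z) = p := by
    refine orderOf_eq_prime (by rw [e.mul_pow, ← hy, pow_orderOf_eq_one, hy, ← hz,
      pow_orderOf_eq_one, one_mul]) fun h => cs_ne hZ hy (Nat.Coprime.eq_one_of_dvd hc
        (index_dvd_of_le fun x hx => mem_cent.2 ?_))
    rw [eq_inv_of_mul_eq_one_left h]
    exact Commute.inv_right (mem_cent.1 hx)
  have h3 : cs (y * z) ∣ cs y * cs z := by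
    refine (index_dvd_of_le (H := centralizer {y} ⊓ centralizer {z}) fun x hx => mem_cent.2
      (Commute.mul_right (mem_cent.1 hx.1) (mem_cent.1 hx.2))).trans ?_
    rw [le_antisymm index_inf_le (Nat.le_of_dvd (Nat.pos_of_ne_zero index_ne_zero_of_finite)
      (hc.mul_dvd_of_dvd_of_dvd (index_dvd_of_le inf_le_left) (index_dvd_of_le inf_le_right)))]
  by_cases c1 : (cs (y * z)).Coprime (cs y)
  · exact absurd (dvd_of_stab hZ hy hc (Nat.le_of_dvd (Nat.pos_of_ne_zero index_ne_zero_of_finite)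
      (c1.dvd_of_dvd_mul_left h3))).1 h1
  by_cases c2 : (cs (y * z)).Coprime (cs z)
  · obtain ⟨a1, a2⟩ := dvd_of_stab hZ hz hc.symm (by
      rw [← e.eq]
      exact Nat.le_of_dvd (Nat.pos_of_ne_zero index_ne_zero_of_finite) (c2.dvd_of_dvd_mul_right h3))
    by_contra hn
    refine key hZ hz h1 a2 hy a1 fun g g1 g2 => by_contra fun h => ?_
    obtain ⟨u, u1, u2, u3⟩ := Nat.Prime.not_coprime_iff_dvd.1 h
    exact hn ⟨p, u, hp.out, u1, a1, u3, g, g1, g2, u2⟩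
  obtain ⟨t, t1, t2, t3⟩ := Nat.Prime.not_coprime_iff_dvd.1 c1
  obtain ⟨u, u1, u2, u3⟩ := Nat.Prime.not_coprime_iff_dvd.1 c2
  exact ⟨t, u, t1, u1, t3, u3, y * z, h2.symm.dvd, t2, u2⟩

theorem exists_ord {x : G} (h : p ∣ orderOf x) : ∃ y : G, orderOf y = p ∧ cs y ∣ cs x :=
  ⟨x ^ (orderOf x / p), orderOf_pow_orderOf_div (orderOf_pos x).ne' h,
    index_dvd_of_le fun _ hg => mem_cent.2 (Commute.pow_right (mem_cent.1 hg) _)⟩

/-- Let `G` be a finite group and `p` a prime not dividing the order of the centre of `G`. Consider the primes dividing the size of some conjugacy class of a `p`-singular element (an element of order divisible by `p`), two of them adjacent when their product divides such a class size. Then any two distinct such primes are joined by a path with at most 3 edges (the graph is connected of diameter at most 3). -/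
theorem result {G : Type*} [Group G] [Finite G] (p : ℕ) [Fact p.Prime]
    (hZ : ¬ p ∣ Nat.card ↥(Subgroup.center G)) (r s : ℕ) (hr : (r.Prime ∧ ∃ x : G, p ∣ orderOf x ∧ r ∣ (Subgroup.centralizer ({x} : Set G)).index)) (hs : (s.Prime ∧ ∃ x : G, p ∣ orderOf x ∧ s ∣ (Subgroup.centralizer ({x} : Set G)).index)) (hrs : r ≠ s) :
    (∃ x : G, p ∣ orderOf x ∧ r * s ∣ (Subgroup.centralizer ({x} : Set G)).index) ∨ (∃ t : ℕ, (t.Prime ∧ ∃ x : G, p ∣ orderOf x ∧ t ∣ (Subgroup.centralizer ({x} : Set G)).index) ∧ t ≠ r ∧ t ≠ s ∧ (∃ x : G, p ∣ orderOf x ∧ r * t ∣ (Subgroup.centralizer ({x} : Set G)).index) ∧ (∃ x : G, p ∣ orderOf x ∧ t * s ∣ (Subgroup.centralizer ({x} : Set G)).index)) ∨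
      (∃ t u : ℕ, (t.Prime ∧ ∃ x : G, p ∣ orderOf x ∧ t ∣ (Subgroup.centralizer ({x} : Set G)).index) ∧ (u.Prime ∧ ∃ x : G, p ∣ orderOf x ∧ u ∣ (Subgroup.centralizer ({x} : Set G)).index) ∧ t ≠ r ∧ u ≠ s ∧ t ≠ u ∧ (∃ x : G, p ∣ orderOf x ∧ r * t ∣ (Subgroup.centralizer ({x} : Set G)).index) ∧ (∃ x : G, p ∣ orderOf x ∧ t * u ∣ (Subgroup.centralizer ({x} : Set G)).index) ∧ (∃ x : G, p ∣ orderOf x ∧ u * s ∣ (Subgroup.centralizer ({x} : Set G)).index)) := by
  let R : ℕ → ℕ → Prop := fun a b => ∃ g : G, p ∣ orderOf g ∧ a ∣ cs g ∧ b ∣ cs g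
  obtain ⟨t, u, ht, hu, h1, h2, h3⟩ :
      ∃ t u : ℕ, t.Prime ∧ u.Prime ∧ R r t ∧ R t u ∧ R u s := by
    obtain ⟨-, x, x1, x2⟩ := hr
    obtain ⟨-, x', x1', x2'⟩ := hs
    obtain ⟨y, hy, e⟩ := exists_ord x1
    obtain ⟨z, hz, e'⟩ := exists_ord x1'
    by_cases hc : (cs y).Coprime (cs z)
    swap
    · obtain ⟨t, t1, t2, t3⟩ := Nat.Prime.not_coprime_iff_dvd.1 hc
      exact ⟨t, t, t1, t1, ⟨x, x1, x2, t2.trans e⟩, ⟨x, x1, t2.trans e, t2.trans e⟩,
        ⟨x', x1', t3.trans e', x2'⟩⟩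
    by_cases h : p ∣ cs z
    · obtain ⟨t, u, t1, u1, t2, u2, g, g1, g2, g3⟩ := walk hZ hz hy hc.symm fun h' =>
        (Fact.out : p.Prime).one_lt.ne' (Nat.eq_one_of_dvd_coprimes hc h' h)
      exact ⟨u, t, u1, t1, ⟨x, x1, x2, u2.trans e⟩, ⟨g, g1, g3, g2⟩, ⟨x', x1', t2.trans e', x2'⟩⟩
    · obtain ⟨t, u, t1, u1, t2, u2, g⟩ := walk hZ hy hz hc h
      exact ⟨t, u, t1, u1, ⟨x, x1, x2, t2.trans e⟩, g, ⟨x', x1', u2.trans e', x2'⟩⟩
  have A : ∀ {a b : ℕ}, a.Prime → b.Prime → a ≠ b → R a b →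
      ∃ g : G, p ∣ orderOf g ∧ a * b ∣ cs g := fun ha hb hab ⟨g, h0, h1, h2⟩ =>
    ⟨g, h0, ((Nat.coprime_primes ha hb).2 hab).mul_dvd_of_dvd_of_dvd h1 h2⟩
  have V : ∀ {a b : ℕ}, R a b → ∃ g : G, p ∣ orderOf g ∧ a ∣ cs g := fun ⟨g, h0, h, _⟩ => ⟨g, h0, h⟩
  by_cases d1 : R r s
  · exact .inl (A hr.1 hs.1 hrs d1)
  by_cases d2 : ∃ t : ℕ, t.Prime ∧ R r t ∧ R t s
  · obtain ⟨t, ht, a, b⟩ := d2
    have e1 : t ≠ r := fun e => d1 (e ▸ b)
    have e2 : t ≠ s := fun e => d1 (e ▸ a)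
    exact .inr (.inl ⟨t, ⟨ht, V b⟩, e1, e2, A hr.1 ht e1.symm a, A ht hs.1 e2 b⟩)
  have e1 : t ≠ r := fun e => d2 ⟨u, hu, e ▸ h2, h3⟩
  have e2 : u ≠ s := fun e => d2 ⟨t, ht, h1, e ▸ h2⟩
  have e3 : t ≠ u := fun e => d2 ⟨t, ht, h1, e ▸ h3⟩
  exact .inr (.inr ⟨t, u, ⟨ht, V h2⟩, ⟨hu, V h3⟩, e1, e2, e3, A hr.1 ht e1.symm h1,
    A ht hu e3 h2, A hu hs.1 e2 h3⟩)

end Cfsg.Agent.S4321
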