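import Cfsg.Statements.S4330
import Cfsg.Agent.H7.Av2
-- import your own Cfsg.Agent.* helpers here

set_option autoImplicit false
open Pointwise
open Cfsg

namespace Cfsg.Agent.S4330


/-- Let G be a finite solvable group, p an odd prime and A a p-subgroup of G such that every conjugacy class of G contains an element g for which A is subnormal in the subgroup generated by A and its conjugate by g. Then A is contained in O_p(G). (The hypothesis that p is odd is needed.) -/
theorem result {G : Type*} [Group G] [Finite G]
    (hG : Group.IsSolvable G) (p : ℕ) [Fact p.Prime] (hp : p ≠ 2) (A : Subgroup G) (hA : IsPGroup p A)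
    (h : ∀ c : G, ∃ g : G, IsConj c g ∧ (A.subgroupOf (A ⊔ MulAut.conj g • A)).IsSubnormal) :
    A ≤ Cfsg.pCore p G := by
  refine Cfsg.Agent.H7.le_pCore_of_forall_conj hp _ G rfl hG A fun c => ?_
  obtain ⟨g, hg, h1⟩ := h c
  obtain ⟨R, hR, hAR, hn⟩ := (Cfsg.Agent.H26.subnormal_sup_iff hA).mp h1
  exact ⟨g, hg, (IsPGroup.to_sup_of_normal_left' hR (Cfsg.Agent.H3.isPGroup_conj_smul hA g) hn).to_le
    (sup_le_sup_right hAR _)⟩

end Cfsg.Agent.S4330
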