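import Cfsg.Statements.S4331
import Cfsg.Agent.H1.Cores
import Cfsg.Agent.H2.Subnormal
import Cfsg.Agent.H4.Burnside

set_option autoImplicit false
open Cfsg

namespace Cfsg.Agent.S4331

structure SD where
  a : ZMod 8
  e : ZMod 2
  deriving DecidableEq, Fintype

instance : Mul SD := ⟨fun x y => ⟨x.a + (if x.e = 0 then y.a else 3 * y.a), x.e + y.e⟩⟩
instance : One SD := ⟨⟨0, 0⟩⟩
instance : Inv SD := ⟨fun x => ⟨if x.e = 0 then -x.a else -3 * x.a, x.e⟩⟩

instance : Group SD := Group.ofLeftAxioms (by decide +kernel) (by decide +kernel) (by decide +kernel)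

structure V where
  x : ZMod 3
  y : ZMod 3
  deriving DecidableEq, Fintype

instance : Mul V := ⟨fun u v => ⟨u.x + v.x, u.y + v.y⟩⟩
instance : One V := ⟨⟨0, 0⟩⟩
instance : Inv V := ⟨fun u => ⟨-u.x, -u.y⟩⟩

instance : Group V := Group.ofLeftAxioms (by decide +kernel) (by decide +kernel) (by decide +kernel)

def om (v : V) : V := ⟨v.x - v.y, v.x + v.y⟩

instance : SMul SD V := ⟨fun s v => om^[s.a.val] (if s.e = 0 then v else ⟨v.x, -v.y⟩)⟩

instance : MulDistribMulAction SD V where
  one_smul := by decide +kernel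
  mul_smul := by decide +kernel
  smul_mul := by decide +kernel
  smul_one := by decide +kernel

abbrev GG := V ⋊[MulDistribMulAction.toMulAut SD V] SD

def t : GG := ⟨1, ⟨0, 1⟩⟩

theorem key : ∀ (v : V) (s : SD), ∃ (w : V) (r : SD),
    ((⟨w, r⟩ : GG) * ⟨v, s⟩ * (⟨w, r⟩ : GG)⁻¹).left = 1 ∨
      t * ((⟨w, r⟩ : GG) * ⟨v, s⟩ * (⟨w, r⟩ : GG)⁻¹) = ((⟨w, r⟩ : GG) * ⟨v, s⟩ * (⟨w, r⟩ : GG)⁻¹) * t := by
  decide +kernel

instance : Finite GG := Finite.of_equiv _ SemidirectProduct.equivProd.symm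

theorem card_GG : Nat.card GG = 2 ^ 4 * 3 ^ 2 := by
  rw [Nat.card_congr SemidirectProduct.equivProd, Nat.card_prod, Nat.card_eq_fintype_card,
    Nat.card_eq_fintype_card]
  rfl

/-- There is a finite solvable group G with a subgroup A of order 2 such that every conjugacy class of G contains an element g for which A is subnormal in the subgroup generated by A and g, and yet A is not contained in O_2(G). (So the corresponding criteria for odd primes fail at the prime 2, even for solvable groups.) -/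
theorem result :
    ∃ (G : Type) (_ : Group G) (_ : Finite G) (A : Subgroup G), Group.IsSolvable G ∧ Nat.card A = 2 ∧
      (∀ c : G, ∃ g : G, IsConj c g ∧ (A.subgroupOf (A ⊔ Subgroup.zpowers g)).IsSubnormal) ∧
      ¬ A ≤ Cfsg.pCore 2 G := by
  refine ⟨GG, inferInstance, inferInstance, Subgroup.zpowers t,
    H4.burnside_pq Nat.prime_two Nat.prime_three card_GG, ?_, fun c => ?_, fun h => ?_⟩
  · rw [Nat.card_zpowers]; exact orderOf_eq_prime (by decide +kernel) (by decide +kernel)
  · obtain ⟨v, s⟩ := c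
    obtain ⟨w, r, h⟩ := key v s
    refine ⟨_, isConj_iff.2 ⟨⟨w, r⟩, rfl⟩, ?_⟩
    generalize (⟨w, r⟩ : GG) * ⟨v, s⟩ * (⟨w, r⟩ : GG)⁻¹ = g at h
    rcases h with h | h
    · have h1 : IsPGroup 2 (SemidirectProduct.inr : SD →* GG).range :=
        (IsPGroup.of_card (n := 4) (by rw [Nat.card_eq_fintype_card]; rfl)).of_surjective _
          (MonoidHom.rangeRestrict_surjective _)
      have h2 : Subgroup.zpowers t ⊔ Subgroup.zpowers g ≤ (SemidirectProduct.inr : SD →* GG).range :=
        sup_le (Subgroup.zpowers_le_of_mem ⟨⟨0, 1⟩, rfl⟩)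
          (Subgroup.zpowers_le_of_mem ⟨g.right, SemidirectProduct.ext h.symm rfl⟩)
      haveI := (h1.to_le h2).isNilpotent
      exact H2.isSubnormal_of_isNilpotent _
    · refine Subgroup.Normal.isSubnormal ((Subgroup.normal_subgroupOf_iff_le_normalizer le_sup_left).2
        (sup_le Subgroup.le_normalizer (Subgroup.zpowers_le_of_mem
          (Subgroup.centralizer_le_normalizer _ ?_))))
      rintro _ ⟨m, rfl⟩
      exact (Commute.zpow_left h m).eq
  · have ht := h (Subgroup.mem_zpowers t)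
    have hN : (pCore 2 GG).Normal := inferInstance
    have h2 := Subgroup.mul_mem _ ht (hN.conj_mem _ ht ⟨⟨0, 1⟩, 1⟩)
    obtain ⟨k, hk⟩ := H1.isPGroup_pCore 2 GG ⟨_, h2⟩
    have hk2 : (t * (⟨⟨0, 1⟩, 1⟩ * t * (⟨⟨0, 1⟩, 1⟩ : GG)⁻¹)) ^ 2 ^ k = 1 := congrArg Subtype.val hk
    have hk' := orderOf_dvd_of_pow_eq_one hk2
    rw [orderOf_eq_prime (p := 3) (by decide +kernel) (by decide +kernel)] at hk'
    exact absurd (Nat.prime_three.dvd_of_dvd_pow hk') (by decide)

end Cfsg.Agent.S4331
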