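import Cfsg.Statements.S4332
import Cfsg.Agent.H1.Cores
import Cfsg.Agent.H2.Basic

set_option autoImplicit false
open Pointwise
open Cfsg

namespace Cfsg.Agent.S4332

open Equiv Equiv.Perm

def ok (a : Fin 8 → Fin 8) : Prop := ∃ x y z : Fin 8, x ≠ y ∧ x ≠ z ∧ y ≠ z ∧
  ∀ u, (swap x y * swap x z) ((swap (a x) (a y) * swap (a x) (a z)) u) =
    (swap (a x) (a y) * swap (a x) (a z)) ((swap x y * swap x z) u)

instance (a : Fin 8 → Fin 8) : Decidable (ok a) := by unfold ok; infer_instance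

set_option synthInstance.maxSize 4096 in
set_option synthInstance.maxHeartbeats 400000 in
theorem key : ∀ a0 : Fin 8, a0.1 ≤ 1 → ∀ a1 : Fin 8, a1.1 ≤ 2 → a1 ∉ [a0] → ∀ a2 : Fin 8, a2.1 ≤ 3 → a2 ∉ [a0, a1] →
  ∀ a3 : Fin 8, a3.1 ≤ 4 → a3 ∉ [a0, a1, a2] → ∀ a4 : Fin 8, a4.1 ≤ 5 → a4 ∉ [a0, a1, a2, a3] →
  ∀ a5 : Fin 8, a5.1 ≤ 6 → a5 ∉ [a0, a1, a2, a3, a4] → ∀ a6 : Fin 8, a6 ∉ [a0, a1, a2, a3, a4, a5] →
  ∀ a7 : Fin 8, a7 ∉ [a0, a1, a2, a3, a4, a5, a6] → ok ![a0, a1, a2, a3, a4, a5, a6, a7] := by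
  decide +kernel

theorem canon (c : Perm (Fin 8)) (k : ℕ) (hk : k ≤ 6) :
    ∃ d : Perm (Fin 8), IsConj c d ∧ ∀ i : Fin 8, i.1 < k → (d i).1 ≤ i.1 + 1 := by
  induction k with
  | zero => exact ⟨c, IsConj.refl c, fun i hi => absurd hi (Nat.not_lt_zero _)⟩
  | succ k ih =>
    obtain ⟨d, hd, h⟩ := ih (by omega)
    have hk8 : k < 8 := by omega
    by_cases h1 : (d ⟨k, hk8⟩).1 ≤ k + 1
    · refine ⟨d, hd, fun i hi => ?_⟩
      by_cases h2 : i.1 < k
      · exact h i h2
      · obtain rfl : i = ⟨k, hk8⟩ := Fin.ext (by simp; omega)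
        exact h1
    · set s := swap (⟨k + 1, by omega⟩ : Fin 8) (d ⟨k, hk8⟩) with hs
      have fix : ∀ j : Fin 8, j.1 ≤ k → s j = j := fun j hj =>
        swap_apply_of_ne_of_ne (fun e => by rw [e] at hj; simp at hj) (fun e => by rw [e] at hj; omega)
      refine ⟨s * d * s⁻¹, hd.trans (isConj_iff.2 ⟨s, rfl⟩), fun i hi => ?_⟩
      have e : (s * d * s⁻¹) i = s (d i) := by
        rw [hs, swap_inv, ← hs, Perm.mul_apply, Perm.mul_apply, fix i (by omega)]
      rw [e]
      by_cases h2 : i.1 < k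
      · have := h i h2
        rw [fix _ (by omega)]; exact this
      · obtain rfl : i = ⟨k, hk8⟩ := Fin.ext (by simp; omega)
        rw [hs, swap_apply_right]

theorem exists_comm (c : Perm (Fin 8)) :
    ∃ d τ : Perm (Fin 8), IsConj c d ∧ τ.IsThreeCycle ∧ Commute τ (d * τ * d⁻¹) := by
  obtain ⟨d, hd, h⟩ := canon c 6 le_rfl
  have := key (d 0) (h 0 (by decide)) (d 1) (h 1 (by decide)) (by simp) (d 2) (h 2 (by decide)) (by simp)
    (d 3) (h 3 (by decide)) (by simp) (d 4) (h 4 (by decide)) (by simp) (d 5) (h 5 (by decide)) (by simp)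
    (d 6) (by simp) (d 7) (by simp)
  have e : ![d 0, d 1, d 2, d 3, d 4, d 5, d 6, d 7] = d := by
    ext i; fin_cases i <;> rfl
  rw [e] at this
  obtain ⟨x, y, z, h1, h2, h3, h4⟩ := this
  refine ⟨d, _, hd, isThreeCycle_swap_mul_swap_same h1 h2 h3, ?_⟩
  have : d * (swap x y * swap x z) * d⁻¹ = swap (d x) (d y) * swap (d x) (d z) := by
    rw [swap_apply_apply, swap_apply_apply]; group
  rw [this]
  exact Equiv.ext h4

/-- In the symmetric group of degree 8, let A be the subgroup generated by a 3-cycle. Then every conjugacy class contains an element g for which A is subnormal in the subgroup generated by A and its conjugate by g, although O_3 of the symmetric group of degree 8 is trivial. -/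
theorem result
    (σ : Equiv.Perm (Fin 8)) (hσ : σ.IsThreeCycle) :
    (∀ c : Equiv.Perm (Fin 8), ∃ g : Equiv.Perm (Fin 8), IsConj c g ∧
      ((Subgroup.zpowers σ).subgroupOf (Subgroup.zpowers σ ⊔ MulAut.conj g • Subgroup.zpowers σ)).IsSubnormal) ∧
    Cfsg.pCore 3 (Equiv.Perm (Fin 8)) = ⊥ := by
  constructor
  · intro c
    obtain ⟨d, τ, hd, hτ, hc⟩ := exists_comm c
    obtain ⟨h, rfl⟩ := isConj_iff.1 (isConj_iff_cycleType_eq.2 (hτ.cycleType.trans hσ.cycleType.symm))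
    refine ⟨h * d * h⁻¹, hd.trans (isConj_iff.2 ⟨h, rfl⟩), Subgroup.Normal.isSubnormal ?_⟩
    refine (Subgroup.normal_subgroupOf_iff_le_normalizer le_sup_left).2
      (sup_le Subgroup.le_normalizer ?_)
    rintro _ ⟨_, ⟨n, rfl⟩, rfl⟩
    refine Subgroup.centralizer_le_normalizer _ ?_
    rintro _ ⟨m, rfl⟩
    have := (hc.zpow_zpow m n).map (MulAut.conj h)
    simp only [MulAut.conj_apply, conj_zpow] at this
    convert this.eq using 1 <;> simp only [conj_zpow, MulDistribMulAction.toMonoidEnd_apply,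
      MulDistribMulAction.toMonoidHom_apply, MulAut.smul_def, MulAut.conj_apply] <;> group
  · by_contra hne
    haveI : (pCore 3 (Perm (Fin 8))).Normal := inferInstance
    have h1 := alternatingGroup_le_of_normal (N := pCore 3 (Perm (Fin 8))) (by simp)
      ((Subgroup.nontrivial_iff_ne_bot _).2 hne)
    have hm : swap (0 : Fin 8) 1 * swap 2 3 ∈ alternatingGroup (Fin 8) := by
      rw [mem_alternatingGroup]; decide
    obtain ⟨k, hk⟩ := H1.isPGroup_pCore 3 (Perm (Fin 8)) ⟨_, h1 hm⟩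
    have hk' : (swap (0 : Fin 8) 1 * swap 2 3) ^ 3 ^ k = 1 := congrArg Subtype.val hk
    have h2 : orderOf (swap (0 : Fin 8) 1 * swap 2 3) = 2 := orderOf_eq_prime (by decide) (by decide)
    have := orderOf_dvd_of_pow_eq_one hk'
    rw [h2] at this
    exact absurd (Nat.prime_two.dvd_of_dvd_pow this) (by decide)

end Cfsg.Agent.S4332
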