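import Cfsg.Statements.S4333
import Cfsg.Agent.H2.Subnormal

set_option autoImplicit false
open Pointwise
open Cfsg

namespace Cfsg.Agent.S4333

universe u

theorem aux (G : Type u) [Group G] [Finite G] :
    ∀ A : Subgroup G, (∀ a ∈ A, ∀ g : G, H10.SubnormalIn A (A ⊔ MulAut.conj (g⁻¹ * a * g) • A)) →
      A.IsSubnormal := by
  refine H2.card_induction (P := fun G _ _ => ∀ A : Subgroup G,
    (∀ a ∈ A, ∀ g : G, H10.SubnormalIn A (A ⊔ MulAut.conj (g⁻¹ * a * g) • A)) → A.IsSubnormal)
    (fun G _ _ ih => ?_) G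
  intro A h
  by_contra hA
  have h1 : ∀ H : Subgroup G, A ≤ H → H ≠ ⊤ → H10.SubnormalIn A H := by
    intro H hAH hH
    refine ⟨hAH, ih H (H1.card_lt_of_ne_top hH) _ fun a ha g => ?_⟩
    have : H10.SubnormalIn (A.subgroupOf H)
        ((A ⊔ MulAut.conj ((g⁻¹ * a * g : H) : G) • A).subgroupOf H) :=
      H2.subnormalIn_subgroupOf (H := H) (h a ha g)
    rwa [Subgroup.subgroupOf_sup hAH (Subgroup.conj_smul_le_of_le hAH (g⁻¹ * a * g)),
      ← Subgroup.conj_smul_subgroupOf hAH (g⁻¹ * a * g)] at this
  obtain ⟨M, hM, hAM, hM'⟩ := H2.exists_greatest_of_forall_subnormalIn h1 hA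
  have h3 : ∀ a ∈ A, ∀ g : G, g⁻¹ * a * g ∈ Subgroup.normalizer (M : Set G) := by
    intro a ha g
    have e1 : MulAut.conj (g⁻¹ * a * g) • A ≤ M := by
      refine le_sup_right.trans (hM' _ le_sup_left fun hc => hA ?_)
      have := h a ha g
      rwa [hc, H10.subnormalIn_top] at this
    rw [← Subgroup.inv_mem_iff]
    apply H2.mem_normalizer_of_conj_smul_le
    apply hM'
    · intro x hx
      rw [H1.mem_conj_smul, inv_inv]
      exact e1 (H1.mem_conj_smul.mpr (by simpa [mul_assoc] using hx))
    · intro ht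
      apply hM
      rw [← Subgroup.index_eq_one, ← H1.index_conj_smul (g⁻¹ * a * g)⁻¹, ht, Subgroup.index_top]
  have h2 : Subgroup.normalClosure (A : Set G) ≤ M := by
    by_cases hN : Subgroup.normalizer (M : Set G) = ⊤
    · have : M.Normal := Subgroup.normalizer_eq_top_iff.mp hN
      exact Subgroup.normalClosure_le_normal hAM
    · refine le_trans (Subgroup.normalClosure_le_normal (N := M.normalCore) ?_) (Subgroup.normalCore_le M)
      intro a ha g
      simpa using hM' _ (hAM.trans Subgroup.le_normalizer) hN (h3 a ha g⁻¹)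
  exact hA ((h1 _ Subgroup.le_normalClosure fun hc => hM (top_le_iff.mp (hc ▸ h2))).isSubnormal
    Subgroup.normalClosure_normal.isSubnormal)

/-- Let A be a subgroup of a finite group G. If A is subnormal in the subgroup generated by A and its conjugate by g⁻¹ a g, for every a ∈ A and every g ∈ G, then A is subnormal in G. (A sharpening of Wielandt's subnormality criterion: only conjugates of A by conjugates of elements of A are needed.) -/
theorem result {G : Type*} [Group G] [Finite G]
    (A : Subgroup G)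
    (h : ∀ a ∈ A, ∀ g : G, (A.subgroupOf (A ⊔ MulAut.conj (g⁻¹ * a * g) • A)).IsSubnormal) :
    A.IsSubnormal := by
  exact aux G A fun a ha g => ⟨le_sup_left, h a ha g⟩

end Cfsg.Agent.S4333
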