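import Cfsg.Statements.S4334
import Cfsg.Agent.H10.Basic
import Cfsg.Agent.H3.Misc2

set_option autoImplicit false
open Cfsg

namespace Cfsg.Agent.S4334

section
open Subgroup Cfsg.Agent.H10
open scoped commutatorElement Pointwise

open Cfsg.Agent.H3

theorem cent_of_comm {G : Type*} [Group G] [Finite G] {p q : ℕ} [Fact p.Prime] [Fact q.Prime]
    {S T B A : Subgroup G} (hS : SylowIn p S ⊤) (hT : SylowIn q T ⊤)
    (hc : T ≤ centralizer (S : Set G)) (hB : IsPGroup p B) (hA : IsPGroup q A)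
    (hn : A ≤ normalizer (B : Set G)) : A ≤ centralizer (B : Set G) := by
  obtain ⟨g, -, hg⟩ := hS.exists_conj_le hB le_top
  have h1 : B ≤ MulAut.conj g⁻¹ • S := by
    rw [← conj_inv_smul_conj_smul B g]; exact conj_smul_mono _ hg
  have hT' : SylowIn q (MulAut.conj g⁻¹ • T) ⊤ := hT.conj_of_mem_normalizer (le_normalizer (mem_top _))
  have h2 : MulAut.conj g⁻¹ • T ≤ centralizer (B : Set G) := by
    refine le_trans (conj_smul_mono _ hc) ?_
    rw [← centralizer_conj_smul]
    exact centralizer_le h1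
  obtain ⟨n, hnN, hn2⟩ := (hT'.of_le (h2.trans (centralizer_le_normalizer _)) le_top).exists_conj_le
    hA hn
  have h3 : MulAut.conj n • A ≤ centralizer (B : Set G) := hn2.trans h2
  have h4 := conj_smul_mono n⁻¹ h3
  rw [conj_inv_smul_conj_smul, ← centralizer_conj_smul,
    mem_normalizer_iff_conj_smul.mp (inv_mem hnN)] at h4
  exact h4

theorem exists_syl {G : Type*} [Group G] [Finite G] {σ τ π : Set ℕ} (hπ : π = σ ∪ τ)
    (hd : Disjoint σ τ) {H Hs Ht : Subgroup G} (hH : IsPiHall π H)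
    (ht : IsPiSubgroup τ Ht) (hsn : Group.IsNilpotent Hs)
    (hjoin : Hs ⊔ Ht = H) (hcomm : ∀ a ∈ Hs, ∀ b ∈ Ht, a * b = b * a) {p : ℕ} [hp : Fact p.Prime]
    (hσ : p ∈ σ) : ∃ S : Subgroup G, S ≤ H ∧ SylowIn p S ⊤ ∧
      ∀ y ∈ H, (orderOf y).Coprime p → y ∈ centralizer (S : Set G) := by
  obtain ⟨S, hS⟩ := exists_sylowIn p Hs
  have hc : Ht ≤ centralizer (Hs : Set G) := fun b hb a ha => hcomm a ha b hb
  have hn : Ht ≤ normalizer (Hs : Set G) := hc.trans (centralizer_le_normalizer _)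
  have hsH : Hs ≤ H := hjoin ▸ le_sup_left
  have hpt : ¬ p ∣ Nat.card Ht := fun h => Set.disjoint_left.mp hd hσ (ht p hp.out h)
  refine ⟨S, hS.le.trans hsH, ⟨le_top, hS.isPGroup, ?_⟩, fun y hy hyo => ?_⟩
  · rw [relIndex_top_right, ← relIndex_mul_index hS.le, ← relIndex_mul_index hsH]
    intro h
    rcases (Nat.Prime.dvd_mul hp.out).mp h with h | h
    · exact hS.not_dvd h
    rcases (Nat.Prime.dvd_mul hp.out).mp h with h | h
    · apply hpt
      have h1 := H3.card_sup_mul_card_inf hn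
      rw [sup_comm, hjoin, card_eq_card_mul_relIndex hsH, mul_assoc, mul_comm (Nat.card Ht)] at h1
      rw [← Nat.eq_of_mul_eq_mul_left Nat.card_pos h1]
      exact h.mul_right _
    · exact hH.2 p hp.out (hπ ▸ Or.inl hσ) h
  · rw [← hjoin, mem_sup_iff_of_right_le_normalizer hn] at hy
    obtain ⟨a, ha, b, hb, rfl⟩ := hy
    refine mul_mem (hS.mem_centralizer_of_isNilpotent hsn ha ?_) (centralizer_le hS.le (hc hb))
    have hbo : (orderOf b⁻¹).Coprime p := by
      rw [orderOf_inv]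
      exact ((Nat.Prime.coprime_iff_not_dvd hp.out).mpr fun h =>
        hpt (h.trans (Ht.orderOf_dvd_natCard hb))).symm
    have hcm : Commute (a * b) b⁻¹ :=
      Commute.inv_right (Commute.mul_left (hcomm a ha b hb) (Commute.refl b))
    have := hcm.orderOf_mul_dvd_mul_orderOf
    rw [mul_inv_cancel_right] at this
    exact (Nat.Coprime.mul_left hyo hbo).coprime_dvd_left this

theorem max_tau {G : Type*} [Group G] [Finite G] {σ τ π : Set ℕ} (hπ : π = σ ∪ τ)
    (hd : Disjoint σ τ) {H Hs Ht : Subgroup G} (hH : IsPiHall π H)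
    (hs : IsPiSubgroup σ Hs) (ht : IsPiSubgroup τ Ht)
    (hjoin : Hs ⊔ Ht = H) (hcomm : ∀ a ∈ Hs, ∀ b ∈ Ht, a * b = b * a) :
    Maximal (IsPiSubgroup τ) Ht := by
  refine ⟨ht, fun K hK hle => ?_⟩
  have hc : Hs ≤ centralizer (Ht : Set G) := fun b hb a ha => (hcomm b hb a ha).symm
  have hn : Hs ≤ normalizer (Ht : Set G) := hc.trans (centralizer_le_normalizer _)
  have htH : Ht ≤ H := hjoin ▸ le_sup_right
  rw [← relIndex_eq_one]
  by_contra hne
  obtain ⟨q, hq, hqd⟩ := Nat.exists_prime_and_dvd hne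
  have hqτ : q ∈ τ := hK q hq (hqd.trans (relIndex_dvd_card _ _))
  have h2 : q ∣ Ht.index := hqd.trans (relIndex_dvd_index_of_le hle)
  rw [← relIndex_mul_index htH] at h2
  rcases (Nat.Prime.dvd_mul hq).mp h2 with h | h
  · have h1 := H3.card_sup_mul_card_inf hn
    rw [hjoin, card_eq_card_mul_relIndex htH, mul_assoc, mul_comm (Nat.card Hs)] at h1
    refine Set.disjoint_left.mp hd (hs q hq ?_) hqτ
    rw [← Nat.eq_of_mul_eq_mul_left Nat.card_pos h1]
    exact h.mul_right _
  · exact hH.2 q hq (hπ ▸ Or.inr hqτ) h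

end

/-- Let σ and τ be disjoint sets of primes with union π. Suppose a finite group G has a Hall π-subgroup H which is the direct product of a nilpotent σ-subgroup and a τ-subgroup (two elementwise-commuting subgroups generating H), and that the maximal τ-subgroups of G are pairwise conjugate. Then the maximal π-subgroups of G are pairwise conjugate. -/
theorem result {G : Type*} [Group G] [Finite G]
    (σ τ π : Set ℕ) (hπ : π = σ ∪ τ) (hd : Disjoint σ τ) (H Hs Ht : Subgroup G) (hH : Cfsg.IsPiHall π H)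
    (hs : Cfsg.IsPiSubgroup σ Hs) (ht : Cfsg.IsPiSubgroup τ Ht) (hsn : Group.IsNilpotent Hs)
    (hjoin : Hs ⊔ Ht = H) (hcomm : ∀ a ∈ Hs, ∀ b ∈ Ht, a * b = b * a) (hD : Cfsg.IsDPiGroup τ G) :
    Cfsg.IsDPiGroup π G := by
  open Subgroup Cfsg.Agent.H10 in
  open Cfsg.Agent.H3 in
  open scoped Pointwise in
  have hmax := max_tau hπ hd hH hs ht hjoin hcomm
  have htH : Ht ≤ H := hjoin ▸ le_sup_right
  have key : ∀ K : Subgroup G, IsPiSubgroup π K → ∃ x : G, K ≤ MulAut.conj x • H := by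
    intro K hK
    induction hn : Nat.card K using Nat.strong_induction_on generalizing K with
    | _ n ih =>
    by_cases h0 : IsPiSubgroup τ K
    · obtain ⟨M, hKM, hM⟩ := Finite.exists_le_maximal (p := IsPiSubgroup τ) h0
      obtain ⟨g, hg⟩ := hD Ht M hmax hM
      refine ⟨g, hKM.trans ?_⟩
      rw [hg, map_conj_eq_smul]
      exact conj_smul_mono _ htH
    have : ∃ p, p.Prime ∧ p ∣ Nat.card K ∧ p ∈ σ := by
      by_contra hcon
      refine h0 fun p hp hpd => ?_
      rcases (hπ ▸ hK p hp hpd : p ∈ σ ∪ τ) with h | h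
      · exact absurd ⟨p, hp, hpd, h⟩ hcon
      · exact h
    obtain ⟨p, hp, hpd, hpσ⟩ := this
    have := Fact.mk hp
    obtain ⟨S, hSH, hS, hSc⟩ := exists_syl hπ hd hH ht hsn hjoin hcomm hpσ
    have h1 : HasNormalPComplement p K := by
      by_contra hcon
      obtain ⟨B, A, q, -, hq, hqp, hqA, hA, -, hm⟩ := exists_minAct_of_not (default : Sylow p K) hcon
      have := Fact.mk hq
      have hqK : q ∣ Nat.card K := hqA.trans A.card_subgroup_dvd_card
      have hqπ := hK q hq hqK
      obtain ⟨T, hT⟩ := exists_sylowIn q H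
      have hT' : SylowIn q T ⊤ := by
        refine ⟨le_top, hT.isPGroup, ?_⟩
        rw [relIndex_top_right, ← relIndex_mul_index hT.le]
        intro h
        rcases (Nat.Prime.dvd_mul hq).mp h with h | h
        · exact hT.not_dvd h
        · exact hH.2 q hq hqπ h
      have hTS : T ≤ centralizer (S : Set G) := fun y hy => hSc y (hT.le hy) (by
        obtain ⟨k, hk⟩ := (IsPGroup.iff_orderOf.mp hT.isPGroup) ⟨y, hy⟩
        rw [Subgroup.orderOf_mk] at hk
        rw [hk]
        exact Nat.Coprime.pow_left _ ((Nat.coprime_primes hq hp).mpr hqp))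
      have h3 := cent_of_comm hS hT' hTS (hm.isPGroup.map K.subtype) (hA.map K.subtype)
        ((map_mono hm.le_normalizer).trans (le_normalizer_map _))
      refine hm.not_le fun a ha b hb => Subtype.ext ?_
      exact h3 ⟨a, ha, rfl⟩ b ⟨b, hb, rfl⟩
    obtain ⟨Q, hQ⟩ := exists_sylowIn p K
    obtain ⟨R, h2, h3, h4, h5, h6, -⟩ := hQ.exists_complement h1
    have hRK : R < K := lt_of_le_of_ne h2 fun he =>
      hp.one_lt.ne' (Nat.eq_one_of_dvd_coprimes h3 (he ▸ hpd) dvd_rfl)
    obtain ⟨x, hx⟩ := ih _ (hn ▸ H3.card_lt_of_lt hRK) R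
      (fun r hr hrd => hK r hr (hrd.trans (card_dvd_of_le h2))) rfl
    have h7 : SylowIn p (MulAut.conj x • S) ⊤ := hS.conj_of_mem_normalizer (le_normalizer (mem_top _))
    have h8 : MulAut.conj x • S ≤ normalizer (R : Set G) := by
      refine le_trans (le_centralizer_iff.mp fun y hy => ?_) (centralizer_le_normalizer _)
      rw [centralizer_conj_smul, mem_conj_smul]
      refine hSc _ (mem_conj_smul.mp (hx hy)) ?_
      have : orderOf (x⁻¹ * y * x) = orderOf y := by
        simpa using (MulAut.conj x⁻¹).orderOf_eq y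
      rw [this]
      exact h3.coprime_dvd_left (R.orderOf_dvd_natCard hy)
    obtain ⟨g, hg, h9⟩ := (h7.of_le h8 le_top).exists_conj_le hQ.isPGroup
      (hQ.le.trans (le_normalizer.trans h4))
    refine ⟨g⁻¹ * x, ?_⟩
    rw [← conj_smul_conj_smul, ← h6]
    refine sup_le ?_ ?_
    · rw [← mem_normalizer_iff_conj_smul.mp (inv_mem hg)]
      exact conj_smul_mono _ hx
    · rw [← conj_inv_smul_conj_smul Q g]
      exact conj_smul_mono _ (h9.trans (conj_smul_mono _ hSH))
  have key2 : ∀ K : Subgroup G, Maximal (IsPiSubgroup π) K → ∃ x : G, K = MulAut.conj x • H := by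
    intro K hK
    obtain ⟨x, hx⟩ := key K hK.1
    refine ⟨x, le_antisymm hx (hK.2 (fun r hr hrd => hH.1 r hr ?_) hx)⟩
    rwa [card_conj_smul] at hrd
  intro K L hK hL
  obtain ⟨x, rfl⟩ := key2 K hK
  obtain ⟨y, rfl⟩ := key2 L hL
  refine ⟨y * x⁻¹, ?_⟩
  rw [map_conj_eq_smul, conj_smul_conj_smul, inv_mul_cancel_right]

end Cfsg.Agent.S4334
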