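import Cfsg.Statements.S4337
import Cfsg.Agent.H26.Swaps
import Cfsg.Agent.H4.Burnside

set_option autoImplicit false
open Cfsg

namespace Cfsg.Agent.S4337


/-- In a finite symmetric group, any three transpositions generate a solvable subgroup. -/
theorem result (n : ℕ) (a b c : Equiv.Perm (Fin n))
    (ha : a.IsSwap) (hb : b.IsSwap) (hc : c.IsSwap) :
    Group.IsSolvable (Subgroup.closure ({a, b, c} : Set (Equiv.Perm (Fin n)))) := by
  have e : ({a, b, c} : Set (Equiv.Perm (Fin n))) = Set.range ![a, b, c] := by
    simp only [Matrix.range_cons, Matrix.range_empty, Set.union_empty]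
    rfl
  rw [e]
  refine H4.isSolvable_of_forall_prime_dvd Nat.prime_two Nat.prime_three fun r hr hd => ?_
  have h1 := H26.prime_le_of_dvd_card_closure_swaps ![a, b, c] (by
    intro i; fin_cases i <;> assumption) hr hd
  have h2 := hr.two_le
  rw [Fintype.card_fin] at h1
  interval_cases r
  · simp
  · simp
  · exact absurd hr (by norm_num)

end Cfsg.Agent.S4337
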