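import Cfsg.Statements.S4342
import Cfsg.Agent.H26.SylNum

set_option autoImplicit false
open Cfsg

namespace Cfsg.Agent.S4342


/-- Let H be a normal subgroup of a finite group G and p a prime not dividing the index of H. Then the number of Sylow p-subgroups of H/Z(H) equals the number of Sylow p-subgroups of G. -/
theorem result {G : Type*} [Group G] [Finite G]
    (p : ℕ) [Fact p.Prime] (H : Subgroup G) [H.Normal] (hp : ¬ p ∣ H.index) :
    Nat.card (Sylow p (H ⧸ Subgroup.center H)) = Nat.card (Sylow p G) := by
  rw [← H26.card_sylow_of_normal_of_not_dvd_index H hp]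
  exact H26.card_sylow_quotient _ default (Subgroup.center_le_normalizer _)

end Cfsg.Agent.S4342
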