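import Cfsg.Statements.S4344
import Cfsg.Agent.H19.Basic
import Cfsg.Agent.H1.Cores

set_option autoImplicit false
open Cfsg

namespace Cfsg.Agent.S4344


/-- Let S be a finite non-abelian simple group, M a maximal subgroup of S and C a cyclic normal subgroup of M. If a Sylow p-subgroup P of S (for a prime p dividing the order of S) is contained in C, then the number of Sylow p-subgroups of S equals the index of M. -/
theorem result {S : Type*} [Group S] [Finite S]
    [IsSimpleGroup S] (hS : ¬ IsMulCommutative S) (p : ℕ) [Fact p.Prime] (hp : p ∣ Nat.card S)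
    (M : Subgroup S) (hM : IsCoatom M) (C : Subgroup S) (hCM : C ≤ M) (hCn : (C.subgroupOf M).Normal)
    (hC : IsCyclic C) (P : Sylow p S) (hP : (P : Subgroup S) ≤ C) :
    Nat.card (Sylow p S) = M.index := by
  rw [P.card_eq_index_normalizer]
  congr 1
  have hP1 : (P : Subgroup S) ≠ ⊥ := P.ne_bot_of_dvd_card hp
  have hne := H19.normalizer_ne_top_of_isPGroup hS p P P.isPGroup' hP1
  have hMC : M ≤ Subgroup.normalizer (C : Set S) :=
    (Subgroup.normal_subgroupOf_iff_le_normalizer hCM).mp hCn
  have h1 : ((P : Subgroup S).subgroupOf C).Normal := by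
    have := hC
    infer_instance
  have h2 : ((P : Subgroup S).subgroupOf C).Characteristic :=
    Sylow.characteristic_of_normal (P.subtype hP) h1
  have h3 := H1.normalizer_le_normalizer_map_subtype_of_characteristic C ((P : Subgroup S).subgroupOf C)
  rw [Subgroup.map_subgroupOf_eq_of_le hP] at h3
  by_contra hn
  exact hne (hM.2 _ (lt_of_le_of_ne (hMC.trans h3) (Ne.symm hn)))

end Cfsg.Agent.S4344
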