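import Cfsg.Statements.S4345
import Cfsg.Agent.H26.SylCount

set_option autoImplicit false
open Cfsg

namespace Cfsg.Agent.S4345

universe u
theorem aux (p l : ℕ) [Fact p.Prime] (hl : l.Prime) (G : Type u) [Group G] [Finite G] :
    Group.IsSolvable G → l ^ (Nat.card (Sylow p G)).factorization l ≡ 1 [MOD p] := by
  refine H2.card_induction (P := fun G _ _ => Group.IsSolvable G →
    l ^ (Nat.card (Sylow p G)).factorization l ≡ 1 [MOD p]) ?_ G
  intro G _ _ ih hG
  rcases subsingleton_or_nontrivial G with h | h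
  · have : Subsingleton (Sylow p G) := ⟨fun a b => Sylow.ext (Subsingleton.elim _ _)⟩
    rw [Nat.card_of_subsingleton (default : Sylow p G)]
    simp [Nat.ModEq]
  obtain ⟨K, hK, -, q, hq, hKq⟩ := H2.exists_isMinNormal_of_isSolvable (G := G)
  have := hK.normal
  obtain ⟨P⟩ : Nonempty (Sylow p G) := inferInstance
  rw [H26.card_sylow_eq_mul K P, Nat.factorization_mul Nat.card_pos.ne'
    (H26.relIndex_ne_zero' _ _),
    Finsupp.add_apply, pow_add, ← mul_one 1]
  refine (ih (G ⧸ K) (H1.card_quotient_lt hK.ne_bot) inferInstance).mul ?_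
  by_cases hqp : q = p
  · subst hqp
    have : K ≤ Subgroup.normalizer (P : Set G) :=
      ((H1.le_pCore hKq).trans (H1.pCore_le_sylow P)).trans Subgroup.le_normalizer
    rw [Subgroup.relIndex_eq_one.mpr this]
    simp [Nat.ModEq]
  · have := Fact.mk hq
    have h1 : ¬ p ∣ Nat.card K := by
      obtain ⟨n, hn⟩ := IsPGroup.iff_card.mp hKq
      rw [hn]
      intro h
      exact hqp ((Nat.prime_dvd_prime_iff_eq Fact.out hq).mp ((Fact.out : p.Prime).dvd_of_dvd_pow h)).symm
    erw [H26.relIndex_normalizer_eq_of_disjoint (P := (P : Subgroup G)) Subgroup.le_normalizer_of_normal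
      (Subgroup.inf_eq_bot_of_coprime (H1.coprime_card_of_isPGroup P.isPGroup' h1))]
    exact H26.pow_factorization_relIndex_modEq_one P.isPGroup' Subgroup.le_normalizer_of_normal h1 hl

/-- Let G be a finite solvable group and p, ℓ primes. Then the largest power of ℓ dividing the number of Sylow p-subgroups of G is congruent to 1 modulo p. -/
theorem result {G : Type*} [Group G] [Finite G]
    (hG : Group.IsSolvable G) (p ℓ : ℕ) [Fact p.Prime] (hℓ : ℓ.Prime) :
    ℓ ^ (Nat.card (Sylow p G)).factorization ℓ ≡ 1 [MOD p] := by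
  exact aux p ℓ hℓ G hG

end Cfsg.Agent.S4345
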