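import Cfsg.Statements.S4346
import Cfsg.Agent.H19.BD8
import Cfsg.Agent.H19.Count
import Cfsg.Agent.H26.SylNum2
import Cfsg.Agent.H26.SylCount
import Cfsg.Agent.H2.Basic

set_option autoImplicit false
open Cfsg

namespace Cfsg.Agent.S4346

theorem arith {m : ℕ} (h2 : 2 ≤ m) (hm : ∀ r : ℕ, r.Prime → r ∣ m → r = 2 ∨ r = 3)
    (hm' : ∀ r : ℕ, r.Prime → r ∣ m + 1 → r = 2 ∨ r = 3) (h : m % 11 = 1 ∨ m % 11 = 9) : False := by
  rcases Nat.even_or_odd m with he | ho
  · have h1 : m + 1 = 3 ^ (m + 1).primeFactorsList.length :=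
      Nat.eq_prime_pow_of_unique_prime_dvd (by omega) (fun {r} hr hd => (hm' r hr hd).resolve_left (by
        rintro rfl
        obtain ⟨k, rfl⟩ := he
        omega))
    generalize (m + 1).primeFactorsList.length = y at h1
    have : ∀ y : ℕ, 3 ^ y % 11 = 1 ∨ 3 ^ y % 11 = 3 ∨ 3 ^ y % 11 = 9 ∨ 3 ^ y % 11 = 5 ∨ 3 ^ y % 11 = 4 := by
      intro y
      induction y with
      | zero => simp
      | succ y ih => rw [pow_succ]; omega
    have := this y
    omega
  · have h1 : m = 3 ^ m.primeFactorsList.length :=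
      Nat.eq_prime_pow_of_unique_prime_dvd (by omega) (fun {r} hr hd => (hm r hr hd).resolve_left (by
        rintro rfl
        obtain ⟨k, rfl⟩ := ho
        omega))
    generalize m.primeFactorsList.length = y at h1
    have h3 : 3 ∣ m := by
      rcases y with _ | y
      · omega
      · rw [h1]; exact dvd_pow_self 3 (Nat.succ_ne_zero y)
    have h4 : m + 1 = 2 ^ (m + 1).primeFactorsList.length :=
      Nat.eq_prime_pow_of_unique_prime_dvd (by omega) (fun {r} hr hd => (hm' r hr hd).resolve_right (by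
        rintro rfl
        omega))
    generalize (m + 1).primeFactorsList.length = x at h4
    have : ∀ y : ℕ, 3 ^ y % 8 = 1 ∨ 3 ^ y % 8 = 3 := by
      intro y
      induction y with
      | zero => simp
      | succ y ih => rw [pow_succ]; omega
    have h5 := this y
    rcases x with _ | _ | _ | x
    · omega
    · omega
    · omega
    · rw [pow_add, pow_add, pow_add] at h4
      omega

open H19 H4 in
theorem brauer_two {G : Type*} [Group G] [Fintype G] {p : ℕ} [Fact p.Prime] {x : G} {K : Subgroup G} (h : PO p x K)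
    (hG : commutator G = ⊤) (he : eN h.ord = 2) : ∃ m : ℕ, 2 ≤ m ∧ m ∣ 2 * sN x ∧ m + 1 ∣ 2 * sN x ∧
      ((m : ℤ) ≡ 1 [ZMOD p] ∨ (m : ℤ) ≡ -2 [ZMOD p]) := by
  classical
  obtain ⟨B⟩ := h.nonempty_BD
  have h1 : (B.X.erase (irrOne G)).card = 1 := by
    rw [Finset.card_erase_of_mem B.one_mem, B.cardX]
    change eN h.ord - 1 = 1
    rw [he]
  obtain ⟨χ, hχ⟩ := Finset.card_eq_one.1 h1
  have h2 : χ ∈ B.X.erase (irrOne G) := hχ ▸ Finset.mem_singleton_self χ
  have hχX := Finset.mem_of_mem_erase h2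
  have h3 := B.deg_eq
  rw [← Finset.add_sum_erase _ _ B.one_mem, B.a_one, charDegree_irrOne, hχ, Finset.sum_singleton] at h3
  have d1 : charDegree (χ : G → ℂ) ≠ 1 := fun e => Finset.ne_of_mem_erase h2 (irr_eq_one_of_perfect hG e)
  have d2 := χ.2.charDegree_pos
  have d3 := B.dvd_X hχX
  have d4 := B.degX χ hχX
  have z1 : B.z ≠ 1 := fun e => B.μ_ne_one 1 (irr_eq_one_of_perfect hG (by rw [B.deg_μ, e]))
  have z2 := B.z_pos
  have z3 := B.dvd_z
  have z4 := B.z_mod
  have he' : Nat.card (EE h.ord) = 2 := he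
  rw [he'] at d3 z3 z4
  rcases B.ha χ hχX with e | e <;> rcases B.hε with e' | e' <;> rw [e] at h3 d4 <;> rw [e'] at h3 z4
  · refine ⟨charDegree (χ : G → ℂ), by omega, d3, ?_, Or.inl d4⟩
    rwa [show charDegree (χ : G → ℂ) + 1 = B.z by omega]
  · omega
  · omega
  · refine ⟨B.z, by omega, z3, ?_, Or.inr (by simpa using z4)⟩
    rwa [show B.z + 1 = charDegree (χ : G → ℂ) by omega]

open Subgroup MulAction in
theorem coatom {G : Type*} [Group G] [Finite G] [Fact (Nat.Prime 3)] (hn : Nat.card (Sylow 3 G) = 22) (P : Sylow 3 G) :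
    IsCoatom (normalizer ((P : Subgroup G) : Set G)) := by
  have hi : (normalizer ((P : Subgroup G) : Set G)).index = 22 := by rw [← hn, P.card_eq_index_normalizer]; rfl
  refine ⟨fun e => by rw [e, index_top] at hi; omega, fun H hH => ?_⟩
  have h1 := H26.card_sylow_eq_relIndex (H1.isSylowIn_of_le P (le_normalizer.trans hH.le))
  have h2 := card_sylow_modEq_one 3 H
  have h3 := relIndex_mul_index hH.le
  have h4 : (normalizer ((P : Subgroup G) : Set G)).relIndex H ≠ 1 := fun e => hH.not_ge (relIndex_eq_one.1 e)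
  rw [h1] at h2
  rw [hi] at h3
  have h5 : (normalizer ((P : Subgroup G) : Set G)).relIndex H ∈ Nat.divisors 22 :=
    Nat.mem_divisors.2 ⟨Dvd.intro _ h3, by norm_num⟩
  rw [show Nat.divisors 22 = {1, 2, 11, 22} by decide] at h5
  simp only [Finset.mem_insert, Finset.mem_singleton] at h5
  rcases h5 with h5 | h5 | h5 | h5
  · exact absurd h5 h4
  · rw [h5] at h2; exact absurd h2 (by decide)
  · rw [h5] at h2; exact absurd h2 (by decide)
  · rw [h5] at h3
    exact index_eq_one.1 (by omega)

open Subgroup MulAction Pointwise in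
theorem two_three {G : Type*} [Group G] [Finite G] [Fact (Nat.Prime 3)] (hn : Nat.card (Sylow 3 G) = 22)
    (hG : H26.SylMin 3 G) (P R : Sylow 3 G) (hPR : P ≠ R) (hR : (R : Subgroup G).relIndex P ≠ 3) {s : ℕ} (hs : s.Prime)
    (hd : s ∣ Nat.card (normalizer ((P : Subgroup G) : Set G))) : s = 2 ∨ s = 3 := by
  by_contra hc
  push Not at hc
  have hs5 : 5 ≤ s := hs.five_le_of_ne_two_of_ne_three hc.1 hc.2
  haveI := Fact.mk hs
  have hrel : ∀ P Q : Sylow 3 G, P ≠ Q → (Q : Subgroup G).relIndex P = 3 ∨ (Q : Subgroup G).relIndex P = 9 := by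
    intro P Q h
    have h1 := H26.relIndex_lt_card_sylow h
    obtain ⟨n, hn'⟩ := IsPGroup.iff_card.1 P.isPGroup'
    obtain ⟨j, -, hj⟩ := (Nat.dvd_prime_pow Nat.prime_three).1 (hn' ▸ relIndex_dvd_card (Q : Subgroup G) (P : Subgroup G))
    rw [hj, hn] at h1
    rw [hj]
    rcases j with _ | _ | _ | j
    · exact absurd (Sylow.ext (P.is_maximal' Q.isPGroup' (relIndex_eq_one.1 hj)).symm) h
    · simp
    · simp
    · rw [pow_add, pow_add, pow_add] at h1
      have := pow_pos (show 0 < 3 by norm_num) j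
      omega
  have horb : ∀ Q : Sylow 3 G, (orbit (P : Subgroup G) Q).ncard = (Q : Subgroup G).relIndex P := by
    intro Q
    rw [H19.ncard_orbit_eq_index, H19.stabilizer_sylow_eq P.isPGroup']
    rfl
  have hinv : ∀ g ∈ normalizer ((P : Subgroup G) : Set G), ∀ Q : Sylow 3 G,
      ((g • Q : Sylow 3 G) : Subgroup G).relIndex P = (Q : Subgroup G).relIndex P := by
    intro g hg Q
    conv_lhs => rw [← H1.conj_smul_eq_iff_mem_normalizer.2 hg]
    exact relIndex_pointwise_smul _ _ _
  set S3 : Set (Sylow 3 G) := {Q | (Q : Subgroup G).relIndex P = 3} with hS3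
  have hR9 := (hrel P R hPR).resolve_left hR
  have hcard : S3.ncard ≤ 12 := by
    have h1 : P ∉ orbit (P : Subgroup G) R := by
      rintro ⟨x, hx⟩
      have := hinv x (le_normalizer x.2) R
      rw [show (x : G) • R = P from hx, relIndex_self, hR9] at this
      omega
    have h2 : S3 ⊆ (insert P (orbit (P : Subgroup G) R))ᶜ := by
      rintro Q hQ (rfl | ⟨x, hx⟩)
      · rw [hS3, Set.mem_setOf_eq, relIndex_self] at hQ
        omega
      · have := hinv x (le_normalizer x.2) R
        rw [show (x : G) • R = Q from hx, hQ, hR9] at this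
        omega
    have h3 := Set.ncard_le_ncard h2
    have h4 := Set.ncard_add_ncard_compl (insert P (orbit (P : Subgroup G) R))
    rw [Set.ncard_insert_of_notMem h1, horb, hR9, hn] at h4
    omega
  have hfix : ∀ c ∈ normalizer ((P : Subgroup G) : Set G), orderOf c = s → ∀ Q ∈ S3,
      c ∈ normalizer ((Q : Subgroup G) : Set G) := by
    intro c hc hcs Q hQ
    set X := (P : Subgroup G) ⊔ zpowers c with hX
    have hXN : X ≤ normalizer ((P : Subgroup G) : Set G) := sup_le le_normalizer (zpowers_le.2 hc)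
    set St := stabilizer G Q with hSt
    have hStN : St = normalizer ((Q : Subgroup G) : Set G) := Q.stabilizer_eq_normalizer
    have h1 : St.relIndex X ≤ 12 := by
      refine le_trans ?_ hcard
      have : St.relIndex X = (orbit X Q).ncard := by
        rw [H19.ncard_orbit_eq_index]; rfl
      rw [this]
      refine Set.ncard_le_ncard ?_
      rintro _ ⟨x, rfl⟩
      exact (hinv x (hXN x.2) Q).trans hQ
    have hzs : IsPGroup s (zpowers c) := IsPGroup.of_card (n := 1) (by rw [Nat.card_zpowers, hcs, pow_one])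
    have hXP : (P : Subgroup G).relIndex X = s := by
      rw [hX, H1.relIndex_sup_of_le_normalizer (zpowers_le.2 hc), ← inf_relIndex_right,
        (IsPGroup.disjoint_of_ne 3 s (by omega) _ _ P.isPGroup' hzs).eq_bot, relIndex_bot_left, Nat.card_zpowers, hcs]
    have h2 : (P : Subgroup G).relIndex (St ⊓ X) ∣ s := by
      haveI : ((P : Subgroup G).subgroupOf X).Normal := normal_subgroupOf_of_le_normalizer hXN
      rw [← hXP, ← relIndex_subgroupOf (inf_le_right : St ⊓ X ≤ X)]
      exact relIndex_dvd_index_of_normal _ _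
    have h3 : (P : Subgroup G).relIndex (St ⊓ X) * St.relIndex X = 3 * s := by
      rw [relIndex_inf_mul_relIndex, inf_comm, ← relIndex_inf_mul_relIndex, hXP, inf_eq_left.2 le_sup_left]
      congr 1
      have := P.isPGroup'.inf_normalizer_sylow Q
      rw [← inf_relIndex_right, hStN, inf_comm]
      erw [this]
      rw [inf_comm, inf_relIndex_right]
      exact hQ
    have h4 : St.relIndex X = 3 := by
      rcases (Nat.dvd_prime hs).1 h2 with h | h <;> rw [h] at h3
      · omega
      · rw [mul_comm 3] at h3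
        exact Nat.eq_of_mul_eq_mul_left hs.pos h3
    have hcX : c ∈ X := mem_sup_right (mem_zpowers c)
    have h5 := H26.card_modEq_ncard_fixedBy (G := X) (Ω := X ⧸ St.subgroupOf X) (q := s) (c := ⟨c, hcX⟩)
      (Subtype.ext (by rw [Subgroup.coe_pow, ← hcs]; exact pow_orderOf_eq_one c))
    have h6 : Nat.card (X ⧸ St.subgroupOf X) = 3 := h4
    have h7 := Set.ncard_le_card (fixedBy (X ⧸ St.subgroupOf X) (⟨c, hcX⟩ : X))
    have h8 : fixedBy (X ⧸ St.subgroupOf X) (⟨c, hcX⟩ : X) = Set.univ := by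
      rw [Set.eq_univ_iff_ncard, h6]
      rw [h6] at h5 h7
      exact (Nat.ModEq.eq_of_lt_of_lt h5 (by omega) (by omega)).symm
    have h9 : ((1 : X) : X ⧸ St.subgroupOf X) ∈ fixedBy (X ⧸ St.subgroupOf X) (⟨c, hcX⟩ : X) := h8 ▸ Set.mem_univ _
    rw [mem_fixedBy, Quotient.smul_mk, QuotientGroup.eq, smul_eq_mul, mul_one, mul_one, inv_mem_iff, mem_subgroupOf] at h9
    exact hStN ▸ h9
  obtain ⟨Q, hQ⟩ : S3.Nonempty := by
    by_contra hne
    rw [Set.not_nonempty_iff_eq_empty] at hne
    have := H19.dvd_ncard_of_invariant' (H := (P : Subgroup G)) 9 ({P}ᶜ : Set (Sylow 3 G)) (fun h x hx e => hx (by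
      have h3 : (h : G) • x = (h : G) • P := by rw [H19.smul_sylow_of_mem P h.2]; exact e
      exact smul_left_cancel _ h3)) (fun x hx => by
      rw [← H19.ncard_orbit_eq_index, horb]
      rcases hrel P x (Ne.symm hx) with h | h
      · exact absurd (show x ∈ S3 from h) (hne ▸ Set.notMem_empty x)
      · rw [h])
    have h4 := Set.ncard_add_ncard_compl ({P} : Set (Sylow 3 G))
    rw [Set.ncard_singleton, hn] at h4
    omega
  let O : Sylow 3 G → Subgroup G := fun T => closure {c | c ∈ normalizer ((T : Subgroup G) : Set G) ∧ orderOf c = s}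
  have hO : ∀ (g : G) (T : Sylow 3 G), MulAut.conj g • O T = O (g • T) := by
    have key : ∀ (g : G) (T : Sylow 3 G), MulAut.conj g • O T ≤ O (g • T) := by
      intro g T
      rw [H1.conj_smul_eq_map, map_le_iff_le_comap, closure_le]
      rintro c ⟨h1, h2⟩
      refine subset_closure ⟨?_, (MulEquiv.orderOf_eq (MulAut.conj g) c).trans h2⟩
      have h3 : c • T = T := Sylow.smul_eq_iff_mem_normalizer.2 h1
      apply Sylow.smul_eq_iff_mem_normalizer.1
      change (g * c * g⁻¹) • g • T = g • T
      rw [← mul_smul, inv_mul_cancel_right, mul_smul, h3]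
    intro g T
    refine le_antisymm (key g T) ?_
    have := key g⁻¹ (g • T)
    rw [inv_smul_smul, map_inv] at this
    have h3 := (pointwise_smul_le_pointwise_smul_iff (a := MulAut.conj g)).2 this
    rwa [smul_inv_smul] at h3
  have hON : ∀ T : Sylow 3 G, normalizer ((T : Subgroup G) : Set G) ≤ normalizer (O T : Set G) := by
    intro T g hg
    rw [← H1.conj_smul_eq_iff_mem_normalizer, hO, Sylow.smul_eq_iff_mem_normalizer.2 hg]
  have hPQ : O P = O Q := by
    obtain ⟨g, hg⟩ := exists_smul_eq G P Q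
    refine eq_of_le_of_card_ge (closure_mono fun c h => ⟨hfix c h.1 h.2 Q hQ, h.2⟩) ?_
    rw [← hg, ← hO, H1.card_conj_smul]
  have hne : P ≠ Q := by
    rintro rfl
    rw [hS3, Set.mem_setOf_eq, relIndex_self] at hQ
    omega
  haveI : (O P).Normal := by
    rw [← normalizer_eq_top_iff]
    refine (coatom hn P).2 _ (lt_of_le_of_ne (hON P) fun e => hne ?_)
    exact (H26.sylow_eq_of_le_normalizer (le_normalizer.trans ((hPQ ▸ hON Q).trans e.ge))).symm
  have hb := hG.faithful (O P) P ((closure_le _).2 fun c h => h.1)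
  obtain ⟨c, hc⟩ := exists_prime_orderOf_dvd_card' s hd
  have hc' : orderOf (c : G) = s := by rw [Subgroup.orderOf_coe, hc]
  have : (c : G) ∈ O P := subset_closure ⟨c.2, hc'⟩
  rw [hb, mem_bot] at this
  rw [this, orderOf_one] at hc'
  omega

open Subgroup H19 in
theorem aux (G : Type*) [Group G] [Finite G] : Nat.card (Sylow 3 G) ≠ 22 := by
  haveI : Fact (Nat.Prime 3) := ⟨Nat.prime_three⟩
  refine H2.card_induction (P := fun G _ _ => Nat.card (Sylow 3 G) ≠ 22) ?_ G
  intro G _ _ ih hn
  have hG : H26.SylMin 3 G := by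
    constructor
    · intro K _ P h
      by_contra hK
      exact ih _ (H1.card_quotient_lt hK) ((H26.card_sylow_quotient K P h).trans hn)
    · intro H _ h
      by_contra hH
      exact ih _ (H1.card_lt_of_ne_top hH) ((H26.card_sylow_of_normal_of_not_dvd_index H h).trans hn)
  haveI := Fintype.ofFinite G
  have hd : 3 ∣ Nat.card G := H26.dvd_card_of_one_lt_card_sylow (by omega)
  obtain ⟨P⟩ : Nonempty (Sylow 3 G) := inferInstance
  have hi : (normalizer ((P : Subgroup G) : Set G)).index = 22 := by rw [← hn, P.card_eq_index_normalizer]; rfl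
  have hco := coatom hn P
  haveI : Nontrivial G := Finite.one_lt_card_iff_nontrivial.mp
    (lt_of_lt_of_le (by norm_num) (Nat.le_of_dvd Nat.card_pos hd))
  haveI : IsSimpleGroup G := ⟨fun M hM => by
    by_contra hc
    push Not at hc
    have h1 : M ⊔ normalizer ((P : Subgroup G) : Set G) = ⊤ :=
      hco.2 _ (right_lt_sup.2 fun h => hc.1 (hG.faithful M P h))
    have hS := (H1.isSylowIn_top P).inf (le_top : M ≤ ⊤) (by rw [normalizer_eq_top]; exact le_top)
    have hle : normalizer ((P : Subgroup G) : Set G) ≤ normalizer ((((P : Subgroup G) ⊓ M : Subgroup G)) : Set G) :=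
      H1.le_normalizer_inf le_rfl (by rw [normalizer_eq_top M]; exact le_top)
    rcases hle.eq_or_lt with h2 | h2
    · apply ih M (H1.card_lt_of_ne_top hc.2)
      rw [H26.card_sylow_eq_relIndex hS, ← h2]
      have := H26.index_eq_index_sup_mul M (normalizer ((P : Subgroup G) : Set G))
      rw [h1, index_top, one_mul, hi] at this
      exact this.symm
    · haveI : ((P : Subgroup G) ⊓ M).Normal := normalizer_eq_top_iff.1 (hco.2 _ h2)
      have h3 := hG.faithful ((P : Subgroup G) ⊓ M) P (inf_le_left.trans le_normalizer)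
      have h4 : ¬ 3 ∣ Nat.card M := fun h => hS.ne_bot h h3
      have h5 := H26.card_sylow_eq_mul_of_not_dvd M P h4
      rw [H26.card_sylow_quotient_eq_index M P, hn] at h5
      erw [h1] at h5
      have h6 := H26.pow_factorization_relIndex_modEq_one P.isPGroup'
        (K := M) (by rw [normalizer_eq_top]; exact le_top) h4 Nat.prime_two
      rw [index_top, one_mul] at h5
      rw [← h5, show 22 = 2 * 11 from rfl, Nat.factorization_mul (by norm_num) (by norm_num),
          Finsupp.add_apply, Nat.Prime.factorization_self (by norm_num),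
          Nat.factorization_eq_zero_of_not_dvd (by norm_num)] at h6
      exact absurd h6 (by decide)⟩
  have hc : ¬ IsMulCommutative G := fun hc => by
    haveI := Sylow.unique_of_normal P ⟨fun n hn g => by rwa [mul_comm' g, mul_inv_cancel_right]⟩
    rw [Nat.card_unique] at hn
    omega
  have hperf := commutator_eq_top_of_simple hc
  by_cases hA : ∀ Q : Sylow 3 G, P ≠ Q → (Q : Subgroup G).relIndex P = 3
  · obtain ⟨x, hx, hxP, hnsq⟩ := exists_gen_of_sylow P (H26.card_eq_of_forall_relIndex P hG.pCore_eq_bot hd hA)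
    obtain ⟨K, h⟩ := exists_PO hx hnsq
    obtain ⟨B⟩ := h.nonempty_BD
    have he := B.one_lt_e' hperf
    have he' := Nat.le_of_dvd (by norm_num) (Dvd.intro _ (eN_mul h.ord))
    obtain ⟨m, h1, h2, h3, -⟩ := brauer_two h hperf (by omega)
    rw [sN_eq_card hx hnsq, hn] at h2 h3
    have := Nat.le_of_dvd (by norm_num) h2
    interval_cases m <;> omega
  push Not at hA
  obtain ⟨R, hPR, hR⟩ := hA
  have h23 := fun s hs => two_three hn hG P R hPR hR (s := s) hs
  have hcG := (normalizer ((P : Subgroup G) : Set G)).index_mul_card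
  rw [hi] at hcG
  haveI : Fact (Nat.Prime 11) := ⟨by norm_num⟩
  have h11 : ¬ 11 ∣ Nat.card (normalizer ((P : Subgroup G) : Set G)) := fun h => by
    have := h23 11 (by norm_num) h
    omega
  have hnsq : ¬ 11 ^ 2 ∣ Nat.card G := by
    rw [← hcG]
    intro h
    apply h11
    omega
  obtain ⟨x, hx⟩ := exists_prime_orderOf_dvd_card' (G := G) 11 (by rw [← hcG]; exact Dvd.dvd.mul_right (by norm_num) _)
  obtain ⟨K, h⟩ := exists_PO hx hnsq
  obtain ⟨B⟩ := h.nonempty_BD
  have he := B.one_lt_e' hperf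
  have hpr : ∀ r : ℕ, r.Prime → r ∣ eN h.ord * sN x → r = 2 ∨ r = 3 := by
    intro r hr hrd
    have h1 : 11 * r ∣ 11 * (2 * Nat.card (normalizer ((P : Subgroup G) : Set G))) := by
      rw [← mul_assoc, show 11 * 2 = 22 from rfl, hcG, h.card_G, mul_assoc]
      exact Nat.mul_dvd_mul_left _ (hrd.mul_left _)
    rcases (Nat.Prime.dvd_mul hr).1 (Nat.dvd_of_mul_dvd_mul_left (by norm_num) h1) with h2 | h2
    · exact Or.inl ((Nat.prime_dvd_prime_iff_eq hr Nat.prime_two).1 h2)
    · exact h23 r hr h2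
  have he2 : eN h.ord = 2 := by
    have h1 : eN h.ord ∣ 10 := Dvd.intro _ (eN_mul h.ord)
    have h2 : ¬ 5 ∣ eN h.ord := fun h5 => by
      have := hpr 5 (by norm_num) (h5.mul_right _)
      omega
    have := Nat.le_of_dvd (by norm_num) h1
    interval_cases eN h.ord <;> omega
  obtain ⟨m, h1, h2, h3, h4⟩ := brauer_two h hperf he2
  rw [he2] at hpr
  refine arith h1 (fun r hr hd => hpr r hr (hd.trans h2)) (fun r hr hd => hpr r hr (hd.trans h3)) ?_
  simp only [Int.ModEq] at h4
  omega

/-- No finite group has exactly 22 Sylow 3-subgroups. -/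
theorem result {G : Type*} [Group G] [Finite G] : Nat.card (Sylow 3 G) ≠ 22 := by
  exact aux G

end Cfsg.Agent.S4346
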