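import Cfsg.Statements.S4354
import Cfsg.Agent.H26.ClassSize
import Cfsg.Agent.H26.SylCount
import Cfsg.Agent.H26.PElt
import Cfsg.Agent.H1.SylowIn

set_option autoImplicit false
open Cfsg

namespace Cfsg.Agent.S4354

open Subgroup in
open scoped Pointwise in
theorem conj_le_cent {G : Type*} [Group G] {A B : Subgroup G} (h : A ≤ centralizer (B : Set G)) (m : G) :
    MulAut.conj m • A ≤ centralizer ((MulAut.conj m • B : Subgroup G) : Set G) := by
  intro a ha
  rw [mem_centralizer_iff]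
  intro b hb
  have h1 := mem_centralizer_iff.1 (h (H1.mem_conj_smul.1 ha)) _ (H1.mem_conj_smul.1 hb)
  calc b * a = m * (m⁻¹ * b * m * (m⁻¹ * a * m)) * m⁻¹ := by group
    _ = _ := by rw [h1]; group

open Subgroup in
open scoped Pointwise in
theorem key {G : Type*} [Group G] [Finite G] {p : ℕ} [Fact p.Prime] (N : Subgroup G) [N.Normal]
    (ha : ∀ P, H1.IsSylowIn p P ⊤ → ⁅P, P⁆ ≤ N) (hb : ∀ P, H1.IsSylowIn p P ⊤ → P ⊓ N ≤ centralizer ((P ⊓ N : Subgroup G) : Set G))
    (hc : ∀ x : G, (∃ k : ℕ, orderOf x = p ^ k) → ¬ p ∣ (centralizer ({x} : Set G)).index)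
    {P : Subgroup G} (hP : H1.IsSylowIn p P ⊤) : P ≤ centralizer (P : Set G) := by
  have hn : ∀ H : Subgroup G, H ≤ normalizer (N : Set G) := fun H => by rw [normalizer_eq_top N]; exact le_top
  have h0 : ∀ P, H1.IsSylowIn p P ⊤ → ∀ x ∈ P, P ≤ normalizer ((N ⊓ P ⊔ zpowers x : Subgroup G) : Set G) :=
    fun P hP x hx => H1.le_normalizer_of_commutator_le (le_sup_of_le_left (le_inf (ha P hP)
      (commutator_le_self P))) (sup_le inf_le_right (zpowers_le.2 hx))
  have h1 : ∀ P, H1.IsSylowIn p P ⊤ → ∀ x ∈ P, H1.IsSylowIn p (N ⊓ P ⊔ zpowers x) (N ⊔ zpowers x) := by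
    intro P hP x hx
    have e : N ⊔ zpowers x = N ⊔ (N ⊓ P ⊔ zpowers x) := by rw [← sup_assoc, sup_inf_self]
    have := hP.inf (N := N ⊔ zpowers x) le_top (by rw [e]; exact H1.le_normalizer_sup (hn P) (h0 P hP x hx))
    rwa [inf_comm, H1.sup_inf_of_le_normalizer' (hn _) (zpowers_le.2 hx)] at this
  have h2 : ∀ P, H1.IsSylowIn p P ⊤ → ∀ x ∈ P, ∃ P1, H1.IsSylowIn p P1 ⊤ ∧ x ∈ P1 ∧ x ∈ centralizer (P1 : Set G) ∧
      ∃ m : G, MulAut.conj m • (N ⊓ P1 ⊔ zpowers x) = N ⊓ P ⊔ zpowers x := by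
    intro P hP x hx
    obtain ⟨k, hk⟩ := H26.exists_orderOf_of_mem hP.isPGroup hx
    obtain ⟨P1, h⟩ := H26.exists_sylow_le_of_not_dvd_index (hc x ⟨k, hk⟩)
    have h3 := H1.isSylowIn_top P1
    have h4 := H26.le_cent_iff.1 h
    have h5 : x ∈ (P1 : Subgroup G) := h3.le_of_le_normalizer' le_top (H26.isPGroup_zpowers_of_orderOf hk)
      ((zpowers_le.2 h4).trans (centralizer_le_normalizer _)) (mem_zpowers x)
    obtain ⟨m, -, hm⟩ := (h1 _ h3 x h5).exists_conj_eq (h1 P hP x hx)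
    exact ⟨P1, h3, h5, h4, m, hm⟩
  have h3 : ∀ P, H1.IsSylowIn p P ⊤ → N ⊓ P ≤ centralizer (P : Set G) := by
    intro P hP
    rw [le_centralizer_iff]
    intro x hx
    obtain ⟨P1, hP1, hx1, hx2, m, hm⟩ := h2 P hP x hx
    have h4 : N ⊓ P1 ⊔ zpowers x ≤ centralizer ((N ⊓ P1 ⊔ zpowers x : Subgroup G) : Set G) := by
      refine sup_le ?_ ((zpowers_le.2 hx2).trans (centralizer_le (sup_le inf_le_right (zpowers_le.2 hx1))))
      rw [le_centralizer_iff]
      refine sup_le ?_ ((zpowers_le.2 hx2).trans (centralizer_le inf_le_right))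
      rw [inf_comm]
      exact hb P1 hP1
    have h5 := conj_le_cent h4 m
    rw [hm] at h5
    exact centralizer_le (SetLike.coe_subset_coe.2 le_sup_left) (h5 (mem_sup_right (mem_zpowers x)))
  intro x hx
  obtain ⟨P1, hP1, -, hx2, m, hm⟩ := h2 P hP x hx
  have h4 := conj_le_cent (sup_le (h3 P1 hP1) (zpowers_le.2 hx2)) m
  rw [hm] at h4
  have h5 := hP1.conj_smul (g := m) (by rw [normalizer_eq_top ⊤]; trivial)
  obtain ⟨d, hd, e⟩ := (h5.of_le ((le_centralizer_iff.1 h4).trans (centralizer_le_normalizer _)) le_top).exists_conj_eq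
    (hP.of_le (h0 P hP x hx) le_top)
  have h6 := conj_le_cent h4 d
  rw [e, H1.conj_smul_eq_iff_mem_normalizer.2 hd] at h6
  exact h6 (mem_sup_right (mem_zpowers x))

/-- Let G be a finite group and p a prime such that the Sylow p-subgroups of G are non-abelian while every element of p-power order has conjugacy class size prime to p, and suppose no nontrivial proper normal subgroup N of G has this property and no quotient G/N by such an N has it. Then G is simple. -/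
theorem result {G : Type*} [Group G] [Finite G]
    (p : ℕ) [Fact p.Prime] (h : ((∃ P : Sylow p G, ¬ IsMulCommutative P) ∧ ∀ x : G, (∃ k : ℕ, orderOf x = p ^ k) → ¬ p ∣ (Subgroup.centralizer ({x} : Set G)).index))
    (hmin : ∀ (N : Subgroup G) [N.Normal], N ≠ ⊥ → N ≠ ⊤ →
      ¬ ((∃ P : Sylow p N, ¬ IsMulCommutative P) ∧ ∀ x : N, (∃ k : ℕ, orderOf x = p ^ k) → ¬ p ∣ (Subgroup.centralizer ({x} : Set N)).index) ∧
      ¬ ((∃ P : Sylow p (G ⧸ N), ¬ IsMulCommutative P) ∧ ∀ x : (G ⧸ N), (∃ k : ℕ, orderOf x = p ^ k) → ¬ p ∣ (Subgroup.centralizer ({x} : Set (G ⧸ N))).index)) :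
    IsSimpleGroup G := by
  obtain ⟨⟨P, hP⟩, hc⟩ := h
  haveI : Nontrivial G := by
    by_contra hn
    rw [not_nontrivial_iff_subsingleton] at hn
    exact hP ⟨⟨fun a b => Subsingleton.elim _ _⟩⟩
  refine ⟨fun N hN => ?_⟩
  by_contra hne
  rw [not_or] at hne
  obtain ⟨h1, h2⟩ := hmin N hne.1 hne.2
  have hs := QuotientGroup.mk'_surjective N
  have h3 : ∀ Q : Sylow p N, IsMulCommutative Q := by
    intro Q
    by_contra hQ
    refine h1 ⟨⟨Q, hQ⟩, ?_⟩
    rintro x ⟨k, hk⟩ hd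
    rw [H26.index_cent_subgroup] at hd
    refine hc x ⟨k, by rwa [Subgroup.orderOf_coe]⟩ ?_
    rw [H26.index_eq_index_sup_mul N]
    exact Dvd.dvd.mul_left hd _
  have h4 : ∀ Q : Sylow p (G ⧸ N), IsMulCommutative Q := by
    intro Q
    by_contra hQ
    refine h2 ⟨⟨Q, hQ⟩, ?_⟩
    intro x hk hd
    obtain ⟨x, rfl⟩ := hs x
    obtain ⟨y, -, hy, e⟩ := H26.exists_pElt_map_eq (QuotientGroup.mk' N) hk
    rw [← e] at hd
    exact hc y hy (hd.trans (H26.index_cent_map_dvd hs y))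
  apply hP
  rw [← Subgroup.le_centralizer_iff_isMulCommutative]
  refine key N ?_ ?_ hc (H1.isSylowIn_top P)
  · intro Q hQ
    have h5 := hQ.map (QuotientGroup.mk' N)
    rw [Subgroup.map_top_of_surjective _ hs] at h5
    obtain ⟨R, hR⟩ := h5.exists_sylow_top
    have h6 := Subgroup.le_centralizer_iff_isMulCommutative.2 (h4 R)
    rw [← Subgroup.commutator_eq_bot_iff_le_centralizer, hR, ← Subgroup.map_commutator, Subgroup.map_eq_bot_iff,
      QuotientGroup.ker_mk'] at h6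
    exact h6
  · intro Q hQ
    obtain ⟨R, hR⟩ := (hQ.inf (N := N) le_top (by rw [Subgroup.normalizer_eq_top N]; exact le_top)).exists_sylow
    have h6 := Subgroup.le_centralizer_iff_isMulCommutative.2 (h3 R)
    rw [← Subgroup.commutator_eq_bot_iff_le_centralizer] at h6 ⊢
    rw [← hR, ← Subgroup.map_commutator, h6, Subgroup.map_bot]

end Cfsg.Agent.S4354
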