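import Cfsg.Statements.S4359
import Cfsg.Agent.L0.Sims

set_option autoImplicit false
open Pointwise
open Cfsg

namespace Cfsg.Agent.S4359

open Subgroup Cfsg.Agent.H24 Cfsg.Agent.L0


/-- Let P be a subgroup of a finite group G and g an element such that P ∩ g⁻¹Pg is a normal subgroup of prime index p in g⁻¹Pg. Let n ≥ 1 and let K be the subgroup generated by P and its conjugates g⁻ⁱPgⁱ for i ≤ n. Suppose that g normalizes no non-identity normal subgroup of P and that P meets the center of K trivially. Then the order of P is pᵗ for some t with 1 ≤ t ≤ 3n and t ≠ 3n - 1. -/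
theorem result {G : Type*} [Group G] [Finite G]
    (P : Subgroup G) (g : G) (p : ℕ) (hp : p.Prime)
    (hN : ((P ⊓ MulAut.conj g⁻¹ • P).subgroupOf (MulAut.conj g⁻¹ • P)).Normal)
    (hidx : (P ⊓ MulAut.conj g⁻¹ • P).relIndex (MulAut.conj g⁻¹ • P) = p)
    (n : ℕ) (hn : 1 ≤ n) (K : Subgroup G) (hK : K = ⨆ i ∈ Finset.range (n + 1), MulAut.conj (g ^ i)⁻¹ • P)
    (h1 : ∀ Q : Subgroup G, Q ≤ P → (Q.subgroupOf P).Normal → MulAut.conj g • Q = Q → Q = ⊥)
    (h2 : P ⊓ (Subgroup.center K).map K.subtype = ⊥) :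
    ∃ t : ℕ, Nat.card P = p ^ t ∧ 1 ≤ t ∧ t ≤ 3 * n ∧ t ≠ 3 * n - 1 := by
  haveI := Fact.mk hp
  have hle : ∀ i ≤ n, cj P (g⁻¹ ^ i) ≤ K := fun i hi => by
    rw [hK, inv_pow, ← map_conj_eq_cj, map_inv]
    exact le_iSup₂_of_le (f := fun i (_ : i ∈ Finset.range (n + 1)) => MulAut.conj (g ^ i)⁻¹ • P) i
      (Finset.mem_range.2 (by omega)) (by rw [map_inv]; exact le_rfl)
  refine sims (h := g⁻¹) ((normal_subgroupOf_iff_le_normalizer inf_le_right).1 hN) hidx hn
    (fun Q h3 h4 h5 => h1 Q h3 (normal_subgroupOf_of_le_normalizer h4) (by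
      change cj Q g = Q
      rw [← h5, cj_inv_cj, h5])) fun x hx h3 => ?_
  have x1 : x ∈ K := hle 0 (by omega) (by simpa using hx)
  refine mem_bot.1 (h2.le ⟨hx, ⟨x, x1⟩, mem_center_iff.2 fun y => Subtype.ext ?_, rfl⟩)
  have : K ≤ centralizer {x} := by
    rw [hK]
    exact iSup₂_le fun i hi y hy => mem_centralizer_singleton_iff.2
      (mem_centralizer_iff.1 (h3 i (by have := Finset.mem_range.1 hi; omega)) y (by rw [inv_pow]; exact hy))
  exact mem_centralizer_singleton_iff.1 (this y.2)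

end Cfsg.Agent.S4359
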