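import Cfsg.Statements.S4370
import Cfsg.Agent.H26.Prod
import Cfsg.Agent.H1.Quaternion

set_option autoImplicit false
open Cfsg

namespace Cfsg.Agent.S4370

open QuaternionGroup in
theorem quat_cent {n : ℕ} [NeZero n] (x : QuaternionGroup n) (hx : x ∉ Subgroup.center _) :
    ∃ c : QuaternionGroup n, Subgroup.centralizer {x} ≤ Subgroup.zpowers c := by
  have : NeZero (2 * n) := ⟨mul_ne_zero two_ne_zero (NeZero.ne n)⟩
  have ha : ∀ j : ZMod (2 * n), a j ∈ Subgroup.zpowers (a 1 : QuaternionGroup n) := fun j =>
    ⟨(j.val : ℕ), by simp only [zpow_natCast]; rw [a_one_pow, ZMod.natCast_zmod_val]⟩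
  have h2 : ∀ j : ZMod (2 * n), -j = j → j = 0 ∨ j = n := fun j hj => by
    rcases (ZMod.neg_eq_self_iff j).mp hj with h | h
    · exact Or.inl h
    · right
      have : j.val = n := by omega
      rw [← ZMod.natCast_zmod_val j, this]
  have hnn : (n : ZMod (2 * n)) + n = 0 := by
    have := ZMod.natCast_self (2 * n)
    push_cast at this
    linear_combination this
  rcases x with i | i
  · refine ⟨a 1, fun y hy => ?_⟩
    rcases y with j | j
    · exact ha j
    · exfalso
      have h := Subgroup.mem_centralizer_singleton_iff.mp hy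
      simp only [a_mul_xa, xa_mul_a, xa.injEq] at h
      refine hx (Subgroup.mem_center_iff.mpr fun g => ?_)
      rcases g with l | l
      · simp [add_comm]
      · simp only [a_mul_xa, xa_mul_a, xa.injEq]
        linear_combination h
  · refine ⟨xa i, fun y hy => ?_⟩
    have h := Subgroup.mem_centralizer_singleton_iff.mp hy
    have h3 : (a n : QuaternionGroup n) ∈ Subgroup.zpowers (xa i) :=
      xa_sq i ▸ Subgroup.pow_mem _ (Subgroup.mem_zpowers _) 2
    rcases y with j | j
    · simp only [a_mul_xa, xa_mul_a, xa.injEq] at h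
      rcases h2 j (by linear_combination h) with rfl | rfl
      · exact Subgroup.one_mem _
      · exact h3
    · simp only [xa_mul_xa, a.injEq] at h
      rcases h2 (j - i) (by linear_combination h) with e | e
      · rw [sub_eq_zero.mp e]
        exact Subgroup.mem_zpowers _
      · have : xa j = xa i * a n := by
          rw [xa_mul_a, ← e]
          simp
        rw [this]
        exact mul_mem (Subgroup.mem_zpowers _) h3

/-- Let G be a finite non-abelian nilpotent group. Then the centralizer of every non-central element of G is cyclic if and only if G is isomorphic to the direct product of a generalized quaternion group and a cyclic group of odd order. -/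
theorem result {G : Type*} [Group G] [Finite G] (hG : Group.IsNilpotent G)
    (hna : ¬ IsMulCommutative G) :
    (∀ x : G, x ∉ Subgroup.center G → IsCyclic (Subgroup.centralizer ({x} : Set G))) ↔
      ∃ (k m : ℕ), 1 ≤ k ∧ Odd m ∧ Nonempty (G ≃* QuaternionGroup (2 ^ k) × Multiplicative (ZMod m)) := by
  constructor
  · intro h
    obtain ⟨x0, hx0⟩ : ∃ x : G, x ∉ Subgroup.center G := by
      by_contra hc
      push Not at hc
      exact hna ⟨⟨fun a b => (Subgroup.mem_center_iff.mp (hc b) a)⟩⟩
    have h1 : ∀ A : Subgroup G, IsMulCommutative A → IsCyclic A := fun A hA => by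
      by_cases hc : A ≤ Subgroup.center G
      · have := h x0 hx0
        exact Subgroup.isCyclic_of_le (hc.trans (Subgroup.center_le_centralizer {x0}))
      · obtain ⟨x, hx, hx'⟩ := SetLike.not_le_iff_exists.mp hc
        have := h x hx'
        refine Subgroup.isCyclic_of_le (H' := Subgroup.centralizer {x}) fun y hy => ?_
        exact Subgroup.mem_centralizer_singleton_iff.mpr (setLike_mul_comm hy hx)
    have h2 : ∀ (p : ℕ) [Fact p.Prime] (P : Subgroup G), IsPGroup p P → IsCyclic P ∨
        (p = 2 ∧ ∃ n : ℕ, 1 ≤ n ∧ Nonempty (P ≃* QuaternionGroup (2 ^ n))) := fun p _ P hP =>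
      H1.isCyclic_or_quaternion_of_forall_abelian_isCyclic hP fun A hA => by
        have := h1 (A.map P.subtype) inferInstance
        exact isCyclic_of_surjective _
          (Subgroup.equivMapOfInjective A P.subtype P.subtype_injective).symm.surjective
    obtain ⟨P⟩ : Nonempty (Sylow 2 G) := inferInstance
    obtain ⟨hP, H, hH, h3, h4, h5⟩ := H26.exists_sylow_compl_of_isNilpotent hG P
    have h6 : IsCyclic H := by
      refine h1 H (H2.isMulCommutative_of_isNilpotent_of_forall inferInstance fun q hq Q hQ hQq => ?_)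
      have := Fact.mk hq
      rcases h2 q Q hQq with h7 | ⟨rfl, n, hn, ⟨e⟩⟩
      · infer_instance
      · exfalso
        refine h3 (dvd_trans ?_ (Subgroup.card_dvd_of_le hQ))
        rw [Nat.card_congr e.toEquiv, Nat.card_eq_fintype_card, QuaternionGroup.card]
        exact ⟨2 * 2 ^ n, by ring⟩
    obtain ⟨e⟩ := H26.nonempty_mulEquiv_prod h4 h5
    rcases h2 2 P P.isPGroup' with h7 | ⟨-, n, hn, ⟨e'⟩⟩
    · exfalso
      refine hna ⟨⟨fun a b => e.injective ?_⟩⟩
      rw [map_mul, map_mul]
      exact Prod.ext (h7.isMulCommutative.1.1 _ _) (h6.isMulCommutative.1.1 _ _)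
    · exact ⟨n, Nat.card H, hn, Nat.odd_iff.mpr (Nat.two_dvd_ne_zero.mp h3),
        ⟨e.trans (MulEquiv.prodCongr e' (zmodCyclicMulEquiv h6).symm)⟩⟩
  · rintro ⟨k, m, hk, hm, ⟨e⟩⟩ x hx
    have : NeZero m := ⟨hm.pos.ne'⟩
    have h1 : (e x).1 ∉ Subgroup.center _ := fun hc => hx (Subgroup.mem_center_iff.mpr fun g =>
      e.injective (by
        rw [map_mul, map_mul]
        exact Prod.ext (Subgroup.mem_center_iff.mp hc _) (mul_comm _ _)))
    obtain ⟨c, hc⟩ := quat_cent _ h1
    have h2 : IsCyclic (Subgroup.zpowers c × Multiplicative (ZMod m)) := by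
      refine Group.isCyclic_prod_iff.mpr ⟨inferInstance, inferInstance, ?_⟩
      have h3 := Subgroup.card_subgroup_dvd_card (Subgroup.zpowers c)
      rw [Nat.card_eq_fintype_card (α := QuaternionGroup _), QuaternionGroup.card] at h3
      refine Nat.Coprime.coprime_dvd_left h3 ?_
      rw [show 4 * 2 ^ k = 2 ^ (k + 2) by ring]
      simpa using hm
    have h4 : ∀ y : Subgroup.centralizer {x}, (e y).1 ∈ Subgroup.zpowers c := fun y => hc (by
      rw [Subgroup.mem_centralizer_singleton_iff, ← Prod.fst_mul, ← Prod.fst_mul, ← map_mul, ← map_mul,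
        Subgroup.mem_centralizer_singleton_iff.mp y.2])
    let f : Subgroup.centralizer {x} →* Subgroup.zpowers c × Multiplicative (ZMod m) :=
      { toFun := fun y => (⟨(e y).1, h4 y⟩, (e y).2)
        map_one' := by simp [Prod.ext_iff]
        map_mul' := fun a b => by simp [Prod.ext_iff] }
    refine isCyclic_of_injective f fun a b hab => Subtype.ext (e.injective ?_)
    simp only [f, MonoidHom.coe_mk, OneHom.coe_mk, Prod.mk.injEq, Subtype.mk.injEq] at hab
    exact Prod.ext hab.1 hab.2

end Cfsg.Agent.S4370
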