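import Cfsg.Statements.S4372
import Cfsg.Agent.H26.DB13

set_option autoImplicit false
open Cfsg

namespace Cfsg.Agent.S4372


/-- Let the finite solvable group A act faithfully by automorphisms on the finite group K with the orders of A and K coprime. Then there are two elements x, y of K such that only the identity of A fixes both. -/
theorem result {A K : Type*} [Group A] [Finite A] [Group K] [Finite K]
    [MulDistribMulAction A K] [FaithfulSMul A K] (hA : Group.IsSolvable A) (hcop : (Nat.card A).Coprime (Nat.card K)) :
    ∃ x y : K, ∀ a : A, a • x = x → a • y = y → a = 1 := by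
  let φ := MulDistribMulAction.toMulAut A K
  let i : K →* K ⋊[φ] A := SemidirectProduct.inl
  let j : A →* K ⋊[φ] A := SemidirectProduct.inr
  have hi : Function.Injective i := SemidirectProduct.inl_injective
  have hj : Function.Injective j := SemidirectProduct.inr_injective
  have : Finite (K ⋊[φ] A) := Finite.of_equiv _ SemidirectProduct.equivProd.symm
  have e : ∀ a x, i x * j a = j a * i x ↔ a • x = x := fun a x => by
    rw [eq_comm, ← mul_inv_eq_iff_eq_mul, ← map_inv, ← SemidirectProduct.inl_aut, hi.eq_iff]; rfl
  have : i.range.Normal := SemidirectProduct.range_inl_eq_ker_rightHom (φ := φ) ▸ inferInstance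
  obtain ⟨_, ⟨x, rfl⟩, _, ⟨y, rfl⟩, h⟩ := H26.DB.two_pts (A := j.range) (K := i.range)
    (by rw [Subgroup.normalizer_eq_top]; exact le_top)
    (by rwa [← Nat.card_congr (MonoidHom.ofInjective hi).toEquiv, ← Nat.card_congr (MonoidHom.ofInjective hj).toEquiv])
    (solvable_of_surjective j.rangeRestrict_surjective)
  exact ⟨x, y, fun a h1 h2 => FaithfulSMul.eq_of_smul_eq_smul (α := K) fun z => by
    rw [one_smul]; exact (e a z).1 (h _ ⟨a, rfl⟩ ((e a x).2 h1) ((e a y).2 h2) _ ⟨z, rfl⟩)⟩

end Cfsg.Agent.S4372
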