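import Cfsg.Statements.S4373
import Cfsg.Agent.H26.DB13
import Cfsg.Agent.H1.PiSep
import Cfsg.Agent.H1.Hall

set_option autoImplicit false
open Pointwise
open Cfsg

namespace Cfsg.Agent.S4373


/-- Let π be a set of primes and G a finite π-solvable group: G has a chain of normal subgroups from 1 to G in which each successive index is a power of a prime in π or is divisible by no prime in π. Let H be a Hall π-subgroup of G. Then there are x, y ∈ G with H ∩ xHx⁻¹ ∩ yHy⁻¹ = O_π(G), the largest normal π-subgroup. -/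
theorem result {G : Type*} [Group G] [Finite G] (π : Set ℕ)
    (hsolv : (∃ (n : ℕ) (N : Fin (n + 1) → Subgroup G), N 0 = ⊥ ∧ N (Fin.last n) = ⊤ ∧ Monotone N ∧ (∀ i, (N i).Normal) ∧
      ∀ i : Fin n, (∃ p ∈ π, p.Prime ∧ ∃ k : ℕ, (N i.castSucc).relIndex (N i.succ) = p ^ k) ∨
        (∀ q : ℕ, q.Prime → q ∣ (N i.castSucc).relIndex (N i.succ) → q ∉ π))) (H : Subgroup G) (hH : Cfsg.IsPiHall π H) :
    ∃ x y : G, H ⊓ MulAut.conj x • H ⊓ MulAut.conj y • H = Cfsg.piCore π G := by
  obtain ⟨n, N, h0, h1, hm, hn, h⟩ := hsolv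
  have hπ := (H1.isPiHall_iff.1 hH).1
  have hs : ∀ i, Group.IsSolvable (H ⊓ N i :) := fun i => by
    induction i using Fin.induction with
    | zero => rw [h0, inf_bot_eq]; infer_instance
    | succ i ih =>
      let f := QuotientGroup.mk' (N i.castSucc)
      have k1 : Nat.card ((H ⊓ N i.succ).map f) ∣ (N i.castSucc).relIndex (N i.succ) := by
        have := Subgroup.relIndex_ker (N i.succ) f
        rw [QuotientGroup.ker_mk'] at this
        exact this ▸ Subgroup.card_dvd_of_le (Subgroup.map_mono inf_le_right)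
      have : Group.IsSolvable ((H ⊓ N i.succ).map f) := by
        rcases h i with ⟨p, -, hp, k, e⟩ | e
        · have := Fact.mk hp
          obtain ⟨j, -, hj⟩ := (Nat.dvd_prime_pow hp).1 (e ▸ k1)
          exact H1.isSolvable_of_isPGroup (.of_card hj)
        · exact H1.isSolvable_of_isPGroup (p := 2) (.of_card (n := 0) ((hπ.of_dvd ((Subgroup.card_map_dvd _ _).trans
            (Subgroup.card_dvd_of_le inf_le_left))).eq_one fun q hq d => e q hq (d.trans k1)))
      exact solvable_of_ker_le_range (Subgroup.inclusion (inf_le_inf_left H (hm i.castSucc_le_succ)))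
        (f.subgroupMap _) fun x hx => ⟨⟨x, x.2.1, (QuotientGroup.eq_one_iff _).1 (congrArg Subtype.val hx)⟩, rfl⟩
  have hs1 := hs (Fin.last n)
  rw [h1, inf_top_eq] at hs1
  have hp : H1.PiSep π G := H1.piSep_of_chain N h0 h1 hn fun i => (h i).imp
    (fun ⟨p, a, b, k, e⟩ q hq d => (Nat.prime_dvd_prime_iff_eq hq b).1 (hq.dvd_of_dvd_pow (e ▸ d)) ▸ a) id
  let f := QuotientGroup.mk' (piCore π G)
  have hf : Function.Surjective f := QuotientGroup.mk'_surjective _
  have e : ∀ σ, piCoreOf σ (⊤ : Subgroup (G ⧸ piCore π G)) = piCore σ _ := fun σ =>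
    (H1.map_subtype_piCore_eq ⊤).trans (inf_top_eq _)
  have hc := (hp.of_surjective f hf).compl.cent_piCore_le (by rw [compl_compl, e, H1.piCore_quotient_piCore])
  rw [e] at hc
  have hcop := (H1.isPiHall_iff.1 (H1.isPiHall_map hH hf)).1.coprime (H1.isPiNum_card_piCore πᶜ (G ⧸ piCore π G))
  have hd := fun {x} => Subgroup.disjoint_def.1 (disjoint_iff.2 (Subgroup.inf_eq_bot_of_coprime hcop)) (x := x)
  obtain ⟨x, hx, y, hy, k⟩ := H26.DB.two_pts (by rw [Subgroup.normalizer_eq_top]; exact le_top) hcop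
    (solvable_of_surjective (f.subgroupMap_surjective H))
  obtain ⟨x, rfl⟩ := hf x
  obtain ⟨y, rfl⟩ := hf y
  have k1 : ∀ z g, f z ∈ piCore πᶜ _ → g ∈ H → g ∈ MulAut.conj z • H → f z * f g = f g * f z := fun z g hz a b => by
    have := hd (mul_mem (inv_mem (Subgroup.mem_map_of_mem f a))
      (Subgroup.mem_map_of_mem f (Subgroup.mem_pointwise_smul_iff_inv_smul_mem.1 b))) (by
      have := mul_mem (Subgroup.Normal.conj_mem inferInstance _ (inv_mem hz) (f g)⁻¹) hz
      simpa [mul_assoc] using this)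
    simp only [MulAut.smul_def, MulAut.conj_inv_apply, map_mul, map_inv] at this
    rw [inv_mul_eq_one, mul_assoc, eq_inv_mul_iff_mul_eq] at this
    exact this
  refine ⟨x, y, le_antisymm (fun g hg => (QuotientGroup.eq_one_iff g).1 (hd ⟨g, hg.1.1, rfl⟩
    (hc (k _ ⟨g, hg.1.1, rfl⟩ (k1 x g hx hg.1.1 hg.1.2) (k1 y g hy hg.1.1 hg.2))))) ?_⟩
  exact le_inf (le_inf (H1.piCore_le_of_isPiHall hH) (H1.piCore_le_of_isPiHall (H1.isPiHall_conj_smul hH x)))
    (H1.piCore_le_of_isPiHall (H1.isPiHall_conj_smul hH y))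

end Cfsg.Agent.S4373
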