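import Cfsg.Statements.S4377


set_option autoImplicit false
open Cfsg

namespace Cfsg.Agent.S4377

theorem aux {G : Type*} [Group G] [Finite G] (n : ℕ) (hn : n ≠ 0) :
    Nat.card {g : G // g ^ n = 1} = ∑ d ∈ n.divisors, Nat.card {g : G // orderOf g = d} := by
  classical
  have := Fintype.ofFinite G
  simp only [Nat.card_eq_fintype_card, Fintype.card_subtype]
  rw [sum_card_orderOf_eq_card_pow_eq_one hn]

theorem aux0 {G : Type*} [Group G] [Finite G] :
    Nat.card {g : G // orderOf g = 0} = 0 := by
  rw [Nat.card_eq_zero]
  left
  exact ⟨fun x => (orderOf_pos x.1).ne' x.2⟩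

theorem aux1 {G : Type*} [Group G] [Finite G] (n : ℕ) (hn : Nat.card G ∣ n) :
    Nat.card {g : G // g ^ n = 1} = Nat.card G :=
  Nat.card_congr (Equiv.subtypeUnivEquiv fun g =>
    orderOf_dvd_iff_pow_eq_one.mp ((orderOf_dvd_natCard g).trans hn))

/-- Two finite groups have the same number of elements of each order if and only if, for every n, they have the same number of elements g with gⁿ = 1. -/
theorem result {G H : Type*} [Group G] [Finite G] [Group H] [Finite H] :
    (∀ n : ℕ, Nat.card {g : G // orderOf g = n} = Nat.card {h : H // orderOf h = n}) ↔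
      ∀ n : ℕ, Nat.card {g : G // g ^ n = 1} = Nat.card {h : H // h ^ n = 1} := by
  constructor
  · intro h n
    by_cases hn : n = 0
    · subst hn
      have h0 : Nat.card G * Nat.card H ≠ 0 := (Nat.mul_pos Nat.card_pos Nat.card_pos).ne'
      have a1 := aux1 (G := G) _ (Dvd.intro _ rfl : Nat.card G ∣ Nat.card G * Nat.card H)
      have a2 := aux1 (G := H) _ (Dvd.intro_left _ rfl : Nat.card H ∣ Nat.card G * Nat.card H)
      rw [aux _ h0] at a1 a2
      rw [aux1 0 (dvd_zero _), aux1 0 (dvd_zero _)]
      refine a1.symm.trans (Eq.trans ?_ a2)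
      exact Finset.sum_congr rfl fun d _ => h d
    · rw [aux n hn, aux n hn]
      exact Finset.sum_congr rfl fun d _ => h d
  · intro h n
    induction n using Nat.strong_induction_on with
    | _ n ih =>
      by_cases hn : n = 0
      · subst hn
        rw [aux0, aux0]
      · have h1 := h n
        rw [aux n hn, aux n hn, ← Nat.insert_self_properDivisors hn,
          Finset.sum_insert Nat.self_notMem_properDivisors,
          Finset.sum_insert Nat.self_notMem_properDivisors,
          Finset.sum_congr rfl fun d hd => ih d (Nat.mem_properDivisors.mp hd).2] at h1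
        exact Nat.add_right_cancel h1

end Cfsg.Agent.S4377
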