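import Cfsg.Statements.S4381
import Cfsg.Agent.H26.InvMaschke
import Cfsg.Agent.H2.Basic

set_option autoImplicit false
open Pointwise
open Cfsg

namespace Cfsg.Agent.S4381


/-- Let the finite group A act by automorphisms on the finite group G with the orders of A and G coprime, and assume that A or G is solvable. Call a proper A-invariant subgroup of G maximal A-invariant when no A-invariant subgroup lies strictly between it and G. Then all maximal A-invariant subgroups of G are conjugate under elements of the fixed-point subgroup C_G(A) if and only if G is a p-group for some prime p and A leaves invariant no subgroup strictly between the Frattini subgroup of G and G. In that case, if G is nontrivial, the Frattini subgroup is the only maximal A-invariant subgroup (a trivial G has none). -/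
theorem result {A G : Type*} [Group A] [Finite A]
    [Group G] [Finite G] [MulDistribMulAction A G] (hcop : (Nat.card A).Coprime (Nat.card G)) (hsol : Group.IsSolvable A ∨ Group.IsSolvable G) :
    ((∀ M N : Subgroup G, (M ≠ ⊤ ∧ (∀ a : A, ∀ x ∈ M, a • x ∈ M) ∧ ∀ L : Subgroup G, M < L → (∀ a : A, ∀ x ∈ L, a • x ∈ L) → L = ⊤) → (N ≠ ⊤ ∧ (∀ a : A, ∀ x ∈ N, a • x ∈ N) ∧ ∀ L : Subgroup G, N < L → (∀ a : A, ∀ x ∈ L, a • x ∈ L) → L = ⊤) →
        ∃ c : G, (∀ a : A, a • c = c) ∧ N = MulAut.conj c • M) ↔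
      ((∃ p : ℕ, p.Prime ∧ IsPGroup p G) ∧ ∀ L : Subgroup G, frattini G < L → (∀ a : A, ∀ x ∈ L, a • x ∈ L) → L = ⊤)) ∧
    (((∃ p : ℕ, p.Prime ∧ IsPGroup p G) ∧ ∀ L : Subgroup G, frattini G < L → (∀ a : A, ∀ x ∈ L, a • x ∈ L) → L = ⊤) →
      ∀ M : Subgroup G, (M ≠ ⊤ ∧ (∀ a : A, ∀ x ∈ M, a • x ∈ M) ∧ ∀ L : Subgroup G, M < L → (∀ a : A, ∀ x ∈ L, a • x ∈ L) → L = ⊤) ↔ (M = frattini G ∧ M ≠ ⊤)) := by
  have hΦ : ∀ a : A, ∀ x ∈ frattini G, a • x ∈ frattini G := H26.smul_mem_of_characteristic _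
  have hsup : ∀ M : Subgroup G, (∀ a : A, ∀ x ∈ M, a • x ∈ M) →
      ∀ a : A, ∀ x ∈ frattini G ⊔ M, a • x ∈ frattini G ⊔ M := fun M hM a x hx => by
    obtain ⟨n, hn, y, hy, rfl⟩ := (H1.mem_sup_of_le_normalizer_left Subgroup.le_normalizer_of_normal).mp hx
    rw [smul_mul']
    exact mul_mem (Subgroup.mem_sup_left (hΦ a n hn)) (Subgroup.mem_sup_right (hM a y hy))
  have hle : ∀ M : Subgroup G, (M ≠ ⊤ ∧ (∀ a : A, ∀ x ∈ M, a • x ∈ M) ∧
      ∀ L : Subgroup G, M < L → (∀ a : A, ∀ x ∈ L, a • x ∈ L) → L = ⊤) → frattini G ≤ M := by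
    intro M hM
    by_contra hc
    have := hM.2.2 _ (right_lt_sup.mpr hc) (hsup M hM.2.1)
    exact hM.1 (frattini_nongenerating (by rwa [sup_comm]))
  have h2 : (∀ L : Subgroup G, frattini G < L → (∀ a : A, ∀ x ∈ L, a • x ∈ L) → L = ⊤) →
      ∀ M : Subgroup G, (M ≠ ⊤ ∧ (∀ a : A, ∀ x ∈ M, a • x ∈ M) ∧
        ∀ L : Subgroup G, M < L → (∀ a : A, ∀ x ∈ L, a • x ∈ L) → L = ⊤) ↔ (M = frattini G ∧ M ≠ ⊤) := by
    intro h M
    constructor
    · intro hM
      refine ⟨?_, hM.1⟩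
      by_contra hc
      exact hM.1 (h M (lt_of_le_of_ne (hle M hM) (Ne.symm hc)) hM.2.1)
    · rintro ⟨rfl, h1⟩
      exact ⟨h1, hΦ, h⟩
  refine ⟨⟨fun h => ?_, fun h M N hM hN => ⟨1, fun a => smul_one a, ?_⟩⟩, fun h => h2 h.2⟩
  swap
  · rw [((h2 h.2 M).mp hM).1, ((h2 h.2 N).mp hN).1, map_one, one_smul]
  have hex : ∀ L : Subgroup G, L ≠ ⊤ → (∀ a : A, ∀ x ∈ L, a • x ∈ L) → ∃ M : Subgroup G, L ≤ M ∧
      (M ≠ ⊤ ∧ (∀ a : A, ∀ x ∈ M, a • x ∈ M) ∧
        ∀ L : Subgroup G, M < L → (∀ a : A, ∀ x ∈ L, a • x ∈ L) → L = ⊤) := by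
    intro L h1 h2
    obtain ⟨M, h3, hM⟩ := Finite.exists_le_maximal
      (p := fun M : Subgroup G => M ≠ ⊤ ∧ ∀ a : A, ∀ x ∈ M, a • x ∈ M) (a := L) ⟨h1, h2⟩
    refine ⟨M, h3, hM.1.1, hM.1.2, fun K hK hK' => ?_⟩
    by_contra hc
    exact hK.not_ge (hM.2 ⟨hc, hK'⟩ hK.le)
  rcases subsingleton_or_nontrivial G with hG | hG
  · exact ⟨⟨2, Nat.prime_two, IsPGroup.of_card (n := 0) (by simp)⟩, fun L _ _ => Subsingleton.elim _ _⟩
  obtain ⟨M, -, hM⟩ := hex ⊥ bot_ne_top (fun a x hx => by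
    rw [Subgroup.mem_bot.mp hx, smul_one]; exact Subgroup.one_mem _)
  obtain ⟨p, hp, hd⟩ := Nat.exists_prime_and_dvd (n := M.index) (by
    rw [Ne, Subgroup.index_eq_one]; exact hM.1)
  have := Fact.mk hp
  obtain ⟨P, hP⟩ := H26.exists_inv_sylow hcop hsol p
  have hG : IsPGroup p G := by
    by_contra hc
    obtain ⟨N, h3, hN⟩ := hex P (fun e => hc (P.isPGroup'.of_surjective (P : Subgroup G).subtype
      fun x => ⟨⟨x, e ▸ Subgroup.mem_top x⟩, rfl⟩)) hP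
    obtain ⟨c, -, rfl⟩ := h M N hM hN
    exact P.not_dvd_index (hd.trans (H1.index_conj_smul c M ▸ Subgroup.index_dvd_of_le h3))
  have := hG.isNilpotent
  have hMn : M.Normal := ⟨fun x hx g => by
    have h3 : g * x * g⁻¹ * x⁻¹ ∈ M := hle M hM (H1.commutator_le_frattini
      (Subgroup.commutator_mem_commutator (Subgroup.mem_top g) (Subgroup.mem_top x)))
    simpa using M.mul_mem h3 hx⟩
  have huniq : ∀ L : Subgroup G, L ≠ ⊤ → (∀ a : A, ∀ x ∈ L, a • x ∈ L) → L ≤ M := fun L h3 h4 => by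
    obtain ⟨N, h5, hN⟩ := hex L h3 h4
    obtain ⟨c, -, rfl⟩ := h M N hM hN
    rwa [Subgroup.Normal.conj_smul_eq_self c M] at h5
  have hMΦ : M = frattini G := by
    obtain ⟨W, h3, h4, h5⟩ := H26.exists_inv_compl (p := p)
      (hcop.coprime_dvd_right (hd.trans M.index_dvd_card)) hΦ hM.2.1 (hle M hM)
      H1.commutator_le_frattini (H1.pow_mem_frattini hG)
    by_cases hW : W = ⊤
    · rwa [hW, inf_top_eq] at h3
    · exact absurd (by rwa [sup_eq_left.mpr (huniq W hW h5)] at h4) hM.1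
  refine ⟨⟨p, hp, hG⟩, fun L hL hL' => ?_⟩
  by_contra hc
  exact hL.not_ge (hMΦ ▸ huniq L hc hL')

end Cfsg.Agent.S4381
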