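import Cfsg.Statements.S4387
import Cfsg.Agent.H2.Frattini
import Cfsg.Agent.H4.Frobenius

set_option autoImplicit false
open Pointwise
open Cfsg

namespace Cfsg.Agent.S4387


/-- Let G be a non-trivial finite group in which any two maximal subgroups are conjugate. Then G is cyclic of prime-power order. -/
theorem result {G : Type*} [Group G] [Finite G] [Nontrivial G]
    (h : ∀ M N : Subgroup G, IsCoatom M → IsCoatom N → ∃ g : G, N = MulAut.conj g • M) :
    IsCyclic G ∧ IsPrimePow (Nat.card G) := by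
  obtain ⟨M, hM, -⟩ := H2.exists_isCoatom_ge (bot_ne_top (α := Subgroup G))
  have h1 : ∃ g : G, ∀ x : G, x * g * x⁻¹ ∉ M := by
    by_contra hn
    push Not at hn
    exact hM.1 (H4.eq_top_of_forall_exists_conj_mem M hn)
  obtain ⟨g, hg⟩ := h1
  have h2 : Subgroup.zpowers g = ⊤ := by
    by_contra hn
    obtain ⟨N, hN, hle⟩ := H2.exists_isCoatom_ge hn
    obtain ⟨x, rfl⟩ := h M N hM hN
    have := H1.mem_conj_smul.mp (hle (Subgroup.mem_zpowers g))
    exact hg x⁻¹ (by simpa using this)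
  have hc : IsCyclic G := ⟨⟨g, fun x => by
    have : x ∈ Subgroup.zpowers g := h2 ▸ Subgroup.mem_top x
    exact this⟩⟩
  refine ⟨hc, ?_⟩
  by_contra hn
  apply hM.1
  rw [eq_top_iff]
  apply H1.le_of_forall_pSubgroup_le
  intro p hp _ P _ hP
  have : Fact p.Prime := ⟨hp⟩
  have hPt : P ≠ ⊤ := by
    rintro rfl
    obtain ⟨k, hk⟩ := IsPGroup.iff_card.mp hP
    rw [Subgroup.card_top] at hk
    apply hn
    rw [hk]
    refine (isPrimePow_nat_iff _).mpr ⟨p, k, hp, Nat.pos_of_ne_zero ?_, rfl⟩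
    rintro rfl
    exact (Finite.one_lt_card (α := G)).ne' hk
  obtain ⟨N, hN, hle⟩ := H2.exists_isCoatom_ge hPt
  obtain ⟨x, rfl⟩ := h M N hM hN
  intro y hy
  have h3 := H1.mem_conj_smul.mp (hle hy)
  have h4 : x⁻¹ * y * x = y := by
    rw [mul_assoc, mul_comm' y x]; group
  rwa [h4] at h3

end Cfsg.Agent.S4387
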