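import Cfsg.Statements.S4396
import Mathlib
import Cfsg.Agent.H2.NB

set_option autoImplicit false
open Cfsg

namespace Cfsg.Agent.S4396

open H2.NB
open scoped Pointwise

/-- Let the finite group A act faithfully and linearly on a finite-dimensional vector space V over a field k, and suppose A is a Frobenius group with nilpotent kernel F (every Frobenius kernel is nilpotent) and complement H such that F fixes no nonzero vector. Then V is free as a module for H: there is a subspace W with V the direct sum of the translates hW, h ∈ H. (No assumption on the characteristic of k.) -/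
theorem result {k V A : Type*} [Field k] [AddCommGroup V] [Module k V] [FiniteDimensional k V] [Group A] [Finite A] [DecidableEq A]
    (ρ : Representation k A V) (hρ : Function.Injective ρ)
    (Fk Hc : Subgroup A) [Fk.Normal] (hHc : Cfsg.IsFrobeniusComplement Hc) (hker : Cfsg.frobeniusKernel Hc = (Fk : Set A)) (hnil : Group.IsNilpotent ↥Fk)
    (hCF : ∀ v : V, (∀ f ∈ Fk, ρ f v = v) → v = 0) :
    ∃ W : Submodule k V, DirectSum.IsInternal (fun h : ↥Hc => W.map (ρ (h : A))) := by
  classical
  letI := Fintype.ofFinite Hc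
  have hr : ∀ h ∈ Hc, h ≠ 1 → ∀ z ∈ Fk, h * z = z * h → z = 1 := fun h hh h1 z hz e => by
    have h2 : z ∈ Hc := by_contra fun hz' => h1 (Subgroup.mem_bot.1 (hHc.2.2 z hz' ▸ (⟨hh,
      Subgroup.mem_pointwise_smul_iff_inv_smul_mem.2 (by
        simpa [mul_assoc, e] using hh)⟩ : h ∈ Hc ⊓ MulAut.conj z • Hc)))
    have h3 : z ∈ frobeniusKernel Hc := hker ▸ hz
    exact h3.resolve_right fun h4 => h4 1 (by simpa using h2)
  obtain ⟨F, hF, hFk, hk, h0⟩ : ∃ F : Subgroup A, F.Normal ∧ F ≤ Fk ∧ (Nat.card F : k) ≠ 0 ∧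
      ∀ v : V, (∀ f ∈ F, ρ f v = v) → v = 0 := by
    obtain ⟨p, hp⟩ := CharP.exists k
    rcases CharP.char_is_prime_or_zero k p with h | rfl
    swap
    · haveI := CharP.charP_to_charZero k
      exact ⟨Fk, inferInstance, le_rfl, Nat.cast_ne_zero.2 Nat.card_pos.ne', hCF⟩
    haveI := Fact.mk h
    refine ⟨(pPrimeCore p Fk).map Fk.subtype, inferInstance, Subgroup.map_subtype_le _, ?_,
      fun v hv => by_contra fun h0 => ?_⟩
    · rw [Ne, CharP.cast_eq_zero_iff k p, Subgroup.card_subtype]
      exact H1.not_dvd_card_pPrimeCore p Fk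
    let U : Submodule k V := ⨅ f : pPrimeCore p Fk, LinearMap.eqLocus (ρ (f : Fk)) LinearMap.id
    obtain ⟨u, hu, hu0, h1⟩ := exists_fixed ρ ((pCore p Fk).map Fk.subtype)
      (H1.isPGroup_map_pCore p Fk) U (by
        rintro _ ⟨g, -, rfl⟩ w hw
        refine (Submodule.mem_iInf _).2 fun f => ?_
        have := (Submodule.mem_iInf _).1 hw ⟨_, Subgroup.Normal.conj_mem inferInstance _ f.2 g⁻¹⟩
        change ρ ((g : A)⁻¹ * (f : Fk) * (g : A)⁻¹⁻¹) w = w at this
        change ρ (f : Fk) (ρ g w) = ρ g w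
        conv_rhs => rw [← this]
        simp only [← Module.End.mul_apply, ← map_mul]
        congr 2; group) (v := v)
      ((Submodule.mem_iInf _).2 fun f => hv _ ⟨f, f.2, rfl⟩) h0
    refine hu0 (hCF u fun f hf => ?_)
    have h2 := H1.fittingSubgroup_le_pCore_sup_pPrimeCore (G := Fk) p
      (H1.fittingSubgroup_eq_top_iff.2 hnil ▸ Subgroup.mem_top (⟨f, hf⟩ : Fk))
    rw [← SetLike.mem_coe, Subgroup.normal_mul] at h2
    obtain ⟨a, ha, b, hb, e⟩ := h2
    obtain rfl : (a : A) * b = f := congrArg Subtype.val e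
    have h3 : ρ b u = u := (Submodule.mem_iInf _).1 hu ⟨b, hb⟩
    rw [map_mul, Module.End.mul_apply, h3, h1 a ⟨a, ha, rfl⟩]
  obtain ⟨W, a1, a2⟩ := free_nil Hc F (H1.isNilpotent_of_le hFk hnil) hk
    (fun h hh h1 z hz => hr h hh h1 z (hFk hz)) _ V ρ rfl h0
  refine ⟨W, (DirectSum.isInternal_submodule_iff_iSupIndep_and_iSup_eq_top _).2 ⟨?_, ?_⟩⟩
  · rw [iSupIndep_iff_finsetSum_eq_zero_imp_eq_zero]
    intro s v hv e i hi
    choose! w hw hw' using hv
    have := a1 (fun h => if h ∈ s then w h else 0) (fun h => by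
      split_ifs with h1
      exacts [hw h h1, zero_mem _]) (by
      rw [← Finset.sum_subset (Finset.subset_univ s) fun h _ h1 => by simp [h1]]
      refine Eq.trans ?_ e
      exact Finset.sum_congr rfl fun h h1 => by rw [if_pos h1, hw' h h1]) i
    rw [if_pos hi] at this
    rw [← hw' i hi, this, map_zero]
  · refine eq_top_iff.2 fun v _ => ?_
    obtain ⟨w, hw, rfl⟩ := a2 v
    exact sum_mem fun h _ => Submodule.mem_iSup_of_mem h ⟨_, hw h, rfl⟩

end Cfsg.Agent.S4396
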