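import Cfsg.Statements.S4400
import Cfsg.Agent.H26.SRank2

set_option autoImplicit false
open Cfsg

namespace Cfsg.Agent.S4400


/-- Let S be a finite 2-group of sectional 2-rank at most 4, and let P and Q be normal non-abelian subgroups of S whose centres have order 2 and are different. Then P and Q commute elementwise and intersect trivially, and PQ contains its own centralizer in S. -/
theorem result {S : Type*} [Group S] [Finite S] (h2 : IsPGroup 2 S) (hr : Cfsg.SectionalPRankLE 2 4 S)
    (P Q : Subgroup S) [P.Normal] [Q.Normal] (hP : ¬ IsMulCommutative ↥P) (hQ : ¬ IsMulCommutative ↥Q)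
    (hZP : Nat.card ↥(Subgroup.center ↥P) = 2) (hZQ : Nat.card ↥(Subgroup.center ↥Q) = 2)
    (hne : (Subgroup.center ↥P).map P.subtype ≠ (Subgroup.center ↥Q).map Q.subtype) :
    ⁅P, Q⁆ = ⊥ ∧ P ⊓ Q = ⊥ ∧ Subgroup.centralizer ((P ⊔ Q : Subgroup S) : Set S) ≤ P ⊔ Q := by
  have c1 : Nat.card ↥(P ⊓ Subgroup.centralizer (P : Set S)) = 2 := by
    rw [← H26.map_center_eq, Subgroup.card_map_of_injective P.subtype_injective, hZP]
  have c2 : Nat.card ↥(Q ⊓ Subgroup.centralizer (Q : Set S)) = 2 := by
    rw [← H26.map_center_eq, Subgroup.card_map_of_injective Q.subtype_injective, hZQ]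
  rw [H26.map_center_eq, H26.map_center_eq] at hne
  obtain ⟨a, b, c⟩ := H26.two_normal h2 (H26.sr_of_sectional hr) (T := ⊤) le_top le_top
    (H2.le_normalizer_of_normal' P _) (H2.le_normalizer_of_normal' Q _) hP hQ c1 c2 hne
  refine ⟨?_, a, c⟩
  rw [Subgroup.commutator_eq_bot_iff_le_centralizer]
  intro x hx y hy
  exact (b x hx y hy).symm

end Cfsg.Agent.S4400
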