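import Cfsg.Statements.S4401
import Cfsg.Agent.H26.SRank2

set_option autoImplicit false
open Cfsg

namespace Cfsg.Agent.S4401

open Subgroup H11

structure Good {S : Type*} [Group S] (P : Subgroup S) (z : S) (T : Subgroup S) : Prop where
  le : P ≤ T
  norm : T ≤ normalizer (P : Set S)
  na : ¬ IsMulCommutative P
  card : Nat.card ↥(P ⊓ centralizer (P : Set S)) = 2
  mem : ∀ x, x ∈ P ⊓ centralizer (P : Set S) ↔ x = 1 ∨ x = z

theorem Good.conj {S : Type*} [Group S] {P : Subgroup S} {z : S} {T : Subgroup S} (h : Good P z T)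
    {g : S} (hg : g ∈ normalizer (T : Set S)) : Good (cj g P) (g * z * g⁻¹) T := by
  have e : cj g P ⊓ centralizer ((cj g P : Subgroup S) : Set S) = cj g (P ⊓ centralizer (P : Set S)) := by
    rw [cj_inf, cj_centralizer]
  refine ⟨?_, ?_, fun hc => h.na ?_, ?_, fun x => ?_⟩
  · rw [← cj_eq_iff.2 hg]; exact cj_mono g h.le
  · rw [← cj_normalizer, ← cj_eq_iff.2 hg]; exact cj_mono g h.norm
  · refine H3.isMulCommutative_iff_mem.2 fun a ha b hb => ?_
    have := H3.isMulCommutative_iff_mem.1 hc (g * a * g⁻¹) (mem_cj.2 (by simpa [mul_assoc] using ha))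
      (g * b * g⁻¹) (mem_cj.2 (by simpa [mul_assoc] using hb))
    calc a * b = g⁻¹ * (g * a * g⁻¹ * (g * b * g⁻¹)) * g := by group
      _ = b * a := by rw [this]; group
  · rw [e, card_cj, h.card]
  · rw [e, mem_cj, h.mem]
    constructor
    · rintro (h | h)
      · left; calc x = g * (g⁻¹ * x * g) * g⁻¹ := by group
          _ = 1 := by rw [h]; group
      · right; rw [← h]; group
    · rintro (rfl | rfl)
      · left; group
      · right; group

theorem Good.two {S : Type*} [Group S] [Finite S] (h2 : IsPGroup 2 S) (hr : SR 4 (⊤ : Subgroup S))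
    {P Q T : Subgroup S} {z w : S} (hP : Good P z T) (hQ : Good Q w T) (hz : z ≠ 1) (hne : z ≠ w) :
    P ⊓ Q = ⊥ ∧ (∀ a ∈ P, ∀ b ∈ Q, a * b = b * a) ∧
      centralizer ((P ⊔ Q : Subgroup S) : Set S) ≤ P ⊔ Q :=
  H26.two_normal h2 hr hP.le hQ.le hP.norm hQ.norm hP.na hQ.na hP.card hQ.card fun h => by
    have := (hP.mem z).2 (Or.inr rfl)
    rw [h, hQ.mem] at this
    tauto

theorem mem_cent_sup {S : Type*} [Group S] {P Q : Subgroup S} {y : S}
    (h1 : ∀ a ∈ P, a * y = y * a) (h2 : ∀ a ∈ Q, a * y = y * a) :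
    y ∈ centralizer ((P ⊔ Q : Subgroup S) : Set S) := by
  have : P ⊔ Q ≤ centralizer ({y} : Set S) := sup_le
    (fun a ha => mem_centralizer_singleton_iff.2 (h1 a ha))
    (fun a ha => mem_centralizer_singleton_iff.2 (h2 a ha))
  intro a ha
  exact mem_centralizer_singleton_iff.1 (this ha)

/-- Let S be a finite 2-group of sectional 2-rank at most 4 and P a proper non-abelian subgroup whose centre has order 2. Let S₀ be the centralizer in S of Z(P) and suppose P is normal in S₀. Then either S₀ = S, or P has sectional 2-rank at most 2 and S₀ has index 2 in S. -/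
theorem result {S : Type*} [Group S] [Finite S] (h2 : IsPGroup 2 S) (hr : Cfsg.SectionalPRankLE 2 4 S)
    (P : Subgroup S) (hPlt : P ≠ ⊤) (hP : ¬ IsMulCommutative ↥P) (hZP : Nat.card ↥(Subgroup.center ↥P) = 2)
    (S₀ : Subgroup S) (hS₀ : S₀ = Subgroup.centralizer (((Subgroup.center ↥P).map P.subtype : Subgroup S) : Set S))
    (hPn : ∀ s ∈ S₀, ∀ x ∈ P, s * x * s⁻¹ ∈ P) :
    S₀ = ⊤ ∨ (Cfsg.SectionalPRankLE 2 2 ↥P ∧ S₀.index = 2) := by
  rw [H26.map_center_eq] at hS₀
  have c1 : Nat.card ↥(P ⊓ Subgroup.centralizer (P : Set S)) = 2 := by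
    rw [← H26.map_center_eq, Subgroup.card_map_of_injective P.subtype_injective, hZP]
  have hr' := H26.sr_of_sectional hr
  obtain ⟨⟨z, hzZ⟩, hz1, hzu⟩ := (Nat.card_eq_two_iff' (1 : ↥(P ⊓ Subgroup.centralizer (P : Set S)))).1 c1
  have hz1 : z ≠ 1 := fun h => hz1 (Subtype.ext h)
  have hmem : ∀ x, x ∈ P ⊓ centralizer (P : Set S) ↔ x = 1 ∨ x = z := by
    intro x
    constructor
    · intro hx
      by_cases h : x = 1
      · exact Or.inl h
      · exact Or.inr (congrArg Subtype.val (hzu ⟨x, hx⟩ fun h' => h (congrArg Subtype.val h')))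
    · rintro (rfl | rfl)
      · exact one_mem _
      · exact hzZ
  have hS : ∀ s, s ∈ S₀ ↔ s * z * s⁻¹ = z := by
    intro s
    rw [hS₀, mul_inv_eq_iff_eq_mul]
    constructor
    · intro h; exact (h z hzZ).symm
    · intro h x hx
      rcases (hmem x).1 hx with rfl | rfl
      · simp
      · exact h.symm
  have hzz : z * z = 1 := by
    rcases (hmem _).1 (mul_mem hzZ hzZ) with h | h
    · exact h
    · exact absurd (by simpa using h) hz1
  have hG : Good P z S₀ := ⟨fun x hx => (hS x).2 (by rw [hzZ.2 x hx]; group),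
    fun s hs => mem_normalizer_of_forall (hPn s hs), hP, c1, hmem⟩
  by_cases htop : S₀ = ⊤
  · exact Or.inl htop
  right
  haveI := h2.isNilpotent
  obtain ⟨t, htN, ht⟩ := SetLike.exists_of_lt (Group.normalizerCondition_of_isNilpotent S₀ (lt_top_iff_ne_top.2 htop))
  set N := normalizer (S₀ : Set S) with hN
  set z' := t * z * t⁻¹ with hz'
  have hzz' : z ≠ z' := fun h => ht ((hS t).2 h.symm)
  have hz'1 : z' ≠ 1 := fun h => hz1 (by simpa [hz'] using h)
  have hG' := hG.conj htN
  obtain ⟨hd, hc, hC⟩ := hG.two h2 hr' hG' hz1 hzz'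
  have hzP : z ∈ P := hzZ.1
  have hz'P : z' ∈ cj t P := ((hG'.mem z').2 (Or.inr rfl)).1
  have horb : ∀ n ∈ N, n * z * n⁻¹ = z ∨ n * z * n⁻¹ = z' := by
    intro n hn
    by_contra hcon
    push Not at hcon
    have hGn := hG.conj hn
    have a1 := (hG.two h2 hr' hGn hz1 hcon.1.symm).2.1
    have a2 := (hG'.two h2 hr' hGn hz'1 hcon.2.symm).2.1
    have a3 : ∀ y ∈ cj n P, y ∈ centralizer ((P ⊔ cj t P : Subgroup S) : Set S) := fun y hy =>
      mem_cent_sup (fun a ha => a1 a ha y hy) (fun a ha => a2 a ha y hy)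
    exact hGn.na (H3.isMulCommutative_iff_mem.2 fun a ha b hb => a3 b hb a (hC (a3 a ha)))
  have horb' : ∀ n ∈ N, (n * z * n⁻¹ = z ∧ n * z' * n⁻¹ = z') ∨ (n * z * n⁻¹ = z' ∧ n * z' * n⁻¹ = z) := by
    intro n hn
    have e : n * z' * n⁻¹ = (n * t) * z * (n * t)⁻¹ := by rw [hz']; group
    have ne : n * z * n⁻¹ ≠ n * z' * n⁻¹ := fun h => hzz' (by simpa using h)
    have := horb _ (N.mul_mem hn htN)
    rw [← e] at this
    rcases horb n hn with h | h <;> rcases this with h' | h'
    · exact absurd (h.trans h'.symm) ne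
    · exact Or.inl ⟨h, h'⟩
    · exact Or.inr ⟨h, h'⟩
    · exact absurd (h.trans h'.symm) ne
  refine ⟨H26.sectional_of_sr fun X hX M hMX hsq => ?_, ?_⟩
  · have hc' : ∀ a ∈ X, ∀ b ∈ cj t X, a * b = b * a := fun a ha b hb => hc a (hX ha) b (cj_mono t hX hb)
    have e1 := H26.relIndex_sup_sup hMX (cj_mono t hMX) hc'
      (le_bot_iff.1 (hd ▸ inf_le_inf hX (cj_mono t hX)))
    have e2 := hr' _ le_top _ (sup_le_sup hMX (cj_mono t hMX)) (H26.sq_mem_sup hc' hsq fun x hx => by
      rw [mem_cj] at hx ⊢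
      rw [show t⁻¹ * (x * x) * t = (t⁻¹ * x * t) * (t⁻¹ * x * t) by group]
      exact hsq _ hx)
    rw [e1, relIndex_cj] at e2
    nlinarith
  have hNtop : N = ⊤ := by
    by_contra hNt
    obtain ⟨u, huN, hu⟩ := SetLike.exists_of_lt (Group.normalizerCondition_of_isNilpotent N (lt_top_iff_ne_top.2 hNt))
    have hSN : S₀ ≤ N := le_normalizer
    have hcz : z * z' = z' * z := hc z hzP z' hz'P
    have hz'z' : z' * z' = 1 := by
      rw [hz']; calc t * z * t⁻¹ * (t * z * t⁻¹) = t * (z * z) * t⁻¹ := by group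
        _ = 1 := by rw [hzz]; group
    set w := z * z' with hw
    have hCD : ∀ y ∈ centralizer ((P ⊔ cj t P : Subgroup S) : Set S), y = 1 ∨ y = z ∨ y = z' ∨ y = w := by
      intro y hy
      obtain ⟨a, ha, b, hb, hab⟩ := (H1.mem_sup_of_le_normalizer_left (H26.le_normalizer_of_comm hc)).1 (hC hy)
      have hcc : ∀ y ∈ P ⊔ cj t P, y * (a * b) = a * b * y := fun y' hy' => by
        rw [hab]; exact hy y' hy'
      have h1 := (hG.mem a).1 (mem_inf.2 ⟨ha, fun y hy => by
        have := hcc y (mem_sup_left hy)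
        rw [mul_assoc a, ← hc y hy b hb, ← mul_assoc, ← mul_assoc] at this
        exact mul_right_cancel this⟩)
      have h2 := (hG'.mem b).1 (mem_inf.2 ⟨hb, fun y hy => by
        have := hcc y (mem_sup_right hy)
        rw [← mul_assoc, ← hc a ha y hy, mul_assoc, mul_assoc] at this
        exact mul_left_cancel this⟩)
      rw [← hab]
      rcases h1 with rfl | rfl <;> rcases h2 with rfl | rfl <;> simp [hw, hz']
    have hwc : ∀ n ∈ N, n * w * n⁻¹ = w := by
      intro n hn
      have e : n * w * n⁻¹ = (n * z * n⁻¹) * (n * z' * n⁻¹) := by rw [hw]; group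
      rw [e]
      rcases horb' n hn with ⟨a, b⟩ | ⟨a, b⟩ <;> rw [a, b]
      exact hcz.symm
    have hw1 : w ≠ 1 := fun h => hzz' (by
      calc z = z * (z' * z') := by rw [hz'z', mul_one]
        _ = w * z' := by rw [hw]; group
        _ = z' := by rw [h, one_mul])
    have hww : w * w = 1 := by
      calc w * w = z * (z' * z) * z' := by rw [hw]; group
        _ = (z * z) * (z' * z') := by rw [← hcz, hw]; group
        _ = 1 := by rw [hzz, hz'z', one_mul]
    have hcu : ∀ n ∈ N, u⁻¹ * n * u ∈ N := fun n hn =>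
      H1.conj_mem_of_le_normalizer' (H := zpowers u) (by simpa using huN) (mem_zpowers u) hn
    have huw : u * w * u⁻¹ = w := by
      have hcen : ∀ n ∈ N, n * (u * w * u⁻¹) * n⁻¹ = u * w * u⁻¹ := fun n hn => by
        calc n * (u * w * u⁻¹) * n⁻¹ = u * ((u⁻¹ * n * u) * w * (u⁻¹ * n * u)⁻¹) * u⁻¹ := by group
          _ = _ := by rw [hwc _ (hcu n hn)]
      rcases hCD (u * w * u⁻¹) (fun a ha => mul_inv_eq_iff_eq_mul.1
        (hcen a (hSN (sup_le hG.le hG'.le ha)))) with h | h | h | h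
      · exact absurd (by simpa using h) hw1
      · have := hcen t htN
        rw [h] at this
        exact absurd this.symm hzz'
      · have := hcen t htN
        rw [h] at this
        exact absurd (by simpa [hz'] using this.symm) hzz'
      · exact h
    set y := u * z * u⁻¹ with hy
    have hyy : y * y = 1 := by
      rw [hy]; calc u * z * u⁻¹ * (u * z * u⁻¹) = u * (z * z) * u⁻¹ := by group
        _ = 1 := by rw [hzz]; group
    have hy' : u * z' * u⁻¹ = y * w := by
      calc u * z' * u⁻¹ = (y * y) * (u * z' * u⁻¹) := by rw [hyy, one_mul]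
        _ = y * (u * w * u⁻¹) := by rw [hy, hw]; group
        _ = y * w := by rw [huw]
    have hyo : ∀ n ∈ N, n * y * n⁻¹ = y ∨ n * y * n⁻¹ = y * w := by
      intro n hn
      have e : n * y * n⁻¹ = u * ((u⁻¹ * n * u) * z * (u⁻¹ * n * u)⁻¹) * u⁻¹ := by rw [hy]; group
      rw [e]
      rcases horb _ (hcu n hn) with h | h <;> rw [h]
      · exact Or.inl rfl
      · exact Or.inr hy'
    have hsqy : ∀ n ∈ P, n * n ∈ centralizer ({y} : Set S) := by
      intro n hn
      have hn' := hSN (hG.le hn)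
      rw [mem_centralizer_singleton_iff, ← mul_inv_eq_iff_eq_mul]
      have e : n * n * y * (n * n)⁻¹ = n * (n * y * n⁻¹) * n⁻¹ := by group
      rw [e]
      rcases hyo n hn' with h | h
      · rw [h, h]
      · rw [h, show n * (y * w) * n⁻¹ = (n * y * n⁻¹) * (n * w * n⁻¹) by group, h, hwc n hn',
          mul_assoc, hww, mul_one]
    have hzy : z ∈ centralizer ({y} : Set S) :=
      H3.frattiniOf_le (p := 2) (commutator_le.2 fun a ha b hb => comm_mem_of_sq hsqy ha hb)
        (fun x hx => by rw [pow_two]; exact hsqy x hx)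
        (H26.zc_le_frattini (h2.to_subgroup P) hP c1 hzZ)
    have hyS : y ∈ S₀ := (hS y).2 (by rw [← mem_centralizer_singleton_iff.1 hzy]; group)
    have key : ∀ {R : Subgroup S} {v : S}, Good R v S₀ → w ∉ R → ∀ a ∈ R, a * y = y * a := by
      intro R v hR hwR a ha
      rcases hyo a (hSN (hR.le ha)) with h | h
      · exact mul_inv_eq_iff_eq_mul.1 h
      · exfalso
        apply hwR
        have := H1.conj_mem_of_le_normalizer' hR.norm hyS ha
        have e : w = (y⁻¹ * a * y) * a⁻¹ := by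
          calc w = y⁻¹ * (y * w) := by group
            _ = _ := by rw [← h]; group
        rw [e]
        exact R.mul_mem this (R.inv_mem ha)
    have hwP : w ∉ P := fun h => hz'1 (by
      have : z' ∈ P ⊓ cj t P := mem_inf.2 ⟨by simpa [hw] using P.mul_mem (P.inv_mem hzP) h, hz'P⟩
      rwa [hd, mem_bot] at this)
    have hwP' : w ∉ cj t P := fun h => hz1 (by
      have : z ∈ P ⊓ cj t P := mem_inf.2 ⟨hzP, by
        have := mul_mem h (inv_mem hz'P)
        rwa [hw, mul_inv_cancel_right] at this⟩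
      rwa [hd, mem_bot] at this)
    rcases hCD y (mem_cent_sup (key hG hwP) (key hG' hwP')) with h | h | h | h
    · exact hz1 (by simpa [hy] using h)
    · exact hu (hSN ((hS u).2 h))
    · have : t⁻¹ * u ∈ S₀ := (hS _).2 (by
        calc t⁻¹ * u * z * (t⁻¹ * u)⁻¹ = t⁻¹ * y * t := by rw [hy]; group
          _ = z := by rw [h, hz']; group)
      exact hu (by simpa using N.mul_mem htN (hSN this))
    · rw [h, hww] at hy'
      exact hz'1 (by simpa using hy')
  refine index_eq_two_iff.2 ⟨t, fun b => ?_⟩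
  rw [hS, hS, show b * t * z * (b * t)⁻¹ = b * z' * b⁻¹ by rw [hz']; group]
  rcases horb' b (hNtop ▸ mem_top b) with ⟨a, c⟩ | ⟨a, c⟩ <;> rw [a, c]
  · exact Or.inr ⟨rfl, hzz'.symm⟩
  · exact Or.inl ⟨rfl, hzz'.symm⟩

end Cfsg.Agent.S4401
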