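import Cfsg.Statements.S4402
import Cfsg.Agent.H23.Wr2

set_option autoImplicit false
open Cfsg

namespace Cfsg.Agent.S4402

/-- Let S be a finite 2-group of sectional 2-rank at most 4 and P a proper subgroup isomorphic to the wreath product of the dihedral group of order 8 by a group of order 2 (equivalently, to a Sylow 2-subgroup of the symmetric group of degree 8; order 128). Then Z(S) = Z(P) has order 2, P has index 2 in its normalizer N_S(P), N_S(P)/Z(S) is again isomorphic to that wreath product, and every elementary abelian subgroup V of order 16 that is normal in P satisfies N_S(V) = P. -/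
theorem result {S : Type*} [Group S] [Finite S] (h2 : IsPGroup 2 S) (hr : Cfsg.SectionalPRankLE 2 4 S)
    (P : Subgroup S) (hPlt : P ≠ ⊤) (hP : ∃ T : Sylow 2 (Equiv.Perm (Fin 8)), Nonempty (↥P ≃* ↥(T : Subgroup (Equiv.Perm (Fin 8))))) :
    Subgroup.center S = (Subgroup.center ↥P).map P.subtype ∧ Nat.card ↥(Subgroup.center S) = 2 ∧
    P.relIndex (Subgroup.normalizer (P : Set S)) = 2 ∧
    (∃ (_ : ((Subgroup.center S).subgroupOf (Subgroup.normalizer (P : Set S))).Normal) (T : Sylow 2 (Equiv.Perm (Fin 8))),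
      Nonempty (↥(Subgroup.normalizer (P : Set S)) ⧸ (Subgroup.center S).subgroupOf (Subgroup.normalizer (P : Set S)) ≃*
        ↥(T : Subgroup (Equiv.Perm (Fin 8))))) ∧
    ∀ V : Subgroup S, V ≤ P → (∀ g ∈ P, ∀ v ∈ V, g * v * g⁻¹ ∈ V) → Cfsg.IsElementaryAbelian 2 V → Nat.card ↥V = 16 →
      Subgroup.normalizer (V : Set S) = P := by
  obtain ⟨T, ⟨f⟩⟩ := hP
  obtain ⟨T', ⟨f'⟩⟩ := H23W.model
  have e := (f.trans (T.equiv T')).trans f'.symm
  have hs := H26.sr_of_sectional hr
  have c := H23W.cz e h2 hs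
  refine ⟨le_antisymm (fun x hx => ?_) ?_, c ▸ H23W.card_z e, H23W.idx e h2 hs hPlt,
    ⟨inferInstance, H23W.quo e h2 hs hPlt⟩, fun V h1 h3 h4 h5 => ?_⟩
  · exact ⟨⟨x, Subgroup.zpowers_le.2 (H23W.io_mem e _) (c.le hx)⟩, Subgroup.mem_center_iff.2 fun g =>
      Subtype.ext (Subgroup.mem_center_iff.1 hx g), rfl⟩
  · rintro _ ⟨x, hx, rfl⟩
    obtain ⟨m, hm⟩ := H23W.io_ex e x.2
    have k : ∀ n, m * n = n * m := fun n => H23W.io_inj e (by
      rw [map_mul, map_mul, hm]
      exact (congrArg Subtype.val (Subgroup.mem_center_iff.1 hx ⟨_, H23W.io_mem e n⟩)).symm)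
    rw [c, Subgroup.subtype_apply, ← hm]
    rcases H23W.cen m (k _) (k _) (k _) with rfl | rfl
    exacts [map_one (H23W.io e) ▸ one_mem _, Subgroup.mem_zpowers _]
  · have q : (V.comap (H23W.io e)).map (H23W.io e) = V :=
      Subgroup.map_comap_eq_self fun x hx => H23W.io_ex e (h1 hx)
    have n : ∀ g, ∀ v ∈ V.comap (H23W.io e), g * v * g⁻¹ ∈ V.comap (H23W.io e) := fun g v hv => by
      rw [Subgroup.mem_comap, map_mul, map_mul, map_inv]
      exact h3 _ (H23W.io_mem e g) _ hv
    haveI : (V.comap (H23W.io e)).Normal := ⟨fun v hv g => n g v hv⟩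
    rw [← q]
    refine H23W.nV e h2 hs (H23W.VW n (fun v hv w hw => H23W.io_inj e ?_) (fun v hv => H23W.io_inj e ?_) ?_)
    · rw [map_mul, map_mul]
      exact congrArg Subtype.val (h4.1.is_comm.comm (⟨_, hv⟩ : V) ⟨_, hw⟩)
    · rw [map_mul, map_one, ← sq]
      exact h4.2 _ hv
    · rw [← Subgroup.card_map_of_injective (H23W.io_inj e), q, h5]

end Cfsg.Agent.S4402
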