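import Cfsg.Statements.S4405
import Cfsg.Agent.H26.SRank2
import Cfsg.Agent.H2.Prim
import Cfsg.Agent.H4.Burnside
import Cfsg.Agent.H1.Coprime
import Cfsg.Agent.H1.Generation

set_option autoImplicit false
open Cfsg

namespace Cfsg.Agent.S4405

open Subgroup
open scoped commutatorElement

theorem inv_mod {G : Type*} [Group G] [Finite G] (hG : Nat.card G = 10) (hO : pCore 2 G = ⊥)
    {f T : G} (hf : orderOf f = 5) (hT : T ^ 2 = 1) (hT1 : T ≠ 1) : T * f * T⁻¹ = f⁻¹ := by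
  classical
  have hi : (zpowers f).index = 2 := by
    have := (zpowers f).card_mul_index
    rw [Nat.card_zpowers, hf, hG] at this; omega
  haveI : (zpowers f).Normal := normal_of_index_eq_two hi
  have hf5 : f ^ 5 = 1 := hf ▸ pow_orderOf_eq_one f
  have hm : T * f * T⁻¹ ∈ zpowers f := Normal.conj_mem inferInstance f (mem_zpowers f) T
  rw [mem_zpowers_iff_mem_range_orderOf, hf] at hm
  obtain ⟨k, hk, hk'⟩ := Finset.mem_image.1 hm
  have h2 : f ^ (k * k) = f := by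
    calc f ^ (k * k) = (T * f * T⁻¹) ^ k := by rw [pow_mul, hk']
      _ = T * f ^ k * T⁻¹ := conj_pow
      _ = T ^ 2 * f * (T ^ 2)⁻¹ := by rw [hk', pow_two]; group
      _ = f := by rw [hT]; group
  have h3 : k * k ≡ 1 [MOD 5] := by
    rw [← hf, ← pow_eq_pow_iff_modEq, h2, pow_one]
  rw [Finset.mem_range] at hk
  have : k = 1 ∨ k = 4 := by
    clear hk' h2
    interval_cases k <;> simp_all [Nat.ModEq]
  rcases this with rfl | rfl
  · exfalso
    have hc : Commute T f := by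
      rw [pow_one] at hk'
      exact mul_inv_eq_iff_eq_mul.1 hk'.symm
    have hTf : T ∉ zpowers f := fun h => by
      have h1 := orderOf_dvd_of_mem_zpowers h
      rw [hf, orderOf_eq_prime hT hT1] at h1
      omega
    haveI : (zpowers T).Normal := H2.normal_of_top_le_normalizer fun g _ => by
      have hg : g ∈ zpowers f ⊔ zpowers T := by
        rw [H1.sup_zpowers_eq_top_of_isCoatom (H1.isCoatom_of_index_prime (hi ▸ Nat.prime_two)) hTf]
        trivial
      refine sup_le ?_ le_normalizer hg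
      refine zpowers_le_of_mem (centralizer_le_normalizer _ ?_)
      rintro _ ⟨n, rfl⟩
      exact (hc.zpow_left n).eq
    have := H1.le_pCore (p := 2) (N := zpowers T) (IsPGroup.of_card (n := 1) (by
      rw [Nat.card_zpowers, orderOf_eq_prime hT hT1]; rfl))
    rw [hO] at this
    exact hT1 (this (mem_zpowers T))
  · rw [← hk', eq_inv_iff_mul_eq_one, ← pow_succ, hf5]

theorem exists_comm {G : Type*} [Group G] {W : Subgroup G} [W.Normal] (hW : ∀ w ∈ W, w * w = 1)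
    {f T h : G} (hf : f ^ 5 = 1) (hh : h ∈ W) (hT : T * f * T⁻¹ = f⁻¹ * h)
    (hC : ∀ w ∈ W, f * w * f⁻¹ = w → w = 1) {v : G} (hv : v ∈ W) (hvT : T * v * T⁻¹ = v) :
    ∃ u ∈ W, v = u⁻¹ * (T * u * T⁻¹) := by
  have inv : ∀ w ∈ W, w⁻¹ = w := fun w hw => inv_eq_of_mul_eq_one_left (hW w hw)
  have cm : ∀ a ∈ W, ∀ b ∈ W, a * b = b * a := fun a ha b hb => by
    rw [← inv _ (W.mul_mem ha hb), mul_inv_rev, inv a ha, inv b hb]
  have cj : ∀ g : G, ∀ w ∈ W, g * w * g⁻¹ ∈ W := fun g w hw => Normal.conj_mem inferInstance w hw g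
  obtain ⟨v1, e1⟩ : ∃ x, x = f * v * f⁻¹ := ⟨_, rfl⟩
  obtain ⟨v2, e2⟩ : ∃ x, x = f * v1 * f⁻¹ := ⟨_, rfl⟩
  obtain ⟨v3, e3⟩ : ∃ x, x = f * v2 * f⁻¹ := ⟨_, rfl⟩
  obtain ⟨v4, e4⟩ : ∃ x, x = f * v3 * f⁻¹ := ⟨_, rfl⟩
  have m1 : v1 ∈ W := e1 ▸ cj f v hv
  have m2 : v2 ∈ W := e2 ▸ cj f _ m1
  have m3 : v3 ∈ W := e3 ▸ cj f _ m2
  have m4 : v4 ∈ W := e4 ▸ cj f _ m3
  have e5 : f * v4 * f⁻¹ = v := by
    calc f * v4 * f⁻¹ = f ^ 5 * v * (f ^ 5)⁻¹ := by rw [e4, e3, e2, e1]; simp only [pow_succ, pow_zero, one_mul, mul_inv_rev, mul_assoc]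
      _ = v := by rw [hf]; group
  have hN : v * v1 * v2 * v3 * v4 = 1 := by
    apply hC _ (W.mul_mem (W.mul_mem (W.mul_mem (W.mul_mem hv m1) m2) m3) m4)
    calc f * (v * v1 * v2 * v3 * v4) * f⁻¹
        = (f * v * f⁻¹) * (f * v1 * f⁻¹) * (f * v2 * f⁻¹) * (f * v3 * f⁻¹) * (f * v4 * f⁻¹) := by group
      _ = (v1 * v2 * v3 * v4) * v := by rw [← e1, ← e2, ← e3, ← e4, e5]
      _ = _ := by rw [← cm v hv _ (W.mul_mem (W.mul_mem (W.mul_mem m1 m2) m3) m4)]; group
  have tw : ∀ w ∈ W, T * (f * w * f⁻¹) * T⁻¹ = f⁻¹ * (T * w * T⁻¹) * f := by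
    intro w hw
    calc T * (f * w * f⁻¹) * T⁻¹ = (T * f * T⁻¹) * (T * w * T⁻¹) * (T * f * T⁻¹)⁻¹ := by group
      _ = f⁻¹ * (h * (T * w * T⁻¹)) * h⁻¹ * f := by rw [hT]; group
      _ = _ := by rw [cm h hh _ (cj T w hw)]; group
  have t1 : T * v1 * T⁻¹ = v4 := by
    rw [e1, tw v hv, hvT]
    conv_lhs => rw [← e5]
    group
  have t2 : T * v2 * T⁻¹ = v3 := by rw [e2, tw v1 m1, t1, e4]; group
  refine ⟨v1 * v2, W.mul_mem m1 m2, ?_⟩
  rw [inv _ (W.mul_mem m1 m2), show T * (v1 * v2) * T⁻¹ = (T * v1 * T⁻¹) * (T * v2 * T⁻¹) by group,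
    t1, t2, cm v4 m4 v3 m3, ← inv v hv, inv_eq_iff_mul_eq_one, ← hN]
  group

/-- Let G be a finite group of order 320 = 64·5 whose largest normal 2-subgroup H = O₂(G) equals the Fitting subgroup F(G) and is extraspecial of order 32 containing no elementary abelian subgroup of order 8 (so H is the central product of a quaternion group and a dihedral group of order 8). If T is an involution of G outside H whose centralizer in H contains an elementary abelian subgroup of order 4, then C_H(T) itself is elementary abelian of order 4. -/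
theorem result {G : Type*} [Group G] [Finite G]
    (hG : Nat.card G = 320) (hHF : Cfsg.pCore 2 G = Cfsg.fittingSubgroup G)
    (hex : Cfsg.IsExtraspecial 2 ↥(Cfsg.pCore 2 G)) (h32 : Nat.card ↥(Cfsg.pCore 2 G) = 32)
    (hminus : ∀ A : Subgroup G, A ≤ Cfsg.pCore 2 G → Cfsg.IsElementaryAbelian 2 A → Nat.card ↥A ≤ 4)
    (T : G) (hT : orderOf T = 2) (hTH : T ∉ Cfsg.pCore 2 G)
    (V : Subgroup G) (hV : V ≤ Cfsg.pCore 2 G ⊓ Subgroup.centralizer ({T} : Set G)) (hV4 : Nat.card ↥V = 4) (hVe : Cfsg.IsElementaryAbelian 2 V) :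
    Nat.card ↥(Cfsg.pCore 2 G ⊓ Subgroup.centralizer ({T} : Set G)) = 4 ∧
      Cfsg.IsElementaryAbelian 2 (Cfsg.pCore 2 G ⊓ Subgroup.centralizer ({T} : Set G)) := by
  haveI : Fact (Nat.Prime 5) := ⟨by norm_num⟩
  set H := pCore 2 G with hH
  haveI : H.Normal := inferInstance
  obtain ⟨f, hf⟩ := exists_prime_orderOf_dvd_card' (G := G) 5 (by rw [hG]; norm_num)
  have hf5 : f ^ 5 = 1 := hf ▸ pow_orderOf_eq_one f
  have hT2 : T ^ 2 = 1 := hT ▸ pow_orderOf_eq_one T
  have hfH : f ∉ H := fun h => by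
    have := (H.orderOf_dvd_natCard h)
    rw [hf, h32] at this; omega
  have hinv : T * f * T⁻¹ = f⁻¹ * (f * (T * f * T⁻¹)) := by group
  have hhH : f * (T * f * T⁻¹) ∈ H := by
    have := inv_mod (G := G ⧸ H) (f := f) (T := T) (by
      have := card_eq_card_quotient_mul_card_subgroup H
      rw [hG, h32] at this; omega) (H1.pCore_quotient_pCore 2)
      (orderOf_eq_prime (by rw [← QuotientGroup.mk_pow, hf5]; rfl)
        (by rwa [Ne, QuotientGroup.eq_one_iff])) (by rw [← QuotientGroup.mk_pow, hT2]; rfl)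
      (by rwa [Ne, QuotientGroup.eq_one_iff])
    rw [← QuotientGroup.eq_one_iff]
    simp only [QuotientGroup.mk_mul, QuotientGroup.mk_inv, this, mul_inv_cancel]
  set Z := (center H).map H.subtype with hZ
  haveI : Z.Normal := inferInstance
  have hZc : Nat.card Z = 2 := by rw [hZ, card_map_of_injective H.subtype_injective, hex.2]
  have hZH : Z ≤ H := map_subtype_le _
  have hsq : ∀ x ∈ H, x ^ 2 ∈ Z := fun x hx => by
    rw [hZ, ← hex.1.2.1]; exact H3.pow_mem_frattiniOf hex.1.1 hx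
  have hZcen : ∀ z ∈ Z, ∀ g : G, g * z * g⁻¹ = z := by
    obtain ⟨y, hy1, hy⟩ := (Nat.card_eq_two_iff' (1 : Z)).1 hZc
    intro z hz g
    by_cases h : z = 1
    · simp [h]
    · have a := hy ⟨z, hz⟩ fun h' => h (congrArg Subtype.val h')
      have b := hy ⟨g * z * g⁻¹, Normal.conj_mem inferInstance z hz g⟩ fun h' => h (by
        simpa using congrArg Subtype.val h')
      exact congrArg Subtype.val (b.trans a.symm)
  have hZ2 : ∀ z ∈ Z, z ^ 2 = 1 := fun z hz => by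
    have := pow_card_eq_one' (x := (⟨z, hz⟩ : Z))
    rw [hZc] at this; exact congrArg Subtype.val this
  set W := H.map (QuotientGroup.mk' Z) with hW
  haveI : W.Normal := Normal.map inferInstance _ (QuotientGroup.mk'_surjective Z)
  have hWc : Nat.card W = 16 := by
    have := H1.card_map_mul_card_ker_inf (QuotientGroup.mk' Z) H
    rw [QuotientGroup.ker_mk', inf_eq_left.2 hZH, hZc, h32, ← hW] at this; omega
  have hfq : (f : G ⧸ Z) ^ 5 = 1 := by rw [← QuotientGroup.mk_pow, hf5]; rfl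
  have hC : ∀ w ∈ W, (f : G ⧸ Z) * w * (f : G ⧸ Z)⁻¹ = w → w = 1 := by
    have h1 := H2.card_modEq_card_inf_centralizer (q := 5) (Q := zpowers (f : G ⧸ Z)) (V := W)
      (IsPGroup.of_card_dvd_pow (n := 1) (by
        rw [Nat.card_zpowers]; exact orderOf_dvd_of_pow_eq_one hfq))
      (H2.le_normalizer_of_normal' _ _)
    have h2 := card_dvd_of_le (inf_le_left : W ⊓ centralizer (zpowers (f : G ⧸ Z) : Set (G ⧸ Z)) ≤ W)
    rw [hWc] at h1 h2
    have h3 : Nat.card ↥(W ⊓ centralizer (zpowers (f : G ⧸ Z) : Set (G ⧸ Z))) = 1 ∨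
        Nat.card ↥(W ⊓ centralizer (zpowers (f : G ⧸ Z) : Set (G ⧸ Z))) = 16 := by
      generalize Nat.card ↥(W ⊓ centralizer (zpowers (f : G ⧸ Z) : Set (G ⧸ Z))) = n at h1 h2
      have := Nat.le_of_dvd (by norm_num) h2
      interval_cases n <;> simp_all [Nat.ModEq]
    rcases h3 with h3 | h3
    · intro w hw hfw
      rw [card_eq_one] at h3
      rw [← mem_bot, ← h3]
      refine mem_inf.2 ⟨hw, ?_⟩
      rintro _ ⟨n, rfl⟩
      exact (Commute.zpow_left (mul_inv_eq_iff_eq_mul.1 hfw) n).eq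
    · exfalso
      have h4 := eq_of_le_of_card_ge (inf_le_left : W ⊓ centralizer (zpowers (f : G ⧸ Z) : Set (G ⧸ Z)) ≤ W)
        (by rw [h3, hWc])
      have h5 : zpowers f ≤ centralizer (H : Set G) := H1.le_centralizer_of_commutator_le (N := Z)
        (by rw [Nat.card_zpowers, hf, hZc]; norm_num) (commutator_le.2 fun a ha b hb => by
          rw [← QuotientGroup.eq_one_iff]
          have : (a : G ⧸ Z) ∈ W ⊓ centralizer (zpowers (f : G ⧸ Z) : Set (G ⧸ Z)) :=
            h4.symm ▸ mem_map_of_mem _ ha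
          obtain ⟨n, rfl⟩ := hb
          exact commutatorElement_eq_one_iff_mul_comm.2 (this.2 ((f ^ n : G) : G ⧸ Z) ⟨n, by simp⟩).symm)
        (fun g _ z hz => (mul_inv_eq_iff_eq_mul.1 (hZcen z hz g)).symm)
      have h6 := H1.centralizer_fittingSubgroup_le (H4.burnside_pq (G := G) (p := 2) (q := 5) (a := 6)
        (b := 1) Nat.prime_two Fact.out (by rw [hG]; rfl))
      rw [← hHF] at h6
      exact hfH (h6 (h5 (mem_zpowers f)))
  have key : ∀ c ∈ H ⊓ centralizer ({T} : Set G), c ^ 2 = 1 := by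
    intro c hc
    have hcT : T * c * T⁻¹ = c := by rw [← mem_centralizer_singleton_iff.1 hc.2]; group
    obtain ⟨_, ⟨u, hu, rfl⟩, he⟩ := exists_comm (W := W) (f := f) (T := T) (v := c)
      (h := ((f * (T * f * T⁻¹) : G) : G ⧸ Z)) (by
        rintro _ ⟨w, hw, rfl⟩
        rw [← map_mul, ← pow_two]
        exact (QuotientGroup.eq_one_iff _).2 (hsq w hw)) hfq (mem_map_of_mem _ hhH)
      (by simp) hC (mem_map_of_mem _ hc.1) (by
        rw [← QuotientGroup.mk_inv, ← QuotientGroup.mk_mul, ← QuotientGroup.mk_mul, hcT])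
    set d := u⁻¹ * (T * u * T⁻¹) with hd
    have h1 : d⁻¹ * c ∈ Z := QuotientGroup.eq.1 (he.symm ▸ rfl)
    have h2 : T * d * T⁻¹ = d⁻¹ := by
      calc T * d * T⁻¹ = T * u⁻¹ * T⁻¹ * (T ^ 2 * u * (T ^ 2)⁻¹) := by rw [hd, pow_two]; group
        _ = d⁻¹ := by rw [hT2, hd]; group
    obtain ⟨z, hz⟩ : ∃ z, z = d⁻¹ * c := ⟨_, rfl⟩
    rw [← hz] at h1
    have e : c = d * z := by rw [hz]; group
    have h3 : d⁻¹ = d := by
      rw [e, show T * (d * z) * T⁻¹ = (T * d * T⁻¹) * (T * z * T⁻¹) by group, h2, hZcen z h1] at hcT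
      exact mul_right_cancel hcT
    have h4 : Commute d z := mul_inv_eq_iff_eq_mul.1 (hZcen z h1 d)
    rw [e, h4.mul_pow, hZ2 z h1, mul_one, pow_two]
    exact inv_eq_iff_mul_eq_one.1 h3
  have hE : IsElementaryAbelian 2 (H ⊓ centralizer ({T} : Set G)) :=
    ⟨H3.isMulCommutative_iff_mem.2 fun a ha b hb => by
      have inv : ∀ t ∈ H ⊓ centralizer ({T} : Set G), t⁻¹ = t := fun t ht => by
        rw [inv_eq_iff_mul_eq_one, ← pow_two]; exact key t ht
      rw [← inv _ (mul_mem ha hb), mul_inv_rev, inv a ha, inv b hb], key⟩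
  exact ⟨le_antisymm (hminus _ inf_le_left hE) (hV4 ▸ card_le_of_le hV), hE⟩

end Cfsg.Agent.S4405
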