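import Cfsg.Statements.S4406
import Cfsg.Agent.H26.PElt
import Cfsg.Agent.H1.SylowIn

set_option autoImplicit false
open Cfsg

namespace Cfsg.Agent.S4406

abbrev A4 := alternatingGroup (Fin 4)

theorem d1 : ∀ a : A4, a ^ 2 = 1 ∨ a ^ 3 = 1 := by decide +kernel

theorem d2 : ∀ s : A4, s ^ 3 = 1 → s ≠ 1 → ∀ a : A4, a ^ 2 = 1 → a ≠ 1 → ∀ b : A4, b ^ 2 = 1 → b ≠ 1 →
    a ≠ b → (s * a * s⁻¹ = b ∧ s * b * s⁻¹ = a * b) ∨ (s⁻¹ * a * s⁻¹⁻¹ = b ∧ s⁻¹ * b * s⁻¹⁻¹ = a * b) := by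
  decide +kernel

set_option synthInstance.maxSize 1024 in
set_option synthInstance.maxHeartbeats 200000 in
theorem d3 : ∀ a : A4, a ^ 2 = 1 → a ≠ 1 → ∀ b : A4, b ^ 2 = 1 → b ≠ 1 → a ≠ b →
    ∀ c : A4, c ^ 2 = 1 → c = 1 ∨ c = a ∨ c = b ∨ c = a * b := by
  decide +kernel

theorem p2 {a : A4} {k : ℕ} (h : a ^ 2 ^ k = 1) : a ^ 2 = 1 := by
  rcases d1 a with h1 | h1
  · exact h1
  · have := pow_gcd_eq_one.mpr ⟨h, h1⟩
    rw [Nat.Coprime.gcd_eq_one (Nat.Coprime.pow_left k (by norm_num)), pow_one] at this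
    simp [this]

theorem p3 {a : A4} {k : ℕ} (h : a ^ 3 ^ k = 1) : a ^ 3 = 1 := by
  rcases d1 a with h1 | h1
  · have := pow_gcd_eq_one.mpr ⟨h, h1⟩
    rw [Nat.Coprime.gcd_eq_one (Nat.Coprime.pow_left k (by norm_num)), pow_one] at this
    simp [this]
  · exact h1

theorem d4 {s a b : A4} (h1 : s ^ 3 = 1) (h2 : s ≠ 1) (h3 : a ^ 2 = 1) (h4 : a ≠ 1) (h5 : b ^ 2 = 1)
    (h6 : b ≠ 1) (h7 : a ≠ b) : ∃ t ∈ Subgroup.zpowers s, t ^ 3 = 1 ∧ t ≠ 1 ∧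
      t * a * t⁻¹ = b ∧ t * b * t⁻¹ = a * b := by
  rcases d2 s h1 h2 a h3 h4 b h5 h6 h7 with h | h
  · exact ⟨s, Subgroup.mem_zpowers s, h1, h2, h⟩
  · exact ⟨s⁻¹, Subgroup.inv_mem _ (Subgroup.mem_zpowers s), by rw [inv_pow, h1, inv_one],
      inv_ne_one.mpr h2, h⟩

theorem c12 : Nat.card A4 = 12 := by
  rw [Nat.card_eq_fintype_card]; decide +kernel

/-- In the direct product P = A₄ × A₄, let X be the Sylow 2-subgroup, X₁ and X₂ its intersections with the two direct factors, Q a Sylow 3-subgroup and Q₁, Q₂ its intersections with the two factors. Then every subgroup B of X of order 4 either meets X₁ or X₂ nontrivially, or is normalized by one of the two subgroups of Q of order 3 other than Q₁ and Q₂. -/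
theorem result
    (X : Sylow 2 (↥(alternatingGroup (Fin 4)) × ↥(alternatingGroup (Fin 4))))
    (Q : Sylow 3 (↥(alternatingGroup (Fin 4)) × ↥(alternatingGroup (Fin 4))))
    (B : Subgroup (↥(alternatingGroup (Fin 4)) × ↥(alternatingGroup (Fin 4)))) (hBX : B ≤ (X : Subgroup _)) (hB4 : Nat.card ↥B = 4) :
    B ⊓ ((X : Subgroup _) ⊓ Subgroup.prod ⊤ ⊥) ≠ ⊥ ∨ B ⊓ ((X : Subgroup _) ⊓ Subgroup.prod ⊥ ⊤) ≠ ⊥ ∨
      ∃ R : Subgroup (↥(alternatingGroup (Fin 4)) × ↥(alternatingGroup (Fin 4))), R ≤ (Q : Subgroup _) ∧ Nat.card ↥R = 3 ∧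
        R ≠ (Q : Subgroup _) ⊓ Subgroup.prod ⊤ ⊥ ∧ R ≠ (Q : Subgroup _) ⊓ Subgroup.prod ⊥ ⊤ ∧ R ≤ Subgroup.normalizer (B : Set _) := by
  have : Fact (Nat.Prime 3) := ⟨by norm_num⟩
  by_contra hcon
  simp only [not_or, not_not] at hcon
  obtain ⟨h1, h2, h3⟩ := hcon
  apply h3
  have e1 : ∀ u ∈ B, u.2 = 1 → u = 1 := fun u hu h => by
    have : u ∈ B ⊓ ((X : Subgroup _) ⊓ Subgroup.prod ⊤ ⊥) := ⟨hu, hBX hu, trivial, h⟩
    rwa [h1] at this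
  have e2 : ∀ u ∈ B, u.1 = 1 → u = 1 := fun u hu h => by
    have : u ∈ B ⊓ ((X : Subgroup _) ⊓ Subgroup.prod ⊥ ⊤) := ⟨hu, hBX hu, h, trivial⟩
    rwa [h2] at this
  have e3 : ∀ u ∈ B, ∀ v ∈ B, u.1 = v.1 → u = v := fun u hu v hv h =>
    mul_inv_eq_one.mp (e2 _ (B.mul_mem hu (B.inv_mem hv)) (by simp [h]))
  have e4 : ∀ u ∈ B, ∀ v ∈ B, u.2 = v.2 → u = v := fun u hu v hv h =>
    mul_inv_eq_one.mp (e1 _ (B.mul_mem hu (B.inv_mem hv)) (by simp [h]))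
  have e5 : ∀ u ∈ B, u.1 ^ 2 = 1 ∧ u.2 ^ 2 = 1 := fun u hu => by
    obtain ⟨k, hk⟩ := H26.pElt_iff_pow.mp (H26.exists_orderOf_of_mem X.isPGroup' (hBX hu))
    exact ⟨p2 (congrArg Prod.fst hk), p2 (congrArg Prod.snd hk)⟩
  have e6 : ∀ u ∈ (Q : Subgroup (A4 × A4)), u.1 ^ 3 = 1 ∧ u.2 ^ 3 = 1 := fun u hu => by
    obtain ⟨k, hk⟩ := H26.pElt_iff_pow.mp (H26.exists_orderOf_of_mem Q.isPGroup' hu)
    exact ⟨p3 (congrArg Prod.fst hk), p3 (congrArg Prod.snd hk)⟩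
  obtain ⟨⟨s, s'⟩, ⟨hs, -, hs'⟩, hs1⟩ := (Subgroup.bot_or_exists_ne_one _).resolve_left
    (((H1.isSylowIn_top Q).inf (N := Subgroup.prod ⊤ ⊥) le_top Subgroup.le_normalizer_of_normal).ne_bot (by
      rw [Nat.card_congr (Subgroup.prodEquiv _ _).toEquiv, Nat.card_prod, Subgroup.card_top, c12]
      simp))
  obtain ⟨⟨t', t⟩, ⟨ht, ht', -⟩, ht1⟩ := (Subgroup.bot_or_exists_ne_one _).resolve_left
    (((H1.isSylowIn_top Q).inf (N := Subgroup.prod ⊥ ⊤) le_top Subgroup.le_normalizer_of_normal).ne_bot (by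
      rw [Nat.card_congr (Subgroup.prodEquiv _ _).toEquiv, Nat.card_prod, Subgroup.card_top, c12]
      simp))
  obtain rfl : s' = 1 := hs'
  obtain rfl : t' = 1 := ht'
  have hs2 : s ≠ 1 := by rintro rfl; exact hs1 rfl
  have ht2 : t ≠ 1 := by rintro rfl; exact ht1 rfl
  obtain ⟨u, hu, v, hv, hu1, hv1, huv⟩ : ∃ u ∈ B, ∃ v ∈ B, u ≠ 1 ∧ v ≠ 1 ∧ u ≠ v := by
    have := Fintype.ofFinite B
    obtain ⟨a, b, c, hab, hac, hbc⟩ := Fintype.two_lt_card_iff.mp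
      (by rw [← Nat.card_eq_fintype_card, hB4]; norm_num : 2 < Fintype.card B)
    refine ⟨_, (a⁻¹ * b).2, _, (a⁻¹ * c).2, ?_, ?_, ?_⟩
    · rw [Ne, OneMemClass.coe_eq_one, inv_mul_eq_one]; exact hab
    · rw [Ne, OneMemClass.coe_eq_one, inv_mul_eq_one]; exact hac
    · rw [Ne, Subtype.coe_inj, mul_right_inj]; exact hbc
  have a1 : u.1 ≠ 1 := fun h => hu1 (e2 u hu h)
  have a2 : v.1 ≠ 1 := fun h => hv1 (e2 v hv h)
  have a3 : u.1 ≠ v.1 := fun h => huv (e3 u hu v hv h)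
  have b1 : u.2 ≠ 1 := fun h => hu1 (e1 u hu h)
  have b2 : v.2 ≠ 1 := fun h => hv1 (e1 v hv h)
  have b3 : u.2 ≠ v.2 := fun h => huv (e4 u hu v hv h)
  obtain ⟨x, ⟨i, hi⟩, x3, x1, xa, xb⟩ := d4 (e6 _ hs).1 hs2 (e5 u hu).1 a1 (e5 v hv).1 a2 a3
  obtain ⟨y, ⟨j, hj⟩, y3, y1, ya, yb⟩ := d4 (e6 _ ht).2 ht2 (e5 u hu).2 b1 (e5 v hv).2 b2 b3
  have r1 : (x, y) * u * (x, y)⁻¹ = v := Prod.ext xa ya
  have r2 : (x, y) * v * (x, y)⁻¹ = u * v := Prod.ext xb yb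
  refine ⟨Subgroup.zpowers (x, y), Subgroup.zpowers_le.mpr ?_, ?_, fun h => ?_, fun h => ?_,
    Subgroup.zpowers_le.mpr ?_⟩
  · have := Q.1.mul_mem (Q.1.zpow_mem hs i) (Q.1.zpow_mem ht j)
    simp only at hi hj
    simpa [hi, hj] using this
  · rw [Nat.card_zpowers]
    exact orderOf_eq_prime (Prod.ext x3 y3) fun h => x1 (congrArg Prod.fst h)
  · exact y1 (h.le (Subgroup.mem_zpowers _)).2.2
  · exact x1 (h.le (Subgroup.mem_zpowers _)).2.1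
  · refine Subgroup.mem_normalizer_fintype fun w hw => ?_
    have huv' := B.mul_mem hu hv
    rcases (d3 _ (e5 u hu).1 a1 _ (e5 v hv).1 a2 a3) w.1 (e5 w hw).1 with h | h | h | h
    · rw [e2 w hw h, mul_one, mul_inv_cancel]; exact B.one_mem
    · rw [e3 w hw u hu h, r1]; exact hv
    · rw [e3 w hw v hv h, r2]; exact huv'
    · rw [e3 w hw _ huv' h]
      have := B.mul_mem hv huv'
      rw [← r2] at this
      nth_rewrite 1 [← r1] at this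
      rwa [show (x, y) * u * (x, y)⁻¹ * ((x, y) * v * (x, y)⁻¹) = (x, y) * (u * v) * (x, y)⁻¹ by group]
        at this

end Cfsg.Agent.S4406
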