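import Cfsg.Statements.S4407
import Mathlib
import Cfsg.Agent.H3.PGroup1

set_option autoImplicit false
open Cfsg

namespace Cfsg.Agent.S4407

open Subgroup DihedralGroup

theorem four : ∀ T : Finset (DihedralGroup 4), T.card = 4 → (∀ x ∈ T, ∀ y ∈ T, x * y ∈ T) →
    (∀ x ∈ T, x ^ 2 = 1) → T = {1, r 2, sr 0, sr 2} ∨ T = {1, r 2, sr 1, sr 3} := by
  decide +kernel

theorem core {S : Type*} [Group S] {M : Type*} [AddCommGroup M] [Module (ZMod 2) M]
    (ρ : Representation (ZMod 2) S M) (hf : Function.Injective ρ)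
    (hi : ∀ N : Submodule (ZMod 2) M, (∀ s : S, ∀ m ∈ N, ρ s m ∈ N) → N = ⊥ ∨ N = ⊤)
    {a b r s : S} (a3 : a * a * a = 1) (a1 : a ≠ 1) (ra : r * a = b * r) (rb : r * b = a * a * r)
    (ab : a * b = b * a) (sa : s * a = a * s) (sr : s * r = r * r * r * s)
    (r4 : r * r * r * r = 1) (s2 : s * s = 1) (hg : closure {a, r, s} = ⊤) {v : M} (v0 : v ≠ 0)
    (hv : ρ a v = v) : Nat.card M = 16 ∧ Nat.card {m // ρ (r * r) m = m ∧ ρ s m = m} = 4 ∧
      Nat.card {m // ρ (r * r) m = m ∧ ρ (r * s) m = m} = 2 := by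
  have mu : ∀ x y m, ρ x (ρ y m) = ρ (x * y) m := fun x y m => by rw [map_mul]; rfl
  have two : ∀ m : M, m + m = 0 := fun m => by rw [← two_smul (ZMod 2)]; exact zero_smul _ m
  have inj : ∀ x m, ρ x m = 0 → m = 0 := fun x m h => by simpa [mu] using congrArg (ρ x⁻¹) h
  have ir : ∀ N : Submodule (ZMod 2) M, (∀ m ∈ N, ρ a m ∈ N ∧ ρ r m ∈ N ∧ ρ s m ∈ N) →
      N = ⊥ ∨ N = ⊤ := fun N h => hi N fun g => by
    induction hg.ge (mem_top g) using closure_induction'' with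
    | one => simp
    | mem x hx => rcases hx with rfl | rfl | rfl <;> exact fun m hm => by simp [h m hm]
    | inv_mem x hx =>
      intro m hm
      rcases hx with rfl | rfl | rfl
      · rw [inv_eq_of_mul_eq_one_left a3, ← mu]; exact (h _ (h m hm).1).1
      · rw [inv_eq_of_mul_eq_one_left r4, ← mu, ← mu]; exact (h _ (h _ (h m hm).2.1).2.1).2.1
      · rw [inv_eq_of_mul_eq_one_left s2]; exact (h m hm).2.2
    | mul x y _ _ p q => exact fun m hm => mu x y m ▸ p _ (q m hm)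
  have hb : b = r * a * r⁻¹ := by rw [ra]; simp
  have b3 : b * b * b = 1 := by rw [hb]; simpa [mul_assoc] using congrArg (r * · * r⁻¹) a3
  have za : r * r * a = a * a * (r * r) := by rw [mul_assoc, ra, ← mul_assoc, rb, mul_assoc]
  have zb : r * r * b = b * b * (r * r) := by
    rw [mul_assoc, rb, ← mul_assoc, ← mul_assoc, ra, mul_assoc b, ra]; simp only [mul_assoc]
  have ar : a * r = r * (b * b) := by
    rw [← mul_assoc, rb, mul_assoc, rb, ← mul_assoc, ← mul_assoc, a3, one_mul]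
  have r3 : r⁻¹ = r * r * r := inv_eq_of_mul_eq_one_left r4
  have sr' : s * r⁻¹ = r * s := by rw [mul_inv_eq_iff_eq_mul, mul_assoc, sr, ← r3]; simp
  have sb : s * b = b * b * s := by
    rw [← inv_mul_cancel_left r (b * b), ← ar, hb, ← mul_assoc, ← mul_assoc, sr, ← r3,
      mul_assoc _ s a, sa, mul_assoc, mul_assoc, sr']; simp only [mul_assoc]
  have zz : r * r * s = s * (r * r) := by
    rw [← mul_assoc, sr, mul_assoc _ s r, sr, ← r3, ← mul_assoc, r3]
    simp only [← mul_assoc, r4, one_mul]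
  have U0 : ∀ m, ρ a m = m → ρ b m = m → m = 0 := fun m h1 h2 => by
    refine ((ir (LinearMap.ker (ρ a - 1) ⊓ LinearMap.ker (ρ b - 1)) fun m hm => ?_).resolve_right
      fun e => a1 (hf (LinearMap.ext fun m => by
        simpa [sub_eq_zero] using (e.ge (Submodule.mem_top (x := m))).1))).le
        (by simp [h1, h2])
    simp only [Submodule.mem_inf, LinearMap.mem_ker, LinearMap.sub_apply, sub_eq_zero,
      Module.End.one_apply] at hm ⊢
    refine ⟨⟨by rw [hm.1, hm.1], by rw [mu, ← ab, ← mu, hm.2]⟩, ⟨?_, ?_⟩, ?_, ?_⟩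
    · rw [mu, ar, ← mu, ← mu, hm.2, hm.2]
    · rw [mu, ← ra, ← mu, hm.1]
    · rw [mu, ← sa, ← mu, hm.1]
    · have : b * s = s * b * b := by
        rw [sb, mul_assoc, sb, ← mul_assoc, ← mul_assoc (b * b), b3, one_mul]
      rw [mu, this, ← mu, ← mu, hm.2, hm.2]
  obtain ⟨m, m0, ma, ms, mz⟩ : ∃ m, m ≠ 0 ∧ ρ a m = m ∧ ρ s m = m ∧ ρ (r * r) m = m := by
    obtain ⟨w, w0, wa, ws⟩ : ∃ w, w ≠ 0 ∧ ρ a w = w ∧ ρ s w = w := by
      by_cases h : v + ρ s v = 0
      · exact ⟨v, v0, hv, by rw [← add_zero (ρ s v), ← h, add_left_comm, two, add_zero]⟩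
      · exact ⟨_, h, by rw [map_add, hv, mu, ← sa, ← mu, hv], by
          rw [map_add, mu, s2, map_one, add_comm]; rfl⟩
    by_cases h : w + ρ (r * r) w = 0
    · exact ⟨w, w0, wa, ws, by rw [← add_zero (ρ _ w), ← h, add_left_comm, two, add_zero]⟩
    · refine ⟨_, h, ?_, by rw [map_add, ws, mu, ← zz, ← mu, ws], by
        rw [map_add, mu, ← mul_assoc, r4, map_one, add_comm]; rfl⟩
      have : a * (r * r) = r * r * a * a := by
        rw [za, mul_assoc (a * a), za, ← mul_assoc (a * a), ← mul_assoc (a * a), a3, one_mul]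
      rw [map_add, wa, mu, this, ← mu, ← mu, wa, wa]
  have bb : ρ b (ρ b m) = m + ρ b m := by
    have := U0 (m + ρ b m + ρ b (ρ b m))
      (by simp only [map_add, mu, ma, ← mul_assoc, ab]; simp only [mul_assoc, ab, ← mu, ma])
      (by simp only [map_add, mu, ← mul_assoc, b3, map_one, Module.End.one_apply]; abel)
    rw [← zero_add (ρ b _), ← this, add_assoc, two, add_zero]
  let φ : (Fin 4 → ZMod 2) →ₗ[ZMod 2] M :=
    Fintype.linearCombination (ZMod 2) ![m, ρ b m, ρ r m, ρ r (ρ b m)]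
  have hφ : ∀ c, φ c = c 0 • m + c 1 • ρ b m + c 2 • ρ r m + c 3 • ρ r (ρ b m) := fun c => by
    simp [φ, Fintype.linearCombination_apply, Fin.sum_univ_four]
  have b2 : ρ (b * b) m = m + ρ b m := by rw [← mu, bb]
  have φa : ∀ c, ρ a (φ c) = φ ![c 0, c 1, c 2 + c 3, c 2] := fun c => by
    have e1 : ρ a (ρ b m) = ρ b m := by rw [mu, ab, ← mu, ma]
    have e2 : ρ a (ρ r m) = ρ r m + ρ r (ρ b m) := by rw [mu, ar, ← mu, b2, map_add]
    have e3 : ρ a (ρ r (ρ b m)) = ρ r m := by rw [mu, mu, ar, mul_assoc, b3, mul_one]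
    simp [hφ, ma, e1, e2, e3]; module
  have φr : ∀ c, ρ r (φ c) = φ ![c 2 + c 3, c 3, c 0, c 1] := fun c => by
    have e1 : ρ r (ρ r m) = m := by rw [mu, mz]
    have e2 : ρ r (ρ r (ρ b m)) = m + ρ b m := by rw [mu, mu, zb, ← mu, mz, b2]
    simp [hφ, e1, e2]; module
  have φs : ∀ c, ρ s (φ c) = φ ![c 0 + c 1, c 1, c 2, c 3] := fun c => by
    have e1 : ρ s (ρ b m) = m + ρ b m := by rw [mu, sb, ← mu, ms, b2]
    have e2 : ρ s (ρ r m) = ρ r m := by rw [mu, sr, ← mu, ms, mul_assoc, ← mu, mz]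
    have e3 : ρ s (ρ r (ρ b m)) = ρ r (ρ b m) := by
      rw [mu s r, sr, ← mu, e1, mul_assoc, ← mu, map_add, mz, mu _ b, zb, ← mu, mz, b2, ← add_assoc,
        two, zero_add]
    simp [hφ, ms, e1, e2, e3]; module
  have k2 : ∀ x y : ZMod 2, x • m + y • ρ b m = 0 → x = 0 ∧ y = 0 := fun x y h => by
    have : ∀ x : ZMod 2, x = 0 ∨ x = 1 := by decide
    rcases this x with rfl | rfl <;> rcases this y with rfl | rfl <;>
      simp only [zero_smul, one_smul, add_zero, zero_add] at h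
    exacts [⟨rfl, rfl⟩, absurd (inj _ _ h) m0, absurd h m0, absurd (inj _ _ (b2.trans h)) m0]
  have bij : Function.Bijective φ := ⟨(injective_iff_map_eq_zero φ).2 fun c h => by
      have h1 := φa c
      have h2 := φa ![c 0, c 1, c 2 + c 3, c 2]
      rw [← h1, h, map_zero, map_zero] at h2
      rw [h, map_zero] at h1
      have h3 : φ ![c 0, c 1, 0, 0] = 0 := by
        have := congrArg₂ (· + ·) (congrArg₂ (· + ·) h h1.symm) h2.symm
        simp only [← map_add, add_zero] at this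
        convert this using 2
        clear * -
        revert c; decide
      obtain ⟨p0, p1⟩ := k2 (c 0) (c 1) (by simpa [hφ] using h3)
      obtain ⟨p2, p3⟩ := k2 (c 2) (c 3) (inj r _ (by simpa [hφ, p0, p1] using h))
      ext i; fin_cases i <;> assumption,
    LinearMap.range_eq_top.1 ((ir _ (by
      rintro _ ⟨c, rfl⟩; exact ⟨⟨_, (φa c).symm⟩, ⟨_, (φr c).symm⟩, _, (φs c).symm⟩)).resolve_left
      fun e => m0 (e.le ⟨![1, 0, 0, 0], by simp [hφ]⟩))⟩
  let e := Equiv.ofBijective φ bij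
  refine ⟨by rw [← Nat.card_congr e]; simp, ?_, ?_⟩
  · rw [← Nat.card_congr (e.subtypeEquiv (p := fun c => c 1 = 0 ∧ c 3 = 0) fun c => ?_),
      Nat.card_eq_fintype_card]
    · decide
    change _ ↔ ρ _ (φ c) = φ c ∧ ρ _ (φ c) = φ c
    rw [← mu, φr, φr, φs, bij.1.eq_iff, bij.1.eq_iff]
    revert c; decide
  · rw [← Nat.card_congr (e.subtypeEquiv (p := fun c => c 1 = 0 ∧ c 3 = 0 ∧ c 0 = c 2) fun c => ?_),
      Nat.card_eq_fintype_card]
    · decide
    change _ ↔ ρ _ (φ c) = φ c ∧ ρ _ (φ c) = φ c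
    rw [← mu, ← mu, φr, φr, φs, φr, bij.1.eq_iff, bij.1.eq_iff]
    revert c; decide

/-- Let S be a finite group with a normal elementary abelian subgroup A of order 9 that is self-centralizing (C_S(A) = A), and a dihedral subgroup X of order 8 with S = AX. Let M be a finite-dimensional module for S over the field with two elements that is faithful and irreducible. Then M has 16 elements, and X contains exactly one subgroup B of order 4 and exponent 2 whose fixed points on M form a subspace with exactly 2 elements (equivalently, M is free of rank one over the group algebra of B). -/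
theorem result {S : Type*} [Group S] [Finite S]
    (A : Subgroup S) [A.Normal] (hA : Cfsg.IsElementaryAbelian 3 A) (hA9 : Nat.card ↥A = 9)
    (hAC : Subgroup.centralizer (A : Set S) = A) (X : Subgroup S) (hX : Nonempty (↥X ≃* DihedralGroup 4)) (hAX : A ⊔ X = ⊤)
    {M : Type*} [AddCommGroup M] [Module (ZMod 2) M] [Finite M] (ρ : Representation (ZMod 2) S M)
    (hfaith : Function.Injective ρ)
    (hirr : ∀ N : Submodule (ZMod 2) M, (∀ s : S, ∀ m ∈ N, ρ s m ∈ N) → N = ⊥ ∨ N = ⊤) (hM : Nontrivial M) :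
    Nat.card M = 16 ∧
      ∃! B : Subgroup S, B ≤ X ∧ Nat.card ↥B = 4 ∧ (∀ b ∈ B, b ^ 2 = 1) ∧
        Nat.card {m : M // ∀ b ∈ B, ρ b m = m} = 2 := by
  classical
  obtain ⟨e⟩ := hX
  let ι : DihedralGroup 4 →* S := X.subtype.comp e.symm.toMonoidHom
  have ιi : Function.Injective ι := X.subtype_injective.comp e.symm.injective
  have ιX : ∀ x, x ∈ X ↔ ∃ d, ι d = x := fun x =>
    ⟨fun h => ⟨e ⟨x, h⟩, by simp [ι]⟩, by rintro ⟨d, rfl⟩; exact Subtype.prop _⟩
  have cA := H3.isMulCommutative_iff_mem.1 hA.1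
  have nc : ∀ d : DihedralGroup 4, d ≠ 1 → d ^ 2 = 1 → ¬ ∀ x ∈ A, ι d * x * (ι d)⁻¹ = x :=
    fun d h1 h2 h => h1 (ιi (by
      have := hA.2 _ (hAC.le fun x hx => (mul_inv_eq_iff_eq_mul.1 (h x hx)).symm)
      rwa [pow_succ, ← map_pow, h2, map_one, one_mul, ← map_one ι] at this))
  have cj : ∀ g, ∀ x ∈ A, g * x * g⁻¹ ∈ A := fun g x hx => Normal.conj_mem inferInstance x hx g
  have ni : ∀ x ∈ A, x = x⁻¹ → x = 1 := fun x hx h => by
    have := hA.2 x hx
    rwa [pow_three, mul_eq_one_iff_eq_inv.2 h, mul_one] at this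
  obtain ⟨R, hR⟩ : ∃ R, ι (r 1) = R := ⟨_, rfl⟩
  obtain ⟨s, hS⟩ : ∃ s, ι (sr 0) = s := ⟨_, rfl⟩
  obtain ⟨Z, z⟩ : ∃ Z, ι (r 2) = Z := ⟨_, rfl⟩
  have hZ : R * R = Z := by rw [← hR, ← z, ← map_mul]; rfl
  have z2 : Z * Z = 1 := by rw [← z, ← map_mul]; exact map_one ι
  have r4 : R * R * R * R = 1 := by rw [mul_assoc, hZ, z2]
  have s2 : s * s = 1 := by rw [← hS, ← map_mul]; exact map_one ι
  have hs : s * R = R * R * R * s := by simp only [← hR, ← hS, ← map_mul]; rfl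
  have zi : ∀ x ∈ A, Z * x * Z⁻¹ = x⁻¹ := by
    let D : Subgroup S :=
      { carrier := {x | x ∈ A ∧ Z * x * Z⁻¹ = x⁻¹}
        one_mem' := ⟨A.one_mem, by simp⟩
        mul_mem' := fun {x y} a b => ⟨mul_mem a.1 b.1, by
          rw [mul_inv_rev, cA _ (inv_mem b.1) _ (inv_mem a.1), ← a.2, ← b.2]; group⟩
        inv_mem' := fun {x} a => ⟨inv_mem a.1, by rw [← conj_inv, a.2]⟩ }
    have hD : D ≤ A := fun x hx => hx.1
    have := nc (r 2) (by decide) (by decide)
    rw [z] at this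
    push Not at this
    obtain ⟨x, hx, h1⟩ := this
    have d1 : x * (Z * x * Z⁻¹)⁻¹ ∈ D := ⟨mul_mem hx (inv_mem (cj _ x hx)), by
      calc _ = Z * x * Z⁻¹ * ((Z * Z) * x * (Z * Z)⁻¹)⁻¹ := by simp [mul_assoc]
        _ = _ := by rw [z2]; group⟩
    set d := x * (Z * x * Z⁻¹)⁻¹
    have d0 : d ≠ 1 := fun h => h1 (mul_inv_eq_one.1 h).symm
    have d3 : orderOf d = 3 := orderOf_eq_prime (hA.2 d d1.1) d0
    by_contra hn
    have h2 : Nat.card D ≤ 3 := by
      have a := H3.card_lt_of_lt (lt_of_le_of_ne hD fun h => hn fun x hx => (h.ge hx).2)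
      have b := card_dvd_of_le hD
      rw [hA9] at a b
      generalize Nat.card D = n at *
      interval_cases n <;> omega
    obtain ⟨k, hk⟩ := (eq_of_le_of_card_ge (zpowers_le.2 d1) (by rwa [Nat.card_zpowers, d3])).ge
      (show R * d * R⁻¹ ∈ D from ⟨cj _ d d1.1, by
        calc _ = R * (Z * d * Z⁻¹) * R⁻¹ := by simp [← hZ, mul_assoc]
          _ = _ := by rw [d1.2]; group⟩)
    have : d ^ (k * k + 1) = 1 := by
      rw [zpow_add_one, mul_eq_one_iff_eq_inv, ← d1.2, zpow_mul, show d ^ k = _ from hk, conj_zpow,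
        show d ^ k = _ from hk]; simp [← hZ, mul_assoc]
    rw [← orderOf_dvd_iff_zpow_eq_one, d3] at this
    have h3 : ∀ k : ZMod 3, k * k + 1 ≠ 0 := by decide
    exact h3 k (by simpa using (ZMod.intCast_zmod_eq_zero_iff_dvd _ 3).2 this)
  obtain ⟨a, ha, a1, sa⟩ : ∃ a ∈ A, a ≠ 1 ∧ s * a * s⁻¹ = a := by
    have := nc (sr 0 * r 2) (by decide) (by decide)
    rw [map_mul, z, hS] at this
    push Not at this
    obtain ⟨x, hx, h1⟩ := this
    refine ⟨x * (s * x * s⁻¹), mul_mem hx (cj _ x hx), fun h => h1 ?_, ?_⟩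
    · calc _ = s * (Z * x * Z⁻¹) * s⁻¹ := by group
        _ = (s * x * s⁻¹)⁻¹ := by rw [zi x hx]; group
        _ = _ := (eq_inv_of_mul_eq_one_left h).symm
    · calc _ = s * x * s⁻¹ * ((s * s) * x * (s * s)⁻¹) := by simp [mul_assoc]
        _ = _ := by rw [s2, cA x hx _ (cj _ x hx)]; simp
  obtain ⟨b, rab⟩ : ∃ b, R * a * R⁻¹ = b := ⟨_, rfl⟩
  have hb : b ∈ A := rab ▸ cj R a ha
  have rba : R * b * R⁻¹ = a⁻¹ := by rw [← zi a ha, ← rab, ← hZ]; simp [mul_assoc]
  have sR : s * R * s⁻¹ = R⁻¹ := by rw [hs, mul_inv_cancel_right, inv_eq_of_mul_eq_one_left r4]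
  have sb : s * b * s⁻¹ = b⁻¹ := by
    calc _ = (s * R * s⁻¹) * (s * a * s⁻¹) * (s * R * s⁻¹)⁻¹ := by rw [← rab]; group
      _ = R⁻¹ * (R * b * R⁻¹)⁻¹ * R := by rw [sR, sa, rba, inv_inv, inv_inv]
      _ = _ := by group
  have iv : ∀ x ∈ A, x⁻¹ = x * x := fun x hx =>
    inv_eq_of_mul_eq_one_right (by rw [← pow_three, hA.2 x hx])
  have b1 : b ∉ zpowers a := by
    rintro ⟨k, rfl⟩
    refine a1 (conj_eq_one_iff.1 (rab.trans (ni _ hb ?_)))
    rw [← sb, ← conj_zpow, sa]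
  have gA : zpowers a ⊔ zpowers b = A := eq_of_le_of_card_ge (sup_le (zpowers_le.2 ha)
    (zpowers_le.2 hb)) (by
      rw [H3.card_sup_zpowers (p := 3) (centralizer_le_normalizer _ fun x hx =>
        cA x (zpowers_le.2 ha hx) b hb) b1 (hA.2 b hb ▸ one_mem _), Nat.card_zpowers,
        orderOf_eq_prime (hA.2 a ha) a1, hA9])
  have gen : ∀ K : Subgroup S, a ∈ K → R ∈ K → s ∈ K → K = ⊤ := fun K h1 h2 h3 => by
    refine top_unique (hAX.ge.trans (sup_le (gA.ge.trans (sup_le (zpowers_le.2 h1) (zpowers_le.2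
      (rab ▸ mul_mem (mul_mem h2 h1) (inv_mem h2))))) fun x hx => ?_))
    obtain ⟨d, rfl⟩ := (ιX x).1 hx
    have : ∀ d : DihedralGroup 4, ∃ i : Fin 4, d = r 1 ^ i.1 ∨ d = sr 0 * r 1 ^ i.1 := by decide
    obtain ⟨i, rfl | rfl⟩ := this d
    · rw [map_pow, hR]; exact pow_mem h2 _
    · rw [map_mul, map_pow, hR, hS]; exact mul_mem h3 (pow_mem h2 _)
  have co : ∀ x ∈ A, ∀ t, x ≠ 1 → t * x * t⁻¹ = x → t * R = R * R * R * t → t * t = 1 →
      closure {x, R, t} = ⊤ → ∀ v, v ≠ 0 → ρ x v = v → _ := fun x hx t h1 h2 h3 h4 h5 v v0 hv =>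
    core ρ hfaith hirr (b := R * x * R⁻¹) (by rw [← pow_three', hA.2 x hx]) h1 (by simp)
      (by rw [← iv x hx, ← zi x hx, ← hZ]; simp [mul_assoc]) (cA x hx _ (cj R x hx))
      (mul_inv_eq_iff_eq_mul.1 h2) h3 r4 h4 h5 v0 hv
  have mu : ∀ x y m, ρ x (ρ y m) = ρ (x * y) m := fun x y m => by rw [map_mul]; rfl
  have t2 : R * s * (R * s) = 1 := by
    rw [mul_assoc, ← mul_assoc s, hs, mul_assoc _ s, s2, mul_one, ← mul_assoc, ← mul_assoc, r4]
  have key : Nat.card M = 16 ∧ (Nat.card {m // ρ Z m = m ∧ ρ s m = m} = 2 ↔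
      Nat.card {m // ρ Z m = m ∧ ρ (R * s) m = m} ≠ 2) := by
    by_cases h1 : ∃ v, v ≠ 0 ∧ ρ a v = v
    · obtain ⟨v, v0, hv⟩ := h1
      obtain ⟨c1, c2, c3⟩ := co a ha s a1 sa hs s2 (gen _ (subset_closure (by simp))
        (subset_closure (by simp)) (subset_closure (by simp))) v v0 hv
      rw [hZ] at c2 c3
      exact ⟨c1, by rw [c2, c3]; simp⟩
    by_cases h2 : ∃ v, v ≠ 0 ∧ ρ (a * b) v = v
    · obtain ⟨v, v0, hv⟩ := h2
      have m1 : a * b ∈ closure {a * b, R, R * s} := subset_closure (by simp)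
      have m2 : R ∈ closure {a * b, R, R * s} := subset_closure (by simp)
      have m3 : R * s ∈ closure {a * b, R, R * s} := subset_closure (by simp)
      obtain ⟨c1, c2, c3⟩ := co _ (mul_mem ha hb) (R * s)
        (fun h => b1 (eq_inv_of_mul_eq_one_right h ▸ inv_mem (mem_zpowers a))) (by
          calc _ = R * (s * a * s⁻¹) * R⁻¹ * (R * (s * b * s⁻¹)⁻¹ * R⁻¹)⁻¹ := by group
            _ = _ := by rw [sa, sb, inv_inv, rab, rba, inv_inv, cA a ha b hb])
        (by rw [mul_assoc, hs]; simp only [mul_assoc]) t2 (gen _ (by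
          have := inv_mem (mul_mem m1 (inv_mem (mul_mem (mul_mem m2 m1) (inv_mem m2))))
          rwa [← conj_mul, rab, rba, mul_inv_rev b, inv_inv, mul_assoc, ← mul_assoc b, ← cA a ha b hb,
            mul_inv_cancel_right, ← iv a ha, inv_inv] at this) m2
          ((Subgroup.mul_mem_cancel_left _ m2).1 m3)) v v0 hv
      rw [← mul_assoc, hZ] at c3
      rw [hZ] at c2
      refine ⟨c1, by
        rw [c2, Nat.card_congr (Equiv.subtypeEquivRight fun m => and_congr_right fun h => ?_), c3]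
        · simp
        rw [← mu]
        exact ⟨fun e => by rw [e, h], fun e => by
          have := congrArg (ρ Z) e
          rwa [mu Z Z, z2, map_one, h] at this⟩⟩
    exfalso
    push Not at h1 h2
    have two : ∀ m : M, m + m = 0 := fun m => by rw [← two_smul (ZMod 2)]; exact zero_smul _ m
    have N : ∀ x ∈ A, (∀ v, v ≠ 0 → ρ x v ≠ v) → ∀ m, m + ρ x m + ρ (x * x) m = 0 :=
      fun x hx h m => by_contra fun e => h _ e (by
        simp only [map_add, mu]; rw [← pow_three, hA.2 x hx, map_one]; abel_nf; simp)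
    have cN : ∀ x, (∀ v, v ≠ 0 → ρ x v ≠ v) → ∀ v, v ≠ 0 → ρ (R * x * R⁻¹) v ≠ v :=
      fun x h v v0 e => h (ρ R⁻¹ v) (fun e => v0 (by simpa [mu] using congrArg (ρ R) e))
        (by rw [mu, ← inv_mul_cancel_left R (x * R⁻¹), ← mul_assoc R, ← mu, e])
    obtain ⟨m, m0⟩ := exists_ne (0 : M)
    have e1 := N a ha h1
    have e2 := N b hb (rab ▸ cN a h1)
    have e3 := N _ (mul_mem ha hb) h2 m
    have e4 := N _ (cj R _ (mul_mem ha hb)) (cN _ h2) m
    rw [← conj_mul, rab, rba, iv a ha] at e4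
    have ab : Commute a b := cA a ha b hb
    have a3 : a * a * a = 1 := by rw [← pow_three', hA.2 a ha]
    rw [ab.symm.mul_mul_mul_comm] at e3
    rw [(ab.mul_left ab).mul_mul_mul_comm, ← mul_assoc (a * a), a3, one_mul, ← (ab.mul_left ab).eq,
      ← (ab.mul_right ab).eq] at e4
    have e5 := e1 (ρ b m)
    have e6 := e1 (ρ (b * b) m)
    rw [mu, mu] at e5 e6
    exact m0 (by linear_combination (norm := abel) e3 + e4 + e2 m - e5 - e6 - two m)
  have fx : ∀ (B : Subgroup S) (t : S), (∀ x, x ∈ B ↔ x = 1 ∨ x = Z ∨ x = t ∨ x = t * Z) →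
      Nat.card {m : M // ∀ b ∈ B, ρ b m = m} = Nat.card {m // ρ Z m = m ∧ ρ t m = m} :=
    fun B t h => Nat.card_congr (Equiv.subtypeEquivRight fun m => ⟨fun e =>
      ⟨e _ ((h _).2 (by simp)), e _ ((h _).2 (by simp))⟩, fun e x hx => by
        rcases (h x).1 hx with rfl | rfl | rfl | rfl
        exacts [by simp, e.1, e.2, by rw [← mu, e.1, e.2]]⟩)
  have cl : ∀ B ≤ X, Nat.card B = 4 → (∀ b ∈ B, b ^ 2 = 1) →
      (∀ x, x ∈ B ↔ x = 1 ∨ x = Z ∨ x = s ∨ x = s * Z) ∨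
      (∀ x, x ∈ B ↔ x = 1 ∨ x = Z ∨ x = R * s ∨ x = R * s * Z) := fun B h1 h2 h3 => by
    have m : ∀ x, x ∈ B ↔ ∃ d ∈ Finset.univ.filter (ι · ∈ B), ι d = x := fun x =>
      ⟨fun h => ((ιX x).1 (h1 h)).imp fun d e => ⟨by simpa [e], e⟩, by rintro ⟨d, h, rfl⟩; simpa using h⟩
    refine (four (Finset.univ.filter (ι · ∈ B)) ?_ (fun x a y b => ?_) fun x a => ιi ?_).imp
      (fun h x => ?_) fun h x => ?_
    · refine Eq.trans ?_ h2
      rw [← Finset.card_image_of_injective _ ιi, ← Nat.card_eq_finsetCard]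
      exact Nat.card_congr (Equiv.subtypeEquivRight fun x => by rw [m, Finset.mem_image])
    · simp only [Finset.mem_filter, Finset.mem_univ, true_and, map_mul] at a b ⊢
      exact mul_mem a b
    · rw [map_pow, map_one]; exact h3 _ (by simpa using a)
    · rw [m, h, ← hS, ← z, ← map_mul]; simp [eq_comm]
    · rw [m, h, ← hS, ← z, ← hR, ← map_mul, ← map_mul,
        show r 1 * sr 0 = (sr 3 : DihedralGroup 4) from rfl,
        show sr 3 * r 2 = (sr 1 : DihedralGroup 4) from rfl]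
      simp [eq_comm, or_comm]
  have ex : ∀ i, ∃ B ≤ X, Nat.card B = 4 ∧ (∀ b ∈ B, b ^ 2 = 1) ∧
      ∀ x, x ∈ B ↔ x = 1 ∨ x = Z ∨ x = ι (sr i) ∨ x = ι (sr i) * Z := fun i => by
    let K : Subgroup (DihedralGroup 4) :=
      { carrier := {x | x = 1 ∨ x = r 2 ∨ x = sr i ∨ x = sr i * r 2}
        one_mem' := .inl rfl
        mul_mem' := by simp only [Set.mem_setOf_eq]; revert i; decide
        inv_mem' := by simp only [Set.mem_setOf_eq]; revert i; decide }
    refine ⟨K.map ι, by rintro _ ⟨d, -, rfl⟩; exact (ιX _).2 ⟨d, rfl⟩, ?_, ?_, fun x => ?_⟩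
    · rw [card_map_of_injective ιi]
      change Nat.card {x : DihedralGroup 4 // x = 1 ∨ x = r 2 ∨ x = sr i ∨ x = sr i * r 2} = 4
      rw [Nat.card_eq_fintype_card]; clear * -; revert i; decide
    · rintro _ ⟨d, hd, rfl⟩
      rw [← map_pow, show d ^ 2 = 1 from ?_, map_one]
      change d = 1 ∨ d = r 2 ∨ d = sr i ∨ d = sr i * r 2 at hd
      clear * - hd; revert d i; decide
    · rw [← z, ← map_mul, ← map_one ι]
      exact ⟨by rintro ⟨d, rfl | rfl | rfl | rfl, rfl⟩ <;> simp, by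
        rintro (rfl | rfl | rfl | rfl) <;> exact ⟨_, by simp [K], rfl⟩⟩
  refine ⟨key.1, ?_⟩
  by_cases h : Nat.card {m // ρ Z m = m ∧ ρ s m = m} = 2
  · obtain ⟨B, b1, b2, b3, b4⟩ := ex 0
    rw [hS] at b4
    refine ⟨B, ⟨b1, b2, b3, (fx B s b4).trans h⟩, fun C ⟨c1, c2, c3, c4⟩ => ?_⟩
    rcases cl C c1 c2 c3 with c | c
    · ext x; rw [c, b4]
    · exact absurd ((fx C _ c).symm.trans c4) (key.2.1 h)
  · obtain ⟨B, b1, b2, b3, b4⟩ := ex 3
    rw [show ι (sr 3) = R * s by rw [← hR, ← hS, ← map_mul]; rfl] at b4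
    refine ⟨B, ⟨b1, b2, b3, (fx B _ b4).trans (by_contra fun e => h (key.2.2 e))⟩,
      fun C ⟨c1, c2, c3, c4⟩ => ?_⟩
    rcases cl C c1 c2 c3 with c | c
    · exact absurd ((fx C _ c).symm.trans c4) h
    · ext x; rw [c, b4]

end Cfsg.Agent.S4407
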