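import Cfsg.Statements.S4408
import Cfsg.Agent.H10.Dih

set_option autoImplicit false
open Cfsg

namespace Cfsg.Agent.S4408

/-- Let S be a finite solvable group whose Fitting subgroup F(S) has odd order, and let I be an elementary abelian 2-subgroup of S of order 2ⁿ with n ≥ 1. Then F(S) contains subgroups A₁, …, Aₙ of prime order, each normalized by I, pairwise commuting and generating a subgroup A of order |A₁|⋯|Aₙ| (their internal direct product), such that no non-identity element of I centralizes A. -/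
theorem result {S : Type*} [Group S] [Finite S]
    [Group.IsSolvable S] (hF : Odd (Nat.card ↥(Cfsg.fittingSubgroup S)))
    (I : Subgroup S) (hI : Cfsg.IsElementaryAbelian 2 I) (n : ℕ) (hn : 1 ≤ n) (hIn : Nat.card ↥I = 2 ^ n) :
    ∃ f : Fin n → Subgroup S, (∀ i, (Nat.card ↥(f i)).Prime) ∧ (∀ i, f i ≤ Cfsg.fittingSubgroup S) ∧
      (∀ i, I ≤ Subgroup.normalizer ((f i) : Set S)) ∧ (∀ i j, i ≠ j → ∀ a ∈ f i, ∀ b ∈ f j, a * b = b * a) ∧
      Nat.card ↥(⨆ i, f i) = ∏ i, Nat.card ↥(f i) ∧ I ⊓ Subgroup.centralizer ((⨆ i, f i : Subgroup S) : Set S) = ⊥ := by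
  open Subgroup Cfsg.Agent.H10 in
  have hC := H1.centralizer_fittingSubgroup_le (G := S) inferInstance
  have hf : I ⊓ centralizer (fittingSubgroup S : Set S) = ⊥ := by
    rw [eq_bot_iff, ← (disjoint_of_coprime_natCard (ea2_coprime hI hF)).eq_bot]
    exact inf_le_inf_left _ hC
  obtain ⟨x, a, h1, h2, h3, h4, h5⟩ := exists_dual_basis hI (H1.isNilpotent_fittingSubgroup S) hF
    le_normalizer_of_normal hf hIn
  have hc : ∀ i j, i ≠ j → ∀ u ∈ zpowers (x i), ∀ v ∈ zpowers (x j), u * v = v * u := by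
    rintro i j - _ ⟨k, rfl⟩ _ ⟨l, rfl⟩
    exact Commute.zpow_zpow (h2 i j) k l
  refine ⟨fun i => zpowers (x i), fun i => ?_, fun i => zpowers_le.mpr (h1 i).1,
    fun i => (h1 i).2.2.le_normalizer, hc, card_iSup_of_iSupIndep _ hc
      (iSupIndep_zpowers_of_prime x a (fun i => (h1 i).2.1) (fun i => (h3 i).2.2) h4), ?_⟩
  · rw [Nat.card_zpowers]; exact (h1 i).2.1
  · rw [eq_bot_iff, ← h5]
    refine inf_le_inf_left _ (le_iInf fun i => ?_)
    rw [← centralizer_zpowers]
    exact centralizer_anti (le_iSup (fun i => zpowers (x i)) i)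

end Cfsg.Agent.S4408
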