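import Cfsg.Statements.S4409
import Mathlib
import Cfsg.Agent.H2.N8b
import Cfsg.Agent.H1.Hall

set_option autoImplicit false
open Cfsg

namespace Cfsg.Agent.S4409

open Cfsg.Agent.H2.N8 Subgroup in

/-- Let S be a finite solvable group with O_{2'}(S) = 1 that contains a non-cyclic abelian subgroup of order 8, while no proper subgroup of S of 2-power index contains one. Then a Sylow 2-subgroup X of S is normal in S, and one of the following holds: X is abelian; X is extraspecial of order at least 32; X has a generalized quaternion subgroup X₀ of index 2 with X = X₀·C_X(X₀); or X is special with centre of order 4. -/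
theorem result {S : Type*} [Group S] [Finite S]
    [Group.IsSolvable S] (hO : Cfsg.pPrimeCore 2 S = ⊥)
    (h8 : ∃ A : Subgroup S, IsMulCommutative ↥A ∧ ¬ IsCyclic ↥A ∧ Nat.card ↥A = 8)
    (hmin : ∀ R : Subgroup S, R ≠ ⊤ → (∃ k : ℕ, R.index = 2 ^ k) →
      ¬ ∃ A : Subgroup S, A ≤ R ∧ IsMulCommutative ↥A ∧ ¬ IsCyclic ↥A ∧ Nat.card ↥A = 8)
    (X : Sylow 2 S) :
    (X : Subgroup S).Normal ∧
      (IsMulCommutative ↥X ∨
        (Cfsg.IsExtraspecial 2 ↥X ∧ 32 ≤ Nat.card ↥X) ∨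
        (∃ (X₀ : Subgroup S) (k : ℕ), X₀ ≤ (X : Subgroup S) ∧ X₀.relIndex (X : Subgroup S) = 2 ∧
          Nonempty (↥X₀ ≃* QuaternionGroup (2 ^ (k + 1))) ∧ X₀ ⊔ ((X : Subgroup S) ⊓ Subgroup.centralizer (X₀ : Set S)) = (X : Subgroup S)) ∨
        (Cfsg.IsSpecial 2 ↥X ∧ Nat.card ↥(Subgroup.center ↥X) = 4)) := by
  obtain ⟨H, hH1, hH2⟩ := H1.exists_isPiHall ({2}ᶜ) ‹Group.IsSolvable S›
  have hodd : Odd (Nat.card H) := Nat.not_even_iff_odd.1 fun h => hH1 2 Nat.prime_two h.two_dvd rfl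
  obtain ⟨m, hidx⟩ : ∃ m, H.index = 2 ^ m := ⟨_, Nat.eq_prime_pow_of_unique_prime_dvd (p := 2)
    (index_ne_zero_of_finite (H := H)) fun {d} hd h => by_contra fun h' => hH2 d hd h' h⟩
  have hY : ∀ Y : Subgroup S, Y ≤ X → H ≤ normalizer (Y : Set S) → ¬ N8 Y → Y = X ∧ Y ⊔ H = ⊤ := by
    intro Y h1 h2 h3
    have h4 : Y ⊔ H = ⊤ := by
      by_contra h4
      obtain ⟨k, -, hk⟩ := (Nat.dvd_prime_pow Nat.prime_two).1 ((index_dvd_of_le (le_sup_right (a := Y))).trans hidx.dvd)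
      exact h3 (N8.mono (hmin _ h4 ⟨k, hk⟩) le_sup_left)
    refine ⟨eq_of_le_of_card_ge h1 (Nat.le_of_dvd Nat.card_pos ?_), h4⟩
    have h5 := H1.card_sup_dvd h2
    rw [h4, card_top] at h5
    exact (H1.coprime_card_of_isPGroup X.isPGroup' hodd.not_two_dvd_nat).dvd_of_dvd_mul_right
      ((card_subgroup_dvd_card _).trans h5)
  have hC := H9.centralizer_pCore_le_of_isPSolvable (H9.isPSolvable_of_isSolvable (p := 2) ‹_›) hO
  have hT := H1.isPGroup_pCore 2 S
  obtain ⟨A, hA1, hA2, hA3⟩ := h8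
  have hA : IsPGroup 2 A := IsPGroup.of_card (n := 3) hA3
  have hbot : H ≤ centralizer (pCore 2 S : Set S) → H = ⊥ := fun h => card_eq_one.1 ((Nat.coprime_self _).1
    ((H1.coprime_card_of_isPGroup hT hodd.not_two_dvd_nat).coprime_dvd_left (card_dvd_of_le (h.trans hC))))
  have hT8 : ¬ N8 (pCore 2 S) := fun h => by
    by_cases h1 : H ≤ centralizer (pCore 2 S : Set S)
    · rw [hbot h1, index_bot, ← card_top] at hidx
      exact h ⟨A, le_top.trans (H1.le_pCore (IsPGroup.of_card hidx)), hA1, hA2, hA3⟩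
    · obtain ⟨g, hg, hgc⟩ := SetLike.not_le_iff_exists.1 h1
      rcases h.four_or_q8 hT (le_normalizer_of_normal (mem_top g)) (H11.odd_orderOf_of_odd_card hodd hg) hgc
        with h2 | ⟨z, h2⟩
      · exact not_four_core hC h2 hA3
      · exact not_q8_core hC h2 hA3 hA2
  obtain ⟨h1, h2⟩ := hY _ ((H3.sylowIn_top X).le_of_le_normalizer hT le_top le_normalizer_of_normal)
    le_normalizer_of_normal hT8
  haveI hX : (X : Subgroup S).Normal := h1 ▸ inferInstance
  refine ⟨hX, ?_⟩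
  by_cases hna : IsMulCommutative (X : Subgroup S)
  · exact Or.inl hna
  right
  rw [h1] at hT8 h2 hbot
  refine struct X.isPGroup' hodd h2 (fun Y h3 h4 => by_contra fun h5 => h3.ne (hY Y h3.le h4 h5).1) hT8
    (fun h => hna ?_) hna
  rwa [← (hY A ((H3.sylowIn_top X).le_of_le_normalizer' hA le_top le_normalizer_of_normal)
    (hbot h ▸ bot_le) fun h => h ⟨A, le_rfl, hA1, hA2, hA3⟩).1]

end Cfsg.Agent.S4409
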