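import Cfsg.Statements.S4410
import Cfsg.Agent.H10.Basic
import Cfsg.Agent.H1.Cores

set_option autoImplicit false
open Cfsg

namespace Cfsg.Agent.S4410

section
open Subgroup Cfsg.Agent.H10
open scoped commutatorElement Pointwise

variable {V : Type*} [AddCommGroup V] [Module (ZMod 2) V]

theorem add_self (y : V) : y + y = 0 := by
  have : (2 : ZMod 2) = 0 := rfl
  rw [← two_smul (ZMod 2) y, this, zero_smul]

def Tv (s : V ≃ₗ[ZMod 2] V) (v : V) : Prop := s v = v ∧ ∀ y, s y = y ∨ s y = y + v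

theorem Tv.conj {s : V ≃ₗ[ZMod 2] V} {v : V} (h : Tv s v) (g : V ≃ₗ[ZMod 2] V) :
    Tv (g * s * g⁻¹) (g v) := by
  refine ⟨by simp [h.1], fun y => ?_⟩
  rcases h.2 (g⁻¹ y) with h1 | h1
  · left; simp only [LinearEquiv.mul_apply, h1]; simp
  · right; simp only [LinearEquiv.mul_apply, h1]; simp

theorem Tv.pow_four {s1 s2 : V ≃ₗ[ZMod 2] V} {v1 v2 : V} (h1 : Tv s1 v1) (h2 : Tv s2 v2)
    (h : s1 v2 = v2) : (s1 * s2) ^ 4 = 1 := by
  set g := s1 * s2 with hg
  have e2 : g v2 = v2 := by simp [hg, h2.1, h]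
  have e1 : g v1 = v1 ∨ g v1 = v1 + v2 := by
    rcases h2.2 v1 with e | e
    · left; simp [hg, e, h1.1]
    · right; simp [hg, e, h1.1, h]
  have e3 : ∀ y, g y = y ∨ g y = y + v1 ∨ g y = y + v2 ∨ g y = y + v1 + v2 := by
    intro y
    rcases h2.2 y with e | e <;> rcases h1.2 y with e' | e' <;> simp [hg, e, e', h]
  have e4 : ∀ y, g (g y) = y ∨ g (g y) = y + v2 := by
    intro y
    rcases e3 y with e | e | e | e
    · left; rw [e, e]
    · rcases e1 with e' | e'
      · left; rw [e, map_add, e, e', add_assoc, add_self, add_zero]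
      · right; rw [e, map_add, e, e', ← add_assoc, add_assoc y, add_self, add_zero]
    · left; rw [e, map_add, e, e2, add_assoc, add_self, add_zero]
    · rcases e1 with e' | e'
      · left
        rw [e, map_add, map_add, e, e', e2]
        calc y + v1 + v2 + v1 + v2 = y + (v1 + v1) + (v2 + v2) := by abel
          _ = y := by rw [add_self, add_self, add_zero, add_zero]
      · right
        rw [e, map_add, map_add, e, e', e2]
        calc y + v1 + v2 + (v1 + v2) + v2 = y + (v1 + v1) + (v2 + v2) + v2 := by abel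
          _ = y + v2 := by rw [add_self, add_self, add_zero, add_zero]
  ext y
  have : (g ^ 4) y = g (g (g (g y))) := by simp [pow_succ]
  rw [this]
  rcases e4 y with e | e
  · rw [e, e]; rfl
  · rw [e, map_add, map_add, e, e2, e2, add_assoc, add_self, add_zero]; rfl

theorem four_le [Finite V] (R : Submodule (ZMod 2) V) {v w : V} (hv : v ∈ R) (hw : w ∈ R)
    (hv0 : v ≠ 0) (h2 : w ≠ 0) (h3 : w ≠ v) : 4 ≤ Nat.card R := by
  have h1 : w + v ≠ 0 := fun e => h3 (by
    rw [← add_zero w, ← add_self v, ← add_assoc, e, zero_add])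
  let f : Fin 4 → R := ![0, ⟨v, hv⟩, ⟨w, hw⟩, ⟨w + v, add_mem hw hv⟩]
  have hf : Function.Injective f := by
    intro i j hij
    have hij' := congrArg Subtype.val hij
    have h4 := hv0.symm
    have h5 := h2.symm
    have h6 := h3.symm
    have h7 := h1.symm
    fin_cases i <;> fin_cases j <;> first | rfl | (exfalso; simp [f, *] at hij')
  simpa using Nat.card_le_card_of_injective f hf

end

/-- Let V be a finite-dimensional vector space over the field with two elements and S a solvable group of linear automorphisms of V with O₂(S) = 1. If P ∈ S has order 4 and (P − 1)³ = 0 on V, then the image of (P − 1)² has at least 4 elements; equivalently, in the decomposition of V into indecomposable modules for the cyclic group generated by P, at least two summands have dimension 3. -/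
theorem result
    {V : Type*} [AddCommGroup V] [Module (ZMod 2) V] [Finite V]
    (S : Subgroup (V ≃ₗ[ZMod 2] V)) (hS : Group.IsSolvable ↥S) (hO2 : Cfsg.pCore 2 ↥S = ⊥)
    (P : V ≃ₗ[ZMod 2] V) (hPS : P ∈ S) (hP4 : orderOf P = 4)
    (hcub : ((P : V →ₗ[ZMod 2] V) - LinearMap.id) ^ 3 = 0) :
    4 ≤ Nat.card ↥(LinearMap.range (((P : V →ₗ[ZMod 2] V) - LinearMap.id) ^ 2)) := by
  open Subgroup Cfsg.Agent.H10 in
  by_contra hlt
  have : Finite (V ≃ₗ[ZMod 2] V) := Finite.of_injective (fun f => (f : V → V)) DFunLike.coe_injective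
  set N : V →ₗ[ZMod 2] V := (P : V →ₗ[ZMod 2] V) - LinearMap.id with hN
  have hN2 : ∀ y, (N ^ 2) y = P (P y) + y := by
    intro y
    have h1 : ∀ z : V, N z = P z + z := fun z => by
      simp only [hN, LinearMap.sub_apply, LinearEquiv.coe_coe, LinearMap.id_apply]
      rw [sub_eq_iff_eq_add, add_assoc, add_self, add_zero]
    rw [pow_two, Module.End.mul_apply, h1, h1, map_add, add_assoc, ← add_assoc (P y), add_self,
      zero_add]
  set t := P * P with ht
  have ht1 : t ≠ 1 := fun h => by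
    have := orderOf_dvd_of_pow_eq_one (show P ^ 2 = 1 by rw [pow_two]; exact h)
    rw [hP4] at this
    omega
  have htt : t * t = 1 := by
    have := pow_orderOf_eq_one P
    rw [hP4] at this
    rw [← this, ht]; simp [pow_succ, mul_assoc]
  obtain ⟨y0, hy0⟩ : ∃ y, t y ≠ y := by
    by_contra h
    push Not at h
    exact ht1 (LinearEquiv.ext h)
  set v := (N ^ 2) y0 with hv
  have hv0 : v ≠ 0 := fun h => hy0 (by
    rw [hv, hN2] at h
    change P (P y0) = y0
    rw [← add_zero (P (P y0)), ← add_self y0, ← add_assoc, h, zero_add])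
  have hPv : P v = v := by
    have := LinearMap.congr_fun hcub y0
    rw [pow_succ', Module.End.mul_apply, ← hv] at this
    simpa [hN, sub_eq_zero] using this
  have hR : ∀ y, (N ^ 2) y = 0 ∨ (N ^ 2) y = v := by
    intro y
    by_contra h
    push Not at h
    apply hlt
    exact four_le _ ⟨y0, rfl⟩ ⟨y, rfl⟩ hv0 h.1 h.2
  have hT : Tv t v := by
    refine ⟨by simp [ht, hPv], fun y => ?_⟩
    have h1 : t y = (N ^ 2) y + y := by rw [hN2, add_assoc, add_self, add_zero]; rfl
    rcases hR y with h | h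
    · left; rw [h1, h, zero_add]
    · right; rw [h1, h, add_comm]
  set F := fittingSubgroup S with hF
  have hFodd : ¬ 2 ∣ Nat.card F := by
    have := H1.not_dvd_relIndex_pCore_fittingSubgroup (G := S) 2
    rwa [hO2, relIndex_bot_left] at this
  have hFn : F.Normal := inferInstance
  let P' : S := ⟨P, hPS⟩
  let t' : S := P' * P'
  have htt' : t' * t' = 1 := Subtype.ext htt
  have ht'' : t'⁻¹ = t' := inv_eq_of_mul_eq_one_right htt'
  have key0 : ∀ y ∈ F, ∀ z ∈ F, (y * t' * y⁻¹ * (z * t' * z⁻¹)) ^ 4 = 1 →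
      y * t' * y⁻¹ = z * t' * z⁻¹ := by
    intro y hy z hz h2
    have h3 : y * t' * y⁻¹ * (z * t' * z⁻¹) ∈ F := by
      have := mul_mem (mul_mem hy (hFn.conj_mem _ (mul_mem (inv_mem hy) hz) t')) (inv_mem hz)
      rw [ht''] at this
      simpa only [mul_assoc] using this
    have h4 := F.orderOf_dvd_natCard h3
    have h5 : orderOf (y * t' * y⁻¹ * (z * t' * z⁻¹)) ∣ 2 ^ 2 := orderOf_dvd_of_pow_eq_one h2
    have h6 := orderOf_eq_one_iff.mp (Nat.eq_one_of_dvd_coprimes
      (Nat.Coprime.pow_left 2 ((Nat.Prime.coprime_iff_not_dvd Nat.prime_two).mpr hFodd)) h5 h4)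
    rw [eq_inv_of_mul_eq_one_left h6, conj_inv, ht'']
  have key : ∀ y ∈ F, ∀ z ∈ F, ((y : V ≃ₗ[ZMod 2] V) * t * (y : V ≃ₗ[ZMod 2] V)⁻¹)
      ((z : V ≃ₗ[ZMod 2] V) v) = (z : V ≃ₗ[ZMod 2] V) v → y * t' * y⁻¹ = z * t' * z⁻¹ :=
    fun y hy z hz h => key0 y hy z hz (Subtype.ext ((hT.conj y).pow_four (hT.conj z) h))
  obtain ⟨x, hx, hxt⟩ : ∃ x ∈ F, x * t' ≠ t' * x := by
    by_contra h
    push Not at h
    have h1 : t' ∈ F := H1.centralizer_fittingSubgroup_le hS h
    have h2 : orderOf t' = 2 := orderOf_eq_prime (by rw [pow_two, htt'])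
      fun e => ht1 (congrArg Subtype.val e)
    exact hFodd (h2.symm.dvd.trans (F.orderOf_dvd_natCard h1))
  have hne : x * t' * x⁻¹ ≠ t' := fun h => hxt (mul_inv_eq_iff_eq_mul.mp h)
  set s := x * t' * x⁻¹ with hs
  have hPs : P' * s * P'⁻¹ ≠ s := by
    intro h
    have h1 : Commute P' s := mul_inv_eq_iff_eq_mul.mp h
    have h2 : Commute s t' := Commute.mul_right h1.symm h1.symm
    have h3 : s * s = 1 := by rw [hs, conj_mul, htt']; simp
    refine hne ((key0 x hx 1 (one_mem _) ?_).trans (by simp))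
    rw [one_mul, inv_one, mul_one, ← hs, h2.mul_pow, show 4 = 2 * 2 from rfl, pow_mul, pow_mul,
      pow_two s, pow_two t', h3, htt']
    simp
  have hz : P' * x * P'⁻¹ ∈ F := hFn.conj_mem x hx P'
  have hzs : (P' * x * P'⁻¹) * t' * (P' * x * P'⁻¹)⁻¹ = P' * s * P'⁻¹ := by
    simp only [hs, t']; group
  have hy : t' * x * t'⁻¹ ∈ F := hFn.conj_mem x hx t'
  have hys : (t' * x * t'⁻¹) * t' * (t' * x * t'⁻¹)⁻¹ = P' * (P' * s * P'⁻¹) * P'⁻¹ := by
    simp [hs, t', mul_assoc]
  set X : V ≃ₗ[ZMod 2] V := (x : V ≃ₗ[ZMod 2] V) with hX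
  have hP' : P⁻¹ v = v := (LinearEquiv.symm_apply_eq P).mpr hPv.symm
  have hzv : ((P' * x * P'⁻¹ : S) : V ≃ₗ[ZMod 2] V) v = P (X v) := by
    change P (X (P⁻¹ v)) = _
    rw [hP']
  have hT' := hT.conj X
  have e1 : t (X v) = X v + v := (hT.2 _).resolve_left fun h =>
    hne ((key 1 (one_mem _) x hx (by simpa using h)).symm.trans (by simp))
  have e2 : (X * t * X⁻¹) v = v + X v := (hT'.2 _).resolve_left fun h =>
    hne ((key x hx 1 (one_mem _) (by simpa using h)).trans (by simp))
  have e3 : (X * t * X⁻¹) (P (X v)) = P (X v) + X v := (hT'.2 _).resolve_left fun h =>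
    hPs (hzs ▸ (key x hx _ hz (by rw [hzv]; exact h)).symm)
  have e4 : t (P (X v)) = P (X v) + v := by
    have : t (P (X v)) = P (t (X v)) := rfl
    rw [this, e1, map_add, hPv]
  have e5 := key _ hy _ hz (by
    rw [hzv]
    have h1 : ((t' * x * t'⁻¹ : S) : V ≃ₗ[ZMod 2] V) * t * ((t' * x * t'⁻¹ : S) : V ≃ₗ[ZMod 2] V)⁻¹
        = t * (X * t * X⁻¹) * t := by
      have h2 : t⁻¹ = t := inv_eq_of_mul_eq_one_right htt
      change (t * X * t⁻¹) * t * (t * X * t⁻¹)⁻¹ = _
      calc _ = t * (X * t * X⁻¹) * t⁻¹ := by group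
        _ = _ := by rw [h2]
    rw [h1, LinearEquiv.mul_apply, LinearEquiv.mul_apply, e4, map_add, e3, e2]
    have h3 : P (X v) + X v + (v + X v) = P (X v) + v := by
      calc _ = P (X v) + v + (X v + X v) := by abel
        _ = _ := by rw [add_self, add_zero]
    rw [h3, map_add, e4, hT.1, add_assoc, add_self, add_zero])
  rw [hys, hzs] at e5
  exact hPs (mul_left_cancel (mul_right_cancel e5))

end Cfsg.Agent.S4410
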