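import Cfsg.Statements.S4411
import Cfsg.Agent.H10.Basic
import Cfsg.Agent.H3.Misc1
import Cfsg.Agent.H9.PSolv
import Cfsg.Agent.H9.Thompson
import Cfsg.Agent.H9.FF2
import Cfsg.Agent.S0618
import Cfsg.Agent.H2.Product
import Cfsg.Agent.H1.Coprime

set_option autoImplicit false
open Cfsg

namespace Cfsg.Agent.S4411

section
open Subgroup Cfsg.Agent.H10
open scoped commutatorElement Pointwise

open Cfsg.Agent.H3

universe u

theorem char_comap {A B : Type*} [Group A] [Group B] (φ : A →* B) (hφ : Function.Surjective φ)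
    (hk : φ.ker.Characteristic) {Y : Subgroup B} (hY : Y.Characteristic) :
    (Y.comap φ).Characteristic := by
  let e := QuotientGroup.quotientKerEquivOfSurjective φ hφ
  have h1 : (Y.comap e.toMonoidHom).Characteristic := by
    refine characteristic_iff_comap_le.mpr fun ψ x hx => ?_
    have := characteristic_iff_comap_le.mp hY ((e.symm.trans ψ).trans e) (x := e x)
      (by simpa using hx)
    exact this
  have := Subgroup.Characteristic.comap_quotient_mk (hH := hk) h1
  rwa [comap_comap] at this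

def Hyp (q : ℕ) {M : Type*} [Group M] (P : Subgroup M) : Prop :=
  ∀ Y : Subgroup P, Y.Characteristic → ∀ A : Subgroup M, IsPGroup q A →
    A ≤ normalizer (Y.map P.subtype : Set M) → A ≤ centralizer (Y.map P.subtype : Set M)

theorem Hyp.sub {q : ℕ} {M : Type*} [Group M] {P M1 : Subgroup M} (h : Hyp q P) (hP : P ≤ M1) :
    Hyp q (P.subgroupOf M1) := by
  intro Y hY A hA hn
  let e := (subgroupOfEquivOfLe hP).symm
  have h1 := char_comap e.toMonoidHom e.surjective
    (by rw [(MonoidHom.ker_eq_bot_iff _).mpr e.injective]; infer_instance) hY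
  have h2 : (Y.comap e.toMonoidHom).map P.subtype =
      (Y.map (P.subgroupOf M1).subtype).map M1.subtype := by
    ext x
    constructor
    · rintro ⟨y, hy, rfl⟩
      exact ⟨_, ⟨e y, hy, rfl⟩, rfl⟩
    · rintro ⟨_, ⟨y, hy, rfl⟩, rfl⟩
      exact ⟨e.symm y, by simpa using hy, rfl⟩
  have h3 := h _ h1 (A.map M1.subtype) (hA.map _) (h2 ▸ map_le_normalizer_map hn _)
  rw [h2] at h3
  exact fun a ha y hy => Subtype.ext (h3 ⟨a, ha, rfl⟩ _ ⟨y, hy, rfl⟩)

theorem Hyp.quot {q : ℕ} [Fact q.Prime] {M M' : Type*} [Group M] [Finite M] [Group M']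
    {P : Subgroup M} (h : Hyp q P) (f : M →* M') (hk : (f.ker.subgroupOf P).Characteristic)
    (hl : ∀ X : Subgroup M, X ≤ P → P ⊓ f.ker ≤ X →
      normalizer (X.map f : Set M') ≤ (normalizer (X : Set M)).map f) : Hyp q (P.map f) := by
  intro Y hY A hA hn
  let φ := f.subgroupMap P
  have hφ : Function.Surjective φ := f.subgroupMap_surjective P
  have hker : φ.ker = f.ker.subgroupOf P := by
    ext x
    simp only [MonoidHom.mem_ker, mem_subgroupOf]
    exact Subtype.ext_iff
  have h1 := char_comap φ hφ (hker ▸ hk) hY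
  set X := (Y.comap φ).map P.subtype with hX
  have h2 : X.map f = Y.map (P.map f).subtype := by
    ext x
    constructor
    · rintro ⟨_, ⟨y, hy, rfl⟩, rfl⟩
      exact ⟨φ y, hy, rfl⟩
    · rintro ⟨y, hy, rfl⟩
      obtain ⟨z, rfl⟩ := hφ y
      exact ⟨z, ⟨z, hy, rfl⟩, rfl⟩
  have h3 := hl X (map_subtype_le _) fun x hx => ⟨⟨x, hx.1⟩, by
    have : φ ⟨x, hx.1⟩ = 1 := Subtype.ext hx.2
    change φ _ ∈ Y
    rw [this]; exact one_mem _, rfl⟩
  rw [h2] at h3
  obtain ⟨B, hB⟩ := exists_sylowIn q (normalizer (X : Set M) ⊓ A.comap f)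
  have h4 := hB.map f
  have h5 : (normalizer (X : Set M) ⊓ A.comap f).map f = A := by
    refine le_antisymm (map_le_iff_le_comap.mpr inf_le_right) fun a ha => ?_
    obtain ⟨b, hb, rfl⟩ := h3 (hn ha)
    exact ⟨b, ⟨hb, ha⟩, rfl⟩
  rw [h5] at h4
  rw [h4.eq_of_le hA le_rfl h4.le, ← h2]
  exact map_le_centralizer_map (h _ h1 B hB.isPGroup (hB.le.trans inf_le_left)) f

theorem exists_step {p q : ℕ} [hq : Fact q.Prime] [hp : Fact p.Prime] (hpq : p ≠ q) {M : Type*}
    [Group M] [Finite M] (hs : IsPSolvable p M) (h : q ∣ Nat.card M) :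
    ∃ N L : Subgroup M, N.Normal ∧ L.Normal ∧ N ≤ L ∧ ¬ q ∣ Nat.card N ∧ q ∣ Nat.card L ∧
      ¬ p ∣ N.relIndex L := by
  obtain ⟨N, ⟨h1, h2⟩, hmax⟩ := (wellFounded_gt (α := Subgroup M)).has_min
    {N : Subgroup M | N.Normal ∧ ¬ q ∣ Nat.card N}
    ⟨⊥, inferInstance, by rw [card_bot]; exact hq.out.not_dvd_one⟩
  have hne : N < ⊤ := lt_top_iff_ne_top.mpr fun e => h2 (by rwa [e, card_top])
  obtain ⟨L, h3, h4, -, h5⟩ := H9.exists_step_of_isPSolvable (H9.isPSolvable_top_iff.mpr hs) hne
  have h6 : q ∣ Nat.card L := by_contra fun h6 => hmax L ⟨h3, h6⟩ h4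
  refine ⟨N, L, h1, h3, h4.le, h2, h6, ?_⟩
  rcases h5 with ⟨m, hm⟩ | h5
  · rw [← card_mul_relIndex h4.le, hm] at h6
    exact absurd ((Nat.prime_dvd_prime_iff_eq hq.out hp.out).mp (hq.out.dvd_of_dvd_pow
      (((Nat.Prime.dvd_mul hq.out).mp h6).resolve_left h2))) hpq.symm
  · exact (Nat.Prime.coprime_iff_not_dvd hp.out).mp h5.symm

theorem dvd_of_isPGroup {G : Type*} [Group G] [Finite G] {p r : ℕ} [hp : Fact p.Prime]
    (hr : r.Prime) (h : IsPGroup p G) (hd : r ∣ Nat.card G) : r = p := by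
  obtain ⟨k, hk⟩ := h.exists_card_eq
  exact (Nat.prime_dvd_prime_iff_eq hr hp.out).mp (hr.dvd_of_dvd_pow (hk ▸ hd))

theorem two_primes {p q : ℕ} [hq : Fact q.Prime] [hp : Fact p.Prime] (hpq : p ≠ q) {M : Type*}
    [Group M] [Finite M] (hs : IsPSolvable p M) (h : q ∣ Nat.card M) {P : Subgroup M}
    (hP : SylowIn p P ⊤) (ha : ∀ M1 : Subgroup M, P ≤ M1 → q ∣ Nat.card M1 → M1 = ⊤) {r : ℕ}
    (hr : r.Prime) (hrd : r ∣ Nat.card M) : r = p ∨ r = q := by
  obtain ⟨N, L, h1, h2, h3, h4, h5, h6⟩ := exists_step hpq hs h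
  have hT := hP.inf_of_le_normalizer (N := N) le_top le_normalizer_of_normal
  set T := P ⊓ N with hTdef
  have hf : H2.Fac ⊤ N (normalizer (T : Set M)) := H2.fac_top fun g =>
    hT.frattini (le_normalizer_of_normal (K := ⊤) (mem_top g))
  have h7 := hf.card_dvd
  rw [card_top] at h7
  have hTn : T.Normal := normalizer_eq_top_iff.mp (ha _
    (H10.le_normalizer_inf le_normalizer le_normalizer_of_normal)
    (((Nat.Prime.dvd_mul hq.out).mp (h.trans h7)).resolve_left h4))
  set f := QuotientGroup.mk' T with hf'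
  have hcL : Nat.card (L.map f) = T.relIndex L := (H9.relIndex_eq_card_map_mk' T L).symm
  have hpL : ¬ p ∣ Nat.card (L.map f) := by
    rw [hcL, ← relIndex_mul_relIndex T N L inf_le_right h3]
    exact fun e => ((Nat.Prime.dvd_mul hp.out).mp e).elim hT.not_dvd h6
  have hqL : q ∣ Nat.card (L.map f) := by
    rw [← card_mul_relIndex (inf_le_right.trans h3 : T ≤ L)] at h5
    rw [hcL]
    exact ((Nat.Prime.dvd_mul hq.out).mp h5).resolve_left fun e =>
      hpq (dvd_of_isPGroup hq.out hT.isPGroup e).symm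
  have hPf := hP.isPGroup.map f
  have : (L.map f).Normal := h2.map f (QuotientGroup.mk'_surjective T)
  obtain ⟨Q, hQ, hQn⟩ := H1.exists_invariant_isSylowIn q (A := P.map f) (K := L.map f)
    le_normalizer_of_normal (by
      obtain ⟨k, hk⟩ := hPf.exists_card_eq
      rw [hk]
      exact Nat.Coprime.pow_left _ ((Nat.Prime.coprime_iff_not_dvd hp.out).mpr hpL))
    (Or.inl (H1.isSolvable_of_isPGroup hPf))
  have hqQ : q ∣ Nat.card Q := by
    rw [← card_mul_relIndex hQ.le] at hqL
    exact ((Nat.Prime.dvd_mul hq.out).mp hqL).resolve_right hQ.not_dvd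
  have h8 := ha ((P.map f ⊔ Q).comap f) (map_le_iff_le_comap.mp le_sup_left) (by
    rw [card_comap_mk']
    exact (hqQ.trans (card_dvd_of_le le_sup_right)).mul_left _)
  rw [← card_top (G := M), ← h8, card_comap_mk'] at hrd
  rcases (Nat.Prime.dvd_mul hr).mp hrd with e | e
  · exact Or.inl (dvd_of_isPGroup hr hT.isPGroup e)
  rcases (Nat.Prime.dvd_mul hr).mp (e.trans (H10.card_sup_dvd hQn)) with e | e
  · exact Or.inl (dvd_of_isPGroup hr hPf e)
  · exact Or.inr (dvd_of_isPGroup hr hQ.isPGroup e)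

theorem key {p q : ℕ} [hp : Fact p.Prime] [hq : Fact q.Prime] (hpq : p ≠ q)
    (h23 : ¬ ((p = 2 ∧ q = 3) ∨ (p = 3 ∧ q = 2))) (n : ℕ) : ∀ {M : Type u} [Group M] [Finite M]
    (_ : Nat.card M = n) (_ : IsPSolvable p M) {P : Subgroup M} (_ : SylowIn p P ⊤) (_ : Hyp q P),
    ¬ q ∣ (pPrimeCore p M).index := by
  induction n using Nat.strong_induction_on with
  | _ n ih =>
  intro M _ _ hn hs P hP hH
  by_cases hO : pPrimeCore p M = ⊥
  swap
  · set f := QuotientGroup.mk' (pPrimeCore p M) with hf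
    have hsur : Function.Surjective f := QuotientGroup.mk'_surjective _
    have h1 := hP.map f
    rw [map_top_of_surjective f hsur] at h1
    have h2 := ih _ (hn ▸ card_quotient_lt_of_ne_bot hO) rfl (H9.isPSolvable_quotient hs _) h1
      (hH.quot f (by
        rw [hf, QuotientGroup.ker_mk', subgroupOf_eq_bot.mpr
          (disjoint_iff.mpr (H1.inf_pPrimeCore_eq_bot hP.isPGroup)).symm]
        infer_instance) fun X hX _ => by
        have hXp := hP.isPGroup.to_le hX
        refine (H1.normalizer_map_mk'_eq ?_ (Or.inl (H1.isSolvable_of_isPGroup hXp))).le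
        obtain ⟨k, hk⟩ := hXp.exists_card_eq
        rw [hk]
        exact Nat.Coprime.pow_left _ (H1.coprime_card_pPrimeCore p M).symm)
    rwa [H1.pPrimeCore_quotient_pPrimeCore, index_bot] at h2
  rw [hO, index_bot]
  intro hqM
  have hC := H9.centralizer_pCore_le_of_isPSolvable hs hO
  have hOP : pCore p M ≤ P :=
    hP.le_of_le_normalizer (H1.isPGroup_pCore p M) le_top le_normalizer_of_normal
  have ha : ∀ M1 : Subgroup M, P ≤ M1 → q ∣ Nat.card M1 → M1 = ⊤ := by
    intro M1 h1 h2
    by_contra hne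
    have h3 : SylowIn p (P.subgroupOf M1) ⊤ := ⟨le_top, hP.isPGroup.comap_subtype, by
      rw [relIndex_top_right]; exact (hP.of_le h1 le_top).not_dvd⟩
    have h4 := ih _ (hn ▸ card_lt_card_of_ne_top hne) rfl (H9.isPSolvable_subgroup hs M1) h3
      (hH.sub h1)
    have h5 : pPrimeCore p M1 = ⊥ := by
      have h6 : (pPrimeCore p M1).map M1.subtype ≤ pCore p M := by
        refine le_trans ?_ hC
        rw [le_centralizer_iff]
        refine le_trans (le_trans (le_inf le_rfl (hOP.trans h1)) (H1.pCore_inf_le p M1)) ?_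
        exact map_le_centralizer_map (H1.pCore_le_centralizer_pPrimeCore p) _
      rw [← Subgroup.map_eq_bot_iff_of_injective _ M1.subtype_injective]
      refine card_eq_one.mp ?_
      obtain ⟨k, hk⟩ := ((H1.isPGroup_pCore p M).to_le h6).exists_card_eq
      exact Nat.eq_one_of_dvd_coprimes ((H1.coprime_card_map_pPrimeCore p M1).pow_right k)
        dvd_rfl hk.dvd
    rw [h5, index_bot] at h4
    exact h4 h2
  have hb : ∀ Y : Subgroup P, Y.Characteristic → (Y.map P.subtype).Normal →
      Y.map P.subtype = ⊥ := by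
    intro Y hY hYn
    by_contra hne
    set X := Y.map P.subtype with hX
    have hXP : X ≤ P := map_subtype_le _
    set f := QuotientGroup.mk' X with hf
    have hsur : Function.Surjective f := QuotientGroup.mk'_surjective _
    have hker : f.ker = X := QuotientGroup.ker_mk' X
    have h1 := hP.map f
    rw [map_top_of_surjective f hsur] at h1
    have h2 := ih _ (hn ▸ card_quotient_lt_of_ne_bot hne) rfl (H9.isPSolvable_quotient hs _) h1
      (hH.quot f (by rw [hker, hX, map_subtype_subgroupOf]; exact hY) fun Z hZ hZ' => by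
        rw [hker, inf_eq_right.mpr hXP] at hZ'
        intro g hg
        obtain ⟨g, rfl⟩ := hsur g
        refine ⟨g, ?_, rfl⟩
        have := le_normalizer_comap f hg
        rwa [comap_map_eq_self (hker.le.trans hZ')] at this)
    obtain ⟨Q, hQ⟩ := exists_sylowIn q (⊤ : Subgroup M)
    have h3 := hQ.map f
    rw [map_top_of_surjective f hsur] at h3
    have h4 : Q.map f ≤ pPrimeCore p (M ⧸ X) := by
      obtain ⟨R, hR⟩ := exists_sylowIn q (pPrimeCore p (M ⧸ X))
      have hR' : SylowIn q R ⊤ := ⟨le_top, hR.isPGroup, by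
        rw [relIndex_top_right, ← relIndex_mul_index hR.le]
        exact fun e => ((Nat.Prime.dvd_mul hq.out).mp e).elim hR.not_dvd h2⟩
      obtain ⟨g, -, hg⟩ := hR'.exists_conj h3
      rw [← hg, ← conj_smul_eq_of_normal (pPrimeCore p (M ⧸ X)) g]
      exact conj_smul_mono _ hR.le
    set K := (pPrimeCore p (M ⧸ X)).comap f ⊓ centralizer (X : Set M) with hK
    have hKn : K.Normal := inferInstance
    have h5 : K ≤ pCore p M := by
      refine H9.le_pCore_of_isPSolvable (H9.isPSolvable_subgroup hs K) (by rw [hO, bot_inf_eq])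
        (inf_le_right.trans (centralizer_anti ?_))
      rw [← hker, ← Subgroup.map_eq_bot_iff, eq_bot_iff,
        ← H1.inf_pPrimeCore_eq_bot (((H1.isPGroup_pCore p M).to_inf_left (K := K)).map f)]
      exact le_inf le_rfl (map_le_iff_le_comap.mpr (inf_le_right.trans inf_le_left))
    have h6 : Q ≤ pCore p M := le_trans (le_inf (map_le_iff_le_comap.mp h4)
      (hH Y hY Q hQ.isPGroup le_normalizer_of_normal)) h5
    have h7 : q ∣ Nat.card Q := by
      rw [← card_top (G := M), ← card_mul_relIndex hQ.le] at hqM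
      exact ((Nat.Prime.dvd_mul hq.out).mp hqM).resolve_right hQ.not_dvd
    exact hpq (dvd_of_isPGroup hq.out ((H1.isPGroup_pCore p M).to_le h6) h7).symm
  have hPne : P ≠ ⊥ := by
    intro e
    have h1 := hP.eq_bot_iff.mp e
    have h2 : (⊤ : Subgroup M) ≤ pPrimeCore p M :=
      H1.le_pPrimeCore ((Nat.Prime.coprime_iff_not_dvd hp.out).mpr h1).symm
    rw [hO, le_bot_iff] at h2
    rw [← card_top (G := M), h2, card_bot] at hqM
    exact hq.out.not_dvd_one hqM
  have hc : ∀ Y : Subgroup P, Y.Characteristic → Y.map P.subtype ≠ ⊥ →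
      ¬ q ∣ Nat.card (normalizer (Y.map P.subtype : Set M)) := fun Y hY hne e =>
    hne (hb Y hY (normalizer_eq_top_iff.mp (ha _ (H10.le_normalizer_map_subtype Y) e)))
  by_cases hfac : IsThompsonFactorizable p M
  · have hZ : (omegaOne p (center P)).map P.subtype = omegaOne p (P ⊓ centralizer (P : Set M)) := by
      rw [H9.map_omegaOne P.subtype_injective, center_map_subtype]
    have h1 := hc _ (H9.omegaOne_characteristic p (center P)) (by
      rw [hZ]
      exact H9.omegaOne_ne_bot_of_isPGroup hP.isPGroup.to_inf_left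
        (H1.inf_centralizer_ne_bot_of_isPGroup hP.isPGroup hP.isPGroup le_normalizer hPne))
    have h2 := hc (thompsonSubgroup p P) (by
      rw [← H9.thompsonOf_top]; exact H9.thompsonOf_characteristic p ⊤)
      (H9.thompsonOf_ne_bot dvd_rfl hP.isPGroup hPne)
    have h3 : H2.Fac ⊤ (normalizer ((omegaOne p (center P)).map P.subtype : Set M))
        (normalizer ((thompsonSubgroup p P).map P.subtype : Set M)) := H2.fac_top fun g => by
      obtain ⟨x, hx, c, hc, m, hm, rfl⟩ := hfac hP.toSylowTop g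
      rw [hO, mem_bot] at hx
      rw [hx, one_mul, hZ]
      exact ⟨c, centralizer_le_normalizer _ hc, m, hm, rfl⟩
    have h4 := h3.card_dvd
    rw [card_top] at h4
    exact ((Nat.Prime.dvd_mul hq.out).mp (hqM.trans h4)).elim h1 h2
  · obtain ⟨h1, E, -, -, -, hn', ⟨e⟩⟩ := S0618.result hs hO hfac
    have h2 : p * (p ^ 2 - 1) ∣ Nat.card M := by
      rw [← H9.card_SL2_zmod, ← Nat.card_congr e.toEquiv]
      exact (card_quotient_dvd_card _).trans (card_subgroup_dvd_card E)
    rcases h1 with rfl | rfl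
    · rcases two_primes hpq hs hqM hP ha Nat.prime_three ((by norm_num : 3 ∣ _).trans h2) with e | e
      · omega
      · exact h23 (Or.inl ⟨rfl, e.symm⟩)
    · rcases two_primes hpq hs hqM hP ha Nat.prime_two ((by norm_num : 2 ∣ _).trans h2) with e | e
      · omega
      · exact h23 (Or.inr ⟨rfl, e.symm⟩)

theorem relIndex_dvd {G : Type*} [Group G] {C A N : Subgroup G} (h1 : A ≤ N) (hC : C ≤ N)
    (h2 : N ≤ normalizer (C : Set G)) : C.relIndex A ∣ C.relIndex N := by
  have : (C.subgroupOf N).Normal := (normal_subgroupOf_iff_le_normalizer hC).mpr h2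
  rw [← relIndex_subgroupOf h1, relIndex]
  exact relIndex_dvd_index_of_normal _ _

theorem exists_q {G : Type*} [Group G] [Finite G] {q : ℕ} [Fact q.Prime] {C N : Subgroup G}
    (h : q ∣ C.relIndex N) : ∃ A : Subgroup G, IsPGroup q A ∧ A ≤ N ∧ ¬ A ≤ C := by
  obtain ⟨A, hA⟩ := exists_sylowIn q N
  exact ⟨A, hA.isPGroup, hA.le, fun e => hA.not_dvd (h.trans (relIndex_dvd_of_le_left _ e))⟩

theorem dvd_of_q {G : Type*} [Group G] [Finite G] {q : ℕ} [hq : Fact q.Prime] {H A : Subgroup G}
    (hA : IsPGroup q A) (h1 : A ≤ normalizer (H : Set G)) (h2 : ¬ A ≤ centralizer (H : Set G)) :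
    q ∣ (centralizer (H : Set G)).relIndex (normalizer (H : Set G)) := by
  refine Dvd.dvd.trans ?_ (relIndex_dvd h1 (centralizer_le_normalizer _)
    (H10.normalizer_le_normalizer_centralizer H))
  obtain ⟨k, hk⟩ := hA.exists_card_eq
  obtain ⟨j, -, hj⟩ := (Nat.dvd_prime_pow hq.out).mp
    (hk ▸ relIndex_dvd_card (centralizer (H : Set G)) A)
  rcases j with _ | j
  · exact absurd (relIndex_eq_one.mp hj) h2
  · rw [hj]; exact dvd_pow_self q j.succ_ne_zero

end

/-- Let p and q be distinct primes with {p, q} ≠ {2, 3}, and let G be a finite group such that for every p-subgroup H of G the automizer N_G(H)/C_G(H) is p-solvable. If q divides the order of N_G(H)/C_G(H) for some p-subgroup H, then a Sylow p-subgroup of G has a normal subgroup K (normal in the Sylow subgroup) such that q divides the order of N_G(K)/C_G(K). -/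
theorem result {G : Type*} [Group G] [Finite G]
    (p q : ℕ) [Fact p.Prime] [Fact q.Prime] (hpq : p ≠ q) (h23 : ¬ ((p = 2 ∧ q = 3) ∨ (p = 3 ∧ q = 2)))
    (hsol : ∀ H : Subgroup G, IsPGroup p ↥H →
      Cfsg.IsPSolvable p (↥(Subgroup.normalizer (H : Set G)) ⧸ (Subgroup.centralizer (H : Set G)).subgroupOf (Subgroup.normalizer (H : Set G))))
    (H : Subgroup G) (hH : IsPGroup p ↥H)
    (hq : q ∣ ((Subgroup.centralizer (H : Set G)).subgroupOf (Subgroup.normalizer (H : Set G))).index)
    (Gp : Sylow p G) :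
    ∃ K : Subgroup G, K ≤ (Gp : Subgroup G) ∧ (Gp : Subgroup G) ≤ Subgroup.normalizer (K : Set G) ∧
      q ∣ ((Subgroup.centralizer (K : Set G)).subgroupOf (Subgroup.normalizer (K : Set G))).index := by
  open Subgroup Cfsg.Agent.H10 in
  open Cfsg.Agent.H3 in
  open scoped Pointwise in
  let adm : Subgroup G × Subgroup G → Prop := fun x => IsPGroup p x.1 ∧ IsPGroup p x.2 ∧
    x.2 ≤ normalizer (x.1 : Set G) ∧
    q ∣ (centralizer (x.1 : Set G)).relIndex (normalizer (x.1 : Set G))
  obtain ⟨⟨H0, P0⟩, h0, hmax0⟩ := Set.exists_max_image {x | adm x} (fun x => Nat.card x.2)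
    (Set.toFinite _) ⟨(H, H), hH, hH, le_normalizer, hq⟩
  obtain ⟨K1, h1, hmax1⟩ := Set.exists_max_image {x | adm (x, P0)} (fun x => Nat.card x)
    (Set.toFinite _) ⟨H0, h0⟩
  obtain ⟨hK1, hP0, hn, hq1⟩ := h1
  simp only at hK1 hP0 hn hq1 hmax0
  clear h0 hq hH H
  set N := normalizer (K1 : Set G) with hN
  set C := centralizer (K1 : Set G) with hC
  have hCN : C ≤ N := centralizer_le_normalizer _
  have hNC : N ≤ normalizer (C : Set G) := H10.normalizer_le_normalizer_centralizer K1
  have hsyl : SylowIn p P0 N := sylowIn_of_forall_eq hP0 hn fun R hR hRN hle =>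
    (eq_of_le_of_card_le hle (hmax0 (K1, R) ⟨hK1, hR, hRN, hq1⟩)).symm
  have hD := hsyl.inf_of_le_normalizer hCN hNC
  set D := P0 ⊓ C with hDdef
  have hDH : D ≤ K1 := by
    have hfac : H2.Fac N C (N ⊓ normalizer (D : Set G)) := by
      refine ⟨hCN, inf_le_left, fun g hg => ?_⟩
      obtain ⟨c, hc, m, hm, rfl⟩ := hD.frattini (hNC hg)
      exact ⟨c, hc, m, ⟨(mul_mem_cancel_left (hCN hc)).mp hg, hm⟩, rfl⟩
    obtain ⟨A, hA, hA1, hA2⟩ := exists_q (hfac.relIndex_left ▸ hq1)
    have h2 := hmax1 (K1 ⊔ D) ⟨IsPGroup.to_sup_of_normal_left' hK1 hD.isPGroup (hD.le.trans hCN),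
      hP0, H10.le_normalizer_sup hn (H10.le_normalizer_inf le_normalizer (hn.trans hNC)),
      dvd_of_q hA (H10.le_normalizer_sup (hA1.trans inf_le_left) (hA1.trans inf_le_right))
        fun e => hA2 (e.trans (centralizer_anti le_sup_left))⟩
    rw [eq_of_le_of_card_le le_sup_left h2]
    exact le_sup_right
  have hCs : IsPSolvable p C := H9.isPSolvable_of_hasNormalPComplement
    (hD.hasNormalPComplement_of_le_centralizer (hDH.trans (le_centralizer_iff.mp le_rfl)))
  have hNs : IsPSolvable p N :=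
    H9.isPSolvable_of_normal_of_quotient (C.subgroupOf N) (H9.isPSolvable_subgroupOf hCs N)
      (hsol K1 hK1)
  obtain ⟨g, -, hg⟩ := (sylowIn_top Gp).exists_conj_le hP0 le_top
  by_cases he : MulAut.conj g • P0 = Gp
  · refine ⟨MulAut.conj g • K1, ?_, ?_, ?_⟩
    · rw [← he]
      exact conj_smul_mono _ (hsyl.le_of_le_normalizer hK1 le_normalizer le_rfl)
    · rw [← he, normalizer_conj_smul]
      exact conj_smul_mono _ hn
    · obtain ⟨A, hA, hA1, hA2⟩ := exists_q hq1
      refine dvd_of_q (isPGroup_conj_smul hA g) ?_ fun e => hA2 ?_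
      · rw [normalizer_conj_smul]; exact conj_smul_mono _ hA1
      · rw [centralizer_conj_smul] at e
        have := conj_smul_mono g⁻¹ e
        rwa [conj_inv_smul_conj_smul, conj_inv_smul_conj_smul] at this
  exfalso
  have hlt : P0 < MulAut.conj g⁻¹ • (Gp : Subgroup G) := by
    refine lt_of_le_of_ne ?_ fun e => he (by rw [e, conj_smul_conj_inv_smul])
    rw [← conj_inv_smul_conj_smul P0 g]
    exact conj_smul_mono _ hg
  have hP2 := isPGroup_conj_smul Gp.isPGroup' g⁻¹
  have hlt2 := lt_inf_normalizer_of_lt hP2 hlt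
  have hyp : Hyp q P0 := by
    intro Y hY A hA hAn
    by_contra hcon
    have := hmax0 (Y.map P0.subtype, _) ⟨hP0.to_le (map_subtype_le _), hP2.to_inf_left,
      inf_le_right.trans (H10.normalizer_le_normalizer_map_subtype Y), dvd_of_q hA hAn hcon⟩
    exact absurd (H10.card_lt_of_lt hlt2) (not_lt.mpr this)
  have h3 : SylowIn p (P0.subgroupOf N) ⊤ := ⟨le_top, hP0.comap_subtype, by
    rw [relIndex_top_right]; exact hsyl.not_dvd⟩
  refine key hpq h23 _ rfl hNs h3 (hyp.sub hn) (hq1.trans (index_dvd_of_le ?_))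
  have : (K1.subgroupOf N).Normal := normal_in_normalizer
  have h4 : K1.subgroupOf N ≤ pCore p N := H1.le_pCore hK1.comap_subtype
  intro x hx y hy
  exact congrArg Subtype.val
    (H1.pCore_le_centralizer_pPrimeCore p (h4 (show ⟨y, le_normalizer hy⟩ ∈ _ from hy)) x hx).symm

end Cfsg.Agent.S4411
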