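import Cfsg.Statements.S4412
import Cfsg.Agent.H10.Dih
import Cfsg.Agent.H21.Hol
import Cfsg.Agent.H25.Cyc
import Mathlib.GroupTheory.FixedPointFree

set_option autoImplicit false
open Cfsg

namespace Cfsg.Agent.S4412

section
open Subgroup Cfsg.Agent.H10
open scoped commutatorElement Pointwise

open Cfsg.Agent.H21

variable {P : Type*} [Group P] [Finite P]

theorem eig_of {I : Subgroup (MulAut P)} {y : P}
    (h : Eig (I.map (Hol.r (MonoidHom.id (MulAut P)))) (Hol.l _ y)) :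
    ∀ T ∈ I, T y = y ∨ T y = y⁻¹ := fun T hT => by
  have := h _ ⟨T, hT, rfl⟩
  rw [Hol.conj, ← map_inv] at this
  exact this.imp (fun e => Hol.l_inj _ e) (fun e => Hol.l_inj _ e)

theorem aut_basis (hN : Group.IsNilpotent P) (hodd : Odd (Nat.card P)) {I : Subgroup (MulAut P)}
    (hI : IsElementaryAbelian 2 I) {d : ℕ} (hd : Nat.card I = 2 ^ d) :
    ∃ (x : Fin d → P) (a : Fin d → MulAut P), (∀ i, (orderOf (x i)).Prime ∧
      ∀ T ∈ I, T (x i) = x i ∨ T (x i) = (x i)⁻¹) ∧ (∀ i j, x i * x j = x j * x i) ∧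
      (∀ i, a i ∈ I ∧ a i (x i) = (x i)⁻¹ ∧ a i (x i) ≠ x i) ∧
      (∀ i j, i ≠ j → a i (x j) = x j) ∧ (∀ T ∈ I, (∀ i, T (x i) = x i) → T = 1) ∧
      Nat.card ↥(⨆ i, zpowers (x i)) = ∏ i, orderOf (x i) := by
  set φ := MonoidHom.id (MulAut P) with hφ
  have hf : I.map (Hol.r φ) ⊓ centralizer (((⊤ : Subgroup P).map (Hol.l φ) : Subgroup _) : Set _)
      = ⊥ := by
    refine eq_bot_iff.mpr ?_
    rintro _ ⟨⟨T, hT, rfl⟩, h⟩
    have : T = 1 := MulEquiv.ext fun y => (Hol.comm_iff φ).mp (h _ ⟨y, mem_top _, rfl⟩)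
    rw [this, map_one]; exact one_mem _
  obtain ⟨X, A, h1, h2, h3, h4, h5⟩ := exists_dual_basis (ea2_map hI (Hol.r φ))
    (H1.isNilpotent_map (Hol.l φ) (H := ⊤) inferInstance) (by rw [Hol.card_l_top]; exact hodd)
    (Hol.le_norm_top I) hf (by rw [Hol.card_r]; exact hd)
  choose x _ hx using fun i => (h1 i).1
  choose a ha hA using fun i => (h3 i).1
  have ho : ∀ i, orderOf (x i) = orderOf (X i) := fun i => by
    rw [← hx, orderOf_injective _ (Hol.l_inj φ)]
  refine ⟨x, a, fun i => ⟨ho i ▸ (h1 i).2.1, eig_of (by rw [hx]; exact (h1 i).2.2)⟩,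
    fun i j => Hol.l_inj φ (by rw [map_mul, map_mul, hx, hx, h2]), fun i => ⟨ha i, ?_, ?_⟩,
    fun i j hij => ?_, fun T hT h => ?_, ?_⟩
  · have := (h3 i).2.1
    rw [← hx, ← hA, Hol.conj, ← map_inv] at this
    exact Hol.l_inj _ this
  · intro h
    refine (h3 i).2.2 ?_
    rw [← hx, ← hA]
    exact ((Hol.comm_iff φ).mpr h).symm
  · have := h4 i j hij
    rw [← hx, ← hA] at this
    exact (Hol.comm_iff φ).mp this.symm
  · have : Hol.r φ T ∈ I.map (Hol.r φ) ⊓ ⨅ i, centralizer ({X i} : Set _) :=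
      ⟨⟨T, hT, rfl⟩, mem_iInf.mpr fun i => mem_centralizer_singleton_iff.mpr (by
        rw [← hx]; exact ((Hol.comm_iff φ).mpr (h i)).symm)⟩
    rw [h5, mem_bot] at this
    exact Hol.r_inj φ (this.trans (map_one _).symm)
  · have hc : ∀ i j, i ≠ j → ∀ u ∈ zpowers (X i), ∀ v ∈ zpowers (X j), u * v = v * u := by
      rintro i j - _ ⟨k, rfl⟩ _ ⟨l, rfl⟩
      exact Commute.zpow_zpow (h2 i j) k l
    have := card_iSup_of_iSupIndep _ hc
      (iSupIndep_zpowers_of_prime X A (fun i => (h1 i).2.1) (fun i => (h3 i).2.2) h4)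
    rw [← Hol.card_l φ, Subgroup.map_iSup]
    simp only [MonoidHom.map_zpowers, hx, this, Nat.card_zpowers, ho]

theorem aut_eig (hN : Group.IsNilpotent P) {I : Subgroup (MulAut P)}
    (hI : IsElementaryAbelian 2 I) {z : MulAut P} (hz : z ∈ I) {u : P} (hu : z u = u)
    (hu1 : u ≠ 1) : ∃ y : P, (orderOf y).Prime ∧ z y = y ∧ ∀ T ∈ I, T y = y ∨ T y = y⁻¹ := by
  set φ := MonoidHom.id (MulAut P) with hφ
  set W := (⊤ : Subgroup P).map (Hol.l φ) ⊓ centralizer ({Hol.r φ z} : Set _) with hW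
  have hWn : Group.IsNilpotent W := H1.isNilpotent_of_le inf_le_left
    (H1.isNilpotent_map (Hol.l φ) (H := ⊤) inferInstance)
  have hne : W ≠ ⊥ := fun h => by
    have : Hol.l φ u ∈ W := ⟨⟨u, mem_top _, rfl⟩, mem_centralizer_singleton_iff.mpr
      ((Hol.comm_iff φ).mpr hu)⟩
    rw [h, mem_bot] at this
    exact hu1 (Hol.l_inj φ (this.trans (map_one _).symm))
  have hA := ea2_map hI (Hol.r φ)
  have hn : I.map (Hol.r φ) ≤ normalizer (W : Set _) := le_normalizer_inf (Hol.le_norm_top I)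
    (le_normalizer_of_le fun b hb => mem_centralizer_singleton_iff.mpr
      (ea2_comm hA hb ⟨z, hz, rfl⟩))
  obtain ⟨Y, hY, hp, he⟩ := exists_eig hA (V := W ⊓ centralizer (W : Set _))
    (inf_le_right.trans (centralizer_anti inf_le_left))
    (le_normalizer_inf hn (le_normalizer_centralizer hn))
    (H1.inf_centralizer_ne_bot_of_isNilpotent hWn le_rfl le_normalizer hne)
  obtain ⟨y, -, rfl⟩ := hY.1.1
  exact ⟨y, by rwa [orderOf_injective _ (Hol.l_inj φ)] at hp,
    (Hol.comm_iff φ).mp (mem_centralizer_singleton_iff.mp hY.1.2), eig_of he⟩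

theorem card_ker_le {Q : Type*} [CommGroup Q] [Finite Q] {p : ℕ} (hp : p.Prime) {a b : Q}
    (h : Subgroup.closure {a, b} = ⊤) {K : Subgroup Q} (hK : ∀ x ∈ K, x ^ p = 1) :
    Nat.card K ≤ p * p := by
  set f : Q →* Q := powMonoidHom p with hf
  have h1 : K ≤ f.ker := hK
  have h2 : Nat.card f.ker = f.range.index := by
    have e1 := f.ker.card_mul_index
    have e2 := f.range.card_mul_index
    rw [index_ker, mul_comm, ← e2] at e1
    exact Nat.eq_of_mul_eq_mul_left Nat.card_pos e1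
  set π := QuotientGroup.mk' f.range with hπ
  have h3 : zpowers (π a) ⊔ zpowers (π b) = ⊤ := by
    rw [← MonoidHom.map_zpowers, ← MonoidHom.map_zpowers, ← Subgroup.map_sup, zpowers_eq_closure,
      zpowers_eq_closure, ← Subgroup.closure_union, Set.singleton_union, h,
      map_top_of_surjective _ (QuotientGroup.mk'_surjective _)]
  have h4 : ∀ c : Q, orderOf (π c) ∣ p := fun c => orderOf_dvd_of_pow_eq_one (by
    rw [← map_pow]
    exact (QuotientGroup.eq_one_iff _).mpr ⟨c, rfl⟩)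
  have h5 := H10.card_sup_dvd (H := zpowers (π a)) (N := zpowers (π b)) le_normalizer_of_normal
  rw [h3, card_top, Nat.card_zpowers, Nat.card_zpowers] at h5
  refine (card_le_of_le h1).trans (h2 ▸ Nat.le_of_dvd (Nat.mul_pos hp.pos hp.pos) ?_)
  exact h5.trans (Nat.mul_dvd_mul (h4 a) (h4 b))

end

/-- Let p be an odd prime, P a finite p-group and I an elementary abelian subgroup of order 8 of Aut(P). Call T ∈ I, T ≠ 1, broad when its fixed-point subgroup C_P(T) is not cyclic. Suppose I has a proper subgroup I₀ containing no broad element such that the product of any two broad elements lies in I₀. Then P is abelian of rank exactly 3 (generated by three elements but not by two), there are exactly three broad elements and they generate I, and I₀ is exactly the set of products of two broad elements. -/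
theorem result
    {P : Type*} [Group P] [Finite P] (p : ℕ) (hp : p.Prime) (hp2 : p ≠ 2) (hP : IsPGroup p P)
    (I : Subgroup (MulAut P)) (hI : Cfsg.IsElementaryAbelian 2 I) (hI8 : Nat.card ↥I = 8)
    (I₀ : Subgroup (MulAut P)) (hI₀ : I₀ < I)
    (hdisj : ∀ T ∈ I₀, T ≠ 1 → ∃ g : P, ∀ x : P, (T x = x ↔ x ∈ Subgroup.zpowers g))
    (hprod : ∀ T ∈ I, ∀ T' ∈ I, T ≠ 1 → T' ≠ 1 → (¬ ∃ g : P, ∀ x : P, (T x = x ↔ x ∈ Subgroup.zpowers g)) →
      (¬ ∃ g : P, ∀ x : P, (T' x = x ↔ x ∈ Subgroup.zpowers g)) → T * T' ∈ I₀) :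
    IsMulCommutative P ∧ (∃ a b c : P, Subgroup.closure {a, b, c} = ⊤) ∧ (¬ ∃ a b : P, Subgroup.closure {a, b} = ⊤) ∧
      Nat.card {T : MulAut P // T ∈ I ∧ T ≠ 1 ∧ ¬ ∃ g : P, ∀ x : P, (T x = x ↔ x ∈ Subgroup.zpowers g)} = 3 ∧
      Subgroup.closure {T : MulAut P | T ∈ I ∧ T ≠ 1 ∧ ¬ ∃ g : P, ∀ x : P, (T x = x ↔ x ∈ Subgroup.zpowers g)} = I ∧
      (I₀ : Set (MulAut P)) = {S : MulAut P | ∃ T T' : MulAut P, T ∈ I ∧ T' ∈ I ∧ T ≠ 1 ∧ T' ≠ 1 ∧
        (¬ ∃ g : P, ∀ x : P, (T x = x ↔ x ∈ Subgroup.zpowers g)) ∧ (¬ ∃ g : P, ∀ x : P, (T' x = x ↔ x ∈ Subgroup.zpowers g)) ∧ S = T * T'} := by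
  open Subgroup Cfsg.Agent.H10 in
  have := Fact.mk hp
  have hN : Group.IsNilpotent P := hP.isNilpotent
  have hpo : Odd p := hp.odd_of_ne_two hp2
  have hodd : Odd (Nat.card P) := by
    obtain ⟨k, hk⟩ := hP.exists_card_eq
    rw [hk]; exact hpo.pow
  obtain ⟨x, a, h1, h2, h3, h4, h5, h6⟩ := aut_basis hN hodd hI (d := 3) hI8
  have hop : ∀ y : P, (orderOf y).Prime → orderOf y = p := fun y hy => by
    obtain ⟨k, hk⟩ := IsPGroup.iff_orderOf.mp hP y
    exact (Nat.prime_dvd_prime_iff_eq hy hp).mp (hy.dvd_of_dvd_pow hk.dvd)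
  have ho : ∀ i, orderOf (x i) = p := fun i => hop _ (h1 i).1
  set B : MulAut P → Prop := fun T => ¬ ∃ g : P, ∀ x : P, (T x = x ↔ x ∈ Subgroup.zpowers g) with hB
  have hfix : ∀ (T : MulAut P) (u v : P), T u = u → v ∈ zpowers u → T v = v := by
    rintro T u _ hu ⟨k, rfl⟩
    simp only [map_zpow, hu]
  have hcyc : ∀ T, ¬ B T → ∀ u v : P, orderOf u = p → orderOf v = p → T u = u → T v = v →
      v ∈ zpowers u := by
    intro T hT u v hu hv h h'
    obtain ⟨g, hg⟩ := not_not.mp hT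
    exact H25.mem_zpowers_of_orderOf_dvd_of_isCyclic ((hg u).mp h) ((hg v).mp h') (by rw [hu, hv])
  have hb : ∀ T j k, j ≠ k → T (x j) = x j → T (x k) = x k → B T := by
    intro T j k hjk h h'
    by_contra hT
    exact (h3 k).2.2 (hfix _ _ _ (h4 k j hjk.symm) (hcyc T (not_not.mpr hT) _ _ (ho j) (ho k) h h'))
  have hBa : ∀ i, B (a i) := by
    intro i
    fin_cases i
    · exact hb _ 1 2 (by decide) (h4 _ _ (by decide)) (h4 _ _ (by decide))
    · exact hb _ 0 2 (by decide) (h4 _ _ (by decide)) (h4 _ _ (by decide))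
    · exact hb _ 0 1 (by decide) (h4 _ _ (by decide)) (h4 _ _ (by decide))
  have ha1 : ∀ i, a i ≠ 1 := fun i h => (h3 i).2.2 (by rw [h]; rfl)
  have haI : ∀ i, a i ∈ I := fun i => (h3 i).1
  have hext : ∀ T ∈ I, ∀ T' ∈ I, T (x 0) = T' (x 0) → T (x 1) = T' (x 1) → T (x 2) = T' (x 2) →
      T = T' := by
    intro T hT T' hT' e0 e1 e2
    refine (inv_mul_eq_one.mp (h5 _ (mul_mem (inv_mem hT') hT) fun i => ?_)).symm
    fin_cases i <;> simp [*]
  have e00 := (h3 0).2.1
  have e11 := (h3 1).2.1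
  have e22 := (h3 2).2.1
  have e01 := h4 0 1 (by decide)
  have e02 := h4 0 2 (by decide)
  have e10 := h4 1 0 (by decide)
  have e12 := h4 1 2 (by decide)
  have e20 := h4 2 0 (by decide)
  have e21 := h4 2 1 (by decide)
  have cls : ∀ T ∈ I, T = 1 ∨ T = a 0 ∨ T = a 1 ∨ T = a 2 ∨ T = a 0 * a 1 ∨ T = a 0 * a 2 ∨
      T = a 1 * a 2 ∨ T = a 0 * (a 1 * a 2) := by
    intro T hT
    have m01 := mul_mem (haI 0) (haI 1)
    have m02 := mul_mem (haI 0) (haI 2)
    have m12 := mul_mem (haI 1) (haI 2)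
    have m012 := mul_mem (haI 0) m12
    rcases (h1 0).2 T hT with f0 | f0 <;> rcases (h1 1).2 T hT with f1 | f1 <;>
      rcases (h1 2).2 T hT with f2 | f2
    · exact Or.inl (hext _ hT _ (one_mem _) f0 f1 f2)
    · exact Or.inr (Or.inr (Or.inr (Or.inl (hext _ hT _ (haI 2) (by simp [*]) (by simp [*])
        (by simp [*])))))
    · exact Or.inr (Or.inr (Or.inl (hext _ hT _ (haI 1) (by simp [*]) (by simp [*])
        (by simp [*]))))
    · exact Or.inr (Or.inr (Or.inr (Or.inr (Or.inr (Or.inr (Or.inl (hext _ hT _ m12 (by simp [*])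
        (by simp [*]) (by simp [*]))))))))
    · exact Or.inr (Or.inl (hext _ hT _ (haI 0) (by simp [*]) (by simp [*]) (by simp [*])))
    · exact Or.inr (Or.inr (Or.inr (Or.inr (Or.inr (Or.inl (hext _ hT _ m02 (by simp [*])
        (by simp [*]) (by simp [*])))))))
    · exact Or.inr (Or.inr (Or.inr (Or.inr (Or.inl (hext _ hT _ m01 (by simp [*])
        (by simp [*]) (by simp [*]))))))
    · exact Or.inr (Or.inr (Or.inr (Or.inr (Or.inr (Or.inr (Or.inr (hext _ hT _ m012 (by simp [*])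
        (by simp [*]) (by simp [*]))))))))
  have hm : ∀ i j, a i * a j ∈ I₀ := fun i j =>
    hprod _ (haI i) _ (haI j) (ha1 i) (ha1 j) (hBa i) (hBa j)
  have hne : ∀ i j, i ≠ j → a i ≠ a j := fun i j hij h => (h3 i).2.2 (h ▸ h4 j i hij.symm)
  have hm1 : ∀ i j, i ≠ j → a i * a j ≠ 1 := fun i j hij h => hne i j hij
    ((eq_inv_of_mul_eq_one_left h).trans (inv_eq_of_mul_eq_one_right (ea2_mul_self hI (haI j))))
  have hnB : ∀ i j, i ≠ j → ¬ B (a i * a j) := fun i j hij =>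
    not_not.mpr (hdisj _ (hm i j) (hm1 i j hij))
  set z := a 0 * (a 1 * a 2) with hz
  have hzI : z ∈ I := mul_mem (haI 0) (mul_mem (haI 1) (haI 2))
  have hfpf : MonoidHom.FixedPointFree z := by
    intro u hu
    by_contra hu1
    obtain ⟨y, hy, hzy, he⟩ := aut_eig hN hI hzI hu hu1
    have key : ∀ i j k, j ≠ k → (a j * a k) (x i) = x i → (a j * a k) y = y → False := by
      intro i j k hjk f1 f2
      obtain ⟨n, hn⟩ := hcyc _ (hnB j k hjk) _ _ (ho i) (hop y hy) f1 f2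
      have f3 : z (x i) = (x i)⁻¹ := by fin_cases i <;> simp [hz, *]
      have f4 : z y = y⁻¹ := by rw [← hn]; simp only [map_zpow, f3, inv_zpow']; simp
      have f5 : y ^ 2 = 1 := by rw [pow_two]; nth_rw 1 [← hzy, f4]; simp
      have f6 := orderOf_dvd_of_pow_eq_one f5
      rw [hop y hy] at f6
      exact hp2 ((Nat.prime_dvd_prime_iff_eq hp Nat.prime_two).mp f6)
    rcases he _ (haI 0) with f0 | f0 <;> rcases he _ (haI 1) with f1 | f1 <;>
      rcases he _ (haI 2) with f2 | f2 <;>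
      first
      | (refine key 2 0 1 (by decide) (by simp [*]) ?_; simp [f0, f1]; done)
      | (refine key 1 0 2 (by decide) (by simp [*]) ?_; simp [f0, f2]; done)
      | (refine key 0 1 2 (by decide) (by simp [*]) ?_; simp [f1, f2]; done)
  have hzz : Function.Involutive z := fun u => by
    have := ea2_mul_self hI hzI
    change (z * z) u = u
    rw [this]; rfl
  have hcomm : ∀ u v : P, u * v = v * u := hfpf.commute_all_of_involutive hzz
  have hzB : ¬ B z := not_not.mpr ⟨1, fun u => ⟨fun h => by rw [hfpf u h]; exact one_mem _,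
    fun h => by rw [zpowers_one_eq_bot, mem_bot] at h; rw [h, map_one]⟩⟩
  have hcls : ∀ T, (T ∈ I ∧ T ≠ 1 ∧ B T) ↔ T = a 0 ∨ T = a 1 ∨ T = a 2 := by
    intro T
    constructor
    · rintro ⟨f1, f2, f3⟩
      rcases cls T f1 with h | h | h | h | h | h | h | h
      · exact absurd h f2
      · exact Or.inl h
      · exact Or.inr (Or.inl h)
      · exact Or.inr (Or.inr h)
      · exact absurd (h ▸ f3) (hnB _ _ (by decide))
      · exact absurd (h ▸ f3) (hnB _ _ (by decide))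
      · exact absurd (h ▸ f3) (hnB _ _ (by decide))
      · exact absurd (h ▸ f3) hzB
    · rintro (rfl | rfl | rfl) <;> exact ⟨haI _, ha1 _, hBa _⟩
  refine ⟨⟨⟨hcomm⟩⟩, ?_, ?_, ?_, ?_, ?_⟩
  · obtain ⟨g0, hg0⟩ := hdisj _ (hm 1 2) (hm1 _ _ (by decide))
    obtain ⟨g1, hg1⟩ := hdisj _ (hm 0 2) (hm1 _ _ (by decide))
    obtain ⟨g2, hg2⟩ := hdisj _ (hm 0 1) (hm1 _ _ (by decide))
    refine ⟨g0, g1, g2, eq_top_iff.mpr fun u _ => ?_⟩
    set K := Subgroup.closure {g0, g1, g2} with hK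
    have k0 : zpowers g0 ≤ K := zpowers_le.mpr (Subgroup.subset_closure (by simp))
    have k1 : zpowers g1 ≤ K := zpowers_le.mpr (Subgroup.subset_closure (by simp))
    have k2 : zpowers g2 ≤ K := zpowers_le.mpr (Subgroup.subset_closure (by simp))
    have hinv : ∀ T ∈ I, ∀ w, T (w * T w) = w * T w := fun T hT w => by
      have : T (T w) = w := by
        change (T * T) w = w
        rw [ea2_mul_self hI hT]; rfl
      rw [map_mul, this, hcomm]
    set R := a 1 * a 2 with hR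
    set S := a 0 * a 2 with hS
    set T := a 0 * a 1 with hT
    have hRS : R * S = T := by
      rw [hR, hS, hT, ea2_comm hI (haI 0) (haI 2), mul_assoc, ← mul_assoc (a 2),
        ea2_mul_self hI (haI 2), one_mul, ea2_comm hI (haI 0) (haI 1)]
    have m0 := k0 ((hg0 _).mp (hinv R (hI₀.le (hm 1 2)) u))
    have m1 := k1 ((hg1 _).mp (hinv S (hI₀.le (hm 0 2)) u))
    have m2 := k2 ((hg2 _).mp (hinv T (hI₀.le (hm 0 1)) u))
    have m3 := k0 ((hg0 _).mp (hinv R (hI₀.le (hm 1 2)) (u * S u)))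
    have m4 : u ^ 2 ∈ K := by
      have m5 := mul_mem (mul_mem (mul_mem m0 m1) m2) (inv_mem m3)
      letI : CommGroup P := { (inferInstance : Group P) with mul_comm := hcomm }
      convert m5 using 1
      rw [map_mul, ← hRS, MulAut.mul_apply _ R S, eq_mul_inv_iff_mul_eq, pow_two]
      simp only [mul_assoc, mul_comm, mul_left_comm]
    have hu : (orderOf u).Coprime 2 :=
      Nat.coprime_two_right.mpr (hodd.of_dvd_nat (orderOf_dvd_natCard u))
    obtain ⟨n, hn⟩ := exists_pow_eq_self_of_coprime hu.symm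
    rw [← hn]
    exact pow_mem m4 n
  · rintro ⟨u, v, huv⟩
    letI : CommGroup P := { (inferInstance : Group P) with mul_comm := hcomm }
    have k1 : (⨆ i, zpowers (x i)) ≤ (powMonoidHom p : P →* P).ker := iSup_le fun i =>
      zpowers_le.mpr (by rw [MonoidHom.mem_ker, powMonoidHom_apply, ← ho i, pow_orderOf_eq_one])
    have k2 := card_ker_le hp huv (K := ⨆ i, zpowers (x i)) k1
    rw [h6] at k2
    simp only [ho, Finset.prod_const, Finset.card_univ, Fintype.card_fin] at k2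
    have := hp.one_lt
    nlinarith [Nat.mul_pos hp.pos hp.pos]
  · classical
    have : Nat.card {T : MulAut P // T ∈ I ∧ T ≠ 1 ∧ B T} = Nat.card ({a 0, a 1, a 2} : Set _) :=
      Nat.card_congr (Equiv.subtypeEquivRight fun T => by rw [hcls]; simp)
    refine this.trans ?_
    rw [Nat.card_coe_set_eq, Set.ncard_eq_three]
    exact ⟨_, _, _, hne _ _ (by decide), hne _ _ (by decide), hne _ _ (by decide), rfl⟩
  · refine le_antisymm ((Subgroup.closure_le _).mpr fun T hT => hT.1) fun T hT => ?_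
    have k : ∀ i, a i ∈ Subgroup.closure {T : MulAut P | T ∈ I ∧ T ≠ 1 ∧ B T} := fun i =>
      Subgroup.subset_closure ⟨haI i, ha1 i, hBa i⟩
    rcases cls T hT with rfl | rfl | rfl | rfl | rfl | rfl | rfl | rfl
    · exact one_mem _
    · exact k _
    · exact k _
    · exact k _
    · exact mul_mem (k _) (k _)
    · exact mul_mem (k _) (k _)
    · exact mul_mem (k _) (k _)
    · exact mul_mem (k _) (mul_mem (k _) (k _))
  · ext S
    constructor
    · intro hS
      have k : ∀ i j, S = a i * a j → ∃ T T' : MulAut P, T ∈ I ∧ T' ∈ I ∧ T ≠ 1 ∧ T' ≠ 1 ∧ B T ∧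
          B T' ∧ S = T * T' := fun i j h =>
        ⟨_, _, haI i, haI j, ha1 i, ha1 j, hBa i, hBa j, h⟩
      have k' : ∀ i, a i ∉ I₀ := fun i h => hBa i (hdisj _ h (ha1 i))
      rcases cls S (hI₀.le hS) with h | h | h | h | h | h | h | h
      · exact k 0 0 (h.trans (ea2_mul_self hI (haI 0)).symm)
      · exact absurd (h ▸ hS) (k' _)
      · exact absurd (h ▸ hS) (k' _)
      · exact absurd (h ▸ hS) (k' _)
      · exact k _ _ h
      · exact k _ _ h
      · exact k _ _ h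
      · exact absurd ((mul_mem_cancel_right (hm 1 2)).mp (show z ∈ I₀ from h ▸ hS)) (k' _)
    · rintro ⟨T, T', f1, f2, f3, f4, f5, f6, rfl⟩
      exact hprod _ f1 _ f2 f3 f4 f5 f6

end Cfsg.Agent.S4412
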