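import Cfsg.Statements.S4413
import Cfsg.Agent.H26.ES3
import Cfsg.Agent.H13.Simple

set_option autoImplicit false
open Cfsg

namespace Cfsg.Agent.S4413

theorem og_equiv {V : Type*} [AddCommGroup V] [Module (ZMod 2) V] [Finite V]
    {Q : QuadraticForm (ZMod 2) V} (hQ : H13.ND Q) (hP : ¬ H13.IsPlus Q)
    (hV : Module.finrank (ZMod 2) V = 2 * 2) :
    Nat.card (H13.OG Q) = 120 ∧ Nonempty (H13.OG Q ≃* Equiv.Perm (Fin 5)) := by
  classical
  have : Module.Finite (ZMod 2) V := Module.Finite.of_finite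
  have h1 : Nat.card (H13.OG Q) = 120 := by
    rw [hQ.card_OG_minus hP (by norm_num) hV, Nat.card_zmod]
    rfl
  have h2 : Nat.card {x : V // Q x = 0 ∧ x ≠ 0} = 5 := by
    rw [H13.card_nonzero_singular, hQ.nz_minus hP (by norm_num) hV, Nat.card_zmod]
    rfl
  let f : H13.OG Q →* Equiv.Perm {x : V // Q x = 0 ∧ x ≠ 0} := MonoidHom.mk'
    (fun g => Equiv.Perm.subtypePerm g.1.toEquiv fun x => by
      change Q (g.1 x) = 0 ∧ g.1 x ≠ 0 ↔ _
      rw [g.2 x, Ne, LinearEquiv.map_eq_zero_iff]) fun _ _ => rfl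
  have h3 : Function.Injective f := by
    refine (injective_iff_map_eq_one f).mpr fun g hg => ?_
    obtain ⟨u, hu0, hu⟩ := H13.exists_singular Q (by omega)
    refine Subtype.ext (LinearEquiv.ext fun v => ?_)
    refine hQ.singular_induction_top hu hu0 (p := fun v => g.1 v = v) ?_ ?_ v
    · intro x hx
      by_cases h0 : x = 0
      · simp [h0]
      · exact congrArg Subtype.val (DFunLike.congr_fun hg ⟨x, hx, h0⟩)
    · intro x y hx hy
      rw [map_add, hx, hy]
  have := Fintype.ofFinite {x : V // Q x = 0 ∧ x ≠ 0}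
  have h4 : Function.Bijective f := (Nat.bijective_iff_injective_and_card f).mpr ⟨h3, by
    rw [h1, Nat.card_perm, h2]; rfl⟩
  exact ⟨h1, ⟨(MulEquiv.ofBijective f h4).trans (Finite.equivFinOfCardEq h2).permCongrHom⟩⟩

/-- Let P be an extraspecial 2-group of order 32 with no elementary abelian subgroup of order 8 (the central product of a dihedral and a quaternion group of order 8). Then the inner automorphism group of P has order 16 and the outer automorphism group Aut(P)/Inn(P) is isomorphic to the symmetric group of degree 5; in particular Aut(P) has order 1920. -/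
theorem result {P : Type*} [Group P] [Finite P]
    (hex : Cfsg.IsExtraspecial 2 P) (h32 : Nat.card P = 32)
    (hminus : ∀ A : Subgroup P, Cfsg.IsElementaryAbelian 2 A → Nat.card ↥A ≤ 4)
    [(MulAut.conj : P →* MulAut P).range.Normal] :
    Nat.card ↥(MulAut.conj : P →* MulAut P).range = 16 ∧ Nat.card (MulAut P) = 1920 ∧
      Nonempty ((MulAut P ⧸ (MulAut.conj : P →* MulAut P).range) ≃* Equiv.Perm (Fin 5)) := by
  obtain ⟨k, c, hc⟩ := H26.exists_ES_of_isExtraspecial hex
  have hm : Module.finrank (ZMod 2) (Fin k → ZMod 2) = 2 * 2 := by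
    rw [c.card_eq_pow] at h32
    exact Nat.succ_injective (Nat.pow_right_injective le_rfl (h32.trans (by norm_num)))
  have := c.nontrivial_of_isExtraspecial hex
  obtain ⟨e⟩ := hc.nonempty_out_equiv
  have hP : ¬ H13.IsPlus c.Q := by
    rw [hc.isPlus_iff hm]
    rintro ⟨A, h1, h2⟩
    have := hminus A h1
    omega
  obtain ⟨h1, ⟨e'⟩⟩ := og_equiv (c.nd_Q_iff.mpr hc) hP hm
  have h2 : Nat.card (Inn P) = 16 := by
    have := c.card_eq
    rw [hc.card_Inn]
    omega
  refine ⟨h2, ?_, ⟨e.trans e'⟩⟩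
  rw [← (Inn P).card_mul_index, h2, Subgroup.index_eq_card, Nat.card_congr e.toEquiv, h1]

end Cfsg.Agent.S4413
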