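import Cfsg.Statements.S4414
import Mathlib
import Cfsg.Agent.H2.Eig2
import Cfsg.Agent.H3.SylowIn

set_option autoImplicit false
open Cfsg

namespace Cfsg.Agent.S4414

open scoped Pointwise in

/-- Let S be a finite solvable group whose order is divisible only by the primes 2, p, q (p, q distinct odd primes), with a Sylow system S₂, S_p, S_q (pairwise permutable Sylow subgroups) such that: S_p is a minimal normal subgroup of S of order p or p²; S_q has order q and [S_p, S_q] = S_p; and O₂(S) = 1. Let E be an irreducible module for S over the field with two elements on which S_p acts faithfully, and E₀ the subspace of fixed points of S₂. Then either E₀ has at least 8 elements, or E₀ has exactly 4 elements and S_q does not leave E₀ invariant. -/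
theorem result {S : Type*} [Group S] [Finite S]
    [Group.IsSolvable S] (p q : ℕ) (hp : p.Prime) (hq : q.Prime) (hp2 : p ≠ 2) (hq2 : q ≠ 2) (hpq : p ≠ q)
    (hπ : ∀ r : ℕ, r.Prime → r ∣ Nat.card S → r = 2 ∨ r = p ∨ r = q)
    (S₂ : Sylow 2 S) (Sp : Sylow p S) (Sq : Sylow q S)
    (h2q : Nat.card ↥((S₂ : Subgroup S) ⊔ (Sq : Subgroup S)) = Nat.card ↥S₂ * Nat.card ↥Sq)
    (h2p : Nat.card ↥((S₂ : Subgroup S) ⊔ (Sp : Subgroup S)) = Nat.card ↥S₂ * Nat.card ↥Sp)
    (hpq' : Nat.card ↥((Sp : Subgroup S) ⊔ (Sq : Subgroup S)) = Nat.card ↥Sp * Nat.card ↥Sq)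
    (hSpN : (Sp : Subgroup S).Normal) (hSpmin : ∀ N : Subgroup S, N.Normal → N ≤ (Sp : Subgroup S) → N = ⊥ ∨ N = (Sp : Subgroup S))
    (hSpcard : Nat.card ↥Sp = p ∨ Nat.card ↥Sp = p ^ 2)
    (hSq : Nat.card ↥Sq = q) (hcomm : ⁅(Sp : Subgroup S), (Sq : Subgroup S)⁆ = (Sp : Subgroup S))
    (hO2 : Cfsg.pCore 2 S = ⊥)
    {E : Type*} [AddCommGroup E] [Module (ZMod 2) E] [Finite E] (ρ : Representation (ZMod 2) S E) (hE : Nontrivial E)
    (hirr : ∀ N : Submodule (ZMod 2) E, (∀ s : S, ∀ m ∈ N, ρ s m ∈ N) → N = ⊥ ∨ N = ⊤)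
    (hfaith : ∀ x ∈ (Sp : Subgroup S), ρ x = 1 → x = 1) :
    8 ≤ Nat.card {v : E // ∀ s ∈ (S₂ : Subgroup S), ρ s v = v} ∨
      (Nat.card {v : E // ∀ s ∈ (S₂ : Subgroup S), ρ s v = v} = 4 ∧
        ∃ x ∈ (Sq : Subgroup S), ∃ v : E, (∀ s ∈ (S₂ : Subgroup S), ρ s v = v) ∧ ¬ ∀ s ∈ (S₂ : Subgroup S), ρ s (ρ x v) = ρ x v) := by
  letI : DistribMulAction S E := DistribMulAction.compHom E ρ
  have hsm : ∀ (s : S) (v : E), s • v = ρ s v := fun _ _ => rfl
  change Nat.card (Sp : Subgroup S) = p ∨ Nat.card (Sp : Subgroup S) = p ^ 2 at hSpcard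
  change Nat.card (Sq : Subgroup S) = q at hSq
  change _ = Nat.card (S₂ : Subgroup S) * Nat.card (Sq : Subgroup S) at h2q
  haveI := Fact.mk hp
  haveI := Fact.mk hq
  haveI : IsMulCommutative (Sp : Subgroup S) := by
    rcases hSpcard with h | h
    · haveI := isCyclic_of_prime_card h
      infer_instance
    · exact IsPGroup.isMulCommutative_of_card_eq_prime_sq h
  have hodd : Odd (Nat.card (Sp : Subgroup S)) := by
    rcases hSpcard with h | h <;> rw [h]
    exacts [hp.odd_of_ne_two hp2, (hp.odd_of_ne_two hp2).pow]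
  have hne : (Sp : Subgroup S) ≠ ⊥ := fun h => by
    rw [h, Subgroup.card_bot] at hSpcard
    rcases hSpcard with h | h
    exacts [hp.one_lt.ne h, (one_lt_pow₀ hp.one_lt two_ne_zero).ne h]
  obtain ⟨g, hg, hg1⟩ := (Subgroup.bot_or_exists_ne_one _).resolve_left hne
  obtain ⟨e, he⟩ := DFunLike.ne_iff.1 (fun h => hg1 (hfaith g hg h))
  obtain ⟨a, ha⟩ := S₂.isPGroup'.exists_card_eq
  obtain ⟨⟨u, hu0, hu⟩, hv⟩ := H2.Eig2.main hodd hg (e := e) he ((S₂ : Subgroup S) ⊔ Sq) S₂ le_sup_left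
    (fun N hN hN' => by
      have h1 : ¬ q ∣ Nat.card N := fun h => hN' (by
        obtain ⟨x, hx⟩ := exists_prime_orderOf_dvd_card' q h
        have h2 : Nat.card (Subgroup.zpowers (x : S)) = q := by
          rw [Nat.card_zpowers, Subgroup.orderOf_coe, hx]
        obtain ⟨k, -, hk⟩ := (H3.sylowIn_top Sq).exists_conj_le (IsPGroup.of_card (n := 1) (by rw [h2, pow_one])) le_top
        have h3 : MulAut.conj k • Subgroup.zpowers (x : S) = Sq :=
          Subgroup.eq_of_le_of_card_ge hk (by rw [H3.card_conj_smul, h2, hSq])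
        refine le_antisymm (Subgroup.commutator_le_left _ _) ?_
        have h4 : ⁅(Sp : Subgroup S), Subgroup.zpowers (x : S)⁆ = Sp := by
          apply Subgroup.map_injective (f := (MulAut.conj k).toMonoidHom) (MulAut.conj k).injective
          rw [Subgroup.map_commutator, H3.map_conj_eq_smul, H3.map_conj_eq_smul, h3, H3.conj_smul_eq_of_normal, hcomm]
        exact h4.ge.trans (Subgroup.commutator_mono le_rfl (Subgroup.zpowers_le.2 x.2)))
      have h2 := Subgroup.card_dvd_of_le hN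
      rw [h2q, hSq, ha] at h2
      obtain ⟨b, -, hb⟩ := (Nat.dvd_prime_pow Nat.prime_two).1
        (((Nat.Prime.coprime_iff_not_dvd hq).2 h1).symm.dvd_of_dvd_mul_right h2)
      obtain ⟨l, hl, hl'⟩ := (H3.sylowIn_of_le S₂ le_sup_left).exists_conj_le (IsPGroup.of_card hb) hN
      exact ⟨l, hl, fun a ha => hl' (H3.mem_conj_smul.2 ha)⟩) S₂.isPGroup'
  obtain ⟨y, hy⟩ := exists_prime_orderOf_dvd_card' (G := (Sq : Subgroup S)) q (by rw [hSq])
  rw [← Subgroup.orderOf_coe] at hy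
  obtain ⟨v, hv, hyv⟩ := hv y (Subgroup.mem_sup_right y.2) fun h => by
    have h1 := Subgroup.orderOf_dvd_natCard _ h
    rw [hy, ha] at h1
    exact hq2 ((Nat.prime_dvd_prime_iff_eq hq Nat.prime_two).1 (hq.dvd_of_dvd_pow h1))
  have hyu := hu y (Subgroup.mem_sup_right y.2)
  have h2 : ∀ w : E, w + w = 0 := fun w => by
    rw [← two_smul (ZMod 2), show (2 : ZMod 2) = 0 from rfl, zero_smul]
  let W : Submodule (ZMod 2) E :=
    { carrier := {v | ∀ s ∈ (S₂ : Subgroup S), ρ s v = v}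
      add_mem' := fun {a b} ha hb s hs => by rw [map_add, ha s hs, hb s hs]
      zero_mem' := fun s _ => map_zero _
      smul_mem' := fun c a ha s hs => by rw [map_smul, ha s hs] }
  have huW : u ∈ W := fun s hs => hu s (Subgroup.mem_sup_left hs)
  have hv0 : v ≠ 0 := by rintro rfl; exact hyv (smul_zero _)
  have huv : u ≠ v := by rintro rfl; exact hyv hyu
  have hsub : ({0, u, v, u + v} : Set E) ⊆ W := by
    rintro _ (rfl | rfl | rfl | rfl)
    exacts [W.zero_mem, huW, hv, W.add_mem huW hv]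
  have h4 : ({0, u, v, u + v} : Set E).ncard = 4 := by
    have : u + v ≠ 0 := fun h => huv (by rw [← add_zero u, ← h, ← add_assoc, h2, zero_add])
    rw [Set.ncard_insert_of_notMem (by simp [hu0.symm, hv0.symm, this.symm]),
      Set.ncard_insert_of_notMem (by simp [huv, hv0]), Set.ncard_pair (by simp [hu0])]
  have h5 : Nat.card W = 2 ^ Module.finrank (ZMod 2) W := by
    rw [Module.natCard_eq_pow_finrank (K := ZMod 2), Nat.card_zmod]
  have h6 : 4 ≤ Nat.card W := h4 ▸ Set.ncard_le_ncard hsub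
  change 8 ≤ Nat.card W ∨ Nat.card W = 4 ∧ _
  by_cases h7 : 3 ≤ Module.finrank (ZMod 2) W
  · exact Or.inl (h5 ▸ Nat.pow_le_pow_right two_pos h7)
  have h8 : Nat.card W ≤ 4 := h5 ▸ Nat.pow_le_pow_right two_pos (by omega : _ ≤ 2)
  refine Or.inr ⟨le_antisymm h8 h6, y, y.2, v, hv, fun h => hyv ?_⟩
  have h9 : (y : S) • v ∈ ({0, u, v, u + v} : Set E) := by
    rw [Set.eq_of_subset_of_ncard_le hsub (h4 ▸ h8)]; exact h
  rcases h9 with h9 | h9 | h9 | h9
  · exact absurd ((smul_eq_zero_iff_eq _).1 h9) hv0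
  · exact absurd (MulAction.injective (y : S) (hyu.trans h9.symm)) huv
  · exact h9
  · have h10 : (y : S) ^ 2 ∈ MulAction.stabilizer S v := by
      rw [MulAction.mem_stabilizer_iff, pow_two, mul_smul, h9, smul_add, hyu, h9, ← add_assoc, h2, zero_add]
    obtain ⟨k, hk⟩ := hq.odd_of_ne_two hq2
    have h11 := pow_orderOf_eq_one (y : S)
    rw [hy.trans hk, pow_succ, pow_mul] at h11
    exact (Subgroup.mul_mem_cancel_left _ (pow_mem h10 k)).1 (h11 ▸ Subgroup.one_mem _)

end Cfsg.Agent.S4414
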