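import Cfsg.Statements.S4417
import Cfsg.Agent.H1.Basic
import Cfsg.Agent.H2.Basic
import Cfsg.Agent.H3.PGroup1

set_option autoImplicit false
open Cfsg

namespace Cfsg.Agent.S4417

open Module Subgroup
open scoped commutatorElement Matrix

universe u

theorem der_le {P : Type*} [Group P] {C : Subgroup P} (h : _root_.commutator P ≤ C) (k : ℕ) :
    derivedSeries P (k + 1) ≤ (derivedSeries C k).map C.subtype := by
  induction k with
  | zero => rw [derivedSeries_zero, ← MonoidHom.range_eq_map, range_subtype]; exact h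
  | succ k ih => rw [derivedSeries_succ, derivedSeries_succ C, map_commutator]; exact commutator_mono ih ih

theorem sum_le {K V ι : Type*} [Field K] [AddCommGroup V] [Module K V] [FiniteDimensional K V]
    {W : ι → Submodule K V} (h : iSupIndep W) {U : Submodule K V} (hU : ∀ i, W i ≤ U) (s : Finset ι) :
    ∑ i ∈ s, finrank K (W i) ≤ finrank K U := by
  classical
  have : ∑ i ∈ s, finrank K (W i) = finrank K ↥(⨆ i ∈ s, W i) := by
    induction s using Finset.induction_on with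
    | empty => rw [Finset.sum_empty, show (⨆ i ∈ (∅ : Finset ι), W i) = ⊥ by simp, finrank_bot]
    | insert a s ha ih =>
      rw [Finset.sum_insert ha, Finset.iSup_insert, ih, ← Submodule.finrank_sup_add_finrank_inf_eq,
        show W a ⊓ ⨆ i ∈ s, W i = ⊥ from (h.disjoint_biSup (y := (s : Set ι)) ha).eq_bot, finrank_bot, add_zero]
  rw [this]
  exact Submodule.finrank_mono (iSup₂_le fun i _ => hU i)

section
variable {K V : Type*} [Field K] [AddCommGroup V] [Module K V]

def kerOn {P : Type*} [Group P] (ρ : P →* End K V) (U : Submodule K V) : Subgroup P where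
  carrier := {g | ∀ u ∈ U, ρ g u = u}
  mul_mem' := fun {a b} ha hb u hu => by rw [map_mul, End.mul_apply, hb u hu, ha u hu]
  one_mem' := fun u _ => by simp
  inv_mem' := fun {a} ha u hu => by
    conv_lhs => rw [← ha u hu]
    rw [← End.mul_apply, ← map_mul, inv_mul_cancel, map_one, End.one_apply]

theorem kerOn_normal {P : Type*} [Group P] {ρ : P →* End K V} {U : Submodule K V}
    (h : ∀ g, ∀ u ∈ U, ρ g u ∈ U) : (kerOn ρ U).Normal := ⟨fun n hn g u hu => by
  rw [map_mul, map_mul, End.mul_apply, End.mul_apply, hn _ (h _ u hu), ← End.mul_apply, ← map_mul,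
    mul_inv_cancel, map_one, End.one_apply]⟩

theorem inv_eig {P : Type*} [Group P] {ρ : P →* End K V} {U : Submodule K V}
    (h : ∀ g, ∀ u ∈ U, ρ g u ∈ U) {z g : P} (hz : ⁅g⁻¹, z⁆ ∈ kerOn ρ U) (ζ : K) :
    ∀ u ∈ U ⊓ (ρ z).eigenspace ζ, ρ g u ∈ U ⊓ (ρ z).eigenspace ζ := by
  intro u hu
  refine ⟨h g u hu.1, End.mem_eigenspace_iff.2 ?_⟩
  have e : z * g = g * (⁅g⁻¹, z⁆ * z) := by rw [commutatorElement_def]; group
  rw [← End.mul_apply, ← map_mul, e, map_mul, map_mul, End.mul_apply, End.mul_apply,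
    hz _ (h z u hu.1), End.mem_eigenspace_iff.1 hu.2, map_smul]

variable [FiniteDimensional K V] [IsAlgClosed K] {p : ℕ} [hp : Fact p.Prime]

theorem le_kerOn {P : Type*} [Group P] (hK : (p : K) ≠ 0) (hP : IsPGroup p P) {ρ : P →* End K V}
    {U : Submodule K V} {z : P} (h : ∀ u ∈ U, ρ z u ∈ U) {D : Subgroup P}
    (hD : ∀ ζ, D ≤ kerOn ρ (U ⊓ (ρ z).eigenspace ζ)) : D ≤ kerOn ρ U := by
  obtain ⟨k, hk⟩ := hP z
  have hs : (ρ z).IsSemisimple := End.isSemisimple_of_squarefree_aeval_eq_zero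
    (Polynomial.X_pow_sub_one_separable_iff (n := p ^ k).2 (by simp [hK])).squarefree
    (by rw [map_sub, map_pow, Polynomial.aeval_X, ← map_pow, hk, map_one, map_one, sub_self])
  have h1 := Submodule.eq_iSup_inf_genEigenspace 1 h hs.iSup_eigenspace_eq_top
  intro g hg u hu
  rw [h1] at hu
  induction hu using Submodule.iSup_induction' with
  | mem ζ x hx => exact hD ζ hg x hx
  | zero => simp
  | add x y _ _ hx hy => rw [map_add, hx, hy]

theorem claimA (hK : (p : K) ≠ 0) (k : ℕ) : ∀ (P : Type u) [Group P] [Finite P], IsPGroup p P →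
    ∀ (ρ : P →* End K V) (U : Submodule K V), (∀ g, ∀ u ∈ U, ρ g u ∈ U) → finrank K U < 2 ^ k →
      derivedSeries P k ≤ kerOn ρ U := by
  induction k with
  | zero =>
    intro P _ _ _ ρ U _ h g _ u hu
    have : U = ⊥ := Submodule.finrank_eq_zero.1 (by omega)
    rw [this, Submodule.mem_bot] at hu
    simp [hu]
  | succ k ih =>
    intro P _ _ hP ρ U
    induction hd : finrank K U using Nat.strong_induction_on generalizing U with
    | _ d ihd =>
    intro hU hlt
    haveI := kerOn_normal hU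
    set N := kerOn ρ U with hN
    set Z := (center (P ⧸ N)).comap (QuotientGroup.mk' N) with hZ
    have hZm : ∀ z ∈ Z, ∀ g : P, ⁅g, z⁆ ∈ N := fun z hz g =>
      (QuotientGroup.eq_one_iff _).1 (commutatorElement_eq_one_iff_mul_comm.2 (mem_center_iff.1 hz (g : P ⧸ N)))
    by_cases hs : ∃ z ∈ Z, ∀ ζ, ¬ U ≤ (ρ z).eigenspace ζ
    · obtain ⟨z, hz, h⟩ := hs
      exact le_kerOn hK hP (hU z) fun ζ => ihd _ (hd ▸ Submodule.finrank_lt_finrank_of_lt
        (inf_lt_left.2 (h ζ))) _ rfl (fun g => inv_eig hU (hZm z hz _) ζ)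
        ((Submodule.finrank_mono inf_le_left).trans_lt (hd ▸ hlt))
    push Not at hs
    by_cases hZt : Z = ⊤
    · refine (derivedSeries_antitone P (Nat.le_add_left 1 k)).trans ?_
      exact commutator_le.2 fun a _ b _ => hZm b (hZt ▸ mem_top b) a
    haveI : Z.Normal := inferInstance
    haveI := hP.isNilpotent
    haveI : Nontrivial (P ⧸ Z) := QuotientGroup.nontrivial_iff.2 hZt
    obtain ⟨x', hx', hx1⟩ := (bot_or_exists_ne_one (⊤ ⊓ center (P ⧸ Z))).resolve_left
      (H2.inf_center_ne_bot ⊤ top_ne_bot)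
    obtain ⟨x, rfl⟩ := QuotientGroup.mk_surjective x'
    have hxZ : ∀ g : P, ⁅g, x⁆ ∈ Z := fun g =>
      (QuotientGroup.eq_one_iff _).1 (commutatorElement_eq_one_iff_mul_comm.2 (mem_center_iff.1 hx'.2 (g : P ⧸ Z)))
    obtain ⟨g, hg⟩ : ∃ g : P, ⁅g, x⁆ ∉ N := by
      by_contra hcon
      push Not at hcon
      refine hx1 ((QuotientGroup.eq_one_iff x).2 (mem_center_iff.2 fun q => ?_))
      obtain ⟨q, rfl⟩ := QuotientGroup.mk_surjective q
      exact commutatorElement_eq_one_iff_mul_comm.1 ((QuotientGroup.eq_one_iff _).2 (hcon q))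
    obtain ⟨μ, hμ⟩ := hs _ (hxZ g)
    have hμ1 : μ ≠ 1 := fun h => hg fun u hu => by
      rw [End.mem_eigenspace_iff.1 (hμ hu), h, one_smul]
    set C := (centralizer ({(x : P ⧸ N)} : Set (P ⧸ N))).comap (QuotientGroup.mk' N) with hC
    have hCm : ∀ c : P, c ∈ C ↔ ⁅c, x⁆ ∈ N := fun c => by
      rw [hC, mem_comap, mem_centralizer_singleton_iff, ← commutatorElement_eq_one_iff_mul_comm]
      exact QuotientGroup.eq_one_iff ⁅c, x⁆
    have hPC : _root_.commutator P ≤ C := commutator_le.2 fun a _ b _ => by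
      rw [hC, mem_comap, mem_centralizer_singleton_iff]
      have ha : ∀ a : P, ∀ q : P ⧸ N, q * ((⁅a, x⁆ : P) : P ⧸ N) = ((⁅a, x⁆ : P) : P ⧸ N) * q :=
        fun a => mem_center_iff.1 (hxZ a)
      have hb : ∀ a : P, (a : P ⧸ N) * x = ((⁅a, x⁆ : P) : P ⧸ N) * x * a := fun a => by
        rw [← QuotientGroup.mk_mul, ← QuotientGroup.mk_mul, ← QuotientGroup.mk_mul, commutatorElement_def]
        congr 1; group
      have hc : (a : P ⧸ N) * b * x * ((a : P ⧸ N) * b)⁻¹ = b * a * x * ((b : P ⧸ N) * a)⁻¹ := by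
        have : ∀ a b : P, (a : P ⧸ N) * b * x * ((a : P ⧸ N) * b)⁻¹ =
            ((⁅b, x⁆ : P) : P ⧸ N) * ((⁅a, x⁆ : P) : P ⧸ N) * x := fun a b => by
          rw [mul_assoc (a : P ⧸ N), hb b, ← mul_assoc, ← mul_assoc, ha b a, mul_assoc _ (a : P ⧸ N), hb a]
          group
        rw [this a b, this b a, ha a]
      have hd := hb (a * b * a⁻¹ * b⁻¹)
      have he : ∀ q : P ⧸ N, q * x * q⁻¹ = ((⁅Quotient.out q, x⁆ : P) : P ⧸ N) * x := fun q => by
        rw [mul_inv_eq_iff_eq_mul]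
        have := hb (Quotient.out q)
        rwa [QuotientGroup.out_eq'] at this
      have hf : ((b : P ⧸ N) * a)⁻¹ * (a * b) * x = x * (((b : P ⧸ N) * a)⁻¹ * (a * b)) := by
        calc ((b : P ⧸ N) * a)⁻¹ * (a * b) * x
            = ((b : P ⧸ N) * a)⁻¹ * (a * b * x * ((a : P ⧸ N) * b)⁻¹) * (a * b) := by group
          _ = _ := by rw [hc]; group
      show ((a * b * a⁻¹ * b⁻¹ : P) : P ⧸ N) * x = x * ((a * b * a⁻¹ * b⁻¹ : P) : P ⧸ N)
      simp only [QuotientGroup.mk_mul, QuotientGroup.mk_inv]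
      set w : P ⧸ N := (b : P ⧸ N) * a
      obtain ⟨t, h1, h2⟩ : ∃ t : P ⧸ N, w⁻¹ * x * w⁻¹⁻¹ = t * x ∧ ∀ q, q * t = t * q :=
        ⟨_, he w⁻¹, ha _⟩
      have h3 : (x : P ⧸ N) = w * (t * x) * w⁻¹ := by rw [← h1]; group
      have h4 : (a : P ⧸ N) * b * (a : P ⧸ N)⁻¹ * (b : P ⧸ N)⁻¹ = w * (w⁻¹ * (a * b)) * w⁻¹ := by
        simp only [w]; group
      generalize w⁻¹ * ((a : P ⧸ N) * b) = y at hf h4
      rw [h4]
      calc w * y * w⁻¹ * x = w * y * w⁻¹ * (w * (t * x) * w⁻¹) := by rw [← h3]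
        _ = w * (y * t * x) * w⁻¹ := by group
        _ = w * (t * x * y) * w⁻¹ := by rw [h2 y, mul_assoc t, hf, mul_assoc t]
        _ = (w * (t * x) * w⁻¹) * (w * y * w⁻¹) := by group
        _ = _ := by rw [← h3]
    refine le_kerOn hK hP (hU x) fun ζ => (der_le hPC k).trans (map_le_iff_le_comap.2 ?_)
    refine ih C (hP.to_subgroup C) (ρ.comp C.subtype) _
      (fun c => inv_eig hU ((hCm _).1 (C.inv_mem c.2)) ζ) ?_
    by_cases h0 : ζ = 0
    · have : U ⊓ (ρ x).eigenspace ζ = ⊥ := by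
        rw [eq_bot_iff]
        intro u hu
        have h1 := End.mem_eigenspace_iff.1 hu.2
        rw [h0, zero_smul] at h1
        rw [Submodule.mem_bot, ← End.one_apply (R := K) u, ← map_one ρ, ← inv_mul_cancel x, map_mul,
          End.mul_apply, h1, map_zero]
      rw [this, finrank_bot]; positivity
    have hne : ζ ≠ μ * ζ := fun h => hμ1 (mul_right_cancel₀ h0 (by rw [← h, one_mul]))
    classical
    have h1 := sum_le ((ρ x).eigenspaces_iSupIndep.mono fun ζ => (inf_le_right : U ⊓ _ ≤ _))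
      (fun ζ => inf_le_left) {ζ, μ * ζ}
    rw [Finset.sum_pair hne] at h1
    have h2 : finrank K ↥(U ⊓ (ρ x).eigenspace ζ) ≤ finrank K ↥(U ⊓ (ρ x).eigenspace (μ * ζ)) := by
      refine LinearMap.finrank_le_finrank_of_injective (f := (ρ g⁻¹).restrict fun u hu => ⟨hU _ u hu.1, ?_⟩) ?_
      · have e : x * g⁻¹ = g⁻¹ * (⁅g, x⁆ * x) := by rw [commutatorElement_def]; group
        rw [SetLike.mem_coe, End.mem_eigenspace_iff, ← End.mul_apply, ← map_mul, e, map_mul, map_mul,
          End.mul_apply, End.mul_apply, End.mem_eigenspace_iff.1 (hμ (hU x u hu.1)),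
          End.mem_eigenspace_iff.1 hu.2, smul_smul, map_smul]
      · intro a b hab
        have : ρ g (ρ g⁻¹ a) = ρ g (ρ g⁻¹ b) := congrArg (fun v => ρ g v.1) hab
        simp only [← End.mul_apply, ← map_mul, mul_inv_cancel, map_one, End.one_apply] at this
        exact Subtype.ext this
    rw [pow_succ] at hlt
    omega

theorem claimB (hK : (p : K) ≠ 0) {q : ℕ} (σ : K ≃+* K) (hσ : ∀ x, σ x = x ^ q) (Φ : V →+ V)
    (hΦi : Function.Injective Φ) (hΦ : ∀ (c : K) v, Φ (c • v) = σ c • Φ v) (k : ℕ)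
    {P : Type u} [Group P] [Finite P] (hP : IsPGroup p P) (ρ : P →* End K V)
    (hρ : ∀ g v, Φ (ρ g v) = ρ g (Φ v)) (U : Submodule K V) : (∀ g, ∀ u ∈ U, ρ g u ∈ U) →
      (∀ u ∈ U, Φ u ∈ U) → finrank K U < orderOf (q : ZMod p) * 2 ^ k → derivedSeries P k ≤ kerOn ρ U := by
  induction hd : finrank K U using Nat.strong_induction_on generalizing U with
  | _ d ihd =>
  intro hU hU' hlt
  haveI := kerOn_normal hU
  set N := kerOn ρ U with hN
  by_cases hNt : N = ⊤
  · rw [hNt]; exact le_top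
  haveI := hP.isNilpotent
  haveI : Nontrivial (P ⧸ N) := QuotientGroup.nontrivial_iff.2 hNt
  obtain ⟨x', hx', hx1⟩ := (bot_or_exists_ne_one (⊤ ⊓ center (P ⧸ N))).resolve_left
    (H2.inf_center_ne_bot ⊤ top_ne_bot)
  obtain ⟨x, rfl⟩ := QuotientGroup.mk_surjective x'
  obtain ⟨j, hz1, hzp⟩ := H3.exists_pow_not_mem_pow_mem (p := p) (N := N) (x := x)
    (fun h => hx1 ((QuotientGroup.eq_one_iff x).2 h)) (by
      obtain ⟨k, hk⟩ := hP x; exact ⟨k, hk ▸ N.one_mem⟩)
  have hz : ∀ g : P, ⁅g, x ^ p ^ j⁆ ∈ N := fun g =>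
    (QuotientGroup.eq_one_iff _).1 (commutatorElement_eq_one_iff_mul_comm.2
      (mem_center_iff.1 (pow_mem hx'.2 (p ^ j)) (g : P ⧸ N)))
  generalize x ^ p ^ j = z at hz1 hzp hz
  have hΦe : ∀ ζ, ∀ u ∈ U ⊓ (ρ z).eigenspace ζ, Φ u ∈ U ⊓ (ρ z).eigenspace (σ ζ) := fun ζ u hu =>
    ⟨hU' u hu.1, End.mem_eigenspace_iff.2 (by rw [← hρ, End.mem_eigenspace_iff.1 hu.2, hΦ])⟩
  refine le_kerOn hK hP (hU z) fun ζ => ?_
  by_cases h1 : ζ = 1
  · subst h1
    refine ihd _ (hd ▸ Submodule.finrank_lt_finrank_of_lt (inf_lt_left.2 fun h => hz1 fun u hu => ?_)) _ rfl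
      (fun g => inv_eig hU (hz _) 1) (fun u hu => by simpa using hΦe 1 u hu)
      ((Submodule.finrank_mono inf_le_left).trans_lt (hd ▸ hlt))
    rw [End.mem_eigenspace_iff.1 (h hu), one_smul]
  refine claimA hK k P hP ρ _ (fun g => inv_eig hU (hz _) ζ) ?_
  by_cases h0 : U ⊓ (ρ z).eigenspace ζ = ⊥
  · rw [h0, finrank_bot]; positivity
  obtain ⟨u, hu, hu0⟩ := Submodule.exists_mem_ne_zero_of_ne_bot h0
  have hζ : orderOf ζ = p := orderOf_eq_prime (by
    have h2 := End.HasEigenvector.pow_apply ⟨hu.2, hu0⟩ p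
    rw [← map_pow, hzp u hu.1] at h2
    exact smul_left_injective K hu0 (by simp only [one_smul]; exact h2.symm)) h1
  have hstep : ∀ ξ, finrank K ↥(U ⊓ (ρ z).eigenspace ξ) ≤ finrank K ↥(U ⊓ (ρ z).eigenspace (σ ξ)) := by
    intro ξ
    let j : ↥(U ⊓ (ρ z).eigenspace ξ) →+ ↥(U ⊓ (ρ z).eigenspace (σ ξ)) :=
      { toFun := fun v => ⟨Φ v, hΦe ξ v v.2⟩
        map_zero' := Subtype.ext (map_zero Φ)
        map_add' := fun a b => Subtype.ext (map_add Φ _ _) }
    have := rank_le_of_injective_injectiveₛ (R := K) (R' := K) σ.symm j σ.symm.injective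
      (fun a b h => Subtype.ext (hΦi (congrArg Subtype.val h)))
      (fun r m => Subtype.ext (by
        show Φ (σ.symm r • (m : V)) = r • Φ m
        rw [hΦ, RingEquiv.apply_symm_apply]))
    rwa [← finrank_eq_rank, ← finrank_eq_rank, Nat.cast_le] at this
  have hall : ∀ i, finrank K ↥(U ⊓ (ρ z).eigenspace ζ) ≤ finrank K ↥(U ⊓ (ρ z).eigenspace (ζ ^ q ^ i)) := by
    intro i
    induction i with
    | zero => rw [pow_zero, pow_one]
    | succ i ih => rw [pow_succ, pow_mul, ← hσ]; exact ih.trans (hstep _)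
  classical
  have h2 := sum_le ((ρ z).eigenspaces_iSupIndep.mono fun ζ => (inf_le_right : U ⊓ _ ≤ _))
    (fun ζ => inf_le_left) ((Finset.range (orderOf (q : ZMod p))).image fun i => ζ ^ q ^ i)
  rw [Finset.sum_image fun a ha b hb hab => pow_injOn_Iio_orderOf (x := (q : ZMod p))
    (Finset.mem_range.1 ha) (Finset.mem_range.1 hb) (by
      have := (orderOf_pos_iff.1 (hζ ▸ hp.out.pos : 0 < orderOf ζ)).pow_eq_pow_iff_modEq.1 hab
      rw [hζ, ← ZMod.natCast_eq_natCast_iff] at this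
      simpa using this)] at h2
  have h3 := (Finset.card_nsmul_le_sum _ _ _ fun i _ => hall i).trans h2
  rw [Finset.card_range, smul_eq_mul] at h3
  exact Nat.lt_of_mul_lt_mul_left (h3.trans_lt (hd ▸ hlt))

end

/-- Let F be a field with q elements, p a prime not dividing q, and e the multiplicative order of q modulo p; assume e ≤ n. Then every p-subgroup of GL_n(F) has derived length at most ⌊log₂(n/e)⌋ + 1: that term of its derived series is trivial (n/e is the integer quotient). -/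
theorem result {F : Type*} [Field F] [Fintype F] (q : ℕ) (hF : Fintype.card F = q) (p : ℕ) [Fact p.Prime] (hpq : ¬ p ∣ q) (n e : ℕ) (he : e = orderOf (q : ZMod p)) (hen : e ≤ n) (P : Subgroup (GL (Fin n) F)) (hP : IsPGroup p P) : derivedSeries ↥P (Nat.log 2 (n / e) + 1) = ⊥ := by
  classical
  haveI : Finite (GL (Fin n) F) := inferInstance
  let K := AlgebraicClosure F
  have hK : (p : K) ≠ 0 := by
    intro h
    rw [← map_natCast (algebraMap F K), map_eq_zero] at h
    exact hpq (hF ▸ (prime_dvd_char_iff_dvd_card p).1 ((ringChar.spec F p).1 h |> fun h' => by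
      rcases (Nat.dvd_prime Fact.out).1 h' with h1 | h1
      · exact absurd h1 (CharP.ringChar_ne_one)
      · rw [h1]))
  let σ := FiniteField.frobeniusAlgEquivOfAlgebraic F K
  let ρ : P →* End K (Fin n → K) := (Matrix.toLinAlgEquiv' (R := K) (n := Fin n)).toMonoidHom.comp
    (((algebraMap F K).mapMatrix.toMonoidHom.comp (Units.coeHom _)).comp P.subtype)
  have hρ : ∀ g v, ρ g v = ((g : GL (Fin n) F) : Matrix (Fin n) (Fin n) F).map (algebraMap F K) *ᵥ v :=
    fun g v => Matrix.toLinAlgEquiv'_apply _ _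
  have he0 : 0 < e := by
    rw [he]
    exact (isOfFinOrder_iff_isUnit.2 (Ne.isUnit (by rwa [Ne, ZMod.natCast_eq_zero_iff]))).orderOf_pos
  have := claimB hK (q := q) σ.toRingEquiv (fun x => hF ▸ rfl)
    (AddMonoidHom.compLeft σ.toRingEquiv.toAddMonoidHom (Fin n))
    (fun a b h => funext fun i => σ.injective (congrFun h i)) (fun c v => funext fun i => map_mul σ _ _)
    (Nat.log 2 (n / e) + 1) hP ρ (fun g v => funext fun i => by
      rw [hρ, hρ]
      show σ _ = _
      simp only [Matrix.mulVec, dotProduct, map_sum, map_mul, Matrix.map_apply, AlgEquiv.commutes]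
      rfl) ⊤ (fun _ _ _ => trivial) (fun _ _ => trivial) (by
      rw [finrank_top, Module.finrank_fin_fun, ← he, mul_comm]
      exact (Nat.div_lt_iff_lt_mul he0).1 (Nat.lt_pow_succ_log_self one_lt_two _))
  rw [eq_bot_iff]
  intro g hg
  rw [mem_bot]
  refine Subtype.ext (Units.ext (Matrix.ext fun i j => (algebraMap F K).injective ?_))
  have := congrFun (this hg (Pi.single j 1) trivial) i
  rw [hρ, Matrix.mulVec_single_one] at this
  simp only [Matrix.col_apply, Matrix.map_apply] at this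
  rw [this]
  by_cases h : i = j <;> simp [h, Pi.single_apply, Matrix.one_apply]

end Cfsg.Agent.S4417
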