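import Cfsg.Statements.S4420
import Cfsg.Agent.H1.Frattini

set_option autoImplicit false
open Cfsg

namespace Cfsg.Agent.S4420

theorem inv_of {H : Type*} [Group H] {A : Subgroup H} (hD : ∀ x : H, x ∉ A → x ^ 2 = 1) {x b : H}
    (hx : x ∉ A) (hb : b ∈ A) : x * b * x⁻¹ = b⁻¹ := by
  have h1 := hD x hx
  have h2 := hD (x * b) (fun h => hx ((A.mul_mem_cancel_right hb).mp h))
  rw [sq] at h1 h2
  rw [← eq_inv_iff_mul_eq_one] at h1
  rw [eq_inv_iff_mul_eq_one, ← h1, mul_assoc, h2]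

theorem sq_of {H : Type*} [Group H] {A : Subgroup H} (hD : ∀ x : H, x ∉ A → x ^ 2 = 1) {x y : H}
    (hx : x ∉ A) (hy : y ∉ A) (hxy : x * y ∉ A) (b : H) : b ^ 2 = 1 := by
  by_cases hb : b ∈ A
  · have h1 := inv_of hD hxy hb
    have h2 := inv_of hD hy hb
    have h3 := inv_of hD hx (A.inv_mem hb)
    rw [sq, ← eq_inv_iff_mul_eq_one, ← h1]
    calc b = x * b⁻¹ * x⁻¹ := by rw [h3, inv_inv]
      _ = _ := by rw [← h2]; group
  · exact hD b hb

theorem comm_of {H : Type*} [Group H] (h : ∀ x : H, x ^ 2 = 1) (x y : H) : x * y = y * x := by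
  have h1 : ∀ x : H, x⁻¹ = x := fun x => by rw [inv_eq_iff_mul_eq_one, ← sq, h]
  rw [← h1 (x * y), mul_inv_rev, h1, h1]

theorem main {H : Type*} [Group H] {A : Subgroup H} (hA : A.index = 2)
    (hD : ∀ x : H, x ∉ A → x ^ 2 = 1) : ∃ B : Subgroup H, B.Normal ∧ IsMulCommutative ↥B ∧ B.index = 2 ∧
      (∀ x : H, x ∉ B → x ^ 2 = 1 ∧ ∀ b ∈ B, x * b * x⁻¹ = b⁻¹) ∧
      (¬ (IsMulCommutative H ∧ ∀ x : H, x ^ 2 = 1) →
        ∀ B' : Subgroup H, B'.Normal → IsMulCommutative ↥B' → B'.index = 2 →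
          (∀ x : H, x ∉ B' → x ^ 2 = 1 ∧ ∀ b ∈ B', x * b * x⁻¹ = b⁻¹) → B' = B) := by
  have hex : ∀ A : Subgroup H, A.index = 2 → ∃ x, x ∉ A := by
    intro A hA
    by_contra h
    push Not at h
    rw [(Subgroup.eq_top_iff' A).mpr h] at hA
    simp at hA
  obtain ⟨x, hx⟩ := hex A hA
  refine ⟨A, Subgroup.normal_of_index_eq_two hA, ⟨⟨fun a b => Subtype.ext ?_⟩⟩, hA,
    fun x hx => ⟨hD x hx, fun b hb => inv_of hD hx hb⟩, fun hn B _ _ hB hB' => ?_⟩
  · have h1 := inv_of hD hx (A.mul_mem a.2 b.2)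
    have h2 := inv_of hD hx a.2
    have h3 := inv_of hD hx b.2
    change (a : H) * b = b * a
    rw [← inv_inj, ← h1, mul_inv_rev (b : H), ← h2, ← h3]
    group
  · by_contra hne
    apply hn
    have h0 : ∀ A B : Subgroup H, A.index = 2 → B.index = 2 → A ≤ B → A = B := by
      intro A B hA hB h
      have := Subgroup.relIndex_mul_index h
      rw [hA, hB] at this
      exact le_antisymm h (Subgroup.relIndex_eq_one.mp (by omega))
    have h1 : ¬ A ≤ B := fun h => hne (h0 _ _ hA hB h).symm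
    have h2 : ¬ B ≤ A := fun h => hne (h0 _ _ hB hA h)
    obtain ⟨a, ha, ha'⟩ := SetLike.not_le_iff_exists.mp h1
    obtain ⟨b, hb, hb'⟩ := SetLike.not_le_iff_exists.mp h2
    have h3 := sq_of (A := A ⊓ B) (fun x hx => by
      by_cases h : x ∈ A
      · exact (hB' x fun h' => hx ⟨h, h'⟩).1
      · exact hD x h) (x := a) (y := b) (fun h => ha' h.2) (fun h => hb' h.1)
      (fun h => hb' ((A.mul_mem_cancel_left ha).mp h.1))
    exact ⟨⟨⟨comm_of h3⟩⟩, h3⟩

/-- Structure of groups in which every element outside some proper subgroup has square 1. Let H be a finite group with a proper subgroup A such that every element outside A has square 1. Then H has an abelian normal subgroup B of index 2 such that every element outside B is an involution inverting every element of B; and if H is not an elementary abelian 2-group, B is the only abelian normal subgroup of index 2 with this property. -/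
theorem result {H : Type*} [Group H] [Finite H] (A : Subgroup H) (hA : A ≠ ⊤) (hD : ∀ x : H, x ∉ A → x ^ 2 = 1) :
    ∃ B : Subgroup H, B.Normal ∧ IsMulCommutative ↥B ∧ B.index = 2 ∧
      (∀ x : H, x ∉ B → x ^ 2 = 1 ∧ ∀ b ∈ B, x * b * x⁻¹ = b⁻¹) ∧
      (¬ (IsMulCommutative H ∧ ∀ x : H, x ^ 2 = 1) →
        ∀ B' : Subgroup H, B'.Normal → IsMulCommutative ↥B' → B'.index = 2 →
          (∀ x : H, x ∉ B' → x ^ 2 = 1 ∧ ∀ b ∈ B', x * b * x⁻¹ = b⁻¹) → B' = B) := by
  by_cases h2 : A.index = 2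
  · exact main h2 hD
  obtain ⟨x, hx⟩ : ∃ x, x ∉ A := by
    by_contra h
    push Not at h
    exact hA ((Subgroup.eq_top_iff' A).mpr h)
  have h3 : ∀ b : H, b ^ 2 = 1 := by
    by_contra h
    apply h2
    rw [Subgroup.index_eq_two_iff']
    refine ⟨x, fun y => ?_⟩
    by_cases hy : y ∈ A
    · exact Or.inr ⟨hy, fun h => hx ((A.mul_mem_cancel_right hy).mp h)⟩
    · refine Or.inl ⟨?_, hy⟩
      by_contra hxy
      exact h (sq_of hD hx hy hxy)
  obtain ⟨B, hB, -⟩ := (eq_top_or_exists_le_coatom A).resolve_left hA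
  exact main (H1.index_eq_of_isCoatom (p := 2) (fun g => ⟨1, h3 g⟩) hB) fun x _ => h3 x

end Cfsg.Agent.S4420
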