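import Cfsg.Statements.S4452
import Mathlib
import Cfsg.Agent.H8.Glaub4
import Cfsg.Agent.H7.Bridge2

set_option autoImplicit false
open Cfsg

namespace Cfsg.Agent.S4452

open scoped ComplexConjugate commutatorElement Pointwise
-- OPENS
open Cfsg.Agent.H8
open Cfsg.Agent.H6 hiding block_eq_blockOf block_eq_of_mem block_nonempty centralChar_mem
  char_mem conj_char_mem irrOne_mem_principal isPBlock_blockOf isPBlock_principal
  mem_blockOf_self sameBlock_refl sameBlock_symm sameBlock_trans
open Cfsg.Agent.H4 hiding exists_int_of_isIntegral_rat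
open Cfsg.Agent.H5
open Cfsg.Agent.H3


/-- Let the finite group G be the product of a normal subgroup K and a solvable subgroup H of coprime orders, and let N = N_G(H). Then the number of irreducible characters of G of degree coprime to the order of H equals the number of irreducible characters of N of degree coprime to the order of H. (The two sets are in fact in a canonical bijection; only the equality of their sizes is stated here.) -/
theorem result {G : Type*} [Group G] [Finite G] (K H : Subgroup G) [K.Normal] (hKH : K ⊔ H = ⊤) (hcop : (Nat.card K).Coprime (Nat.card H)) (hsolv : Group.IsSolvable H) : Nat.card {χ : Cfsg.IrrCharacter G // (Cfsg.charDegree (χ : G → ℂ)).Coprime (Nat.card H)} = Nat.card {η : Cfsg.IrrCharacter (Subgroup.normalizer (H : Set G)) // (Cfsg.charDegree (η : Subgroup.normalizer (H : Set G) → ℂ)).Coprime (Nat.card H)} := by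
  have hHK : H ≤ Subgroup.normalizer (K : Set G) := by rw [Subgroup.normalizer_eq_top]; exact le_top
  set N := Subgroup.normalizer (H : Set G)
  have hHN : H ≤ N := Subgroup.le_normalizer
  have hc : Nat.card (H.subgroupOf N) = Nat.card H := H1.card_subgroupOf_of_le hHN
  have hC : ∀ k ∈ K, k ∈ N → k ∈ Subgroup.centralizer (H : Set G) := fun k hk hn h hh => by
    have h1 : h * k * h⁻¹ * k⁻¹ ∈ K := K.mul_mem (‹K.Normal›.conj_mem _ hk _) (K.inv_mem hk)
    have h2 : h * k * h⁻¹ * k⁻¹ ∈ H := by
      simpa [mul_assoc] using H.mul_mem hh (H1.conj_mem_of_le_normalizer le_rfl hn (H.inv_mem hh))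
    have := Subgroup.disjoint_def.mp (Subgroup.disjoint_of_coprime_natCard hcop) h1 h2
    rwa [mul_inv_eq_one, mul_inv_eq_iff_eq_mul] at this
  rw [card_coprime_deg_of_sup hKH hcop, card_sInv_eq hsolv _ rfl hHK hcop rfl, ← hc,
    card_coprime_deg_of_sup (G := K.subgroupOf N) (S := H.subgroupOf N) ?_ ?_]
  · congr 1
    · refine Eq.trans ?_ (Nat.card_congr (Equiv.subtypeUnivEquiv
        fun θ s hs => eInv_of_comm (fun k hk => ?_) _)).symm
      · refine Nat.card_congr (H7.irrMap ?_)
        refine (MulEquiv.subgroupCongr ?_).trans ((Subgroup.subgroupOfEquivOfLe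
          (inf_le_right : K ⊓ N ≤ N)).symm.trans (MulEquiv.subgroupCongr (by simp)))
        exact le_antisymm (inf_le_inf_left _ (Subgroup.centralizer_le_normalizer _))
          fun k hk => ⟨hk.1, hC k hk.1 hk.2⟩
      · rw [Subgroup.mem_bot, mul_inv_eq_one, mul_inv_eq_iff_eq_mul]
        exact Subtype.ext (hC k hk k.2 s hs)
    · exact Nat.card_congr (MulEquiv.monoidHomCongrLeft
        (Subgroup.subgroupOfEquivOfLe hHN).symm).toEquiv
  · rw [eq_top_iff]
    intro x _
    obtain ⟨k, hk, h, hh, e⟩ := (H1.mem_sup_of_le_normalizer_left hHK).mp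
      (hKH ▸ Subgroup.mem_top (x : G))
    have h1 : k ∈ N := by
      rw [← N.mul_mem_cancel_right (hHN hh), e]; exact x.2
    rw [show x = ⟨k, h1⟩ * ⟨h, hHN hh⟩ from Subtype.ext e.symm]
    exact Subgroup.mul_mem_sup hk hh
  · rw [hc, H1.card_subgroupOf_eq_inf]
    exact hcop.coprime_dvd_left (Subgroup.card_dvd_of_le inf_le_left)

end Cfsg.Agent.S4452
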