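import Cfsg.Statements.S4892
import Cfsg.Agent.H7.PRat
-- import your own Cfsg.Agent.* helpers here

set_option autoImplicit false
open Cfsg

namespace Cfsg.Agent.S4892

open MonoidAlgebra Cfsg.Agent.H3 Cfsg.Agent.H4 Cfsg.Agent.H7
open Cfsg.Agent.H6 (Res locRing redC redA eB fB intAlg classSum omega chiL)
open scoped Pointwise
set_option linter.style.haveILetI false

open Cfsg.Agent.H5 (NEmb detHom)

theorem fix_adjoin (σ : ℂ →+* ℂ) {ζ z : ℂ} (h : σ ζ = ζ)
    (hz : z ∈ IntermediateField.adjoin ℚ ({ζ} : Set ℂ)) : σ z = z := by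
  induction hz using IntermediateField.adjoin_induction with
  | mem x hx => rw [hx, h]
  | algebraMap x => simp
  | add x y _ _ hx hy => rw [map_add, hx, hy]
  | inv x _ hx => rw [map_inv₀, hx]
  | mul x y _ _ hx hy => rw [map_mul, hx, hy]

theorem not_dvd_detOrder {N : Type*} [Group N] [Finite N] {p : ℕ} (hp : p.Prime) (hp2 : p ≠ 2)
    {θ : N → ℂ} (hθ : IsCharacter N θ) {m : ℕ} (hm : ¬ p ∣ m) {ζ : ℂ} (hζ : ζ ^ m = 1)
    (h : ∀ n, θ n ∈ IntermediateField.adjoin ℚ ({ζ} : Set ℂ)) : ¬ p ∣ detOrder θ := by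
  rintro ⟨t, ht⟩
  have hc : p.Coprime m := (Nat.Prime.coprime_iff_not_dvd hp).2 hm
  obtain ⟨k, hk1, hk2⟩ := Nat.chineseRemainder hc (p - 1) 1
  have hm0 : m ≠ 0 := fun e => hm (e ▸ dvd_zero p)
  have hk3 : p ∣ k + 1 := by
    have := Nat.ModEq.add_right 1 hk1
    rw [Nat.sub_add_cancel hp.one_le] at this
    exact (this.dvd_iff dvd_rfl).2 dvd_rfl
  obtain ⟨σ, hσ⟩ := exists_ringEquiv_pow (n := p * m) (m := k) (mul_ne_zero hp.ne_zero hm0)
    (Nat.Coprime.mul_right (Nat.Coprime.symm ((Nat.Prime.coprime_iff_not_dvd hp).2 fun h =>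
      hp.one_lt.ne' (Nat.dvd_one.1 ((Nat.dvd_add_right h).1 hk3))))
      (Nat.coprime_of_mul_modEq_one 1 (by rwa [mul_one])))
  have h1 : σ ζ = ζ := by
    rw [hσ ζ (by rw [mul_comm, pow_mul, hζ, one_pow]),
      pow_eq_pow_of_modEq hk2 hζ, pow_one]
  have h2 : (fun n => (σ : ℂ →+* ℂ) (θ n)) = θ := funext fun n => fix_adjoin σ h1 (h n)
  have h3 : ∀ g, detHom θ g ^ t = 1 := by
    intro g
    have h4 := H8.detHom_map_ringHom hθ (σ : ℂ →+* ℂ) g
    rw [h2] at h4
    have h5 : ((detHom θ g : ℂ) ^ t) ^ p = 1 := by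
      rw [← pow_mul, mul_comm, ← ht, H5.detOrder_eq, ← Units.val_pow_eq_pow_val,
        linear_pow_orderOf, Units.val_one]
    have h6 := hσ _ (show ((detHom θ g : ℂ) ^ t) ^ (p * m) = 1 by rw [pow_mul, h5, one_pow])
    rw [map_pow, show σ (detHom θ g) = detHom θ g from h4.symm] at h6
    have h7 : ((detHom θ g : ℂ) ^ t) ^ 2 = 1 := by
      obtain ⟨s, hs⟩ := hk3
      calc _ = ((detHom θ g : ℂ) ^ t) ^ k * (detHom θ g : ℂ) ^ t := by rw [← h6, sq]
        _ = 1 := by rw [← pow_succ, hs, pow_mul _ p, h5, one_pow]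
    apply Units.ext
    rw [Units.val_pow_eq_pow_val]
    exact (pow_eq_one_iff_of_coprime ((Nat.coprime_primes hp Nat.prime_two).2 hp2)).1 ⟨h5, h7⟩
  have h8 := orderOf_linear_dvd h3
  rw [← H5.detOrder_eq, ht] at h8
  have h9 := H5.detOrder_pos θ
  have ht0 : 0 < t := Nat.pos_of_ne_zero fun e => by simp [ht, e] at h9
  have := Nat.le_of_dvd ht0 h8
  nlinarith [hp.two_le]

/-- Let p be an odd prime, M a maximal ideal of the algebraic integers containing p, N a normal subgroup of the finite group G, and θ an irreducible character of N that is G-invariant, of degree prime to p, p-rational (values in the field generated over ℚ by a root of unity of order prime to p) and lies in the principal p-block of N. Let Q be a Sylow p-subgroup of N and suppose the index of N·C_G(Q) in G is a power of p. Then θ extends to a p-rational irreducible character of G lying in the principal p-block of G. -/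
theorem result {G : Type*} [Group G] [Finite G] (p : ℕ) [Fact p.Prime] (hp : p ≠ 2) (M : Ideal Cfsg.AlgInt) (hM : Cfsg.IsPModular p M) (N : Subgroup G) [N.Normal] (θ : Cfsg.IrrCharacter ↥N) (hinv : ∀ g : G, ∀ n n' : ↥N, (n' : G) = g * (n : G) * g⁻¹ → (θ : ↥N → ℂ) n' = (θ : ↥N → ℂ) n) (hdeg : ¬ p ∣ Cfsg.charDegree (θ : ↥N → ℂ)) (hrat : ∃ m : ℕ, ¬ p ∣ m ∧ ∀ n : ↥N, (θ : ↥N → ℂ) n ∈ IntermediateField.adjoin ℚ ({Complex.exp (2 * Real.pi * Complex.I / m)} : Set ℂ)) (hB : θ ∈ Cfsg.principalBlock M ↥N) (Q : Sylow p ↥N) (hidx : ∃ a : ℕ, (N ⊔ Subgroup.centralizer (((Q : Subgroup ↥N).map N.subtype : Subgroup G) : Set G)).index = p ^ a) : ∃ χ : Cfsg.IrrCharacter G, χ ∈ (Cfsg.principalBlock M G) ∧ (∃ n : ℕ, ¬ p ∣ n ∧ ∀ g : G, (χ : G → ℂ) g ∈ IntermediateField.adjoin ℚ ({Complex.exp (2 * Real.pi * Complex.I / n)} : Set ℂ)) ∧ ∀ n : ↥N, (χ : G → ℂ) n = (θ : ↥N → ℂ) n := by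
  haveI := hM.2.1
  obtain ⟨m, hm, hrat⟩ := hrat
  obtain ⟨a, ha⟩ := hidx
  set U := N ⊔ Subgroup.centralizer (((Q : Subgroup ↥N).map N.subtype : Subgroup G) : Set G)
    with hU
  haveI : U.Normal := by
    rw [← Subgroup.normalizer_eq_top_iff, eq_top_iff, ← Sylow.normalizer_sup_eq_top Q]
    exact sup_le (fun x hx => mem_normalizer_sup
      (Subgroup.le_normalizer_of_normal (Subgroup.mem_top x))
      (normalizer_le_normalizer_centralizer _ hx)) (le_sup_left.trans Subgroup.le_normalizer)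
  have hm0 : m ≠ 0 := fun e => hm (e ▸ dvd_zero p)
  have hd := θ.2.isCharacter.charDegree_cast.symm
  have h0 := (mem_principal_iff_rs hM θ).1 hB
  obtain ⟨χ, h1, h2, h3, h4, k, hk, h5⟩ := exists_good hM Q.not_dvd_index hU ha θ.2 h0
    (fun g n => hinv g n _ rfl) hd hdeg (not_dvd_detOrder hM.1 hp θ.2.isCharacter hm
      (Complex.isPrimitiveRoot_exp m hm0).pow_eq_one hrat)
  have hirr := (NEmb.ofNormal N).irr_of_ext θ.2 h1 h2
  refine ⟨⟨χ, hirr⟩, (mem_principal_iff_rs hM _).2 h4, ⟨m, hm, fun g => ?_⟩, h2⟩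
  set F := IntermediateField.adjoin ℚ ({Complex.exp (2 * Real.pi * Complex.I / m)} : Set ℂ)
  obtain ⟨z, hz⟩ := mem_range_of_forall_algEquiv F (z := χ g)
    ((h1.isIntegral g).tower_top (A := F)).isAlgebraic fun σ => by
      refine congrFun (eq_of_good hM Q.not_dvd_index hU ha θ.2 hd hdeg h1
        (h1.map_ringHom (σ : ℂ →+* ℂ)) h2 (fun n => ?_) h3 (fun J hJ hJ' => ?_) hk h5
        fun g => Units.ext ?_) g
      · rw [h2]
        exact σ.commutes ⟨_, hrat n⟩
      · rw [rs_map (σ : ℂ →+* ℂ) fun y : J => χ y]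
        exact (map_ne_zero _).2 (h3 J hJ hJ')
      · rw [Units.val_pow_eq_pow_val, H8.detHom_map_ringHom h1, ← map_pow,
          ← Units.val_pow_eq_pow_val, h5, Units.val_one, map_one]
  change χ g ∈ F
  exact hz ▸ z.2

end Cfsg.Agent.S4892
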