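import Cfsg.Statements.S4488
import Mathlib
import Cfsg.Agent.H8.Schur1
import Cfsg.Agent.S4892
import Cfsg.Agent.H8.Blich

set_option autoImplicit false
open Cfsg

namespace Cfsg.Agent.S4488

open scoped ComplexConjugate commutatorElement Pointwise
-- OPENS H8
open Cfsg.Agent.H8
open Cfsg.Agent.H6 hiding blockCoeff_eq_zero blockCoeff_mem blockDefect_eq blockHeight_eq
  blockPart_add blockPart_eq_zero_of_regular blockPart_eq_zero_of_singular blockPart_irr_of_mem
  blockPart_irr_of_not_mem blockPart_isClassFunction blockPart_smul blockPart_sub blockPart_sum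
  blockPart_zero block_eq_blockOf block_eq_of_mem block_nonempty card_defectGroup
  centralChar_mem char_mem conj_char_mem deg_factorization_le exists_height_zero
  irrOne_mem_principal isPBlock_blockOf isPBlock_principal isPGroup_zpowers mem_blockOf_self
  orderOf_conj' sameBlock_refl sameBlock_symm sameBlock_trans weak_orth weak_orth'
open Cfsg.Agent.H4 hiding exists_int_of_isIntegral_rat
open Cfsg.Agent.H5
open Cfsg.Agent.H3 hiding mem_of_pow_mem_of_coprime


/-- Let the finite group G have a faithful p-rational character χ of degree n (all values of χ lie in the field generated over ℚ by a root of unity of order prime to p), and let p^a be the order of a Sylow p-subgroup of G. Then a ≤ Σ_{i ≥ 0} ⌊n / ((p − 1)·p^i)⌋ (a finite sum; the terms vanish once (p − 1)p^i > n). -/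
theorem result {G : Type*} [Group G] [Finite G] (p : ℕ) (hp : p.Prime) (χ : G → ℂ) (hχ : Cfsg.IsCharacter G χ) (hfaith : ∀ g : G, χ g = χ 1 → g = 1) (hrat : (∃ r : ℕ, 0 < r ∧ ¬ p ∣ r ∧ ∀ g : G, χ g ∈ IntermediateField.adjoin ℚ ({Complex.exp (2 * Real.pi * Complex.I / r)} : Set ℂ))) (n : ℕ) (hn : Cfsg.charDegree χ = n) : (Nat.card G).factorization p ≤ ∑ i ∈ Finset.range (n + 1), n / ((p - 1) * p ^ i) := by
  haveI := Fact.mk hp
  obtain ⟨r, hr0, hr, h1⟩ := hrat
  let P : Sylow p G := default
  have hc : p.Coprime r := (Nat.Prime.coprime_iff_not_dvd hp).2 hr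
  obtain ⟨a, ha⟩ := IsPGroup.iff_card.1 P.2
  have h2 := index_charKer_dvd_of_rational P.2 (hχ.restrict P) fun x j hj => by
    obtain ⟨m, hm1, hm2⟩ := Nat.chineseRemainder (hc.pow_left a) j 1
    obtain ⟨σ, hσ⟩ := exists_ringEquiv_pow (n := p ^ a * r) (m := m)
      (mul_ne_zero (pow_ne_zero _ hp.ne_zero) hr0.ne') (Nat.Coprime.mul_right (by
        rw [Nat.coprime_iff_gcd_eq_one, hm1.gcd_eq]; exact hj.pow_right a)
        (Nat.coprime_of_mul_modEq_one 1 (by rwa [mul_one])))
    have h2 := (Complex.isPrimitiveRoot_exp r hr0.ne').pow_eq_one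
    have h3 : x ^ p ^ a = 1 := ha ▸ pow_card_eq_one'
    rw [← pow_eq_pow_of_modEq hm1 h3, ← (hχ.restrict P).map_apply_eq_pow (σ := σ) hσ
      (by rw [pow_mul, h3, one_pow])]
    refine S4892.fix_adjoin σ ?_ (h1 x)
    exact (hσ _ (by rw [mul_comm (p ^ a), pow_mul, h2, one_pow])).trans
      ((pow_eq_pow_of_modEq hm2 h2).trans (pow_one _))
  rw [(charKer_eq_bot_iff (hχ.restrict P)).2 fun g hg => Subtype.ext (hfaith g hg),
    Subgroup.index_bot, card_sylow_eq] at h2
  have h3 := factorization_bound hp h2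
  rwa [hp.factorization_pow, Finsupp.single_eq_same, show charDegree (fun x : (P : Subgroup G) => χ x) = n
    from hn] at h3

end Cfsg.Agent.S4488
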