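import Cfsg.Statements.S4501
import Cfsg.Agent.H19.Two
import Cfsg.Agent.S0494
import Cfsg.Agent.S0495

set_option autoImplicit false
open Cfsg

namespace Cfsg.Agent.S4501

open Cfsg.Agent.H4 Cfsg.Agent.H19

theorem num_four {p q a b u : ℕ} (hp : p.Prime) (hq : q.Prime) (hu : 2 ≤ u)
    (h : u * (u + 1) * (2 * u + 1) = 2 * p ^ a * q ^ b) : u = 2 := by
  have key : ∀ m o : ℕ, 2 < o → Nat.Coprime m o → Nat.Coprime m (2 * u + 1) →
      Nat.Coprime o (2 * u + 1) → m * o * (2 * u + 1) = p ^ a * q ^ b → m = 1 := by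
    intro m o ho c1 c2 c3 e
    by_contra hm
    have pq : ∀ l : ℕ, l.Prime → l ∣ p ^ a * q ^ b → l = p ∨ l = q := fun l hl hd =>
      ((Nat.Prime.dvd_mul hl).mp hd).imp
        (fun h => (Nat.prime_dvd_prime_iff_eq hl hp).mp (hl.dvd_of_dvd_pow h))
        (fun h => (Nat.prime_dvd_prime_iff_eq hl hq).mp (hl.dvd_of_dvd_pow h))
    obtain ⟨l1, h1, d1⟩ := Nat.exists_prime_and_dvd hm
    obtain ⟨l2, h2, d2⟩ := Nat.exists_prime_and_dvd (show o ≠ 1 by omega)
    obtain ⟨l3, h3, d3⟩ := Nat.exists_prime_and_dvd (show 2 * u + 1 ≠ 1 by omega)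
    have ne : ∀ {l x y : ℕ}, l.Prime → Nat.Coprime x y → l ∣ x → l ∣ y → False :=
      fun hl c a b => hl.one_lt.ne' (Nat.eq_one_of_dvd_coprimes c a b)
    have e1 := pq l1 h1 (e ▸ (d1.mul_right _).mul_right _)
    have e2 := pq l2 h2 (e ▸ (d2.mul_left _).mul_right _)
    have e3 := pq l3 h3 (e ▸ d3.mul_left _)
    rcases e1 with rfl | rfl <;> rcases e2 with e2 | e2 <;> rcases e3 with e3 | e3 <;>
      first
        | exact ne h1 c1 d1 (e2 ▸ d2)
        | exact ne h1 c2 d1 (e3 ▸ d3)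
        | exact ne h2 c3 d2 (e2 ▸ e3 ▸ d3)
  have c1 : Nat.Coprime u (u + 1) := by simp
  have c2 : Nat.Coprime u (2 * u + 1) := by simp [Nat.coprime_mul_right_add_right]
  have c3 : Nat.Coprime (u + 1) (2 * u + 1) := by
    rw [show 2 * u + 1 = u + (u + 1) by ring, Nat.coprime_add_self_right]; exact c1.symm
  rcases Nat.even_or_odd' u with ⟨m, rfl | rfl⟩
  · have := key m (2 * m + 1) (by omega) (c1.coprime_dvd_left (Dvd.intro_left _ rfl))
      (c2.coprime_dvd_left (Dvd.intro_left _ rfl)) c3 (by nlinarith)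
    omega
  · have := key (m + 1) (2 * m + 1) (by omega)
      (c1.symm.coprime_dvd_left (Dvd.intro_left 2 (by ring)))
      (c3.coprime_dvd_left (Dvd.intro_left 2 (by ring))) c2 (by nlinarith)
    omega

variable {G : Type*} [Group G] [Finite G] [IsSimpleGroup G]

theorem four_card (hc : ¬ IsMulCommutative G) {p q a b : ℕ} (hp : p.Prime) (hq : q.Prime)
    (h : Nat.card G = 4 * p ^ a * q ^ b) : Nat.card G = 60 := by
  have hs : ¬ Group.IsSolvable G := fun hs => hc ⟨⟨IsSimpleGroup.comm_iff_isSolvable.mpr hs⟩⟩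
  by_cases hp2 : p = 2
  · exact (hs (burnside_pq (a := a + 2) (b := b) hp hq (by rw [h, hp2]; ring))).elim
  by_cases hq2 : q = 2
  · exact (hs (burnside_pq (a := a) (b := b + 2) hp hq (by rw [h, hq2]; ring))).elim
  have ho : Odd (p ^ a * q ^ b) :=
    ((hp.odd_of_ne_two hp2).pow).mul ((hq.odd_of_ne_two hq2).pow)
  obtain ⟨P⟩ : Nonempty (Sylow 2 G) := inferInstance
  have h4 : Nat.card (P : Subgroup G) = 4 := by
    rw [P.card_eq_multiplicity, h, mul_assoc, Nat.factorization_mul (by norm_num) ho.pos.ne',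
      Finsupp.add_apply, Nat.factorization_eq_zero_of_not_dvd (by have := Nat.odd_iff.mp ho; omega :
        ¬ 2 ∣ p ^ a * q ^ b), show (4 : ℕ) = 2 ^ 2 from rfl, Nat.prime_two.factorization_pow]
    simp
  rcases GW_card (conc_of_card_four hc P h4) with ⟨r, -, ⟨u, rfl⟩, h3, e⟩ | e
  · have e2 : (2 * u + 1) ^ 2 - 1 = 4 * (u * (u + 1)) := by
      rw [Nat.sub_eq_iff_eq_add (Nat.one_le_pow _ _ (by omega))]; ring
    rw [e2] at e
    have := num_four (a := a) (b := b) hp hq (by omega : 2 ≤ u) (by nlinarith)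
    subst this
    omega
  · rw [mul_assoc] at h
    obtain ⟨k, hk⟩ := ho
    omega

theorem not_degree_prime (hc : ¬ IsMulCommutative G) {p : ℕ} (hp : p.Prime)
    (h : (Nat.card G).factorization p = 2) {χ : IrrCharacter G} :
    charDegree (χ : G → ℂ) ≠ p := by
  intro hd
  classical
  haveI := Fact.mk hp
  obtain ⟨P⟩ : Nonempty (Sylow p G) := inferInstance
  haveI := Fintype.ofFinite (P : Subgroup G)
  have hP : Nat.card (P : Subgroup G) = p ^ 2 := by rw [P.card_eq_multiplicity, h]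
  have hcomm := IsPGroup.isMulCommutative_of_card_eq_prime_sq hP
  have h1 : (χ : G → ℂ) ≠ fun _ => 1 := fun e => by
    rw [e] at hd
    exact hp.one_lt.ne (charDegree_irrOne (G := G) ▸ hd)
  have hZ : Subgroup.center G = ⊥ := (Subgroup.normal_of_characteristic _
    ).eq_bot_or_eq_top.resolve_right fun e => hc ⟨⟨fun a b =>
      (Subgroup.mem_center_iff.mp (e ▸ Subgroup.mem_top b) a)⟩⟩
  have h2 : ∀ z : (P : Subgroup G), z ≠ 1 → (χ : G → ℂ) z = 0 := by
    intro z hz
    have hi : ¬ p ∣ (Subgroup.centralizer ({(z : G)} : Set G)).index := by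
      refine fun hd => P.not_dvd_index (hd.trans (Subgroup.index_dvd_of_le fun x hx => ?_))
      rw [Subgroup.mem_centralizer_singleton_iff]
      exact congrArg Subtype.val (hcomm.1.1 ⟨x, hx⟩ z)
    rcases χ.2.eq_zero_or_norm_eq_of_coprime (d := p)
      (by rw [← hd, χ.2.isCharacter.charDegree_cast])
      ((Nat.Prime.coprime_iff_not_dvd hp).2 hi) with h | h
    · exact h
    · have h3 := χ.2.isCharacter.mem_charCenter.2 h
      rw [χ.2.charCenter_eq_center (χ.2.charKer_eq_bot_of_simple h1), hZ, Subgroup.mem_bot] at h3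
      exact (hz (Subtype.ext h3)).elim
  obtain ⟨m, hm⟩ := (χ.2.isCharacter.comp (P : Subgroup G).subtype).classInner_nat isCharacter_one
  rw [classInner_one_right, hP, Finset.sum_eq_single 1 (fun z _ hz => by exact h2 z hz) (by simp)] at hm
  have h3 : (p : ℂ) ≠ 0 := Nat.cast_ne_zero.2 hp.ne_zero
  have h4 : (χ : G → ℂ) 1 = p := by rw [← hd, χ.2.isCharacter.charDegree_cast]
  simp only [map_one, h4] at hm
  have h5 : p * m = 1 := by
    have : (p * m : ℂ) = 1 := by rw [← hm]; push_cast; field_simp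
    exact_mod_cast this
  exact hp.one_lt.ne' (Nat.eq_one_of_mul_eq_one_right h5)

theorem num_three {p b o v : ℕ} (hp : p.Prime) (h3 : p ≠ 3) (h2 : p ≠ 2) (ho : Odd o) (ho1 : o ≠ 1)
    (hov : o = v + 1 ∨ v = o + 1) (h1 : o ∣ p ^ 2 * 2 ^ b) (hv : v ∣ p ^ 2 * 2 ^ b) : o = p := by
  have c1 : Nat.Coprime o (2 ^ b) := (Nat.coprime_two_right.mpr ho).pow_right b
  obtain ⟨k, hk, rfl⟩ := (Nat.dvd_prime_pow hp).mp (c1.dvd_of_dvd_mul_right h1)
  have hk0 : k ≠ 0 := by rintro rfl; simp at ho1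
  have c2 : Nat.Coprime v (p ^ 2) := by
    refine Nat.Coprime.pow_right _ ((Nat.coprime_comm.mp ((Nat.Prime.coprime_iff_not_dvd hp).2 ?_)))
    intro hd
    have := dvd_pow_self p hk0
    refine hp.one_lt.ne' (Nat.dvd_one.mp ?_)
    rcases hov with e | e
    · exact (Nat.dvd_add_right hd).mp (e ▸ this)
    · exact (Nat.dvd_add_right this).mp (e ▸ hd)
  obtain ⟨c, -, rfl⟩ := (Nat.dvd_prime_pow Nat.prime_two).mp (c2.dvd_of_dvd_mul_left hv)
  obtain rfl | rfl : k = 1 ∨ k = 2 := by omega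
  · simp
  exfalso
  have h5 : 5 ≤ p := hp.five_le_of_ne_two_of_ne_three h2 h3
  rcases hov with e | e
  · have h6 : ¬ 3 ∣ p := fun hd => h3 ((Nat.prime_dvd_prime_iff_eq Nat.prime_three hp).mp hd).symm
    have h7 : p ^ 2 % 3 = 1 := by
      rw [Nat.pow_mod]
      obtain e | e : p % 3 = 1 ∨ p % 3 = 2 := by omega
      all_goals rw [e]
    have h8 : 3 ∣ 2 ^ c := by omega
    exact absurd (Nat.prime_three.dvd_of_dvd_pow h8) (by norm_num)
  · obtain ⟨s, rfl⟩ := hp.odd_of_ne_two h2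
    obtain ⟨c, rfl⟩ : ∃ c', c = c' + 2 := by
      refine ⟨c - 2, ?_⟩
      by_contra hc
      obtain rfl | rfl : c = 0 ∨ c = 1 := by omega
      all_goals nlinarith
    have : 4 * 2 ^ c = 4 * (s * s + s) + 2 := by rw [pow_add] at e; linarith
    omega

theorem not_three (hc : ¬ IsMulCommutative G) {p b : ℕ} (hp : p.Prime) (h3 : p ≠ 3) (h2 : p ≠ 2)
    (h : Nat.card G = 3 * p ^ 2 * 2 ^ b) : False := by
  classical
  haveI := Fintype.ofFinite G
  haveI : Fact (Nat.Prime 3) := ⟨Nat.prime_three⟩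
  have hG : commutator G = ⊤ := (Subgroup.commutator_normal ⊤ ⊤).eq_bot_or_eq_top.resolve_left
    fun e => hc ⟨⟨fun a b => by
      rw [← commutatorElement_eq_one_iff_mul_comm, ← Subgroup.mem_bot, ← e]
      exact Subgroup.commutator_mem_commutator (Subgroup.mem_top a) (Subgroup.mem_top b)⟩⟩
  have c3 : Nat.Coprime 3 (p ^ 2 * 2 ^ b) :=
    (((Nat.coprime_primes Nat.prime_three hp).mpr h3.symm).pow_right _).mul_right
      ((by norm_num : Nat.Coprime 3 2).pow_right _)
  obtain ⟨x, hx⟩ := exists_prime_orderOf_dvd_card' (G := G) 3 (by rw [h, mul_assoc]; simp)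
  obtain ⟨K, hK⟩ := exists_PO hx (fun hd => by
    rw [h, mul_assoc, sq] at hd
    exact (Nat.Prime.coprime_iff_not_dvd Nat.prime_three).mp c3
      (Nat.dvd_of_mul_dvd_mul_left (by norm_num) hd))
  obtain ⟨B⟩ := hK.nonempty_BD
  have he : eN hK.ord = 2 := by
    have h1 := B.one_lt_e' hG
    have h2 := eN_mul hK.ord
    have h3 := tN_pos hK.ord
    nlinarith
  obtain ⟨χ, hχ⟩ := Finset.card_eq_one.mp (by
    rw [Finset.card_erase_of_mem B.one_mem, B.cardX]; exact congrArg (· - 1) he :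
      (B.X.erase (irrOne G)).card = 1)
  have h5 := Finset.mem_erase.mp (hχ ▸ Finset.mem_singleton_self χ)
  have h6 := B.deg_eq
  rw [← Finset.add_sum_erase _ _ B.one_mem, B.a_one, charDegree_irrOne, hχ,
    Finset.sum_singleton] at h6
  have h7 := B.z_pos
  have h8 := χ.2.charDegree_pos
  have h9 : B.z = charDegree (χ : G → ℂ) + 1 ∨ charDegree (χ : G → ℂ) = B.z + 1 := by
    rcases B.hε with e | e <;> rcases B.ha χ h5.2 with e' | e' <;> rw [e, e'] at h6 <;> omega
  have d1 : charDegree (χ : G → ℂ) ∣ p ^ 2 * 2 ^ b := by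
    refine ((Nat.Prime.coprime_iff_not_dvd Nat.prime_three).mpr
      (B.le_degX hG h5.2 h5.1).2.2).symm.dvd_of_dvd_mul_left ?_
    rw [← mul_assoc, ← h]; exact χ.2.charDegree_dvd_card
  have d2 : B.z ∣ p ^ 2 * 2 ^ b := by
    refine ((Nat.Prime.coprime_iff_not_dvd Nat.prime_three).mpr fun hd => ?_
      ).symm.dvd_of_dvd_mul_left ?_
    · have := B.z_mod
      have he' : Nat.card (EE hK.ord) = 2 := he
      rw [he'] at this
      unfold Int.ModEq at this
      rcases B.hε with e | e <;> rw [e] at this <;> omega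
    · rw [← mul_assoc, ← h]; exact (B.μ 1).2.charDegree_dvd_card
  have hf : (Nat.card G).factorization p = 2 := by
    have hn : ¬ p ∣ 3 * 2 ^ b := fun hd => by
      rcases (Nat.Prime.dvd_mul hp).mp hd with e | e
      · exact h3 ((Nat.prime_dvd_prime_iff_eq hp Nat.prime_three).mp e)
      · exact h2 ((Nat.prime_dvd_prime_iff_eq hp Nat.prime_two).mp (hp.dvd_of_dvd_pow e))
    rw [h, show 3 * p ^ 2 * 2 ^ b = p ^ 2 * (3 * 2 ^ b) by ring,
      Nat.factorization_mul (pow_pos hp.pos 2).ne' (by positivity), Finsupp.add_apply,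
      Nat.factorization_eq_zero_of_not_dvd hn, hp.factorization_pow]
    simp
  have n1 : charDegree (χ : G → ℂ) ≠ 1 := fun e => h5.1 (irr_eq_one_of_perfect hG e)
  have n2 : B.z ≠ 1 := fun e => B.μ_ne_one 1 (irr_eq_one_of_perfect hG e)
  rcases Nat.even_or_odd B.z with e | e
  · exact not_degree_prime hc hp hf (num_three hp h3 h2 (Nat.odd_iff.mpr (by
      rw [Nat.even_iff] at e; omega)) n1 h9.symm d1 d2)
  · exact not_degree_prime hc hp hf (χ := B.μ 1) (num_three hp h3 h2 e n2 h9 d2 d1)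

/-- Let G be a non-abelian finite simple group and p, q distinct primes. If the order of G is 4·p^a·q^b with a ≤ 2, then G is isomorphic to the alternating group of degree 5. If the order of G is 3·p^a·q^b with a ≤ 2, then G is isomorphic to the alternating group of degree 5 or to PSL(2,7). -/
theorem result {G : Type*} [Group G] [Finite G] [IsSimpleGroup G] (hna : ∃ x y : G, x * y ≠ y * x) (p q a b : ℕ) (hp : p.Prime) (hq : q.Prime) (hpq : p ≠ q) (ha : a ≤ 2) : (Nat.card G = 4 * p ^ a * q ^ b → Nonempty (G ≃* alternatingGroup (Fin 5))) ∧ (Nat.card G = 3 * p ^ a * q ^ b → Nonempty (G ≃* alternatingGroup (Fin 5)) ∨ Nonempty (G ≃* Matrix.ProjectiveSpecialLinearGroup (Fin 2) (ZMod 7))) := by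
  have hc : ¬ IsMulCommutative G := fun h => by
    obtain ⟨x, y, e⟩ := hna; exact e (h.1.1 x y)
  have hs : ¬ Group.IsSolvable G := fun hs => hc ⟨⟨IsSimpleGroup.comm_iff_isSolvable.mpr hs⟩⟩
  refine ⟨fun h => S0494.result (four_card hc hp hq h), fun h => ?_⟩
  haveI : Fact (Nat.Prime 7) := ⟨by norm_num⟩
  suffices Nat.card G = 60 ∨ Nat.card G = 168 from
    this.imp S0494.result fun e => S0495.result e (ZMod.card 7)
  by_cases hp3 : p = 3
  · exact (hs (burnside_pq (a := a + 1) (b := b) hp hq (by rw [h, hp3]; ring))).elim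
  by_cases hq3 : q = 3
  · exact (hs (burnside_pq (a := a) (b := b + 1) hp hq (by rw [h, hq3]; ring))).elim
  obtain rfl | rfl | rfl : a = 0 ∨ a = 1 ∨ a = 2 := by omega
  · exact (hs (burnside_pq (a := 1) (b := b) Nat.prime_three hq (by rw [h]; ring))).elim
  · exact prq_card hc 3 q p b Nat.prime_three hq hp (Ne.symm hq3) (Ne.symm hp3) hpq.symm
      (by rw [h]; ring)
  by_cases hp2 : p = 2
  · exact Or.inl (four_card (a := 1) (b := b) hc Nat.prime_three hq (by rw [h, hp2]; ring))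
  have h2 := even_card_of_simple hc
  rw [h] at h2
  rcases (Nat.Prime.dvd_mul Nat.prime_two).mp h2 with e | e
  · rcases (Nat.Prime.dvd_mul Nat.prime_two).mp e with e | e
    · omega
    · exact (hp2 ((Nat.prime_dvd_prime_iff_eq Nat.prime_two hp).mp
        (Nat.prime_two.dvd_of_dvd_pow e)).symm).elim
  · obtain rfl := (Nat.prime_dvd_prime_iff_eq Nat.prime_two hq).mp (Nat.prime_two.dvd_of_dvd_pow e)
    exact (not_three hc hp hp3 hp2 h).elim

end Cfsg.Agent.S4501
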