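import Cfsg.Statements.S4517
import Mathlib
import Cfsg.Agent.H8.Princ

set_option autoImplicit false
open Cfsg

namespace Cfsg.Agent.S4517

-- OPENS
open Cfsg.Agent.H8
open Cfsg.Agent.H6 hiding blockCoeff_eq_zero blockPart_add blockPart_eq_zero_of_regular
  blockPart_eq_zero_of_singular blockPart_irr_of_mem blockPart_irr_of_not_mem
  blockPart_isClassFunction blockPart_smul blockPart_sub blockPart_sum blockPart_zero
  block_eq_blockOf block_eq_of_mem block_nonempty centralChar_mem char_mem conj_char_mem
  irrOne_mem_principal isPBlock_blockOf isPBlock_principal mem_blockOf_self orderOf_conj'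
  sameBlock_refl sameBlock_symm sameBlock_trans weak_orth weak_orth'
open Cfsg.Agent.H4
open Cfsg.Agent.H5
open Cfsg.Agent.H3


/-- Let G be a finite group, M a maximal ideal of the algebraic integers containing 2, and k a natural number coprime to the order of G with g ^ k = g⁻¹ for every element g of odd order (so that g ↦ g ^ k induces a field automorphism of the character values inverting the roots of unity of odd order). If B is a 2-block of full defect (its defect equals the exponent of 2 in the order of G) that is stable under χ ↦ χ ∘ (· ^ k), then B is the principal 2-block. -/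
theorem result {G : Type*} [Group G] [Finite G] (M : Ideal Cfsg.AlgInt) (hM : Cfsg.IsPModular 2 M) (k : ℕ) (hk : Nat.Coprime k (Nat.card G)) (hk₂ : ∀ g : G, Odd (orderOf g) → g ^ k = g⁻¹) (B : Set (Cfsg.IrrCharacter G)) (hB : Cfsg.IsPBlock M B) (hdef : Cfsg.blockDefect 2 B = (Nat.card G).factorization 2) (hstab : ∀ χ ∈ B, ∃ ψ ∈ B, ∀ g : G, (ψ : G → ℂ) g = (χ : G → ℂ) (g ^ k)) : B = Cfsg.principalBlock M G := by
  have := Fintype.ofFinite G
  have := hM.2.1
  obtain ⟨χ, hχ, h0⟩ := exists_eq_bmin (p := 2) (block_nonempty hB)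
  have h1 := defect_add_bmin (p := 2) (block_nonempty hB)
  have hodd : ¬ 2 ∣ charDegree (χ : G → ℂ) := by
    rw [Nat.prime_two.dvd_iff_one_le_factorization (irr_charDegree_ne_zero χ)]
    omega
  obtain ⟨ψ, hψ, h⟩ := hstab χ hχ
  refine block_eq_of_mem hB isPBlock_principal hχ
    (mem_principal_of_conj hM χ ψ (block_sameBlock hB hχ hψ) (fun g hg => ?_) hodd)
  rw [h, hk₂ g (by rwa [← Nat.not_even_iff_odd, even_iff_two_dvd]), irr_inv]

end Cfsg.Agent.S4517
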