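import Cfsg.Statements.S4519
import Mathlib
import Cfsg.Agent.H8.Gal1
import Cfsg.Agent.H6.PPart

set_option autoImplicit false
open Cfsg

namespace Cfsg.Agent.S4519

open scoped ComplexConjugate commutatorElement Pointwise
-- OPENS
open Cfsg.Agent.H8
open Cfsg.Agent.H6 hiding block_eq_blockOf block_eq_of_mem block_nonempty centralChar_mem
  char_mem conj_char_mem deg_factorization_le irrOne_mem_principal isPBlock_blockOf
  isPBlock_principal mem_blockOf_self orderOf_conj' sameBlock_refl sameBlock_symm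
  sameBlock_trans
open Cfsg.Agent.H4 hiding exists_int_of_isIntegral_rat
open Cfsg.Agent.H5
open Cfsg.Agent.H3


/-- Let N be a normal subgroup of odd index in the finite group G, and let k be coprime to the order of G with k ^ (2 ^ e) ≡ 1 modulo the order of G for some e and g ^ k = g⁻¹ for every element g of odd order (so g ↦ g ^ k induces a field automorphism of 2-power order inverting the roots of unity of odd order). If an irreducible character θ of N satisfies θ (n ^ k) = θ n for all n, then there is exactly one irreducible character χ of G with θ a constituent of its restriction to N and χ (g ^ k) = χ g for all g; moreover, if θ is invariant under conjugation by G, that χ restricts to θ. -/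
theorem result {G : Type*} [Group G] [Fintype G] (N : Subgroup G) [hN : N.Normal] [Fintype N] (hidx : Odd N.index) (k e : ℕ) (hk : Nat.Coprime k (Nat.card G)) (hke : k ^ (2 ^ e) ≡ 1 [MOD Nat.card G]) (hk₂ : ∀ g : G, Odd (orderOf g) → g ^ k = g⁻¹) (θ : Cfsg.IrrCharacter N) (hθ : ∀ n : N, (θ : N → ℂ) (n ^ k) = (θ : N → ℂ) n) : ∃ χ : Cfsg.IrrCharacter G, (Cfsg.classInner (fun n : N => (χ : G → ℂ) n) (θ : N → ℂ) ≠ 0 ∧ (∀ g : G, (χ : G → ℂ) (g ^ k) = (χ : G → ℂ) g) ∧ ((∀ g : G, ∀ n : N, (θ : N → ℂ) ⟨g * n * g⁻¹, hN.conj_mem n n.2 g⟩ = (θ : N → ℂ) n) → ∀ n : N, (χ : G → ℂ) n = (θ : N → ℂ) n)) ∧ ∀ χ' : Cfsg.IrrCharacter G, Cfsg.classInner (fun n : N => (χ' : G → ℂ) n) (θ : N → ℂ) ≠ 0 → (∀ g : G, (χ' : G → ℂ) (g ^ k) = (χ' : G → ℂ) g) → χ' = χ := by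
  obtain ⟨χ, h1, h2, h3, h4⟩ := exists_fixed_over (NEmb.ofNormal N) (by rwa [NEmb.ofNormal_range]) hk
    (fun g => by
      rw [NEmb.ofNormal_range]
      obtain ⟨x, y, rfl, hc, ⟨j, hj⟩, hy⟩ := exists_isPPart Nat.prime_two g
      rw [hc.mul_pow, hk₂ y (Nat.odd_iff.mpr (Nat.two_dvd_ne_zero.mp hy)), hc.eq]
      have hx : x ∈ N := mem_of_two_pow N hidx (j := j) (by rw [← hj, pow_orderOf_eq_one])
      simpa [mul_assoc] using N.mul_mem (N.pow_mem hx k) hx) θ.2 hθ
  refine ⟨⟨χ, h1⟩, ⟨h2.trans_ne one_ne_zero, h3, fun hinv n => ?_⟩, fun χ' h5 h6 => Subtype.ext (h4 _ χ'.2 h5 h6)⟩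
  have := congrFun ((NEmb.ofNormal N).clifford_of_invariant h1 θ.2 hinv (h2.trans_ne one_ne_zero)) n
  rwa [h2, one_smul] at this

end Cfsg.Agent.S4519
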