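import Cfsg.Statements.S4520
import Cfsg.Agent.H7.PCov
-- import your own Cfsg.Agent.* helpers here

set_option autoImplicit false
open Cfsg

namespace Cfsg.Agent.S4520

open MonoidAlgebra Cfsg.Agent.H3 Cfsg.Agent.H4 Cfsg.Agent.H7
open Cfsg.Agent.H6 (Res locRing redC redA eB fB intAlg classSum omega chiL)
open scoped Pointwise
set_option linter.style.haveILetI false


/-- Let N be a normal subgroup of odd index in the finite group G, M a maximal ideal of the algebraic integers containing 2, and k coprime to the order of G with k ^ (2 ^ e) ≡ 1 modulo the order of G for some e and g ^ k = g⁻¹ for every element g of odd order. Let θ be an irreducible character of N and χ an irreducible character of G over θ, both unchanged by composing with g ↦ g ^ k. Then χ lies in the principal 2-block of G if and only if θ lies in the principal 2-block of N. -/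
theorem result {G : Type*} [Group G] [Fintype G] (M : Ideal Cfsg.AlgInt) (hM : Cfsg.IsPModular 2 M) (N : Subgroup G) [N.Normal] [Fintype N] (hidx : Odd N.index) (k e : ℕ) (hk : Nat.Coprime k (Nat.card G)) (hke : k ^ (2 ^ e) ≡ 1 [MOD Nat.card G]) (hk₂ : ∀ g : G, Odd (orderOf g) → g ^ k = g⁻¹) (θ : Cfsg.IrrCharacter N) (hθ : ∀ n : N, (θ : N → ℂ) (n ^ k) = (θ : N → ℂ) n) (χ : Cfsg.IrrCharacter G) (hχ : ∀ g : G, (χ : G → ℂ) (g ^ k) = (χ : G → ℂ) g) (hover : Cfsg.classInner (fun n : N => (χ : G → ℂ) n) (θ : N → ℂ) ≠ 0) : χ ∈ Cfsg.principalBlock M G ↔ θ ∈ Cfsg.principalBlock M N := by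
  haveI := hM.2.1
  haveI : Fact (Nat.Prime 2) := ⟨Nat.prime_two⟩
  refine ⟨fun h => mem_principal_of_over h hover, fun h => ?_⟩
  have h1 := eB_mul_eb_blockOf_ne_zero (H6.isPBlock_blockOf (M := M) χ) (H6.mem_blockOf_self χ)
    hover
  rw [← H6.block_eq_blockOf H6.isPBlock_principal h] at h1
  obtain ⟨ψ, hψ, h2⟩ := exists_mem_over_of_cover (H6.isPBlock_blockOf (M := M) χ)
    H6.isPBlock_principal h1 H6.irrOne_mem_principal
  have h3 : N ≤ charKer (ψ : G → ℂ) := by
    by_contra hc
    exact h2 ((ψ.2.classInner_restrict_one_eq_zero_iff N).2 hc)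
  have h4 : ¬ 2 ∣ charDegree (ψ : G → ℂ) := fun hd =>
    (Nat.not_even_iff_odd.2 hidx) (even_iff_two_dvd.2 (hd.trans (charDegree_dvd_index ψ.2 h3)))
  have h5 : SameBlock M (χ : G → ℂ) (irrConj χ) := by
    refine H8.sameBlock_of_pReg_eq hM (funext fun g => ?_)
    rw [H8.pReg_eq_ite, H8.pReg_eq_ite]
    split_ifs with hg
    · rfl
    · rw [irrConj_apply, ← H8.irr_inv, ← hk₂ g (Nat.odd_iff.2 (by omega)), hχ]
  have h6 : SameBlock M (χ : G → ℂ) ψ := hψ
  have h7 := H8.mem_principal_of_conj hM ψ (irrConj ψ)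
    (H6.sameBlock_trans (H6.sameBlock_symm h6) (H6.sameBlock_trans h5 (sameBlock_irrConj h6)))
    (fun g _ => rfl) h4
  exact H6.mem_of_sameBlock H6.isPBlock_principal h7 (H6.sameBlock_symm h6)

end Cfsg.Agent.S4520
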