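import Cfsg.Statements.S4531
import Cfsg.Agent.H7.TB15
-- import your own Cfsg.Agent.* helpers here

set_option autoImplicit false
open Cfsg

namespace Cfsg.Agent.S4531

open MonoidAlgebra Cfsg.Agent.H3 Cfsg.Agent.H4 Cfsg.Agent.H7
open Cfsg.Agent.H6 (Res locRing redC redA eB fB intAlg classSum omega chiL)
open scoped Pointwise
set_option linter.style.haveILetI false


/-- Let the finite group G have a 2-block B (relative to a maximal ideal M of the algebraic integers containing 2) of 2-regular rank three (three irreducible Brauer characters) whose defect group D is dihedral of order 2 ^ n with n ≥ 3 or semidihedral. Then the centre of G has odd order and G is not solvable. -/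
theorem result {G : Type*} [Group G] [Finite G] (M : Ideal Cfsg.AlgInt) (hM : Cfsg.IsPModular 2 M) (B : Set (Cfsg.IrrCharacter G)) (hB : Cfsg.IsPBlock M B) (D : Subgroup G) (hD : Cfsg.IsDefectGroup 2 M B D) (hD' : (∃ n : ℕ, 3 ≤ n ∧ Nonempty (D ≃* DihedralGroup (2 ^ (n - 1)))) ∨ Cfsg.IsQuasiDihedral D) (hl : Cfsg.blockRank 2 B = 3) : Odd (Nat.card (Subgroup.center G)) ∧ ¬ Group.IsSolvable G := by
  haveI := Fintype.ofFinite G
  haveI := hM.2.1
  rcases hD' with ⟨n, hn, ⟨φ⟩⟩ | hsd
  · obtain ⟨X, Y, h⟩ := H11.exists_MC_of_dihedral (by omega) φ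
    refine H7.TB.rank_three hM hB hD h (c := 1) (by simp) (fun e => ?_) hl
    have := orderOf_dvd_of_pow_eq_one (x := X 1) (n := 2) (by rw [h.X_pow, h.X_eq_one]; exact e)
    rw [h.orderOf_X_one] at this
    have := (Nat.pow_dvd_pow_iff_le_right (by norm_num)).1 (show 2 ^ (n - 1) ∣ 2 ^ 1 from this)
    omega
  · obtain ⟨k, X, Y, hk, h⟩ := H11.exists_MC_of_qd hsd
    refine H7.TB.rank_three hM hB hD h (c := 2) (by rw [mul_comm, h.hh2]) (fun e => ?_) hl
    have := orderOf_dvd_of_pow_eq_one (x := X 1) (n := 4) (by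
      rw [h.X_pow, h.X_eq_one]; push_cast; linear_combination e)
    rw [h.orderOf_X_one] at this
    have := (Nat.pow_dvd_pow_iff_le_right (by norm_num)).1 (show 2 ^ k ∣ 2 ^ 2 from this)
    omega

end Cfsg.Agent.S4531
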