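import Cfsg.Statements.S4540
import Mathlib
import Cfsg.Agent.H8.Subsec3

set_option autoImplicit false
open Cfsg

namespace Cfsg.Agent.S4540

-- OPENS
open Cfsg.Agent.H8
open Cfsg.Agent.H6 hiding blockCoeff_eq_zero blockCoeff_mem blockDefect_eq blockHeight_eq
  blockPart_add blockPart_eq_zero_of_regular blockPart_eq_zero_of_singular blockPart_irr_of_mem
  blockPart_irr_of_not_mem blockPart_isClassFunction blockPart_smul blockPart_sub blockPart_sum
  blockPart_zero block_eq_blockOf block_eq_of_mem block_nonempty card_defectGroup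
  centralChar_mem char_mem conj_char_mem deg_factorization_le exists_height_zero
  irrOne_mem_principal isPBlock_blockOf isPBlock_principal isPGroup_zpowers mem_blockOf_self
  orderOf_conj' sameBlock_refl sameBlock_symm sameBlock_trans weak_orth weak_orth'
open Cfsg.Agent.H4 hiding exists_int_of_isIntegral_rat
open Cfsg.Agent.H5
open Cfsg.Agent.H3


/-- Let B be a 2-block of the finite group G (relative to a maximal ideal M of the algebraic integers containing 2) of defect d with defect group D. Let z be an element of D commuting with every element of D, and let b be a block of the centralizer C of z with defect group D that induces B (a major subsection (z, b)). If b has 2-regular rank at most three, then 3·k(B) ≤ 3·k₀(B) + 2·Σ 2 ^ h(χ), where k(B) is the number of members of B, k₀(B) the number of members of height zero, and the sum runs over the members χ of B of positive height h(χ); this bound is at most 3·2 ^ d, so in particular B contains at most 2 ^ d irreducible characters.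 -/
theorem result {G : Type*} [Group G] [Finite G] (M : Ideal Cfsg.AlgInt) (hM : Cfsg.IsPModular 2 M) (B : Set (Cfsg.IrrCharacter G)) (hB : Cfsg.IsPBlock M B) (D : Subgroup G) (hD : Cfsg.IsDefectGroup 2 M B D) (z : G) (hzD : z ∈ D) (hzc : ∀ d ∈ D, d * z = z * d) (b : Set (Cfsg.IrrCharacter ↥(Subgroup.centralizer ({z} : Set G)))) (hb : Cfsg.IsInducedBlock M (Subgroup.centralizer ({z} : Set G)) b B) (hbD : Cfsg.IsDefectGroup 2 M b (D.subgroupOf (Subgroup.centralizer ({z} : Set G)))) (hl : Cfsg.blockRank 2 b ≤ 3) : 3 * Nat.card B ≤ 3 * Nat.card {χ : Cfsg.IrrCharacter G // χ ∈ B ∧ Cfsg.blockHeight 2 B (χ : G → ℂ) = 0} + 2 * (∑ᶠ χ ∈ {χ : Cfsg.IrrCharacter G | χ ∈ B ∧ 1 ≤ Cfsg.blockHeight 2 B (χ : G → ℂ)}, 2 ^ Cfsg.blockHeight 2 B (χ : G → ℂ)) ∧ 3 * Nat.card {χ : Cfsg.IrrCharacter G // χ ∈ B ∧ Cfsg.blockHeight 2 B (χ : G → ℂ) = 0} + 2 * (∑ᶠ χ ∈ {χ : Cfsg.IrrCharacter G | χ ∈ B ∧ 1 ≤ Cfsg.blockHeight 2 B (χ : G → ℂ)}, 2 ^ Cfsg.blockHeight 2 B (χ : G → ℂ)) ≤ 3 * 2 ^ Cfsg.blockDefect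 2 B := by
  classical
  have := hM.2.1
  have := Fintype.ofFinite G
  have := Fintype.ofFinite (Subgroup.centralizer ({z} : Set G))
  obtain ⟨h, hd⟩ := major_data hM hB hD hzD hzc hb.1 hbD
  obtain ⟨t, hsum, hnn, h0, hmaj⟩ := h.two_data hM hb
  obtain ⟨hpos, hz⟩ := hmaj hd
  have e1 : Nat.card {χ : IrrCharacter G // χ ∈ B ∧ blockHeight 2 B (χ : G → ℂ) = 0} =
      ((bfin B).filter fun χ : IrrCharacter G => blockHeight 2 B (χ : G → ℂ) = 0).card :=
    Nat.subtype_card _ (by simp)
  have e2 : {χ : IrrCharacter G | χ ∈ B ∧ 1 ≤ blockHeight 2 B (χ : G → ℂ)} =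
      ((bfin B).filter fun χ : IrrCharacter G => ¬ blockHeight 2 B (χ : G → ℂ) = 0 : Finset _) := by
    ext χ; simp [Nat.one_le_iff_ne_zero]
  have key : 3 * ((bfin B).filter fun χ : IrrCharacter G => blockHeight 2 B (χ : G → ℂ) = 0).card +
      2 * ∑ χ ∈ (bfin B).filter (fun χ : IrrCharacter G => ¬ blockHeight 2 B (χ : G → ℂ) = 0),
        2 ^ blockHeight 2 B (χ : G → ℂ) = ∑ χ ∈ bfin B, if blockHeight 2 B (χ : G → ℂ) = 0 then 3
          else 2 ^ (blockHeight 2 B (χ : G → ℂ) + 1) := by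
    rw [Finset.sum_ite, Finset.mul_sum]
    simp [pow_succ', mul_comm]
  rw [e1, e2, finsum_mem_coe_finset, key]
  constructor
  · rw [← card_bfin, mul_comm, ← smul_eq_mul]
    refine Finset.card_nsmul_le_sum _ _ _ fun χ _ => ?_
    split_ifs with hh
    · rfl
    · calc 3 ≤ 2 ^ 2 := by norm_num
        _ ≤ _ := Nat.pow_le_pow_right (by norm_num) (by omega)
  · zify
    simp only [Nat.cast_eq_zero]
    by_cases hc : ∀ χ ∈ B, blockHeight 2 B (χ : G → ℂ) = 0 → 3 ≤ t χ
    · refine le_trans (Finset.sum_le_sum fun χ hχ => ?_) (hsum.le.trans ?_)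
      · rw [mem_bfin] at hχ
        split_ifs with hh
        · exact hc χ hχ hh
        · exact Int.le_of_dvd (hpos χ hχ hh).2.1 (hpos χ hχ hh).1
      · rw [hd, mul_comm]
        exact mul_le_mul_of_nonneg_right (by exact_mod_cast hl) (by positivity)
    · push Not at hc
      obtain ⟨χ₀, h₀, hh, hlt⟩ := hc
      have h1 : t χ₀ = 1 := by
        have := hnn χ₀
        obtain ⟨c, hc⟩ := (h0 χ₀ h₀ hh).1
        omega
      have h2 := (hz χ₀ h₀ hh).1
      rw [h1, mul_one] at h2
      refine le_trans ?_ (mul_le_mul_of_nonneg_left h2 (by norm_num))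
      rw [Finset.mul_sum]
      refine Finset.sum_le_sum fun χ _ => ?_
      split_ifs with hh
      · simp [hh]
      · have : (1 : ℤ) ≤ 2 ^ blockHeight 2 B (χ : G → ℂ) := one_le_pow₀ (by norm_num)
        rw [pow_succ]
        nlinarith

end Cfsg.Agent.S4540
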