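import Cfsg.Statements.S4541
import Mathlib
import Cfsg.Agent.H8.Subsec3

set_option autoImplicit false
open Cfsg

namespace Cfsg.Agent.S4541

-- OPENS
open Cfsg.Agent.H8
open Cfsg.Agent.H6 hiding blockCoeff_eq_zero blockCoeff_mem blockDefect_eq blockHeight_eq
  blockPart_add blockPart_eq_zero_of_regular blockPart_eq_zero_of_singular blockPart_irr_of_mem
  blockPart_irr_of_not_mem blockPart_isClassFunction blockPart_smul blockPart_sub blockPart_sum
  blockPart_zero block_eq_blockOf block_eq_of_mem block_nonempty card_defectGroup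
  centralChar_mem char_mem conj_char_mem deg_factorization_le exists_height_zero
  irrOne_mem_principal isPBlock_blockOf isPBlock_principal isPGroup_zpowers mem_blockOf_self
  orderOf_conj' sameBlock_refl sameBlock_symm sameBlock_trans weak_orth weak_orth'
open Cfsg.Agent.H4 hiding exists_int_of_isIntegral_rat
open Cfsg.Agent.H5
open Cfsg.Agent.H3


/-- Let B be a 2-block of the finite group G (relative to a maximal ideal M of the algebraic integers containing 2), u a 2-element, and b a block of the centralizer of u inducing B (a subsection (u, b)), of defect q and 2-regular rank l; write s for the integer square root of l and k₀(B) for the number of members of B of height zero. If s is odd then k₀(B) ≤ s·2 ^ q, and otherwise (s + 1)·k₀(B) ≤ l·2 ^ q; in particular k₀(B) ≤ 2 ^ q when l ≤ 3. -/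
theorem result {G : Type*} [Group G] [Finite G] (M : Ideal Cfsg.AlgInt) (hM : Cfsg.IsPModular 2 M) (B : Set (Cfsg.IrrCharacter G)) (hB : Cfsg.IsPBlock M B) (u : G) (hu : ∃ j : ℕ, orderOf u = 2 ^ j) (b : Set (Cfsg.IrrCharacter ↥(Subgroup.centralizer ({u} : Set G)))) (hb : Cfsg.IsInducedBlock M (Subgroup.centralizer ({u} : Set G)) b B) : (Odd (Nat.sqrt (Cfsg.blockRank 2 b)) → Nat.card {χ : Cfsg.IrrCharacter G // χ ∈ B ∧ Cfsg.blockHeight 2 B (χ : G → ℂ) = 0} ≤ Nat.sqrt (Cfsg.blockRank 2 b) * 2 ^ Cfsg.blockDefect 2 b) ∧ (¬ Odd (Nat.sqrt (Cfsg.blockRank 2 b)) → (Nat.sqrt (Cfsg.blockRank 2 b) + 1) * Nat.card {χ : Cfsg.IrrCharacter G // χ ∈ B ∧ Cfsg.blockHeight 2 B (χ : G → ℂ) = 0} ≤ Cfsg.blockRank 2 b * 2 ^ Cfsg.blockDefect 2 b) ∧ (Cfsg.blockRank 2 b ≤ 3 → Nat.card {χ : Cfsg.IrrCharacter G // χ ∈ B ∧ Cfsg.blockHeight 2 B (χ : G → ℂ) = 0} ≤ 2 ^ Cfsg.blockDefect 2 b) := by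
  classical
  have := hM.2.1
  have := Fintype.ofFinite G
  have := Fintype.ofFinite (Subgroup.centralizer ({u} : Set G))
  have h := secData_centralizer hu
  obtain ⟨t, hsum, hnn, h0, -⟩ := h.two_data hM hb
  have e1 : Nat.card {χ : IrrCharacter G // χ ∈ B ∧ blockHeight 2 B (χ : G → ℂ) = 0} =
      ((bfin B).filter fun χ : IrrCharacter G => blockHeight 2 B (χ : G → ℂ) = 0).card :=
    Nat.subtype_card _ (by simp)
  rw [e1]
  set S := (bfin B).filter fun χ : IrrCharacter G => blockHeight 2 B (χ : G → ℂ) = 0 with hS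
  obtain ⟨χ₁, h₁, hh₁⟩ := exists_height_zero (p := 2) (block_nonempty hb.2.1)
  obtain ⟨χ₀, h₀, hmin⟩ := S.exists_min_image t ⟨χ₁, by simp [hS, h₁, hh₁]⟩
  have h₀' := Finset.mem_filter.mp h₀
  obtain ⟨hodd, hle⟩ := h0 χ₀ (mem_bfin.mp h₀'.1) h₀'.2
  have h2 : (S.card : ℤ) * t χ₀ ≤ 2 ^ blockDefect 2 b * blockRank 2 b := by
    rw [← hsum, ← nsmul_eq_mul]
    exact le_trans (Finset.card_nsmul_le_sum _ _ _ hmin)
      (Finset.sum_le_sum_of_subset_of_nonneg (Finset.filter_subset _ _) fun χ _ _ => hnn χ)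
  obtain ⟨m, hm⟩ := Int.eq_ofNat_of_zero_le (hnn χ₀)
  rw [hm] at hodd hle h2
  have hodd' : Odd m := by exact_mod_cast hodd
  have hle' : S.card ≤ 2 ^ blockDefect 2 b * m := by exact_mod_cast hle
  have h2' : S.card * m ≤ 2 ^ blockDefect 2 b * blockRank 2 b := by exact_mod_cast h2
  have hl := blockRank_pos Nat.prime_two (block_nonempty hb.1)
  generalize S.card = k at *
  generalize blockRank 2 b = l at *
  generalize 2 ^ blockDefect 2 b = Q at *
  have hs1 := Nat.sqrt_le' l
  have hs2 := Nat.lt_succ_sqrt' l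
  have part1 : Odd (Nat.sqrt l) → k ≤ Nat.sqrt l * Q := by
    generalize Nat.sqrt l = s at *
    intro hs
    by_cases hms : m ≤ s
    · exact hle'.trans (by rw [mul_comm]; exact Nat.mul_le_mul_right _ hms)
    · have hm2 : s + 2 ≤ m := by
        obtain ⟨a, rfl⟩ := hs
        obtain ⟨c, rfl⟩ := hodd'
        omega
      have h3 : l ≤ s * m := by
        have : s * (s + 2) ≤ s * m := Nat.mul_le_mul_left _ hm2
        simp only [Nat.succ_eq_add_one] at hs2
        nlinarith
      have h4 : k * m ≤ s * Q * m := h2'.trans (by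
        calc Q * l ≤ Q * (s * m) := Nat.mul_le_mul_left _ h3
          _ = s * Q * m := by ring)
      exact Nat.le_of_mul_le_mul_right h4 (by omega)
  refine ⟨part1, ?_, fun h3 => ?_⟩
  · generalize Nat.sqrt l = s at *
    intro hs
    by_cases hms : s + 1 ≤ m
    · calc (s + 1) * k ≤ m * k := Nat.mul_le_mul_right _ hms
        _ ≤ l * Q := by rw [mul_comm m, mul_comm l]; exact h2'
    · have hm2 : m + 1 ≤ s := by
        rw [Nat.not_odd_iff_even] at hs
        obtain ⟨a, rfl⟩ := hs
        obtain ⟨c, rfl⟩ := hodd'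
        omega
      have h3 : (s + 1) * m ≤ l := by nlinarith
      calc (s + 1) * k ≤ (s + 1) * (Q * m) := Nat.mul_le_mul_left _ hle'
        _ = (s + 1) * m * Q := by ring
        _ ≤ l * Q := Nat.mul_le_mul_right _ h3
  · have h4 : Nat.sqrt l = 1 := by
      symm
      rw [Nat.eq_sqrt]
      omega
    rw [h4] at part1
    simpa using part1 odd_one

end Cfsg.Agent.S4541
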