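import Cfsg.Statements.S4549
import Cfsg.Agent.H2.GalP
import Cfsg.Agent.H6.Princ2

set_option autoImplicit false
open Cfsg

namespace Cfsg.Agent.S4549

open Cfsg.Agent.H4

/-- Let G be a finite group and M a maximal ideal of the algebraic integers containing 2. Let k be a natural number with g ^ k = g ^ 3 for every 2-element g and g ^ k = g for every element g of odd order (such k exist); an irreducible character χ is unchanged by g ↦ g ^ k exactly when it is fixed by the field automorphism that cubes the 2-power roots of unity and fixes the roots of unity of odd order. Then G has a normal 2-complement if and only if every member χ of the principal 2-block of odd degree with χ (g ^ k) = χ g for all g has degree one. -/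
theorem result {G : Type*} [Group G] [Finite G] (M : Ideal Cfsg.AlgInt) (hM : Cfsg.IsPModular 2 M) (k : ℕ) (hk₁ : ∀ g : G, (∃ j : ℕ, orderOf g = 2 ^ j) → g ^ k = g ^ 3) (hk₂ : ∀ g : G, Odd (orderOf g) → g ^ k = g) : Cfsg.HasNormalPComplement 2 G ↔ ∀ χ ∈ Cfsg.principalBlock M G, Odd (Cfsg.charDegree (χ : G → ℂ)) → (∀ g : G, (χ : G → ℂ) (g ^ k) = (χ : G → ℂ) g) → Cfsg.charDegree (χ : G → ℂ) = 1 := by
  classical
  haveI := hM.2.1
  haveI := Fintype.ofFinite G
  constructor
  · intro h χ hχ hodd _
    have hN := (H3.hasNormalPComplement_iff_not_dvd).1 h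
    have hk := (H6.mem_principal_iff_of_complement hM hN H3.exists_index_pResidual).1 hχ
    have hnd : ¬ 2 ∣ charDegree (χ : G → ℂ) := by rwa [← even_iff_two_dvd, Nat.not_even_iff_odd]
    have e : H4.deflate (pResidual 2 G) (χ : G → ℂ) 1 = (χ : G → ℂ) 1 := H4.deflate_mk hk 1
    have := H8.charDegree_eq_one_of_isPGroup H3.isPGroup_quotient_pResidual
      (⟨_, χ.2.deflate hk⟩ : IrrCharacter (G ⧸ pResidual 2 G))
      (by simpa only [charDegree, e] using hnd)
    rw [H8.irr_charDegree_eq_one_iff, ← e]
    exact this
  · intro h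
    rw [H3.hasNormalPComplement_iff_not_dvd]
    intro hev
    obtain ⟨χ, h1, h2, h3, h4⟩ := H2GalP.exists_chi M hM hev k hk₁ hk₂
    exact h4 (h χ h1 h2 h3)

end Cfsg.Agent.S4549
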