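import Cfsg.Statements.S4552
import Cfsg.Agent.H6.Fr8
-- import your own Cfsg.Agent.* helpers here

set_option autoImplicit false
open Cfsg

namespace Cfsg.Agent.S4552

open Cfsg.Agent.H4 Cfsg.Agent.H6

open Cfsg.Agent.H7
attribute [local instance] H8.subFintype


/-- Let B be a 2-block of the finite group G (relative to a maximal ideal M of the algebraic integers containing 2) whose defect group D is the direct product of two cyclic groups of the same order 2 ^ m, m ≥ 2. Then either B has 2-regular rank one and exactly 4 ^ m irreducible characters, or B has 2-regular rank three and exactly (4 ^ m + 8) / 3 irreducible characters. -/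
theorem result {G : Type*} [Group G] [Finite G] (M : Ideal Cfsg.AlgInt) (hM : Cfsg.IsPModular 2 M) (B : Set (Cfsg.IrrCharacter G)) (hB : Cfsg.IsPBlock M B) (D : Subgroup G) (hD : Cfsg.IsDefectGroup 2 M B D) (m : ℕ) (hm : 2 ≤ m) (hiso : Nonempty (D ≃* Multiplicative (ZMod (2 ^ m) × ZMod (2 ^ m)))) : (Cfsg.blockRank 2 B = 1 ∧ Nat.card B = 4 ^ m) ∨ (Cfsg.blockRank 2 B = 3 ∧ 3 * Nat.card B = 4 ^ m + 8) := by
  classical
  haveI := hM.2.1; haveI := H6.charP_res hM; haveI := Fintype.ofFinite G
  obtain ⟨σ⟩ := hiso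
  obtain ⟨e, S⟩ := exists_maxP le_rfl Subgroup.le_normalizer (blk_eB hB)
    ((isDefectGroup_iff hM hB).1 hD)
  have hab : D ≤ Subgroup.centralizer (D : Set G) := fun x hx y hy =>
    congrArg Subtype.val (σ.injective (by rw [map_mul, map_mul, mul_comm]) :
      (⟨y, hy⟩ : D) * ⟨x, hx⟩ = ⟨x, hx⟩ * ⟨y, hy⟩)
  have h4 : Nat.card D = 4 ^ m := by
    rw [Nat.card_congr σ.toEquiv]
    simp [← mul_pow]
  have h5 : 16 ≤ 4 ^ m := Nat.pow_le_pow_right (n := 4) (by norm_num) hm
  obtain ⟨hf, h3, hr⟩ := two_four hab hB hM S (by rintro rfl; simp only [Subgroup.card_bot] at h4; omega)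
    fun s hs => by
      let t := Finset.univ.filter fun a : Multiplicative (ZMod (2 ^ m)) => a ^ 2 = 1
      have ht : t.card ≤ 2 := IsCyclic.card_pow_eq_one_le two_pos
      let τ := σ.trans (MulEquiv.prodMultiplicative _ _)
      refine (Finset.card_le_card_of_injOn (t := t ×ˢ t) τ (fun v hv => ?_) τ.injective.injOn).trans
        (by rw [Finset.card_product]; nlinarith)
      have := congrArg τ (hs v hv)
      rw [map_pow, map_one, Prod.ext_iff] at this
      simpa [t] using this
  have hk := (card_eq_iff_rank hM hab hf hB S).2 hr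
  have h6 : 4 ^ m % 3 = 1 := by simp [Nat.pow_mod]
  rcases h3 with h3 | h3 <;> rw [h3] at hr <;> rw [h3, h4] at hk
  · exact Or.inl ⟨hr, by omega⟩
  · exact Or.inr ⟨hr, by omega⟩

end Cfsg.Agent.S4552
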