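import Cfsg.Statements.S4563
import Cfsg.Agent.H6.FullRam2
import Cfsg.Agent.S0006
-- import your own Cfsg.Agent.* helpers here

set_option autoImplicit false
open Cfsg

namespace Cfsg.Agent.S4563

open Cfsg.Agent.H4 Cfsg.Agent.H5 Cfsg.Agent.H6


/-- Let χ be an irreducible character of the finite group H that is fully ramified over the normal subgroup Z: the restriction of χ to Z is e times an irreducible character of Z with e ^ 2 equal to the index of Z. If K is a proper normal subgroup of H containing Z and χ is induced from a character of K, then H/K is solvable; in particular, if K is solvable then so is H. -/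
theorem result {H : Type*} [Group H] [Fintype H] (Z : Subgroup H) [Z.Normal] (χ : Cfsg.IrrCharacter H) (hfr : ∃ (θ : Cfsg.IrrCharacter ↥Z) (e : ℕ), e ^ 2 = Z.index ∧ ∀ z : ↥Z, (χ : H → ℂ) z = (e : ℂ) * (θ : ↥Z → ℂ) z) (K : Subgroup H) [K.Normal] [Fintype K] (hZK : Z ≤ K) (hK : K ≠ ⊤) (φ : ↥K → ℂ) (hφ : Cfsg.IsCharacter ↥K φ) (hind : Cfsg.indFun K φ = (χ : H → ℂ)) : Group.IsSolvable (H ⧸ K) ∧ (Group.IsSolvable ↥K → Group.IsSolvable H) := by
  classical
  obtain ⟨θ, e, he, hres⟩ := hfr
  haveI := Fintype.ofFinite Z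
  have h : FR (NEmb.ofNormal Z) χ.1 θ.1 e := ⟨χ.2, θ.2, hres, by rw [NEmb.ofNormal_range, he]⟩
  have hχ : IsIrrCharacter H (indFun K φ) := hind ▸ χ.2
  have hφ' := isIrr_of_indFun K hφ hχ
  have hT : (NEmb.ofNormal K).inertia φ = K := by
    apply le_antisymm
    · have := ((NEmb.ofNormal K).isIrr_indHom_iff hφ').1 (by rwa [NEmb.indHom_ofNormal])
      rwa [NEmb.ofNormal_range] at this
    · have := (NEmb.ofNormal K).range_le_inertia hφ.isClassFunction
      rwa [NEmb.ofNormal_range] at this
  have h1 : classInner (fun k : K => χ.1 k) φ ≠ 0 := by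
    rw [← inner_indFun_right K φ χ.2.isClassFunction, hind, χ.2.classInner_self]
    exact one_ne_zero
  have h2 := inner_comp_ne_zero (NEmb.ofLeNormal hZK).f (χ.2.isCharacter.restrict K) hφ h1
  have h3 : (fun x => χ.1 ((NEmb.ofLeNormal hZK).f x : K)) = (e : ℂ) • θ.1 := funext hres
  rw [h3, classInner_smul_left] at h2
  obtain ⟨b, hb, h4⟩ := h.exists_nat (NEmb.ofLeNormal hZK) K.subtype K.subtype_injective
    (fun _ => rfl) hφ' (by
      rw [Ne, classInner_eq_zero_symm]; exact right_ne_zero_of_mul h2)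
  have hs : Group.IsSolvable (H ⧸ K) := by
    refine S0006.result fun p hp => ?_
    haveI := Fact.mk hp
    obtain ⟨M, hKM, hM⟩ := h.exists_index hZK hφ' hb h4 p
    refine ⟨M.map (QuotientGroup.mk' K), ?_⟩
    rw [Subgroup.index_map_eq _ (QuotientGroup.mk'_surjective K) (by rwa [QuotientGroup.ker_mk']),
      hM, hT]
    rfl
  refine ⟨hs, fun hK => ?_⟩
  exact solvable_of_ker_le_range K.subtype (QuotientGroup.mk' K)
    (by rw [QuotientGroup.ker_mk', Subgroup.range_subtype])

end Cfsg.Agent.S4563
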