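import Cfsg.Statements.S4564
import Cfsg.Agent.H6.FullRam2
-- import your own Cfsg.Agent.* helpers here

set_option autoImplicit false
open Cfsg

namespace Cfsg.Agent.S4564

open Cfsg.Agent.H4 Cfsg.Agent.H5 Cfsg.Agent.H6 Cfsg.Agent.H1


/-- Let χ be an irreducible character of the finite group H that is fully ramified over the normal subgroup Z: the restriction of χ to Z is e times an irreducible character of Z with e ^ 2 equal to the index of Z. Let K be a normal subgroup of H containing Z and P a cyclic Sylow p-subgroup of H/K. Then P has a complement in H/K: a subgroup meeting P trivially whose product with P is the whole group. -/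
theorem result {H : Type*} [Group H] [Finite H] (Z : Subgroup H) [Z.Normal] (χ : Cfsg.IrrCharacter H) (hfr : ∃ (θ : Cfsg.IrrCharacter ↥Z) (e : ℕ), e ^ 2 = Z.index ∧ ∀ z : ↥Z, (χ : H → ℂ) z = (e : ℂ) * (θ : ↥Z → ℂ) z) (K : Subgroup H) [K.Normal] (hZK : Z ≤ K) (p : ℕ) [Fact p.Prime] (P : Sylow p (H ⧸ K)) (hcyc : IsCyclic P) : ∃ M : Subgroup (H ⧸ K), M.IsComplement' (P : Subgroup (H ⧸ K)) := by
  classical
  have hp : p.Prime := Fact.out
  obtain ⟨θ, e, he, hres⟩ := hfr
  haveI := Fintype.ofFinite H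
  have h : FR (NEmb.ofNormal Z) χ.1 θ.1 e := ⟨χ.2, θ.2, hres, by rw [NEmb.ofNormal_range, he]⟩
  obtain ⟨φ, b, hφ, hb, h1⟩ := h.exists_over (NEmb.ofLeNormal hZK) K.subtype K.subtype_injective
    (fun _ => rfl)
  obtain ⟨M, hKM, hM⟩ := h.exists_index hZK hφ hb h1 p
  set E := NEmb.ofNormal K
  set T := E.inertia φ
  have hNT : ∀ n, E.f n ∈ T := E.f_mem_inertia hφ.isClassFunction
  have hKT : K ≤ T := fun x hx => hNT ⟨x, hx⟩
  have hin := h.inner_ne (NEmb.ofLeNormal hZK) K.subtype K.subtype_injective (fun _ => rfl) hb h1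
  obtain ⟨ψ, hψ, h2, h3⟩ := E.exists_indFun_eq_of_inertia_le hφ T hNT le_rfl χ.2 hin
  have h3' : classInner (fun n => ψ ⟨E.f n, hNT n⟩) φ ≠ 0 := by rw [h3]; exact hin
  obtain ⟨f, hf, -, h4⟩ := (E.restrict T hNT).clifford_of_invariant_nat hψ hφ
    (fun g n => E.mem_inertia.1 g.2 n) h3'
  have hT : FR (E.restrict T hNT) ψ φ f := by
    refine ⟨hψ, hφ, h4, (E.restrict T hNT).sq_eq_index_of_unique hψ hφ h4 fun ψ' hψ' h5 => ?_⟩
    obtain ⟨h6, h7⟩ := E.isIrr_indFun_of_inertia_le hφ T hNT le_rfl hψ' h5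
    refine E.eq_of_indFun_eq_of_inertia_le hφ T hNT le_rfl hψ' hψ h5 h3' ?_
    rw [h2]
    refine h.uniq h6 ?_
    have h8 := inner_comp_ne_zero (NEmb.ofLeNormal hZK).f (h6.isCharacter.comp E.f)
      hφ.isCharacter (by rw [h7]; exact h5)
    have h9 : (fun x => φ ((NEmb.ofLeNormal hZK).f x)) = (b : ℂ) • θ.1 := funext h1
    rw [h9, classInner_smul_right] at h8
    exact right_ne_zero_of_mul h8
  obtain ⟨Q, hQ⟩ := exists_isSylowIn p T
  set R := K ⊔ Q
  have hRT : R ≤ T := sup_le hKT hQ.1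
  have hKR : K ≤ R := le_sup_left
  obtain ⟨a, ha⟩ : ∃ a, K.relIndex R = p ^ a := by
    rw [Subgroup.relIndex_sup_left]
    obtain ⟨k, hk⟩ := hQ.2.exists_card_eq
    obtain ⟨a, -, ha⟩ := (Nat.dvd_prime_pow hp).1 (hk ▸ Subgroup.relIndex_dvd_card K Q)
    exact ⟨a, ha⟩
  have hnd : ¬ p ∣ R.relIndex T := fun hd =>
    hQ.3 (hd.trans (Subgroup.relIndex_dvd_of_le_left T le_sup_right))
  obtain ⟨ρ, c, hρ⟩ := hT.sylow (NEmb.ofLeNormal hKR) (Subgroup.inclusion hRT)
    (Subgroup.inclusion_injective hRT) (fun _ => rfl) hp (by rw [NEmb.ofLeNormal_index, ha])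
    (by rw [Subgroup.inclusion_range]; exact hnd)
  have hc := hρ.eq_one_of_cyclic (by
    set g : R →* H ⧸ K := (QuotientGroup.mk' K).comp R.subtype
    have hk : (NEmb.ofLeNormal hKR).f.range = g.ker := by
      rw [NEmb.ofLeNormal_range]; ext x
      simp [g, Subgroup.mem_subgroupOf]
    have hr : IsPGroup p g.range := by
      have : g.range = Q.map (QuotientGroup.mk' K) := by
        rw [MonoidHom.range_comp, Subgroup.range_subtype, Subgroup.map_sup,
          (Subgroup.map_eq_bot_iff _).2 (by rw [QuotientGroup.ker_mk']), bot_sup_eq]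
      rw [this]; exact hQ.2.map _
    obtain ⟨P', hP'⟩ := hr.exists_le_sylow
    haveI : IsCyclic P' := isCyclic_of_surjective (P.equiv P') (P.equiv P').surjective
    haveI : IsCyclic g.range := Subgroup.isCyclic_of_le hP'
    exact isCyclic_of_surjective
      ((QuotientGroup.quotientMulEquivOfEq hk).trans (QuotientGroup.quotientKerEquivRange g)).symm
      (MulEquiv.surjective _))
  have h5 := hρ.sq
  rw [hc, NEmb.ofLeNormal_index, one_pow] at h5
  have h6 : ¬ p ∣ K.relIndex T := by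
    rwa [← Subgroup.relIndex_mul_relIndex K R T hKR hRT, ← h5, one_mul]
  have h7 : T.index.factorization p = (Nat.card (H ⧸ K)).factorization p := by
    have h8 : Nat.card (H ⧸ K) = K.relIndex T * T.index := (Subgroup.relIndex_mul_index hKT).symm
    rw [h8, Nat.factorization_mul (a := K.relIndex T) (Subgroup.index_ne_zero_of_finite)
      Subgroup.index_ne_zero_of_finite, Finsupp.add_apply,
      Nat.factorization_eq_zero_of_not_dvd h6, zero_add]
  have h8 : (M.map (QuotientGroup.mk' K)).index = Nat.card P := by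
    rw [Subgroup.index_map_eq _ (QuotientGroup.mk'_surjective K) (by rwa [QuotientGroup.ker_mk']),
      hM, h7, P.card_eq_multiplicity]
  refine ⟨M.map (QuotientGroup.mk' K), ?_⟩
  have h9 := (M.map (QuotientGroup.mk' K)).card_mul_index
  rw [h8] at h9
  refine Subgroup.isComplement'_of_coprime h9 ?_
  have h10 := (P : Subgroup (H ⧸ K)).card_mul_index
  rw [← h9, mul_comm] at h10
  rw [← Nat.eq_of_mul_eq_mul_right Nat.card_pos h10]
  exact P.card_coprime_index.symm

end Cfsg.Agent.S4564
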