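import Cfsg.Statements.S4565
import Cfsg.Agent.H6.FullRam
-- import your own Cfsg.Agent.* helpers here

set_option autoImplicit false
open Cfsg

namespace Cfsg.Agent.S4565

open Cfsg.Agent.H4 Cfsg.Agent.H5 Cfsg.Agent.H6 Cfsg.Agent.H1


/-- Let χ be an irreducible character of the finite group H that is fully ramified over the normal subgroup Z: the restriction of χ to Z is e times an irreducible character of Z with e ^ 2 equal to the index of Z. If Z ≠ H, then H/Z has no cyclic subgroup that is its own centralizer. -/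
theorem result {H : Type*} [Group H] [Finite H] (Z : Subgroup H) [Z.Normal] (χ : Cfsg.IrrCharacter H) (hfr : ∃ (θ : Cfsg.IrrCharacter ↥Z) (e : ℕ), e ^ 2 = Z.index ∧ ∀ z : ↥Z, (χ : H → ℂ) z = (e : ℂ) * (θ : ↥Z → ℂ) z) (hZ : Z ≠ ⊤) (C : Subgroup (H ⧸ Z)) (hC : IsCyclic C) : Subgroup.centralizer (C : Set (H ⧸ Z)) ≠ C := by
  classical
  obtain ⟨θ, e, he, hres⟩ := hfr
  haveI := Fintype.ofFinite H
  have h : FR (NEmb.ofNormal Z) χ.1 θ.1 e := ⟨χ.2, θ.2, hres, by rw [NEmb.ofNormal_range, he]⟩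
  intro hCC
  obtain ⟨c, hc⟩ := (Subgroup.isCyclic_iff_exists_zpowers_eq_top C).1 hC
  obtain ⟨u, rfl⟩ := QuotientGroup.mk'_surjective Z c
  set U := C.comap (QuotientGroup.mk' Z)
  have hZU : Z ≤ U := by
    intro z hz
    simp [U, (QuotientGroup.eq_one_iff z).2 hz]
  have huU : u ∈ U := by simp [U, ← hc]
  set s : U := ⟨u, huU⟩
  set E := NEmb.ofLeNormal hZU
  have huZ : u ∉ Z := by
    intro hu
    apply hZ
    have h1 : C = ⊥ := by
      rw [← hc, Subgroup.zpowers_eq_bot]; exact (QuotientGroup.eq_one_iff u).2 hu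
    rw [eq_top_iff]
    intro x _
    have h2 : QuotientGroup.mk' Z x ∈ C := by
      rw [← hCC, h1]; simp [Subgroup.mem_centralizer_iff]
    rw [h1, Subgroup.mem_bot] at h2
    exact (QuotientGroup.eq_one_iff x).1 h2
  have htop : ∀ l : U, ∃ (b : Z) (n : ℕ), l = E.f b * s ^ n := by
    intro l
    have h1 : QuotientGroup.mk' Z l ∈ Subgroup.zpowers (QuotientGroup.mk' Z u) := hc ▸ l.2
    obtain ⟨n, hn⟩ := (mem_powers_iff_mem_zpowers.2 h1)
    have h2 : (l : H) * (u ^ n)⁻¹ ∈ Z := by
      rw [← QuotientGroup.eq_one_iff]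
      simp only [QuotientGroup.mk'_apply] at hn
      simp [← hn]
    exact ⟨⟨_, h2⟩, n, Subtype.ext (by
      change (l : H) = l * (u ^ n)⁻¹ * ((s ^ n : U) : H); simp [s])⟩
  obtain ⟨η, hη, h1⟩ := H8.exists_ext_of_gen E htop θ.2
    (h.inv' E U.subtype U.subtype_injective (fun _ => rfl) s)
  set F : U → ℂ := H8.cosInd E s * η
  have hF : IsClassFunction U F := (H8.isClassFunction_cosInd E htop).mul hη.isClassFunction
  have h2 : indFun U F = 0 := by
    refine (indFun_isClassFunction U F).eq_zero_of_forall_irr fun ξ hξ => ?_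
    rw [inner_indFun_left U F hξ.isClassFunction, H8.inner_cosInd_mul]
    by_cases h3 : classInner (fun n => ξ ((NEmb.ofNormal Z).f n)) θ.1 = 0
    · rw [H8.cosIn_eq_zero E hη.isCharacter (hξ.isCharacter.restrict U), mul_zero]
      rw [funext h1, classInner_eq_zero_symm]; exact h3
    · have h4 := h.uniq hξ h3
      have h5 : (fun b : Z => ξ ((E.f b * s : U) : H)) = 0 := by
        funext b
        rw [h4]
        refine h.vanish _ ?_
        rw [NEmb.ofNormal_range]
        intro hb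
        exact huZ ((Z.mul_mem_cancel_left b.2).1 hb)
      unfold H8.cosIn
      rw [h5, classInner_zero_right, mul_zero]
  obtain ⟨n, hn⟩ := H8.exists_apply_coset_ne_zero E θ.2 hη.isCharacter h1 s
  have h3 := indFun_eq_of_TI U hF (E.f n * s) (by
    intro g hg hx
    by_contra h4
    apply hg
    have h5 := left_ne_zero_of_mul h4
    unfold H8.cosInd at h5
    have h6 : (⟨_, hx⟩ : U) * s⁻¹ ∈ E.f.range := by
      by_contra h7; exact h5 (if_neg h7)
    rw [NEmb.ofLeNormal_range, Subgroup.mem_subgroupOf, ← QuotientGroup.eq_one_iff] at h6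
    have h7 : (((n : H) : H ⧸ Z)) = 1 := (QuotientGroup.eq_one_iff _).2 n.2
    have h8 : (g : H ⧸ Z) * u * (g : H ⧸ Z)⁻¹ * (u : H ⧸ Z)⁻¹ = 1 := by
      have : ((g * (n * u) * g⁻¹ * u⁻¹ : H) : H ⧸ Z) = 1 := h6
      simpa [h7] using this
    change QuotientGroup.mk' Z g ∈ C
    rw [← hCC, ← hc, Subgroup.zpowers_eq_closure, Subgroup.centralizer_closure,
      Subgroup.mem_centralizer_singleton_iff]
    simp only [QuotientGroup.mk'_apply]
    rw [mul_inv_eq_one, mul_inv_eq_iff_eq_mul] at h8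
    exact h8)
  rw [h2] at h3
  apply hn
  have : F (E.f n * s) = η (E.f n * s) := by
    simp only [F, Pi.mul_apply, H8.cosInd_f_mul, one_mul]
  rw [← this, ← h3]; rfl

end Cfsg.Agent.S4565
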