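import Cfsg.Statements.S4566
import Mathlib
import Cfsg.Agent.H8.Glaub2

set_option autoImplicit false
open Cfsg

namespace Cfsg.Agent.S4566

open scoped ComplexConjugate commutatorElement Pointwise
-- OPENS
open Cfsg.Agent.H8
open Cfsg.Agent.H6
open Cfsg.Agent.H4 hiding exists_int_of_isIntegral_rat
open Cfsg.Agent.H5
open Cfsg.Agent.H3


/-- Let N be a central subgroup of the finite group G, ψ a faithful irreducible (hence degree-one) character of N, and χ an irreducible character of G whose restriction to N contains ψ. If g ∈ G and some x ∈ G has commutator x⁻¹ g⁻¹ x g in N but different from 1, then χ g = 0. -/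
theorem result {G : Type*} [Group G] [Fintype G] (N : Subgroup G) [Fintype N] (hN : N ≤ Subgroup.center G) (ψ : Cfsg.IrrCharacter ↥N) (hfaith : ∀ n : ↥N, (ψ : ↥N → ℂ) n = (ψ : ↥N → ℂ) 1 → n = 1) (χ : Cfsg.IrrCharacter G) (hover : Cfsg.classInner (fun n : ↥N => (χ : G → ℂ) n) (ψ : ↥N → ℂ) ≠ 0) (g x : G) (hcomm : x⁻¹ * g⁻¹ * x * g ∈ N) (hne : x⁻¹ * g⁻¹ * x * g ≠ 1) : (χ : G → ℂ) g = 0 := by
  haveI : N.Normal := ⟨fun n hn g => by rw [Subgroup.mem_center_iff.mp (hN hn) g, mul_inv_cancel_right]; exact hn⟩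
  obtain ⟨e, he0, -, he⟩ := (NEmb.ofNormal N).clifford_of_invariant_nat χ.2 ψ.2 (fun g n => by
    refine congrArg (ψ : N → ℂ) (Subtype.ext ?_)
    change g * n * g⁻¹ = n
    rw [Subgroup.mem_center_iff.mp (hN n.2) g, mul_inv_cancel_right]) hover
  have h1 := apply_mul_of_mem_charCenter (χ.2.center_le_charCenter (hN hcomm)) χ.2.apply_one_ne_zero g⁻¹
  have h2 : x⁻¹ * g⁻¹ * x * g * g⁻¹ = x⁻¹ * g⁻¹ * x := by group
  rw [h2, χ.2.isClassFunction.inv_conj] at h1
  have h3 : (χ : G → ℂ) (x⁻¹ * g⁻¹ * x * g) ≠ (χ : G → ℂ) 1 := by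
    intro h
    have e1 := he ⟨_, hcomm⟩
    have e2 := he 1
    simp only [NEmb.ofNormal_f, OneMemClass.coe_one] at e1 e2
    rw [h, e2] at e1
    have := hfaith _ (mul_left_cancel₀ (by exact_mod_cast he0.ne') e1).symm
    exact hne (congrArg Subtype.val this)
  have h4 : (χ : G → ℂ) g⁻¹ = 0 := by
    by_contra h
    apply h3
    have := mul_right_cancel₀ h ((one_mul _).trans h1)
    rw [eq_div_iff χ.2.apply_one_ne_zero, one_mul] at this
    exact this.symm
  rw [χ.2.isCharacter.apply_inv] at h4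
  simpa using h4

end Cfsg.Agent.S4566
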