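import Cfsg.Statements.S4567
import Mathlib
import Cfsg.Agent.H8.McK3

set_option autoImplicit false
open Cfsg

namespace Cfsg.Agent.S4567

open scoped ComplexConjugate commutatorElement Pointwise
-- OPENS H8
open Cfsg.Agent.H8
open Cfsg.Agent.H6 hiding blockCoeff_eq_zero blockCoeff_mem blockDefect_eq blockHeight_eq
  blockPart_add blockPart_eq_zero_of_regular blockPart_eq_zero_of_singular blockPart_irr_of_mem
  blockPart_irr_of_not_mem blockPart_isClassFunction blockPart_smul blockPart_sub blockPart_sum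
  blockPart_zero block_eq_blockOf block_eq_of_mem block_nonempty card_defectGroup
  centralChar_mem char_mem conj_char_mem deg_factorization_le exists_height_zero
  irrOne_mem_principal isPBlock_blockOf isPBlock_principal mem_blockOf_self orderOf_conj'
  sameBlock_refl sameBlock_symm sameBlock_trans weak_orth weak_orth'
open Cfsg.Agent.H4 hiding exists_int_of_isIntegral_rat
open Cfsg.Agent.H5
open Cfsg.Agent.H3 hiding mem_of_pow_mem_of_coprime


/-- Let N be a central subgroup of the finite group G and ψ a faithful irreducible (hence degree-one) character of N. Call a coset g N special when every x ∈ G whose commutator x⁻¹ g⁻¹ x g lies in N actually commutes with g (this depends only on the coset). Then the number of irreducible characters of G whose restriction to N contains ψ equals the number of conjugacy classes of G/N consisting of special cosets. -/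
theorem result {G : Type*} [Group G] [Fintype G] (N : Subgroup G) [N.Normal] [Fintype N] (hN : N ≤ Subgroup.center G) (ψ : Cfsg.IrrCharacter ↥N) (hfaith : ∀ n : ↥N, (ψ : ↥N → ℂ) n = (ψ : ↥N → ℂ) 1 → n = 1) : Nat.card {χ : Cfsg.IrrCharacter G // Cfsg.classInner (fun n : ↥N => (χ : G → ℂ) n) (ψ : ↥N → ℂ) ≠ 0} = Nat.card {C : ConjClasses (G ⧸ N) // ∃ g : G, ConjClasses.mk (g : G ⧸ N) = C ∧ ∀ x : G, x⁻¹ * g⁻¹ * x * g ∈ N → x * g = g * x} := by
  classical
  obtain ⟨ν, hν⟩ := ψ.2.isCharacter.exists_linear (H5.degree_eq_one_of_comm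
    (fun a b => Subtype.ext (Subgroup.mem_center_iff.1 (hN b.2) a)) ψ.2)
  have h1 : ∀ g m, ν ((H5.NEmb.ofNormal N).act g m) = ν m := fun g m => congrArg ν (Subtype.ext (by
    change g * m * g⁻¹ = m
    rw [Subgroup.mem_center_iff.1 (hN m.2) g, mul_inv_cancel_right]))
  have h2 : ∀ g, (∀ x : G, x⁻¹ * g⁻¹ * x * g ∈ N → x * g = g * x) ↔
      LGood (H5.NEmb.ofNormal N) ν g := fun g => by
    refine ⟨fun h δ m h2 => ?_, fun h x hx => ?_⟩
    · change m * g = _ at h2
      have h3 := h δ⁻¹ (by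
        rw [show δ⁻¹⁻¹ * g⁻¹ * δ⁻¹ * g = (δ * g * δ⁻¹)⁻¹ * g by group, ← h2, mul_inv_rev,
          Subgroup.mem_center_iff.1 (hN (inv_mem m.2)) g⁻¹, inv_mul_cancel_right]
        exact inv_mem m.2)
      rw [mul_assoc, ← h3, mul_inv_cancel_left, mul_eq_right] at h2
      rw [show m = 1 from Subtype.ext h2, map_one]
    · have h3 := h x⁻¹ ⟨_, hx⟩⁻¹ (by
        change (x⁻¹ * g⁻¹ * x * g)⁻¹ * g = _
        rw [← Subgroup.mem_center_iff.1 (hN (inv_mem hx)) g]; group)
      have h4 := congrArg Subtype.val (hfaith ⟨_, hx⟩⁻¹ (by rw [hν]; simp only [h3, map_one]))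
      rw [Subgroup.coe_inv, Subgroup.coe_one, inv_eq_one] at h4
      rw [← mul_one (g * x), ← h4]; group
  haveI := Fintype.ofFinite (G ⧸ N)
  haveI := Fintype.ofFinite (ConjClasses (G ⧸ N))
  have h3 := lin_count _ h1 (QuotientGroup.mk' N) (by simp [H5.NEmb.ofNormal_range])
    (QuotientGroup.mk'_surjective N) (fun a => ∃ g : G, ConjClasses.mk (g : G ⧸ N) =
      ConjClasses.mk a ∧ ∀ x : G, x⁻¹ * g⁻¹ * x * g ∈ N → x * g = g * x) fun γ => by
      refine ⟨fun ⟨g, h3, h4⟩ => ?_, fun h => ⟨γ, rfl, (h2 γ).2 h⟩⟩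
      obtain ⟨c, hc⟩ := isConj_iff.1 (ConjClasses.mk_eq_mk_iff_isConj.1 h3)
      obtain ⟨c, rfl⟩ := QuotientGroup.mk_surjective c
      have h5 : γ * (c * g * c⁻¹)⁻¹ ∈ N := by
        rw [← QuotientGroup.eq_one_iff, QuotientGroup.mk_mul, QuotientGroup.mk_inv,
          mul_inv_eq_one]
        exact hc.symm
      have h6 := (((h2 g).1 h4).conj _ h1 c).f_mul _ h1 ⟨_, h5⟩
      rwa [H5.NEmb.ofNormal_f, inv_mul_cancel_right] at h6
  have h4 := H4.sum_mul_card_centralizer (R := ℕ) fun C : ConjClasses (G ⧸ N) =>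
    if ∃ g : G, ConjClasses.mk (g : G ⧸ N) = C ∧ ∀ x : G, x⁻¹ * g⁻¹ * x * g ∈ N → x * g = g * x
      then 1 else 0
  rw [hν]
  refine Nat.eq_of_mul_eq_mul_right (Nat.card_pos (α := G ⧸ N)) (h3.trans ?_)
  rw [mul_comm, Nat.card_eq_fintype_card (α := {C // _}), Fintype.card_subtype, Finset.card_filter]
  refine Eq.trans (Finset.sum_congr rfl fun a _ => ?_) h4
  split_ifs <;> simp

end Cfsg.Agent.S4567
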