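import Cfsg.Statements.S4571
import Cfsg.Agent.H6.Princ3
-- import your own Cfsg.Agent.* helpers here

set_option autoImplicit false
open Cfsg

namespace Cfsg.Agent.S4571

open Cfsg.Agent.H4 Cfsg.Agent.H6


/-- Let Q be a normal p-subgroup of the finite group G with G = Q·C_G(Q), and M a maximal ideal of the algebraic integers containing p. Then the principal p-blocks of G and of G/Q have the same p-regular rank (the same number of irreducible Brauer characters). -/
theorem result {G : Type*} [Group G] [Finite G] (p : ℕ) [Fact p.Prime] (M : Ideal Cfsg.AlgInt) (hM : Cfsg.IsPModular p M) (Q : Subgroup G) [Q.Normal] (hQ : IsPGroup p Q) (hsup : Q ⊔ Subgroup.centralizer (Q : Set G) = ⊤) : Cfsg.blockRank p (Cfsg.principalBlock M G) = Cfsg.blockRank p (Cfsg.principalBlock M (G ⧸ Q)) := by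
  classical
  haveI := hM.2.1
  haveI := Fintype.ofFinite G
  haveI := Fintype.ofFinite (G ⧸ Q)
  have hp : p.Prime := Fact.out
  have hc := H7.mem_centralizer_of_sup hQ hsup
  refine blockRank_principal_eq_of_comp hM (QuotientGroup.mk' Q) (QuotientGroup.mk'_surjective Q)
    (fun x y hx hy h => ?_) (fun ψ h => ?_)
  · obtain ⟨c, hc'⟩ := isConj_iff.1 h
    obtain ⟨g, rfl⟩ := QuotientGroup.mk'_surjective Q c
    rw [← map_inv, ← map_mul, ← map_mul] at hc'
    have h1 : y * (g * x * g⁻¹)⁻¹ ∈ Q := by
      rw [← QuotientGroup.ker_mk' Q, MonoidHom.mem_ker, map_mul, map_inv, hc', mul_inv_cancel]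
    have hx' : ¬ p ∣ orderOf (g * x * g⁻¹) := by rwa [orderOf_conj']
    have := eq_one_of_pRegular_mul (exists_orderOf_eq_of_mem hp hQ h1) (hc _ hx' _ h1) hy hx'
      (by group)
    rw [mul_inv_eq_one.1 this]
    exact isConj_iff.2 ⟨g, rfl⟩
  · refine sameBlock_of_comp_pGroup hM (QuotientGroup.mk' Q) (QuotientGroup.mk'_surjective Q)
      (by rwa [QuotientGroup.ker_mk']) (by rwa [QuotientGroup.ker_mk']) isIrrCharacter_one ψ.2 h

end Cfsg.Agent.S4571
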