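import Cfsg.Statements.S4574
import Mathlib
import Cfsg.Agent.H8.Ord1

set_option autoImplicit false
open Cfsg

namespace Cfsg.Agent.S4574

open scoped ComplexConjugate commutatorElement Pointwise
-- OPENS
open Cfsg.Agent.H8
open Cfsg.Agent.H4
open Cfsg.Agent.H5
open Cfsg.Agent.H3


/-- Let χ be an irreducible character of the finite group G, of degree d, and let Z(χ) be the set of elements g with |χ g| = d (the centre of χ). Then χ vanishes on at least (d ^ 2 - 1) · |Z(χ)| elements of G, with equality when every value |χ g| is 0, 1 or d. -/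
theorem result {G : Type*} [Group G] [Fintype G] [DecidableEq G] (χ : G → ℂ) (hχ : Cfsg.IsIrrCharacter G χ) : (Cfsg.charDegree χ ^ 2 - 1) * (Finset.univ.filter (fun g : G => ‖χ g‖ = (Cfsg.charDegree χ : ℝ))).card ≤ (Finset.univ.filter (fun g : G => χ g = 0)).card ∧ ((∀ g : G, ‖χ g‖ = 0 ∨ ‖χ g‖ = 1 ∨ ‖χ g‖ = (Cfsg.charDegree χ : ℝ)) → (Cfsg.charDegree χ ^ 2 - 1) * (Finset.univ.filter (fun g : G => ‖χ g‖ = (Cfsg.charDegree χ : ℝ))).card = (Finset.univ.filter (fun g : G => χ g = 0)).card) := by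
  classical
  set d := Cfsg.charDegree χ with hd
  have hd0 : 0 < d := hχ.charDegree_pos
  set Z := Finset.univ.filter (fun g : G => ‖χ g‖ = (d : ℝ)) with hZ
  set O := Finset.univ.filter (fun g : G => χ g = 0) with hO
  set S := Finset.univ.filter (fun g : G => χ g ≠ 0 ∧ ‖χ g‖ ≠ (d : ℝ)) with hS
  have hn : ‖χ 1‖ = d := norm_apply_one hχ.isCharacter
  have hsplit : ∀ f : G → ℝ, ∑ g, f g = ∑ g ∈ Z, f g + ∑ g ∈ O, f g + ∑ g ∈ S, f g := by
    intro f
    simp only [hZ, hO, hS, Finset.sum_filter, ← Finset.sum_add_distrib]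
    refine Finset.sum_congr rfl fun g _ => ?_
    by_cases h1 : χ g = 0
    · have : ¬ ((0 : ℝ) = d) := by exact_mod_cast hd0.ne
      simp [h1, this]
    · by_cases h2 : ‖χ g‖ = d <;> simp [h1, h2]
  have h1 := hsplit fun _ => 1
  have h2 := hsplit fun g => ‖χ g‖ ^ 2
  have h3 : ∑ g, ‖χ g‖ ^ 2 = (Nat.card G : ℝ) := by
    have := classInner_self_re χ
    rw [hχ.classInner_self, Complex.one_re, eq_comm, inv_mul_eq_one₀ (by exact_mod_cast Nat.card_pos.ne')] at this
    exact this.symm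
  have h4 : ∑ g ∈ Z, ‖χ g‖ ^ 2 = Z.card * (d : ℝ) ^ 2 := by
    rw [Finset.sum_congr rfl fun g hg => by rw [(Finset.mem_filter.mp hg).2], Finset.sum_const, nsmul_eq_mul]
  have h5 : ∑ g ∈ O, ‖χ g‖ ^ 2 = 0 :=
    Finset.sum_eq_zero fun g hg => by rw [(Finset.mem_filter.mp hg).2]; simp
  simp only [Finset.sum_const, nsmul_eq_mul, mul_one, Finset.card_univ, Fintype.card_eq_nat_card] at h1
  have h6 : (S.card : ℝ) ≤ ∑ g ∈ S, ‖χ g‖ ^ 2 := by
    refine card_le_sum_normSq hχ.isGen S (fun g hg m hm => ?_) fun g hg => (Finset.mem_filter.mp hg).2.1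
    obtain ⟨-, g1, g2⟩ := Finset.mem_filter.mp hg
    have hm' : m.Coprime (orderOf g) := hm.coprime_dvd_right (orderOf_dvd_natCard g)
    refine Finset.mem_filter.mpr ⟨Finset.mem_univ _, fun h => g1 ((hχ.isGen.apply_pow_eq_zero_iff hm').mp h), fun h => g2 ?_⟩
    rw [← hn, ← hχ.isCharacter.mem_charCenter] at h ⊢
    exact mem_of_pow_mem_of_coprime h hm'.symm
  have hc : (((d ^ 2 - 1) * Z.card : ℕ) : ℝ) = ((d : ℝ) ^ 2 - 1) * Z.card := by
    rw [Nat.cast_mul, Nat.cast_sub (Nat.one_le_pow _ _ hd0)]; simp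
  constructor
  · have : (((d ^ 2 - 1) * Z.card : ℕ) : ℝ) ≤ O.card := by rw [hc]; linarith
    exact_mod_cast this
  · intro h
    have h7 : ∑ g ∈ S, ‖χ g‖ ^ 2 = S.card := by
      rw [Finset.sum_congr rfl (g := fun _ => (1 : ℝ)) fun g hg => ?_]
      · simp
      obtain ⟨-, g1, g2⟩ := Finset.mem_filter.mp hg
      rcases h g with h | h | h
      · exact absurd (norm_eq_zero.mp h) g1
      · rw [h]; simp
      · exact absurd h g2
    have : (((d ^ 2 - 1) * Z.card : ℕ) : ℝ) = O.card := by rw [hc]; linarith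
    exact_mod_cast this

end Cfsg.Agent.S4574
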