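import Cfsg.Statements.S4575
import Mathlib
import Cfsg.Agent.H8.Subsec3

set_option autoImplicit false
open Cfsg

namespace Cfsg.Agent.S4575

-- OPENS
open Cfsg.Agent.H8
open Cfsg.Agent.H6 hiding blockCoeff_eq_zero blockCoeff_mem blockDefect_eq blockHeight_eq
  blockPart_add blockPart_eq_zero_of_regular blockPart_eq_zero_of_singular blockPart_irr_of_mem
  blockPart_irr_of_not_mem blockPart_isClassFunction blockPart_smul blockPart_sub blockPart_sum
  blockPart_zero block_eq_blockOf block_eq_of_mem block_nonempty card_defectGroup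
  centralChar_mem char_mem conj_char_mem deg_factorization_le exists_height_zero
  irrOne_mem_principal isPBlock_blockOf isPBlock_principal isPGroup_zpowers mem_blockOf_self
  orderOf_conj' sameBlock_refl sameBlock_symm sameBlock_trans weak_orth weak_orth'
open Cfsg.Agent.H4 hiding exists_int_of_isIntegral_rat
open Cfsg.Agent.H5
open Cfsg.Agent.H3


/-- Let B be a 2-block of the finite group G (relative to a maximal ideal M of the algebraic integers containing 2) of defect d with defect group D. Let z be an element of D commuting with every element of D, and let b be a block of the centralizer of z with defect group D that induces B (a major subsection (z, b)). If the number of irreducible characters in B exceeds the 2-regular rank of b by at most three, then B contains at most 2 ^ d irreducible characters. -/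
theorem result {G : Type*} [Group G] [Finite G] (M : Ideal Cfsg.AlgInt) (hM : Cfsg.IsPModular 2 M) (B : Set (Cfsg.IrrCharacter G)) (hB : Cfsg.IsPBlock M B) (D : Subgroup G) (hD : Cfsg.IsDefectGroup 2 M B D) (z : G) (hzD : z ∈ D) (hzc : ∀ d ∈ D, d * z = z * d) (b : Set (Cfsg.IrrCharacter ↥(Subgroup.centralizer ({z} : Set G)))) (hb : Cfsg.IsInducedBlock M (Subgroup.centralizer ({z} : Set G)) b B) (hbD : Cfsg.IsDefectGroup 2 M b (D.subgroupOf (Subgroup.centralizer ({z} : Set G)))) (h : Nat.card B ≤ Cfsg.blockRank 2 b + 3) : Nat.card B ≤ 2 ^ Cfsg.blockDefect 2 B := by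
  classical
  have := hM.2.1
  have := Fintype.ofFinite G
  have := Fintype.ofFinite (Subgroup.centralizer ({z} : Set G))
  obtain ⟨hs, hd⟩ := major_data hM hB hD hzD hzc hb.1 hbD
  obtain ⟨t, hsum, hnn, h0, hmaj⟩ := hs.two_data hM hb
  obtain ⟨hpos, hz⟩ := hmaj hd
  by_cases hd0 : blockDefect 2 B = 0
  · rw [card_eq_one_of_defect_zero hM hB hd0]
    exact Nat.one_le_two_pow
  have hQ : (0 : ℤ) < 2 ^ blockDefect 2 B := by positivity
  have hev : Even ((2 : ℤ) ^ blockDefect 2 B) := Even.pow_of_ne_zero even_two hd0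
  have hk : (1 : ℤ) ≤ Nat.card B := by
    have := (block_nonempty hB).to_subtype
    exact_mod_cast Nat.card_pos
  zify
  by_cases hc : ∀ χ ∈ B, blockHeight 2 B (χ : G → ℂ) = 0 → 3 ≤ 2 ^ blockDefect 2 B - t χ
  · have h1 : ∀ χ ∈ bfin B, 3 ≤ 2 ^ blockDefect 2 B - t χ := by
      intro χ hχ
      rw [mem_bfin] at hχ
      by_cases hh : blockHeight 2 B (χ : G → ℂ) = 0
      · exact hc χ hχ hh
      · obtain ⟨a1, -, a3⟩ := hpos χ hχ hh
        have a4 := height_add_two_le hM hB hχ hh
        have a5 : (2 : ℤ) ^ 2 ∣ 2 ^ blockDefect 2 B - t χ :=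
          dvd_sub (pow_dvd_pow _ (by omega)) (dvd_trans (pow_dvd_pow _ (by omega)) a1)
        have := Int.le_of_dvd (sub_pos.mpr a3) a5
        omega
    have h2 := Finset.card_nsmul_le_sum _ _ _ h1
    rw [Finset.sum_sub_distrib, hsum, Finset.sum_const, card_bfin, hd, nsmul_eq_mul,
      nsmul_eq_mul] at h2
    have h3 : (Nat.card B : ℤ) ≤ blockRank 2 b + 3 := by exact_mod_cast h
    nlinarith
  · push Not at hc
    obtain ⟨χ₀, h₀, hh, hlt⟩ := hc
    have h2 := (hz χ₀ h₀ hh).2 hd0
    have h1 : 2 ^ blockDefect 2 B - t χ₀ = 1 := by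
      have h3 : 0 < 2 ^ blockDefect 2 B - t χ₀ := (mul_pos_iff_of_pos_left hQ).mp (by omega)
      obtain ⟨c, hc⟩ := (h0 χ₀ h₀ hh).1
      obtain ⟨e, he⟩ := hev
      omega
    rwa [h1, mul_one] at h2

end Cfsg.Agent.S4575
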