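import Cfsg.Statements.S4580
import Cfsg.Agent.H7.PCov
-- import your own Cfsg.Agent.* helpers here

set_option autoImplicit false
open Cfsg

namespace Cfsg.Agent.S4580

open MonoidAlgebra Cfsg.Agent.H3 Cfsg.Agent.H4 Cfsg.Agent.H7
open Cfsg.Agent.H6 (Res locRing redC redA eB fB intAlg classSum omega chiL)
open scoped Pointwise
set_option linter.style.haveILetI false


/-- Let N be a normal subgroup of the finite group G, M a maximal ideal of the algebraic integers containing 2, and θ a real-valued irreducible character of N of odd degree that extends to G (some irreducible character of G restricts to θ). Then θ has an extension to G lying in the principal 2-block of G. -/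
theorem result {G : Type*} [Group G] [Finite G] (N : Subgroup G) [N.Normal] (M : Ideal Cfsg.AlgInt) (hM : Cfsg.IsPModular 2 M) (θ : Cfsg.IrrCharacter N) (hreal : ∀ n : N, ((θ : N → ℂ) n).im = 0) (hodd : Odd (Cfsg.charDegree (θ : N → ℂ))) (hext : ∃ η : Cfsg.IrrCharacter G, ∀ n : N, (η : G → ℂ) n = (θ : N → ℂ) n) :
    ∃ η : Cfsg.IrrCharacter G, (∀ n : N, (η : G → ℂ) n = (θ : N → ℂ) n) ∧ η ∈ Cfsg.principalBlock M G := by
  haveI := hM.2.1
  haveI := Fintype.ofFinite G
  haveI := Fintype.ofFinite N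
  obtain ⟨η, hη⟩ := hext
  obtain ⟨lam, h1, h2⟩ := (H5.NEmb.ofNormal N).exists_linear_of_ext θ.2 η.2.isCharacter hη
    (irrConj η).2.isCharacter (fun n => by
      rw [irrConj_apply, H5.NEmb.ofNormal_f, hη, Complex.conj_eq_iff_im]
      exact hreal n)
  obtain ⟨a, m, hm, hG⟩ := Nat.exists_eq_two_pow_mul_odd (Nat.card_pos (α := G)).ne'
  obtain ⟨j, rfl⟩ := hm
  have h3 : ∀ n : N, (η : G → ℂ) n * ((lam ^ (j + 1)) n : ℂˣ) = (θ : N → ℂ) n := fun n => by
    have := h1 n
    rw [H5.NEmb.ofNormal_f] at this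
    rw [MonoidHom.pow_apply, this, one_pow, Units.val_one, mul_one, hη]
  refine ⟨⟨_, η.2.mul_linear (lam ^ (j + 1))⟩, h3, H8.mem_principal_of_real hM _ ?_ ?_⟩
  · intro g hg
    have h4 : orderOf g ∣ 2 * j + 1 := by
      refine Nat.Coprime.dvd_of_dvd_mul_left ?_ (hG ▸ orderOf_dvd_natCard g)
      exact (Nat.Coprime.pow_left _ ((Nat.prime_two.coprime_iff_not_dvd).2 hg)).symm
    have h5 : lam g ^ (2 * j + 1) = 1 := by
      rw [← map_pow, orderOf_dvd_iff_pow_eq_one.1 h4, map_one]
    have h6 : lam g * (lam ^ (j + 1)) g⁻¹ = (lam ^ (j + 1)) g := by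
      rw [map_inv, MonoidHom.pow_apply, mul_inv_eq_iff_eq_mul, ← pow_add,
        show j + 1 + (j + 1) = (2 * j + 1) + 1 by ring, pow_succ, h5, one_mul]
    have h7 := congrFun h2 g
    simp only [irrConj_apply, Pi.mul_apply] at h7
    simp only [Pi.mul_apply]
    rw [H8.irr_inv, h7, ← h6]
    push_cast
    ring
  · have h4 := h3 1
    rw [← H8.irr_coe_charDegree θ] at h4
    rw [H8.charDegree_eq_of_apply_one h4]
    exact hodd.not_two_dvd_nat

end Cfsg.Agent.S4580
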