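import Cfsg.Statements.S4582
import Cfsg.Agent.H3.Tate
-- import your own Cfsg.Agent.* helpers here

set_option autoImplicit false
open Cfsg

namespace Cfsg.Agent.S4582

open Cfsg.Agent.H3

theorem aux {G A : Type*} [Group G] [Finite G] [CommGroup A] (P N : Subgroup G) [N.Normal]
    (hsup : ∀ t, ∃ y ∈ P, ∃ n ∈ N, y * n = t) (φ : P →* A)
    (hq : ∀ q : P, (q : G) ∈ N → φ q ^ 2 = 1) (hN : ∀ ψ : G →* A, N ≤ ψ.ker) (x : P)
    (hx : (x : G) ^ 2 ∈ N ⊔ commutator G) : (φ x ^ 2) ^ P.index = 1 := by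
  classical
  set φ2 : P →* A := (powMonoidHom 2).comp φ
  have h1 := transfer_eq_pow_of_forall φ2 (x : G) (φ x ^ 2) (by
    intro k t ht
    obtain ⟨y, hy, n, hn, rfl⟩ := hsup t
    set v : P := (⟨y, hy⟩ : P)⁻¹ * x ^ k * ⟨y, hy⟩
    have h2 : (((⟨_, ht⟩ : P) * v⁻¹ : P) : G) ∈ N := by
      have := N.mul_mem (N.inv_mem hn) (Subgroup.Normal.conj_mem inferInstance n hn (v : G))
      convert this using 1
      simp only [v, Subgroup.coe_mul, Subgroup.coe_inv, Subgroup.coe_pow]; group
    have h3 := hq _ h2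
    rw [map_mul, mul_pow, map_inv, inv_pow, mul_inv_eq_one] at h3
    change φ _ ^ 2 = _
    rw [h3]
    simp only [v, map_mul, map_inv, map_pow, inv_mul_cancel_comm]
    rw [← pow_mul, ← pow_mul, mul_comm])
  have h2 : MonoidHom.transfer φ2 (x : G) = MonoidHom.transfer φ (x : G) ^ 2 := by
    haveI := Fintype.ofFinite (Quotient (MulAction.orbitRel (Subgroup.zpowers (x : G)) (G ⧸ P)))
    rw [MonoidHom.transfer_eq_prod_quotient_orbitRel_zpowers_quot,
      MonoidHom.transfer_eq_prod_quotient_orbitRel_zpowers_quot, ← Finset.prod_pow]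
    rfl
  rw [← h1, h2, ← map_pow]
  exact (sup_le (hN _) (Abelianization.commutator_subset_ker _)) hx


/-- Let N be a normal subgroup of the finite group G, P a Sylow 2-subgroup of G and Q = P ∩ N. Suppose that P/QP' and Q/Q' are elementary abelian (every square of an element of P lies in the subgroup generated by Q and the derived subgroup of P, and every square of an element of Q lies in the derived subgroup of Q), and that the commutator factor group N/N' has odd order. Then P/P' is elementary abelian. -/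
theorem result {G : Type*} [Group G] [Finite G] (N : Subgroup G) [N.Normal] (P : Sylow 2 G)
    (hP : ∀ x ∈ (P : Subgroup G), x ^ 2 ∈ ((P : Subgroup G) ⊓ N) ⊔ ⁅(P : Subgroup G), (P : Subgroup G)⁆)
    (hQ : ∀ x ∈ (P : Subgroup G) ⊓ N, x ^ 2 ∈ ⁅(P : Subgroup G) ⊓ N, (P : Subgroup G) ⊓ N⁆)
    (hodd : Odd (Nat.card (Abelianization N))) :
    ∀ x ∈ (P : Subgroup G), x ^ 2 ∈ ⁅(P : Subgroup G), (P : Subgroup G)⁆ := by
  intro x hx
  set G0 : Subgroup G := (P : Subgroup G) ⊔ N
  have hP0 : (P : Subgroup G) ≤ G0 := le_sup_left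
  have hN0 : N ≤ G0 := le_sup_right
  set φ : (P : Subgroup G).subgroupOf G0 →* Abelianization P :=
    Abelianization.of.comp (Subgroup.subgroupOfEquivOfLe hP0).toMonoidHom
  have key : ∀ y : P, Abelianization.of y ^ 2 = 1 ↔
      (y : G) ^ 2 ∈ ⁅(P : Subgroup G), (P : Subgroup G)⁆ := by
    intro y
    rw [← map_pow, ← MonoidHom.mem_ker, Abelianization.ker_of, ← Subgroup.map_subtype_commutator,
      ← Subgroup.coe_pow]
    exact (Subgroup.mem_map_iff_mem (Subgroup.subtype_injective _)).symm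
  have h2 : IsPGroup 2 (Abelianization P) :=
    P.isPGroup'.of_surjective Abelianization.of (QuotientGroup.mk'_surjective _)
  have h := aux ((P : Subgroup G).subgroupOf G0) (N.subgroupOf G0) (by
      intro t
      obtain ⟨y, hy, n, hn, h⟩ := Subgroup.mem_sup_of_normal_right.1 t.2
      exact ⟨⟨y, hP0 hy⟩, hy, ⟨n, hN0 hn⟩, hn, Subtype.ext h⟩) φ (by
      intro q hq
      exact (key _).2 (Subgroup.commutator_mono inf_le_left inf_le_left (hQ _ ⟨q.2, hq⟩))) (by
      intro ψ n hn
      set ψ' : N →* Abelianization P := ψ.comp (Subgroup.inclusion hN0)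
      have h3 : ψ n = Abelianization.lift ψ' (Abelianization.of ⟨n, hn⟩) := rfl
      rw [MonoidHom.mem_ker, ← orderOf_eq_one_iff]
      obtain ⟨k, hk⟩ := h2.exists_orderOf_eq_pow (ψ n)
      have h4 : orderOf (ψ n) ∣ Nat.card (Abelianization N) := by
        rw [h3]; exact (orderOf_map_dvd _ _).trans (orderOf_dvd_natCard _)
      refine Nat.Coprime.eq_one_of_dvd ?_ h4
      rw [hk]; exact (hodd.coprime_two_left).pow_left k) ⟨⟨x, hP0 hx⟩, hx⟩ (by
      have h3 := hP x hx
      have h4 : ((P : Subgroup G) ⊓ N) ⊔ ⁅(P : Subgroup G), (P : Subgroup G)⁆ ≤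
          (N.subgroupOf G0 ⊔ commutator G0).map G0.subtype := by
        rw [Subgroup.map_sup, Subgroup.map_subtype_commutator, Subgroup.subgroupOf_map_subtype]
        exact sup_le_sup (le_inf inf_le_right (inf_le_left.trans hP0))
          (Subgroup.commutator_mono hP0 hP0)
      exact (Subgroup.mem_map_iff_mem (Subgroup.subtype_injective _)).1 (h4 h3))
  refine (key ⟨x, hx⟩).1 ?_
  have h3 : ¬ 2 ∣ ((P : Subgroup G).subgroupOf G0).index := fun hd =>
    P.not_dvd_index (hd.trans (Subgroup.relIndex_dvd_index_of_le hP0))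
  rw [← orderOf_eq_one_iff]
  obtain ⟨k, hk⟩ := h2.exists_orderOf_eq_pow (Abelianization.of (⟨x, hx⟩ : P) ^ 2)
  refine Nat.Coprime.eq_one_of_dvd ?_ (orderOf_dvd_of_pow_eq_one h)
  change Nat.Coprime (orderOf (Abelianization.of (⟨x, hx⟩ : P) ^ 2)) _
  rw [hk]; exact ((Nat.Prime.coprime_iff_not_dvd Nat.prime_two).2 h3).pow_left k

end Cfsg.Agent.S4582
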