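import Cfsg.Statements.S4583
import Cfsg.Agent.H7.PCov
-- import your own Cfsg.Agent.* helpers here

set_option autoImplicit false
open Cfsg

namespace Cfsg.Agent.S4583

open MonoidAlgebra Cfsg.Agent.H3 Cfsg.Agent.H4 Cfsg.Agent.H7
open Cfsg.Agent.H6 (Res locRing redC redA eB fB intAlg classSum omega chiL)
open scoped Pointwise
set_option linter.style.haveILetI false


/-- Let N be a normal subgroup of the finite group G, p a prime, M a maximal ideal of the algebraic integers containing p, and P a Sylow p-subgroup of G. Let θ be an irreducible character of N of degree prime to p lying in the principal p-block of N, and suppose θ extends to the subgroup NP (some irreducible character of NP restricts to θ). Then some irreducible character χ of G of degree prime to p in the principal p-block of G lies over θ (θ is a constituent of the restriction of χ to N). -/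
theorem result {G : Type*} [Group G] [Finite G] (N : Subgroup G) [N.Normal] (p : ℕ) [Fact p.Prime] (M : Ideal Cfsg.AlgInt) (hM : Cfsg.IsPModular p M) (P : Sylow p G)
    (θ : Cfsg.IrrCharacter N) (hθ : θ ∈ Cfsg.principalBlock M N) (hdeg : ¬ p ∣ Cfsg.charDegree (θ : N → ℂ))
    (hext : ∃ η : Cfsg.IrrCharacter ↥(N ⊔ (P : Subgroup G)), ∀ n : N, (η : ↥(N ⊔ (P : Subgroup G)) → ℂ) (Subgroup.inclusion le_sup_left n) = (θ : N → ℂ) n) :
    ∃ χ : Cfsg.IrrCharacter G, χ ∈ Cfsg.principalBlock M G ∧ ¬ p ∣ Cfsg.charDegree (χ : G → ℂ) ∧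
      haveI := Fintype.ofFinite N; Cfsg.classInner (fun n : N => (χ : G → ℂ) n) (θ : N → ℂ) ≠ 0 := by
  classical
  haveI := hM.2.1
  haveI := Fintype.ofFinite G
  haveI := Fintype.ofFinite N
  obtain ⟨H, hPH, hNH, ⟨n, hn⟩, η, hη⟩ : ∃ H : Subgroup G, (P : Subgroup G) ≤ H ∧ ∃ hNH : N ≤ H,
      (∃ n, N.relIndex H = p ^ n) ∧ ∃ η : IrrCharacter H,
        ∀ n : N, η.1 (Subgroup.inclusion hNH n) = θ.1 n :=
    ⟨_, le_sup_right, le_sup_left,
      exists_relIndex_sup_eq_pow P.isPGroup' Subgroup.le_normalizer_of_normal, hext⟩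
  haveI := Fintype.ofFinite H
  have h0 : classInner (fun n : N => η.1 (Subgroup.inclusion hNH n)) θ ≠ 0 := by
    rw [funext hη, θ.2.classInner_self]
    exact one_ne_zero
  have h1 := mem_principal_of_over_of_relIndex hM hNH Subgroup.le_normalizer_of_normal hn hθ h0
  have h2 : charDegree η.1 = charDegree θ.1 := by
    apply H8.charDegree_eq_of_apply_one
    rw [H8.irr_coe_charDegree, ← hη, map_one]
  have h3 := H8.not_dvd_tm_one hM h1 (h2 ▸ hdeg)
  have hc := H5.isCharacter_indFun H η.2.isCharacter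
  have h4 : H8.tm p (fun _ : G => (1 : ℂ)) (indFun H η.1) =
      H8.tm p (fun _ : H => (1 : ℂ)) η.1 := by
    have h5 : (Nat.card G).factorization p = (Nat.card H).factorization p := by
      rw [← H.card_mul_index, Nat.factorization_mul Nat.card_pos.ne'
        Subgroup.index_ne_zero_of_finite, Finsupp.add_apply,
        Nat.factorization_eq_zero_of_not_dvd (n := H.index), add_zero]
      exact fun h => P.not_dvd_index (h.trans (Subgroup.index_dvd_of_le hPH))
    apply Int.cast_injective (α := ℂ)
    rw [H8.tm_cast' isGen_one hc.isGen, H8.tm_cast' isGen_one η.2.isGen, h5,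
      H5.inner_indFun_right _ _ (H8.pReg_isClassFunction (isClassFunction_const 1)),
      H8.pReg_restrict]
  choose a ha using fun χ : IrrCharacter G => hc.classInner_nat χ.2.isCharacter
  rw [← h4, H8.tm_eq_sum_right isGen_one hc.isGen (fun χ => a χ)
    (fun χ => by rw [ha]; simp)] at h3
  obtain ⟨χ, -, hχ⟩ : ∃ χ ∈ (Finset.univ : Finset (IrrCharacter G)),
      ¬ (p : ℤ) ∣ a χ * H8.tm p (fun _ : G => (1 : ℂ)) χ.1 := by
    by_contra hc
    push Not at hc
    exact h3 (Finset.dvd_sum hc)
  have h5 : ¬ (p : ℤ) ∣ H8.tm p (fun _ : G => (1 : ℂ)) χ.1 := fun h => hχ (h.mul_left _)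
  refine ⟨χ, (H8.mem_principal_iff_tm hM χ).2 fun h => h5 (h ▸ dvd_zero _),
    H8.not_dvd_degree_of_not_dvd_tm isGen_one h5, ?_⟩
  have h6 : classInner (fun h : H => χ.1 h) η.1 ≠ 0 := by
    rw [← H5.inner_indFun_right _ _ χ.2.isClassFunction, Ne, classInner_eq_zero_symm, ha]
    intro h
    apply hχ
    rw [Nat.cast_eq_zero.1 h]
    simp
  have h7 := H5.inner_comp_ne_zero_of_constituent (Subgroup.inclusion hNH)
    (χ.2.isCharacter.restrict H) η.2 h6 θ.2.isCharacter h0
  rwa [classInner_congr_fintype] at h7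

end Cfsg.Agent.S4583
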