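import Cfsg.Statements.S4584
import Cfsg.Agent.H6.P4
-- import your own Cfsg.Agent.* helpers here

set_option autoImplicit false
open Cfsg

namespace Cfsg.Agent.S4584

open Cfsg.Agent.H6 Cfsg.Agent.H3


/-- Let p be a prime and P a group of order p^4. Then the derived subgroup P' has order p if and only if the centre Z(P) has index p^2 in P. -/
theorem result {P : Type*} [Group P] [Finite P] (p : ℕ) [Fact p.Prime] (hP : Nat.card P = p ^ 4) :
    Nat.card (commutator P) = p ↔ (Subgroup.center P).index = p ^ 2 := by
  have hp : p.Prime := Fact.out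
  have hp1 : 1 < p := hp.one_lt
  have hZ := (Subgroup.center P).card_mul_index
  rw [hP] at hZ
  by_cases h : IsMulCommutative P
  · have h1 : commutator P = ⊥ := by
      rw [eq_bot_iff, commutator_def, Subgroup.commutator_le]
      intro x _ y _
      rw [Subgroup.mem_bot, commutatorElement_eq_one_iff_mul_comm]
      exact h.is_comm.comm x y
    have h2 : Subgroup.center P = ⊤ := by
      rw [eq_top_iff]; intro x _; rw [Subgroup.mem_center_iff]; intro y; exact h.is_comm.comm y x
    rw [h1, h2, Subgroup.card_bot, Subgroup.index_top]
    constructor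
    · intro h; omega
    · intro h; have := Nat.one_lt_pow two_ne_zero hp1; omega
  · have h1 := p4_card_commutator_mul hP h
    constructor
    · intro h2
      rw [h2] at h1
      have h3 : Nat.card (Subgroup.center P) = p ^ 2 :=
        Nat.eq_of_mul_eq_mul_left hp.pos (by rw [h1]; ring)
      rw [h3] at hZ
      exact Nat.eq_of_mul_eq_mul_left (pow_pos hp.pos 2) (by rw [hZ]; ring)
    · intro h2
      rw [h2] at hZ
      have h3 : Nat.card (Subgroup.center P) = p ^ 2 :=
        Nat.eq_of_mul_eq_mul_right (pow_pos hp.pos 2) (by rw [hZ]; ring)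
      rw [h3] at h1
      exact Nat.eq_of_mul_eq_mul_right (pow_pos hp.pos 2) (by rw [h1]; ring)

end Cfsg.Agent.S4584
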