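import Cfsg.Statements.S4585
import Cfsg.Agent.H6.P4
-- import your own Cfsg.Agent.* helpers here

set_option autoImplicit false
open Cfsg

namespace Cfsg.Agent.S4585

open Cfsg.Agent.H6 Cfsg.Agent.H3 Cfsg.Agent.H9
open scoped commutatorElement


/-- Let p be a prime and P a group of order p^4. Then P' has index p^2 in P if and only if P has maximal nilpotency class, that is, nilpotency class exactly 3. -/
theorem result {P : Type*} [Group P] [Finite P] (p : ℕ) [Fact p.Prime] (hP : Nat.card P = p ^ 4) :
    (commutator P).index = p ^ 2 ↔ Group.nilpotencyClass P = 3 := by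
  have hp : p.Prime := Fact.out
  have hp1 : 1 < p := hp.one_lt
  have hG : IsPGroup p P := IsPGroup.of_card hP
  haveI := hG.isNilpotent
  constructor
  · intro h
    have hC := (commutator P).card_mul_index
    rw [h, hP] at hC
    have h1 : Nat.card (commutator P) = p ^ 2 :=
      Nat.eq_of_mul_eq_mul_right (pow_pos hp.pos 2) (by rw [hC]; ring)
    have hne : ¬ IsMulCommutative P := by
      intro hc
      have := Subgroup.lowerCentralSeries_one_eq_bot_iff.2 hc
      rw [Subgroup.top_lowerCentralSeries_one] at this
      rw [this, Subgroup.card_bot] at h1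
      have := Nat.one_lt_pow two_ne_zero hp1; omega
    have h2 := p4_card_commutator_mul hP hne
    rw [h1] at h2
    have h3 : Nat.card (Subgroup.center P) = p :=
      Nat.eq_of_mul_eq_mul_left (pow_pos hp.pos 2) (by rw [h2]; ring)
    apply le_antisymm
    · rw [← Subgroup.lowerCentralSeries_eq_bot_iff_nilpotencyClass_le]
      obtain ⟨K, hKn, hKl, hK⟩ := exists_normal_le_card_eq hG (commutator P) 1
        (by rw [h1]; exact Nat.pow_le_pow_right hp.pos (by norm_num))
      rw [pow_one] at hK
      have hlt : ¬ commutator P ≤ K := by
        intro hle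
        have := Subgroup.card_le_of_le hle
        rw [h1, hK] at this
        nlinarith
      obtain ⟨x, hx, hxK, hxp, hxc⟩ := exists_central_mod hG hlt
      have h4 : K ⊔ Subgroup.zpowers x = commutator P := by
        apply Subgroup.eq_of_le_of_card_ge (sup_le hKl (Subgroup.zpowers_le.2 hx))
        rw [card_sup_zpowers (p := p) (by rw [Subgroup.normalizer_eq_top]; trivial) hxK hxp, h1, hK]
        exact (pow_two p).le
      have h5 : K ≤ Subgroup.center P := by
        have h6 := inf_center_ne_bot inferInstance K (by
          rintro rfl; rw [Subgroup.card_bot] at hK; omega)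
        have h7 : Nat.card (K ⊓ Subgroup.center P : Subgroup P) ∣ p :=
          hK ▸ Subgroup.card_dvd_of_le inf_le_left
        rcases (Nat.dvd_prime hp).1 h7 with h8 | h8
        · exact absurd (Subgroup.card_eq_one.1 h8) h6
        · have : K ⊓ Subgroup.center P = K :=
            Subgroup.eq_of_le_of_card_ge inf_le_left (by rw [h8, hK])
          exact this ▸ inf_le_right
      have h6 : (⊤ : Subgroup P).lowerCentralSeries 2 ≤ K := by
        rw [Subgroup.lowerCentralSeries_succ, Subgroup.top_lowerCentralSeries_one,
          Subgroup.commutator_comm, Subgroup.commutator_le]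
        intro g _ y hy
        exact commutator_mem_of_mem_sup_zpowers hxc g (h4 ▸ hy)
      rw [eq_bot_iff, Subgroup.lowerCentralSeries_succ, Subgroup.commutator_le]
      intro y hy g _
      rw [Subgroup.mem_bot, commutatorElement_eq_one_iff_mul_comm]
      exact (Subgroup.mem_center_iff.1 (h5 (h6 hy)) g).symm
    · by_contra hlt
      have h4 : (⊤ : Subgroup P).lowerCentralSeries 2 = ⊥ :=
        Subgroup.lowerCentralSeries_eq_bot_iff_nilpotencyClass_le.2 (by omega)
      rw [Subgroup.lowerCentralSeries_succ, Subgroup.top_lowerCentralSeries_one] at h4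
      have h5 : commutator P ≤ Subgroup.center P := by
        intro y hy
        rw [Subgroup.mem_center_iff]
        intro g
        have : ⁅y, g⁆ ∈ (⊥ : Subgroup P) := h4 ▸ Subgroup.commutator_mem_commutator hy (Subgroup.mem_top g)
        rw [Subgroup.mem_bot, commutatorElement_eq_one_iff_mul_comm] at this
        exact this.symm
      have := Subgroup.card_le_of_le h5
      rw [h1, h3] at this
      nlinarith
  · intro h
    have h1 := (MaxClass.of_class (n := 4) hP h (by norm_num)).index_lcs (i := 1) le_rfl (by norm_num)
    rwa [Subgroup.top_lowerCentralSeries_one] at h1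

end Cfsg.Agent.S4585
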