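import Cfsg.Statements.S4586
import Cfsg.Agent.H26.AbCyc
-- import your own Cfsg.Agent.* helpers here

set_option autoImplicit false
open Cfsg

namespace Cfsg.Agent.S4586

open Cfsg.Agent.H26
open scoped commutatorElement

theorem key {P : Type*} [Group P] [Finite P] (p : ℕ) [hp : Fact p.Prime] (N : Subgroup P) [N.Normal]
    (hN : N.index = p) (x : P) (hx : x ∉ N) :
    Nat.card N * Nat.card (commutator N) = Nat.card (commutator P) *
      Nat.card {n : N // x * n * x⁻¹ * (n : P)⁻¹ ∈ (commutator N).map N.subtype} := by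
  set M := (commutator N).map N.subtype with hM
  haveI : M.Normal := inferInstance
  let π := QuotientGroup.mk' M
  have hπ : Function.Surjective π := QuotientGroup.mk'_surjective M
  let A : Subgroup (P ⧸ M) := N.map π
  haveI : A.Normal := Subgroup.Normal.map inferInstance π hπ
  have hc : ∀ a ∈ A, ∀ b ∈ A, a * b = b * a := by
    rintro _ ⟨a, ha, rfl⟩ _ ⟨b, hb, rfl⟩
    rw [← commutatorElement_eq_one_iff_mul_comm, ← map_commutatorElement]
    refine (QuotientGroup.eq_one_iff _).2 ⟨⁅(⟨a, ha⟩ : N), (⟨b, hb⟩ : N)⁆, ?_, rfl⟩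
    exact Subgroup.commutator_mem_commutator trivial trivial
  have hgen : ∀ g : P, ∃ k : ℤ, ∃ a ∈ N, g = x ^ k * a := by
    intro g
    have h1 : Subgroup.zpowers (QuotientGroup.mk x : P ⧸ N) = ⊤ := by
      have : Nat.card (P ⧸ N) = p := hN
      exact (zpowers_eq_top_of_prime_card this (by
        rw [Ne, QuotientGroup.eq_one_iff]; exact hx))
    obtain ⟨k, hk⟩ := Subgroup.mem_zpowers_iff.1 (h1 ▸ Subgroup.mem_top (QuotientGroup.mk g : P ⧸ N))
    refine ⟨k, (x ^ k)⁻¹ * g, ?_, by group⟩
    rw [← QuotientGroup.eq, QuotientGroup.mk_zpow]; exact hk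
  have hy : ∀ g : P ⧸ M, ∃ k : ℤ, ∃ a ∈ A, g = π x ^ k * a := by
    intro g
    obtain ⟨g, rfl⟩ := hπ g
    obtain ⟨k, a, ha, rfl⟩ := hgen g
    exact ⟨k, π a, ⟨a, ha, rfl⟩, by simp⟩
  let f : N →* A := (π.comp N.subtype).codRestrict A (fun n => ⟨n, n.2, rfl⟩)
  have hf : Function.Surjective f := by
    rintro ⟨_, a, ha, rfl⟩
    exact ⟨⟨a, ha⟩, rfl⟩
  let ψ := (twistHom A hc (π x)).comp f
  have h1 : ψ.range = commutator (P ⧸ M) := by
    rw [← range_twistHom A hc (π x) hy, MonoidHom.range_comp, MonoidHom.range_eq_top.2 hf,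
      ← MonoidHom.range_eq_map]
  have h2 := ψ.ker.card_mul_index
  rw [Subgroup.index_ker, h1] at h2
  have h3 : Nat.card ψ.ker =
      Nat.card {n : N // x * n * x⁻¹ * (n : P)⁻¹ ∈ M} := by
    refine Nat.card_congr (Equiv.subtypeEquivRight fun n => ?_)
    rw [MonoidHom.mem_ker]
    change (π n)⁻¹ * (π x * π n * (π x)⁻¹) = 1 ↔ _
    rw [← QuotientGroup.eq_one_iff]
    change _ ↔ π (x * n * x⁻¹ * (n : P)⁻¹) = 1
    simp only [map_mul, map_inv]
    rw [inv_mul_eq_one, mul_inv_eq_one, eq_comm]
  have hMle : M ≤ commutator P := by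
    rw [hM, commutator_def, Subgroup.map_commutator]
    exact Subgroup.commutator_mono le_top le_top
  have h4 : Nat.card (commutator P) = Nat.card (commutator (P ⧸ M)) * Nat.card (commutator N) := by
    have h5 : commutator (P ⧸ M) = (commutator P).map π := by
      rw [commutator_def, commutator_def, Subgroup.map_commutator, Subgroup.map_top_of_surjective π hπ]
    have h6 : (commutator (P ⧸ M)).index = (commutator P).index := by
      rw [h5, Subgroup.index_map_eq _ hπ (by rw [QuotientGroup.ker_mk']; exact hMle)]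
    have h7 := (commutator (P ⧸ M)).card_mul_index
    have h8 := (commutator P).card_mul_index
    have h9 := Subgroup.card_eq_card_quotient_mul_card_subgroup M
    have h10 : Nat.card M = Nat.card (commutator N) :=
      Subgroup.card_map_of_injective N.subtype_injective
    apply Nat.eq_of_mul_eq_mul_right (Nat.pos_of_ne_zero (Subgroup.index_ne_zero_of_finite (H := commutator P)))
    rw [h8, h9, ← h7, h6, h10]; ring
  rw [h4, ← h2, h3]; ring


/-- Let p be a prime, P a finite p-group and N a normal subgroup of P of index p. For x ∈ P write c(x) for the number of elements n of N whose commutator x n x⁻¹ n⁻¹ lies in the derived subgroup N' (so c(x)/#N' is the order of the centralizer of x acting on N/N'). Then [P : P'] = p² if and only if c(x) = p·#N' for every x ∈ P outside N, and also if and only if c(x) = p·#N' for some x ∈ P outside N. -/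
theorem result {P : Type*} [Group P] [Finite P] (p : ℕ) [Fact p.Prime] (hP : IsPGroup p P) (N : Subgroup P) [N.Normal] (hN : N.index = p) :
    ((commutator P).index = p ^ 2 ↔ ∀ x : P, x ∉ N →
        Nat.card {n : N // x * n * x⁻¹ * (n : P)⁻¹ ∈ (commutator N).map N.subtype} = p * Nat.card (commutator N)) ∧
    ((commutator P).index = p ^ 2 ↔ ∃ x : P, x ∉ N ∧
        Nat.card {n : N // x * n * x⁻¹ * (n : P)⁻¹ ∈ (commutator N).map N.subtype} = p * Nat.card (commutator N)) := by
  have hp : p.Prime := Fact.out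
  have h1 := (commutator P).card_mul_index
  have h2 := N.card_mul_index
  rw [hN] at h2
  have hc : 0 < Nat.card (commutator P) := Nat.card_pos
  have hd : 0 < Nat.card (commutator N) := Nat.card_pos
  have main : ∀ x : P, x ∉ N → ((commutator P).index = p ^ 2 ↔
      Nat.card {n : N // x * n * x⁻¹ * (n : P)⁻¹ ∈ (commutator N).map N.subtype} =
        p * Nat.card (commutator N)) := by
    intro x hx
    have h3 := key p N hN x hx
    constructor
    · intro h
      rw [h, ← h2] at h1
      have h4 : Nat.card N = Nat.card (commutator P) * p :=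
        Nat.eq_of_mul_eq_mul_right hp.pos (by rw [← h1]; ring)
      rw [h4] at h3
      exact Nat.eq_of_mul_eq_mul_left hc (by rw [← h3]; ring)
    · intro h
      rw [h] at h3
      have h4 : Nat.card N = Nat.card (commutator P) * p :=
        Nat.eq_of_mul_eq_mul_right hd (by rw [h3]; ring)
      rw [h4] at h2
      exact Nat.eq_of_mul_eq_mul_left hc (by rw [h1, ← h2]; ring)
  obtain ⟨x₀, hx₀⟩ : ∃ x, x ∉ N := by
    by_contra! h
    have : N = ⊤ := eq_top_iff.2 fun x _ => h x
    rw [this, Subgroup.index_top] at hN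
    exact hp.one_lt.ne hN
  exact ⟨⟨fun h x hx => (main x hx).1 h, fun h => (main x₀ hx₀).2 (h x₀ hx₀)⟩,
    ⟨fun h => ⟨x₀, hx₀, (main x₀ hx₀).1 h⟩, fun ⟨x, hx, h⟩ => (main x hx).2 h⟩⟩

end Cfsg.Agent.S4586
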