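import Cfsg.Statements.S4601
import Cfsg.Agent.H6.SylNorm
-- import your own Cfsg.Agent.* helpers here

set_option autoImplicit false
open Cfsg

namespace Cfsg.Agent.S4601

open Cfsg.Agent.H1 Cfsg.Agent.H6 Subgroup


/-- Let p and q be primes and G a finite group that is p-solvable or q-solvable, in which no q-element has conjugacy class size divisible by p. Then some Sylow p-subgroup of G normalizes some Sylow q-subgroup of G. -/
theorem result {G : Type*} [Group G] [Finite G] (p q : ℕ) [Fact p.Prime] [Fact q.Prime] (hsolv : Cfsg.IsPSolvable p G ∨ Cfsg.IsPSolvable q G)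
    (h : ∀ y : G, (∃ k : ℕ, orderOf y = q ^ k) → ¬ p ∣ (Subgroup.centralizer ({y} : Set G)).index) :
    ∃ (P : Sylow p G) (Q : Sylow q G), (P : Subgroup G) ≤ Subgroup.normalizer ((Q : Subgroup G) : Set G) := by
  rcases hsolv with hs | hs
  · by_cases hpq : p = q
    · subst hpq
      obtain ⟨P⟩ : Nonempty (Sylow p G) := inferInstance
      exact ⟨P, P, le_normalizer⟩
    refine exists_sylow_le_normalizer_of_not_dvd p q fun hd => ?_
    set π := QuotientGroup.mk' (pPrimeCore p G)
    have hπ : Function.Surjective π := QuotientGroup.mk'_surjective _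
    obtain ⟨y, hy⟩ := exists_prime_orderOf_dvd_card' (G := G ⧸ pPrimeCore p G) q hd
    obtain ⟨x, hx, rfl⟩ := exists_lift_pElem Fact.out π hπ ⟨1, by rw [hy, pow_one]⟩
    have h1 : pCore p (G ⧸ pPrimeCore p G) ≤ centralizer {π x} :=
      pCore_le_of_not_dvd_index fun hd => h x hx (hd.trans (index_cent_surj_dvd π hπ x))
    have h2 : π x ∈ pCore p (G ⧸ pPrimeCore p G) :=
      H9.centralizer_pCore_le_of_isPSolvable (H9.isPSolvable_quotient hs _)
        (pPrimeCore_quotient_pPrimeCore p)
        (fun z hz => mem_centralizer_singleton_iff.1 (h1 hz))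
    obtain ⟨k, hk⟩ := exists_orderOf_eq_of_mem Fact.out (isPGroup_pCore p _) h2
    rw [hy] at hk
    exact hpq ((Nat.prime_dvd_prime_iff_eq Fact.out Fact.out).1
      ((Fact.out : q.Prime).dvd_of_dvd_pow (dvd_of_eq hk))).symm
  · obtain ⟨P, Q, hP, hQ, h1⟩ := exists_sylow_le_normalizer_aux p q _ rfl hs h
    obtain ⟨P, rfl⟩ := hP.exists_sylow_top
    obtain ⟨Q, rfl⟩ := hQ.exists_sylow_top
    exact ⟨P, Q, h1⟩

end Cfsg.Agent.S4601
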