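import Cfsg.Statements.S4602
import Cfsg.Agent.H6.SylNorm
-- import your own Cfsg.Agent.* helpers here

set_option autoImplicit false
open Cfsg

namespace Cfsg.Agent.S4602

open Cfsg.Agent.H1 Cfsg.Agent.H6 Subgroup


/-- Let G be a finite p-solvable group and q a prime different from p. Some Sylow p-subgroup of G normalizes some Sylow q-subgroup of G if and only if q does not divide the order of G/O_{p'}(G), the quotient by the largest normal subgroup of order prime to p. -/
theorem result {G : Type*} [Group G] [Finite G] (p q : ℕ) [Fact p.Prime] [Fact q.Prime] (hpq : p ≠ q) (hsolv : Cfsg.IsPSolvable p G) :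
    (∃ (P : Sylow p G) (Q : Sylow q G), (P : Subgroup G) ≤ Subgroup.normalizer ((Q : Subgroup G) : Set G)) ↔ ¬ q ∣ (Cfsg.pPrimeCore p G).index := by
  refine ⟨?_, exists_sylow_le_normalizer_of_not_dvd p q⟩
  rintro ⟨P, Q, h⟩
  set π := QuotientGroup.mk' (pPrimeCore p G)
  have hπ : Function.Surjective π := QuotientGroup.mk'_surjective _
  have h1 : pCore p (G ⧸ pPrimeCore p G) ≤ (P : Subgroup G).map π :=
    pCore_le_of_not_dvd_index fun hd => P.not_dvd_index (hd.trans (index_map_dvd _ hπ))
  have h2 : pCore p (G ⧸ pPrimeCore p G) ≤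
      normalizer (((Q : Subgroup G).map π : Subgroup _) : Set (G ⧸ pPrimeCore p G)) :=
    h1.trans ((map_mono h).trans (le_normalizer_map _))
  have hQ : IsPGroup q ((Q : Subgroup G).map π) := Q.isPGroup'.map _
  have hdis : Disjoint ((Q : Subgroup G).map π) (pCore p (G ⧸ pPrimeCore p G)) :=
    IsPGroup.disjoint_of_ne q p hpq.symm _ _ hQ (isPGroup_pCore p _)
  have h3 : (Q : Subgroup G).map π ≤ centralizer (pCore p (G ⧸ pPrimeCore p G) : Set _) := by
    rw [← commutator_eq_bot_iff_le_centralizer, eq_bot_iff, ← hdis.eq_bot]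
    exact le_inf (commutator_le_left_of_le_normalizer h2) (commutator_le_right _ _)
  have h4 := h3.trans (H9.centralizer_pCore_le_of_isPSolvable (H9.isPSolvable_quotient hsolv _)
    (pPrimeCore_quotient_pPrimeCore p))
  have h5 : (Q : Subgroup G) ≤ pPrimeCore p G := by
    have := hdis.eq_bot_of_le h4
    rwa [Subgroup.map_eq_bot_iff, QuotientGroup.ker_mk'] at this
  exact fun hd => Q.not_dvd_index (hd.trans (index_dvd_of_le h5))

end Cfsg.Agent.S4602
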