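import Cfsg.Statements.S4604
import Mathlib
import Cfsg.Agent.H8.Val
import Cfsg.Agent.H5.Brauer2

set_option autoImplicit false
open Cfsg

namespace Cfsg.Agent.S4604

open scoped ComplexConjugate commutatorElement Pointwise
-- OPENS
open Cfsg.Agent.H8
open Cfsg.Agent.H6 hiding block_eq_blockOf block_eq_of_mem block_nonempty centralChar_mem
  char_mem conj_char_mem deg_factorization_le irrOne_mem_principal isPBlock_blockOf
  isPBlock_principal mem_blockOf_self orderOf_conj' sameBlock_refl sameBlock_symm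
  sameBlock_trans
open Cfsg.Agent.H4 hiding exists_int_of_isIntegral_rat
open Cfsg.Agent.H5
open Cfsg.Agent.H3

theorem exists_sum_pow {R ι : Type*} [CommRing R] {p : ℕ} (hp : p.Prime) (n : ℕ) (s : Finset ι) (f : ι → R) :
    ∃ r, (∑ i ∈ s, f i) ^ p ^ n = ∑ i ∈ s, f i ^ p ^ n + p * r := by
  classical
  induction s using Finset.induction_on with
  | empty => exact ⟨0, by simp [hp.ne_zero]⟩
  | insert a s ha ih =>
    obtain ⟨r, hr⟩ := ih
    obtain ⟨t, ht⟩ := exists_add_pow_prime_pow_eq hp (f a) (∑ i ∈ s, f i) n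
    exact ⟨r + f a * (∑ i ∈ s, f i) * t, by rw [Finset.sum_insert ha, Finset.sum_insert ha, ht, hr]; ring⟩

theorem exists_char_pow {G : Type*} [Group G] [Finite G] {χ : G → ℂ} (hχ : IsCharacter G χ) {p : ℕ}
    (hp : p.Prime) (n : ℕ) (g : G) : ∃ γ : AlgInt, χ g ^ p ^ n = χ (g ^ p ^ n) + p * (γ : ℂ) := by
  obtain ⟨d, hd⟩ := hχ.exists_degree
  obtain ⟨ε, h1, h2⟩ := hχ.exists_roots hd g
  obtain ⟨r, hr⟩ := exists_sum_pow hp n Finset.univ
    (fun i => (⟨ε i, isIntegral_of_pow_eq_one (orderOf_pos g).ne' (h1 i)⟩ : AlgInt))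
  refine ⟨r, ?_⟩
  have := congrArg (fun z : AlgInt => (z : ℂ)) hr
  have h3 := h2 1
  simp only [pow_one] at h3
  rw [h2, h3]
  simpa using this

theorem isConj_of_redC {G : Type*} [Group G] [Finite G] {p : ℕ} {M : Ideal AlgInt} [M.IsMaximal]
    (hM : IsPModular p M) {x y : G} (hx : ¬ p ∣ orderOf x) (hy : ¬ p ∣ orderOf y)
    (h : ∀ χ : IrrCharacter G, redC M ((χ : G → ℂ) x) = redC M ((χ : G → ℂ) y)) : IsConj x y := by
  classical
  haveI := Fintype.ofFinite G
  have hp := hM.1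
  by_contra hc
  set n := ordCompl[p] (Nat.card G) with hn
  have hcop : (ordProj[p] (Nat.card G)).Coprime n :=
    (Nat.coprime_ordCompl hp Nat.card_pos.ne').pow_left _
  obtain ⟨k, hk1, hk2⟩ := exists_crt hcop
  have hpow : ∀ z : G, ¬ p ∣ orderOf z → z ^ k = z := fun z hz => by
    refine pow_eq_self_of_modEq hk2 (orderOf_dvd_iff_pow_eq_one.mp ?_)
    refine (((hp.coprime_iff_not_dvd.mpr hz).pow_left ((Nat.card G).factorization p)).symm).dvd_of_dvd_mul_left ?_
    rw [Nat.ordProj_mul_ordCompl_eq_self]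
    exact orderOf_dvd_natCard z
  obtain ⟨F, hF, hFi, hF1, hF0⟩ : ∃ F : G → ℂ, IsClassFunction G F ∧ (∀ g, IsIntegral ℤ (F g)) ∧ F x = 1 ∧ F y = 0 :=
    ⟨_, isClassFunction_indicator_isConj x, fun g => by
      split_ifs; exacts [isIntegral_one, isIntegral_zero], if_pos (IsConj.refl x), if_neg hc⟩
  have hΦ : IsClassFunction G (fun g : G => (n : ℂ) * F (g ^ k)) :=
    (hF.comp_pow k).map (fun z => n * z)
  have hint : ∀ χ : IrrCharacter G, classInner (fun g : G => (n : ℂ) * F (g ^ k)) χ ∈ locRing M :=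
    fun χ => mem_locRing_of_isIntegral (isIntegral_inner_crt (Nat.ordProj_mul_ordCompl_eq_self _ p).symm.dvd hcop hk1 hk2 hF
      hFi χ.2.isGen)
  have e1 := congrArg (redC M) (hΦ.apply_eq_sum x)
  have e2 := congrArg (redC M) (hΦ.apply_eq_sum y)
  rw [redC_sum _ fun χ _ => mul_mem (hint χ) (H8.char_mem χ.2.isGen _)] at e1 e2
  rw [Finset.sum_congr rfl fun χ _ => redC_mul (hint χ) (H8.char_mem χ.2.isGen _)] at e1 e2
  simp only [h] at e1
  rw [← e2, hpow x hx, hpow y hy, hF1, hF0, mul_one, mul_zero, redC_zero,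
    redC_natCast, natCast_res_eq_zero_iff hM] at e1
  exact Nat.not_dvd_ordCompl hp Nat.card_pos.ne' e1


/-- Let G be a finite group, p a prime and p^a the p-part of the order of G. Let x, y ∈ G and let x′, y′ be their p-regular parts: x′ has order prime to p, commutes with x·x′⁻¹, and x·x′⁻¹ has p-power order (likewise for y). Then x′ and y′ are conjugate in G if and only if for every irreducible character χ of G the algebraic integer χ(x)^(p^a) − χ(y)^(p^a) is p times an algebraic integer. -/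
theorem result {G : Type*} [Group G] [Finite G] (p : ℕ) [Fact p.Prime] (x y x' y' : G)
    (hx : (∃ k : ℕ, orderOf (x * x'⁻¹) = p ^ k) ∧ Commute (x * x'⁻¹) x' ∧ ¬ p ∣ orderOf x')
    (hy : (∃ k : ℕ, orderOf (y * y'⁻¹) = p ^ k) ∧ Commute (y * y'⁻¹) y' ∧ ¬ p ∣ orderOf y') :
    IsConj x' y' ↔ ∀ χ : Cfsg.IrrCharacter G, ∃ γ : Cfsg.AlgInt,
      (χ : G → ℂ) x ^ (p ^ (Nat.card G).factorization p) - (χ : G → ℂ) y ^ (p ^ (Nat.card G).factorization p) = (p : ℂ) * (γ : ℂ) := by
  have hp : p.Prime := Fact.out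
  have key : ∀ x x' : G, ((∃ k : ℕ, orderOf (x * x'⁻¹) = p ^ k) ∧ Commute (x * x'⁻¹) x' ∧ ¬ p ∣ orderOf x') →
      x ^ p ^ (Nat.card G).factorization p = x' ^ p ^ (Nat.card G).factorization p := by
    rintro x x' ⟨⟨k, hk⟩, hc, -⟩
    have h1 : (x * x'⁻¹) ^ p ^ (Nat.card G).factorization p = 1 := by
      rw [← orderOf_dvd_iff_pow_eq_one, hk]
      exact pow_dvd_pow _ ((hp.pow_dvd_iff_le_factorization Nat.card_pos.ne').mp (hk ▸ orderOf_dvd_natCard _))
    have h2 := hc.mul_pow (p ^ (Nat.card G).factorization p)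
    rwa [h1, one_mul, inv_mul_cancel_right] at h2
  constructor
  · intro h χ
    obtain ⟨a, ha⟩ := exists_char_pow χ.2.isCharacter hp ((Nat.card G).factorization p) x
    obtain ⟨b, hb⟩ := exists_char_pow χ.2.isCharacter hp ((Nat.card G).factorization p) y
    refine ⟨a - b, ?_⟩
    rw [ha, hb, key x x' hx, key y y' hy, χ.2.isClassFunction.of_isConj (h.pow _)]
    push_cast; ring
  · intro h
    obtain ⟨M, hM⟩ := exists_isPModular hp
    haveI := hM.2.1
    haveI := charP_res hM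
    refine isConj_of_redC hM hx.2.2 hy.2.2 fun χ => ?_
    obtain ⟨γ, hγ⟩ := h χ
    have h1 := congrArg (redC M) hγ
    have m1 := H8.char_mem (M := M) χ.2.isGen
    rw [redC_sub (pow_mem (m1 _) _) (pow_mem (m1 _) _), redC_pow (m1 _), redC_pow (m1 _),
      redC_mul (natCast_mem _ _) (algInt_mem _), redC_natCast, CharP.cast_eq_zero, zero_mul,
      ← redC_char_pow hM χ.2.isCharacter, ← redC_char_pow hM χ.2.isCharacter, key x x' hx, key y y' hy,
      redC_char_pow hM χ.2.isCharacter, redC_char_pow hM χ.2.isCharacter, ← sub_pow_char_pow,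
      pow_eq_zero_iff (pow_pos hp.pos _).ne', sub_eq_zero] at h1
    exact h1

end Cfsg.Agent.S4604
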