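import Cfsg.Statements.S4606
import Cfsg.Agent.H7.OneCls
import Cfsg.Agent.H7.Rank
import Cfsg.Agent.H8.Subsec3
import Cfsg.Agent.S4646
import Cfsg.Agent.S4691
-- import your own Cfsg.Agent.* helpers here

set_option autoImplicit false
open Cfsg

namespace Cfsg.Agent.S4606

open MonoidAlgebra Cfsg.Agent.H3 Cfsg.Agent.H4 Cfsg.Agent.H7
open Cfsg.Agent.H6 (Res locRing redC redA eB fB intAlg classSum omega chiL)
open scoped Pointwise
set_option linter.style.haveILetI false

attribute [local instance] H8.subFintype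

/-- Let G be a finite group, p a prime, M a maximal ideal of the algebraic integers containing p, and B a p-block of G with defect group D. Suppose the number of irreducible characters in B exceeds the p-regular rank of B (the number of irreducible Brauer characters in B) by exactly one. If B is the principal block, or if G is p-solvable, then D is elementary abelian. -/
theorem result {G : Type*} [Group G] [Finite G] (p : ℕ) [Fact p.Prime] (M : Ideal Cfsg.AlgInt) (hM : Cfsg.IsPModular p M) (B : Set (Cfsg.IrrCharacter G)) (hB : Cfsg.IsPBlock M B) (D : Subgroup G) (hD : Cfsg.IsDefectGroup p M B D)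
    (hk : Nat.card B = Cfsg.blockRank p B + 1) (hB0 : B = Cfsg.principalBlock M G ∨ Cfsg.IsPSolvable p G) :
    Cfsg.IsElementaryAbelian p D := by
  classical
  haveI := hM.2.1
  haveI := H6.charP_res hM
  haveI := Fintype.ofFinite G
  have hp : p.Prime := Fact.out
  obtain ⟨X, hX, hXrep⟩ := H8.exists_pClass_reps G p
  let F : G → ℕ := fun x => ∑ b ∈ H8.indBlocks M (Subgroup.centralizer ({x} : Set G)) B, blockRank p b
  have hsum : Nat.card B = ∑ x ∈ X, F x := H8.card_eq_sum_blockRank hM hB X hX hXrep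
  have h1X : (1 : G) ∈ X := by
    obtain ⟨x, ⟨hx, hc⟩, -⟩ := hXrep 1 ⟨0, by simp⟩
    rwa [isConj_one_right.1 hc] at hx
  have hF1 : F 1 = blockRank p B := by
    have e : F 1 = (klS M p (Subgroup.centralizer ({1} : Set G))
        (br (Subgroup.zpowers (1 : G)) (eB M B))).2 := by
      rw [klS_eq_sum_blocks, Prod.snd_sum]
      refine Finset.sum_congr (Finset.filter_congr fun b hb => ?_) fun _ _ => rfl
      exact isInducedBlock_iff_br hM ⟨0, by simp⟩ hB (H6.mem_blocks.1 hb)
    have e2 : Subgroup.centralizer ({1} : Set G) = ⊤ := by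
      rw [eq_top_iff]; intro g _; simp [Subgroup.mem_centralizer_singleton_iff]
    rw [e, e2, Subgroup.zpowers_one_eq_bot, br_bot, klS_blk (blk_eB hB), kl_eB hB]
  have hs : ∑ x ∈ X.erase 1, F x = 1 := by
    rw [← Finset.add_sum_erase _ _ h1X, hF1, hk] at hsum
    omega
  have hpos : ∀ x, ∀ b, IsInducedBlock M (Subgroup.centralizer ({x} : Set G)) b B →
      1 ≤ blockRank p b ∧ blockRank p b ≤ F x := fun x b hb =>
    ⟨H8.blockRank_pos hp (H8.block_nonempty hb.1),
      Finset.single_le_sum (f := fun b => blockRank p b) (fun _ _ => Nat.zero_le _)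
        (H8.mem_indBlocks.2 hb)⟩
  have huniq : ∀ x ∈ X, ∀ y ∈ X, x ≠ 1 → y ≠ 1 → 1 ≤ F x → 1 ≤ F y → x = y :=
    fun x hx y hy hx1 hy1 h1 h2 => by
      by_contra hne
      have := Finset.add_le_sum (f := F) (fun _ _ => Nat.zero_le _)
        (Finset.mem_erase.2 ⟨hx1, hx⟩) (Finset.mem_erase.2 ⟨hy1, hy⟩) hne
      omega
  have hle : ∀ x ∈ X, x ≠ 1 → F x ≤ 1 := fun x hx hx1 =>
    hs ▸ Finset.single_le_sum (f := F) (fun _ _ => Nat.zero_le _) (Finset.mem_erase.2 ⟨hx1, hx⟩)
  have hDp : IsPGroup p D := ((isDefectGroup_iff hM hB).1 hD).isPGroup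
  have hcj : ∀ Φ : G → Prop, (∀ u, Φ u → ∃ k, orderOf u = p ^ k) →
      (∀ u, Φ u → ∀ x ∈ X, IsConj u x → 1 ≤ F x) →
      ∀ u v, Φ u → Φ v → u ≠ 1 → v ≠ 1 → IsConj u v := fun Φ h1 h2 u v hu hv hu1 hv1 => by
    obtain ⟨x, ⟨hx, hux⟩, -⟩ := hXrep u (h1 u hu)
    obtain ⟨y, ⟨hy, hvy⟩, -⟩ := hXrep v (h1 v hv)
    have := huniq x hx y hy (fun e => hu1 (isConj_one_left.1 (e ▸ hux)))
      (fun e => hv1 (isConj_one_left.1 (e ▸ hvy))) (h2 u hu x hx hux) (h2 v hv y hy hvy)
    exact hux.trans (this ▸ hvy.symm)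
  rcases hB0 with rfl | hG
  · have hind : ∀ x ∈ X, IsInducedBlock M (Subgroup.centralizer ({x} : Set G))
        (principalBlock M _) (principalBlock M G) := fun x hx => by
      rw [← H8.mem_indBlocks, (H8.secData_centralizer (hX x hx)).indBlocks_principal hM]
      exact Finset.mem_singleton_self _
    have hcj' := hcj (fun u => ∃ k, orderOf u = p ^ k) (fun _ h => h)
      fun u _ x hx _ => (hpos x _ (hind x hx)).1.trans (hpos x _ (hind x hx)).2
    have hord : ∀ u : G, (∃ k, u ^ p ^ k = 1) → ∃ k, orderOf u = p ^ k := fun u ⟨k, hk⟩ =>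
      ((Nat.dvd_prime_pow hp).1 (orderOf_dvd_of_pow_eq_one hk)).imp fun _ h => h.2
    have hE : ExpNil p G := by
      constructor
      · intro u hu
        by_cases hu1 : u = 1
        · rw [hu1, one_pow]
        obtain ⟨k, hk⟩ := hord u hu
        have hk0 : k ≠ 0 := fun e => hu1 (orderOf_eq_one_iff.1 (by rw [hk, e, pow_zero]))
        obtain ⟨x, hx⟩ := exists_prime_orderOf_dvd_card' (G := G) p
          ((dvd_pow_self p hk0).trans (hk ▸ orderOf_dvd_natCard u))
        have hx1 : x ≠ 1 := fun e => by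
          rw [e, orderOf_one] at hx
          exact hp.one_lt.ne hx
        rw [← hx, H6.orderOf_eq_of_isConj (hcj' x u ⟨1, by rw [hx, pow_one]⟩ ⟨k, hk⟩ hx1 hu1),
          pow_orderOf_eq_one]
      · intro u hu1 hup a b ha hb oa ob
        obtain ⟨x, ⟨hx, hux⟩, -⟩ := hXrep u (hord u ⟨1, by rwa [pow_one]⟩)
        have hx1 : x ≠ 1 := fun e => hu1 (isConj_one_left.1 (e ▸ hux))
        have hr : blockRank p (principalBlock M (Subgroup.centralizer ({x} : Set G))) = 1 :=
          le_antisymm ((hpos x _ (hind x hx)).2.trans (hle x hx hx1)) (hpos x _ (hind x hx)).1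
        have hn := H3.hasNormalPComplement_iff_mul.1
          ((S4691.result p M hM).2 ((S4646.result p M hM).2 hr))
        obtain ⟨g, rfl⟩ := isConj_iff.1 hux
        have hm : ∀ a, Commute u a → g * a * g⁻¹ ∈ Subgroup.centralizer ({g * u * g⁻¹} : Set G) :=
          fun a ha => Subgroup.mem_centralizer_singleton_iff.2 (ha.map (MulAut.conj g)).symm
        have := hn ⟨_, hm a ha⟩ ⟨_, hm b hb⟩ (by rwa [← Subgroup.orderOf_coe, H6.orderOf_conj'])
          (by rwa [← Subgroup.orderOf_coe, H6.orderOf_conj'])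
        rw [← Subgroup.orderOf_coe, Subgroup.coe_mul] at this
        rwa [← H6.orderOf_conj' g, show g * (a * b) * g⁻¹ = g * a * g⁻¹ * (g * b * g⁻¹) by group]
    obtain ⟨P, hP⟩ := hDp.exists_le_sylow
    refine ⟨⟨⟨fun a b => Subtype.ext (hE.comm (fun x y hx hy h1 h2 => hcj' x y
      (hord x ⟨1, by rwa [pow_one]⟩) (hord y ⟨1, by rwa [pow_one]⟩) hx hy) P (hP a.2) (hP b.2))⟩⟩,
      fun a ha => hE.pow_of_mem hDp ha⟩
  · refine isElementaryAbelian_of_isConj hG hDp fun x hx y hy => hcj (· ∈ D)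
      (fun u hu => H8.exists_orderOf_pow_of_mem hDp hu) (fun u hu x hx hux => ?_) x y hx hy
    obtain ⟨g, rfl⟩ := isConj_iff.1 hux
    have hD' : IsDefectGroup p M B (MulAut.conj g • D) := by
      rw [isDefectGroup_iff hM hB] at hD ⊢
      exact hD.conj_mem (eB_mem_Fix B).2 (Subgroup.mem_top g)
    obtain ⟨b, hb⟩ := (H8.secData_centralizer (hX _ hx)).exists_induced hM hB hD'
      (H3.conj_mem_conj_smul.2 hu)
    exact (hpos _ b hb).1.trans (hpos _ b hb).2

end Cfsg.Agent.S4606
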