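import Cfsg.Statements.S4648
import Cfsg.Agent.H7.RankOne
-- import your own Cfsg.Agent.* helpers here

set_option autoImplicit false
open Cfsg

namespace Cfsg.Agent.S4648

open MonoidAlgebra Cfsg.Agent.H3 Cfsg.Agent.H4 Cfsg.Agent.H7
open Cfsg.Agent.H6 (Res locRing redC redA eB fB intAlg classSum omega chiL)
open scoped Pointwise
set_option linter.style.haveILetI false


/-- Let B be a block of the finite group G relative to a maximal ideal M of the algebraic integers containing the prime p, with a nontrivial defect group D. If B has p-regular rank 1 and at most four irreducible characters, then B is nilpotent, D has exactly as many elements as B has irreducible characters, and p is 2 or 3. -/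
theorem result {G : Type*} [Group G] [Finite G] (p : ℕ) [Fact p.Prime] (M : Ideal Cfsg.AlgInt) (hM : Cfsg.IsPModular p M) (B : Set (Cfsg.IrrCharacter G)) (hB : Cfsg.IsPBlock M B) (D : Subgroup G) (hD : Cfsg.IsDefectGroup p M B D) (hD1 : D ≠ ⊥) (hl : Cfsg.blockRank p B = 1) (hk : Nat.card B ≤ 4) : Cfsg.IsNilpotentBlock p M B ∧ Nat.card D = Nat.card B ∧ (p = 2 ∨ p = 3) := by
  haveI := hM.2.1; haveI := H6.charP_res hM
  haveI := Fintype.ofFinite G
  obtain ⟨j, hj⟩ := exists_unique_of_rank hB hM hl
  have h1 := dnat_eq_one_of_card_le hB hM hj hk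
  have h2 := card_eq_of_dnat hM hB hj h1
  have h3 := H6.card_defectGroup hM hB hD
  have hd : blockDefect p B ≠ 0 := fun e => hD1 (by
    rw [e, pow_zero] at h3
    exact Subgroup.eq_bot_of_card_eq D h3)
  have hp := hM.1.two_le
  have h4 : p ≤ 4 := (Nat.le_self_pow hd p).trans (h2 ▸ hk)
  have h5 : blockDefect p B ≤ 2 := by
    by_contra hc
    have : 2 ^ 3 ≤ p ^ blockDefect p B :=
      (Nat.pow_le_pow_left hp 3).trans (Nat.pow_le_pow_right hM.1.pos (by omega))
    omega
  have hab : ∀ a b : D, a * b = b * a := by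
    obtain h | h : blockDefect p B = 1 ∨ blockDefect p B = 2 := by omega
    · rw [h, pow_one] at h3
      haveI := isCyclic_of_prime_card h3
      exact fun a b => (IsCyclic.isMulCommutative (α := D)).is_comm.comm a b
    · rw [h] at h3
      exact fun a b => (IsPGroup.isMulCommutative_of_card_eq_prime_sq h3).is_comm.comm a b
  refine ⟨(isNilpotentBlock_iff hM).2 ⟨hB, nilB_of_dnat_eq_one hM hB hj h1 hD
    fun x hx y hy => congrArg Subtype.val (hab ⟨y, hy⟩ ⟨x, hx⟩)⟩, h3.trans h2.symm, ?_⟩
  have h6 : p ≠ 4 := fun e => by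
    have := hM.1
    rw [e] at this
    exact absurd this (by decide)
  omega

end Cfsg.Agent.S4648
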