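import Cfsg.Statements.S4607
import Cfsg.Agent.S4648
-- import your own Cfsg.Agent.* helpers here

set_option autoImplicit false
open Cfsg

namespace Cfsg.Agent.S4607

open MonoidAlgebra Cfsg.Agent.H3 Cfsg.Agent.H4 Cfsg.Agent.H7
open Cfsg.Agent.H6 (Res locRing redC redA eB fB intAlg classSum omega chiL)
open scoped Pointwise
set_option linter.style.haveILetI false


/-- Let G be a finite group, p a prime, M a maximal ideal of the algebraic integers containing p, and B a p-block of G with defect group D. Then B contains exactly two irreducible characters if and only if D has order 2. -/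
theorem result {G : Type*} [Group G] [Finite G] (p : ℕ) [Fact p.Prime] (M : Ideal Cfsg.AlgInt) (hM : Cfsg.IsPModular p M) (B : Set (Cfsg.IrrCharacter G)) (hB : Cfsg.IsPBlock M B) (D : Subgroup G) (hD : Cfsg.IsDefectGroup p M B D) : Nat.card B = 2 ↔ Nat.card D = 2 := by
  haveI := hM.2.1; haveI := H6.charP_res hM
  haveI := Fintype.ofFinite G
  have h1 := H8.blockRank_pos hM.1 (H6.block_nonempty hB)
  have h2 := H8.blockRank_le_card (p := p) B
  have h3 := H6.card_defectGroup hM hB hD
  constructor
  · intro hk
    have hd : blockDefect p B ≠ 0 := fun e => by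
      have := H8.card_eq_one_of_defect_zero hM hB e
      omega
    have hl : blockRank p B = 1 := by
      by_contra hc
      exact hd (H8.defect_zero_of_card_eq_rank hM hB (by omega))
    have hD1 : D ≠ ⊥ := by
      rintro rfl
      rw [Subgroup.card_bot] at h3
      exact (Nat.one_lt_pow hd hM.1.one_lt).ne h3
    exact (S4648.result p M hM B hB D hD hD1 hl (by omega)).2.1.trans hk
  · intro hk
    rw [hk] at h3
    obtain ⟨hp, hd⟩ := (Nat.Prime.pow_eq_iff Nat.prime_two).1 h3.symm
    have h4 := H8.brauer_feit hM hB
    rw [hd, hp] at h4
    by_contra hc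
    have := H8.defect_zero_of_card_eq_rank hM hB (by omega)
    omega

end Cfsg.Agent.S4607
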