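import Cfsg.Statements.S4620
import Cfsg.Agent.H1.Coprime
import Cfsg.Agent.H3.Misc1
-- import your own Cfsg.Agent.* helpers here

set_option autoImplicit false
open scoped Pointwise
open Cfsg

namespace Cfsg.Agent.S4620

open Cfsg.Agent.H1 Subgroup

structure Good (p : ℕ) (H : Type*) [Group H] : Prop where
  h1 : pCore p H = ⊥
  h2 : pPrimeCore p H = ⊥
  ti : ∀ (P : Sylow p H) (g x : H), x ∈ (P : Subgroup H) → x ≠ 1 → g * x * g⁻¹ ∈ (P : Subgroup H) →
    g ∈ normalizer ((P : Subgroup H) : Set H)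

section
variable {H : Type*} [Group H] [Finite H] {p : ℕ} [hp : Fact p.Prime] (h : Good p H)
include h

theorem Good.normal (N : Subgroup H) [N.Normal] : Good p N := by
  refine ⟨?_, ?_, ?_⟩
  · rw [← map_eq_bot_iff_of_injective _ N.subtype_injective, eq_bot_iff, ← h.h1]
    exact map_subtype_pCore_le N
  · rw [← map_eq_bot_iff_of_injective _ N.subtype_injective, eq_bot_iff, ← h.h2]
    exact map_subtype_pPrimeCore_le N
  · intro Q g x hx hx1 hgx
    obtain ⟨P, hP⟩ := Q.exists_comap_subtype_eq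
    rw [← hP] at hx hgx ⊢
    have := h.ti P g x hx (fun e => hx1 (Subtype.ext e)) hgx
    exact le_normalizer_comap _ this

theorem Good.dvd {N : Subgroup H} [N.Normal] (hN : N ≠ ⊥) : p ∣ Nat.card N := by
  by_contra hd
  exact hN (eq_bot_iff.2 (h.h2 ▸ le_pPrimeCore ((Nat.Prime.coprime_iff_not_dvd hp.out).2 hd).symm))

theorem Good.cent {N : Subgroup H} [N.Normal] (hN : N ≠ ⊥) : centralizer (N : Set H) = ⊥ := by
  by_contra hC
  obtain ⟨P⟩ : Nonempty (Sylow p H) := inferInstance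
  have h1 := ((isSylowIn_top P).inf (N := N) le_top le_normalizer_of_normal).ne_bot (h.dvd hN)
  obtain ⟨⟨x, hx⟩, hx1⟩ := ne_bot_iff_exists_ne_one.1 h1
  have h2 : centralizer (N : Set H) ≤ normalizer ((P : Subgroup H) : Set H) := by
    intro c hc
    refine h.ti P c x hx.1 (fun e => hx1 (Subtype.ext e)) ?_
    rw [← hc x hx.2, mul_inv_cancel_right]; exact hx.1
  have h3 := (isSylowIn_top P).inf (N := centralizer (N : Set H)) le_top le_normalizer_of_normal
  refine h3.ne_bot (h.dvd hC) (eq_bot_iff.2 ?_)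
  rw [← h.h1]
  refine (le_map_pCore inf_le_right ?_ h3.isPGroup).trans (map_subtype_pCore_le _)
  exact (le_inf h2 le_normalizer).trans (inf_normalizer_le_normalizer_inf)

theorem Good.exists_min [Nontrivial H] : ∃ N : Subgroup H, N.Normal ∧ N ≠ ⊥ ∧
    ∀ K : Subgroup H, K.Normal → K ≠ ⊥ → N ≤ K := by
  obtain ⟨N, ⟨hN, hN1⟩, hmin⟩ := (wellFounded_lt (α := Subgroup H)).has_min
    {N | N.Normal ∧ N ≠ ⊥} ⟨⊤, inferInstance, top_ne_bot⟩
  refine ⟨N, hN, hN1, fun K hK hK1 => ?_⟩
  have h1 : N ⊓ K ≠ ⊥ := by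
    intro h1
    apply hK1
    rw [eq_bot_iff, ← h.cent hN1, ← commutator_eq_bot_iff_le_centralizer, eq_bot_iff, ← h1,
      inf_comm]
    exact commutator_le_inf K N
  by_contra h2
  exact hmin (N ⊓ K) ⟨inferInstance, h1⟩ (lt_of_le_of_ne inf_le_left fun e => h2 (e ▸ inf_le_right))
end


/-- Let H be a finite group with no nontrivial normal p-subgroup and no nontrivial normal subgroup of order prime to p, whose Sylow p-subgroup P is nontrivial and a trivial-intersection set (P meets its conjugates by elements outside N_H(P) trivially). Then H has a unique minimal normal subgroup N; N is non-abelian simple with trivial centralizer in H (so H embeds in Aut(N)), and a Sylow p-subgroup of N is again a nontrivial trivial-intersection set in N. -/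
theorem result {H : Type*} [Group H] [Finite H] (p : ℕ) [Fact p.Prime] (hOp : Cfsg.pCore p H = ⊥) (hOp' : Cfsg.pPrimeCore p H = ⊥) (P : Sylow p H) (hP1 : (P : Subgroup H) ≠ ⊥)
    (hTI : ∀ g : H, g ∉ Subgroup.normalizer ((P : Subgroup H) : Set H) → (P : Subgroup H) ⊓ (MulAut.conj g • (P : Subgroup H)) = ⊥) :
    ∃ N : Subgroup H, N.Normal ∧ N ≠ ⊥ ∧ (∀ K : Subgroup H, K.Normal → K ≠ ⊥ → N ≤ K) ∧
      IsSimpleGroup N ∧ ¬ IsMulCommutative N ∧ Subgroup.centralizer (N : Set H) = ⊥ ∧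
      ∀ Q : Sylow p N, (Q : Subgroup N) ≠ ⊥ ∧
        ∀ n : N, n ∉ Subgroup.normalizer ((Q : Subgroup N) : Set N) → (Q : Subgroup N) ⊓ (MulAut.conj n • (Q : Subgroup N)) = ⊥ := by
  have h : Good p H := by
    refine ⟨hOp, hOp', fun P' g x hx hx1 hgx => ?_⟩
    obtain ⟨c, rfl⟩ := MulAction.exists_smul_eq H P P'
    rw [Sylow.coe_subgroup_smul] at hx hgx ⊢
    rw [H3.normalizer_conj_smul]
    rw [H3.mem_conj_smul] at hx hgx ⊢
    by_contra hc
    have h1 := hTI _ hc
    have h2 : c⁻¹ * (g * x * g⁻¹) * c ∈ (P : Subgroup H) ⊓ MulAut.conj (c⁻¹ * g * c) • (P : Subgroup H) := by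
      refine mem_inf.2 ⟨hgx, ?_⟩
      rw [H3.mem_conj_smul]
      convert hx using 1; group
    rw [h1, mem_bot] at h2
    apply hx1
    calc x = (g⁻¹ * c) * (c⁻¹ * (g * x * g⁻¹) * c) * (c⁻¹ * g) := by group
      _ = 1 := by rw [h2]; group
  haveI : Nontrivial H := by
    haveI := (nontrivial_iff_ne_bot _).2 hP1
    exact (P : Subgroup H).subtype_injective.nontrivial
  obtain ⟨N, hN, hN1, hmin⟩ := h.exists_min
  haveI := (nontrivial_iff_ne_bot _).2 hN1
  have hg := h.normal N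
  obtain ⟨M, hM, hM1, hmin'⟩ := hg.exists_min
  haveI : M.Characteristic := by
    refine characteristic_iff_le_map.2 fun φ => hmin' _ (hM.map _ φ.surjective) ?_
    rwa [Ne, map_eq_bot_iff_of_injective _ φ.injective]
  have hMN : M = ⊤ := by
    have := hmin (M.map N.subtype) inferInstance (by
      rwa [Ne, map_eq_bot_iff_of_injective _ N.subtype_injective])
    rw [eq_top_iff]
    intro x _
    exact (mem_map_iff_mem N.subtype_injective).1 (this x.2)
  refine ⟨N, hN, hN1, hmin, ⟨fun K hK => ?_⟩, fun hc => ?_, h.cent hN1, fun Q => ⟨?_, ?_⟩⟩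
  · by_cases hK1 : K = ⊥
    · exact Or.inl hK1
    · exact Or.inr (eq_top_iff.2 (hMN ▸ hmin' K hK hK1))
  · exact hN1 (eq_bot_iff.2 (h.cent hN1 ▸ le_centralizer N))
  · exact (isSylowIn_top Q).ne_bot (by rw [card_top]; exact h.dvd hN1)
  · intro n hn
    rw [eq_bot_iff]
    intro x hx0
    obtain ⟨hx1, hx2⟩ := mem_inf.1 hx0
    rw [H3.mem_conj_smul] at hx2
    by_contra hx
    exact hn ((normalizer _).inv_mem_iff.1 (hg.ti Q n⁻¹ x hx1 hx (by simpa using hx2)))

end Cfsg.Agent.S4620
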