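import Cfsg.Statements.S4690
import Cfsg.Agent.H7.Star4
-- import your own Cfsg.Agent.* helpers here

set_option autoImplicit false
open Cfsg

namespace Cfsg.Agent.S4690

open MonoidAlgebra Cfsg.Agent.H3 Cfsg.Agent.H4 Cfsg.Agent.H7
open Cfsg.Agent.H6 (Res locRing redC redA eB fB intAlg classSum omega chiL)
open scoped Pointwise
set_option linter.style.haveILetI false


/-- Fix a prime p and a maximal ideal M of the algebraic integers containing p, and a nilpotent p-block B of the finite group G with defect group P. Then there is a bijection from B onto the irreducible characters of P carrying the height of each χ ∈ B to the exponent of p in the degree of its image. -/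
theorem result {G : Type*} [Group G] [Fintype G] (p : ℕ) [Fact p.Prime] (M : Ideal Cfsg.AlgInt) (hM : Cfsg.IsPModular p M) (B : Set (Cfsg.IrrCharacter G)) (hnil : Cfsg.IsNilpotentBlock p M B) (P : Subgroup G) (hP : Cfsg.IsDefectGroup p M B P) : ∃ Φ : B ≃ Cfsg.IrrCharacter P, ∀ χ : B, Cfsg.blockHeight p B ((χ : Cfsg.IrrCharacter G) : G → ℂ) = (Cfsg.charDegree ((Φ χ : Cfsg.IrrCharacter P) : P → ℂ)).factorization p := by
  haveI := hM.2.1; haveI := H6.charP_res hM
  haveI := H8.subFintype P
  obtain ⟨hB, hn⟩ := (isNilpotentBlock_iff hM).1 hnil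
  obtain ⟨χ, hχ, h0⟩ := H8.exists_height_zero (p := p) (H8.block_nonempty hB)
  obtain ⟨e, S⟩ := exists_maxP le_rfl Subgroup.le_normalizer (blk_eB hB)
    ((isDefectGroup_iff hM hB).1 hP)
  obtain ⟨T, hT⟩ := S.exists_equiv_of_nilB hM hB hn hχ h0
  refine ⟨T.symm, fun ψ => ?_⟩
  obtain ⟨η, rfl⟩ := T.surjective ψ
  have h1 : charDegree ((T η : IrrCharacter G) : G → ℂ) =
      charDegree (η : P → ℂ) * charDegree (χ : G → ℂ) := charDegree_eq_of (by
    rw [hT, S.starP_apply_of_not_dvd hM hB (S.stable_of_nilB hM hn η.2.isClassFunction)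
      (H8.mem_bspan_of_mem hχ) (by simp [(Fact.out : p.Prime).ne_one]), Nat.cast_mul,
      η.2.isCharacter.charDegree_cast, χ.2.isCharacter.charDegree_cast])
  rw [Equiv.symm_apply_apply, H8.blockHeight_eq, h1, Nat.factorization_mul
    η.2.charDegree_pos.ne' χ.2.charDegree_pos.ne', Finsupp.add_apply,
    (H8.height_eq_zero_iff hχ).1 h0, Nat.add_sub_cancel]

end Cfsg.Agent.S4690
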