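import Cfsg.Statements.S4702
import Mathlib
import Cfsg.Agent.H2.EP
import Cfsg.Agent.S0727
import Cfsg.Agent.S0265
import Cfsg.Agent.H4.Sharp2

set_option autoImplicit false
open Cfsg

namespace Cfsg.Agent.S4702

open H2.Pm MulAction SubMulAction Matrix

/-- Let G be a triply transitive permutation group on a finite set of odd size m ≥ 3 in which only the identity fixes three or more points. Then m = 2^a + 1 for some a ≥ 1 and G is isomorphic to SL(2, 2^a). -/
theorem result {α : Type*} [Fintype α] [DecidableEq α] (hm : 3 ≤ Fintype.card α) (hodd : Odd (Fintype.card α)) (G : Subgroup (Equiv.Perm α)) (h3 : MulAction.IsMultiplyPretransitive G α 3) (hfix : ∀ g : G, 3 ≤ Nat.card (MulAction.fixedBy α g) → g = 1) : ∃ a : ℕ, 1 ≤ a ∧ Fintype.card α = 2 ^ a + 1 ∧ ∃ (F : Type) (_ : Field F) (_ : Fintype F), Fintype.card F = 2 ^ a ∧ Nonempty (G ≃* Matrix.SpecialLinearGroup (Fin 2) F) := by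
  classical
  have hs : ∀ (g : G) (a b c : α), a ≠ b → a ≠ c → b ≠ c → g • a = a → g • b = b → g • c = c → g = 1 :=
    fun g a b c h1 h2 h3 ha hb hc => hfix g (by
      rw [← Set.ncard_eq_three.2 ⟨a, b, c, h1, h2, h3, rfl⟩, Nat.card_coe_set_eq]
      exact Set.ncard_le_ncard (by rintro x (rfl | rfl | rfl) <;> assumption))
  obtain ⟨a⟩ : Nonempty α := Fintype.card_pos_iff.1 (by omega)
  have := (is_one_pretransitive_iff.1 (mt_le h3 (show 1 ≤ 3 by omega) (by rwa [Nat.card_eq_fintype_card])))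
  have hc := nat_card_ofStabilizer_add_one_eq G a
  rw [Nat.card_eq_fintype_card (α := α)] at hc
  have : Nontrivial (ofStabilizer G a) := Finite.one_lt_card_iff_nontrivial.1 (by omega)
  have h1 : ∀ (g : stabilizer G a) (b c : ofStabilizer G a), b ≠ c → g • b = b → g • c = c → g = 1 :=
    fun g b c h hb hc => Subtype.ext (hs g a b c (Ne.symm b.2) (Ne.symm c.2)
      (fun e => h (Subtype.ext e)) g.2 (congrArg Subtype.val hb) (congrArg Subtype.val hc))
  obtain ⟨M, p, j, -, h4, h5, hp, hj, h6, -⟩ := H4.exists_sharp2_kernel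
    (mt_two_iff.1 (ofStabilizer.isMultiplyPretransitive.1 h3)) h1
  rw [card_eq_of_regular h5 (fun n hn b hb => ((h4 n).1 hn).resolve_right fun h => h b hb)
    (Classical.arbitrary _)] at h6
  obtain rfl : p = 2 := by
    have : Even (p ^ j) := by rw [← h6, ← Nat.not_odd_iff_even, Nat.odd_iff]; rw [Nat.odd_iff] at hodd; omega
    exact hp.even_iff.1 (Nat.even_pow.1 this).1
  obtain ⟨F, i1, i2, hF, ⟨e⟩⟩ := S0727.result hj (by omega) G h3 fun x =>
    (Subgroup.eq_bot_iff_forall _).2 fun g hg => hs g (x 0) (x 1) (x 2) (by simp) (by simp) (by simp)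
      (DFunLike.congr_fun hg 0) (DFunLike.congr_fun hg 1) (DFunLike.congr_fun hg 2)
  have := Finite.of_equiv _ e.toEquiv
  refine ⟨j, hj, by omega, F, i1, i2, hF, ⟨e.trans (MulEquiv.ofBijective SpecialLinearGroup.toPGL
    ((Nat.bijective_iff_injective_and_card _).2 ⟨?_, (S0265.result 2).symm⟩)).symm⟩⟩
  rw [← MonoidHom.ker_eq_bot_iff, SpecialLinearGroup.toPGL_ker, Subgroup.eq_bot_iff_forall]
  intro A hA
  obtain ⟨r, h7, h8⟩ := Matrix.SpecialLinearGroup.mem_center_iff.1 hA
  have h2 : (2 : F) = 0 := by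
    have := FiniteField.cast_card_eq_zero F
    rw [hF] at this
    exact pow_eq_zero_iff (n := j) (by omega) |>.1 (by exact_mod_cast this)
  have : r = 1 := by
    have : (r - 1) ^ 2 = 0 := by
      rw [Fintype.card_fin] at h7
      linear_combination h7 + (1 - r) * h2
    exact sub_eq_zero.1 (pow_eq_zero_iff two_ne_zero |>.1 this)
  exact Subtype.ext (by rw [← h8, this]; simp)

end Cfsg.Agent.S4702
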