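import Cfsg.Statements.S4741
import Cfsg.Agent.H7.Count
-- import your own Cfsg.Agent.* helpers here

set_option autoImplicit false
open Cfsg

namespace Cfsg.Agent.S4741

open MonoidAlgebra Cfsg.Agent.H3 Cfsg.Agent.H4 Cfsg.Agent.H7
open Cfsg.Agent.H6 (Res locRing redC redA eB fB intAlg classSum omega chiL)
open scoped Pointwise
set_option linter.style.haveILetI false


/-- Let p be a prime, M a maximal ideal of the algebraic integers containing p, and D a subgroup of the finite group G. Let x₁, …, x_r be pairwise non-conjugate elements of G such that D is a Sylow p-subgroup of the centralizer of each xᵢ, and such that for any conjugates g of some xᵢ and h of some xⱼ the element g h⁻¹ is never a non-identity p-element. Then there are r distinct p-blocks B₁, …, B_r of G, each having D as a defect group, such that for every choice of characters χᵢ ∈ Bᵢ of height zero the determinant of the r × r matrix (χᵢ(xⱼ)) does not lie in the local ideal at M. -/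
theorem result {G : Type*} [Group G] [Finite G] (p : ℕ) [Fact p.Prime] (M : Ideal Cfsg.AlgInt) (hM : Cfsg.IsPModular p M) (D : Subgroup G) {r : ℕ} (x : Fin r → G) (hx : ∀ i j : Fin r, IsConj (x i) (x j) → i = j) (hD : ∀ i : Fin r, ∃ S : Sylow p ↥(Subgroup.centralizer ({x i} : Set G)), (S : Subgroup ↥(Subgroup.centralizer ({x i} : Set G))).map (Subgroup.centralizer ({x i} : Set G)).subtype = D) (hsep : ∀ i j : Fin r, ∀ g h : G, IsConj (x i) g → IsConj (x j) h → ∀ k : ℕ, 0 < k → orderOf (g * h⁻¹) ≠ p ^ k) : ∃ B : Fin r → Set (Cfsg.IrrCharacter G), Function.Injective B ∧ (∀ i : Fin r, Cfsg.IsPBlock M (B i) ∧ Cfsg.IsDefectGroup p M (B i) D) ∧ ∀ χ : Fin r → Cfsg.IrrCharacter G, (∀ i : Fin r, χ i ∈ B i ∧ Cfsg.blockHeight p (B i) (χ i : G → ℂ) = 0) → ¬ Cfsg.MemLocalIdeal M (Matrix.det (Matrix.of fun i j : Fin r => (χ i : G → ℂ) (x j))) := by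
  classical
  haveI := hM.2.1
  haveI := H6.charP_res hM
  have hp : p.Prime := Fact.out
  haveI := Fintype.ofFinite {B : Set (IrrCharacter G) // IsPBlock M B ∧ IsDefectGroup p M B D}
  replace hD : ∀ i, SylowIn p D (Subgroup.centralizer {x i}) := fun i =>
    sylowIn_iff_exists_sylow.2 (hD i)
  obtain ⟨S⟩ : Nonempty (Sylow p G) := inferInstance
  have huy : ∀ i, ∃ u y : G, u * y = x i ∧ Commute u y ∧ (∃ k : ℕ, orderOf u = p ^ k) ∧
    ¬ p ∣ orderOf y := fun i => H6.exists_isPPart hp (x i)
  choose u y hy using huy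
  have h1 : (Matrix.of fun i (B : {B : Set (IrrCharacter G) //
      IsPBlock M B ∧ IsDefectGroup p M B D}) => (eB M B.1).coeff (y i)) *
      (Matrix.of fun (B : {B : Set (IrrCharacter G) //
      IsPBlock M B ∧ IsDefectGroup p M B D}) j => lK M B.1 (x j)) = 1 := by
    ext i j
    rw [Matrix.mul_apply]
    simp only [Matrix.of_apply]
    obtain ⟨k, hk⟩ := (hy i).2.2.1
    have hk' : u i ^ p ^ k = 1 := hk ▸ pow_orderOf_eq_one _
    have h2 := redC_rr_classSum' hM S (hD j) (hy i).2.1 hk' (hy i).2.2.2 (by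
      refine Subgroup.mem_centralizer_iff.2 fun d hd => ?_
      refine Subgroup.mem_centralizer_singleton_iff.1 (H8.centralizer_mul_le (hy i).2.1 hk' (hy i).2.2.2
        (orderOf_pos _).ne' ?_)
      rw [(hy i).1]
      exact (hD i).le hd)
    rw [← h2, (hy i).1, rr_eq_ite (S : Subgroup G) ?_, Matrix.one_apply]
    · by_cases hij : i = j
      · rw [if_pos hij, if_pos (by rw [hij]), H6.redC_one]
      · rw [if_neg hij, if_neg fun h => hij (hx _ _ h), H6.redC_zero]
    · intro g h hg hh hgh
      obtain ⟨k, hk⟩ := H6.exists_orderOf_eq_of_mem hp S.isPGroup' hgh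
      rcases Nat.eq_zero_or_pos k with rfl | hk0
      · exact mul_inv_eq_one.1 (orderOf_eq_one_iff.1 hk)
      · exact absurd hk (hsep j i h g hh hg k hk0)
  obtain ⟨f, hf, hdet⟩ := exists_submatrix_det_ne_zero _ _ (by
    rw [h1, Matrix.det_one]; exact one_ne_zero)
  refine ⟨fun i => (f i).1, fun i j h => hf (Subtype.ext h), fun i => (f i).2, fun χ hχ h0 => ?_⟩
  apply hdet
  beta_reduce at hχ
  obtain ⟨e, he⟩ : ∃ e, e = (Nat.card G).factorization p - (Nat.card D).factorization p :=
    ⟨_, rfl⟩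
  have hpe : p ^ e ≠ 0 := pow_ne_zero _ hp.ne_zero
  have hpf : (p ^ e).factorization p = e := by
    rw [Nat.Prime.factorization_pow hp, Finsupp.single_eq_same]
  have hind : ∀ i, ((Subgroup.centralizer ({x i} : Set G)).index).factorization p = e := by
    intro i
    have h2 := H8.index_centralizer_factorization (p := p) (x i)
    have h3 := SylowIn.card_eq_pow (hD i)
    rw [he, h3, Nat.Prime.factorization_pow hp, Finsupp.single_eq_same]
    omega
  have hdeg : ∀ i, (charDegree (χ i : G → ℂ)).factorization p = e := by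
    intro i
    have h2 := (H8.height_eq_zero_iff (hχ i).1).1 (hχ i).2
    have h3 := H8.defect_add_bmin (p := p) ⟨_, (hχ i).1⟩
    have h4 := H8.card_defectGroup hM (f i).2.1 (f i).2.2
    rw [he, h4, Nat.Prime.factorization_pow hp, Finsupp.single_eq_same]
    omega
  have hm1 : ∀ j, ((Subgroup.centralizer ({x j} : Set G)).index : ℂ) / ((p ^ e : ℕ) : ℂ) ∈
      locRing M := fun j =>
    (H6.natCast_div_mem_iff hM Subgroup.index_ne_zero_of_finite hpe).2 (by rw [hind, hpf])
  have hm2 : ∀ i, ((p ^ e : ℕ) : ℂ) / charDegree (χ i : G → ℂ) ∈ locRing M := fun i =>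
    (H6.natCast_div_mem_iff hM hpe (H8.irr_charDegree_ne_zero _)).2 (by rw [hdeg, hpf])
  have h2 : (Matrix.of fun (B : {B : Set (IrrCharacter G) //
      IsPBlock M B ∧ IsDefectGroup p M B D}) j => lK M B.1 (x j)).submatrix f id =
      Matrix.diagonal (fun i => redC M (((p ^ e : ℕ) : ℂ) / charDegree (χ i : G → ℂ))) *
        (Matrix.of fun i j => redC M ((χ i : G → ℂ) (x j))) * Matrix.diagonal (fun j =>
        redC M (((Subgroup.centralizer ({x j} : Set G)).index : ℂ) / ((p ^ e : ℕ) : ℂ))) := by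
    ext i j
    rw [Matrix.mul_diagonal, Matrix.diagonal_mul, Matrix.submatrix_apply, Matrix.of_apply,
      Matrix.of_apply, id, lK_eq (f i).2.1 (hχ i).1, ← H6.redC_mul (hm2 i) (H6.irr_mem _ _),
      ← H6.redC_mul ((locRing M).mul_mem (hm2 i) (H6.irr_mem _ _)) (hm1 j),
      ← H6.omega_classSum (χ i).2.isClassFunction, H6.omega_apply,
      H6.chiL_classSum (χ i).2.isClassFunction, H8.irr_coe_charDegree]
    congr 1
    have : ((p ^ e : ℕ) : ℂ) ≠ 0 := Nat.cast_ne_zero.2 hpe
    field_simp
  rw [h2, Matrix.det_mul, Matrix.det_mul]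
  have h3 : (Matrix.of fun i j => redC M ((χ i : G → ℂ) (x j))).det = 0 := by
    rw [← H6.redC_eq_zero_of_memLocalIdeal h0, Matrix.det_apply', Matrix.det_apply']
    simp only [Matrix.of_apply]
    rw [H6.redC_sum _ fun σ _ => (locRing M).mul_mem (intCast_mem _ _)
        (Subring.prod_mem _ fun i _ => H6.irr_mem _ _)]
    refine Finset.sum_congr rfl fun σ _ => ?_
    rw [H6.redC_mul (intCast_mem _ _) (Subring.prod_mem _ fun i _ => H6.irr_mem _ _),
      H6.redC_intCast, H6.redC_prod _ fun i _ => H6.irr_mem _ _]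
  rw [h3, mul_zero, zero_mul]

end Cfsg.Agent.S4741
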