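import Cfsg.Statements.S4742
import Cfsg.Agent.H7.Invol
-- import your own Cfsg.Agent.* helpers here

set_option autoImplicit false
open Cfsg

namespace Cfsg.Agent.S4742

open MonoidAlgebra Cfsg.Agent.H3 Cfsg.Agent.H4 Cfsg.Agent.H7
open Cfsg.Agent.H6 (Res locRing redC redA eB fB intAlg classSum omega chiL)
open scoped Pointwise
set_option linter.style.haveILetI false


/-- Let p ≠ q be primes dividing the order of the finite group G, and suppose the centralizer of every non-identity p-element of G has order prime to q. Then either G has an irreducible character of p-defect zero, or for every non-identity q-element z of G there are conjugates g, h of z such that g h⁻¹ is a non-identity p-element. -/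
theorem result {G : Type*} [Group G] [Finite G] (p q : ℕ) [Fact p.Prime] [Fact q.Prime] (hppq : p ≠ q) (hpG : p ∣ Nat.card G) (hqG : q ∣ Nat.card G) (hC : ∀ g : G, g ≠ 1 → (∃ k : ℕ, orderOf g = p ^ k) → ¬ q ∣ Nat.card ↥(Subgroup.centralizer ({g} : Set G))) : (∃ χ : Cfsg.IrrCharacter G, (Cfsg.charDegree (χ : G → ℂ)).factorization p = (Nat.card G).factorization p) ∨ ∀ z : G, z ≠ 1 → (∃ k : ℕ, orderOf z = q ^ k) → ∃ g h : G, IsConj z g ∧ IsConj z h ∧ g * h⁻¹ ≠ 1 ∧ ∃ k : ℕ, orderOf (g * h⁻¹) = p ^ k := by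
  rw [or_iff_not_imp_left]
  intro h z hz1 ⟨k, hk⟩
  push Not at h
  obtain ⟨M, hM⟩ := H6.exists_isPModular (Fact.out : p.Prime)
  haveI := hM.2.1
  have hp1 : (1 : ℕ) ≠ p := (Fact.out : p.Prime).one_lt.ne
  obtain ⟨t, ht, hc⟩ := exists_order_p_of_no_defect_zero hM (z := z) (fun h1 => by
    obtain ⟨u, hu, hup⟩ := exists_orderOf_eq_of_dvd_card h1
    refine hC u (by rintro rfl; exact hp1 (by simpa using hup)) ⟨1, by simpa using hup⟩ ?_
    refine dvd_trans ?_ (Subgroup.orderOf_dvd_natCard _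
      (Subgroup.mem_centralizer_singleton_iff.2 (Subgroup.mem_centralizer_singleton_iff.1 hu).symm))
    rw [hk]
    refine dvd_pow_self _ ?_
    rintro rfl
    exact hz1 (by simpa using hk)) h
  have h1 : orderOf (z * (z * t⁻¹)⁻¹) = p := by
    rw [show z * (z * t⁻¹)⁻¹ = z * t * z⁻¹ by group, H6.orderOf_conj', ht]
  refine ⟨z, z * t⁻¹, IsConj.refl _, hc, fun h2 => hp1 ?_, 1, by rw [h1, pow_one]⟩
  rw [← h1, h2, orderOf_one]

end Cfsg.Agent.S4742
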