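import Cfsg.Statements.S4743
import Cfsg.Agent.H7.Invol
-- import your own Cfsg.Agent.* helpers here

set_option autoImplicit false
open Cfsg

namespace Cfsg.Agent.S4743

open MonoidAlgebra Cfsg.Agent.H3 Cfsg.Agent.H4 Cfsg.Agent.H7
open Cfsg.Agent.H6 (Res locRing redC redA eB fB intAlg classSum omega chiL)
open scoped Pointwise
set_option linter.style.haveILetI false


theorem aux {G : Type*} [Group G] [Finite G] (p q : ℕ) [Fact p.Prime] [Fact q.Prime] (hppq : p ≠ q)
    (hpG : p ∣ Nat.card G) (hsolv : IsPSolvable p G) : ∃ L : Subgroup G, L.Normal ∧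
      ((p ∣ Nat.card L ∧ ¬ q ∣ Nat.card L) ∨ (q ∣ Nat.card L ∧ ¬ p ∣ Nat.card L)) := by
  obtain ⟨n, H, h0, h1, hm, hn, hs⟩ := hsolv
  by_contra h
  have hp : p.Prime := Fact.out
  have hq : q.Prime := Fact.out
  have : ∀ i, ¬ p ∣ Nat.card (H i) ∧ ¬ q ∣ Nat.card (H i) := by
    intro i
    induction i using Fin.induction with
    | zero => rw [h0, Subgroup.card_bot]; exact ⟨hp.not_dvd_one, hq.not_dvd_one⟩
    | succ i ih =>
      have e := card_eq_card_mul_relIndex (hm (Fin.castSucc_le_succ i))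
      rcases hs i with ⟨m, h2⟩ | h2
      · have h3 : ¬ q ∣ Nat.card (H i.succ) := by
          rw [e, h2, hq.dvd_mul]
          exact fun h3 => h3.elim ih.2 fun h4 =>
            hppq ((Nat.prime_dvd_prime_iff_eq hq hp).1 (hq.dvd_of_dvd_pow h4)).symm
        exact ⟨fun h4 => h ⟨_, hn _, Or.inl ⟨h4, h3⟩⟩, h3⟩
      · have h3 : ¬ p ∣ Nat.card (H i.succ) := by
          rw [e, hp.dvd_mul]
          exact fun h3 => h3.elim ih.1 ((Nat.Prime.coprime_iff_not_dvd hp).1 h2.symm)
        exact ⟨h3, fun h4 => h ⟨_, hn _, Or.inr ⟨h4, h3⟩⟩⟩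
  have h2 := (this (Fin.last n)).1
  rw [h1, Subgroup.card_top] at h2
  exact h2 hpG

/-- Let p ≠ q be primes dividing the order of the finite group G, suppose the centralizer of every non-identity p-element has order prime to q, and suppose G is p-solvable or q-solvable. Then G has an irreducible character of p-defect zero or an irreducible character of q-defect zero. -/
theorem result {G : Type*} [Group G] [Finite G] (p q : ℕ) [Fact p.Prime] [Fact q.Prime] (hppq : p ≠ q) (hpG : p ∣ Nat.card G) (hqG : q ∣ Nat.card G) (hC : ∀ g : G, g ≠ 1 → (∃ k : ℕ, orderOf g = p ^ k) → ¬ q ∣ Nat.card ↥(Subgroup.centralizer ({g} : Set G))) (hsolv : Cfsg.IsPSolvable p G ∨ Cfsg.IsPSolvable q G) : (∃ χ : Cfsg.IrrCharacter G, (Cfsg.charDegree (χ : G → ℂ)).factorization p = (Nat.card G).factorization p) ∨ (∃ χ : Cfsg.IrrCharacter G, (Cfsg.charDegree (χ : G → ℂ)).factorization q = (Nat.card G).factorization q) := by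
  have hp : p.Prime := Fact.out
  have h1 : ∀ u : G, orderOf u = p → ¬ q ∣ Nat.card (Subgroup.centralizer ({u} : Set G)) :=
    fun u hu => hC u (by rintro rfl; exact hp.one_lt.ne (by simpa using hu)) ⟨1, by simpa using hu⟩
  have h2 : ∀ z : G, orderOf z = q → ¬ p ∣ Nat.card (Subgroup.centralizer ({z} : Set G)) := by
    intro z hz h
    obtain ⟨u, hu, hup⟩ := exists_orderOf_eq_of_dvd_card h
    exact h1 u hup (hz ▸ Subgroup.orderOf_dvd_natCard _
      (Subgroup.mem_centralizer_singleton_iff.2 (Subgroup.mem_centralizer_singleton_iff.1 hu).symm))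
  have h3 : ∃ L : Subgroup G, L.Normal ∧
      ((p ∣ Nat.card L ∧ ¬ q ∣ Nat.card L) ∨ (q ∣ Nat.card L ∧ ¬ p ∣ Nat.card L)) := by
    rcases hsolv with h | h
    · exact aux p q hppq hpG h
    · obtain ⟨L, hL, h⟩ := aux q p hppq.symm hqG h
      exact ⟨L, hL, h.symm⟩
  obtain ⟨L, hL, h | h⟩ := h3
  · obtain ⟨u, hu, hup⟩ := exists_orderOf_eq_of_dvd_card h.1
    exact Or.inr (exists_defect_zero_of_normal h.2 hu (h1 u hup))
  · obtain ⟨u, hu, hup⟩ := exists_orderOf_eq_of_dvd_card h.1
    exact Or.inl (exists_defect_zero_of_normal h.2 hu (h2 u hup))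

end Cfsg.Agent.S4743
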