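import Cfsg.Statements.S4746
import Cfsg.Agent.H7.Invol
-- import your own Cfsg.Agent.* helpers here

set_option autoImplicit false
open Cfsg

namespace Cfsg.Agent.S4746

open MonoidAlgebra Cfsg.Agent.H3 Cfsg.Agent.H4 Cfsg.Agent.H7
open Cfsg.Agent.H6 (Res locRing redC redA eB fB intAlg classSum omega chiL)
open scoped Pointwise
set_option linter.style.haveILetI false


/-- Let p be an odd prime and G a finite group of even order divisible by p in which the centralizer of every non-identity p-element has odd order. Then G has an irreducible character of p-defect zero or an irreducible character of even degree. -/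
theorem result {G : Type*} [Group G] [Finite G] (p : ℕ) [Fact p.Prime] (hp2 : p ≠ 2) (hpG : p ∣ Nat.card G) (h2G : 2 ∣ Nat.card G) (hC : ∀ g : G, g ≠ 1 → (∃ k : ℕ, orderOf g = p ^ k) → Odd (Nat.card ↥(Subgroup.centralizer ({g} : Set G)))) : (∃ χ : Cfsg.IrrCharacter G, (Cfsg.charDegree (χ : G → ℂ)).factorization p = (Nat.card G).factorization p) ∨ ∃ χ : Cfsg.IrrCharacter G, Even (Cfsg.charDegree (χ : G → ℂ)) := by
  rw [or_iff_not_imp_left]
  intro h
  push Not at h
  haveI : Fact (Nat.Prime 2) := Nat.fact_prime_two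
  have hp : p.Prime := Fact.out
  have h2p : ∀ g : G, orderOf g ≠ 2 * p := by
    intro g hg
    have h1 : orderOf (g ^ 2) = p := by
      rw [orderOf_pow_of_dvd two_ne_zero (hg ▸ dvd_mul_right _ _), hg]; simp
    have h2 := hC (g ^ 2) (fun h => hp.one_lt.ne (by rw [← h1, h, orderOf_one]))
      ⟨1, by rw [h1, pow_one]⟩
    have h3 := Odd.of_dvd_nat h2 (Subgroup.orderOf_dvd_natCard _ (x := g)
      (Subgroup.mem_centralizer_singleton_iff.2 (by group)))
    rw [hg] at h3
    exact (Nat.not_even_iff_odd.2 h3) (even_two_mul p)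
  obtain ⟨t, ht⟩ := exists_prime_orderOf_dvd_card' 2 h2G
  obtain ⟨P⟩ : Nonempty (Sylow p G) := inferInstance
  obtain ⟨hP, s, -, hs⟩ := exists_inverts_sylow hp2 h2p h ht P
  obtain ⟨u, hu, hup⟩ := exists_orderOf_eq_prime P.isPGroup' hP
  have hu1 : u ≠ 1 := fun h => hp.one_lt.ne (by rw [← hup, h, orderOf_one])
  exact exists_even_degree hu1 (isConj_iff.2 ⟨s, hs u hu⟩) (hC u hu1 ⟨1, by rw [hup, pow_one]⟩)

end Cfsg.Agent.S4746
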