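import Cfsg.Statements.S4748
import Mathlib
import Cfsg.Agent.H8.TI1

set_option autoImplicit false
open scoped Pointwise
open Cfsg

namespace Cfsg.Agent.S4748

open scoped ComplexConjugate commutatorElement Pointwise
-- OPENS H1
open Cfsg.Agent.H8
open Cfsg.Agent.H6
open Cfsg.Agent.H4 hiding exists_int_of_isIntegral_rat
open Cfsg.Agent.H5
open Cfsg.Agent.H3
open Cfsg.Agent.H1 hiding card_conj_smul card_lt_of_lt card_sup_mul_card_inf
  commutator_le_frattini exists_centralizer_smul_eq index_conj_smul index_eq_of_isCoatom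
  mem_conj_smul normal_of_isCoatom pow_mem_frattini


/-- Let G be a finite p-solvable group whose Sylow p-subgroup P meets each conjugate g P g⁻¹ with g outside N_G(P) trivially, and let χ be a faithful character of G (χ g = χ 1 only for g = 1) whose degree d satisfies d² ≤ |P|. Then P is normal in G. -/
theorem result {G : Type*} [Group G] [Finite G] (p : ℕ) [Fact p.Prime] (hsolv : Cfsg.IsPSolvable p G) (P : Sylow p G) (hTI : ∀ g : G, g ∉ Subgroup.normalizer ((P : Subgroup G) : Set G) → (P : Subgroup G) ⊓ (MulAut.conj g • (P : Subgroup G)) = ⊥) (χ : G → ℂ) (hχ : Cfsg.IsCharacter G χ) (hfaith : ∀ g : G, χ g = χ 1 → g = 1) (hdeg : Cfsg.charDegree χ ^ 2 ≤ Nat.card ↥(P : Subgroup G)) : (P : Subgroup G).Normal := by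
  by_contra hn
  obtain ⟨g, hg⟩ := not_forall.mp (mt (Subgroup.eq_top_iff' _).mpr (mt Subgroup.normalizer_eq_top_iff.mp hn))
  have h1 : pCore p G = ⊥ := by
    rw [eq_bot_iff, ← hTI g hg]
    exact le_inf (pCore_le_sylow P) (pCore_le_sylow (g • P))
  have h2 := inf_pPrimeCore_eq_bot P.isPGroup'
  have h3 : (P : Subgroup G) ≠ ⊥ := fun h => hn (h ▸ inferInstance)
  refine absurd hdeg (card_lt_degree_sq (N := pPrimeCore p G) (isSolvable_of_isPGroup P.isPGroup') h3
    Subgroup.le_normalizer_of_normal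
    (coprime_card_of_isPGroup_of_coprime P.isPGroup' (coprime_card_pPrimeCore p G)) (fun n hn x hx hx1 h => ?_)
    (fun h => h3 (le_bot_iff.mp (h2 ▸ le_inf le_rfl ((Subgroup.le_centralizer_iff.mp h).trans
      (Cfsg.Agent.H9.centralizer_pPrimeCore_le_of_isPSolvable hsolv h1))))) hχ hfaith).not_ge
  have h4 : n ∈ Subgroup.normalizer ((P : Subgroup G) : Set G) := by
    by_contra h4
    exact hx1 (Subgroup.mem_bot.mp (hTI n h4 ▸ Subgroup.mem_inf.mpr ⟨hx, mem_conj_smul.mpr (by
      rwa [mul_assoc, ← h, inv_mul_cancel_left])⟩))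
  intro y hy
  have h5 : y * (n * y⁻¹ * n⁻¹) ∈ (P : Subgroup G) ⊓ pPrimeCore p G :=
    ⟨mul_mem hy ((Subgroup.mem_normalizer_iff.mp h4 _).mp (inv_mem hy)), by
      simpa [mul_assoc] using mul_mem (Subgroup.Normal.conj_mem inferInstance n hn y) (inv_mem hn)⟩
  rw [h2, Subgroup.mem_bot] at h5
  rw [← mul_inv_eq_one, ← h5]
  group

end Cfsg.Agent.S4748
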