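import Cfsg.Statements.S4754
import Mathlib
import Cfsg.Agent.H8.Ord1

set_option autoImplicit false
open Cfsg

namespace Cfsg.Agent.S4754

open scoped ComplexConjugate
-- OPENS
open Cfsg.Agent.H8
open Cfsg.Agent.H4
open Cfsg.Agent.H5
open Cfsg.Agent.H3


/-- For elements x, y of a finite group G, the conjugacy class of x y equals the set of all products of a conjugate of x with a conjugate of y if and only if χ(1) χ(a x a⁻¹ b y b⁻¹) = χ(x) χ(y) for all a, b ∈ G and every irreducible character χ. -/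
theorem result {G : Type*} [Group G] [Finite G] (x y : G) : (∀ z : G, IsConj (x * y) z ↔ ∃ a b : G, z = a * x * a⁻¹ * (b * y * b⁻¹)) ↔ ∀ (a b : G) (χ : Cfsg.IrrCharacter G), (χ : G → ℂ) 1 * (χ : G → ℂ) (a * x * a⁻¹ * (b * y * b⁻¹)) = (χ : G → ℂ) x * (χ : G → ℂ) y := by
  have := Fintype.ofFinite G
  constructor
  · intro h a b χ
    have h1 := χ.2.sum_conj_mul x y
    have h2 : ∀ c : G, (χ : G → ℂ) (c * x * c⁻¹ * y) = (χ : G → ℂ) (x * y) := fun c =>
      (χ.2.isClassFunction.of_isConj ((h _).mpr ⟨c, 1, by simp⟩)).symm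
    simp only [h2, Finset.sum_const, Finset.card_univ, nsmul_eq_mul,
      Fintype.card_eq_nat_card] at h1
    rw [← χ.2.isClassFunction.of_isConj ((h _).mpr ⟨a, b, rfl⟩)]
    have h3 := χ.2.apply_one_ne_zero
    have h4 := natCard_ne_zero' (G := G)
    field_simp at h1
    linear_combination h1
  · intro h z
    constructor
    · intro hz
      obtain ⟨c, rfl⟩ := isConj_iff.mp hz
      exact ⟨c, c, by group⟩
    · rintro ⟨a, b, rfl⟩
      rw [isConj_iff_forall_irr]
      intro χ
      have h1 := h 1 1 χ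
      rw [← h a b χ] at h1
      simpa using mul_left_cancel₀ χ.2.apply_one_ne_zero h1

end Cfsg.Agent.S4754
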