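import Cfsg.Statements.S4755
import Mathlib
import Cfsg.Agent.H8.Ord1

set_option autoImplicit false
open Cfsg

namespace Cfsg.Agent.S4755

open scoped ComplexConjugate commutatorElement
-- OPENS
open Cfsg.Agent.H8
open Cfsg.Agent.H4
open Cfsg.Agent.H5
open Cfsg.Agent.H3


/-- Let x, y be non-identity elements of the finite group G such that χ(x' y') = χ(x') χ(y') for all conjugates x' of x, y' of y and every irreducible character χ. Then the conjugacy class of x y is the set of all products of a conjugate of x with a conjugate of y; every irreducible character of degree greater than 1 vanishes at x y; and the conjugacy class of x y is the coset of the commutator subgroup containing x y. -/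
theorem result {G : Type*} [Group G] [Finite G] (x y : G) (hx : x ≠ 1) (hy : y ≠ 1) (h : ∀ (a b : G) (χ : Cfsg.IrrCharacter G), (χ : G → ℂ) (a * x * a⁻¹ * (b * y * b⁻¹)) = (χ : G → ℂ) (a * x * a⁻¹) * (χ : G → ℂ) (b * y * b⁻¹)) : (∀ z : G, IsConj (x * y) z ↔ ∃ a b : G, z = a * x * a⁻¹ * (b * y * b⁻¹)) ∧ (∀ χ : Cfsg.IrrCharacter G, (χ : G → ℂ) 1 ≠ 1 → (χ : G → ℂ) (x * y) = 0) ∧ (∀ z : G, IsConj (x * y) z ↔ (x * y)⁻¹ * z ∈ commutator G) := by
  classical
  have := Fintype.ofFinite G
  have h0 : ∀ (a b : G) (χ : IrrCharacter G), (χ : G → ℂ) (a * x * a⁻¹ * (b * y * b⁻¹)) =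
      (χ : G → ℂ) (x * y) := by
    intro a b χ
    have h1 := h 1 1 χ
    simp only [one_mul, inv_one, mul_one] at h1
    rw [h, h1, χ.2.isClassFunction x a, χ.2.isClassFunction y b]
  have hB : ∀ χ : IrrCharacter G, (χ : G → ℂ) 1 ≠ 1 → (χ : G → ℂ) (x * y) = 0 := by
    intro χ hχ
    have h1 := χ.2.sum_conj_mul x y
    have h2 : ∀ c : G, (χ : G → ℂ) (c * x * c⁻¹ * y) = (χ : G → ℂ) (x * y) := fun c => by
      simpa using h0 c 1 χ
    simp only [h2, Finset.sum_const, Finset.card_univ, nsmul_eq_mul,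
      Fintype.card_eq_nat_card] at h1
    have h3 := χ.2.apply_one_ne_zero
    have h4 := natCard_ne_zero' (G := G)
    have h5 := h 1 1 χ
    simp only [one_mul, inv_one, mul_one] at h5
    field_simp at h1
    have h6 : (χ : G → ℂ) (x * y) * ((χ : G → ℂ) 1 - 1) = 0 := by linear_combination h1 - h5
    exact (mul_eq_zero.mp h6).resolve_right (sub_ne_zero.mpr hχ)
  refine ⟨fun z => ⟨fun hz => ?_, ?_⟩, hB, fun z => ⟨fun hz => ?_, fun hz => ?_⟩⟩
  · obtain ⟨c, rfl⟩ := isConj_iff.mp hz
    exact ⟨c, c, by group⟩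
  · rintro ⟨a, b, rfl⟩
    rw [isConj_iff_forall_irr]
    exact fun χ => (h0 a b χ).symm
  · obtain ⟨c, rfl⟩ := isConj_iff.mp hz
    have : (x * y)⁻¹ * (c * (x * y) * c⁻¹) = ⁅(x * y)⁻¹, c⁆ := by
      rw [commutatorElement_def]; group
    rw [this]
    exact Subgroup.commutator_mem_commutator (Subgroup.mem_top _) (Subgroup.mem_top _)
  · by_contra hc
    have h1 := column_orthogonality_of_not_isConj hc
    have h2 : ∀ χ : IrrCharacter G, (χ : G → ℂ) (x * y) * conj ((χ : G → ℂ) z) =
        ((‖(χ : G → ℂ) (x * y)‖ ^ 2 : ℝ) : ℂ) := by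
      intro χ
      by_cases hχ : (χ : G → ℂ) 1 = 1
      · have h3 := (χ.2.commutator_le_charKer_iff.mpr hχ) hz
        have h4 := χ.2.isClassFunction.apply_mul_of_mem_charKer' h3 (x * y)
        rw [mul_inv_cancel_left] at h4
        rw [h4, Complex.mul_conj, Complex.normSq_eq_norm_sq]
      · simp [hB χ hχ]
    simp only [h2] at h1
    have h3 : ∑ χ : IrrCharacter G, ‖(χ : G → ℂ) (x * y)‖ ^ 2 = 0 := by exact_mod_cast h1
    rw [Finset.sum_eq_zero_iff_of_nonneg (fun _ _ => by positivity)] at h3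
    simpa using h3 (irrOne G) (Finset.mem_univ _)

end Cfsg.Agent.S4755
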