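import Cfsg.Statements.S4756
import Mathlib
import Cfsg.Agent.H2.CMul

set_option autoImplicit false
open Cfsg

namespace Cfsg.Agent.S4756

/-- For a finite group G the following are equivalent. (1) χ(x y) = χ(x) χ(y) for every irreducible character χ and all non-identity elements x, y of prime power orders for two different primes. (2) G is a p-group for some prime p, or G is abelian, or for some prime p: G = A P with P a normal Sylow p-subgroup and A a nontrivial cyclic subgroup of order prime to p such that, with C = C_P(A) and D = [A, P], one has P = C D, C abelian, D normal in G, C ∩ D = 1, and A acts fixed-point-freely on D (no non-identity element of A centralizes a non-identity element of D). -/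
theorem result {G : Type*} [Group G] [Finite G] : (∀ (x y : G) (χ : Cfsg.IrrCharacter G), x ≠ 1 → y ≠ 1 → (∃ p q a b : ℕ, p.Prime ∧ q.Prime ∧ p ≠ q ∧ orderOf x = p ^ a ∧ orderOf y = q ^ b) → (χ : G → ℂ) (x * y) = (χ : G → ℂ) x * (χ : G → ℂ) y) ↔ ((∃ p : ℕ, p.Prime ∧ IsPGroup p G) ∨ IsMulCommutative G ∨ ∃ (p : ℕ) (_ : Fact p.Prime) (P : Sylow p G) (A : Subgroup G), (P : Subgroup G).Normal ∧ IsCyclic ↥A ∧ A ≠ ⊥ ∧ (Nat.card ↥A).Coprime p ∧ A ⊔ (P : Subgroup G) = ⊤ ∧ IsMulCommutative ↥((P : Subgroup G) ⊓ Subgroup.centralizer (A : Set G)) ∧ (⁅A, (P : Subgroup G)⁆).Normal ∧ ((P : Subgroup G) ⊓ Subgroup.centralizer (A : Set G)) ⊔ ⁅A, (P : Subgroup G)⁆ = (P : Subgroup G) ∧ ((P : Subgroup G) ⊓ Subgroup.centralizer (A : Set G)) ⊓ ⁅A, (P : Subgroup G)⁆ = ⊥ ∧ ∀ a ∈ A, a ≠ 1 → ∀ d ∈ ⁅A, (P : Subgroup G)⁆, a * d = d * a → d = 1) := by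
  constructor
  · intro h
    by_cases h1 : ∃ p : ℕ, p.Prime ∧ IsPGroup p G
    · exact Or.inl h1
    by_cases h2 : IsMulCommutative G
    · exact Or.inr (Or.inl h2)
    exact Or.inr (Or.inr (H2.CMul.forth h2 h1 h))
  · rintro (⟨p, hp, hG⟩ | hG | ⟨p, _, P, A, h1, h2, -, h4, h5, h6, h7, h8, -, h10⟩) x y χ hx hy
      ⟨r, q, a, b, hr, hq, hrq, ox, oy⟩
    · have := Fact.mk hp
      obtain ⟨i, hi⟩ := IsPGroup.iff_orderOf.mp hG x
      obtain ⟨j, hj⟩ := IsPGroup.iff_orderOf.mp hG y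
      exact (hrq ((H2.CMul.pow_eq hr hp hx ox hi).trans (H2.CMul.pow_eq hq hp hy oy hj).symm)).elim
    · exact H4.Cfsg.IsCharacter.map_mul_of_apply_one (H4.Cfsg.IsIrrCharacter.isCharacter χ.2)
        (H4.Cfsg.IsIrrCharacter.apply_one_eq_one_of_comm χ.2 hG.is_comm.comm) x y
    · exact H2.CMul.back P A h2 h4 h5 h6 h8 h10 x y χ hx hy hr hq hrq ox oy

end Cfsg.Agent.S4756
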