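import Cfsg.Statements.S4757
import Mathlib
import Cfsg.Agent.H8.Gal1
import Cfsg.Agent.H1.Cores
import Cfsg.Agent.H2.Prim
import Cfsg.Agent.H6.PPart

set_option autoImplicit false
open Cfsg

namespace Cfsg.Agent.S4757

open scoped ComplexConjugate commutatorElement Pointwise
-- OPENS H1
open Cfsg.Agent.H8
open Cfsg.Agent.H6 hiding block_eq_blockOf block_eq_of_mem block_nonempty centralChar_mem
  char_mem conj_char_mem deg_factorization_le irrOne_mem_principal isPBlock_blockOf
  isPBlock_principal mem_blockOf_self orderOf_conj' sameBlock_refl sameBlock_symm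
  sameBlock_trans
open Cfsg.Agent.H4 hiding exists_int_of_isIntegral_rat
open Cfsg.Agent.H5
open Cfsg.Agent.H3
open Cfsg.Agent.H1 hiding card_conj_smul card_sup_mul_card_inf index_conj_smul mem_conj_smul


/-- Let u ≠ 1 be an element of the finite group G and c a complex number such that every non-principal irreducible character χ satisfies χ(1) − χ(u) = c or χ(u) = 0. Then the following are equivalent: (a) u has order 2, G is generated by u together with O(G), the largest normal subgroup of G of odd order, and the centralizer of u is {1, u}; (b) G is not perfect; (c) c = 2. -/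
theorem result {G : Type*} [Group G] [Finite G] (u : G) (hu : u ≠ 1) (c : ℂ) (hyp : ∀ χ : Cfsg.IrrCharacter G, (χ : G → ℂ) ≠ (fun _ => (1 : ℂ)) → ((χ : G → ℂ) 1 - (χ : G → ℂ) u = c ∨ (χ : G → ℂ) u = 0)) : ((orderOf u = 2 ∧ Subgroup.zpowers u ⊔ Cfsg.oddCore G = ⊤ ∧ Subgroup.centralizer ({u} : Set G) = Subgroup.zpowers u) ↔ commutator G ≠ ⊤) ∧ (commutator G ≠ ⊤ ↔ c = 2) := by
  classical
  have hd : ∀ χ : IrrCharacter G, χ.1 1 = charDegree χ.1 := fun χ => (irr_coe_charDegree χ).symm
  have h0 : ∑ χ : IrrCharacter G, χ.1 1 * χ.1 u = 0 := sum_irr_degree_mul hu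
  have hc0 : c ≠ 0 := by
    obtain ⟨χ, h1, h2⟩ := exists_irr_apply_ne hu
    rintro rfl
    have h3 : ∑ χ : IrrCharacter G, χ.1 1 * χ.1 u = ∑ χ : IrrCharacter G, ((‖χ.1 u‖ ^ 2 : ℝ) : ℂ) :=
      Finset.sum_congr rfl fun χ _ => by
        by_cases h : χ.1 = fun _ => 1
        · simp [h]
        · rcases hyp χ h with h | h
          · rw [← sub_eq_zero.mp h, hd]; simp [sq]
          · simp [h]
    rw [h0, ← Complex.ofReal_sum, sum_irr_norm_sq, eq_comm] at h3
    exact Nat.card_pos.ne' (by exact_mod_cast h3)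
  have hlin : ∀ χ : G → ℂ, IsIrrCharacter G χ → χ 1 = 1 → χ ≠ (fun _ => 1) → χ u = -1 ∧ c = 2 := by
    intro χ h1 h2 h3
    have h4 := ne_zero_of_linear h1.isCharacter h2 u
    have h5 := (hyp ⟨χ, h1⟩ h3).resolve_right h4
    have h6 := (hyp ⟨_, h1.conj⟩ fun h => h3 (funext fun g => by
      simpa using congrArg conj (congrFun h g))).resolve_right (by simpa using h4)
    simp only [h2, map_one] at h5 h6
    have h7 := mul_conj_eq_one_of_linear h1.isCharacter h2 u
    rw [show conj (χ u) = χ u by linear_combination h5 - h6, mul_self_eq_one_iff] at h7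
    rcases h7 with h7 | h7
    · exact absurd (by rw [← h5, h7, sub_self]) hc0
    · exact ⟨h7, by rw [← h5, h7]; norm_num⟩
  have hex : commutator G ≠ ⊤ ↔ ∃ χ : IrrCharacter G, χ.1 1 = 1 ∧ χ.1 ≠ fun _ => 1 := by
    constructor
    · intro h
      obtain ⟨g, hg⟩ := not_forall.mp (mt (Subgroup.eq_top_iff' _).mpr h)
      obtain ⟨χ, h1, h2, h3⟩ := exists_irr_ker_apply_ne (commutator G) hg
      exact ⟨⟨χ, h1⟩, h1.commutator_le_charKer_iff.mp h2, fun h => h3 (by simp only at h; rw [h])⟩
    · rintro ⟨χ, h1, h2⟩ h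
      exact h2 (χ.2.charKer_eq_top_iff.mp (top_le_iff.mp (h ▸ χ.2.commutator_le_charKer_iff.mpr h1)))
  have hnn : c = 2 → ∀ χ : IrrCharacter G, χ.1 1 ≠ 1 →
      0 ≤ (χ.1 1 * χ.1 u).re ∧ ((χ.1 1 * χ.1 u).re = 0 → χ.1 u = 0) := by
    rintro rfl χ h1
    rcases hyp χ (fun h => h1 (by rw [h])) with h | h
    · have h2 : 2 ≤ charDegree χ.1 := by
        have := irr_charDegree_pos χ
        have := mt (irr_charDegree_eq_one_iff χ).mp h1
        omega
      obtain ⟨m, hm⟩ := Nat.exists_eq_add_of_le h2
      have h3 : χ.1 u = m := by rw [hd, hm] at h; push_cast at h; linear_combination -h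
      rw [h3, hd, ← Nat.cast_mul, Complex.natCast_re]
      refine ⟨Nat.cast_nonneg _, fun h => ?_⟩
      have : m = 0 := (Nat.mul_eq_zero.mp (by exact_mod_cast h)).resolve_left (by omega)
      simp [this]
    · simp [h]
  refine ⟨⟨fun ⟨h1, h2, _⟩ h => ?_, fun h => ?_⟩, fun h => ?_, fun h => ?_⟩
  · have h3 : commutator G ≤ oddCore G := by
      rw [commutator_def, ← h2]
      refine (Subgroup.commutator_le).mpr fun a ha b hb => ?_
      obtain ⟨x, ⟨i, rfl⟩, y, hy, rfl⟩ := Subgroup.mem_sup_of_normal_right.mp ha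
      obtain ⟨x', ⟨j, rfl⟩, y', hy', rfl⟩ := Subgroup.mem_sup_of_normal_right.mp hb
      rw [← QuotientGroup.eq_one_iff, ← QuotientGroup.mk'_apply, map_commutatorElement,
        commutatorElement_eq_one_iff_commute]
      simp only [QuotientGroup.mk'_apply, QuotientGroup.mk_mul, (QuotientGroup.eq_one_iff _).mpr hy,
        (QuotientGroup.eq_one_iff _).mpr hy', mul_one, QuotientGroup.mk_zpow]
      exact Commute.zpow_zpow_self _ _ _
    have h4 := Subgroup.orderOf_dvd_natCard _ (h3 (h ▸ Subgroup.mem_top u))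
    rw [h1] at h4
    exact not_dvd_card_pPrimeCore 2 G h4
  · obtain ⟨lam, h1, h2⟩ := hex.mp h
    obtain ⟨h3, hc⟩ := hlin _ lam.2 h1 h2
    have h4 : ∀ χ : IrrCharacter G, χ.1 1 = 1 → χ = irrOne G ∨ χ = lam := fun χ h4 => by
      by_contra h5
      rw [not_or] at h5
      have h6 := (hlin _ χ.2 h4 fun h => h5.1 (Subtype.ext h)).1
      have h7 := (hlin _ (isIrr_mul_of_linear χ.2.isCharacter h4 lam.2.conj) (by simp [h4, h1]) fun h =>
        h5.2 (Subtype.ext (funext fun g => by
          have := congrFun h g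
          rw [← mul_conj_eq_one_of_linear lam.2.isCharacter h1 g] at this
          exact mul_right_cancel₀ (by simpa using ne_zero_of_linear lam.2.isCharacter h1 g) this))).1
      norm_num [h6, h3] at h7
    have h5 : lam ≠ irrOne G := fun h => h2 (congrArg Subtype.val h)
    have hs : ∀ {A : Type} [AddCommMonoid A] (F : IrrCharacter G → A), ∑ χ, F χ = F (irrOne G) + (F lam +
        ∑ χ ∈ (Finset.univ.erase (irrOne G)).erase lam, F χ) := fun F => by
      rw [Finset.add_sum_erase _ _ (by simp [h5]), Finset.add_sum_erase _ _ (Finset.mem_univ _)]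
    have h6 : ∀ χ ∈ (Finset.univ.erase (irrOne G)).erase lam, χ.1 1 ≠ 1 := fun χ hχ h => by
      simp only [Finset.mem_erase] at hχ
      exact (h4 χ h).elim hχ.2.1 hχ.1
    have h7 : ∀ χ ∈ (Finset.univ.erase (irrOne G)).erase lam, χ.1 u = 0 := fun χ hχ => by
      refine (hnn hc χ (h6 χ hχ)).2 ((Finset.sum_eq_zero_iff_of_nonneg
        fun χ hχ => (hnn hc χ (h6 χ hχ)).1).mp ?_ χ hχ)
      have := congrArg Complex.re h0
      rw [hs, h1, h3] at this
      simpa using this
    have h8 := sum_irr_norm_sq u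
    rw [hs, h3, Finset.sum_eq_zero fun χ hχ => by simp [h7 χ hχ]] at h8
    have h9 : Nat.card (Subgroup.centralizer ({u} : Set G)) = 2 := by
      have : ((Nat.card (Subgroup.centralizer ({u} : Set G)) : ℕ) : ℝ) = 2 := by rw [← h8]; norm_num
      exact_mod_cast this
    have h10 : Subgroup.zpowers u ≤ Subgroup.centralizer {u} := by
      simp [Subgroup.mem_centralizer_singleton_iff]
    have h11 : orderOf u = 2 := ((Nat.dvd_prime Nat.prime_two).mp
      (h9 ▸ Subgroup.orderOf_dvd_natCard _ (h10 (Subgroup.mem_zpowers u)))).resolve_left (by simpa using hu)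
    have h12 : Subgroup.centralizer {u} = Subgroup.zpowers u :=
      (Subgroup.eq_of_le_of_card_ge h10 (by rw [h9, Nat.card_zpowers, h11])).symm
    have h13 : (commutator G).index = 2 := by
      rw [← card_irr_degree_one, Nat.card_eq_two_iff]
      refine ⟨⟨irrOne G, rfl⟩, ⟨lam, h1⟩, fun h => h5 (congrArg Subtype.val h).symm, Set.eq_univ_of_forall ?_⟩
      rintro ⟨χ, hχ⟩
      exact (h4 χ hχ).imp Subtype.ext Subtype.ext
    have h14 : u ∉ commutator G := fun h => by
      have := apply_of_mem_charKer (lam.2.commutator_le_charKer_iff.mpr h1 h)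
      norm_num [h1, h3] at this
    have h15 : commutator G ⊓ Subgroup.centralizer (Subgroup.zpowers u : Set G) = ⊥ := by
      rw [centralizer_zpowers, h12, eq_bot_iff]
      rintro x ⟨hx, hx'⟩
      by_contra h
      exact h14 ((Subgroup.zpowers_le.mpr hx) ((Subgroup.eq_of_le_of_card_ge (Subgroup.zpowers_le.mpr hx') (by
        rw [Nat.card_zpowers, Nat.card_zpowers, h11]
        have := orderOf_pos x
        have := mt orderOf_eq_one_iff.mp h
        omega)).ge (Subgroup.mem_zpowers u)))
    have h16 : commutator G ≤ oddCore G := le_pPrimeCore (by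
      have := Cfsg.Agent.H2.card_modEq_card_inf_centralizer (q := 2) (Q := Subgroup.zpowers u) (V := commutator G)
        (IsPGroup.of_card (n := 1) (by rw [Nat.card_zpowers, h11, pow_one])) Subgroup.le_normalizer_of_normal
      rw [h15, Subgroup.card_bot] at this
      exact Nat.coprime_two_right.mpr (Nat.odd_iff.mpr this))
    refine ⟨h11, ?_, h12⟩
    rw [← Subgroup.index_eq_one]
    refine ((Nat.dvd_prime Nat.prime_two).mp (h13 ▸ Subgroup.index_dvd_of_le (h16.trans le_sup_right))).resolve_right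
      fun h => h14 ?_
    have := Subgroup.relIndex_mul_index (h16.trans (le_sup_right (a := Subgroup.zpowers u)))
    rw [h, h13] at this
    exact Subgroup.relIndex_eq_one.mp (Nat.eq_of_mul_eq_mul_right two_pos (this.trans (one_mul 2).symm)) (Subgroup.mem_sup_left (Subgroup.mem_zpowers u))
  · obtain ⟨lam, h1, h2⟩ := hex.mp h
    exact (hlin _ lam.2 h1 h2).2
  · refine hex.mpr ?_
    by_contra h1
    push Not at h1
    have := congrArg Complex.re h0
    rw [← Finset.add_sum_erase _ _ (Finset.mem_univ (irrOne G)), Complex.add_re, Complex.re_sum] at this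
    have h2 := Finset.sum_nonneg (s := Finset.univ.erase (irrOne G)) fun χ hχ =>
      (hnn h χ fun h => Finset.ne_of_mem_erase hχ (Subtype.ext (h1 χ h))).1
    simp only [irrOne_apply, mul_one, Complex.one_re, Complex.zero_re] at this
    linarith

end Cfsg.Agent.S4757
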