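import Cfsg.Statements.S4762
import Mathlib
import Cfsg.Agent.H8.Deg7

set_option autoImplicit false
open Cfsg

namespace Cfsg.Agent.S4762

open scoped ComplexConjugate commutatorElement Pointwise
-- OPENS H8
open Cfsg.Agent.H8
open Cfsg.Agent.H6 hiding blockCoeff_eq_zero blockDefect_eq blockHeight_eq blockPart_add
  blockPart_eq_zero_of_regular blockPart_eq_zero_of_singular blockPart_irr_of_mem
  blockPart_irr_of_not_mem blockPart_isClassFunction blockPart_smul blockPart_sub blockPart_sum
  blockPart_zero block_eq_blockOf block_eq_of_mem block_nonempty centralChar_mem char_mem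
  conj_char_mem deg_factorization_le exists_height_zero irrOne_mem_principal isPBlock_blockOf
  isPBlock_principal mem_blockOf_self orderOf_conj' sameBlock_refl sameBlock_symm
  sameBlock_trans weak_orth weak_orth'
open Cfsg.Agent.H4 hiding exists_int_of_isIntegral_rat
open Cfsg.Agent.H5
open Cfsg.Agent.H3 hiding mem_of_pow_mem_of_coprime


/-- Let p be a prime and G a finite nilpotent group. Then G has exactly one irreducible complex character of degree divisible by p if and only if p = 2 and G is an extraspecial 2-group. -/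
theorem result {G : Type*} [Group G] [Finite G] [Group.IsNilpotent G] (p : ℕ) [Fact p.Prime] : Nat.card {χ : Cfsg.IrrCharacter G // p ∣ Cfsg.charDegree (χ : G → ℂ)} = 1 ↔ (p = 2 ∧ Cfsg.IsExtraspecial 2 G) := by
  refine ⟨fun h => ?_, fun ⟨h1, h2⟩ => h1 ▸ H8.card_even_degree_of_extraspecial h2⟩
  obtain ⟨h1, ⟨⟨χ, hχ⟩⟩⟩ := Nat.card_eq_one_iff_unique.1 h
  exact H8.extraspecial_of_unique χ.2 hχ fun ψ hψ h2 =>
    congrArg (fun x => x.1.1) (h1.elim ⟨⟨ψ, hψ⟩, h2⟩ ⟨χ, hχ⟩)

end Cfsg.Agent.S4762
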