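import Cfsg.Statements.S4763
import Mathlib
import Cfsg.Agent.H8.Glaub4
import Cfsg.Agent.S4452

set_option autoImplicit false
open Cfsg

namespace Cfsg.Agent.S4763

open scoped ComplexConjugate commutatorElement Pointwise
-- OPENS
open Cfsg.Agent.H8
open Cfsg.Agent.H6 hiding block_eq_blockOf block_eq_of_mem block_nonempty centralChar_mem
  char_mem conj_char_mem irrOne_mem_principal isPBlock_blockOf isPBlock_principal
  mem_blockOf_self sameBlock_refl sameBlock_symm sameBlock_trans
open Cfsg.Agent.H4 hiding exists_int_of_isIntegral_rat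
open Cfsg.Agent.H5
open Cfsg.Agent.H3


/-- Let p be a prime and G a finite group that is not nilpotent and has a normal p-complement (a normal subgroup of order prime to p and index a power of p). If G has exactly one irreducible complex character of degree divisible by p, then G has exactly one conjugacy class whose size is divisible by p. -/
theorem result {G : Type*} [Group G] [Finite G] (p : ℕ) [Fact p.Prime] (hnil : ¬ Group.IsNilpotent G) (N : Subgroup G) [N.Normal] (hN : (Nat.card N).Coprime p) (hidx : ∃ k : ℕ, N.index = p ^ k) (hone : Nat.card {χ : Cfsg.IrrCharacter G // p ∣ Cfsg.charDegree (χ : G → ℂ)} = 1) : Nat.card {C : ConjClasses G // p ∣ Nat.card C.carrier} = 1 := by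
  classical
  have hp : p.Prime := Fact.out
  have := Fintype.ofFinite G
  have := Fintype.ofFinite N
  obtain ⟨P⟩ : Nonempty (Sylow p G) := inferInstance
  obtain ⟨k, hk⟩ := hidx
  have htop : N ⊔ (P : Subgroup G) = ⊤ := by
    rw [← Subgroup.index_eq_one]
    exact Nat.eq_one_of_dvd_coprimes (Nat.Coprime.pow_left k ((Nat.Prime.coprime_iff_not_dvd hp).mpr
      P.not_dvd_index)) (hk ▸ Subgroup.index_dvd_of_le le_sup_left)
      (Subgroup.index_dvd_of_le le_sup_right)
  have hcop : (Nat.card N).Coprime (Nat.card (P : Subgroup G)) :=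
    (H1.coprime_card_of_isPGroup_of_coprime P.isPGroup' hN).symm
  obtain ⟨⟨⟨χ₀, hχ₀⟩⟩, hsub⟩ := (Nat.card_eq_one_iff_unique.mp hone).symm
  have huniq : ∀ χ χ' : IrrCharacter G, p ∣ charDegree χ.1 → p ∣ charDegree χ'.1 → χ = χ' :=
    fun χ χ' h h' => congrArg Subtype.val (hsub.elim ⟨χ, h⟩ ⟨χ', h'⟩)
  have hdvd : ∀ n : ℕ, n ∣ N.index → n ≠ 1 → p ∣ n := fun n h1 h2 => by
    obtain ⟨i, -, rfl⟩ := (Nat.dvd_prime_pow hp).mp (hk ▸ h1)
    exact dvd_pow_self _ (by rintro rfl; simp at h2)
  have hab : ∀ a b : G ⧸ N, a * b = b * a := by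
    rw [comm_iff_forall_irr_degree_one]
    by_contra h
    push Not at h
    obtain ⟨β, hβ⟩ := h
    have h1 : p ∣ charDegree β.1 := hdvd _ β.2.charDegree_dvd_card
      fun h => hβ ((irr_charDegree_eq_one_iff β).mp h)
    have h2 : ∀ θ : IrrCharacter N, θ = irrOne N := by
      intro θ
      obtain ⟨χ, h2, h3, h4⟩ : ∃ χ : G → ℂ, IsIrrCharacter G χ ∧ p ∣ charDegree χ ∧
          classInner (fun n : N => χ n) θ.1 ≠ 0 := by
        by_cases hi : (NEmb.ofNormal N).inertia θ.1 = ⊤
        · obtain ⟨ψ, h2, h3, -⟩ := (NEmb.ofNormal N).exists_ext_of_coprime θ.2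
            ((NEmb.inertia_eq_top_iff _).mp hi) (by
              rw [NEmb.ofNormal_range, hk]; exact Nat.Coprime.pow_left _ hN.symm)
          have h4 : ∀ n : N, β.1 ((n : G) : G ⧸ N) = β.1 1 := fun n => by
            rw [(QuotientGroup.eq_one_iff _).mpr n.2]
          refine ⟨_, (NEmb.ofNormal N).gallagher_irr θ.2 h2.isCharacter h3 β.2.inflate h4,
            h1.trans ⟨charDegree ψ, charDegree_eq_of ?_⟩, ?_⟩
          · push_cast
            rw [β.2.isCharacter.charDegree_cast, h2.isCharacter.charDegree_cast]; rfl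
          · rw [show (fun n : N => ((fun g : G => β.1 (g : G ⧸ N)) * ψ) n) = β.1 1 • θ.1 from
              funext fun n => by rw [Pi.mul_apply, h4, Pi.smul_apply, ← h3]; rfl, classInner_smul_left,
              θ.2.classInner_self, mul_one]
            exact β.2.apply_one_ne_zero
        · obtain ⟨χ, h2, h3⟩ := exists_irr_over_hom N.subtype N.subtype_injective θ.2
          refine ⟨χ, h2, ?_, h3⟩
          obtain ⟨e, he⟩ := (h2.isCharacter.comp (NEmb.ofNormal N).f).classInner_nat θ.2.isCharacter
          have h4 := (NEmb.ofNormal N).clifford_degree h2 θ.2 h3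
          rw [he, ← θ.2.isCharacter.charDegree_cast] at h4
          rw [charDegree_eq_of (d := e * ((NEmb.ofNormal N).inertia θ.1).index * charDegree θ.1)
            (by rw [h4]; push_cast; rfl)]
          refine Dvd.dvd.mul_right (Dvd.dvd.mul_left (hdvd _ (Subgroup.index_dvd_of_le ?_)
            (mt Subgroup.index_eq_one.mp hi)) _) _
          simpa [NEmb.ofNormal_range] using (NEmb.ofNormal N).range_le_inertia θ.2.isClassFunction
      have h5 := congrArg Subtype.val (huniq ⟨χ, h2⟩ ⟨_, β.2.inflate⟩ h3 h1)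
      rw [show (fun n : N => χ n) = β.1 1 • (irrOne N).1 from funext fun n => by
        rw [show χ = _ from h5]; simp [(QuotientGroup.eq_one_iff _).mpr n.2],
        classInner_smul_left] at h4
      exact Subtype.ext ((irrOne N).2.eq_of_classInner_ne_zero θ.2 (right_ne_zero_of_mul h4)).symm
    have h3 : N = ⊥ := by
      rw [eq_bot_iff]
      intro n hn
      by_contra h
      obtain ⟨θ, h3, h4⟩ := exists_irr_apply_ne (g := (⟨n, hn⟩ : N))
        fun e => h (congrArg Subtype.val e)
      exact h4 (by rw [show θ = _ from congrArg Subtype.val (h2 ⟨θ, h3⟩)]; rfl)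
    rw [h3, Subgroup.index_bot] at hk
    exact hnil (IsPGroup.of_card hk).isNilpotent
  have hD : Subgroup.normalizer ((P : Subgroup G) : Set G) ≤
      Subgroup.centralizer ((P : Subgroup G) : Set G) := fun x hx y hy => by
    have h1 : y * x * y⁻¹ * x⁻¹ ∈ N := (QuotientGroup.eq_one_iff _).mp
      (commutatorElement_eq_one_iff_mul_comm.mpr (hab y x))
    have h2 : y * x * y⁻¹ * x⁻¹ ∈ (P : Subgroup G) := by
      simpa [mul_assoc] using (P : Subgroup G).mul_mem hy
        (H1.conj_mem_of_le_normalizer le_rfl hx ((P : Subgroup G).inv_mem hy))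
    have := Subgroup.disjoint_def.mp (Subgroup.disjoint_of_coprime_natCard hcop) h1 h2
    rwa [mul_inv_eq_one, mul_inv_eq_iff_eq_mul] at this
  set D := Subgroup.normalizer ((P : Subgroup G) : Set G)
  have hPD : (P : Subgroup G) ≤ D := Subgroup.le_normalizer
  have hpP : p ∣ Nat.card (P : Subgroup G) :=
    P.dvd_card_of_dvd_card (hχ₀.trans χ₀.2.charDegree_dvd_card)
  have hiff : ∀ n : ℕ, n.Coprime (Nat.card (P : Subgroup G)) ↔ ¬ p ∣ n := fun n =>
    ⟨fun h h' => hp.one_lt.ne' (Nat.eq_one_of_dvd_coprimes h h' hpP),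
      fun h => (H1.coprime_card_of_isPGroup P.isPGroup' h).symm⟩
  have h1 := S4452.result N P htop hcop (H1.isSolvable_of_isPGroup P.isPGroup')
  simp only [hiff] at h1
  rw [Nat.card_congr (Equiv.subtypeUnivEquiv (α := IrrCharacter D) fun η h => by
    have := (embN hPD le_rfl).degree_dvd_index_of_comm
      (fun a b => Subtype.ext (hD (hPD b.2) a a.2)) η.2 η.2.isCharacter.charDegree_cast.symm
    rw [embN_index] at this
    exact P.not_dvd_index (h.trans (this.trans (Subgroup.relIndex_dvd_index_of_le hPD)))),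
    card_irr_eq_card_conjClasses] at h1
  have hsz : ∀ g : G, Nat.card (ConjClasses.mk g).carrier =
      (Subgroup.centralizer ({g} : Set G)).index := fun g => by
    rw [← card_isConj_eq_index]
    exact Nat.card_congr (Equiv.subtypeEquivRight fun x => by
      rw [ConjClasses.mem_carrier_iff_mk_eq, ConjClasses.mk_eq_mk_iff_isConj, isConj_comm])
  have key : ∀ K : ConjClasses D, ¬ p ∣ Nat.card (ConjClasses.map D.subtype K).carrier := by
    intro K h
    obtain ⟨c, rfl⟩ := ConjClasses.mk_surjective K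
    rw [show ConjClasses.map D.subtype (ConjClasses.mk c) = ConjClasses.mk (c : G) from rfl,
      hsz] at h
    refine P.not_dvd_index (h.trans (Subgroup.index_dvd_of_le fun x hx y hy => ?_))
    rw [show y = c from hy]; exact (hD c.2 x hx).symm
  have h2 : Nat.card (ConjClasses D) = Nat.card {C : ConjClasses G // ¬ p ∣ Nat.card C.carrier} := by
    refine Nat.card_eq_of_bijective (fun K => ⟨_, key K⟩) ⟨fun K K' e => ?_, fun K => ?_⟩
    · obtain ⟨c, rfl⟩ := ConjClasses.mk_surjective K
      obtain ⟨c', rfl⟩ := ConjClasses.mk_surjective K'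
      obtain ⟨g, hg⟩ := isConj_iff.mp
        (ConjClasses.mk_eq_mk_iff_isConj.mp (congrArg Subtype.val e) : IsConj (c : G) c')
      obtain ⟨n, hn, h3⟩ := P.conj_eq_normalizer_conj_of_mem_centralizer c g⁻¹ (hD c.2)
        (by rw [inv_inv, hg]; exact hD c'.2)
      exact ConjClasses.mk_eq_mk_iff_isConj.mpr (isConj_iff.mpr ⟨⟨n, hn⟩⁻¹, Subtype.ext (by
        rw [← hg]; simpa using h3.symm)⟩)
    · obtain ⟨K, hK⟩ := K
      obtain ⟨g, rfl⟩ := ConjClasses.mk_surjective K
      rw [hsz] at hK
      obtain ⟨Q, hQ⟩ := H1.exists_isSylowIn p (Subgroup.centralizer ({g} : Set G))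
      obtain ⟨x, -, hx⟩ := (hQ.trans le_top (by rwa [Subgroup.relIndex_top_right])).exists_conj_eq
        (H1.isSylowIn_top P)
      refine ⟨ConjClasses.mk ⟨x * g * x⁻¹, Subgroup.centralizer_le_normalizer _ fun y hy => ?_⟩,
        Subtype.ext (ConjClasses.mk_eq_mk_iff_isConj.mpr (isConj_iff.mpr ⟨x, rfl⟩).symm)⟩
      have h3 := hQ.le (H1.mem_conj_smul.mp (hx ▸ hy)) g rfl
      calc y * (x * g * x⁻¹) = x * ((x⁻¹ * y * x) * g) * x⁻¹ := by group
        _ = _ := by rw [← h3]; group
  have h3 := card_irr_eq_card_conjClasses (G := G)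
  rw [← Nat.card_congr (Equiv.sumCompl fun χ : IrrCharacter G => p ∣ charDegree χ.1),
    ← Nat.card_congr (Equiv.sumCompl fun C : ConjClasses G => p ∣ Nat.card C.carrier),
    Nat.card_sum, Nat.card_sum, h1, h2, hone] at h3
  omega

end Cfsg.Agent.S4763
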