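import Cfsg.Statements.S4765
import Cfsg.Agent.H7.PSL2Deg
-- import your own Cfsg.Agent.* helpers here

set_option autoImplicit false
open Cfsg

open Cfsg.Agent.H4

namespace Cfsg.Agent.S4765


/-- Let F be a finite field of characteristic p with at least 4 elements. Then PSL(2,F) has exactly one irreducible complex character of degree divisible by p, and its degree is the order of F. -/
theorem result (p : ℕ) [Fact p.Prime] (F : Type*) [Field F] [Fintype F] [CharP F p] (hF : 4 ≤ Fintype.card F) : Nat.card {χ : Cfsg.IrrCharacter (Matrix.ProjectiveSpecialLinearGroup (Fin 2) F) // p ∣ Cfsg.charDegree (χ : Matrix.ProjectiveSpecialLinearGroup (Fin 2) F → ℂ)} = 1 ∧ ∀ χ : Cfsg.IrrCharacter (Matrix.ProjectiveSpecialLinearGroup (Fin 2) F), p ∣ Cfsg.charDegree (χ : Matrix.ProjectiveSpecialLinearGroup (Fin 2) F → ℂ) → Cfsg.charDegree (χ : Matrix.ProjectiveSpecialLinearGroup (Fin 2) F → ℂ) = Fintype.card F := by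
  have hp : p.Prime := Fact.out
  have hpq : p ∣ Nat.card F := by
    obtain ⟨n, -, hn⟩ := FiniteField.card F p
    rw [Nat.card_eq_fintype_card, hn]
    exact dvd_pow_self p n.ne_zero
  have key : ∀ χ : IrrCharacter (Matrix.ProjectiveSpecialLinearGroup (Fin 2) F), p ∣ charDegree (χ : Matrix.ProjectiveSpecialLinearGroup (Fin 2) F → ℂ) → charDegree (χ : Matrix.ProjectiveSpecialLinearGroup (Fin 2) F → ℂ) = Nat.card F := by
    intro χ h
    rcases H7.Pd.dvd_cases (F := F) (Or.inl ⟨MulEquiv.refl _⟩) ⟨χ, rfl⟩ with h1 | h1 | h1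
    · exact h1
    · exact absurd ((Nat.dvd_add_right hpq).1 (h.trans h1)) hp.not_dvd_one
    · have h2 := Nat.dvd_sub hpq (h.trans h1)
      rw [Nat.sub_sub_self Nat.card_pos] at h2
      exact absurd h2 hp.not_dvd_one
  refine ⟨?_, fun χ h => by rw [key χ h, Nat.card_eq_fintype_card]⟩
  haveI := Fintype.ofFinite (Matrix.SpecialLinearGroup (Fin 2) F)
  obtain ⟨ξ, hξ, h⟩ := H7.Pd.exists_psl (H27.isIrr_stS (F := F))
    (fun a => by rw [H27.stS_scal, H27.stS_one])
  refine H27.card_irr_single hξ (fun χ => p ∣ charDegree χ) fun χ hχ => ⟨fun h1 => ?_, ?_⟩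
  · have h2 := key ⟨χ, hχ⟩ h1
    have h3 := H27.eq_stS_of_deg (hχ.comp_of_surjective _ H7.Pd.mk_surj) (by
      simp only [map_one]
      rw [← hχ.isCharacter.charDegree_cast]; exact_mod_cast h2)
    funext g
    obtain ⟨g, rfl⟩ := H7.Pd.mk_surj g
    exact (congrFun h3 g).trans (congrFun h g)
  · rintro rfl
    rwa [H4.charDegree_eq_of ((congrFun h 1).symm.trans H27.stS_one)]

end Cfsg.Agent.S4765
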