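import Cfsg.Statements.S4775
import Cfsg.Agent.H15.SzCh2

set_option autoImplicit false
open Cfsg

namespace Cfsg.Agent.S4775

/-- Let F be a finite field with q = 2^(2m+1) ≥ 8 elements and let S be isomorphic to the Suzuki group over F. Then the vertices of the character degree graph of S are 2 and the primes dividing (q − 1)(q² + 1); the primes dividing (q − 1)(q² + 1) are pairwise adjacent, and 2 is adjacent exactly to the primes dividing q − 1. -/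
theorem result (F : Type*) [Field F] [Fintype F] (m : ℕ) (hm : 1 ≤ m) (q : ℕ) (hq : Fintype.card F = q) (hqm : q = 2 ^ (2 * m + 1)) {S : Type*} [Group S] [Finite S] (hS : Nonempty (S ≃* ↥(Cfsg.Lie.Sz F (2 ^ (m + 1))))) : Cfsg.degreePrimes S = {r : ℕ | r.Prime ∧ (r = 2 ∨ r ∣ (q - 1) * (q ^ 2 + 1))} ∧ ∀ r s : ℕ, (Cfsg.degreeGraph S).Adj r s ↔ (r ≠ s ∧ r.Prime ∧ s.Prime ∧ ((r ∣ (q - 1) * (q ^ 2 + 1) ∧ s ∣ (q - 1) * (q ^ 2 + 1)) ∨ (r = 2 ∧ s ∣ q - 1) ∨ (s = 2 ∧ r ∣ q - 1))) := by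
  obtain ⟨e⟩ := hS
  have hF := hq.trans hqm
  have := H15.Sz.charP_two hF
  have := Fintype.ofFinite S
  obtain ⟨a, ha⟩ : ∃ a, a = q + 2 ^ (m + 1) + 1 := ⟨_, rfl⟩
  obtain ⟨b, hb⟩ : ∃ b, b = q - 2 ^ (m + 1) + 1 := ⟨_, rfl⟩
  have hab : a * b = q ^ 2 + 1 := by rw [ha, hb, hqm]; exact H15.Sz.Model.torus_mul
  have hd := ((H15.Sz.lieModel hm hF).ofEquiv e).degrees hm (Nat.card_eq_fintype_card.trans hF) hqm ha hb
  have h2 : ∀ {r k : ℕ}, r.Prime → r ∣ 2 ^ k → r = 2 := fun x y => (Nat.prime_dvd_prime_iff_eq x Nat.prime_two).1 (x.dvd_of_dvd_pow y)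
  have h3 : 2 ∣ 2 ^ m := dvd_pow_self 2 (by omega)
  have h4 : ¬ 2 ∣ q - 1 := by
    have : 2 ∣ q := hqm ▸ dvd_pow_self 2 (by omega)
    have : 0 < q := hqm ▸ Nat.two_pow_pos _
    omega
  have h5 : (q - 1) * a ∣ (q - 1) * (q ^ 2 + 1) := Nat.mul_dvd_mul_left _ ⟨b, hab.symm⟩
  have h6 : (q - 1) * b ∣ (q - 1) * (q ^ 2 + 1) := Nat.mul_dvd_mul_left _ ⟨a, hab.symm.trans (mul_comm _ _)⟩
  have h7 : q ^ 2 = 2 ^ ((2 * m + 1) * 2) := by rw [hqm, pow_mul]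
  simp only [degreePrimes, degreeGraph, hd, Set.mem_insert_iff, Set.mem_singleton_iff, exists_eq_or_imp, exists_eq_left]
  refine ⟨Set.ext fun r => and_congr_right fun hr => ⟨?_, ?_⟩, fun r s => and_congr_right fun hrs => and_congr_right fun hr =>
    and_congr_right fun hs => ⟨?_, ?_⟩⟩
  · rintro (h | h | h | h | h | h)
    exacts [(hr.not_dvd_one h).elim, Or.inl (h2 hr (h7 ▸ h)), Or.inr (h.mul_left _), Or.inr (h.trans h5), Or.inr (h.trans h6),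
      ((hr.dvd_mul.1 h).imp (·.mul_right _) (h2 hr)).symm]
  · rintro (rfl | h)
    · simp [h3.mul_left]
    · rw [← hab, hr.dvd_mul, hr.dvd_mul] at h
      rcases h with h | h | h <;> simp [h.mul_left, h.mul_right]
  · rintro (h | h | h | h | h | h)
    · exact (hr.not_dvd_one (dvd_of_mul_right_dvd h)).elim
    · exact (hrs ((h2 hr (h7 ▸ dvd_of_mul_right_dvd h)).trans (h2 hs (h7 ▸ dvd_of_mul_left_dvd h)).symm)).elim
    · exact Or.inl ⟨(dvd_of_mul_right_dvd h).mul_left _, (dvd_of_mul_left_dvd h).mul_left _⟩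
    · exact Or.inl ⟨(dvd_of_mul_right_dvd h).trans h5, (dvd_of_mul_left_dvd h).trans h5⟩
    · exact Or.inl ⟨(dvd_of_mul_right_dvd h).trans h6, (dvd_of_mul_left_dvd h).trans h6⟩
    · rcases hr.dvd_mul.1 (dvd_of_mul_right_dvd h) with x | x <;> rcases hs.dvd_mul.1 (dvd_of_mul_left_dvd h) with y | y
      exacts [Or.inl ⟨x.mul_right _, y.mul_right _⟩, Or.inr (Or.inr ⟨h2 hs y, x⟩), Or.inr (Or.inl ⟨h2 hr x, y⟩),
        (hrs ((h2 hr x).trans (h2 hs y).symm)).elim]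
  have co := (Nat.coprime_primes hr hs).2 hrs
  rintro (⟨x, y⟩ | ⟨rfl, y⟩ | ⟨rfl, y⟩)
  · rcases hr.dvd_mul.1 x with x | x <;> rcases hs.dvd_mul.1 y with y | y
    · simp [(co.mul_dvd_of_dvd_of_dvd x y).mul_right]
    · rcases hs.dvd_mul.1 (hab ▸ y) with y | y <;> simp [mul_dvd_mul x y]
    · rcases hr.dvd_mul.1 (hab ▸ x) with x | x <;> simp [mul_comm r, mul_dvd_mul y x]
    · simp [co.mul_dvd_of_dvd_of_dvd x y]
  · simp [mul_comm 2, mul_dvd_mul y h3]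
  · simp [mul_dvd_mul y h3]

end Cfsg.Agent.S4775
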