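import Cfsg.Statements.S4781
import Cfsg.Agent.H25.Nd4

set_option autoImplicit false
open Cfsg

namespace Cfsg.Agent.S4781

/-- Let G be a finite solvable group in which no irreducible complex character degree a with 1 < a divides a larger irreducible character degree, and suppose the character degree graph of G (primes dividing some degree, distinct primes adjacent when their product divides a degree) has exactly two connected components. Then G has exactly three distinct irreducible character degrees. -/
theorem result {G : Type*} [Group G] [Finite G] [Group.IsSolvable G] (hnd : ∀ a ∈ Cfsg.charDegrees G, ∀ b ∈ Cfsg.charDegrees G, 1 < a → a < b → ¬ a ∣ b) (htwo : Nat.card ((Cfsg.degreeGraph G).induce (Cfsg.degreePrimes G)).ConnectedComponent = 2) : Nat.card ↥(Cfsg.charDegrees G) = 3 := by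
  refine H25.Nd.three_of_disc (fun a ha b hb h1 h2 => ?_) fun h => ?_
  · have h3 := H8.pos_of_mem_cd ha
    by_contra h4
    exact hnd a ha b hb (by omega) (lt_of_le_of_ne (Nat.le_of_dvd (H8.pos_of_mem_cd hb) h2) h4) h2
  · haveI := SimpleGraph.Preconnected.subsingleton_connectedComponent h
    obtain ⟨x, y, hxy, -⟩ := Nat.card_eq_two_iff.1 htwo
    exact hxy (Subsingleton.elim _ _)

end Cfsg.Agent.S4781
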