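import Cfsg.Statements.S4784
import Mathlib
import Cfsg.Agent.H8.Gal1

set_option autoImplicit false
open Cfsg

namespace Cfsg.Agent.S4784

open scoped ComplexConjugate commutatorElement Pointwise
-- OPENS
open Cfsg.Agent.H8
open Cfsg.Agent.H6 hiding block_eq_blockOf block_eq_of_mem block_nonempty centralChar_mem
  char_mem conj_char_mem deg_factorization_le irrOne_mem_principal isPBlock_blockOf
  isPBlock_principal mem_blockOf_self orderOf_conj' sameBlock_refl sameBlock_symm
  sameBlock_trans
open Cfsg.Agent.H4 hiding exists_int_of_isIntegral_rat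
open Cfsg.Agent.H5
open Cfsg.Agent.H3


/-- Let H be a subgroup of the finite group G and consider the permutation character of G on the cosets of H (the function induced from the principal character of H). Then exactly one irreducible constituent of it is real-valued with Frobenius–Schur indicator +1 (namely the principal character) if and only if the normal core of H has odd index in G. -/
theorem result {G : Type*} [Group G] [Fintype G] (H : Subgroup G) : Nat.card {χ : Cfsg.IrrCharacter G // Cfsg.classInner (Cfsg.indFun H (fun _ : H => (1 : ℂ))) (χ : G → ℂ) ≠ 0 ∧ (∀ g : G, (starRingEnd ℂ) ((χ : G → ℂ) g) = (χ : G → ℂ) g) ∧ (Nat.card G : ℂ)⁻¹ * ∑ g : G, (χ : G → ℂ) (g * g) = 1} = 1 ↔ Odd H.normalCore.index := by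
  classical
  haveI := Fintype.ofFinite H
  have hπ : IsCharacter G (indFun H fun _ => (1 : ℂ)) := isCharacter_one.ind
  have h1 : classInner (indFun H fun _ => (1 : ℂ)) (irrOne G).1 = 1 := by
    rw [inner_indFun_left _ _ (irrOne G).2.isClassFunction]; exact classInner_one_one
  have hone : classInner (indFun H fun _ => (1 : ℂ)) (irrOne G).1 ≠ 0 ∧
      (∀ g : G, (starRingEnd ℂ) ((irrOne G).1 g) = (irrOne G).1 g) ∧
      (Nat.card G : ℂ)⁻¹ * ∑ g : G, (irrOne G).1 (g * g) = 1 :=
    ⟨h1.trans_ne one_ne_zero, fun g => by simp, fsInd_one⟩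
  constructor
  · intro h
    have h2 : ∀ χ : IrrCharacter G, χ ≠ irrOne G →
        (classInner (indFun H fun _ => (1 : ℂ)) χ.1 * fsInd χ.1).re ≤ 0 := fun χ hχ => by
      obtain ⟨n, hn⟩ := hπ.classInner_nat χ.2.isCharacter
      rcases χ.2.fsInd_cases with h3 | h3 | h3
      · simp [h3]
      · by_cases h4 : classInner (indFun H fun _ => (1 : ℂ)) χ.1 = 0
        · simp [h4]
        · exact absurd (congrArg Subtype.val ((Nat.card_eq_one_iff_unique.mp h).1.elim
            ⟨χ, h4, fun g => Complex.conj_eq_iff_im.mpr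
              (real_of_fsInd_ne_zero χ.2 (h3.trans_ne one_ne_zero) g), h3⟩ ⟨_, hone⟩)) hχ
      · simp [h3, hn]
    have h3 : (fsInd (indFun H fun _ => (1 : ℂ))).re ≤ 1 := by
      rw [fsInd_eq_sum hπ.isClassFunction, ← Finset.add_sum_erase _ _ (Finset.mem_univ (irrOne G)), h1,
        show fsInd (irrOne G).1 = 1 from fsInd_one, Complex.add_re, Complex.re_sum]
      have := Finset.sum_nonpos (s := Finset.univ.erase (irrOne G))
        fun χ hχ => h2 χ (Finset.ne_of_mem_erase hχ)
      simpa using this
    by_contra hodd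
    rw [Nat.not_odd_iff_even, Subgroup.index_eq_card] at hodd
    obtain ⟨q, hq⟩ := exists_prime_orderOf_dvd_card' (G := G ⧸ H.normalCore) 2 hodd.two_dvd
    obtain ⟨g, rfl⟩ := QuotientGroup.mk_surjective q
    have h4 : g ∉ H.normalCore := fun h4 => by
      rw [(QuotientGroup.eq_one_iff g).mpr h4, orderOf_one] at hq; omega
    have h5 : g * g ∈ H.normalCore := by
      rw [← QuotientGroup.eq_one_iff, QuotientGroup.mk_mul, ← sq, ← hq, pow_orderOf_eq_one]
    obtain ⟨x, hx⟩ := not_forall.mp h4
    have h6 : ∑ g : G, extendByZero H (fun _ => (1 : ℂ)) (g * g) =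
        ((Finset.univ.filter fun g : G => g * g ∈ H).card : ℕ) := by
      rw [Finset.card_filter, Nat.cast_sum]
      refine Finset.sum_congr rfl fun g _ => ?_
      by_cases h : g * g ∈ H
      · rw [extendByZero_mem _ _ h, if_pos h, Nat.cast_one]
      · rw [extendByZero_not_mem _ _ h, if_neg h, Nat.cast_zero]
    have h7 : Nat.card H < (Finset.univ.filter fun g : G => g * g ∈ H).card := by
      rw [Nat.card_eq_fintype_card, Fintype.card_subtype]
      refine Finset.card_lt_card ⟨fun y hy => ?_, fun h => hx ?_⟩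
      · simp only [Finset.mem_filter, Finset.mem_univ, true_and] at hy ⊢
        exact H.mul_mem hy hy
      · have := h (x := x * g * x⁻¹) (by
          simp only [Finset.mem_filter, Finset.mem_univ, true_and]
          simpa [mul_assoc] using h5 x)
        simpa using this
    rw [fsInd_indFun, h6, ← Complex.ofReal_natCast, ← Complex.ofReal_natCast, ← Complex.ofReal_inv,
      ← Complex.ofReal_mul, Complex.ofReal_re, inv_mul_le_iff₀ (by exact_mod_cast Nat.card_pos), mul_one] at h3
    exact absurd (by exact_mod_cast h3) h7.not_ge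
  · intro hodd
    refine Nat.card_eq_one_iff_unique.mpr ⟨⟨?_⟩, ⟨⟨_, hone⟩⟩⟩
    suffices h : ∀ χ : IrrCharacter G, classInner (indFun H fun _ => (1 : ℂ)) χ.1 ≠ 0 →
        (∀ g : G, (starRingEnd ℂ) (χ.1 g) = χ.1 g) → χ = irrOne G from
      fun a b => Subtype.ext ((h _ a.2.1 a.2.2.1).trans (h _ b.2.1 b.2.2.1).symm)
    intro χ h2 h3
    have h4 : H.normalCore ≤ charKer χ.1 := le_trans (fun n hn => hπ.mem_charKer.mpr (by
      rw [indFun_apply', indFun_apply']
      congr 1
      refine Finset.sum_congr rfl fun x _ => ?_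
      rw [extendByZero_mem _ _ (hn x), extendByZero_mem _ _ (by simp)])) (hπ.charKer_le_of_constituent χ.2 h2)
    have h5 := (χ.2.deflate h4).eq_one_of_real_of_odd (by rwa [← Subgroup.index_eq_card]) fun q => by
      obtain ⟨g, rfl⟩ := QuotientGroup.mk_surjective q
      rw [deflate_mk h4]; exact Complex.conj_eq_iff_im.mp (h3 g)
    exact Subtype.ext (funext fun g => (deflate_mk h4 g).symm.trans (congrFun h5 _))

end Cfsg.Agent.S4784
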