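import Cfsg.Statements.S4796
import Mathlib
import Cfsg.Agent.H8.Ord1

set_option autoImplicit false
open Cfsg

namespace Cfsg.Agent.S4796

open scoped ComplexConjugate commutatorElement Pointwise
-- OPENS
open Cfsg.Agent.H8
open Cfsg.Agent.H4
open Cfsg.Agent.H5
open Cfsg.Agent.H3


/-- Let G be a finite group with a faithful irreducible complex character χ whose codegree #G / χ(1) is a prime p (for a faithful character the kernel is trivial, so the codegree is #G / χ(1)). Then either G is cyclic of order p, or G is a Frobenius group whose Frobenius kernel has order p: some proper non-trivial subgroup H satisfies H ∩ gHg⁻¹ = 1 for every element g outside H, and the set of elements lying in no conjugate of H, together with the identity, has exactly p elements. -/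
theorem result {G : Type*} [Group G] [Finite G] (χ : Cfsg.IrrCharacter G) (hfaith : ∀ g : G, (χ : G → ℂ) g = (χ : G → ℂ) 1 → g = 1) (p : ℕ) (hp : p.Prime) (hcod : Nat.card G = p * Cfsg.charDegree (χ : G → ℂ)) : (IsCyclic G ∧ Nat.card G = p) ∨ ∃ H : Subgroup G, Cfsg.IsFrobeniusComplement H ∧ Nat.card ↥(Cfsg.frobeniusKernel H) = p := by
  obtain ⟨P, hN, hc, hi, hd, hC⟩ := prime_cod_struct χ.2 hp hcod
  have := Fact.mk hp
  by_cases h1 : P = ⊤
  · left
    have : Nat.card G = p := by rw [← hc, h1, Subgroup.card_top]
    exact ⟨isCyclic_of_prime_card this, this⟩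
  right
  obtain ⟨H, hH⟩ := Subgroup.exists_right_complement'_of_coprime (N := P)
    (by rw [hc]; exact (Nat.Prime.coprime_iff_not_dvd hp).mpr hi)
  have hF : IsFrobeniusComplement H := by
    refine ⟨fun h => h1 ?_, fun h => ?_, fun g hg => ?_⟩
    · have := hH.sup_eq_top
      rwa [h, sup_bot_eq] at this
    · have := hH.disjoint.eq_bot
      rw [h, inf_top_eq] at this
      rw [this, Subgroup.card_bot] at hc
      exact hp.one_lt.ne hc
    · rw [eq_bot_iff]
      rintro y ⟨hy, hy'⟩
      have hy'' := mem_mulAut_conj_smul_iff.mp hy'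
      obtain ⟨⟨⟨x, hx⟩, ⟨h, hh⟩⟩, hxh⟩ := hH.2 g
      simp only at hxh
      subst hxh
      have hx1 : x ≠ 1 := by rintro rfl; exact hg (by simpa using hh)
      have h2 : x⁻¹ * y * x ∈ H := by
        have := H.mul_mem (H.mul_mem hh hy'') (H.inv_mem hh)
        simpa [mul_assoc] using this
      have h3 : y⁻¹ * (x⁻¹ * y * x) ∈ P ⊓ H := by
        refine ⟨?_, H.mul_mem (H.inv_mem hy) h2⟩
        have := P.mul_mem (hN.conj_mem _ (P.inv_mem hx) y⁻¹) hx
        simpa [mul_assoc] using this
      rw [hH.disjoint.eq_bot, Subgroup.mem_bot] at h3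
      have h4 : y * x = x * y := by
        have : x * (y * (y⁻¹ * (x⁻¹ * y * x))) = x * y := by rw [h3, mul_one]
        rw [← this]; group
      have h5 : Subgroup.zpowers x = P := by
        apply Subgroup.eq_of_le_of_card_ge (by simpa using hx)
        rw [hc, Nat.card_zpowers]
        have h6 : orderOf x ∣ p := hc ▸ P.orderOf_dvd_natCard hx
        rcases (Nat.dvd_prime hp).mp h6 with h | h
        · exact absurd (orderOf_eq_one_iff.mp h) hx1
        · exact h.ge
      have h7 : y ∈ P := by
        rw [← hC, ← h5]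
        rintro _ ⟨n, rfl⟩
        exact (Commute.zpow_left (h4.symm : Commute x y) n)
      have : y ∈ P ⊓ H := ⟨h7, hy⟩
      rwa [hH.disjoint.eq_bot] at this
  refine ⟨H, hF, ?_⟩
  obtain ⟨K, hK, -, hKH⟩ := frobenius_theorem H hF
  rw [← hK]
  change Nat.card K = p
  rw [← hKH.index_eq_card, hH.index_eq_card, hc]

end Cfsg.Agent.S4796
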