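import Cfsg.Statements.S4797
import Mathlib
import Cfsg.Agent.H8.Ord1

set_option autoImplicit false
open Cfsg

namespace Cfsg.Agent.S4797

open scoped ComplexConjugate commutatorElement Pointwise
-- OPENS
open Cfsg.Agent.H8
open Cfsg.Agent.H4
open Cfsg.Agent.H5
open Cfsg.Agent.H3


/-- The codegree of an irreducible complex character χ of a finite group G is [G : ker χ] / χ(1), where ker χ is the set of elements at which χ takes the value χ(1). A non-trivial finite group is perfect if and only if no irreducible complex character of it has prime codegree. -/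
theorem result {G : Type*} [Group G] [Finite G] [Nontrivial G] : commutator G = ⊤ ↔ ∀ χ : Cfsg.IrrCharacter G, ¬ ((Nat.card G / (Nat.card {g : G // (χ : G → ℂ) g = (χ : G → ℂ) 1} * Cfsg.charDegree (χ : G → ℂ)))).Prime := by
  constructor
  · intro hG χ hp
    have hN := χ.2.isCharacter.charKer_normal
    have h1 := χ.2.deflate (N := charKer (χ : G → ℂ)) le_rfl
    have h2 := cod_mul_deg χ.2
    have h3 : charDegree (deflate (charKer (χ : G → ℂ)) χ) = charDegree (χ : G → ℂ) := by
      apply charDegree_eq_of
      rw [χ.2.isCharacter.charDegree_cast]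
      exact deflate_mk le_rfl 1
    obtain ⟨P, hPN, hc, hi, hd, hC⟩ := prime_cod_struct h1 hp (by rw [h3, h2]; rfl)
    have := Fact.mk hp
    have hcyc : IsCyclic P := isCyclic_of_prime_card hc
    have h4 : commutator (G ⧸ charKer (χ : G → ℂ)) = ⊤ := by
      have := Subgroup.map_commutator (⊤ : Subgroup G) ⊤ (QuotientGroup.mk' (charKer (χ : G → ℂ)))
      rw [← commutator_def, hG, Subgroup.map_top_of_surjective _ (QuotientGroup.mk'_surjective _)]
        at this
      exact this.symm
    have h5 : commutator (G ⧸ charKer (χ : G → ℂ)) ≤ P := by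
      rw [← hC]
      have h6 : (MulAut.conjNormal (H := P)).ker = Subgroup.centralizer (P : Set _) := by
        ext x
        simp only [MonoidHom.mem_ker, Subgroup.mem_centralizer_iff, MulEquiv.ext_iff,
          Subtype.ext_iff, MulAut.conjNormal_apply, MulAut.one_apply, Subtype.forall,
          SetLike.mem_coe]
        refine forall₂_congr fun y hy => ?_
        rw [mul_inv_eq_iff_eq_mul, eq_comm]
      rw [← h6, commutator_def, Subgroup.commutator_le]
      intro a _ b _
      rw [MonoidHom.mem_ker, map_commutatorElement, commutatorElement_eq_one_iff_mul_comm]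
      exact (IsCyclic.mulAutMulEquiv P).injective (by rw [map_mul, map_mul, mul_comm])
    rw [h4, top_le_iff] at h5
    have h7 : commutator (G ⧸ charKer (χ : G → ℂ)) = ⊥ := by
      rw [eq_bot_iff, commutator_def, Subgroup.commutator_le]
      intro a _ b _
      rw [Subgroup.mem_bot, commutatorElement_eq_one_iff_mul_comm]
      have := hcyc.commGroup.mul_comm ⟨a, h5 ▸ Subgroup.mem_top a⟩ ⟨b, h5 ▸ Subgroup.mem_top b⟩
      exact congrArg Subtype.val this
    rw [h5, ← h4, h7, Subgroup.card_bot] at hc
    exact hp.one_lt.ne hc
  · intro h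
    by_contra hG
    have h1 : 1 < Nat.card (G →* ℂˣ) := by
      rw [card_monoidHom_units]
      have := Subgroup.index_ne_zero_of_finite (H := commutator G)
      have := mt Subgroup.index_eq_one.mp hG
      omega
    have : Finite (G →* ℂˣ) := Nat.finite_of_card_ne_zero (by omega)
    obtain ⟨q, hq, hqd⟩ := Nat.exists_prime_and_dvd h1.ne'
    have := Fact.mk hq
    obtain ⟨lam, hlam⟩ := exists_prime_orderOf_dvd_card' q hqd
    refine h ⟨_, isIrrCharacter_linear lam⟩ ?_
    have h2 := cod_mul_deg (isIrrCharacter_linear lam)
    have h3 : charDegree (fun g => (lam g : ℂ)) = 1 := charDegree_eq_of (by simp)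
    rw [h3, mul_one, charKer_linear, Subgroup.index_ker] at h2
    change (Nat.card G / (Nat.card {g : G // (lam g : ℂ) = (lam 1 : ℂˣ)} *
      charDegree (fun g => (lam g : ℂ)))).Prime
    rw [h3, h2]
    have : Finite lam.range := Finite.of_surjective _ lam.rangeRestrict_surjective
    have hc : IsCyclic lam.range := isCyclic_of_injective_ringHom
      ((Units.coeHom ℂ).comp lam.range.subtype)
      (Units.val_injective.comp Subtype.val_injective)
    have h4 : Monoid.exponent lam.range ∣ q := by
      rw [Monoid.exponent_dvd_iff_forall_pow_eq_one]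
      rintro ⟨_, g, rfl⟩
      apply Subtype.ext
      have := DFunLike.congr_fun (hlam ▸ pow_orderOf_eq_one lam : lam ^ q = 1) g
      simpa using this
    rw [hc.exponent_eq_card] at h4
    rcases (Nat.dvd_prime hq).mp h4 with h5 | h5
    · exfalso
      rw [Subgroup.card_eq_one, MonoidHom.range_eq_bot_iff] at h5
      rw [h5, orderOf_one] at hlam
      exact hq.one_lt.ne hlam
    · rwa [h5]

end Cfsg.Agent.S4797
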