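import Cfsg.Statements.S4798
import Mathlib
import Cfsg.Agent.H8.Ord1

set_option autoImplicit false
open Cfsg

namespace Cfsg.Agent.S4798

open scoped ComplexConjugate commutatorElement Pointwise
-- OPENS
open Cfsg.Agent.H8
open Cfsg.Agent.H4
open Cfsg.Agent.H5
open Cfsg.Agent.H3


/-- Let p be a prime and χ a faithful irreducible complex character of the finite group G (χ(g) = χ(1) only for g = 1), so that its codegree is #G / χ(1). Then #G / χ(1) is a power of p if and only if χ is induced from a character of a Sylow p-subgroup of G. -/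
theorem result {G : Type*} [Group G] [Fintype G] (p : ℕ) [Fact p.Prime] (χ : Cfsg.IrrCharacter G) (hfaith : ∀ g : G, (χ : G → ℂ) g = (χ : G → ℂ) 1 → g = 1) : (∃ k : ℕ, Nat.card G = p ^ k * Cfsg.charDegree (χ : G → ℂ)) ↔ ∃ (P : Sylow p G) (θ : ↥(P : Subgroup G) → ℂ), Cfsg.IsCharacter ↥(P : Subgroup G) θ ∧ (χ : G → ℂ) = Cfsg.indFun (P : Subgroup G) θ := by
  have hp : p.Prime := Fact.out
  constructor
  · rintro ⟨k, hk⟩
    obtain ⟨P⟩ : Nonempty (Sylow p G) := inferInstance
    have : Fintype (P : Subgroup G) := Fintype.ofFinite _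
    obtain ⟨a, ha⟩ := IsPGroup.iff_card.mp P.isPGroup'
    have h1 := (P : Subgroup G).card_mul_index
    have h2 := P.not_dvd_index
    rw [ha, hk] at h1
    have hka : k ≤ a := by
      have h3 : p ^ k ∣ p ^ a * (P : Subgroup G).index := h1 ▸ Dvd.intro _ rfl
      exact (Nat.pow_dvd_pow_iff_le_right hp.one_lt).mp
        ((Nat.Coprime.pow_left k ((Nat.Prime.coprime_iff_not_dvd hp).mpr h2)).dvd_of_dvd_mul_right
          h3)
    obtain ⟨j, rfl⟩ := Nat.exists_eq_add_of_le hka
    rw [pow_add, mul_assoc] at h1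
    have h4 := Nat.eq_of_mul_eq_mul_left (pow_pos hp.pos k) h1
    have h5 : ¬ p ^ (j + 1) ∣ charDegree (fun x : (P : Subgroup G) => (χ : G → ℂ) x) := by
      change ¬ p ^ (j + 1) ∣ charDegree (χ : G → ℂ)
      rw [← h4, pow_succ]
      exact fun h => h2 (Nat.dvd_of_mul_dvd_mul_left (pow_pos hp.pos j) h)
    have h6 := mt (dvd_charDegree_of_constituents (χ.2.isCharacter.restrict (P : Subgroup G))) h5
    push Not at h6
    obtain ⟨θ, hθ, hne, hnd⟩ := h6
    have h7 := hθ.charDegree_dvd_card
    rw [ha] at h7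
    obtain ⟨i, -, hi⟩ := (Nat.dvd_prime_pow hp).mp h7
    have hij : i ≤ j := by
      by_contra hc
      exact hnd (hi ▸ pow_dvd_pow p (by omega))
    refine ⟨P, θ, hθ.isCharacter, (eq_of_constituent_of_degree_le
      (isCharacter_indFun _ hθ.isCharacter) χ.2 ?_ ?_).symm⟩
    · rw [inner_indFun_left _ θ χ.2.isClassFunction, Ne, classInner_eq_zero_symm]; exact hne
    · rw [indFun_one, ← hθ.isCharacter.charDegree_cast, ← χ.2.isCharacter.charDegree_cast,
        ← h4, hi, ← Nat.cast_mul, Complex.natCast_re, Complex.natCast_re, Nat.cast_le, mul_comm]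
      exact Nat.mul_le_mul_right _ (Nat.pow_le_pow_right hp.pos hij)
  · rintro ⟨P, θ, hθ, h⟩
    have : Fintype (P : Subgroup G) := Fintype.ofFinite _
    have h0 : θ ≠ 0 := by
      rintro rfl
      exact χ.2.ne_zero (by rw [h, indFun_zero])
    obtain ⟨η, hη, hne⟩ := hθ.exists_constituent h0
    have h1 : indFun (P : Subgroup G) θ = indFun (P : Subgroup G) η +
        indFun (P : Subgroup G) (θ - η) := by rw [← indFun_add]; simp
    have h2 := isCharacter_indFun _ (hθ.sub_irr hη hne)
    have h3 := isCharacter_indFun _ hη.isCharacter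
    have h4 : indFun (P : Subgroup G) η = χ := by
      obtain ⟨ξ, hξ, hξ'⟩ := h3.exists_constituent (indFun_ne_zero _ hη.apply_one_ne_zero)
      have h5 : classInner (χ : G → ℂ) ξ ≠ 0 := by
        rw [h, h1, classInner_add_left]
        obtain ⟨a, ha⟩ := h3.classInner_nat hξ.isCharacter
        obtain ⟨b, hb⟩ := h2.classInner_nat hξ.isCharacter
        rw [ha] at hξ'
        rw [ha, hb, ← Nat.cast_add, Nat.cast_ne_zero]
        have := Nat.cast_ne_zero.mp hξ'
        omega
      have h6 := χ.2.eq_of_classInner_ne_zero hξ h5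
      rw [← h6] at hξ'
      refine eq_of_constituent_of_degree_le h3 χ.2 hξ' ?_
      obtain ⟨b, hb⟩ := h2.exists_degree
      rw [h, h1, Pi.add_apply, hb]
      simp
    have h7 : charDegree (χ : G → ℂ) = (P : Subgroup G).index * charDegree η := by
      apply charDegree_eq_of
      rw [← h4, indFun_one, ← hη.isCharacter.charDegree_cast]; push_cast; rfl
    obtain ⟨c, hc⟩ := hη.charDegree_dvd_card
    obtain ⟨a, ha⟩ := IsPGroup.iff_card.mp P.isPGroup'
    obtain ⟨k, -, hk⟩ := (Nat.dvd_prime_pow hp).mp (ha ▸ Dvd.intro_left _ hc.symm : c ∣ p ^ a)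
    refine ⟨k, ?_⟩
    rw [← (P : Subgroup G).card_mul_index, hc, h7, hk]; ring

end Cfsg.Agent.S4798
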