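import Cfsg.Statements.S4801
import Mathlib
import Cfsg.Agent.H8.Ord1

set_option autoImplicit false
open Cfsg

namespace Cfsg.Agent.S4801

open scoped ComplexConjugate commutatorElement Pointwise
-- OPENS
open Cfsg.Agent.H8
open Cfsg.Agent.H4
open Cfsg.Agent.H5
open Cfsg.Agent.H3


/-- The codegree of an irreducible complex character χ of a finite group G is [G : ker χ] / χ(1), where ker χ is the set of elements at which χ takes the value χ(1). Let S be a finite simple group and G a finite group such that every codegree of an irreducible character of S is a codegree of an irreducible character of G. Then the order of S divides the order of G. -/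
theorem result {S : Type*} [Group S] [Finite S] (hS : IsSimpleGroup S) {G : Type*} [Group G] [Finite G] (hsub : ∀ χ : Cfsg.IrrCharacter S, ∃ ψ : Cfsg.IrrCharacter G, (Nat.card S / (Nat.card {g : S // (χ : S → ℂ) g = (χ : S → ℂ) 1} * Cfsg.charDegree (χ : S → ℂ))) = (Nat.card G / (Nat.card {g : G // (ψ : G → ℂ) g = (ψ : G → ℂ) 1} * Cfsg.charDegree (ψ : G → ℂ)))) : Nat.card S ∣ Nat.card G := by
  classical
  have h1 := sum_charDegree_sq (G := S)
  rw [← Finset.add_sum_erase _ _ (Finset.mem_univ (irrOne S)), charDegree_irrOne] at h1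
  have h2 : Nat.card S ∣ Nat.card G *
      ∑ χ ∈ Finset.univ.erase (irrOne S), charDegree (χ : S → ℂ) ^ 2 := by
    rw [Finset.mul_sum]
    refine Finset.dvd_sum fun χ hχ => ?_
    obtain ⟨ψ, hψ⟩ := hsub χ
    have h3 := cod_mul_deg χ.2
    rw [χ.2.charKer_eq_bot_of_simple (fun e => (Finset.mem_erase.mp hχ).1 (Subtype.ext e)),
      Subgroup.index_bot, hψ] at h3
    rw [← h3, sq, ← mul_assoc]
    exact Dvd.dvd.mul_right (Nat.mul_dvd_mul_right (cod_dvd_card ψ.2) _) _
  have h4 : Nat.card S ∣ Nat.card G * Nat.card S := Dvd.intro_left _ rfl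
  conv_rhs at h4 => rw [← h1, mul_add]
  simpa using (Nat.dvd_add_left h2).mp h4

end Cfsg.Agent.S4801
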