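import Cfsg.Statements.S4802
import Mathlib
import Cfsg.Agent.H8.Ord1

set_option autoImplicit false
open Cfsg

namespace Cfsg.Agent.S4802

open scoped ComplexConjugate
-- OPENS
open Cfsg.Agent.H8
open Cfsg.Agent.H4
open Cfsg.Agent.H5
open Cfsg.Agent.H3


/-- Let N < M be normal subgroups of the finite group G and g ∈ M ∖ N. Then the conjugacy class of g is exactly M ∖ N if and only if every irreducible complex character of G whose kernel contains N takes the same value at all elements of M ∖ N, and every irreducible complex character of G whose kernel does not contain N vanishes at g. -/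
theorem result {G : Type*} [Group G] [Finite G] (N M : Subgroup G) [N.Normal] [M.Normal] (hNM : N < M) (g : G) (hgM : g ∈ M) (hgN : g ∉ N) : {h : G | IsConj g h} = (M : Set G) \ (N : Set G) ↔ ((∀ χ : Cfsg.IrrCharacter G, (∀ x ∈ N, (χ : G → ℂ) x = (χ : G → ℂ) 1) → ∀ x ∈ M, x ∉ N → ∀ y ∈ M, y ∉ N → (χ : G → ℂ) x = (χ : G → ℂ) y) ∧ (∀ χ : Cfsg.IrrCharacter G, (∃ x ∈ N, (χ : G → ℂ) x ≠ (χ : G → ℂ) 1) → (χ : G → ℂ) g = 0)) := by
  classical
  have := Fintype.ofFinite G
  have : Fintype N := Fintype.ofFinite _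
  constructor
  · intro h
    have hc : ∀ x ∈ M, x ∉ N → IsConj g x := fun x hx hx' => by
      have : x ∈ {h : G | IsConj g h} := by rw [h]; exact ⟨hx, hx'⟩
      exact this
    refine ⟨fun χ _ x hx hx' y hy hy' => ?_, fun χ ⟨x, hx, hx'⟩ => ?_⟩
    · rw [← χ.2.isClassFunction.of_isConj (hc x hx hx'),
        ← χ.2.isClassFunction.of_isConj (hc y hy hy')]
    · have h1 := χ.2.sum_normal_mul_eq_zero N
        (fun hle => hx' (χ.2.isCharacter.mem_charKer.mp (hle hx))) g
      have h2 : ∀ n : N, (χ : G → ℂ) (n * g) = (χ : G → ℂ) g := fun n =>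
        (χ.2.isClassFunction.of_isConj (hc _ (M.mul_mem (hNM.le n.2) hgM)
          (fun hm => hgN ((N.mul_mem_cancel_left n.2).mp hm)))).symm
      simp only [h2, Finset.sum_const, Finset.card_univ, nsmul_eq_mul,
        Fintype.card_eq_nat_card] at h1
      exact (mul_eq_zero.mp h1).resolve_left (card_ne_zero_C N)
  · rintro ⟨h1, h2⟩
    ext z
    constructor
    · intro hz
      obtain ⟨c, rfl⟩ := isConj_iff.mp hz
      refine ⟨Subgroup.Normal.conj_mem inferInstance g hgM c, fun hm => hgN ?_⟩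
      have := Subgroup.Normal.conj_mem inferInstance _ hm c⁻¹
      simpa [mul_assoc] using this
    · rintro ⟨hz, hz'⟩
      by_contra hc
      have h3 := column_orthogonality_of_not_isConj hc
      have h4 : ∀ χ : IrrCharacter G, (χ : G → ℂ) g * conj ((χ : G → ℂ) z) =
          ((‖(χ : G → ℂ) g‖ ^ 2 : ℝ) : ℂ) := by
        intro χ
        by_cases hχ : ∀ x ∈ N, (χ : G → ℂ) x = (χ : G → ℂ) 1
        · rw [h1 χ hχ z hz hz' g hgM hgN, Complex.mul_conj, Complex.normSq_eq_norm_sq]
        · push Not at hχ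
          simp [h2 χ hχ]
      simp only [h4] at h3
      have h5 : ∑ χ : IrrCharacter G, ‖(χ : G → ℂ) g‖ ^ 2 = 0 := by exact_mod_cast h3
      rw [Finset.sum_eq_zero_iff_of_nonneg (fun _ _ => by positivity)] at h5
      simpa using h5 (irrOne G) (Finset.mem_univ _)

end Cfsg.Agent.S4802
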