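import Cfsg.Statements.S4808
import Mathlib
import Cfsg.Agent.H8.Ord1

set_option autoImplicit false
open Cfsg

namespace Cfsg.Agent.S4808

open scoped ComplexConjugate commutatorElement Pointwise
-- OPENS
open Cfsg.Agent.H8
open Cfsg.Agent.H4
open Cfsg.Agent.H5
open Cfsg.Agent.H3


/-- The codegree of an irreducible complex character χ of a finite group G is [G : ker χ] / χ(1), where ker χ is the set of elements at which χ takes the value χ(1). A prime divides the order of G if and only if it divides the codegree of some irreducible complex character of G. -/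
theorem result {G : Type*} [Group G] [Finite G] (p : ℕ) (hp : p.Prime) : p ∣ Nat.card G ↔ ∃ χ : Cfsg.IrrCharacter G, p ∣ (Nat.card G / (Nat.card {g : G // (χ : G → ℂ) g = (χ : G → ℂ) 1} * Cfsg.charDegree (χ : G → ℂ))) := by
  classical
  have := Fact.mk hp
  refine ⟨fun h => ?_, fun ⟨χ, h⟩ => h.trans (cod_dvd_card χ.2)⟩
  by_contra hc
  push Not at hc
  obtain ⟨P⟩ : Nonempty (Sylow p G) := inferInstance
  set K := Subgroup.normalClosure ((P : Subgroup G) : Set G)
  have hK : ¬ p ∣ K.index := fun h =>
    P.not_dvd_index (h.trans (Subgroup.index_dvd_of_le Subgroup.le_normalClosure))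
  rw [← sum_charDegree_sq, ← Finset.sum_filter_add_sum_filter_not _
    (fun χ : IrrCharacter G => K ≤ charKer (χ : G → ℂ)), sum_charDegree_sq_ker] at h
  refine hK ((Nat.dvd_add_left (Finset.dvd_sum fun χ hχ => ?_)).mp h)
  have h1 := (Finset.mem_filter.mp hχ).2
  have hN := χ.2.isCharacter.charKer_normal
  have h2 : p ∣ (charKer (χ : G → ℂ)).index := by
    by_contra h2
    refine h1 (Subgroup.normalClosure_le_normal fun x hx => ?_)
    obtain ⟨k, hk⟩ := P.isPGroup' ⟨x, hx⟩
    have h3 : x ^ p ^ k = 1 := congrArg Subtype.val hk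
    have h4 := (charKer (χ : G → ℂ)).pow_index_mem x
    exact NEmb.mem_of_coprime _ (Nat.Coprime.pow_left k ((Nat.Prime.coprime_iff_not_dvd hp).mpr h2))
      (by rw [h3]; exact one_mem _) h4
  rw [← cod_mul_deg χ.2] at h2
  exact Dvd.dvd.pow (((Nat.Prime.dvd_mul hp).mp h2).resolve_left (hc χ)) two_ne_zero

end Cfsg.Agent.S4808
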