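import Cfsg.Statements.S4814
import Mathlib
import Cfsg.Agent.H8.Ord1

set_option autoImplicit false
open Cfsg

namespace Cfsg.Agent.S4814

open scoped ComplexConjugate
-- OPENS
open Cfsg.Agent.H8
open Cfsg.Agent.H4
open Cfsg.Agent.H5
open Cfsg.Agent.H3


/-- Let G be a finite group such that the sum, over the irreducible complex characters χ of G, of 1/χ(1)² is less than 2. Then every element of G is a product of two commutators. -/
theorem result {G : Type*} [Group G] [Finite G]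
    (h : ∑ᶠ χ : Cfsg.IrrCharacter G, 1 / ‖(χ : G → ℂ) 1‖ ^ 2 < (2 : ℝ)) (g : G) :
    ∃ a b c d : G, (a * b * a⁻¹ * b⁻¹) * (c * d * c⁻¹ * d⁻¹) = g := by
  classical
  have := Fintype.ofFinite G
  rw [finsum_eq_sum_of_fintype] at h
  by_contra hc
  push Not at hc
  set n : G → ℂ := fun z => (Nat.card {p : G × G // p.1 * p.2 * p.1⁻¹ * p.2⁻¹ = z} : ℂ) with hn
  have hn1 : n = ∑ χ : IrrCharacter G, ((Nat.card G : ℂ) / (χ : G → ℂ) 1) • (χ : G → ℂ) := by
    ext z
    simp only [hn, card_commutator_eq, Finset.mul_sum, Finset.sum_apply, Pi.smul_apply,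
      smul_eq_mul]
    exact Finset.sum_congr rfl fun χ _ => by ring
  have hcl : IsClassFunction G n := by
    rw [hn1]; exact isClassFunction_sum _ _ fun χ _ => χ.2.isClassFunction.smul _
  have h0 : ∀ z, n (z * g) * conj (n z) = 0 := by
    intro z
    by_contra h1
    obtain ⟨h2, h3⟩ := mul_ne_zero_iff.mp h1
    have h4 : n z ≠ 0 := by simpa using h3
    obtain ⟨⟨⟨a, b⟩, hab⟩⟩ := (Nat.card_ne_zero.mp (Nat.cast_ne_zero.mp h4)).1
    obtain ⟨⟨⟨c, d⟩, hcd⟩⟩ := (Nat.card_ne_zero.mp (Nat.cast_ne_zero.mp h2)).1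
    simp only at hab hcd
    refine hc b a c d ?_
    rw [hcd, ← hab]; group
  have h1 : ∑ z, n (z * g) * conj (n z) = ∑ χ : IrrCharacter G,
      (Nat.card G : ℂ) ^ 3 * ((χ : G → ℂ) g / (χ : G → ℂ) 1 ^ 3) := by
    conv_lhs => enter [2, z, 1]; rw [hn1]
    simp only [Finset.sum_apply, Pi.smul_apply, smul_eq_mul, Finset.sum_mul, mul_assoc]
    rw [Finset.sum_comm]
    refine Finset.sum_congr rfl fun χ _ => ?_
    rw [← Finset.mul_sum, χ.2.sum_apply_mul_mul_conj hcl, ← classInner_conj_symm, hn1,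
      classInner_sum_irr_left, map_div₀, χ.2.isCharacter.conj_apply_one, Complex.conj_natCast]
    have := χ.2.apply_one_ne_zero
    field_simp
  simp only [h0, Finset.sum_const_zero, ← Finset.mul_sum] at h1
  have h2 := (mul_eq_zero.mp h1.symm).resolve_left (pow_ne_zero _ natCard_ne_zero')
  rw [← Finset.add_sum_erase _ _ (Finset.mem_univ (irrOne G))] at h2 h
  simp only [irrOne_apply, one_pow, div_one, norm_one] at h2 h
  have h3 : ‖∑ χ ∈ Finset.univ.erase (irrOne G), (χ : G → ℂ) g / (χ : G → ℂ) 1 ^ 3‖ ≤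
      ∑ χ ∈ Finset.univ.erase (irrOne G), 1 / ‖(χ : G → ℂ) 1‖ ^ 2 := by
    refine (norm_sum_le _ _).trans (Finset.sum_le_sum fun χ _ => ?_)
    have h4 : 0 < ‖(χ : G → ℂ) 1‖ := norm_pos_iff.mpr χ.2.apply_one_ne_zero
    rw [norm_div, norm_pow, div_le_div_iff₀ (by positivity) (by positivity)]
    have := χ.2.isCharacter.norm_le g
    nlinarith [pow_pos h4 2]
  rw [eq_neg_of_add_eq_zero_right h2] at h3
  simp only [norm_neg, norm_one] at h3
  linarith

end Cfsg.Agent.S4814
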