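import Cfsg.Statements.S4825
import Cfsg.Agent.H8.Glaub2
import Cfsg.Agent.H7.TB4
import Cfsg.Agent.H5.Clifford1
-- import your own Cfsg.Agent.* helpers here

set_option autoImplicit false
open Cfsg

namespace Cfsg.Agent.S4825

open MonoidAlgebra Cfsg.Agent.H3 Cfsg.Agent.H4 Cfsg.Agent.H7
open Cfsg.Agent.H6 (Res locRing redC redA eB fB intAlg classSum omega chiL)
open scoped Pointwise
set_option linter.style.haveILetI false


/-- Let p be a prime, G a finite group with Sylow p-subgroup P, M a maximal ideal of the algebraic integers containing p, and B a p-block of G with defect group P. Let N be a normal subgroup of G not containing P and θ an irreducible character of N. Then the number of irreducible characters in B of degree prime to p lying over θ (having θ as a constituent on restriction to N) is either 0 or at least 2, and when p ≤ 3 it is divisible by p. -/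
theorem result {G : Type*} [Group G] [Fintype G] (p : ℕ) [Fact p.Prime] (P : Sylow p G) (M : Ideal Cfsg.AlgInt) (hM : Cfsg.IsPModular p M) (B : Set (Cfsg.IrrCharacter G)) (hB : Cfsg.IsPBlock M B) (hBP : Cfsg.IsDefectGroup p M B P) (N : Subgroup G) [N.Normal] [Fintype N] (hPN : ¬ (P : Subgroup G) ≤ N) (θ : Cfsg.IrrCharacter N) :
    (Nat.card {χ : Cfsg.IrrCharacter G // χ ∈ B ∧ ¬ p ∣ Cfsg.charDegree (χ : G → ℂ) ∧ Cfsg.classInner (fun n : N => (χ : G → ℂ) n) (θ : N → ℂ) ≠ 0} = 0 ∨
      2 ≤ Nat.card {χ : Cfsg.IrrCharacter G // χ ∈ B ∧ ¬ p ∣ Cfsg.charDegree (χ : G → ℂ) ∧ Cfsg.classInner (fun n : N => (χ : G → ℂ) n) (θ : N → ℂ) ≠ 0}) ∧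
    (p ≤ 3 → p ∣ Nat.card {χ : Cfsg.IrrCharacter G // χ ∈ B ∧ ¬ p ∣ Cfsg.charDegree (χ : G → ℂ) ∧ Cfsg.classInner (fun n : N => (χ : G → ℂ) n) (θ : N → ℂ) ≠ 0}) := by
  classical
  haveI := hM.2.1
  obtain ⟨x, hxP, hxN⟩ := SetLike.not_le_iff_exists.1 hPN
  obtain ⟨k, hk⟩ := P.isPGroup' ⟨x, hxP⟩
  have hx : x ^ p ^ k = 1 := congrArg Subtype.val hk
  have hη := H8.isCharacter_blockPart (B := B) (H5.isCharacter_indFun N θ.2.isCharacter)
  have h0 : blockPart B (indFun N θ.1) x = 0 := by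
    rw [H6.blockPart_eq_chiL _ (H5.indFun_isClassFunction _ _), H6.chiL_apply]
    refine Finset.sum_eq_zero fun g _ => ?_
    by_cases hg : g ∈ N
    · rw [MonoidAlgebra.coeff_mul_single_apply, H6.coeff_fB, H6.blockCoeff_eq_zero hM hB, zero_mul,
        zero_mul]
      by_contra hn
      have h1 : QuotientGroup.mk' N (g * x⁻¹) = (QuotientGroup.mk' N x)⁻¹ := by
        rw [map_mul, show QuotientGroup.mk' N g = 1 from (QuotientGroup.eq_one_iff g).2 hg, one_mul,
          map_inv]
      have h2 := orderOf_map_dvd (QuotientGroup.mk' N) (g * x⁻¹)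
      rw [h1, orderOf_inv] at h2
      have h3 : orderOf (QuotientGroup.mk' N x) ∣ p ^ k :=
        orderOf_dvd_of_pow_eq_one (by rw [← map_pow, hx, map_one])
      refine hxN ((QuotientGroup.eq_one_iff x).1 (orderOf_eq_one_iff.1 ?_))
      exact Nat.eq_one_of_dvd_coprimes
        (Nat.Coprime.pow_left k ((Nat.Prime.coprime_iff_not_dvd hM.1).2 hn)) h3 h2
    · rw [H5.indFun_eq_zero_of_normal N _ hg, mul_zero]
  choose e he using fun χ : IrrCharacter G =>
    (χ.2.isCharacter.comp N.subtype).classInner_nat θ.2.isCharacter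
  have he' : ∀ χ : IrrCharacter G, classInner (fun n : N => χ.1 n) θ.1 = e χ := he
  have h1 := H8.dvd_of_apply_eq_zero hη hx h0 (n := ∑ χ ∈ H8.bfin B, e χ * charDegree χ.1) (by
    rw [H8.blockPart_eq, Finset.sum_apply]
    push_cast
    refine Finset.sum_congr rfl fun χ _ => ?_
    rw [Pi.smul_apply, H5.inner_indFun_left _ _ χ.2.isClassFunction, ← H4.classInner_conj_symm, he',
      map_natCast, χ.2.isCharacter.charDegree_cast, smul_eq_mul])
  set t := (H8.bfin B).filter fun χ => ¬ p ∣ charDegree χ.1 ∧ classInner (fun n : N => χ.1 n) θ.1 ≠ 0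
  have h2 : p ∣ ∑ χ ∈ t, charDegree χ.1 ^ 2 := by
    rw [← ZMod.natCast_eq_zero_iff] at h1 ⊢
    rw [← mul_zero ((((H5.NEmb.ofNormal N).inertia θ.1).index * charDegree θ.1 : ℕ) : ZMod p), ← h1,
      Finset.sum_filter]
    push_cast
    rw [Finset.mul_sum]
    refine Finset.sum_congr rfl fun χ _ => ?_
    by_cases h3 : p ∣ charDegree χ.1
    · simp [h3, (ZMod.natCast_eq_zero_iff _ _).2 h3]
    by_cases h4 : classInner (fun n : N => χ.1 n) θ.1 = 0
    · have : e χ = 0 := by exact_mod_cast (he' χ).symm.trans h4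
      simp [h4, this]
    have h5 : χ.1 1 = classInner (fun n : N => χ.1 n) θ.1 * _ * _ :=
      (H5.NEmb.ofNormal N).clifford_degree χ.2 θ.2 h4
    rw [he', ← χ.2.isCharacter.charDegree_cast, ← θ.2.isCharacter.charDegree_cast] at h5
    have h6 : charDegree χ.1 = e χ * ((H5.NEmb.ofNormal N).inertia θ.1).index * charDegree θ.1 := by
      exact_mod_cast h5
    rw [if_pos ⟨h3, h4⟩, sq]
    nth_rw 1 [h6]
    push_cast
    ring
  rw [Nat.card_eq_fintype_card, Fintype.card_of_subtype t (by simp [t])]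
  refine ⟨by_contra fun hn => ?_, fun hp => ?_⟩
  · obtain ⟨χ, hχ⟩ := Finset.card_eq_one.1 (show t.card = 1 by omega)
    rw [hχ, Finset.sum_singleton] at h2
    exact (Finset.mem_filter.1 (hχ ▸ Finset.mem_singleton_self χ : χ ∈ t)).2.1
      (hM.1.dvd_of_dvd_pow h2)
  · rw [← ZMod.natCast_eq_zero_iff] at h2 ⊢
    rw [← h2, Finset.card_eq_sum_ones]
    push_cast
    refine Finset.sum_congr rfl fun χ hχ => ?_
    have h3 := ZMod.pow_card_sub_one_eq_one
      (mt (ZMod.natCast_eq_zero_iff _ _).1 (Finset.mem_filter.1 hχ).2.1)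
    have := hM.1.two_le
    obtain rfl | rfl : p = 2 ∨ p = 3 := by omega
    · rw [sq, show ((charDegree χ.1 : ℕ) : ZMod 2) = 1 by simpa using h3, one_mul]
    · exact h3.symm

end Cfsg.Agent.S4825
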