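import Cfsg.Statements.S4828
import Cfsg.Agent.H7.Central
-- import your own Cfsg.Agent.* helpers here

set_option autoImplicit false
open Cfsg

namespace Cfsg.Agent.S4828

open MonoidAlgebra Cfsg.Agent.H3 Cfsg.Agent.H4 Cfsg.Agent.H7
open Cfsg.Agent.H6 (Res locRing redC redA eB fB intAlg classSum omega chiL)
open scoped Pointwise
set_option linter.style.haveILetI false


/-- Let p be a prime, M a maximal ideal of the algebraic integers containing p, and (Q, e) a Brauer pair of the finite group G (Q a p-subgroup, e a block of C_G(Q)). Then (Q, e) is a maximal Brauer pair of some block of G if and only if e contains an irreducible character θ such that θ takes the value θ(1) at every element of Z(Q) = Q ∩ C_G(Q), the p-part of θ(1) times the p-part of the order of Z(Q) equals the p-part of the order of C_G(Q) (θ has defect zero as a character of C_G(Q)/Z(Q)), and every element of N_G(Q) of p-power order that stabilizes e lies in Q·C_G(Q) (the stabilizer of e in N_G(Q) has index prime to p over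 Q·C_G(Q)). -/
theorem result {G : Type*} [Group G] [Finite G] (p : ℕ) [Fact p.Prime] (M : Ideal Cfsg.AlgInt) (hM : Cfsg.IsPModular p M) (Q : Subgroup G) (e : Set (Cfsg.IrrCharacter (Subgroup.centralizer (Q : Set G)))) (he : Cfsg.IsBrauerPair p M Q e) :
    (∃ B : Set (Cfsg.IrrCharacter G), Cfsg.IsMaximalBrauerPair p M B Q e) ↔
      ∃ θ ∈ e, (∀ z : Subgroup.centralizer (Q : Set G), (z : G) ∈ Q → (θ : Subgroup.centralizer (Q : Set G) → ℂ) z = (θ : Subgroup.centralizer (Q : Set G) → ℂ) 1) ∧
        (Cfsg.charDegree (θ : Subgroup.centralizer (Q : Set G) → ℂ)).factorization p + (Nat.card ↥(Q ⊓ Subgroup.centralizer (Q : Set G))).factorization p = (Nat.card (Subgroup.centralizer (Q : Set G))).factorization p ∧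
        (∀ g : G, g ∈ Subgroup.normalizer (Q : Set G) → Cfsg.StabilizesBlock (Subgroup.centralizer (Q : Set G)) e g → (∃ k : ℕ, orderOf g = p ^ k) → g ∈ Q ⊔ Subgroup.centralizer (Q : Set G)) := by
  haveI := hM.2.1; haveI := H6.charP_res hM
  have hp : p.Prime := Fact.out
  have hp' := IsBrauerPair.isPair he
  have hZ : (Q ⊓ Subgroup.centralizer (Q : Set G)).subgroupOf (Subgroup.centralizer (Q : Set G)) ≤
      Subgroup.center _ := fun z hz => Subgroup.mem_center_iff.2 fun g =>
    Subtype.ext (g.2 z hz.1).symm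
  have hdeg : ∀ n, n + (Nat.card ↥(Q ⊓ Subgroup.centralizer (Q : Set G))).factorization p =
      (Nat.card (Subgroup.centralizer (Q : Set G))).factorization p ↔ n =
        ((Q ⊓ Subgroup.centralizer (Q : Set G)).subgroupOf
          (Subgroup.centralizer (Q : Set G))).index.factorization p := fun n => by
    rw [H6.factorization_card_eq ((Q ⊓ Subgroup.centralizer (Q : Set G)).subgroupOf
      (Subgroup.centralizer (Q : Set G))),
      Nat.card_congr (Subgroup.subgroupOfEquivOfLe inf_le_right).toEquiv]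
    omega
  have hN : NS ⊤ Q (eb M _ e) ≤
      Subgroup.normalizer ((Q ⊔ Subgroup.centralizer (Q : Set G) : Subgroup G) : Set G) :=
    fun g hg => mem_normalizer_sup (mem_NS.1 hg).1
      (normalizer_le_normalizer_centralizer Q (mem_NS.1 hg).1)
  have hle : Q ⊔ Subgroup.centralizer (Q : Set G) ≤ NS ⊤ Q (eb M _ e) :=
    sup_le (hp'.le_NS le_top) hp'.centralizer_le_NS
  constructor
  · rintro ⟨B, hB⟩
    have S := maxP_of_isMaximal hM hB
    have h1 := S.isDef_CK le_top
    rw [CK_top] at h1
    haveI : ((Q ⊓ Subgroup.centralizer (Q : Set G)).subgroupOf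
        (Subgroup.centralizer (Q : Set G))).Normal := ⟨fun d hd g => by
      rwa [Subgroup.mem_center_iff.1 (hZ hd) g, mul_inv_cancel_right]⟩
    obtain ⟨θ, hθ, h2, h3, -⟩ := exists_canonical hM he.2
      (fun g _ d hd => (Subgroup.mem_center_iff.1 (hZ hd) g).symm)
      ((isDefectGroup_subgroupOf_iff' hM he.2 inf_le_right).2 h1)
    have h4 := S.not_dvd_relIndex S.pair S.isDef_NS
    rw [CK_top, sup_comm] at h4
    refine ⟨θ, hθ, fun z hz => apply_of_mem_charKer (h2 ⟨hz, z.2⟩), (hdeg _).2 h3,
      fun g hg hs ⟨k, hk⟩ => ?_⟩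
    exact mem_of_pow_eq_one_of_not_dvd hN h4
      (mem_NS.2 ⟨hg, trivial, ((stabilizesBlock_iff he.2).1 hs).2⟩) (hk ▸ pow_orderOf_eq_one g)
  · rintro ⟨θ, hθ, -, h2, h3⟩
    have h4 := laradji hM (D := (Q ⊓ Subgroup.centralizer (Q : Set G)).subgroupOf _)
      ((he.1.to_le inf_le_left).comap_subtype) hZ θ ((hdeg _).1 h2)
    rw [← H6.block_eq_blockOf he.2 hθ, isDefectGroup_subgroupOf_iff' hM he.2 inf_le_right] at h4
    have h5 := (hp'.isDef_sup_iff le_top).2 (by rwa [CK_top])
    rw [CK_top] at h5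
    have h6 := h5.of_not_dvd hle hN (not_dvd_relIndex_of_forall hle fun x hx hx' =>
      h3 x (mem_NS.1 hx).1 ((stabilizesBlock_iff he.2).2
        ⟨normalizer_le_normalizer_centralizer Q (mem_NS.1 hx).1, (mem_NS.1 hx).2.2⟩) hx')
    obtain ⟨B, hI, hB⟩ := exists_ind_CK he.1 le_top hp'.blk
    obtain ⟨B, hB', rfl⟩ := exists_eB_eq hI.right
    exact ⟨B, (isMaximalBrauerPair_iff hM).2 ⟨(isBrauerPairOf_iff hM).2 ⟨he, hB', hB⟩,
      isDef_of_isDef_NS le_rfl Subgroup.le_normalizer_of_normal hI.right hp' le_top hB h6⟩⟩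

end Cfsg.Agent.S4828
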