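import Cfsg.Statements.S4840
import Mathlib
import Cfsg.Agent.H8.Gagola3

set_option autoImplicit false
open Cfsg

namespace Cfsg.Agent.S4840

open scoped ComplexConjugate commutatorElement Pointwise
-- OPENS
open Cfsg.Agent.H8
open Cfsg.Agent.H6 hiding blockCoeff_eq_zero blockCoeff_mem blockDefect_eq blockHeight_eq
  blockPart_add blockPart_eq_zero_of_regular blockPart_eq_zero_of_singular blockPart_irr_of_mem
  blockPart_irr_of_not_mem blockPart_isClassFunction blockPart_smul blockPart_sub blockPart_sum
  blockPart_zero block_eq_blockOf block_eq_of_mem block_nonempty card_defectGroup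
  centralChar_mem char_mem conj_char_mem deg_factorization_le exists_height_zero
  irrOne_mem_principal isPBlock_blockOf isPBlock_principal isPGroup_zpowers mem_blockOf_self
  orderOf_conj' sameBlock_refl sameBlock_symm sameBlock_trans weak_orth weak_orth'
open Cfsg.Agent.H4 hiding exists_int_of_isIntegral_rat
open Cfsg.Agent.H5
open Cfsg.Agent.H3 hiding exists_central_mod mem_of_pow_mem_of_coprime


/-- Let G be a finite solvable group of order greater than 2 with an irreducible character nonzero on exactly two conjugacy classes. Then there is exactly one prime p with O_p(G) ≠ 1, and the quotient G/O_p(G) has a normal p-complement and commutative Sylow p-subgroups. -/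
theorem result {G : Type*} [Group G] [Finite G] [hs : Group.IsSolvable G] (hG : 2 < Nat.card G) (χ : Cfsg.IrrCharacter G) (hχ : Nat.card {C : ConjClasses G // ∃ g ∈ C.carrier, (χ : G → ℂ) g ≠ 0} = 2) :
    ∃ p : ℕ, p.Prime ∧ (∀ q : ℕ, q.Prime → (Cfsg.pCore q G ≠ ⊥ ↔ q = p)) ∧
      Cfsg.HasNormalPComplement p (G ⧸ Cfsg.pCore p G) ∧ ∀ Q : Sylow p (G ⧸ Cfsg.pCore p G), IsMulCommutative (Q : Subgroup (G ⧸ Cfsg.pCore p G)) := by
  obtain ⟨x, h⟩ := exists_gag hG χ hχ
  obtain ⟨p, hp, h1, -⟩ := h.exists_gagG
  haveI := Fact.mk hp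
  haveI := h1.normal
  refine ⟨p, hp, fun q hq => ⟨fun e => ?_, ?_⟩, pnil_of_not_dvd_commutator (h1.not_dvd_commutator hs)⟩
  · by_contra hne
    haveI := Fact.mk hq
    have h2 := IsPGroup.disjoint_of_ne q p hne _ _ (H1.isPGroup_pCore q G) h1.pg
    exact h1.ne_bot (h2.symm.eq_bot_of_le (h1.min _ inferInstance e))
  · rintro rfl e
    exact h1.ne_bot (le_bot_iff.1 (e ▸ H1.le_pCore h1.pg))

end Cfsg.Agent.S4840
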