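import Cfsg.Statements.S4843
import Cfsg.Agent.H6.Prim
import Cfsg.Agent.H4.Char4
import Cfsg.Agent.H4.Galois
-- import your own Cfsg.Agent.* helpers here

set_option autoImplicit false
open Cfsg

namespace Cfsg.Agent.S4843

open Cfsg.Agent.H4 Cfsg.Agent.H5 Cfsg.Agent.H6 Cfsg.Agent.H1

open scoped ComplexConjugate commutatorElement

section
variable {G : Type*} [Group G] [Fintype G]

/-- The character of `G` on the span of the image of `N`. -/
noncomputable def mon (N : Subgroup G) [Fintype N] (χ : G → ℂ) (g : G) : ℂ :=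
  ((Nat.card (N ⊓ Subgroup.center G : Subgroup G) : ℂ) * χ 1)⁻¹ * ∑ n : N, χ (g * n * g⁻¹ * (n : G)⁻¹)

theorem sum_center {N : Subgroup G} [Fintype N] (F : G → ℂ) (c : ℂ)
    (h0 : ∀ x ∈ N, x ∉ Subgroup.center G → F x = 0) (h1 : ∀ x ∈ N, x ∈ Subgroup.center G → F x = c) :
    ∑ n : N, F n = Nat.card (N ⊓ Subgroup.center G : Subgroup G) * c := by
  classical
  rw [← H1.card_subgroupOf_of_le (inf_le_left : N ⊓ Subgroup.center G ≤ N),
    natCard_subtype_eq_sum, Finset.sum_mul]
  refine Finset.sum_congr rfl fun n _ => ?_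
  split_ifs with h
  · rw [one_mul]; exact h1 n n.2 h.2
  · rw [zero_mul]; exact h0 n n.2 fun hz => h ⟨n.2, hz⟩

theorem isCharacter_mon {χ : G → ℂ} (hχ : IsIrrCharacter G χ) (N : Subgroup G) [hN : N.Normal]
    [Fintype N] (h0 : ∀ x ∈ N, x ∉ Subgroup.center G → χ x = 0) :
    IsCharacter G (mon N χ) ∧ IsCharacter G ((χ * fun g => conj (χ g)) - mon N χ) := by
  classical
  have hχ0 := hχ.apply_one_ne_zero
  obtain ⟨d, ρ, rfl⟩ := hχ.isCharacter
  set c : ℂ := ((Nat.card (N ⊓ Subgroup.center G : Subgroup G) : ℂ) * ρ.character 1)⁻¹ with hc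
  let f : G → (((Fin d → ℂ) →ₗ[ℂ] (Fin d → ℂ)) →ₗ[ℂ] ℂ) := fun x =>
    LinearMap.trace ℂ _ ∘ₗ LinearMap.mulRight ℂ (ρ x⁻¹)
  have hf : ∀ x X, f x X = LinearMap.trace ℂ _ (X * ρ x⁻¹) := fun _ _ => rfl
  let e : ((Fin d → ℂ) →ₗ[ℂ] (Fin d → ℂ)) →ₗ[ℂ] ((Fin d → ℂ) →ₗ[ℂ] (Fin d → ℂ)) :=
    c • ∑ n : N, (f n).smulRight (ρ n)
  have he : ∀ X, e X = c • ∑ n : N, f n X • ρ n := fun X => by simp [e, LinearMap.sum_apply]
  let R := Representation.linHom ρ ρ
  have hR : ∀ g X, R g X = ρ g * X * ρ g⁻¹ := fun _ _ => rfl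
  have hcomm : ∀ g, e * R g = R g * e := by
    intro g
    refine LinearMap.ext fun X => ?_
    rw [Module.End.mul_apply, Module.End.mul_apply, he, he, map_smul, map_sum,
      ← Equiv.sum_comp (MulAut.conjNormal (H := N) g).toEquiv]
    congr 1
    refine Finset.sum_congr rfl fun n _ => ?_
    rw [map_smul, hR, hR, hf, hf]
    simp only [MulEquiv.toEquiv_eq_coe, MulEquiv.coe_toEquiv, MulAut.conjNormal_apply, map_mul]
    congr 1
    rw [mul_assoc, mul_assoc, LinearMap.trace_mul_comm, mul_assoc, mul_assoc, ← map_mul, ← map_mul]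
    congr 3; group
  have hfix : ∀ m : N, e (ρ m) = ρ m := by
    intro m
    rw [he, ← Equiv.sum_comp (Equiv.mulRight m)]
    have h1 : ∀ n : N, f ((Equiv.mulRight m n : N) : G) (ρ m) • ρ ((Equiv.mulRight m n : N) : G) =
        (if (n : G) ∈ Subgroup.center G then ρ.character 1 else 0) • ρ m := by
      intro n
      have h2 : f ((Equiv.mulRight m n : N) : G) (ρ m) = ρ.character (n : G)⁻¹ := by
        rw [hf, ← map_mul]; congr 2; simp
      rw [h2]
      split_ifs with h
      · obtain ⟨ω, hω, hω'⟩ := (mem_charCenter_character_iff ρ n).1 (hχ.center_le_charCenter h)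
        have h3 := apply_mul_of_mem_charCenter (hχ.center_le_charCenter h) hχ0 (n : G)⁻¹
        have h4 : ρ.character n = ω * ρ.character 1 := by
          rw [Representation.character, hω', map_smul, Representation.character, map_one]; rfl
        rw [mul_inv_cancel, h4, mul_div_cancel_right₀ _ hχ0] at h3
        simp only [Equiv.coe_mulRight, Subgroup.coe_mul, map_mul, hω']
        rw [h3, smul_mul_assoc, smul_smul, mul_comm]; rfl
      · rw [h0 _ (N.inv_mem n.2) (fun h' => h (by simpa using h')), zero_smul, zero_smul]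
    rw [Finset.sum_congr rfl fun n _ => h1 n, ← Finset.sum_smul, smul_smul,
      sum_center (fun x => if x ∈ Subgroup.center G then ρ.character 1 else 0) (ρ.character 1)
        (fun x _ h => if_neg h) (fun x _ h => if_pos h), hc, inv_mul_cancel₀
        (mul_ne_zero (card_ne_zero_C _) hχ0), one_smul]
  have hidem : e * e = e := by
    refine LinearMap.ext fun X => ?_
    rw [Module.End.mul_apply, he X, map_smul, map_sum]
    simp only [map_smul, hfix]
  have htr : ∀ g, LinearMap.trace ℂ _ (R g * e) = mon N ρ.character g := by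
    intro g
    simp only [e, mul_smul_comm, map_smul, Finset.mul_sum, map_sum, smul_eq_mul, mon]
    refine Finset.sum_congr rfl fun n _ => ?_
    congr 1
    have : R g * (f n).smulRight (ρ n) = (f n).smulRight (R g (ρ n)) := by
      ext1 X; simp
    rw [this, LinearMap.trace_smulRight, hf, hR, ← map_mul, ← map_mul, ← map_mul]; rfl
  refine ⟨?_, ?_⟩
  · have := isCharacter_trace_mul_idem R e hcomm hidem
    rwa [funext htr] at this
  · have := isCharacter_trace_mul_idem R (1 - e) (fun g => LinearMap.ext fun X => by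
      have := LinearMap.congr_fun (hcomm g) X
      simp only [Module.End.mul_apply] at this
      simp [this]) (LinearMap.ext fun X => by
      have := LinearMap.congr_fun hidem X
      simp only [Module.End.mul_apply] at this
      simp [this])
    convert this using 2 with g
    have h1 : R g = R g * (1 - e) + R g * e := LinearMap.ext fun X => by simp
    have h2 : R.character g = LinearMap.trace ℂ _ (R g * (1 - e)) + LinearMap.trace ℂ _ (R g * e) :=
      (congrArg (LinearMap.trace ℂ _) h1).trans (map_add _ _ _)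
    rw [Pi.sub_apply, Pi.mul_apply, ← hχ.isCharacter.apply_inv,
      mul_comm, ← Representation.char_linHom, h2, htr, add_sub_cancel_right]

theorem isPrim_of_mul {χ : G → ℂ} (hχ : IsIrrCharacter G χ) {k : ℕ} (hk : k.Coprime (Nat.card G))
    (h : IsIrrCharacter G (fun g => χ g * χ (g ^ k))) : IsPrim χ := by
  intro T α hα he
  haveI := Fintype.ofFinite T
  have hkT : k.Coprime (Nat.card T) := hk.coprime_dvd_right T.card_subgroup_dvd_card
  have hψ := hχ.comp_pow hk
  have h1 : indFun T (α * fun t : T => χ ((t : G) ^ k)) = fun g => χ g * χ (g ^ k) := by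
    rw [indFun_mul_res' T α hψ.isClassFunction, he]; rfl
  have h2 := isIrr_of_indFun T (hα.isCharacter.mul (hψ.isCharacter.restrict T)) (h1 ▸ h)
  obtain ⟨σ, hσ⟩ := exists_ringEquiv_char_pow hk
  have h3 : classInner (fun t : T => χ t) α ≠ 0 := by
    rw [← inner_indFun_right T α hχ.isClassFunction, he, hχ.classInner_self]; exact one_ne_zero
  have h4 : classInner (fun t : T => χ ((t : G) ^ k)) (fun t => σ (α t)) ≠ 0 := by
    have := hα.isGen.classInner_map_ringHom' (θ := fun t : T => χ t) (h := (hχ.isCharacter.restrict T).isGen)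
      σ.toRingHom
    rw [← this] at h3
    have h5 : (fun t : T => χ ((t : G) ^ k)) = fun t : T => σ.toRingHom (χ t) :=
      funext fun t => (hσ χ hχ.isGen t).symm
    rw [h5]; exact h3
  have h5 := (hψ.isCharacter.restrict T).sub_irr (hα.map_ringHom σ.toRingHom) h4
  have h6 := hα.isCharacter.mul h5
  have h7 := hα.isCharacter.mul (hα.map_ringHom σ.toRingHom).isCharacter
  obtain ⟨d, hd0, hd⟩ := hα.exists_degree
  have hd' : (d : ℂ) ≠ 0 := by exact_mod_cast hd0.ne'
  obtain ⟨η, hη, hη'⟩ := h7.exists_constituent (fun h => by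
    have := congrFun h 1
    simp [hd, hd'] at this)
  have h8 : (α * fun t : T => χ ((t : G) ^ k)) = (α * fun g => σ.toRingHom (α g)) +
      α * ((fun t : T => χ ((t : G) ^ k)) - fun g => σ.toRingHom (α g)) := by
    rw [← mul_add, add_sub_cancel]
  obtain ⟨a, ha⟩ := h7.classInner_nat hη.isCharacter
  obtain ⟨b, hb⟩ := h6.classInner_nat hη.isCharacter
  have h9 : (α * fun t : T => χ ((t : G) ^ k)) = η := h2.eq_of_classInner_ne_zero hη (by
    rw [h8, classInner_add_left, ha, hb]
    rw [ha] at hη'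
    have : a ≠ 0 := by exact_mod_cast hη'
    exact_mod_cast (show a + b ≠ 0 by omega))
  have h10 := degree_le_of_constituent h7 hη hη'
  rw [← h9] at h10
  have h11 := indFun_one T α
  rw [he] at h11
  simp only [Pi.mul_apply, OneMemClass.coe_one, one_pow, h11, hd, map_natCast] at h10
  have h12 : d * (T.index * d) ≤ d * d := by
    rw [← Nat.cast_mul, ← Nat.cast_mul, ← Nat.cast_mul, Complex.natCast_re, Complex.natCast_re] at h10
    exact_mod_cast h10
  have h13 : T.index ≤ 1 := by
    have := Nat.le_of_mul_le_mul_left h12 hd0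
    nlinarith
  have := Subgroup.index_ne_zero_of_finite (H := T)
  exact Subgroup.index_eq_one.1 (by omega)

end


/-- Let G be a finite group with a faithful irreducible character χ (taking the value χ(1) only at the identity) and let k be prime to the order of G, so that g ↦ χ(g^k) is a Galois conjugate of χ. If the pointwise product g ↦ χ(g)·χ(g^k) is again an irreducible character, then the Fitting subgroup of G equals its centre. -/
theorem result {G : Type*} [Group G] [Finite G] (χ : Cfsg.IrrCharacter G) (hfaith : ∀ g : G, (χ : G → ℂ) g = (χ : G → ℂ) 1 → g = 1) (k : ℕ) (hk : Nat.Coprime k (Nat.card G)) (hirr : Cfsg.IsIrrCharacter G (fun g => (χ : G → ℂ) g * (χ : G → ℂ) (g ^ k))) : Cfsg.fittingSubgroup G = Subgroup.center G := by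
  classical
  haveI := Fintype.ofFinite G
  obtain ⟨χ, hχ⟩ := χ
  have hker : charKer χ = ⊥ := eq_bot_iff.2 fun g hg => hfaith g (apply_of_mem_charKer hg)
  have hprim := isPrim_of_mul hχ hk hirr
  refine le_antisymm ?_ center_le_fittingSubgroup
  by_contra hF
  obtain ⟨N, ⟨hN, hNF, hNZ⟩, hmin⟩ := (wellFounded_lt (α := Subgroup G)).has_min
    {N : Subgroup G | N.Normal ∧ N ≤ fittingSubgroup G ∧ ¬ N ≤ Subgroup.center G}
    ⟨_, inferInstance, le_rfl, hF⟩
  have hN0 : N ≠ ⊥ := by rintro rfl; exact hNZ bot_le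
  haveI := isNilpotent_of_le hNF (isNilpotent_fittingSubgroup G)
  have h1 : ⁅N, N⁆ ≤ Subgroup.center G := by
    have := commutator_lt_of_isSolvable (N := N) inferInstance hN0
    by_contra h3; exact hmin _ ⟨inferInstance, this.le.trans hNF, h3⟩ this
  have h2 : N ⊓ Subgroup.centralizer (N : Set G) ≤ Subgroup.center G :=
    hχ.charCenter_eq_center hker ▸ hprim.le_charCenter hχ _
      ((Subgroup.commutator_eq_bot_iff_le_centralizer.2
        (inf_le_right.trans (Subgroup.centralizer_le inf_le_left))).le.trans bot_le)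
  have h0 : ∀ x ∈ N, x ∉ Subgroup.center G → χ x = 0 := by
    intro x hx hz
    by_contra hne
    refine hz (h2 ⟨hx, fun y hy => ?_⟩)
    have h3 := apply_mul_of_mem_charCenter (hχ.center_le_charCenter
      (h1 (Subgroup.commutator_mem_commutator hy hx))) hχ.apply_one_ne_zero x
    rw [commutatorElement_def, inv_mul_cancel_right, hχ.isClassFunction] at h3
    exact commutatorElement_eq_one_iff_mul_comm.1 (hfaith _ ((div_eq_one_iff_eq
      hχ.apply_one_ne_zero).1 (mul_right_cancel₀ hne (h3.symm.trans (one_mul _).symm))))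
  have hpow : ∀ (L : Subgroup G) (x : G), x ^ k ∈ L → x ∈ L := fun L x hx =>
    Subgroup.zpowers_le.2 hx (mem_zpowers_pow_iff.2 (hk.coprime_dvd_right (orderOf_dvd_natCard x)))
  have hψ := hχ.comp_pow hk
  obtain ⟨a1, a2⟩ := isCharacter_mon hχ N h0
  obtain ⟨b1, b2⟩ := isCharacter_mon hψ N fun x hx hz => h0 _ (pow_mem hx k) fun h => hz (hpow _ _ h)
  have hkN : (Nat.card N).Coprime k := (hk.coprime_dvd_right N.card_subgroup_dvd_card).symm
  have hmon : mon N (fun g => χ (g ^ k)) = mon N χ := by
    funext g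
    simp only [mon, one_pow]
    congr 1
    rw [← Equiv.sum_comp (powCoprime hkN) (fun n : N => χ (g * n * g⁻¹ * (n : G)⁻¹))]
    refine Finset.sum_congr rfl fun n _ => ?_
    have hm : ∀ x ∈ N, g * x * g⁻¹ * x⁻¹ ∈ N := fun x hx => N.mul_mem (hN.conj_mem x hx g) (N.inv_mem hx)
    have key : ∀ (x : G) (j : ℕ), g * x * g⁻¹ * x⁻¹ ∈ Subgroup.center G →
        g * x ^ j * g⁻¹ * (x ^ j)⁻¹ = (g * x * g⁻¹ * x⁻¹) ^ j := by
      intro x j hz
      have h3 : Commute (g * x * g⁻¹ * x⁻¹) x := (Subgroup.mem_center_iff.1 hz x).symm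
      rw [← conj_pow, mul_inv_eq_iff_eq_mul, ← h3.mul_pow, inv_mul_cancel_right]
    simp only [powCoprime_apply, SubgroupClass.coe_pow]
    by_cases hz : g * n * g⁻¹ * (n : G)⁻¹ ∈ Subgroup.center G
    · rw [key _ _ hz]
    · rw [h0 _ (pow_mem (hm n n.2) k) fun h => hz (hpow _ _ h), h0 _ (hm _ (pow_mem n.2 k))]
      intro h
      obtain ⟨j, hj⟩ := exists_pow_eq_self_of_coprime (x := (n : G)) (n := k)
        (hk.coprime_dvd_right (orderOf_dvd_natCard _))
      have := key _ j h
      rw [hj] at this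
      exact hz (this ▸ pow_mem h j)
  rw [hmon] at b2
  set m := mon N χ with hm
  have h3 : classInner (χ * fun g => conj (χ g)) ((fun g => χ (g ^ k)) * fun g => conj (χ (g ^ k))) = 1 := by
    rw [← hirr.classInner_self, classInner_def, classInner_def]
    congr 1
    refine Finset.sum_congr rfl fun g _ => ?_
    simp only [Pi.mul_apply, map_mul, Complex.conj_conj]; ring
  rw [← add_sub_cancel m (χ * fun g => conj (χ g)),
    ← add_sub_cancel m ((fun g => χ (g ^ k)) * fun g => conj (χ (g ^ k))), classInner_add_left,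
    classInner_add_right, classInner_add_right] at h3
  obtain ⟨c1, hc1⟩ := a1.classInner_nat a1
  obtain ⟨c2, hc2⟩ := a1.classInner_nat b2
  obtain ⟨c3, hc3⟩ := a2.classInner_nat a1
  obtain ⟨c4, hc4⟩ := a2.classInner_nat b2
  rw [hc1, hc2, hc3, hc4] at h3
  have h4 : c1 + c2 + (c3 + c4) = 1 := by exact_mod_cast h3
  have hZ0 := card_ne_zero_C (N ⊓ Subgroup.center G : Subgroup G)
  have hχ0 := hχ.apply_one_ne_zero
  have h5 : classInner m (fun _ => 1) = 1 := by
    rw [classInner_one_right]
    simp only [hm, mon]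
    rw [← Finset.mul_sum, Finset.sum_comm]
    simp only [hχ.sum_conj_mul]
    rw [sum_center (fun x => Nat.card G * χ x / χ 1 * χ x⁻¹) (Nat.card G * χ 1)
      (fun x hx hz => by simp [h0 x hx hz]) (fun x _ hz => by
        have := apply_mul_of_mem_charCenter (hχ.center_le_charCenter hz) hχ0 x⁻¹
        rw [mul_inv_cancel] at this
        rw [mul_div_assoc, mul_assoc, ← this])]
    have := natCard_ne_zero' (G := G)
    field_simp
  have h6 : c1 = 1 := by
    have : c1 ≠ 0 := by
      rintro rfl
      rw [Nat.cast_zero, classInner_self_eq_zero] at hc1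
      rw [hc1, classInner_zero_left] at h5
      exact zero_ne_one h5
    omega
  have h7 := (a1.isIrr_of_classInner_self (by rw [hc1, h6, Nat.cast_one])).eq_of_classInner_ne_zero
    isIrrCharacter_one (by rw [h5]; exact one_ne_zero)
  have h8 := congrFun h7 1
  simp only [hm, mon, one_mul, inv_one, mul_one, mul_inv_cancel, Finset.sum_const, Finset.card_univ,
    nsmul_eq_mul, ← Nat.card_eq_fintype_card] at h8
  field_simp at h8
  have h9 : N ⊓ Subgroup.center G = N :=
    Subgroup.eq_of_le_of_card_ge inf_le_left (le_of_eq (by exact_mod_cast h8))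
  exact hNZ (h9 ▸ inf_le_right)

end Cfsg.Agent.S4843
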