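import Cfsg.Statements.S4845
import Mathlib
import Cfsg.Agent.H8.Deg7

set_option autoImplicit false
open Cfsg

namespace Cfsg.Agent.S4845

open scoped ComplexConjugate commutatorElement Pointwise
-- OPENS H8
open Cfsg.Agent.H8
open Cfsg.Agent.H6 hiding blockCoeff_eq_zero blockDefect_eq blockHeight_eq blockPart_add
  blockPart_eq_zero_of_regular blockPart_eq_zero_of_singular blockPart_irr_of_mem
  blockPart_irr_of_not_mem blockPart_isClassFunction blockPart_smul blockPart_sub blockPart_sum
  blockPart_zero block_eq_blockOf block_eq_of_mem block_nonempty centralChar_mem char_mem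
  conj_char_mem deg_factorization_le exists_height_zero irrOne_mem_principal isPBlock_blockOf
  isPBlock_principal mem_blockOf_self orderOf_conj' sameBlock_refl sameBlock_symm
  sameBlock_trans weak_orth weak_orth'
open Cfsg.Agent.H4 hiding exists_int_of_isIntegral_rat
open Cfsg.Agent.H5
open Cfsg.Agent.H3 hiding mem_of_pow_mem_of_coprime


/-- Let p be a prime and P a finite non-commutative p-group. Then every two irreducible characters of P of the same degree greater than 1 are Galois conjugate (one is obtained from the other by composing with g ↦ g^k for some k prime to the order of P) if and only if the centre of P is cyclic and the derived subgroup of P has order p. -/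
theorem result {P : Type*} [Group P] [Finite P] (p : ℕ) [Fact p.Prime] (hP : IsPGroup p P) (hna : ¬ IsMulCommutative P) :
    (∀ χ ψ : Cfsg.IrrCharacter P, Cfsg.charDegree (χ : P → ℂ) ≠ 1 → Cfsg.charDegree (χ : P → ℂ) = Cfsg.charDegree (ψ : P → ℂ) → ∃ k : ℕ, Nat.Coprime k (Nat.card P) ∧ ∀ g : P, (ψ : P → ℂ) g = (χ : P → ℂ) (g ^ k)) ↔
      (IsCyclic (Subgroup.center P) ∧ Nat.card (commutator P) = p) := by
  have h1 : commutator P ≠ ⊥ := fun h1 => hna ⟨⟨fun a b => commutatorElement_eq_one_iff_mul_comm.1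
    (Subgroup.mem_bot.1 (h1 ▸ Subgroup.commutator_mem_commutator (Subgroup.mem_top a) (Subgroup.mem_top b)))⟩⟩
  refine ⟨fun h => ?_, fun ⟨h2, h3⟩ χ ψ h4 h5 => ?_⟩
  · have h2 : H8.SameKer P := fun χ ψ hχ hψ h2 h3 g hg => by
      obtain ⟨k, -, h4⟩ := h ⟨χ, hχ⟩ ⟨ψ, hψ⟩ h2 h3
      refine hψ.isCharacter.mem_charKer.2 ((h4 g).trans ((h4 1).trans ?_).symm)
      rw [one_pow]
      exact (H4.apply_of_mem_charKer (pow_mem hg k)).symm
    have h3 := H8.card_commutator_of_sameKer P hP h2 h1
    obtain ⟨_, ⟨χ, rfl⟩, h4⟩ := H8.exists_cd_ne_one h1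
    refine ⟨χ.2.isCyclic_center ((H8.eq_or_bot_of_le_card_prime Fact.out h3
      (h2.charKer_le χ.2 h4)).resolve_right fun h5 => (H8.degree_ne_one_iff χ.2).1 h4 h5.ge), h3⟩
  · obtain ⟨k, -, h6, h7⟩ := H8.galois_conj_of_cyclic_center hP h2 h3 χ.2 ψ.2 h4 (h5 ▸ h4)
    obtain ⟨n, hn⟩ := IsPGroup.iff_card.1 hP
    exact ⟨k, hn ▸ h6.pow_right n, h7⟩

end Cfsg.Agent.S4845
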