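import Cfsg.Statements.S4847
import Cfsg.Agent.H25.Pal6

set_option autoImplicit false
open Cfsg

namespace Cfsg.Agent.S4847

/-- Let G be a finite solvable group and p, q, r three distinct primes each dividing the degree of some irreducible character of G. Then for some two of them the product divides the degree of some irreducible character of G (the character degree graph of a solvable group has no three pairwise non-adjacent vertices). -/
theorem result {G : Type*} [Group G] [Finite G] [hs : Group.IsSolvable G] (p q r : ℕ) (hp : p.Prime) (hq : q.Prime) (hr : r.Prime) (hpq : p ≠ q) (hqr : q ≠ r) (hpr : p ≠ r)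
    (hpd : ∃ χ : Cfsg.IrrCharacter G, p ∣ Cfsg.charDegree (χ : G → ℂ)) (hqd : ∃ χ : Cfsg.IrrCharacter G, q ∣ Cfsg.charDegree (χ : G → ℂ)) (hrd : ∃ χ : Cfsg.IrrCharacter G, r ∣ Cfsg.charDegree (χ : G → ℂ)) :
    (∃ χ : Cfsg.IrrCharacter G, p * q ∣ Cfsg.charDegree (χ : G → ℂ)) ∨ (∃ χ : Cfsg.IrrCharacter G, q * r ∣ Cfsg.charDegree (χ : G → ℂ)) ∨ (∃ χ : Cfsg.IrrCharacter G, p * r ∣ Cfsg.charDegree (χ : G → ℂ)) := by
  have e : ∀ m : ℕ, (∃ χ : Cfsg.IrrCharacter G, m ∣ Cfsg.charDegree (χ : G → ℂ)) ↔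
      ∃ d ∈ charDegrees G, m ∣ d := fun m =>
    ⟨fun ⟨χ, h⟩ => ⟨_, H8.charDegree_mem_cd χ.2, h⟩, fun ⟨d, hd, h⟩ => by
      obtain ⟨χ, hχ, h1⟩ := H8.mem_cd.1 hd
      exact ⟨⟨χ, hχ⟩, by rwa [H4.charDegree_eq_of h1]⟩⟩
  simp only [e] at hpd hqd hrd ⊢
  by_contra h
  push Not at h
  exact H25.Pal.palfy hp hq hr hpq hqr hpr _ rfl hpd hqd hrd h.1 h.2.1 h.2.2

end Cfsg.Agent.S4847
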