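import Cfsg.Statements.S4850
import Cfsg.Agent.H7.Vn1
-- import your own Cfsg.Agent.* helpers here

set_option autoImplicit false
open Cfsg

namespace Cfsg.Agent.S4850


/-- Let p be a prime and G a finite solvable group whose vanishing elements (elements at which some irreducible character is zero) of order divisible by p all have the same order, with at least one such element. Let P be a Sylow p-subgroup of G. Then the derived subgroup of P is subnormal in G and the image of P in G/O_p(G) is cyclic. -/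
theorem result {G : Type*} [Group G] [Finite G] [hs : Group.IsSolvable G] (p : ℕ) [Fact p.Prime] (b : ℕ) (hvo : {n : ℕ | p ∣ n ∧ ∃ (g : G) (χ : Cfsg.IrrCharacter G), orderOf g = n ∧ (χ : G → ℂ) g = 0} = {b}) (P : Sylow p G) :
    ((commutator ↥(P : Subgroup G)).map (P : Subgroup G).subtype).IsSubnormal ∧ IsCyclic ↥((P : Subgroup G).map (QuotientGroup.mk' (Cfsg.pCore p G))) := by
  have hp : p.Prime := Fact.out
  have hP := P.isPGroup'.map (QuotientGroup.mk' (Cfsg.pCore p G))
  have h1 := Cfsg.Agent.H7.card_le_of_van (QuotientGroup.mk'_surjective (Cfsg.pCore p G))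
    inferInstance (Cfsg.Agent.H1.pCore_quotient_pCore p) (b := b)
    (fun g hg ⟨χ, hχ, h0⟩ => hvo.le ⟨hg, g, ⟨χ, hχ⟩, rfl, h0⟩) hP
  have hc : IsCyclic ↥((P : Subgroup G).map (QuotientGroup.mk' (Cfsg.pCore p G))) := by
    obtain ⟨k, hk⟩ := IsPGroup.iff_card.mp hP
    refine isCyclic_of_card_dvd_prime (p := p) ?_
    rw [hk] at h1 ⊢
    conv_rhs => rw [← pow_one p]
    exact pow_dvd_pow p ((Nat.pow_le_pow_iff_right hp.one_lt).mp (by rwa [pow_one]))
  refine ⟨Subgroup.IsSubnormal.trans (K := _ ⊔ ⊤) le_sup_left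
    ((Cfsg.Agent.H26.subnormal_sup_iff (P.isPGroup'.to_le (Subgroup.map_subtype_le _))).mpr
      ⟨_, Cfsg.Agent.H1.isPGroup_pCore p G, ?_, Subgroup.le_normalizer_of_normal⟩)
    (by rw [sup_top_eq]; exact Subgroup.IsSubnormal.top), hc⟩
  rw [Subgroup.map_subtype_commutator, ← QuotientGroup.ker_mk' (Cfsg.pCore p G),
    ← Subgroup.map_eq_bot_iff, Subgroup.map_commutator,
    Subgroup.commutator_eq_bot_iff_le_centralizer]
  exact Subgroup.le_centralizer _

end Cfsg.Agent.S4850
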