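import Cfsg.Statements.S4864
import Cfsg.Agent.H6.RealP2
-- import your own Cfsg.Agent.* helpers here

set_option autoImplicit false
open Cfsg

namespace Cfsg.Agent.S4864

open Cfsg.Agent.H6 Subgroup


/-- Let p be a prime and G a finite group such that the subgroup generated by the p-elements of G is solvable and every real-valued irreducible complex character of G has degree prime to p. Then the normalizer of a Sylow p-subgroup of G contains an element of every real conjugacy class of G: every element conjugate to its inverse is conjugate to an element of that normalizer. -/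
theorem result {G : Type*} [Group G] [Finite G] (p : ℕ) [Fact p.Prime] (hsolv : Group.IsSolvable ↥(Subgroup.closure {g : G | ∃ k : ℕ, orderOf g = p ^ k})) (hreal : ∀ χ : Cfsg.IrrCharacter G, (∀ g : G, ((χ : G → ℂ) g).im = 0) → ¬ p ∣ Cfsg.charDegree (χ : G → ℂ)) (P : Sylow p G) (x : G) (hx : IsConj x x⁻¹) : ∃ y ∈ Subgroup.normalizer ((P : Subgroup G) : Set G), IsConj x y := by
  haveI := RP.inf_gen_normal hsolv hreal P
  have hf := QuotientGroup.mk'_surjective ((P : Subgroup G) ⊓ RP.gen 2 G)
  obtain ⟨y, h1, h2⟩ := RP.exists_conj_mem_normalizer (RP.map_gen (p := p) _ hf ▸ H1.isSolvable_map _ hsolv)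
    (RP.RH.quot hreal _) (P.mapSurjective hf) (x := QuotientGroup.mk' _ x) (eq_bot_iff.2 (by
      rw [← RP.map_gen (p := 2) _ hf]
      rintro _ ⟨⟨a, ha, rfl⟩, b, hb, e⟩
      exact (QuotientGroup.eq_one_iff a).2 (mem_inf.2 ⟨ha, (Subgroup.mul_mem_cancel_left _ (inv_mem hb)).1
        (mem_inf.1 (QuotientGroup.eq.1 e)).2⟩))) ((QuotientGroup.mk' _).map_isConj hx)
  obtain ⟨c, rfl⟩ := isConj_iff.1 h2
  obtain ⟨c, rfl⟩ := hf c
  refine ⟨c * x * c⁻¹, ?_, isConj_iff.2 ⟨c, rfl⟩⟩
  rw [← comap_map_eq_self (f := QuotientGroup.mk' ((P : Subgroup G) ⊓ RP.gen 2 G)) (H := P)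
    (by rw [QuotientGroup.ker_mk']; exact inf_le_left), ← comap_normalizer_eq_of_surjective _ hf]
  exact h1

end Cfsg.Agent.S4864
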