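import Cfsg.Statements.S4866
import Mathlib
import Cfsg.Agent.H8.Gal1
import Cfsg.Agent.H8.Glaub4
import Cfsg.Agent.H25.Real

set_option autoImplicit false
open Cfsg

namespace Cfsg.Agent.S4866

open scoped ComplexConjugate commutatorElement Pointwise
-- OPENS
open Cfsg.Agent.H8
open Cfsg.Agent.H6 hiding block_eq_blockOf block_eq_of_mem block_nonempty centralChar_mem
  char_mem conj_char_mem deg_factorization_le irrOne_mem_principal isPBlock_blockOf
  isPBlock_principal mem_blockOf_self orderOf_conj' sameBlock_refl sameBlock_symm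
  sameBlock_trans
open Cfsg.Agent.H4 hiding exists_int_of_isIntegral_rat
open Cfsg.Agent.H5
open Cfsg.Agent.H3 hiding mem_of_pow_mem_of_coprime


/-- Let K be a normal subgroup of odd index in the finite group G. Then G has as many orbits on the real-valued irreducible complex characters of K (acting by conjugation) as it has orbits on the conjugacy classes of K that are real in K; equivalently, the number of G-orbits of real-valued irreducible characters of K equals the number of G-conjugacy classes of elements of K that are conjugate in K to their inverses. -/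
theorem result {G : Type*} [Group G] [Finite G] (K : Subgroup G) [K.Normal] (hodd : Odd K.index) : Nat.card (Quot (fun θ η : {θ : Cfsg.IrrCharacter ↥K // (∀ k : ↥K, ((θ : ↥K → ℂ) k).im = 0)} => ∃ g : G, ∀ k k' : ↥K, (k' : G) = g * (k : G) * g⁻¹ → (η.1 : ↥K → ℂ) k' = (θ.1 : ↥K → ℂ) k)) = Nat.card (Quot (fun x y : {x : ↥K // IsConj x x⁻¹} => ∃ g : G, (y.1 : G) = g * x.1 * g⁻¹)) := by
  haveI := Fintype.ofFinite G
  haveI := Fintype.ofFinite K
  have hodd' : Odd (NEmb.ofNormal K).f.range.index := by rwa [NEmb.ofNormal_range]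
  choose f h1 h2 h3 h4 using fun θ : {θ : IrrCharacter K // ∀ k : K, ((θ : K → ℂ) k).im = 0} =>
    exists_real_over (NEmb.ofNormal K) hodd' θ.1.2 θ.2
  have hr : ∀ (x : {x : K // IsConj x x⁻¹}) (k : G), ConjClasses.mk k = ConjClasses.mk x.1.1 → IsConj k k⁻¹ := by
    intro x k hk
    obtain ⟨c, hc⟩ := isConj_iff.mp (ConjClasses.mk_eq_mk_iff_isConj.mp hk)
    obtain ⟨t, ht⟩ := isConj_iff.mp x.2
    have ht' : (t : G) * x.1 * (t : G)⁻¹ = (x.1 : G)⁻¹ := congrArg Subtype.val ht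
    rw [← hc] at ht'
    exact isConj_iff.mpr ⟨c⁻¹ * t * c, by
      rw [show c⁻¹ * t * c * k * (c⁻¹ * t * c)⁻¹ = c⁻¹ * (t * (c * k * c⁻¹) * (t : G)⁻¹) * c by group, ht']
      group⟩
  refine (card_quot_eq _ (fun θ => (⟨⟨f θ, h1 θ⟩, h3 θ⟩ : {χ : IrrCharacter G // ∀ g, (χ.1 g).im = 0})) ?_ ?_ ?_).trans
    ((card_real_irr G).trans (card_quot_eq _ (fun x => (⟨ConjClasses.mk x.1.1, hr x⟩ :
      {c : ConjClasses G // ∀ k, ConjClasses.mk k = c → IsConj k k⁻¹})) ?_ ?_ ?_).symm)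
  · rintro ⟨χ, hχ⟩
    obtain ⟨θ, h5, h6⟩ := exists_irr_under K χ.2
    have h7 := real_under (NEmb.ofNormal K) hodd' χ.2 hχ h5 h6
    have h8 := h4 ⟨⟨θ, h5⟩, h7⟩ χ.1 χ.2 h6 hχ
    exact ⟨⟨⟨θ, h5⟩, h7⟩, Subtype.ext (Subtype.ext h8.symm)⟩
  · rintro θ η ⟨g, hg⟩
    refine Subtype.ext (Subtype.ext (h4 η _ (h1 θ) ?_ (h3 θ)))
    have : (NEmb.ofNormal K).cj η.1.1 g = θ.1.1 := funext fun k => hg k _ rfl
    rw [← (NEmb.ofNormal K).inner_res_cj (h1 θ).isClassFunction _ g, this, h2]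
    exact one_ne_zero
  · intro θ η h
    have h5 : f θ = f η := congrArg (fun x => x.1.1) h
    obtain ⟨g, hg⟩ := (NEmb.ofNormal K).exists_cj_eq_of_constituents (h1 θ) η.1.2 θ.1.2
      (by rw [h5, h2]; exact one_ne_zero) (by rw [h2]; exact one_ne_zero)
    refine ⟨g, fun k k' hk => ?_⟩
    rw [← congrFun hg k, NEmb.cj_apply]
    exact congrArg η.1.1 (Subtype.ext hk)
  · rintro ⟨c, hc⟩
    obtain ⟨x, rfl⟩ := ConjClasses.mk_surjective c
    obtain ⟨t, ⟨j, hj⟩, ht⟩ := Cfsg.Agent.H25.exists_two_elt_inverting (hc x rfl)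
    have h5 := mem_of_two_pow K hodd hj
    have h7 : x ^ 2 ∈ K := by
      have := K.mul_mem (Subgroup.Normal.conj_mem inferInstance _ h5 x) (K.inv_mem h5)
      rwa [show x * t * x⁻¹ * t⁻¹ = x * (t * x * t⁻¹)⁻¹ by group, ht, inv_inv, ← sq] at this
    obtain ⟨m, hm⟩ := id hodd
    have h6 : x ∈ K := by
      have := K.pow_index_mem x
      rw [hm, pow_succ, pow_mul] at this
      exact (K.mul_mem_cancel_left (K.pow_mem h7 m)).mp this
    exact ⟨⟨⟨x, h6⟩, isConj_iff.mpr ⟨⟨t, h5⟩, Subtype.ext ht⟩⟩, rfl⟩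
  · rintro x y ⟨g, hg⟩
    exact Subtype.ext (ConjClasses.mk_eq_mk_iff_isConj.mpr (isConj_iff.mpr ⟨g, hg.symm⟩))
  · intro x y h
    obtain ⟨g, hg⟩ := isConj_iff.mp (ConjClasses.mk_eq_mk_iff_isConj.mp (congrArg Subtype.val h))
    exact ⟨g, hg.symm⟩

end Cfsg.Agent.S4866
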