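import Cfsg.Statements.S4870
import Mathlib
import Cfsg.Agent.H8.Lin1

set_option autoImplicit false
open Cfsg

namespace Cfsg.Agent.S4870

open scoped ComplexConjugate commutatorElement Pointwise
-- OPENS
open Cfsg.Agent.H8
open Cfsg.Agent.H6 hiding block_eq_blockOf block_eq_of_mem block_nonempty centralChar_mem
  char_mem conj_char_mem deg_factorization_le irrOne_mem_principal isPBlock_blockOf
  isPBlock_principal mem_blockOf_self orderOf_conj' sameBlock_refl sameBlock_symm
  sameBlock_trans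
open Cfsg.Agent.H4 hiding exists_int_of_isIntegral_rat
open Cfsg.Agent.H5
open Cfsg.Agent.H3


/-- Let G be a finite group with a non-abelian minimal normal subgroup N, and let φ be an irreducible complex character of N with stabilizer I in G (the elements g with φ(g n g⁻¹) = φ(n) for all n ∈ N) such that φ extends to an irreducible character of I. Put d = φ(1)·[G : I]. Then the number of linear characters of G is at most [G : I] times the number of irreducible characters of G of degree d. -/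
theorem result {G : Type*} [Group G] [Finite G] (N : Subgroup G) (hN : N.Normal) (hN1 : N ≠ ⊥) (hmin : ∀ M : Subgroup G, M.Normal → M ≤ N → M = ⊥ ∨ M = N) (hna : ¬ IsMulCommutative ↥N) (φ : Cfsg.IrrCharacter ↥N) (I : Subgroup G) (hI : ∀ g : G, g ∈ I ↔ ∀ n n' : ↥N, (n' : G) = g * (n : G) * g⁻¹ → (φ : ↥N → ℂ) n' = (φ : ↥N → ℂ) n) (hNI : N ≤ I) (hext : ∃ ψ : Cfsg.IrrCharacter ↥I, ∀ n : ↥N, (ψ : ↥I → ℂ) (Subgroup.inclusion hNI n) = (φ : ↥N → ℂ) n) : Nat.card {χ : Cfsg.IrrCharacter G // Cfsg.charDegree (χ : G → ℂ) = 1} ≤ I.index * Nat.card {χ : Cfsg.IrrCharacter G // Cfsg.charDegree (χ : G → ℂ) = Cfsg.charDegree (φ : ↥N → ℂ) * I.index} := by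
  haveI := Fintype.ofFinite G
  obtain ⟨ψ, hψ⟩ := hext
  obtain ⟨h1, h2⟩ := linear_mul_ind (le_commutator_of_min hmin hna) φ.2 hI hNI ψ.2 hψ
  have h3 := fun χ : IrrCharacter G => (irr_charDegree_eq_one_iff χ).mp
  exact card_linear_le_mul I h3
    (fun a => ⟨⟨_, (h1 _ a.1.2 (h3 _ a.2)).2.1⟩, (h1 _ a.1.2 (h3 _ a.2)).2.2⟩)
    fun a b h => h2 _ _ a.1.2 (h3 _ a.2) b.1.2 (h3 _ b.2) (congrArg (fun x => x.1.1) h)

end Cfsg.Agent.S4870
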