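import Cfsg.Statements.S4873
import Mathlib
import Cfsg.Agent.H8.Gal1

set_option autoImplicit false
open Cfsg

namespace Cfsg.Agent.S4873

open scoped ComplexConjugate commutatorElement Pointwise
-- OPENS
open Cfsg.Agent.H8
open Cfsg.Agent.H6 hiding block_eq_blockOf block_eq_of_mem block_nonempty centralChar_mem
  char_mem conj_char_mem deg_factorization_le irrOne_mem_principal isPBlock_blockOf
  isPBlock_principal mem_blockOf_self orderOf_conj' sameBlock_refl sameBlock_symm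
  sameBlock_trans
open Cfsg.Agent.H4 hiding exists_int_of_isIntegral_rat
open Cfsg.Agent.H5
open Cfsg.Agent.H3


/-- Let N be a normal subgroup of odd index in the finite group G. Then every irreducible complex character of N with Frobenius–Schur indicator +1 lies under exactly one irreducible character of G with Frobenius–Schur indicator +1. -/
theorem result {G : Type*} [Group G] [Finite G] (N : Subgroup G) [N.Normal] (hodd : Odd N.index) (φ : Cfsg.IrrCharacter ↥N) (hφ : (Nat.card ↥N : ℂ)⁻¹ * ∑ᶠ g : ↥N, (φ : ↥N → ℂ) (g * g) = 1) : ∃! χ : Cfsg.IrrCharacter G, (Nat.card G : ℂ)⁻¹ * ∑ᶠ g : G, (χ : G → ℂ) (g * g) = 1 ∧ (∑ᶠ n : ↥N, (χ : G → ℂ) n * (starRingEnd ℂ) ((φ : ↥N → ℂ) n)) ≠ 0 := by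
  haveI := Fintype.ofFinite G
  haveI := Fintype.ofFinite N
  simp only [fsInd_finsum] at hφ ⊢
  obtain ⟨χ, h1, h2, h3, h4⟩ := exists_real_over (NEmb.ofNormal N) (by rwa [NEmb.ofNormal_range]) φ.2
    (real_of_fsInd_ne_zero φ.2 (hφ.trans_ne one_ne_zero))
  refine ⟨⟨χ, h1⟩, ⟨?_, (finsum_inner_ne_zero_iff _ _).mpr (h2.trans_ne one_ne_zero)⟩, fun χ' h5 =>
    Subtype.ext (h4 _ χ'.2 ((finsum_inner_ne_zero_iff _ _).mp h5.2)
      (real_of_fsInd_ne_zero χ'.2 (h5.1.trans_ne one_ne_zero)))⟩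
  have h5 := fsInd_eq_sum (indFun_isClassFunction N φ.1)
  rw [fsInd_indFun_of_odd N hodd, hφ, Finset.sum_eq_single ⟨χ, h1⟩ (fun ψ _ hψ => ?_) (by simp),
    inner_indFun_left _ _ h1.isClassFunction, φ.2.isCharacter.classInner_comm (h1.isCharacter.restrict N)] at h5
  · exact (one_mul _).symm.trans ((congrArg (· * fsInd χ) h2.symm).trans h5.symm)
  · by_contra h6
    rw [← ne_eq, mul_ne_zero_iff, inner_indFun_left _ _ ψ.2.isClassFunction,
      φ.2.isCharacter.classInner_comm (ψ.2.isCharacter.restrict N)] at h6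
    exact hψ (Subtype.ext (h4 _ ψ.2 h6.1 (real_of_fsInd_ne_zero ψ.2 h6.2)))

end Cfsg.Agent.S4873
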