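import Cfsg.Statements.S4885
import Cfsg.Agent.H8.OneBlk
import Cfsg.Agent.H6.Kernel
import Cfsg.Agent.H9.PSolv
import Cfsg.Agent.H3.Tate
import Cfsg.Agent.H1.Frattini
import Cfsg.Agent.H8.Glaub2
-- import your own Cfsg.Agent.* helpers here

set_option autoImplicit false
open Cfsg

namespace Cfsg.Agent.S4885

open Cfsg.Agent.H4 Cfsg.Agent.H5 Cfsg.Agent.H1

open scoped commutatorElement

theorem exists_constituent {G : Type*} [Group G] [Fintype G] {p : ℕ} {θ : G → ℂ}
    (hθ : IsCharacter G θ) (h : ¬ p ∣ charDegree θ) :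
    ∃ ψ, IsIrrCharacter G ψ ∧ classInner θ ψ ≠ 0 ∧ ¬ p ∣ charDegree ψ := by
  by_contra! hc
  obtain ⟨m, hm⟩ := isCharacter_iff_exists_nat.1 hθ
  have h1 : charDegree θ = ∑ ψ : IrrCharacter G, m ψ * charDegree (ψ : G → ℂ) := by
    apply charDegree_eq_of
    rw [hm]; simp [fun ψ : IrrCharacter G => ψ.2.isCharacter.charDegree_cast]
  refine h (h1 ▸ Finset.dvd_sum fun ψ _ => ?_)
  by_cases h0 : m ψ = 0
  · simp [h0]
  · refine Dvd.dvd.mul_left (hc ψ ψ.2 ?_) _
    rw [hm, classInner_sum_irr_left (fun ψ => (m ψ : ℂ))]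
    exact_mod_cast h0

theorem inf_le_frattini {H : Type*} [Group H] [Finite H] {p : ℕ} [Fact p.Prime] (P : Sylow p H)
    {A : Subgroup H} (h : ∀ ψ, IsIrrCharacter H ψ → ¬ p ∣ charDegree ψ → A ≤ charKer ψ) :
    A ⊓ P ≤ (frattini (P : Subgroup H)).map (P : Subgroup H).subtype := by
  haveI := Fintype.ofFinite H
  haveI := Fintype.ofFinite (P : Subgroup H)
  rintro x ⟨hxA, hxP⟩
  refine ⟨⟨x, hxP⟩, H3.commutator_le_frattini P.isPGroup' ?_, rfl⟩
  by_contra hx
  obtain ⟨lam, h1, h2, h3⟩ := exists_irr_ker_apply_ne (commutator (P : Subgroup H)) hx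
  have h4 := h1.commutator_le_charKer_iff.1 h2
  obtain ⟨ψ, hψ, hne, hd⟩ := exists_constituent (p := p) h1.isCharacter.ind (by
    rw [charDegree_eq_of (d := (P : Subgroup H).index) (by rw [indFun_one, h4, mul_one])]
    exact P.not_dvd_index)
  rw [inner_indFun_left _ _ hψ.isClassFunction, Ne, classInner_eq_zero_symm] at hne
  refine h3 (apply_of_mem_charKer ((hψ.isCharacter.restrict _).charKer_le_of_constituent h1 hne ?_))
  exact (hψ.isCharacter.restrict _).mem_charKer.2 (apply_of_mem_charKer (h ψ hψ hd hxA))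

theorem isPGroup_of_inf_le {H : Type*} [Group H] [Finite H] {p : ℕ} [hp : Fact p.Prime]
    (P : Sylow p H) (hO : pPrimeCore p H = ⊥) {T : Subgroup H} [T.Normal]
    (h : T ⊓ P ≤ (frattini (P : Subgroup H)).map (P : Subgroup H).subtype) : IsPGroup p T := by
  have h1 := H3.hasNormalPComplement_iff_not_dvd.1 (H3.hasNormalPComplement_of_inf_le_frattini P T h)
  have h2 : (pResidual p T).map T.subtype ≤ pPrimeCore p H := le_pPrimeCore (by
    rw [Subgroup.card_map_of_injective T.subtype_injective]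
    exact ((Nat.Prime.coprime_iff_not_dvd hp.out).2 h1).symm)
  rw [hO, le_bot_iff, Subgroup.map_eq_bot_iff_of_injective _ T.subtype_injective] at h2
  exact H3.pResidual_eq_bot_iff.1 h2

theorem claim {G : Type*} [Group G] [Finite G] {p : ℕ} [hp : Fact p.Prime] (hd : p ∣ Nat.card G)
    (hps : IsPSolvable p G) {M : Ideal AlgInt} (hM : IsPModular p M) {L : Subgroup G} [L.Normal]
    (h : ∀ χ : IrrCharacter G, χ ∈ principalBlock M G → ¬ p ∣ charDegree (χ : G → ℂ) →
      L ≤ charKer (χ : G → ℂ)) :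
    pPrimeCore p G ⊔ L ≠ ⊤ ∧ ∀ T : Subgroup G, T.Normal → pPrimeCore p G ⊔ L ≤ T →
      ¬ p ∣ (pPrimeCore p G ⊔ L).relIndex T → T ≤ pPrimeCore p G ⊔ L := by
  haveI := hM.2.1
  let π := QuotientGroup.mk' (pPrimeCore p G)
  have hπ : Function.Surjective π := QuotientGroup.mk'_surjective _
  have hO := pPrimeCore_quotient_pPrimeCore (G := G) p
  obtain ⟨P⟩ := (inferInstance : Nonempty (Sylow p (G ⧸ pPrimeCore p G)))
  have hB := H8.principal_eq_univ_of_centralizer hM (isPGroup_pCore p (G ⧸ pPrimeCore p G))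
    ((isPGroup_pCore p _).to_le
      (H9.centralizer_pCore_le_of_isPSolvable (H9.isPSolvable_quotient hps _) hO))
  have h1 := inf_le_frattini P (A := L.map π) fun ψ hψ hψd => by
    have h2 : (⟨ψ, hψ⟩ : IrrCharacter _) ∈ principalBlock M _ := hB ▸ Set.mem_univ _
    have h3 := h ⟨_, hψ.comp_of_surjective π hπ⟩ (H6.sameBlock_comp π hπ h2) (by
      simpa [charDegree] using hψd)
    rw [charKer_comp_of_surjective ψ π hπ] at h3
    exact Subgroup.map_le_iff_le_comap.2 h3
  have hD : (pPrimeCore p G ⊔ L).map π = L.map π := by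
    rw [Subgroup.map_sup, (Subgroup.map_eq_bot_iff _).2 (QuotientGroup.ker_mk' _).ge, bot_sup_eq]
  constructor
  · intro ht
    rw [← hD, ht, Subgroup.map_top_of_surjective π hπ, top_inf_eq] at h1
    refine (map_frattini_lt ((isSylowIn_top P).ne_bot ?_)).not_ge h1
    rw [Subgroup.card_top]
    rw [Subgroup.card_eq_card_quotient_mul_card_subgroup (pPrimeCore p G)] at hd
    exact (hp.out.dvd_mul.1 hd).resolve_right (not_dvd_card_pPrimeCore p G)
  · intro T _ hT hTd
    haveI : (T.map π).Normal := Subgroup.Normal.map inferInstance π hπ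
    haveI : (L.map π).Normal := Subgroup.Normal.map inferInstance π hπ
    have h2 : ¬ p ∣ (L.map π).relIndex (T.map π) := fun h =>
      hTd (h.trans (hD ▸ H9.relIndex_map_dvd π _ _))
    have h3 : ∀ U : Subgroup (G ⧸ pPrimeCore p G), U ≤ T.map π → IsPGroup p U → U ≤ L.map π := by
      intro U hU hUp
      rw [← Subgroup.relIndex_eq_one]
      obtain ⟨k, hk⟩ := IsPGroup.iff_card.1 hUp
      obtain ⟨j, -, hj⟩ := (Nat.dvd_prime_pow hp.out).1 (hk ▸ Subgroup.relIndex_dvd_card (L.map π) U)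
      rcases j with _ | j
      · simpa using hj
      · exact absurd ((hj ▸ dvd_pow_self p j.succ_ne_zero).trans
          (H9.relIndex_dvd_of_le_right_of_normal _ hU)) h2
    have h4 := h3 _ le_rfl (isPGroup_of_inf_le P hO (le_trans (le_inf (h3 _ inf_le_left
      (P.isPGroup'.to_le inf_le_right)) inf_le_right) h1))
    rw [Subgroup.map_le_iff_le_comap, Subgroup.comap_map_eq, QuotientGroup.ker_mk', sup_comm] at h4
    exact h4


/-- Let p and q be primes dividing the order of the finite group G, and suppose G is p-solvable and q-solvable. Fix maximal ideals of the algebraic integers containing p and q, defining the principal p-block and the principal q-block. If the irreducible characters of degree prime to p in the principal p-block are exactly the irreducible characters of degree prime to q in the principal q-block, then p = q. -/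
theorem result {G : Type*} [Group G] [Finite G] (p q : ℕ) [Fact p.Prime] [Fact q.Prime] (hp : p ∣ Nat.card G) (hq : q ∣ Nat.card G) (hps : Cfsg.IsPSolvable p G) (hqs : Cfsg.IsPSolvable q G) (Mp Mq : Ideal Cfsg.AlgInt) (hMp : Cfsg.IsPModular p Mp) (hMq : Cfsg.IsPModular q Mq) (h : ∀ χ : Cfsg.IrrCharacter G, (χ ∈ Cfsg.principalBlock Mp G ∧ ¬ p ∣ Cfsg.charDegree (χ : G → ℂ)) ↔ (χ ∈ Cfsg.principalBlock Mq G ∧ ¬ q ∣ Cfsg.charDegree (χ : G → ℂ))) : p = q := by
  by_contra hpq
  haveI := hMp.2.1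
  haveI := hMq.2.1
  have hp' : p.Prime := Fact.out
  have hq' : q.Prime := Fact.out
  obtain ⟨h1, h2⟩ := claim hp hps hMp (L := pPrimeCore q G) fun χ h1 h2 =>
    H6.pPrimeCore_le_charKer hMq ((h χ).1 ⟨h1, h2⟩).1
  obtain ⟨-, h3⟩ := claim hq hqs hMq (L := pPrimeCore p G) fun χ h1 h2 =>
    H6.pPrimeCore_le_charKer hMp ((h χ).2 ⟨h1, h2⟩).1
  rw [sup_comm] at h3
  obtain ⟨T, hT, h4, -, h5⟩ := H9.exists_step_of_isPSolvable (M := ⊤)
    (H9.isPSolvable_top_iff.2 hps) (lt_top_iff_ne_top.2 h1)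
  rcases h5 with ⟨m, hm⟩ | h5
  · refine h4.not_ge (h3 T hT h4.le fun hd => hpq ?_)
    rw [hm] at hd
    exact ((Nat.prime_dvd_prime_iff_eq hq' hp').1 (hq'.dvd_of_dvd_pow hd)).symm
  · exact h4.not_ge (h2 T hT h4.le ((Nat.Prime.coprime_iff_not_dvd hp').1 h5.symm))

end Cfsg.Agent.S4885
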