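import Cfsg.Statements.S4886
import Cfsg.Agent.S4885
import Cfsg.Agent.H8.Isa1
import Cfsg.Agent.H4.Frobenius
import Cfsg.Agent.H8.Ord1

set_option autoImplicit false
open Cfsg

namespace Cfsg.Agent.S4886

open Cfsg.Agent.H4 Cfsg.Agent.H5 Cfsg.Agent.H1 Cfsg.Agent.H8 Subgroup
open scoped commutatorElement Pointwise

section grp
variable {G : Type*} [Group G] [Finite G]

theorem inf_cent_le_comm {A K : Subgroup G} (hAK : A ≤ normalizer (K : Set G))
    (hcop : (Nat.card A).Coprime (Nat.card K)) (h : K ≤ ⁅K, A⁆) :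
    K ⊓ centralizer (A : Set G) ≤ ⁅K, K⁆ := by
  have := Fintype.ofFinite A
  let lam := Abelianization.of (G := K)
  let μ : K →* Abelianization K := ∏ s : A, lam.comp (cjE (hAK s.2)).toMonoidHom
  have hμ : ∀ k, μ k = ∏ s : A, lam (cjE (hAK s.2) k) := fun k => by
    simp only [μ, MonoidHom.finset_prod_apply]; rfl
  have h5 : ∀ t (ht : t ∈ A) k, μ (cjE (hAK ht) k) = μ k := fun t ht k => by
    rw [hμ, hμ, ← Equiv.prod_comp (Equiv.mulRight (⟨t, ht⟩ : A)) fun s => lam (cjE (hAK s.2) k)]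
    exact Finset.prod_congr rfl fun s _ => congrArg lam (Subtype.ext (by simp [mul_assoc]))
  have h6 : K ≤ μ.ker.map K.subtype := by
    refine h.trans ?_
    rw [commutator_comm, commutator_le]
    intro t ht k hk
    refine ⟨cjE (hAK ht) ⟨k, hk⟩ * ⟨k, hk⟩⁻¹, ?_, rfl⟩
    rw [SetLike.mem_coe, MonoidHom.mem_ker, map_mul, map_inv, h5 t ht, mul_inv_cancel]
  intro c hc
  obtain ⟨k, hk, rfl⟩ := h6 hc.1
  have h8 : μ k = 1 := hk
  have h7 : ∀ s : A, cjE (hAK s.2) k = k := fun s => Subtype.ext (by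
    rw [coe_cjE, show (s : G) * k = k * s from hc.2 s s.2, mul_inv_cancel_right])
  rw [hμ] at h8
  simp only [h7, Finset.prod_const, Finset.card_univ, Fintype.card_eq_nat_card] at h8
  have h9 : lam k ^ Nat.card K = 1 := by rw [← map_pow, pow_card_eq_one', map_one]
  rw [← map_subtype_commutator]
  exact ⟨k, (QuotientGroup.eq_one_iff k).1 ((pow_eq_one_iff_of_coprime hcop).1 ⟨h8, h9⟩), rfl⟩

theorem comm_eq_bot {p q : ℕ} [Fact p.Prime] [Fact q.Prime] (hpq : p ≠ q) {N P Q : Subgroup G}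
    [N.Normal] (hP : IsPGroup p P) (hNP : N ≤ P) (hQ : IsSylowIn q Q (N ⊔ Q))
    (hPR : P ≤ normalizer ((N ⊔ Q : Subgroup G) : Set G)) (h : ⁅N, Q⁆ ≤ ⁅P, P⁆) : ⁅N, Q⁆ = ⊥ := by
  have hN := hP.to_le hNP
  have hcop : (Nat.card Q).Coprime (Nat.card N) :=
    IsPGroup.coprime_card_of_ne q p hpq.symm _ _ hQ.isPGroup hN
  have hN0 : ⁅N, Q⁆ ≤ N := commutator_le_left N Q
  have hcop0 := hcop.coprime_dvd_right (card_dvd_of_le hN0)
  set P₁ := P ⊓ normalizer (Q : Set G)
  have hdec : ∀ x ∈ P, ∃ n ∈ ⁅N, Q⁆, ∃ y ∈ P₁, x = n * y := fun x hx => by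
    obtain ⟨k, hk, h1⟩ := hQ.exists_mul_normalizer (hPR hx)
    obtain ⟨n, hn, y, hy, rfl⟩ := (mem_sup_of_le_normalizer_left le_normalizer_of_normal).1 hk
    obtain ⟨m, hm, c, hc, rfl⟩ := exists_commutator_mul_centralizer hcop0
      (Or.inl (isSolvable_of_isPGroup hQ.isPGroup)) hn
    refine ⟨m, hm, m⁻¹ * x, ⟨P.mul_mem (P.inv_mem (hNP (hN0 hm))) hx, ?_⟩, by group⟩
    have := mul_mem (mul_mem (centralizer_le_normalizer _ hc) (le_normalizer hy)) h1
    show _ ∈ normalizer (Q : Set G)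
    convert this using 1; group
  have hP1 : P₁ ≤ normalizer ((⁅N, Q⁆ : Subgroup G) : Set G) :=
    le_normalizer_commutator le_normalizer_of_normal inf_le_right
  have hPn : P ≤ normalizer ((⁅N, Q⁆ : Subgroup G) : Set G) := fun x hx => by
    obtain ⟨n, hn, y, hy, rfl⟩ := hdec x hx
    exact mul_mem (le_normalizer hn) (hP1 hy)
  by_contra hne
  refine (commutator_lt_of_isPGroup (hN.to_le hN0) hP hPn hne).not_ge fun x hx => ?_
  have h1 : ⁅P, P⁆ ≤ ⁅⁅N, Q⁆, P⁆ ⊔ P₁ := commutator_le.2 fun a ha b hb => by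
    obtain ⟨n, hn, y, hy, rfl⟩ := hdec a ha
    obtain ⟨n', hn', y', hy', e⟩ := hdec b hb
    have hz : y' * y⁻¹ * y'⁻¹ ∈ P₁ := mul_mem (mul_mem hy' (inv_mem hy)) (inv_mem hy')
    have := mul_mem (mem_sup_left (commutator_mem_commutator hn
      (mul_mem (mul_mem hy.1 hb) (inv_mem hy.1)))) (mul_mem (mul_mem (mem_sup_right hy)
      (mem_sup_left (commutator_mem_commutator hn' hz.1))) (mem_sup_right (S := ⁅⁅N, Q⁆, P⁆) hz))
    convert this using 1
    rw [e]; simp only [commutatorElement_def]; group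
  obtain ⟨u, hu, y, hy, rfl⟩ := (mem_sup_of_le_normalizer_left (inf_le_left.trans
    (normalizer_commutator_ge_right _ _))).1 (h1 (h hx))
  have hU : ⁅⁅N, Q⁆, P⁆ ≤ ⁅N, Q⁆ := commutator_le_left_of_le_normalizer hPn
  have hy0 : y ∈ ⁅N, Q⁆ := (Subgroup.mul_mem_cancel_left _ (hU hu)).1 hx
  refine mul_mem hu (commutator_mono le_rfl (hN0.trans hNP) (inf_cent_le_comm
    (normalizer_commutator_ge_right _ _) hcop0
    (commutator_commutator_eq le_normalizer_of_normal hcop).ge ⟨hy0, fun s hs => ?_⟩))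
  have h2 : s * y * s⁻¹ * y⁻¹ ∈ Q ⊓ N := ⟨by
    simpa [mul_assoc] using Q.mul_mem hs (conj_mem_of_le_normalizer le_rfl hy.2 (Q.inv_mem hs)),
    N.mul_mem (‹N.Normal›.conj_mem _ (hN0 hy0) s) (N.inv_mem (hN0 hy0))⟩
  rw [inf_eq_bot_of_coprime hcop, mem_bot, mul_inv_eq_one, mul_inv_eq_iff_eq_mul] at h2
  exact h2

theorem cent_le_of_sInv {N P S : Subgroup G} (hPS : P ≤ S) (hSN : S ≤ normalizer (N : Set G))
    (hS : Group.IsSolvable S) (hcop : (Nat.card N).Coprime (Nat.card S))
    (h : ∀ θ : IrrCharacter N, SInv P θ.1 → SInv S θ.1) :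
    N ⊓ centralizer (P : Set G) ≤ centralizer (S : Set G) := by
  have h1 := card_sInv_eq hS _ rfl hSN hcop rfl
  have h2 := card_sInv_eq (isSolvable_of_le hPS hS) _ rfl (hPS.trans hSN)
    (hcop.coprime_dvd_right (card_dvd_of_le hPS)) rfl
  rw [Nat.card_congr (Equiv.subtypeEquivRight fun θ => ⟨h θ, fun h => h.mono hPS⟩), h1,
    card_irr_eq_card_conjClasses, card_irr_eq_card_conjClasses] at h2
  have hle : N ⊓ centralizer (S : Set G) ≤ N ⊓ centralizer (P : Set G) :=
    inf_le_inf_left _ (centralizer_le hPS)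
  have h3 : Function.Injective (ConjClasses.map (inclusion hle)) := fun a b e => by
    obtain ⟨a, rfl⟩ := ConjClasses.mk_surjective a
    obtain ⟨b, rfl⟩ := ConjClasses.mk_surjective b
    have e' : IsConj (inclusion hle a) (inclusion hle b) := ConjClasses.mk_eq_mk_iff_isConj.1 e
    exact ConjClasses.mk_eq_mk_iff_isConj.2 ((isConj_iff_of_centralizer hSN hcop.symm
      (Or.inl hS) rfl inf_le_left).1 ((inclusion (inf_le_left : N ⊓ centralizer (P : Set G) ≤ N)).map_isConj e' :))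
  have h4 := (h3.bijective_of_nat_card_le h2.ge).2
  have h5 := eq_top_of_forall_exists_conj_mem ((N ⊓ centralizer (S : Set G)).subgroupOf
    (N ⊓ centralizer (P : Set G))) fun g => by
      obtain ⟨a, ha⟩ := h4 (ConjClasses.mk g)
      obtain ⟨a, rfl⟩ := ConjClasses.mk_surjective a
      obtain ⟨x, hx⟩ := isConj_iff.1 (ConjClasses.mk_eq_mk_iff_isConj.1 ha).symm
      exact ⟨x, hx ▸ a.2⟩
  exact (subgroupOf_eq_top.1 h5).trans inf_le_right

theorem exists_over_of_ext {p : ℕ} [hp : Fact p.Prime] {N T : Subgroup G} (hNT : N ≤ T)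
    (hT : ¬ p ∣ T.index) {θ : IrrCharacter N} {η : T → ℂ} (hη : IsIrrCharacter T η)
    (hd : ¬ p ∣ charDegree η) (he : ∀ n : N, η ⟨n, hNT n.2⟩ = θ.1 n) [Fintype N] :
    ∃ χ, IsIrrCharacter G χ ∧ ¬ p ∣ charDegree χ ∧ classInner (fun n : N => χ n) θ.1 ≠ 0 := by
  have := Fintype.ofFinite G
  have := Fintype.ofFinite T
  obtain ⟨χ, h1, h2, h3⟩ := S4885.exists_constituent (p := p) hη.isCharacter.ind (by
    rw [charDegree_eq_of (d := T.index * charDegree η) (by
      rw [indFun_one, Nat.cast_mul, hη.isCharacter.charDegree_cast])]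
    exact fun h => (hp.out.dvd_mul.1 h).elim hT hd)
  rw [inner_indFun_left _ _ h1.isClassFunction, Ne, classInner_eq_zero_symm] at h2
  refine ⟨χ, h1, h3, inner_comp_ne_zero_of_constituent (inclusion hNT)
    (h1.isCharacter.restrict T) hη h2 θ.2.isCharacter ?_⟩
  rw [show (fun x => η (inclusion hNT x)) = θ.1 from funext he, θ.2.classInner_self]
  exact one_ne_zero

end grp

universe u in
theorem main {p q : ℕ} [hp : Fact p.Prime] [hq : Fact q.Prime] (hpq : p ≠ q) (n : ℕ) :
    ∀ {G : Type u} [Group G] [Finite G], Nat.card G = n → IsPSolvable p G → IsPSolvable q G →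
    (∀ χ, IsIrrCharacter G χ → ¬ p ∣ charDegree χ → ¬ q ∣ charDegree χ) →
    ∀ P : Subgroup G, IsSylowIn p P ⊤ → ¬ q ∣ (pPrimeCore p G).index ∧ ∀ Q₁ Q₂ : Subgroup G,
      IsSylowIn q Q₁ ⊤ → IsSylowIn q Q₂ ⊤ → P ≤ normalizer (Q₁ : Set G) →
      P ≤ normalizer (Q₂ : Set G) → Q₁ = Q₂ := by
  induction n using Nat.strong_induction_on with
  | _ n ih =>
  intro G _ _ hn hps hqs h P hP
  have hcp : ∀ {H : Type u} [Group H] [Finite H] {P X : Subgroup H}, IsPGroup p P →
      (Nat.card X).Coprime p → (Nat.card P).Coprime (Nat.card X) := fun h1 h2 => by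
    obtain ⟨k, hk⟩ := IsPGroup.iff_card.1 h1
    rw [hk]; exact h2.symm.pow_left k
  have step : ∀ N : Subgroup G, N.Normal → N ≠ ⊥ → ∃ L R : Subgroup G, L.Normal ∧ N ≤ R ∧ R ≤ L ∧
      (N.relIndex L).Coprime p ∧ ¬ q ∣ L.index ∧ ¬ q ∣ R.index ∧ P ≤ normalizer (R : Set G) ∧
      (∀ Q, IsSylowIn q Q R → N ⊔ Q = R) ∧
      (∀ Q, IsSylowIn q Q ⊤ → P ≤ normalizer (Q : Set G) → N ⊔ Q = R) ∧
      ∀ θ : IrrCharacter N, SInv P θ.1 → ∀ (T : Subgroup G) (hNT : N ≤ T), ¬ p ∣ T.index →
        ∀ η : T → ℂ, IsIrrCharacter T η → ¬ p ∣ charDegree η →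
        (∀ n : N, η ⟨n, hNT n.2⟩ = θ.1 n) → SInv R θ.1 := by
    intro N hN hne
    let π := QuotientGroup.mk' N
    have hπ : Function.Surjective π := QuotientGroup.mk'_surjective N
    have hP' : IsSylowIn p (P.map π) ⊤ := map_top_of_surjective π hπ ▸ hP.map π
    obtain ⟨h1, h2⟩ := ih _ (hn ▸ card_quotient_lt hne) (G := G ⧸ N) rfl
      (H9.isPSolvable_quotient hps N) (H9.isPSolvable_quotient hqs N) (fun χ hχ h1 => by
        have := h _ (hχ.comp_of_surjective π hπ) (by simpa [charDegree] using h1)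
        simpa [charDegree] using this) _ hP'
    have key : ∀ T : Subgroup (G ⧸ N), P.map π ≤ normalizer (T : Set (G ⧸ N)) → ¬ q ∣ T.index →
        ∃ Q, IsSylowIn q Q ⊤ ∧ P.map π ≤ normalizer (Q : Set (G ⧸ N)) ∧
          Q ≤ T ⊓ pPrimeCore p (G ⧸ N) := fun T h3 h4 => by
      obtain ⟨Q, h5, h6⟩ := exists_invariant_isSylowIn q (K := T ⊓ pPrimeCore p (G ⧸ N))
        (le_normalizer_inf h3 le_normalizer_of_normal) (hcp hP'.isPGroup
          ((coprime_card_pPrimeCore p _).coprime_dvd_left (card_dvd_of_le inf_le_right)))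
        (Or.inl (isSolvable_of_isPGroup hP'.isPGroup))
      refine ⟨Q, h5.trans le_top ?_, h6, h5.le⟩
      rw [relIndex_top_right, inf_comm, ← relIndex_mul_index (inf_le_right :
        pPrimeCore p (G ⧸ N) ⊓ T ≤ T), inf_relIndex_right]
      exact fun h7 => (hq.out.dvd_mul.1 h7).elim
        (fun h8 => h1 (h8.trans (relIndex_dvd_index_of_normal _ _))) h4
    obtain ⟨Q, h3, h4, h5⟩ := key ⊤ le_normalizer_of_normal (by simpa using hq.out.one_lt.ne')
    have e : ∀ X : Subgroup G, (X.map π).comap π = N ⊔ X := fun X => by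
      rw [comap_map_eq, QuotientGroup.ker_mk', sup_comm]
    refine ⟨(pPrimeCore p (G ⧸ N)).comap π, Q.comap π, inferInstance,
      (QuotientGroup.ker_mk' N).ge.trans (ker_le_comap _ _), comap_mono (h5.trans inf_le_right),
      ?_, by rwa [index_comap_of_surjective _ hπ], by
        rw [index_comap_of_surjective _ hπ]; simpa using h3.not_dvd,
      (map_le_iff_le_comap.1 h4).trans (le_normalizer_comap _), fun Q' h6 => ?_,
      fun Q' h6 h7 => ?_, fun θ hθ T hNT hT η h6 h7 h8 => ?_⟩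
    · rw [H9.relIndex_eq_card_map_mk', map_comap_eq_self_of_surjective hπ]
      exact coprime_card_pPrimeCore p _
    · have h7 := h6.map π
      rw [map_comap_eq_self_of_surjective hπ] at h7
      rw [← e, h7.eq_of_le h7.le le_rfl h3.isPGroup]
    · rw [← e, h2 _ _ (map_top_of_surjective π hπ ▸ h6.map π) h3
        ((map_mono h7).trans (le_normalizer_map _)) h4]
    · have := Fintype.ofFinite N
      have := Fintype.ofFinite G
      obtain ⟨χ, h9, h10, h11⟩ := exists_over_of_ext hNT hT h6 h7 h8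
      have h12 : (NEmb.ofNormal N).inertia θ.1 = stabA θ.1 := by
        ext g
        rw [NEmb.mem_inertia]
        exact ⟨fun h => ⟨le_normalizer_of_normal (mem_top g), fun a b e => by
          rw [← h a]; exact congrArg _ (Subtype.ext e)⟩, fun h a => h.2 _ _ rfl⟩
      have h13 : (stabA θ.1).index ∣ charDegree χ := by
        obtain ⟨m, hm⟩ := (h9.isCharacter.restrict N).classInner_nat θ.2.isCharacter
        have h14 := (NEmb.ofNormal N).clifford_degree h9 θ.2 h11
        rw [h12, show classInner (fun n => χ ((NEmb.ofNormal N).f n)) θ.1 = m from hm,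
          ← θ.2.isCharacter.charDegree_cast, ← h9.isCharacter.charDegree_cast] at h14
        norm_cast at h14
        exact h14 ▸ (dvd_mul_left _ _).mul_right _
      obtain ⟨Q', h14, h15, h16⟩ := key ((stabA θ.1).map π)
        ((map_mono (le_stabA.2 ⟨le_normalizer_of_normal, hθ⟩)).trans le_normalizer)
        (fun h14 => h χ h9 h10 (h14.trans ((index_map_dvd _ hπ).trans h13)))
      rw [h2 _ _ h14 h3 h15 h4] at h16
      refine (le_stabA.1 ((comap_mono (h16.trans inf_le_left)).trans ?_)).2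
      rw [e]; exact sup_le (self_le_stabA θ.2.isClassFunction) le_rfl
  by_cases hO : pPrimeCore p G = ⊥
  · suffices h1 : ¬ q ∣ Nat.card G by
      have h2 : ∀ Q : Subgroup G, IsSylowIn q Q ⊤ → Q = ⊥ := fun Q hQ => by
        rw [← card_eq_one, hQ.card_eq_pow, card_top, Nat.factorization_eq_zero_of_not_dvd h1,
          pow_zero]
      exact ⟨fun h3 => h1 (h3.trans (index_dvd_card _)),
        fun Q₁ Q₂ h3 h4 _ _ => by rw [h2 _ h3, h2 _ h4]⟩
    rcases subsingleton_or_nontrivial G with hG | hG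
    · simpa [Nat.card_of_subsingleton (1 : G)] using hq.out.one_lt.ne'
    have hNP : pCore p G ≤ P := hP.le_of_le_normalizer le_top (isPGroup_pCore p G)
      le_normalizer_of_normal
    obtain ⟨L, R, -, h1, -, -, -, h2, h3, h4, -, h5⟩ := step (pCore p G) inferInstance
      ((H9.core_ne_bot_of_isPSolvable hps).resolve_right (not_not.2 hO))
    obtain ⟨Q, hQ⟩ := exists_isSylowIn q R
    have h6 := comm_eq_bot hpq hP.isPGroup hNP ((h4 Q hQ).symm ▸ hQ) ((h4 Q hQ).symm ▸ h3) (by
      rw [commutator_comm, commutator_le]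
      intro y hy x hx
      have hc : ⁅y, x⁆ ∈ pCore p G := commutator_le_right Q _ (commutator_mem_commutator hy hx)
      rw [← map_subtype_commutator]
      refine ⟨⟨_, hNP hc⟩, by_contra fun h6 => ?_, rfl⟩
      obtain ⟨lam, h7, h8, h9⟩ := exists_irr_ker_apply_ne (commutator P) h6
      have h10 := h7.commutator_le_charKer_iff.1 h8
      obtain ⟨μ, rfl⟩ := h7.isCharacter.exists_linear h10
      have h11 := h5 ⟨_, isIrrCharacter_linear (μ.comp (inclusion hNP))⟩
        (sInv_res hNP h7.isClassFunction) P hNP (by simpa using hP.not_dvd) _ h7 (by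
          rw [charDegree_eq_of (d := 1) (by simp)]; simpa using hp.out.one_lt.ne')
        (fun _ => rfl) y (hQ.le hy) ⟨x, hx⟩ ⟨_, (inferInstance : (pCore p G).Normal).conj_mem _ hx y⟩
        rfl
      apply h9
      have h12 : (⟨_, hNP hc⟩ : P) = inclusion hNP ⟨_, (inferInstance :
        (pCore p G).Normal).conj_mem _ hx y⟩ * (inclusion hNP ⟨x, hx⟩)⁻¹ := rfl
      beta_reduce
      rw [h12, map_mul, map_inv, map_one]
      exact congrArg _ (mul_inv_eq_one.2 (Units.ext h11)))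
    have h7 : Q ≤ pCore p G := (le_centralizer_iff.1 (commutator_eq_bot_iff_le_centralizer.1
      h6)).trans (H9.centralizer_pCore_le_of_isPSolvable hps hO)
    have h8 : Q = ⊥ := by
      rw [← inf_eq_left.2 h7]
      exact inf_eq_bot_of_coprime (IsPGroup.coprime_card_of_ne q p hpq.symm _ _ hQ.isPGroup
        (isPGroup_pCore p G))
    have h9 := (hQ.trans le_top (by rwa [relIndex_top_right])).not_dvd
    rwa [h8, relIndex_bot_left, card_top] at h9
  have fin : ∀ N L : Subgroup G, N ≤ pPrimeCore p G → N ≤ L → L.Normal →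
      (N.relIndex L).Coprime p → ¬ q ∣ L.index → ¬ q ∣ (pPrimeCore p G).index :=
    fun N L h1 h2 _ h3 h4 h5 => h4 (h5.trans (index_dvd_of_le (le_pPrimeCore (by
      rw [← card_mul_relIndex h2]
      exact ((coprime_card_pPrimeCore p G).coprime_dvd_left (card_dvd_of_le h1)).mul_left h3))))
  rcases H9.core_inf_ne_bot_of_isPSolvable (H9.isPSolvable_subgroup hqs (pPrimeCore p G)) hO
    with h1 | h1
  · obtain ⟨L, R, h2, h3, h4, h5, h6, -, -, -, h7, -⟩ := step _ inferInstance h1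
    refine ⟨fin _ L inf_le_right (h3.trans h4) h2 h5 h6, fun Q₁ Q₂ a b c d => ?_⟩
    have h8 : ∀ Q : Subgroup G, IsSylowIn q Q ⊤ → pCore q G ⊓ pPrimeCore p G ≤ Q := fun Q hQ =>
      inf_le_left.trans (hQ.le_of_le_normalizer le_top (isPGroup_pCore q G)
        le_normalizer_of_normal)
    rw [← sup_eq_right.2 (h8 _ a), h7 _ a c, ← h7 _ b d, sup_eq_right.2 (h8 _ b)]
  obtain ⟨L, R, h2, h3, h4, h5, h6, -, hPR, -, h7, h8⟩ := step _ inferInstance h1
  refine ⟨fin _ L inf_le_right (h3.trans h4) h2 h5 h6, fun Q₁ Q₂ a b c d => ?_⟩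
  set N := pPrimeCore q G ⊓ pPrimeCore p G
  have hNp : (Nat.card N).Coprime p :=
    (coprime_card_pPrimeCore p G).coprime_dvd_left (card_dvd_of_le inf_le_right)
  have hNq : (Nat.card N).Coprime q :=
    (coprime_card_pPrimeCore q G).coprime_dvd_left (card_dvd_of_le inf_le_left)
  have hQp : (Nat.card Q₁).Coprime p := by
    rw [a.card_eq_pow]; exact ((Nat.coprime_primes hq.out hp.out).2 hpq.symm).pow_left _
  have hNQ : (Nat.card N).Coprime (Nat.card Q₁) := by rw [a.card_eq_pow]; exact hNq.pow_right _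
  have h9 := cent_le_of_sInv (N := N) (le_sup_right : P ≤ Q₁ ⊔ P) le_normalizer_of_normal
    (isSolvable_sup c (isSolvable_of_isPGroup a.isPGroup) (isSolvable_of_isPGroup hP.isPGroup))
    ((hNQ.mul_right (hcp hP.isPGroup hNp).symm).coprime_dvd_right (card_sup_dvd c))
    fun θ hθ => by
      obtain ⟨η, e1, e2, -⟩ := (embN (le_sup_left : N ≤ N ⊔ P)
        le_normalizer_of_normal).exists_ext_of_coprime θ.2 ((sInv_embN _ _).1
          (hθ.sup_self θ.2.isClassFunction le_normalizer_of_normal)) (by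
          rw [embN_index, relIndex_sup_of_le_normalizer le_normalizer_of_normal]
          exact (hcp hP.isPGroup hNp).coprime_dvd_left (relIndex_dvd_card _ _))
      have e3 := h8 θ hθ (N ⊔ P) le_sup_left (fun e => hP.not_dvd (by
        rw [relIndex_top_right]; exact e.trans (index_dvd_of_le le_sup_right))) η e1 (fun e => by
          have e4 : charDegree η ∣ Nat.card N := θ.2.degree_dvd_card
            ((e2 1).symm.trans e1.isCharacter.charDegree_cast.symm)
          exact hp.out.one_lt.ne' (Nat.eq_one_of_dvd_coprimes hNp (e.trans e4) dvd_rfl)) e2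
      exact (le_stabA.1 (sup_le (le_stabA.2 ⟨le_normalizer_of_normal,
        e3.mono (h7 _ a c ▸ le_sup_right)⟩) (le_stabA.2 ⟨le_normalizer_of_normal, hθ⟩))).2
  have e1 := h7 _ a c
  obtain ⟨x, hx, rfl⟩ := exists_centralizer_conj_eq_of_isSylowIn hPR (hcp hP.isPGroup
    (e1 ▸ (hNp.mul_left hQp).coprime_dvd_left (card_sup_dvd le_normalizer_of_normal)))
    (Or.inl (isSolvable_of_isPGroup hP.isPGroup)) (a.of_le (e1 ▸ le_sup_right) le_top) c
    (b.of_le (h7 _ b d ▸ le_sup_right) le_top) d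
  rw [← e1, sup_inf_centralizer_eq le_normalizer_of_normal le_normalizer_of_normal c
    (hcp hP.isPGroup (hNp.coprime_dvd_left (card_dvd_of_le inf_le_left)))
    (Or.inl (isSolvable_of_isPGroup hP.isPGroup))] at hx
  have h10 : x ∈ normalizer (Q₁ : Set G) := (sup_le (h9.trans ((centralizer_le
    (le_sup_left : Q₁ ≤ Q₁ ⊔ P)).trans (centralizer_le_normalizer _)))
    (inf_le_left.trans le_normalizer) : _ ≤ normalizer (Q₁ : Set G)) hx
  exact (conj_smul_eq_iff_mem_normalizer.2 h10).symm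

theorem fwd {G : Type*} [Group G] [Finite G] {p q : ℕ} [Fact p.Prime] [Fact q.Prime]
    (hpq : p ≠ q) {M : Ideal AlgInt} (hM : IsPModular p M) (hps : IsPSolvable p G)
    (hqs : IsPSolvable q G) (h : ∀ χ : IrrCharacter G, χ ∈ principalBlock M G →
      ¬ p ∣ charDegree (χ : G → ℂ) → ¬ q ∣ charDegree (χ : G → ℂ)) :
    ¬ q ∣ (pPrimeCore p G).index := by
  haveI := hM.2.1
  let π := QuotientGroup.mk' (pPrimeCore p G)
  have hπ : Function.Surjective π := QuotientGroup.mk'_surjective _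
  have hO := pPrimeCore_quotient_pPrimeCore (G := G) p
  have hB := H8.principal_eq_univ_of_centralizer hM (isPGroup_pCore p (G ⧸ pPrimeCore p G))
    ((isPGroup_pCore p _).to_le
      (H9.centralizer_pCore_le_of_isPSolvable (H9.isPSolvable_quotient hps _) hO))
  obtain ⟨P, hP⟩ := exists_isSylowIn p (⊤ : Subgroup (G ⧸ pPrimeCore p G))
  have h1 := (main hpq _ rfl (H9.isPSolvable_quotient hps _) (H9.isPSolvable_quotient hqs _)
    (fun ψ hψ hψd => by
      have h2 : (⟨ψ, hψ⟩ : IrrCharacter _) ∈ principalBlock M _ := hB ▸ Set.mem_univ _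
      have h3 := h ⟨_, hψ.comp_of_surjective π hπ⟩ (H6.sameBlock_comp π hπ h2) (by
        simpa [charDegree] using hψd)
      simpa [charDegree] using h3) P hP).1
  rwa [hO, index_bot] at h1

theorem bwd {G : Type*} [Group G] [Finite G] {p q : ℕ} [Fact p.Prime] [hq : Fact q.Prime]
    (hpq : p ≠ q) {M : Ideal AlgInt} (hM : IsPModular p M) (hps : IsPSolvable p G)
    (P : Sylow p G) (Q : Sylow q G) (h : ∀ x ∈ (P : Subgroup G), ∀ y ∈ (Q : Subgroup G),
      x * y = y * x) (χ : IrrCharacter G) (hχ : χ ∈ principalBlock M G) :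
    ¬ q ∣ charDegree (χ : G → ℂ) := by
  haveI := hM.2.1
  let π := QuotientGroup.mk' (pPrimeCore p G)
  have hπ : Function.Surjective π := QuotientGroup.mk'_surjective _
  have h1 : (Q : Subgroup G).map π ≤ pCore p _ := by
    refine le_trans ?_ (H9.centralizer_pCore_le_of_isPSolvable (H9.isPSolvable_quotient hps _)
      (pPrimeCore_quotient_pPrimeCore (G := G) p))
    rintro _ ⟨y, hy, rfl⟩ x hx
    obtain ⟨x', hx', rfl⟩ := pCore_le_sylow (P.mapSurjective hπ) hx
    rw [← map_mul, ← map_mul, h x' hx' y hy]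
  have h2 : (Q : Subgroup G).map π = ⊥ := by
    rw [← inf_eq_left.2 h1]
    exact inf_eq_bot_of_coprime (IsPGroup.coprime_card_of_ne q p hpq.symm _ _
      (Q.isPGroup'.map π) (isPGroup_pCore p _))
  rw [Subgroup.map_eq_bot_iff, QuotientGroup.ker_mk'] at h2
  exact fun h3 => Q.not_dvd_index (h3.trans ((charDegree_dvd_index_charKer χ.2).trans
    (index_dvd_of_le (h2.trans (H6.pPrimeCore_le_charKer hM hχ)))))


/-- Let p ≠ q be primes and G a finite group that is p-solvable and q-solvable. Fix maximal ideals of the algebraic integers containing p and q, defining the principal p-block and the principal q-block. Then every irreducible character of degree prime to p in the principal p-block has degree prime to q and every irreducible character of degree prime to q in the principal q-block has degree prime to p, if and only if some Sylow p-subgroup of G commutes elementwise with some Sylow q-subgroup. -/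
theorem result {G : Type*} [Group G] [Finite G] (p q : ℕ) [Fact p.Prime] [Fact q.Prime] (hpq : p ≠ q) (Mp Mq : Ideal Cfsg.AlgInt) (hMp : Cfsg.IsPModular p Mp) (hMq : Cfsg.IsPModular q Mq) (hps : Cfsg.IsPSolvable p G) (hqs : Cfsg.IsPSolvable q G) : ((∀ χ : Cfsg.IrrCharacter G, χ ∈ Cfsg.principalBlock Mp G → ¬ p ∣ Cfsg.charDegree (χ : G → ℂ) → ¬ q ∣ Cfsg.charDegree (χ : G → ℂ)) ∧ (∀ χ : Cfsg.IrrCharacter G, χ ∈ Cfsg.principalBlock Mq G → ¬ q ∣ Cfsg.charDegree (χ : G → ℂ) → ¬ p ∣ Cfsg.charDegree (χ : G → ℂ))) ↔ ∃ (P : Sylow p G) (Q : Sylow q G), ∀ x ∈ (P : Subgroup G), ∀ y ∈ (Q : Subgroup G), x * y = y * x := by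
  constructor
  · rintro ⟨h1, h2⟩
    have h3 := fwd hpq hMp hps hqs h1
    have h4 := fwd hpq.symm hMq hqs hps h2
    obtain ⟨P, hP⟩ := exists_isSylowIn p (pPrimeCore q G)
    obtain ⟨k, hk⟩ := IsPGroup.iff_card.1 hP.isPGroup
    obtain ⟨Q, hQ, h5⟩ := exists_invariant_isSylowIn q (A := P) (K := pPrimeCore p G)
      le_normalizer_of_normal (hk ▸ (coprime_card_pPrimeCore p G).symm.pow_left k)
      (Or.inl (isSolvable_of_isPGroup hP.isPGroup))
    obtain ⟨P', rfl⟩ := (hP.trans le_top (by rwa [relIndex_top_right])).exists_sylow_top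
    obtain ⟨Q', rfl⟩ := (hQ.trans le_top (by rwa [relIndex_top_right])).exists_sylow_top
    refine ⟨P', Q', fun x hx y hy => ?_⟩
    obtain ⟨j, hj⟩ := IsPGroup.iff_card.1 hQ.isPGroup
    have h6 : x * y * x⁻¹ * y⁻¹ ∈ (Q' : Subgroup G) ⊓ pPrimeCore q G :=
      ⟨(Q' : Subgroup G).mul_mem (conj_mem_of_le_normalizer h5 hx hy)
        ((Q' : Subgroup G).inv_mem hy), by
        simpa [mul_assoc] using (pPrimeCore q G).mul_mem (hP.le hx)
          ((inferInstance : (pPrimeCore q G).Normal).conj_mem _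
            ((pPrimeCore q G).inv_mem (hP.le hx)) y)⟩
    rwa [inf_eq_bot_of_coprime (hj ▸ (coprime_card_pPrimeCore q G).symm.pow_left j), mem_bot,
      mul_inv_eq_one, mul_inv_eq_iff_eq_mul] at h6
  · rintro ⟨P, Q, h⟩
    exact ⟨fun χ h1 _ => bwd hpq hMp hps P Q h χ h1,
      fun χ h1 _ => bwd hpq.symm hMq hqs Q P (fun x hx y hy => (h y hy x hx).symm) χ h1⟩

end Cfsg.Agent.S4886
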