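import Cfsg.Statements.S4888
import Cfsg.Agent.H6.Princ2
-- import your own Cfsg.Agent.* helpers here

set_option autoImplicit false
open Cfsg

namespace Cfsg.Agent.S4888

open Cfsg.Agent.H4 Cfsg.Agent.H6


/-- Let G be a finite group, p a prime and M a maximal ideal of the algebraic integers containing p. Then all height-zero irreducible characters of the principal p-block of G (equivalently, all its characters of degree prime to p) have the same degree if and only if G has a normal p-complement. -/
theorem result {G : Type*} [Group G] [Finite G] (p : ℕ) [Fact p.Prime] (M : Ideal Cfsg.AlgInt) (hM : Cfsg.IsPModular p M) : (∃ d : ℕ, ∀ χ : Cfsg.IrrCharacter G, χ ∈ (Cfsg.principalBlock M G) → Cfsg.blockHeight p (Cfsg.principalBlock M G) (χ : G → ℂ) = 0 → Cfsg.charDegree (χ : G → ℂ) = d) ↔ Cfsg.HasNormalPComplement p G := by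
  classical
  haveI := hM.2.1
  haveI := Fintype.ofFinite G
  have hp : p.Prime := Fact.out
  constructor
  · rintro ⟨d, hd⟩
    have h1 := hd (irrOne G) irrOne_mem_principal (H8.height_irrOne _)
    have h2 : charDegree ((irrOne G : IrrCharacter G) : G → ℂ) = 1 := H8.charDegree_one
    refine hasNormalPComplement_of_linear hM isPBlock_principal (H8.bmin_principal hM)
      fun χ hχ h => ?_
    rw [← H8.irr_charDegree_eq_one_iff, hd χ hχ (blockHeight_eq_zero_of_not_dvd _ h), ← h1, h2]
  · intro h
    refine ⟨1, fun χ hχ h0 => ?_⟩
    have hN := (H3.hasNormalPComplement_iff_not_dvd).1 h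
    have hk := (mem_principal_iff_of_complement hM hN H3.exists_index_pResidual).1 hχ
    rw [H8.height_principal hM] at h0
    have hnd : ¬ p ∣ charDegree (χ : G → ℂ) := fun hd => by
      have := (hp.dvd_iff_one_le_factorization (H8.irr_charDegree_ne_zero χ)).1 hd
      omega
    have e : deflate (pResidual p G) (χ : G → ℂ) 1 = (χ : G → ℂ) 1 := deflate_mk hk 1
    have := H8.charDegree_eq_one_of_isPGroup H3.isPGroup_quotient_pResidual
      (⟨_, χ.2.deflate hk⟩ : IrrCharacter (G ⧸ pResidual p G))
      (by simpa only [charDegree, e] using hnd)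
    rw [H8.irr_charDegree_eq_one_iff, ← e]
    exact this

end Cfsg.Agent.S4888
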