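import Cfsg.Statements.S4889
import Cfsg.Agent.H7.EqDeg
-- import your own Cfsg.Agent.* helpers here

set_option autoImplicit false
open Cfsg

namespace Cfsg.Agent.S4889

open MonoidAlgebra Cfsg.Agent.H3 Cfsg.Agent.H4 Cfsg.Agent.H7
open Cfsg.Agent.H6 (Res locRing redC redA eB fB intAlg classSum omega chiL)
open scoped Pointwise
set_option linter.style.haveILetI false


/-- Let G be a finite group, p a prime, M a maximal ideal of the algebraic integers containing p, and B a p-block of G that has an abelian defect group and in which every irreducible character has height zero. Then all irreducible characters of B have the same degree if and only if B is a nilpotent block. -/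
theorem result {G : Type*} [Group G] [Finite G] (p : ℕ) [Fact p.Prime] (M : Ideal Cfsg.AlgInt) (hM : Cfsg.IsPModular p M) (B : Set (Cfsg.IrrCharacter G)) (hB : Cfsg.IsPBlock M B) (D : Subgroup G) (hD : Cfsg.IsDefectGroup p M B D) (hDab : IsMulCommutative ↥D) (h0 : ∀ χ : Cfsg.IrrCharacter G, χ ∈ B → Cfsg.blockHeight p B (χ : G → ℂ) = 0) : (∃ d : ℕ, ∀ χ : Cfsg.IrrCharacter G, χ ∈ B → Cfsg.charDegree (χ : G → ℂ) = d) ↔ Cfsg.IsNilpotentBlock p M B := by
  haveI := hM.2.1; haveI := H6.charP_res hM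
  haveI := Fintype.ofFinite G
  have hab : D ≤ Subgroup.centralizer (D : Set G) := fun x hx y hy =>
    congrArg Subtype.val (hDab.is_comm.comm ⟨y, hy⟩ ⟨x, hx⟩)
  rw [isNilpotentBlock_iff hM]
  constructor
  · rintro ⟨n, hn⟩
    obtain ⟨j, hj, h1⟩ := exists_unique_of_eq_degree hM hB hn
    exact ⟨hB, nilB_of_dnat_eq_one hM hB hj h1 hD hab⟩
  · rintro ⟨-, hn⟩
    obtain ⟨e, S⟩ := exists_maxP le_rfl Subgroup.le_normalizer (blk_eB hB)
      ((isDefectGroup_iff hM hB).1 hD)
    obtain ⟨χ₀, h₀⟩ := H6.block_nonempty hB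
    obtain ⟨T, hT⟩ := S.exists_equiv_of_nilB hM hB hn h₀ (h0 χ₀ h₀)
    refine ⟨charDegree (χ₀ : G → ℂ), fun χ hχ => ?_⟩
    obtain ⟨η, hη⟩ := T.surjective ⟨χ, hχ⟩
    have h1 := hT η
    rw [hη] at h1
    have h2 := S.starP_apply_of_not_dvd hM hB (S.stable_of_nilB hM hn η.2.isClassFunction)
      (H8.mem_bspan_of_mem h₀) (y := 1)
      (by rw [orderOf_one]; exact hM.1.one_lt.ne' ∘ Nat.dvd_one.1)
    rw [← h1, η.2.apply_one_eq_one_of_comm (fun a b => hDab.is_comm.comm a b), one_mul,
      ← H8.irr_coe_charDegree, ← H8.irr_coe_charDegree] at h2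
    exact_mod_cast h2

end Cfsg.Agent.S4889
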