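import Cfsg.Statements.S4890
import Cfsg.Agent.H7.NormDef
import Cfsg.Agent.S4690
-- import your own Cfsg.Agent.* helpers here

set_option autoImplicit false
open Cfsg

namespace Cfsg.Agent.S4890

open MonoidAlgebra Cfsg.Agent.H3 Cfsg.Agent.H4 Cfsg.Agent.H7
open Cfsg.Agent.H6 (Res locRing redC redA eB fB intAlg classSum omega chiL)
open scoped Pointwise
set_option linter.style.haveILetI false


/-- Let G be a finite group, p a prime, M a maximal ideal of the algebraic integers containing p, and B a p-block of G with a defect group that is normal in G. Then all height-zero irreducible characters of B have the same degree if and only if B is a nilpotent block. -/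
theorem result {G : Type*} [Group G] [Finite G] (p : ℕ) [Fact p.Prime] (M : Ideal Cfsg.AlgInt) (hM : Cfsg.IsPModular p M) (B : Set (Cfsg.IrrCharacter G)) (hB : Cfsg.IsPBlock M B) (D : Subgroup G) (hD : Cfsg.IsDefectGroup p M B D) (hDn : D.Normal) : (∃ d : ℕ, ∀ χ : Cfsg.IrrCharacter G, χ ∈ B → Cfsg.blockHeight p B (χ : G → ℂ) = 0 → Cfsg.charDegree (χ : G → ℂ) = d) ↔ Cfsg.IsNilpotentBlock p M B := by
  haveI := hM.2.1; haveI := H6.charP_res hM
  haveI := Fintype.ofFinite G
  rw [isNilpotentBlock_iff hM]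
  constructor
  · rintro ⟨n, hn⟩
    haveI : (⁅D, D⁆ : Subgroup G).Normal := inferInstance
    obtain ⟨b, hb, h1, h2, h3⟩ := exists_dominated_nilB hM (N := ⁅D, D⁆) le_rfl (blk_eB hB)
      ((isDefectGroup_iff hM hB).1 hD)
    obtain ⟨C, hC, rfl⟩ := exists_eB_eq hb
    set π := QuotientGroup.mk' (⁅D, D⁆ : Subgroup G)
    have hπ : Function.Surjective π := QuotientGroup.mk'_surjective _
    haveI := Fintype.ofFinite (G ⧸ (⁅D, D⁆ : Subgroup G))
    haveI : (D.map π).Normal := Subgroup.Normal.map inferInstance π hπ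
    have hab : ∀ a ∈ D.map π, ∀ b ∈ D.map π, a * b = b * a := by
      rintro _ ⟨a, ha, rfl⟩ _ ⟨b, hb, rfl⟩
      rw [← commutatorElement_eq_one_iff_mul_comm, ← map_commutatorElement]
      exact (QuotientGroup.eq_one_iff _).2 (Subgroup.commutator_mem_commutator ha hb)
    have hi : (D.map π).index = D.index := Subgroup.index_map_eq _ hπ (by
      rw [QuotientGroup.ker_mk']; exact Subgroup.commutator_le_left D D)
    obtain ⟨j, hj, h4⟩ := exists_unique_of_eq_degree hM hC (n := n) fun χ hχ => by
      have h5 := (comp_mem_iff hπ hB hC hχ (irrComp_apply π hπ χ)).2 h1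
      have h6 : charDegree (irrComp π hπ χ : G → ℂ) = charDegree χ.1 := charDegree_eq_of (by
        rw [irrComp_apply, map_one, χ.2.isCharacter.charDegree_cast])
      rw [← h6]
      refine hn _ h5 ?_
      have h7 := (Nat.factorization_le_iff_dvd χ.2.charDegree_pos.ne'
        Subgroup.index_ne_zero_of_finite).2 (H8.cd_dvd_index_of_comm hab ⟨χ, rfl⟩) p
      have h8 := H6.factorization_card_eq (p := p) D
      have h9 := H8.defect_add_bmin (p := p) (H6.block_nonempty hB)
      rw [H6.card_defectGroup hM hB hD, hM.1.factorization_pow, Finsupp.single_eq_same] at h8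
      rw [H8.blockHeight_eq, h6]
      rw [hi] at h7
      omega
    exact ⟨hB, h3 (nilB_of_dnat_eq_one hM hC hj h4 ((isDefectGroup_iff hM hC).2 h2)
      fun x hx y hy => hab y hy x hx)⟩
  · rintro ⟨-, hn⟩
    haveI := H8.subFintype D
    obtain ⟨χ, hχ, h0⟩ := H8.exists_height_zero (p := p) (H8.block_nonempty hB)
    obtain ⟨e, S⟩ := exists_maxP le_rfl Subgroup.le_normalizer (blk_eB hB)
      ((isDefectGroup_iff hM hB).1 hD)
    obtain ⟨T, hT⟩ := S.exists_equiv_of_nilB hM hB hn hχ h0
    refine ⟨charDegree (χ : G → ℂ), fun ψ hψ hψ0 => ?_⟩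
    obtain ⟨η, hη⟩ := T.surjective ⟨ψ, hψ⟩
    have h1 : charDegree (ψ : G → ℂ) =
        charDegree (η : D → ℂ) * charDegree (χ : G → ℂ) := charDegree_eq_of (by
      rw [show ψ = T η by rw [hη], hT, S.starP_apply_of_not_dvd hM hB
        (S.stable_of_nilB hM hn η.2.isClassFunction)
        (H8.mem_bspan_of_mem hχ) (by simp [(Fact.out : p.Prime).ne_one]), Nat.cast_mul,
        η.2.isCharacter.charDegree_cast, χ.2.isCharacter.charDegree_cast])
    rw [H8.blockHeight_eq, h1, Nat.factorization_mul
      η.2.charDegree_pos.ne' χ.2.charDegree_pos.ne', Finsupp.add_apply,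
      (H8.height_eq_zero_iff hχ).1 h0, Nat.add_sub_cancel] at hψ0
    have h2 := η.2.charDegree_dvd_card
    rw [H6.card_defectGroup hM hB hD] at h2
    obtain ⟨a, -, ha⟩ := (Nat.dvd_prime_pow hM.1).1 h2
    rw [ha, hM.1.factorization_pow, Finsupp.single_eq_same] at hψ0
    rw [h1, ha, hψ0, pow_zero, one_mul]

end Cfsg.Agent.S4890
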