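import Cfsg.Statements.S4911
import Mathlib
import Cfsg.Agent.H8.Glaub4

set_option autoImplicit false
open Cfsg

namespace Cfsg.Agent.S4911

open scoped ComplexConjugate commutatorElement Pointwise
-- OPENS
open Cfsg.Agent.H8
open Cfsg.Agent.H6
open Cfsg.Agent.H4 hiding exists_int_of_isIntegral_rat
open Cfsg.Agent.H5
open Cfsg.Agent.H3


/-- Let P and K be subgroups of a finite group with P a p-group normalizing K and K of order prime to p. Then the number of P-invariant real-valued irreducible complex characters of K equals the number of conjugacy classes of K that are real (closed under inversion) and P-invariant. Moreover, if every real-valued irreducible character of K is P-invariant, then every real element of K (one conjugate in K to its inverse) is conjugate in K to an element centralized by P. -/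
theorem result {G : Type*} [Group G] [Finite G] (p : ℕ) [Fact p.Prime] (P K : Subgroup G) (hP : IsPGroup p ↥P) (hK : ¬ p ∣ Nat.card ↥K) (hPK : P ≤ Subgroup.normalizer (K : Set G)) : Nat.card {θ : Cfsg.IrrCharacter ↥K // (∀ k : ↥K, ((θ : ↥K → ℂ) k).im = 0) ∧ (∀ x ∈ P, ∀ k k' : ↥K, (k' : G) = x * (k : G) * x⁻¹ → (θ : ↥K → ℂ) k' = (θ : ↥K → ℂ) k)} = Nat.card {c : ConjClasses ↥K // (∀ k : ↥K, ConjClasses.mk k = c → IsConj k k⁻¹) ∧ ∀ k : ↥K, ConjClasses.mk k = c → ∀ x ∈ P, ∀ k' : ↥K, (k' : G) = x * (k : G) * x⁻¹ → ConjClasses.mk k' = c} ∧ ((∀ θ : Cfsg.IrrCharacter ↥K, (∀ k : ↥K, ((θ : ↥K → ℂ) k).im = 0) → (∀ x ∈ P, ∀ k k' : ↥K, (k' : G) = x * (k : G) * x⁻¹ → (θ : ↥K → ℂ) k' = (θ : ↥K → ℂ) k)) → ∀ k : ↥K, IsConj k k⁻¹ → ∃ k' : ↥K, IsConj k k' ∧ ∀ x ∈ P, x * (k' : G) * x⁻¹ = (k' : G)) := by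
  classical
  have hcop := H1.coprime_card_of_isPGroup hP hK
  have hsol : Group.IsSolvable P ∨ Group.IsSolvable K := Or.inl (H1.isSolvable_of_isPGroup hP)
  set C := K ⊓ Subgroup.centralizer (P : Set G) with hC
  have hCK : C ≤ K := inf_le_left
  have H := gCorr hP hPK hK hC hCK
  have hi : ∀ ξ : C → ℂ, SInv P ξ := sInv_of_le_centralizer inf_le_right
  have hr : ∀ {L : Subgroup G} (χ : IrrCharacter L), (∀ k, (χ.1 k).im = 0) ↔
      (⟨_, χ.2.conj⟩ : IrrCharacter L) = χ := fun χ => by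
    rw [← eq_conj_iff_forall_im, Subtype.ext_iff, eq_comm]
  have := Fintype.ofFinite C
  have main := (H.card_eq (fun θ => (∀ k, (θ.1 k).im = 0) ∧ SInv P θ.1)
    (fun ξ => ∀ k, (ξ.1 k).im = 0) (fun _ h => h.2) (fun _ _ => hi _) (fun χ ξ h1 h2 h3 => by
      rw [and_iff_left h1, hr, hr]
      refine H.fix_iff h1 (fun s hs g g' hg => congrArg conj (h1 s hs g g' hg)) h2 (hi _) h3 ?_
      rwa [gmul_eq_of hCK (m := gmul hCK χ.1 ξ.1) (by
        rw [gmul_cast hCK χ.2.isCharacter ξ.2.isCharacter,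
          (χ.2.isCharacter.restrict_le hCK).classInner_comm ξ.2.isCharacter]
        exact classInner_conj_conj _ _)])).trans ((card_real_irr C).trans
    (card_inv_classes_eq hPK hcop hsol hC hCK
      (fun c => (∀ k : K, ConjClasses.mk k = c → IsConj k k⁻¹) ∧ ∀ k : K, ConjClasses.mk k = c →
        ∀ x ∈ P, ∀ k' : K, (k' : G) = x * (k : G) * x⁻¹ → ConjClasses.mk k' = c) _
      (fun c h s hs g g' hg e => h.2 g e s hs g' hg) (fun c => ?_)).symm)
  · refine ⟨main, fun h k hk => ?_⟩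
    have h1 : Nat.card {θ : IrrCharacter K // (∀ k, (θ.1 k).im = 0) ∧ SInv P θ.1} =
        Nat.card {θ : IrrCharacter K // ∀ k, (θ.1 k).im = 0} :=
      Nat.card_congr (Equiv.subtypeEquivRight fun θ => and_iff_left_of_imp (h θ))
    rw [h1, card_real_irr] at main
    have h2 := Set.eq_of_subset_of_ncard_le (s := {c : ConjClasses K | (∀ k : K,
      ConjClasses.mk k = c → IsConj k k⁻¹) ∧ ∀ k : K, ConjClasses.mk k = c →
        ∀ x ∈ P, ∀ k' : K, (k' : G) = x * (k : G) * x⁻¹ → ConjClasses.mk k' = c})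
      (t := {c | ∀ k : K, ConjClasses.mk k = c → IsConj k k⁻¹}) (fun c h => h.1) main.le
    have h3 : ConjClasses.mk k ∈ {c | ∀ k : K, ConjClasses.mk k = c → IsConj k k⁻¹} := by
      intro k' hk'
      obtain ⟨c, rfl⟩ := isConj_iff.mp (ConjClasses.mk_eq_mk_iff_isConj.mp hk').symm
      obtain ⟨d, hd⟩ := isConj_iff.mp hk
      exact isConj_iff.mpr ⟨c * d * c⁻¹, by rw [conj_inv (a := k), ← hd]; group⟩
    rw [← h2] at h3
    obtain ⟨n, hn, h4⟩ := exists_conj_mem_centralizer hPK hcop hsol (g := k) fun s hs => by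
      obtain ⟨n, hn⟩ := isConj_iff.mp (ConjClasses.mk_eq_mk_iff_isConj.mp
        (h3.2 k rfl s hs (cjE (hPK hs) k) rfl).symm)
      exact ⟨n, n.2, congrArg Subtype.val hn⟩
    exact ⟨⟨n, hn⟩ * k * ⟨n, hn⟩⁻¹, isConj_iff.mpr ⟨_, rfl⟩,
      fun x hx => mul_inv_eq_iff_eq_mul.mpr (h4 x hx)⟩
  · have key : ∀ {L : Type _} [Group L] (c : L), (∀ k, ConjClasses.mk k = ConjClasses.mk c →
        IsConj k k⁻¹) ↔ IsConj c c⁻¹ := fun c => ⟨fun h => h c rfl, fun hk k' hk' => by
      obtain ⟨e, rfl⟩ := isConj_iff.mp (ConjClasses.mk_eq_mk_iff_isConj.mp hk').symm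
      obtain ⟨d, hd⟩ := isConj_iff.mp hk
      exact isConj_iff.mpr ⟨e * d * e⁻¹, by rw [conj_inv (a := c), ← hd]; group⟩⟩
    rw [key, key, ← map_inv, isConj_iff_of_centralizer hPK hcop hsol hC hCK]
    exact and_iff_left fun k hk x hx k' hk' => inv_class_of_mem_centralizer hPK c.2.2 hx hk' hk

end Cfsg.Agent.S4911
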