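import Cfsg.Statements.S4914
import Mathlib
import Cfsg.Agent.H8.Glaub2

set_option autoImplicit false
open Cfsg

namespace Cfsg.Agent.S4914

open scoped ComplexConjugate commutatorElement Pointwise
-- OPENS H1
open Cfsg.Agent.H8
open Cfsg.Agent.H6
open Cfsg.Agent.H4 hiding exists_int_of_isIntegral_rat
open Cfsg.Agent.H5
open Cfsg.Agent.H3
open Cfsg.Agent.H1 hiding card_conj_smul card_lt_of_lt card_sup_mul_card_inf
  exists_centralizer_smul_eq index_conj_smul mem_conj_smul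


/-- Let P and K be subgroups of a finite group G with P a p-group normalizing K, and suppose K has a normal Sylow p-subgroup Q. Let C be the subgroup of those k ∈ K whose commutator with every element of P lies in Q (so that C/Q is the fixed-point subgroup of P on K/Q). Then there is a bijection f from the P-invariant irreducible complex characters of K onto the P-invariant irreducible complex characters of C such that, for every P-invariant irreducible character χ of K, the multiplicity of f(χ) in the restriction of χ to C is a natural number congruent to 1 or to −1 modulo p, every other P-invariant irreducible character of C occurs in that restriction with multiplicity divisible by p, and the degrees of χ and f(χ) are congruent modulo p up to sign. -/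
theorem result {G : Type*} [Group G] [Finite G] (p : ℕ) [Fact p.Prime] (P K Q C : Subgroup G) (hP : IsPGroup p ↥P) (hPK : P ≤ Subgroup.normalizer (K : Set G)) (hQK : Q ≤ K) (hQn : ∀ k ∈ K, ∀ q ∈ Q, k * q * k⁻¹ ∈ Q) (hQp : ∃ a : ℕ, Nat.card ↥Q = p ^ a) (hQsyl : ¬ p ∣ Q.relIndex K) (hCK : C ≤ K) (hC : ∀ k : G, k ∈ C ↔ (k ∈ K ∧ ∀ x ∈ P, x * k * x⁻¹ * k⁻¹ ∈ Q)) : ∃ f : {χ : Cfsg.IrrCharacter ↥K // (∀ x ∈ P, ∀ k k' : ↥K, (k' : G) = x * (k : G) * x⁻¹ → (χ : ↥K → ℂ) k' = (χ : ↥K → ℂ) k)} → {ξ : Cfsg.IrrCharacter ↥C // (∀ x ∈ P, ∀ k k' : ↥C, (k' : G) = x * (k : G) * x⁻¹ → (ξ : ↥C → ℂ) k' = (ξ : ↥C → ℂ) k)}, Function.Bijective f ∧ ∀ χ, (∀ ξ : {ξ : Cfsg.IrrCharacter ↥C // (∀ x ∈ P, ∀ k k' : ↥C, (k' : G) = x * (k : G) * x⁻¹ → (ξ : ↥C → ℂ) k' = (ξ : ↥C → ℂ) k)}, ∃ m : ℕ, (Nat.card ↥C : ℂ)⁻¹ * ∑ᶠ c : ↥C, (χ.1 : ↥K → ℂ) (Subgroup.inclusion hCK c) * (starRingEnd ℂ) ((ξ.1 : ↥C → ℂ) c) = (m : ℂ) ∧ (ξ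 = f χ → ((m : ZMod p) = 1 ∨ (m : ZMod p) = -1)) ∧ (ξ ≠ f χ → p ∣ m)) ∧ ((Cfsg.charDegree ((f χ).1 : ↥C → ℂ) : ZMod p) = (Cfsg.charDegree (χ.1 : ↥K → ℂ) : ZMod p) ∨ (Cfsg.charDegree ((f χ).1 : ↥C → ℂ) : ZMod p) = -(Cfsg.charDegree (χ.1 : ↥K → ℂ) : ZMod p)) := by
  classical
  have hp : p.Prime := Fact.out
  have hKQ : K ≤ Subgroup.normalizer (Q : Set G) := Subgroup.le_normalizer_iff.mpr hQn
  have hPQ : P ≤ Subgroup.normalizer (Q : Set G) := by
    rw [Subgroup.le_normalizer_iff]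
    intro x hx q hq
    have hn : (Q.subgroupOf K).Normal := Subgroup.normal_subgroupOf_of_le_normalizer hKQ
    obtain ⟨a, ha⟩ := hQp
    have h1 : (x * q * x⁻¹) ^ p ^ a = 1 := by
      rw [conj_pow, ← ha]
      have : q ^ Nat.card Q = 1 := congrArg Subtype.val (pow_card_eq_one' (x := (⟨q, hq⟩ : Q)))
      rw [this]; simp
    have h2 : (x * q * x⁻¹) ^ Q.relIndex K ∈ Q :=
      (Q.subgroupOf K).pow_index_mem ⟨_, H1.conj_mem_of_le_normalizer hPK hx (hQK hq)⟩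
    exact NEmb.mem_of_coprime _ (Nat.Coprime.pow_left a ((Nat.Prime.coprime_iff_not_dvd hp).mpr
      hQsyl)) (by rw [h1]; exact one_mem _) h2
  have H := gCorr_rel hP hPQ _ rfl hPK hKQ hQsyl hC hCK
  have hPC := le_normalizer_of_relCent hPK hPQ hC
  choose f hf1 hf2 hf3 using H.down
  have : Fintype C := Fintype.ofFinite _
  refine ⟨fun χ => ⟨f χ.1 χ.2, hf1 _ _⟩, ⟨fun χ χ' h => ?_, fun ξ => ?_⟩, fun χ => ⟨fun ξ => ?_, ?_⟩⟩
  · obtain ⟨χ₀, -, -, h5⟩ := H.up _ (hf1 χ.1 χ.2)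
    have h1 : f χ.1 χ.2 = f χ'.1 χ'.2 := congrArg Subtype.val h
    exact Subtype.ext ((h5 _ χ.2 (not_dvd_of_sq_eq_one (hf2 _ _))).trans
      (h5 _ χ'.2 (h1 ▸ not_dvd_of_sq_eq_one (hf2 _ _))).symm)
  · obtain ⟨χ₀, h1, h2, -⟩ := H.up _ ξ.2
    exact ⟨⟨χ₀, h1⟩, Subtype.ext (by_contra fun hne => h2 (hf3 χ₀ h1 ξ.1 ξ.2 (Ne.symm hne)))⟩
  · refine ⟨gmul hCK χ.1.1 ξ.1.1, ?_, ?_, fun hne => hf3 _ χ.2 _ ξ.2 fun e => hne (Subtype.ext e)⟩
    · rw [gmul_cast hCK χ.1.2.isCharacter ξ.1.2.isCharacter, finsum_eq_sum_of_fintype]; rfl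
    · rintro rfl
      exact sq_eq_one_iff.mp (hf2 _ _)
  · have h1 := charDegree_eq_of_gmul hP hPK hPC hCK χ.2 (hf1 _ χ.2) (hf3 _ χ.2)
    rcases sq_eq_one_iff.mp (hf2 _ χ.2) with h2 | h2
    · left; rw [h1, h2, one_mul]
    · right; rw [h1, h2]; simp

end Cfsg.Agent.S4914
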