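import Cfsg.Statements.S4916
import Mathlib
import Cfsg.Agent.H8.Height2

set_option autoImplicit false
open Cfsg

namespace Cfsg.Agent.S4916

-- OPENS
open Cfsg.Agent.H8
open Cfsg.Agent.H6 hiding blockCoeff_eq_zero block_eq_blockOf block_eq_of_mem block_nonempty
  centralChar_mem char_mem conj_char_mem irrOne_mem_principal isPBlock_blockOf
  isPBlock_principal mem_blockOf_self orderOf_conj' sameBlock_refl sameBlock_symm
  sameBlock_trans weak_orth weak_orth'
open Cfsg.Agent.H4
open Cfsg.Agent.H5
open Cfsg.Agent.H3


/-- Let G be a finite group, p a prime and M a maximal ideal of the algebraic integers containing p. Then the principal character is the only irreducible character of degree prime to p in the principal p-block of G if and only if p does not divide the order of G. -/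
theorem result {G : Type*} [Group G] [Finite G] (p : ℕ) [Fact p.Prime] (M : Ideal Cfsg.AlgInt) (hM : Cfsg.IsPModular p M) : (∀ χ : Cfsg.IrrCharacter G, χ ∈ Cfsg.principalBlock M G → ¬ p ∣ Cfsg.charDegree (χ : G → ℂ) → (χ : G → ℂ) = fun _ => (1 : ℂ)) ↔ ¬ p ∣ Nat.card G := by
  classical
  have := Fintype.ofFinite G
  have := hM.2.1
  have hp : p.Prime := Fact.out
  have hB : IsPBlock M (principalBlock M G) := isPBlock_principal
  have h1 : irrOne G ∈ principalBlock M G := irrOne_mem_principal
  have h0 : bmin p (principalBlock M G) = 0 := bmin_eq_zero_of_one_mem h1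
  have hd := defect_add_bmin (p := p) (block_nonempty hB)
  rw [h0, add_zero] at hd
  constructor
  · intro h hG
    have h2 := pow_dvd_sum_rdeg_sq hM hB
    have hd0 : blockDefect p (principalBlock M G) ≠ 0 := by
      rw [hd]
      have := (hp.dvd_iff_one_le_factorization Nat.card_pos.ne').mp hG
      omega
    have h3 := dvd_trans (dvd_pow_self p hd0) h2
    rw [← Finset.add_sum_erase _ _ (mem_bfin.mpr h1)] at h3
    have h4 : p ∣ ∑ ψ ∈ (bfin (principalBlock M G)).erase (irrOne G),
        rdeg p (principalBlock M G) ψ ^ 2 := by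
      refine Finset.dvd_sum fun ψ hψ => ?_
      obtain ⟨hne, hψ⟩ := Finset.mem_erase.mp hψ
      refine dvd_pow ?_ two_ne_zero
      rw [rdeg, h0, pow_zero, Nat.div_one]
      by_contra hn
      exact hne (Subtype.ext (h ψ (mem_bfin.mp hψ) hn))
    have h5 := (Nat.dvd_add_left h4).mp h3
    have h6 : charDegree ((irrOne G : IrrCharacter G) : G → ℂ) = 1 := charDegree_one
    rw [rdeg, h0, h6] at h5
    simp only [pow_zero, Nat.div_one, one_pow, Nat.dvd_one] at h5
    exact hp.one_lt.ne' h5
  · intro hG χ hχ _
    have hd0 : blockDefect p (principalBlock M G) = 0 := by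
      rw [hd, Nat.factorization_eq_zero_of_not_dvd hG]
    have h2 := card_eq_one_of_defect_zero hM hB hd0
    have h3 := (Nat.card_eq_one_iff_unique.mp h2).1
    have h4 : (⟨χ, hχ⟩ : principalBlock M G) = ⟨irrOne G, h1⟩ := Subsingleton.elim _ _
    have h5 : χ = irrOne G := congrArg Subtype.val h4
    rw [h5]; rfl

end Cfsg.Agent.S4916
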