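import Cfsg.Statements.S4931
import Cfsg.Agent.H1.Coprime
import Cfsg.Agent.H3.Tate
import Cfsg.Agent.H8.Deg1
-- import your own Cfsg.Agent.* helpers here

set_option autoImplicit false
open Cfsg

namespace Cfsg.Agent.S4931

open Cfsg.Agent.H1 Cfsg.Agent.H4 Subgroup

theorem burn {Γ H : Type*} [Group Γ] [Group H] [Finite Γ] {p : ℕ} [Fact p.Prime] (f : Γ →* H)
    (hf : Function.Surjective f) (P : Sylow p Γ)
    (h1 : normalizer ((P : Subgroup Γ) : Set Γ) ≤ P)
    (h2 : ⁅(P : Subgroup Γ), (P : Subgroup Γ)⁆ ≤ f.ker) : HasNormalPComplement p H := by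
  haveI := Finite.of_surjective f hf
  refine H3.hasNormalPComplement_of_normalizer_le_centralizer (P.mapSurjective hf) ?_
  change normalizer (((P : Subgroup Γ).map f : Subgroup H) : Set H) ≤
    centralizer (((P : Subgroup Γ).map f : Subgroup H) : Set H)
  intro y hy
  obtain ⟨x, rfl⟩ := hf y
  have h3 : x ∈ normalizer ((((P : Subgroup Γ).map f).comap f : Subgroup Γ) : Set Γ) := by
    rw [← comap_normalizer_eq_of_surjective _ hf]; exact hy
  obtain ⟨k, hk, h4⟩ := (isSylowIn_of_le P (le_comap_map f _)).exists_mul_normalizer h3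
  have h5 : f x ∈ (P : Subgroup Γ).map f := by
    have := mul_mem hk (le_comap_map f _ (h1 h4))
    simpa using this
  obtain ⟨a, ha, h6⟩ := h5
  rintro _ ⟨b, hb, rfl⟩
  have := h2 (commutator_mem_commutator hb ha)
  rw [MonoidHom.mem_ker, map_commutatorElement, commutatorElement_eq_one_iff_mul_comm] at this
  rw [← h6, this]


/-- Let G be a finite group, p a prime and P a Sylow p-subgroup of G with normalizer N. Then every irreducible complex character of N of degree not divisible by p is the restriction of an irreducible character of G if and only if there is a normal subgroup K of G with KN = G and K ∩ N = 1. -/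
theorem result {G : Type*} [Group G] [Finite G] (p : ℕ) [Fact p.Prime] (P : Sylow p G) :
    (∀ θ : Cfsg.IrrCharacter ↥(Subgroup.normalizer ((P : Subgroup G) : Set G)), ¬ p ∣ Cfsg.charDegree (θ : ↥(Subgroup.normalizer ((P : Subgroup G) : Set G)) → ℂ) →
        ∃ χ : Cfsg.IrrCharacter G, ∀ x : ↥(Subgroup.normalizer ((P : Subgroup G) : Set G)), (χ : G → ℂ) x = (θ : ↥(Subgroup.normalizer ((P : Subgroup G) : Set G)) → ℂ) x) ↔
      ∃ K : Subgroup G, K.Normal ∧ K ⊔ Subgroup.normalizer ((P : Subgroup G) : Set G) = ⊤ ∧ K ⊓ Subgroup.normalizer ((P : Subgroup G) : Set G) = ⊥ := by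
  have hp : p.Prime := Fact.out
  set N := normalizer ((P : Subgroup G) : Set G) with hN
  have hPN : (P : Subgroup G) ≤ N := le_normalizer
  constructor
  · intro h
    have key : ∀ U : Subgroup G, U ≤ N → N ≤ normalizer (U : Set G) →
        ⁅(P : Subgroup G), (P : Subgroup G)⁆ ≤ U → normalClosure (U : Set G) ⊓ N ≤ U := by
      intro U hUN hn hU x hx
      by_contra hxU
      haveI : (U.subgroupOf N).Normal := (normal_subgroupOf_iff_le_normalizer hUN).2 hn
      obtain ⟨θ, hθ, h1, h2⟩ := exists_irr_ker_apply_ne (U.subgroupOf N) (g := ⟨x, hx.2⟩) hxU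
      obtain ⟨χ, hχ⟩ := h ⟨θ, hθ⟩ (by
        set π := QuotientGroup.mk' (U.subgroupOf N)
        have hπ : Function.Surjective π := QuotientGroup.mk'_surjective _
        haveI : (((P : Subgroup G).subgroupOf N).map π).Normal := Normal.map inferInstance π hπ
        have h3 := H8.cd_dvd_index_of_comm (A := ((P : Subgroup G).subgroupOf N).map π) (by
          rintro _ ⟨a, ha, rfl⟩ _ ⟨b, hb, rfl⟩
          rw [← commutatorElement_eq_one_iff_mul_comm, ← map_commutatorElement]
          exact (QuotientGroup.eq_one_iff _).2 (hU (commutator_mem_commutator ha hb)))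
          (H8.charDegree_mem_cd (hθ.deflate h1))
        intro hd
        refine (isSylowIn_of_le P hPN).not_dvd (Dvd.dvd.trans ?_ (h3.trans (index_map_dvd _ hπ)))
        have h4 : charDegree (deflate (U.subgroupOf N) θ) = charDegree θ := by
          unfold charDegree
          rw [← deflate_mk h1 1]; rfl
        rw [h4]; exact hd)
      haveI := χ.2.isCharacter.charKer_normal
      have h3 : normalClosure (U : Set G) ≤ charKer χ.1 := by
        refine normalClosure_le_normal fun u hu => χ.2.isCharacter.mem_charKer.2 ?_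
        have h4 := hχ ⟨u, hUN hu⟩
        have h5 := hχ 1
        exact h4.trans ((apply_of_mem_charKer (h1 hu)).trans h5.symm)
      exact h2 ((hχ ⟨x, hx.2⟩).symm.trans ((apply_of_mem_charKer (h3 hx.1)).trans (hχ 1)))
    have hPP : ⁅(P : Subgroup G), (P : Subgroup G)⁆ ≤ P := commutator_le_self _
    set L := normalClosure ((P : Subgroup G) : Set G)
    set L' := normalClosure ((⁅(P : Subgroup G), (P : Subgroup G)⁆ : Subgroup G) : Set G)
    have h1 : L ⊓ N ≤ P := key _ hPN le_rfl hPP
    have h2 : L' ⊓ N ≤ ⁅(P : Subgroup G), (P : Subgroup G)⁆ :=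
      key _ (hPP.trans hPN) (le_normalizer_commutator le_rfl le_rfl) le_rfl
    have hPL : (P : Subgroup G) ≤ L := le_normalClosure
    set f : L →* G ⧸ L' := (QuotientGroup.mk' L').comp L.subtype
    have h3 := burn f.rangeRestrict f.rangeRestrict_surjective (P.subtype hPL) (by
      intro x hx
      refine h1 ⟨x.2, ?_⟩
      rw [Sylow.coe_subtype, ← subgroupOf_normalizer_eq hPL] at hx
      exact hx) (by
      rw [MonoidHom.ker_rangeRestrict, commutator_le]
      intro a ha b hb
      exact (QuotientGroup.eq_one_iff _).2 (le_normalClosure (commutator_mem_commutator ha hb)))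
    set K := (pResidual p L).map L.subtype
    have h4 : K ⊓ P ≤ (frattini P).map (P : Subgroup G).subtype := by
      refine le_trans ?_ (H3.commutator_le_frattiniOf P.isPGroup')
      rintro _ ⟨⟨x, hx, rfl⟩, hxP⟩
      refine h2 ⟨?_, hPN hxP⟩
      have h5 := (H3.mem_pResidual_iff h3).1 (H3.pResidual_map_le f.rangeRestrict ⟨x, hx, rfl⟩)
      obtain ⟨k, hk⟩ := P.isPGroup'.exists_orderOf_eq_pow ⟨_, hxP⟩
      rw [← orderOf_coe] at hk
      have h6 : orderOf (f.rangeRestrict x) ∣ p ^ k := by
        refine (orderOf_map_dvd _ _).trans ?_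
        rw [← hk, ← orderOf_coe]; rfl
      have h7 := orderOf_eq_one_iff.1 ((h5.pow_right k).eq_one_of_dvd h6)
      exact (QuotientGroup.eq_one_iff _).1 (congrArg Subtype.val h7)
    have h5 := H3.hasNormalPComplement_of_inf_le_frattini P K h4
    rw [H3.hasNormalPComplement_map_subtype_iff, H3.hasNormalPComplement_iff_not_dvd,
      H3.pResidual_pResidual, card_top, ← card_map_of_injective L.subtype_injective] at h5
    refine ⟨K, inferInstance, ?_, ?_⟩
    · have h6 := congrArg (Subgroup.map L.subtype) (H3.pResidual_sup_sylow (P.subtype hPL))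
      rw [Subgroup.map_sup, Sylow.coe_subtype, subgroupOf_map_subtype, inf_eq_left.2 hPL,
        ← MonoidHom.range_eq_map, range_subtype] at h6
      have h7 := (isSylowIn_of_le P hPL).sup_normalizer_inf le_top le_normalizer_of_normal
      rw [inf_top_eq, ← h6, sup_assoc, sup_eq_right.2 hPN] at h7
      exact h7
    · rw [eq_bot_iff, ← (disjoint_of_coprime_natCard
        (coprime_card_of_isPGroup P.isPGroup' h5)).eq_bot]
      exact le_inf ((inf_le_inf_right _ (map_subtype_le _)).trans h1) inf_le_left
  · rintro ⟨K, hK, h1, h2⟩ θ -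
    set g : N →* G ⧸ K := (QuotientGroup.mk' K).comp N.subtype
    have hg : Function.Bijective g := by
      constructor
      · rw [injective_iff_map_eq_one]
        intro a ha
        have : (a : G) ∈ K ⊓ N := ⟨(QuotientGroup.eq_one_iff _).1 ha, a.2⟩
        rw [h2] at this
        exact Subtype.ext this
      · intro y
        obtain ⟨x, rfl⟩ := QuotientGroup.mk'_surjective K y
        obtain ⟨k, hk, n, hn, rfl⟩ := mem_sup_of_normal_left.1 (h1 ▸ mem_top x)
        refine ⟨⟨n, hn⟩, ?_⟩
        rw [map_mul, show QuotientGroup.mk' K k = 1 from (QuotientGroup.eq_one_iff _).2 hk, one_mul]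
        rfl
    set e := MulEquiv.ofBijective g hg
    refine ⟨⟨_, (θ.2.comp_equiv e.symm).inflate⟩, fun x => ?_⟩
    exact congrArg θ.1 (e.symm_apply_apply x)

end Cfsg.Agent.S4931
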