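import Cfsg.Statements.S4937
import Cfsg.Agent.H6.Dade2
-- import your own Cfsg.Agent.* helpers here

set_option autoImplicit false
open Cfsg

namespace Cfsg.Agent.S4937

open Cfsg.Agent.H4 Cfsg.Agent.H6


/-- Let G be a finite group, p a prime, M a maximal ideal of the algebraic integers containing p, N a normal subgroup of G and P a Sylow p-subgroup of N such that G = N·C_G(P). Let θ be an irreducible character in the principal p-block of N that is the restriction of some irreducible character of G. Then θ is the restriction of an irreducible character χ of G lying in the principal p-block of G such that, for every subgroup J of G containing N, the restriction of χ to J is an irreducible character of J lying in the principal p-block of J. -/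
theorem result {G : Type*} [Group G] [Finite G] (p : ℕ) [Fact p.Prime] (M : Ideal Cfsg.AlgInt) (hM : Cfsg.IsPModular p M) (N : Subgroup G) [N.Normal] (P : Sylow p ↥N)
    (hcov : N ⊔ Subgroup.centralizer (((P : Subgroup ↥N).map N.subtype : Subgroup G) : Set G) = ⊤)
    (θ : Cfsg.IrrCharacter ↥N) (hθ : θ ∈ Cfsg.principalBlock M ↥N)
    (hext : ∃ ψ : Cfsg.IrrCharacter G, ∀ x : ↥N, (ψ : G → ℂ) x = (θ : ↥N → ℂ) x) :
    ∃ χ : Cfsg.IrrCharacter G, χ ∈ Cfsg.principalBlock M G ∧ (∀ x : ↥N, (χ : G → ℂ) x = (θ : ↥N → ℂ) x) ∧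
      ∀ J : Subgroup G, N ≤ J → ∃ ξ : Cfsg.IrrCharacter ↥J, ξ ∈ Cfsg.principalBlock M ↥J ∧ ∀ y : ↥J, (ξ : ↥J → ℂ) y = (χ : G → ℂ) y := by
  classical
  haveI := hM.2.1
  obtain ⟨ψ, hψ⟩ := hext
  obtain ⟨u, hu⟩ := exists_Dd_of_sup hM (Subgroup.map_subtype_le (P : Subgroup N)) (by
    rw [Subgroup.relIndex, Subgroup.subgroupOf,
      Subgroup.comap_map_eq_self_of_injective N.subtype_injective]
    exact P.not_dvd_index) hcov
  obtain ⟨lam, -, h2⟩ := hu.exists_twist hM hθ ψ.2.isCharacter hψ
  have hirr : IsIrrCharacter G fun g : G => (lam g : ℂ) * (ψ : G → ℂ) g := by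
    have := ψ.2.mul_linear (lam.comp (QuotientGroup.mk' N))
    rw [mul_comm] at this
    exact this
  have hext' : ∀ n : N, (lam ((n : G) : G ⧸ N) : ℂ) * (ψ : G → ℂ) n = (θ : N → ℂ) n := fun n => by
    rw [(QuotientGroup.eq_one_iff _).2 n.2, map_one, Units.val_one, one_mul, hψ]
  have hfb := chiL_mul_fb_of_res hirr.isCharacter (θ := θ) (e := 1) (by simpa using hext')
  refine ⟨⟨_, hirr⟩, hu.mem_principal hθ hfb h2 (MonoidHom.id G) (fun x _ => ⟨x, rfl⟩)
    fun _ => rfl, hext', fun J hJ => ?_⟩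
  have hJ' : IsIrrCharacter J fun y : J => (lam ((y : G) : G ⧸ N) : ℂ) * (ψ : G → ℂ) y := by
    refine (hirr.isCharacter.restrict J).isIrr_of_comp (Subgroup.inclusion hJ) ?_
    rw [show (fun x : N => (lam (((Subgroup.inclusion hJ x : J) : G) : G ⧸ N) : ℂ) *
      (ψ : G → ℂ) (Subgroup.inclusion hJ x : J)) = θ from funext hext']
    exact θ.2
  exact ⟨⟨_, hJ'⟩, hu.mem_principal hθ hfb h2 J.subtype (by rwa [Subgroup.range_subtype])
    fun _ => rfl, fun _ => rfl⟩

end Cfsg.Agent.S4937
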