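import Cfsg.Statements.S4969
import Mathlib
import Cfsg.Agent.H8.Ord1

set_option autoImplicit false
open Cfsg

namespace Cfsg.Agent.S4969

open scoped ComplexConjugate
-- OPENS
open Cfsg.Agent.H8
open Cfsg.Agent.H4
open Cfsg.Agent.H5
open Cfsg.Agent.H3


/-- Let G be a finite group with k conjugacy classes, g ∈ G, and N > 0. Then the sum over the irreducible complex characters χ of G with χ(1) ≥ N of |χ(g)|/χ(1) is at most √(k · #C_G(g)) / N. -/
theorem result {G : Type*} [Group G] [Finite G] (g : G) (N : ℝ) (hN : 0 < N) :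
    ∑ᶠ χ : Cfsg.IrrCharacter G, (if N ≤ ‖(χ : G → ℂ) 1‖ then ‖(χ : G → ℂ) g‖ / ‖(χ : G → ℂ) 1‖ else 0) ≤
      Real.sqrt ((Nat.card (ConjClasses G) : ℝ) * (Nat.card ↥(Subgroup.centralizer ({g} : Set G)) : ℝ)) / N := by
  classical
  rw [finsum_eq_sum_of_fintype, le_div_iff₀ hN, Finset.sum_mul]
  have h1 : ∀ χ : IrrCharacter G, (if N ≤ ‖(χ : G → ℂ) 1‖ then
      ‖(χ : G → ℂ) g‖ / ‖(χ : G → ℂ) 1‖ else 0) * N ≤ ‖(χ : G → ℂ) g‖ := by
    intro χ
    split_ifs with h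
    · have h4 : 0 < ‖(χ : G → ℂ) 1‖ := norm_pos_iff.mpr χ.2.apply_one_ne_zero
      rw [div_mul_eq_mul_div, div_le_iff₀ h4]
      exact mul_le_mul_of_nonneg_left h (norm_nonneg _)
    · simp
  refine (Finset.sum_le_sum fun χ _ => h1 χ).trans ?_
  apply Real.le_sqrt_of_sq_le
  have h2 := sq_sum_le_card_mul_sum_sq (s := Finset.univ)
    (f := fun χ : IrrCharacter G => ‖(χ : G → ℂ) g‖)
  rwa [sum_irr_norm_sq, Finset.card_univ, Fintype.card_eq_nat_card,
    card_irr_eq_card_conjClasses] at h2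

end Cfsg.Agent.S4969
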