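import Cfsg.Statements.S4989
import Mathlib
import Cfsg.Agent.H8.Ord1

set_option autoImplicit false
open Cfsg

namespace Cfsg.Agent.S4989

open scoped ComplexConjugate
-- OPENS
open Cfsg.Agent.H8
open Cfsg.Agent.H4
open Cfsg.Agent.H5
open Cfsg.Agent.H3


/-- Let H be a subgroup of the finite group G and χ an irreducible complex character of G. Then the inner product of the restriction of χ to H with itself, (1/#H)·Σ_{h ∈ H} |χ(h)|², is at most 1 + #(Z ∖ H)/#H, where Z is the set of zeros of χ in G. -/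
theorem result {G : Type*} [Group G] [Finite G] (H : Subgroup G) (χ : Cfsg.IrrCharacter G) : (Nat.card ↥H : ℝ)⁻¹ * ∑ᶠ h : ↥H, ‖(χ : G → ℂ) h‖ ^ 2 ≤ 1 + (Set.ncard ({x : G | (χ : G → ℂ) x = 0} \ (H : Set G)) : ℝ) / (Nat.card ↥H : ℝ) := by
  classical
  have := Fintype.ofFinite G
  rw [finsum_eq_sum_of_fintype]
  have hH : (0 : ℝ) < Nat.card H := by exact_mod_cast Nat.card_pos
  set S := Finset.univ.filter (fun g : G => g ∉ H ∧ (χ : G → ℂ) g ≠ 0) with hS
  have h1 := card_le_sum_normSq χ.2.isGen S (by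
    intro g hg m hm
    simp only [hS, Finset.mem_filter, Finset.mem_univ, true_and] at hg ⊢
    have hm' : m.Coprime (orderOf g) := hm.coprime_dvd_right (orderOf_dvd_natCard g)
    refine ⟨fun h => hg.1 ?_, fun h => hg.2 ((χ.2.isGen.apply_pow_eq_zero_iff hm').mp h)⟩
    obtain ⟨k, hk⟩ := exists_pow_eq_self_of_coprime hm'
    rw [← hk]; exact H.pow_mem h k) (fun g hg => (Finset.mem_filter.mp hg).2.2)
  have h2 := classInner_self_re (χ : G → ℂ)
  rw [χ.2.classInner_self, Complex.one_re, eq_inv_mul_iff_mul_eq₀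
    (by exact_mod_cast Nat.card_pos.ne'), mul_one,
    ← Finset.sum_filter_add_sum_filter_not _ (fun g => g ∈ H)] at h2
  have h3 : ∑ g ∈ Finset.univ.filter (fun g => g ∈ H), ‖(χ : G → ℂ) g‖ ^ 2 =
      ∑ h : H, ‖(χ : G → ℂ) h‖ ^ 2 := Finset.sum_subtype _ (by simp) _
  have h4 : ∑ g ∈ S, ‖(χ : G → ℂ) g‖ ^ 2 ≤
      ∑ g ∈ Finset.univ.filter (fun g => g ∉ H), ‖(χ : G → ℂ) g‖ ^ 2 :=
    Finset.sum_le_sum_of_subset_of_nonneg (fun g hg => by
      simp only [hS, Finset.mem_filter, Finset.mem_univ, true_and] at hg ⊢; exact hg.1)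
      (fun _ _ _ => by positivity)
  have h5 : Set.ncard ({x : G | (χ : G → ℂ) x = 0} \ (H : Set G)) =
      (Finset.univ.filter (fun g : G => g ∉ H ∧ (χ : G → ℂ) g = 0)).card := by
    rw [← Set.ncard_coe_finset]; congr 1; ext x; simp [and_comm]
  have h6 : Nat.card H = (Finset.univ.filter (fun g : G => g ∈ H)).card :=
    Nat.subtype_card _ (by simp)
  have h7 : Nat.card G = Nat.card H + (S.card +
      (Finset.univ.filter (fun g : G => g ∉ H ∧ (χ : G → ℂ) g = 0)).card) := by
    rw [h6, Nat.card_eq_fintype_card, ← Finset.card_univ,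
      ← Finset.card_filter_add_card_filter_not (fun g => g ∈ H),
      ← Finset.card_filter_add_card_filter_not (s := Finset.univ.filter (fun g => g ∉ H))
        (fun g => (χ : G → ℂ) g ≠ 0), Finset.filter_filter, Finset.filter_filter]
    simp [hS]
  rw [h5, inv_mul_le_iff₀ hH, mul_add, mul_one, mul_div_cancel₀ _ hH.ne']
  rw [h7] at h2
  push_cast at h2
  linarith

end Cfsg.Agent.S4989
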