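import Cfsg.Statements.S4996
import Mathlib
import Cfsg.Agent.H8.Ord1

set_option autoImplicit false
open Cfsg

namespace Cfsg.Agent.S4996

open scoped ComplexConjugate
-- OPENS
open Cfsg.Agent.H8
open Cfsg.Agent.H4
open Cfsg.Agent.H5
open Cfsg.Agent.H3


/-- Let N be a normal subgroup of the finite group G and χ an irreducible complex character of G. Then the restriction of χ to N is not irreducible if and only if χ vanishes on some whole coset Nx of N in G. -/
theorem result {G : Type*} [Group G] [Finite G] (N : Subgroup G) [N.Normal] (χ : Cfsg.IrrCharacter G) : ¬ Cfsg.IsIrrCharacter ↥N (fun n : ↥N => (χ : G → ℂ) n) ↔ ∃ x : G, ∀ n : ↥N, (χ : G → ℂ) ((n : G) * x) = 0 := by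
  classical
  have := Fintype.ofFinite G
  set ψ : G → ℂ := fun g => (χ : G → ℂ) g * conj ((χ : G → ℂ) g) with hψ
  have hψc : IsCharacter G ψ := χ.2.isCharacter.mul χ.2.isCharacter.conj
  have hf := isCharacter_fixPart N hψc
  have hsum := sum_normal_mul_eq_fixPart N hψc.isClassFunction
  have hN := card_ne_zero_C N
  have h1 : fixPart N ψ 1 = classInner (fun n : N => (χ : G → ℂ) n) (fun n : N => (χ : G → ℂ) n) := by
    apply mul_left_cancel₀ hN
    rw [← hsum, card_mul_classInner]
    simp [hψ]
  have hre : ∀ x, ∑ n : N, ψ (n * x) = ((∑ n : N, ‖(χ : G → ℂ) (n * x)‖ ^ 2 : ℝ) : ℂ) := by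
    intro x
    simp only [hψ, Complex.mul_conj, Complex.normSq_eq_norm_sq]
    push_cast; rfl
  have h0 : ∀ x, fixPart N ψ x = 0 ↔ ∀ n : N, (χ : G → ℂ) (n * x) = 0 := by
    intro x
    rw [← mul_eq_zero_iff_left hN, ← hsum, hre, Complex.ofReal_eq_zero,
      Finset.sum_eq_zero_iff_of_nonneg (fun _ _ => by positivity)]
    simp
  rw [(χ.2.isCharacter.restrict N).isIrr_iff, ← h1]
  constructor
  · intro h
    by_contra hc
    push Not at hc
    have hne : ∀ x, fixPart N ψ x ≠ 0 := fun x hx => by
      obtain ⟨n, hn⟩ := hc x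
      exact hn ((h0 x).mp hx n)
    have h2 := card_le_sum_norm hf.isGen (Finset.univ.erase 1) (by
      intro g hg m hm
      simp only [Finset.mem_erase, Finset.mem_univ, and_true] at hg ⊢
      intro h
      exact hg ((powCoprime hm.symm).injective (a₁ := g) (a₂ := 1) (by simpa using h)))
      (fun g _ => hne g)
    have h3 : ∀ x, ((‖fixPart N ψ x‖ : ℝ) : ℂ) = fixPart N ψ x := by
      intro x
      have h4 : fixPart N ψ x =
          (((Nat.card N : ℝ)⁻¹ * ∑ n : N, ‖(χ : G → ℂ) (n * x)‖ ^ 2 : ℝ) : ℂ) := by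
        rw [Complex.ofReal_mul, ← hre, hsum]; push_cast; field_simp
      rw [h4, Complex.norm_real, Real.norm_of_nonneg (by positivity)]
    have h5 : ∑ x, ‖fixPart N ψ x‖ = Nat.card G := by
      apply Complex.ofReal_injective
      push_cast
      simp only [h3]
      rw [sum_fixPart N hψc.isClassFunction, ← card_mul_classInner, χ.2.classInner_self, mul_one]
    rw [← Finset.add_sum_erase _ _ (Finset.mem_univ 1)] at h5
    rw [Finset.card_erase_of_mem (Finset.mem_univ _), Finset.card_univ,
      Fintype.card_eq_nat_card, Nat.cast_sub (Nat.card_pos (α := G))] at h2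
    obtain ⟨d, hd⟩ := hf.exists_degree
    rw [hd] at h h5
    have h6 : d ≠ 0 := fun e => hne 1 (by rw [hd, e, Nat.cast_zero])
    have h7 : (d : ℝ) ≤ 1 := by simp at h5 h2; linarith
    have h8 : d ≤ 1 := by exact_mod_cast h7
    exact h (by rw [show d = 1 by omega, Nat.cast_one])
  · rintro ⟨x, hx⟩ h
    exact ne_zero_of_linear hf h x ((h0 x).mpr hx)

end Cfsg.Agent.S4996
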