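import Cfsg.Statements.S5001
import Mathlib
import Cfsg.Agent.H8.Induced
import Cfsg.Agent.H8.Shift

set_option autoImplicit false
open Cfsg

namespace Cfsg.Agent.S5001

-- OPENS
open Cfsg.Agent.H8
open Cfsg.Agent.H6 hiding blockCoeff_eq_zero blockCoeff_mem blockPart_add
  blockPart_eq_zero_of_regular blockPart_eq_zero_of_singular blockPart_irr_of_mem
  blockPart_irr_of_not_mem blockPart_isClassFunction blockPart_smul blockPart_sub blockPart_sum
  blockPart_zero block_eq_blockOf block_eq_of_mem block_nonempty centralChar_mem char_mem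
  conj_char_mem irrOne_mem_principal isPBlock_blockOf isPBlock_principal mem_blockOf_self
  orderOf_conj' sameBlock_refl sameBlock_symm sameBlock_trans weak_orth weak_orth'
open Cfsg.Agent.H4 hiding exists_int_of_isIntegral_rat
open Cfsg.Agent.H5
open Cfsg.Agent.H3


/-- Let p be a prime, G a finite group and B a p-block of G (relative to a maximal ideal M of the algebraic integers containing p) with defect group D. Let Z be a central p-subgroup of G contained in D and λ a linear character of Z (a homomorphism to the nonzero complex numbers). Say an irreducible character χ of G lies over λ when χ(z) = χ(1)λ(z) for all z ∈ Z. If some irreducible character in B lying over λ has height zero, then λ extends to a linear character of D. -/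
theorem result {G : Type*} [Group G] [Finite G] (p : ℕ) [Fact p.Prime] (M : Ideal Cfsg.AlgInt) (hM : Cfsg.IsPModular p M) (B : Set (Cfsg.IrrCharacter G)) (hB : Cfsg.IsPBlock M B) (D : Subgroup G) (hD : Cfsg.IsDefectGroup p M B D) (Z : Subgroup G) (hZc : Z ≤ Subgroup.center G) (hZp : IsPGroup p ↥Z) (hZD : Z ≤ D) (lam : ↥Z →* ℂˣ) (χ : Cfsg.IrrCharacter G) (hχ : χ ∈ B) (hover : (∀ z : ↥Z, (χ : G → ℂ) z = (χ : G → ℂ) 1 * (lam z : ℂ))) (h0 : Cfsg.blockHeight p B (χ : G → ℂ) = 0) : (∃ μ : ↥D →* ℂˣ, ∀ z : ↥Z, μ ⟨(z : G), hZD z.2⟩ = lam z) := by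
  have := hM.2.1
  have hp : p.Prime := Fact.out
  have hDp : IsPGroup p D := IsPGroup.of_card (card_defectGroup hM hB hD)
  obtain ⟨y, hy, P, hP⟩ := hD
  have := Fintype.ofFinite D
  have hc : ∀ k : D, Commute y (D.subtype k) := by
    rintro ⟨k, hk⟩
    rw [hP] at hk
    obtain ⟨w, -, rfl⟩ := hk
    exact (Subgroup.mem_centralizer_singleton_iff.mp w.2).symm
  set f : D → ℂ := fun k => (χ : G → ℂ) (y * D.subtype k) with hf
  have hfc : IsClassFunction D f := isClassFunction_shift D.subtype hc χ.2.isClassFunction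
  have hfi : ∀ μ : IrrCharacter D, classInner f μ ∈ locRing M := fun μ =>
    mem_locRing_of_isIntegral (isIntegral_classInner_shift D.subtype hc χ.2.isGen μ.2.isGen)
  have h1 := redC_ne_zero_of_defectClass hM hB hy hχ h0
  have h2 : (χ : G → ℂ) y = f 1 := by simp [hf]
  rw [h2, hfc.apply_eq_sum, redC_sum _ fun μ _ => mul_mem (hfi μ) (char_mem μ.2.isGen _)] at h1
  obtain ⟨μ, -, hμ⟩ := Finset.exists_ne_zero_of_sum_ne_zero h1
  rw [redC_mul (hfi μ) (char_mem μ.2.isGen _), mul_ne_zero_iff, ← irr_coe_charDegree, redC_natCast,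
    Ne, Ne, natCast_res_eq_zero_iff hM] at hμ
  obtain ⟨ν, hν⟩ := μ.2.isCharacter.exists_linear (charDegree_eq_one_of_isPGroup hDp μ hμ.2)
  refine ⟨ν, fun z => ?_⟩
  have hz : (⟨(z : G), hZD z.2⟩ : D) ∈ Subgroup.center D := by
    rw [Subgroup.mem_center_iff]
    intro g
    exact Subtype.ext (Subgroup.mem_center_iff.mp (hZc z.2) g)
  have h3 := classInner_shift hfc hz μ
  have h4 : (fun x : D => f (⟨(z : G), hZD z.2⟩ * x)) = (lam z : ℂ) • f := by
    ext x
    simp only [hf, Pi.smul_apply, smul_eq_mul, Subgroup.subtype_apply, Subgroup.coe_mul]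
    rw [← mul_assoc, Subgroup.mem_center_iff.mp (hZc z.2) y, mul_assoc,
      irr_central_mul χ.2 (hZc z.2), hover z, mul_div_cancel_left₀ _ (irr_one_ne_zero χ)]
  rw [h4, classInner_smul_left, mul_comm, mul_right_inj' (ne_zero_of_redC_ne_zero hμ.1), hν] at h3
  apply Units.ext
  simpa using h3.symm

end Cfsg.Agent.S5001
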