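import Cfsg.Statements.S5011
-- import your own Cfsg.Agent.* helpers here

set_option autoImplicit false
open Cfsg

namespace Cfsg.Agent.S5011

/-- Let G be a finite non-abelian simple group and ρ an irreducible complex representation of G on a space of dimension greater than one (irreducible in the sense that the only subspaces invariant under every ρ(x) are 0 and the whole space). Then for every non-identity element g of G, the centralizer of g does not act irreducibly: there is a non-zero proper subspace invariant under ρ(c) for every c commuting with g. -/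
theorem result {G : Type*} [Group G] [Finite G] [IsSimpleGroup G]
    (hG : ¬ IsMulCommutative G) {V : Type*} [AddCommGroup V] [Module ℂ V] [FiniteDimensional ℂ V]
    (ρ : Representation ℂ G V)
    (hirr : ∀ W : Submodule ℂ V, (∀ x : G, ∀ v ∈ W, ρ x v ∈ W) → W = ⊥ ∨ W = ⊤)
    (hdim : 1 < Module.finrank ℂ V) (g : G) (hg : g ≠ 1) :
    ∃ W : Submodule ℂ V, W ≠ ⊥ ∧ W ≠ ⊤ ∧ ∀ c ∈ Subgroup.centralizer ({g} : Set G), ∀ v ∈ W, ρ c v ∈ W := by
  classical
  have : Nontrivial V := Module.nontrivial_of_finrank_pos (R := ℂ) (by omega)
  obtain ⟨μ, hμ⟩ := Module.End.exists_eigenvalue (ρ g)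
  refine ⟨Module.End.eigenspace (ρ g) μ, hμ, ?_, ?_⟩
  · intro htop
    -- the elements acting as scalars form a normal subgroup
    let S : Subgroup G :=
      { carrier := {x | ∃ c : ℂ, ∀ v, ρ x v = c • v}
        one_mem' := ⟨1, fun v => by simp⟩
        mul_mem' := by
          rintro a b ⟨c, hc⟩ ⟨d, hd⟩
          refine ⟨c * d, fun v => ?_⟩
          rw [map_mul, Module.End.mul_apply, hd, map_smul, hc, smul_smul, mul_comm]
        inv_mem' := by
          rintro a ⟨c, hc⟩
          by_cases h0 : c = 0
          · refine ⟨0, fun v => ?_⟩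
            have : v = 0 := by
              have h1 : ρ a (ρ a⁻¹ v) = v := by
                rw [← Module.End.mul_apply, ← map_mul]; simp
              rw [← h1, hc, h0, zero_smul]
            simp [this]
          · refine ⟨c⁻¹, fun v => ?_⟩
            have h1 : ρ a (ρ a⁻¹ v) = v := by
              rw [← Module.End.mul_apply, ← map_mul]; simp
            rw [hc] at h1
            conv_rhs => rw [← h1]
            rw [smul_smul, inv_mul_cancel₀ h0, one_smul] }
    have hSn : S.Normal := ⟨by
      rintro a ⟨c, hc⟩ x
      refine ⟨c, fun v => ?_⟩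
      rw [map_mul, map_mul, Module.End.mul_apply, Module.End.mul_apply, hc, map_smul,
        ← Module.End.mul_apply, ← map_mul]
      simp⟩
    have hgS : g ∈ S := ⟨μ, fun v => by
      have : v ∈ Module.End.eigenspace (ρ g) μ := htop ▸ Submodule.mem_top
      exact Module.End.mem_eigenspace_iff.mp this⟩
    have hS : S = ⊤ := by
      rcases hSn.eq_bot_or_eq_top with h | h
      · rw [h] at hgS; exact absurd (Subgroup.mem_bot.mp hgS) hg
      · exact h
    obtain ⟨v, hv⟩ := exists_ne (0 : V)
    have := hirr (Submodule.span ℂ {v}) (fun x w hw => by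
      have hx : x ∈ S := hS ▸ Subgroup.mem_top x
      obtain ⟨c, hc⟩ := hx
      rw [hc]; exact Submodule.smul_mem _ _ hw)
    rcases this with h | h
    · exact hv (Submodule.span_singleton_eq_bot.mp h)
    · have h1 : Module.finrank ℂ (Submodule.span ℂ {v}) = 1 := finrank_span_singleton hv
      rw [h, finrank_top] at h1
      omega
  · intro c hc v hv
    rw [Module.End.mem_eigenspace_iff] at hv ⊢
    have hcg : g * c = c * g := by
      rw [Subgroup.mem_centralizer_iff] at hc
      exact hc g rfl
    rw [← Module.End.mul_apply, ← map_mul, hcg, map_mul, Module.End.mul_apply, hv, map_smul]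

end Cfsg.Agent.S5011
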