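import Cfsg.Statements.S5126
import Cfsg.Agent.H23.GFac
-- import your own Cfsg.Agent.* helpers here

set_option autoImplicit false
open Cfsg

namespace Cfsg.Agent.S5126

/-- In a saturated fusion system over a finite p-group S, the normalizer system of a fully normalized, centric, radical subgroup R is constrained, and in every model of that normalizer system the largest normal p-subgroup is the image of R. -/
theorem result {Ω : Type*} [Group Ω] {S : Subgroup Ω} [Finite S] (p : ℕ) [Fact p.Prime] (hS : IsPGroup p S) (F : Cfsg.FusionSystem S) (hF : F.IsSaturated p) (R : Subgroup Ω) (hRn : F.IsFullyNormalized R) (hRc : F.IsCentric R) (hRr : F.IsRadical p R) (E : Cfsg.FusionSystem (Cfsg.FusionSystem.normalizerIn S R)) (hE : F.IsNormalizerSystem R E) {G : Type*} [Group G] (ι : ↥(Cfsg.FusionSystem.normalizerIn S R) →* G) : E.IsConstrained p ∧ (E.IsModel p G ι → (Cfsg.pCore p G : Subgroup G) = (R.subgroupOf (Cfsg.FusionSystem.normalizerIn S R)).map ι) := by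
  open Cfsg.Agent.H23 Cfsg.FusionSystem Subgroup in
  have hN := isNormalizerSystem_iff.1 hE
  have h0 : Sat p F := ⟨hS, hF⟩
  have h1 := hN.sat h0 (fkn_stab_iff.2 hRn)
  have h2 := hN.isNormal (le_nIn hRn.1)
  have h3 := hN.centric_of (le_nIn hRn.1) hRc
  refine ⟨⟨h1.sat, R, h2, h3⟩, fun hG => ?_⟩
  obtain ⟨_, T, -, h, hc⟩ := isModel_iff.1 hG
  have h4 : E.IsRadical p R := radical_iff.2 ⟨le_nIn hRn.1, by
    rw [hN.autF_of_le le_rfl (le_nIn hRn.1), inf_eq_left.2 (autF_le_stab _ _)]
    exact (radical_iff.1 hRr).2⟩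
  rw [← core_group T hc, ← h.im_core, le_antisymm (normal_le_cr h1.pg (core_normal E) h3 h4) (le_core h2)]
  exact (imageAlong_eq ι (le_nIn hRn.1)).symm

end Cfsg.Agent.S5126
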