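import Cfsg.Statements.S5131
import Cfsg.Agent.H23.Fac
-- import your own Cfsg.Agent.* helpers here

set_option autoImplicit false
open Cfsg

namespace Cfsg.Agent.S5131

/-- Let F be a fusion system over a finite p-group S and F' a fusion system over S'. If α : S → S' is a morphism of fusion systems from F to F' (every map of F induces along α a map of F'), then the kernel of α is strongly closed in S with respect to F. -/
theorem result {Ω : Type*} [Group Ω] {S : Subgroup Ω} [Finite S] (p : ℕ) [Fact p.Prime] (hS : IsPGroup p S) (F : Cfsg.FusionSystem S) {Ω' : Type*} [Group Ω'] {S' : Subgroup Ω'} (F' : Cfsg.FusionSystem S') (α : S →* Ω') (hα : F.IsMorphism F' α) : F.StronglyClosed ((α.ker).map S.subtype) := by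
  open Cfsg.Agent.H23 Cfsg.FusionSystem Subgroup in
  refine stronglyClosed_iff.2 ⟨map_subtype_le _, fun P σ hσ x hx hx' => ?_⟩
  obtain ⟨φ, hφ, e⟩ := id hσ
  obtain ⟨φ', hφ', h3⟩ := hα.2 P φ hφ
  obtain ⟨y, hy, rfl⟩ := hx'
  refine ⟨⟨σ y, hσ.mem hx⟩, ?_, rfl⟩
  have h4 := ((inducedAlong_iff α e fun x => (ext_coe φ' x).symm).1 h3).2.2.2 y hx
  have h5 : H23.ext α (y : Ω) = 1 := by rw [ext_coe]; exact hy
  rw [h5, (homOn_ext φ').map_one, ext_of_mem α (x := σ (y : Ω)) (hσ.mem hx)] at h4
  exact h4.symm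

end Cfsg.Agent.S5131
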