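import Cfsg.Statements.S5135
import Cfsg.Agent.H23.GFac
-- import your own Cfsg.Agent.* helpers here

set_option autoImplicit false
open Cfsg

namespace Cfsg.Agent.S5135

/-- Let G be a finite group, S a Sylow p-subgroup and H a normal subgroup of G. Then the fusion system of G/H on the image SH/H of S is the factor system of the fusion system of G on S modulo S ∩ H, read through the quotient map restricted to S: for each subgroup P' of SH/H, the conjugation maps by elements of G/H defined on P' with values in SH/H are exactly the homomorphisms induced by the conjugation maps by elements of G defined on the full preimage of P' in S with values in S. -/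
theorem result {G : Type*} [Group G] [Finite G] (p : ℕ) [Fact p.Prime] (S : Sylow p G) (H : Subgroup G) [H.Normal] : (Cfsg.groupFusionSystem (S : Subgroup G)).IsFactorSystem ((S : Subgroup G) ⊓ H) ((QuotientGroup.mk' H).comp (S : Subgroup G).subtype) (Cfsg.groupFusionSystem ((S : Subgroup G).map (QuotientGroup.mk' H))) := by
  open Cfsg.Agent.H23 Cfsg.FusionSystem Subgroup in
  have h := fac_group_map (rsyl_sylow S) (QuotientGroup.mk' H) (QuotientGroup.mk'_surjective H)
  rw [QuotientGroup.ker_mk'] at h
  exact (isFactorSystem_iff h.sc).2 (h.congr fun x hx => by rw [ext_of_mem _ hx]; rfl)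

end Cfsg.Agent.S5135
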