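import Cfsg.Statements.S5138
import Cfsg.Agent.H23.CProd
-- import your own Cfsg.Agent.* helpers here

set_option autoImplicit false
open Cfsg

namespace Cfsg.Agent.S5138

/-- Let F be a saturated fusion system over a finite p-group S and E₁, E₂ normal subsystems over T₁, T₂ with [T₁, T₂] = 1. Then there is a normal subsystem of F over T₁T₂ which, if moreover T₁ ∩ T₂ lies in the centre of E₁ and in the centre of E₂, is a central product of E₁ and E₂ (the factor system of a direct product of E₁ and E₂ modulo a subgroup of its centre meeting both factors trivially). -/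
theorem result {Ω : Type*} [Group Ω] {S : Subgroup Ω} [Finite S] (p : ℕ) [Fact p.Prime] (hS : IsPGroup p S) (F : Cfsg.FusionSystem S) (hF : F.IsSaturated p) {T₁ T₂ : Subgroup Ω} (E₁ : Cfsg.FusionSystem T₁) (E₂ : Cfsg.FusionSystem T₂) (hE₁ : E₁.IsNormalIn F p) (hE₂ : E₂.IsNormalIn F p) (hc : ⁅T₁, T₂⁆ = ⊥) : ∃ D : Cfsg.FusionSystem (T₁ ⊔ T₂), D.IsNormalIn F p ∧ (T₁ ⊓ T₂ ≤ E₁.center → T₁ ⊓ T₂ ≤ E₂.center → Cfsg.FusionSystem.IsCentralProductOf E₁ E₂ D) := by
  open Cfsg.Agent.H23 Cfsg.FusionSystem Subgroup in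
    have h₁ := (isNormalIn_iff hS).1 hE₁
    have h₂ := (isNormalIn_iff hS).1 hE₂
    have := h₁.finite
    have := h₂.finite
    have c : T₁ ≤ centralizer (T₂ : Set Ω) := commutator_eq_bot_iff_le_centralizer.1 hc
    by_cases h : T₁ ⊓ T₂ ≤ E₁.center ∧ T₁ ⊓ T₂ ≤ E₂.center
    · obtain ⟨D, a, b⟩ := exists_nrm_cp h₁ h₂ c (central_iff_le_center.2 h.1) (central_iff_le_center.2 h.2)
      exact ⟨D, (isNormalIn_iff hS).2 a, fun _ _ => (isCentralProductOf_iff h₁.satE h₂.satE).2 b⟩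
    · have z : F.IsNormal (T₁ ⊓ T₂) := h₁.satF.normal_of_sc_abelian (sc_inf h₁.sc h₂.sc)
        (inf_le_left.trans (c.trans (centralizer_le inf_le_right)))
      obtain ⟨E₁', a1, a2⟩ := h₁.exists_nrm_central z inf_le_left (c.trans (centralizer_le inf_le_right))
      obtain ⟨E₂', b1, b2⟩ := h₂.exists_nrm_central z inf_le_right
        ((le_centralizer_iff.1 c).trans (centralizer_le inf_le_left))
      obtain ⟨D, a, -⟩ := exists_nrm_cp a1 b1 c a2 b2
      exact ⟨D, (isNormalIn_iff hS).2 a, fun h1 h2 => absurd ⟨h1, h2⟩ h⟩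

end Cfsg.Agent.S5138
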