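import Cfsg.Statements.S5162
import Cfsg.Agent.H23.Comp
-- import your own Cfsg.Agent.* helpers here

set_option autoImplicit false
open Cfsg

namespace Cfsg.Agent.S5162

/-- Let F be a saturated fusion system over a finite p-group S that is a central product of two saturated subsystems F₁ (over S₁) and F₂ (over S₂) inside S. Then every component of F is a component of F₁ or a component of F₂. -/
theorem result {Ω : Type*} [Group Ω] {S : Subgroup Ω} [Finite S] (p : ℕ) [Fact p.Prime] (hS : IsPGroup p S) (F : Cfsg.FusionSystem S) (hF : F.IsSaturated p) {S₁ S₂ : Subgroup Ω} (F₁ : Cfsg.FusionSystem S₁) (F₂ : Cfsg.FusionSystem S₂) (h₁ : F₁.IsSaturated p) (h₂ : F₂.IsSaturated p) (h₁F : F₁.IsSubsystemOf F) (h₂F : F₂.IsSubsystemOf F) (hc : Cfsg.FusionSystem.IsCentralProductOf F₁ F₂ F) {T : Subgroup Ω} (C : Cfsg.FusionSystem T) (hC : C.IsComponentIn F p) : C.IsComponentIn F₁ p ∨ C.IsComponentIn F₂ p := by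
  open Cfsg.Agent.H23 Cfsg.FusionSystem Subgroup in
  have l₁ := sub_le h₁F
  have l₂ := sub_le h₂F
  have := finite_of_le l₁
  have := finite_of_le l₂
  have p₁ := isPGroup_of_le hS l₁
  have p₂ := isPGroup_of_le hS l₂
  rw [isComponentIn_iff p₁, isComponentIn_iff p₂]
  exact ((isCentralProductOf_iff ⟨p₁, h₁⟩ ⟨p₂, h₂⟩).1 hc).cmp ((isComponentIn_iff hS).1 hC)

end Cfsg.Agent.S5162
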