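import Cfsg.Statements.S5195
import Cfsg.Agent.L0.FThm2

set_option autoImplicit false
open Cfsg

namespace Cfsg.Agent.S5195

open Subgroup Cfsg.Agent.H23 Cfsg.Agent.H23.LF


/-- A strengthened Frobenius normal p-complement criterion for fusion systems. Let F be a saturated fusion system over a finite p-group S such that p is odd or F is S₄-free (the symmetric group of degree 4 is not involved in any model of the normalizer system of a fully normalized F-centric subgroup). If Aut_F(Q) is a p-group for every nontrivial characteristic subgroup Q of S, then F is the inner fusion system of S. -/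
theorem result {Ω : Type*} [Group Ω] {S : Subgroup Ω} [Finite S] (p : ℕ) [Fact p.Prime] (hS : IsPGroup p S) (F : Cfsg.FusionSystem S) (hF : F.IsSaturated p) (hp : p ≠ 2 ∨ F.IsSectionFree p (Equiv.Perm (Fin 4))) (h : ∀ Q : Subgroup Ω, Q ≤ S → Q ≠ ⊥ → (Q.subgroupOf S).Characteristic → IsPGroup p (F.autGroup Q)) : ∀ P : Subgroup Ω, F.Hom P = (Cfsg.innerFusionSystem S).Hom P := by
  have hF' : Sat p F := ⟨hS, hF⟩
  exact hom_eq_inner_iff.2 (fs_char_pmod hF' ((free_iff hF').1 hp) fun Q a b c =>
    pmod_lift_iff.2 (h Q a b (char_of_stab_le a c)))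

end Cfsg.Agent.S5195
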