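import Cfsg.Statements.S5198
import Cfsg.Agent.H23.PIdx
-- import your own Cfsg.Agent.* helpers here

set_option autoImplicit false
open Cfsg

namespace Cfsg.Agent.S5198

/-- Let F be a saturated fusion system over a finite p-group S and T a subgroup of S strongly closed in F (so T is normal in S). Then every element x of the hyperfocal subgroup of F acts on T by conjugation as an element of O^p(Aut_F(T))·Inn(T): there is an automorphism of T in the subgroup generated by the elements of Aut_F(T) of order prime to p together with the inner automorphisms of T that agrees with conjugation by x. -/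
theorem result {Ω : Type*} [Group Ω] {S : Subgroup Ω} [Finite S] (p : ℕ) [Fact p.Prime] (hS : IsPGroup p S) (F : Cfsg.FusionSystem S) (hF : F.IsSaturated p) (T : Subgroup Ω) (hT : F.StronglyClosed T) : ∀ x ∈ F.hyperfocalSubgroup p, ∃ α ∈ ((Cfsg.pResidual p ↥(F.autGroup T)).map (F.autGroup T).subtype ⊔ Cfsg.Inn ↥T : Subgroup (MulAut ↥T)), ∀ t : ↥T, ((α t : ↥T) : Ω) = x * (t : Ω) * x⁻¹ := by
  open Cfsg.Agent.H23 Cfsg.FusionSystem Subgroup in
  intro x hx
  have h := (Sat.hyper_le_NK (⟨hS, hF⟩ : Sat p F) hT hx).2
  rw [autS_self_eq_lift_inn, AutF, ← lift_pResidual, ← lift_sup] at h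
  obtain ⟨α, h1, h2⟩ := mem_lift.1 h
  exact ⟨α, h1, fun t => (h2 t).symm⟩

end Cfsg.Agent.S5198
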