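import Cfsg.Statements.S5199
import Cfsg.Agent.H23.Fac
-- import your own Cfsg.Agent.* helpers here

set_option autoImplicit false
open Cfsg

namespace Cfsg.Agent.S5199

/-- Let F be a saturated fusion system over a finite p-group S, E a normal subsystem of F over T, and F₀ a normal subsystem of F over a subgroup U containing both T and the hyperfocal subgroup of F, such that F₀ has p-power index in F. Then E is a subsystem of F₀. -/
theorem result {Ω : Type*} [Group Ω] {S : Subgroup Ω} [Finite S] (p : ℕ) [Fact p.Prime] (hS : IsPGroup p S) (F : Cfsg.FusionSystem S) (hF : F.IsSaturated p) {T U : Subgroup Ω} (E : Cfsg.FusionSystem T) (hE : E.IsNormalIn F p) (F₀ : Cfsg.FusionSystem U) (hF₀ : F₀.IsNormalIn F p) (hU : T ⊔ F.hyperfocalSubgroup p ≤ U) (hidx : F₀.HasPPowerIndexIn F p) : E.IsSubsystemOf F₀ := by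
  open Cfsg.Agent.H23 Cfsg.FusionSystem Subgroup in
  have h := (isNormalIn_iff hS).1 hE
  have h0 := (hasPPowerIndexIn_iff.1 hidx).2.2
  have hT : T ≤ U := le_sup_left.trans hU
  have := h.finite
  have := finite_of_le (sub_le hidx.1)
  obtain ⟨D, hD⟩ := exists_restrict F₀ hT
  refine sub_trans (h.satE.sub_of_fn_step (E := D) fun P hP _ => ?_)
    (isSubsystemOf_iff.2 fun P σ hσ => ((hD P σ).1 hσ).2.2)
  have := finite_of_le hP.1
  rw [← (h.satE.rsyl_of_fn hP).Ores_sup (nfin_autF E P)]
  refine sup_le (fun σ hσ => ?_) (autS_le_autF D le_rfl hP.1)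
  have h1 := h0 P (hP.1.trans hT) (Ores_mono le_rfl (autF_mono h.sub) hσ)
  exact Mor.mem_autF ((hD P σ).2 ⟨hP.1, (autF_im h1).le.trans hP.1, autF_mor (hP.1.trans hT) h1⟩) (autF_im h1)

end Cfsg.Agent.S5199
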