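import Cfsg.Statements.S5206
import Cfsg.Agent.L0.FInv

set_option autoImplicit false
universe u
open Cfsg

namespace Cfsg.Agent.S5206

open Subgroup Cfsg.Agent.H23 Cfsg.Agent.H23.LF


/-- Let p be an odd prime, G a finite group and P a Sylow p-subgroup of G. Then the fusion system of G on P is Qd(p)-free (Qd(p), the natural semidirect product of an elementary abelian group of order p² by SL₂(p), is not involved in any model of the normalizer system of a fully normalized centric subgroup) if and only if Qd(p) is not involved in G. -/
theorem result {G : Type u} [Group G] [Finite G] {p : ℕ} [Fact p.Prime] (hp : p ≠ 2) (P : Sylow p G) : (Cfsg.groupFusionSystem (P : Subgroup G)).IsSectionFree p ↥(Cfsg.qd p) ↔ ¬ Cfsg.Involves ↥(Cfsg.qd p) G := by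
  rw [sectionFree_iff (sat_group P) good_qd]
  exact not_congr ⟨(real_group _).involves P.2 good_qd,
    (real_group _).finv (by rw [im_id]; exact rsyl_sylow P) good_qd⟩

end Cfsg.Agent.S5206
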