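import Cfsg.Statements.S5212
import Cfsg.Agent.L0.FSup

set_option autoImplicit false
open Cfsg

namespace Cfsg.Agent.S5212

open Subgroup Cfsg.Agent.H23 Cfsg.Agent.H23.LF


/-- Let S be a finite metacyclic 2-group that is not homocyclic abelian (a direct product of cyclic groups of one common order), not dihedral, not semidihedral and not generalized quaternion. Then every saturated fusion system over S is the inner fusion system of S. -/
theorem result {Ω : Type*} [Group Ω] {S : Subgroup Ω} [Finite S] (hS : IsPGroup 2 S) (F : Cfsg.FusionSystem S) (hF : F.IsSaturated 2) (hm : Cfsg.IsMetacyclic ↥S) (hh : ¬ ∃ n k : ℕ, Nonempty (↥S ≃* Multiplicative (Fin k → ZMod (2 ^ n)))) (hd : ¬ ∃ m : ℕ, Nonempty (↥S ≃* DihedralGroup m)) (hq : ¬ ∃ m : ℕ, Nonempty (↥S ≃* QuaternionGroup m)) (hsd : ¬ Cfsg.IsQuasiDihedral ↥S) : ∀ P : Subgroup Ω, F.Hom P = (Cfsg.innerFusionSystem S).Hom P := by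
  have h1 : F.IsNormal S := Sat.normal_meta_two ⟨hS, hF⟩ sc_top hm fun n e f X Y ⟨h1, h2⟩ => by
    rcases H26.MC_trichotomy h1 h2 with ⟨k, h⟩ | ⟨k, a, x, y, h⟩ | ⟨k, h⟩
    · exact hd ⟨_, h⟩
    · exact hsd ⟨k + 3, by omega, a, x, y, h⟩
    · exact hq ⟨_, h⟩
  rcases L0.autT_meta hS hm with h | h | ⟨n, -, ⟨e⟩⟩
  · rw [← Sat.inner_of_aut ⟨hS, hF⟩ h1 h.isPGroup]
    exact fun _ => rfl
  · exact absurd ⟨_, h.2⟩ hq
  · exact absurd ⟨n, 2, ⟨e.trans ((MulEquiv.prodMultiplicative _ _).symm.trans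
      (AddEquiv.toMultiplicative (RingEquiv.piFinTwo fun _ => ZMod (2 ^ n)).toAddEquiv.symm))⟩⟩ hh

end Cfsg.Agent.S5212
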