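import Cfsg.Statements.S5214
import Cfsg.Agent.L0.FOl
import Cfsg.Agent.S1137
import Cfsg.Agent.S1138

set_option autoImplicit false
open Cfsg

namespace Cfsg.Agent.S5214

open Subgroup Cfsg.FusionSystem Cfsg.Agent.H23 Cfsg.Agent.H23.LF


/-- Let S be a Suzuki 2-group (a finite nonabelian 2-group with more than one involution admitting a cyclic group of automorphisms permuting its involutions regularly). Then S is normal in every saturated fusion system over S (such a group is resistant). -/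
theorem result {Ω : Type*} [Group Ω] {S : Subgroup Ω} [Finite S] (hS : IsPGroup 2 S) (F : Cfsg.FusionSystem S) (hF : F.IsSaturated 2) (hsz : Cfsg.IsSuzukiTwoGroup ↥S) : F.IsNormal S := by
  have hF' : Sat 2 F := ⟨hS, hF⟩
  obtain ⟨a1, a2⟩ := S1137.result hsz
  have a3 := (S1138.result hsz).2.1
  have hZ : ∀ x (hx : x ∈ S), x ∈ centralizerIn S S ↔ (⟨x, hx⟩ : S) ∈ center S := fun x hx =>
    ⟨fun h => mem_center_iff.2 fun g => Subtype.ext (mem_centralizer_iff.1 h.2 g g.2),
      fun h => ⟨hx, mem_centralizer_iff.2 fun g hg => congrArg Subtype.val (mem_center_iff.1 h ⟨g, hg⟩)⟩⟩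
  have hZ' : ∀ x ∈ S, x ∈ centralizerIn S S ↔ x * x = 1 := fun x hx => by
    rw [hZ x hx]
    refine ⟨fun h => congrArg Subtype.val (a2 _ h), fun h => ?_⟩
    by_cases h1 : (⟨x, hx⟩ : S) = 1
    · rw [h1]; exact one_mem _
    · exact ((a1 _).1 ⟨h1, Subtype.ext h⟩).1
  refine hF'.normal_top_of_no_essential fun E hE => (Sat.ess_lt hF' hE).not_ge ?_
  have hES := (hF'.essential_lt hE).le
  refine Sat.ess_chain2 hF' hE le_rfl (Z_le_ess hE) (fun σ hσ => ?_) (commutator_le.2 fun x hx y hy => ?_) ?_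
  · have k := autF_mor hES hσ
    refine autF_le_stab F _ ((k.mono (Z_le_ess hE)).mem_autF' fun x hx => (hZ' _ (k.mem (Z_le_ess hE hx))).2 ?_)
    rw [← k.homOn.map_mul (Z_le_ess hE hx) (Z_le_ess hE hx), (hZ' _ hx.1).1 hx, k.homOn.map_one]
  · have := a3 ⟨x, hES hx⟩⁻¹ ⟨y, hy.1⟩⁻¹
    refine (hZ _ (H24.commutator_le_of_le le_rfl le_rfl (commutator_mem_commutator (hES hx) hy.1))).2 ?_
    rw [inv_inv, inv_inv] at this
    exact this
  · exact (commutator_eq_bot_iff_le_centralizer.2 (inf_le_right.trans (centralizer_le nIn_le))).le.trans bot_le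

end Cfsg.Agent.S5214
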