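import Cfsg.Statements.S5220
import Cfsg.Agent.L0.FGen

set_option autoImplicit false
open Cfsg

namespace Cfsg.Agent.S5220

open Subgroup Cfsg.Agent.H23 Cfsg.Agent.H23.LF


/-- Let F be a saturated fusion system over a nontrivial finite p-group S, let J(S) be the subgroup generated by the abelian subgroups of S of largest order, and let V be the subgroup generated by the p-th powers of the elements of Z(S). Then F is generated by the centralizer fusion system of V and the normalizer fusion system of J(S): every fusion system over S containing the maps of both contains every map of F. -/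
theorem result {Ω : Type*} [Group Ω] {S : Subgroup Ω} [Finite S] (p : ℕ) [Fact p.Prime] (hS : IsPGroup p S) (F : Cfsg.FusionSystem S) (hF : F.IsSaturated p) (hS1 : S ≠ ⊥) (C : Cfsg.FusionSystem (Cfsg.FusionSystem.centralizerIn S (Cfsg.powerClosure p 1 (S ⊓ Subgroup.centralizer (S : Set Ω))))) (hC : F.IsCentralizerSystem (Cfsg.powerClosure p 1 (S ⊓ Subgroup.centralizer (S : Set Ω))) C) (N : Cfsg.FusionSystem (Cfsg.FusionSystem.normalizerIn S (Cfsg.thompsonSubgroupAOf S))) (hN : F.IsNormalizerSystem (Cfsg.thompsonSubgroupAOf S) N) (E : Cfsg.FusionSystem S) (hCE : C.IsSubsystemOf E) (hNE : N.IsSubsystemOf E) : F.IsSubsystemOf E := by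
  have h1 := isCentralizerSystem_iff.mp hC
  have h2 := (loc_iff (isNormalizerSystem_iff.mp hN)).mpr hNE
  rw [H9.thompsonSubgroupAOf_eq] at h2
  refine fs_mho_j ⟨hS, hF⟩ ((kloc_iff h1 ((autS_le_iff le_rfl).mpr fun g hg _ => cj_mem_fix.mpr ?_)).mpr hCE) h2
  exact le_centralizer_iff.mp ((L0.powerClosure_le _ _).trans inf_le_right) hg

end Cfsg.Agent.S5220
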