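import Cfsg.Statements.S5222
import Cfsg.Agent.L0.FTate

set_option autoImplicit false
open Cfsg

namespace Cfsg.Agent.S5222

open Subgroup Cfsg.Agent.H23 Cfsg.Agent.H23.LF


/-- Let F be a saturated fusion system over a finite p-group S whose normalizer fusion system of S is the inner fusion system of S (Aut_F(S) is a p-group). Then for every subgroup Q of S with [S, S] ≤ Q ≤ Φ(S), the normalizer fusion system of Q in F is the inner fusion system of N_S(Q) = S. -/
theorem result {Ω : Type*} [Group Ω] {S : Subgroup Ω} [Finite S] (p : ℕ) [Fact p.Prime] (hS : IsPGroup p S) (F : Cfsg.FusionSystem S) (hF : F.IsSaturated p) (hN : ∀ N : Cfsg.FusionSystem (Cfsg.FusionSystem.normalizerIn S S), F.IsNormalizerSystem S N → ∀ P : Subgroup Ω, N.Hom P = (Cfsg.innerFusionSystem (Cfsg.FusionSystem.normalizerIn S S)).Hom P) (Q : Subgroup Ω) (h1 : (commutator ↥S).map S.subtype ≤ Q) (h2 : Q ≤ (frattini ↥S).map S.subtype) : ∀ N : Cfsg.FusionSystem (Cfsg.FusionSystem.normalizerIn S Q), F.IsNormalizerSystem Q N →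 ∀ P : Subgroup Ω, N.Hom P = (Cfsg.innerFusionSystem (Cfsg.FusionSystem.normalizerIn S Q)).Hom P := by
  have hF' : Sat p F := ⟨hS, hF⟩
  rw [map_subtype_commutator] at h1
  have hQ : Q ≤ S := h2.trans (map_subtype_le _)
  have hn : S ≤ normalizer (Q : Set Ω) := fun g hg => mem_normalizer_of_conj
    (fun x hx => by simpa [commutatorElement_def] using mul_mem (h1 (commutator_mem_commutator hg (hQ hx))) hx)
    fun x hx => by simpa [commutatorElement_def] using mul_mem (h1 (commutator_mem_commutator (inv_mem hg) (hQ hx))) hx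
  rw [norm_inner_iff le_rfl le_normalizer] at hN
  rw [norm_inner_iff hQ hn]
  obtain ⟨E, hE⟩ := exists_isKN F hQ fix_le_stab le_rfl (T := S) (by rw [NK_stab, nIn_eq_of_le hn])
  have hE' := hE.sat hF' (fkn_stab_iff.mpr (fn_of_le_normalizer hQ hn))
  refine (loc_iff hE).mpr (Sat.sub_inner_of_focal_le hE' ((Sat.focal_le_of_sc hE' (normal_sc (hE.isNormal hQ)) h1 le_rfl
    fun α hα x hx => h1 ?_).trans h2))
  have hα' := autF_mono hE.sub hα
  obtain ⟨-, g, hg, e⟩ := mor_inner_iff.mp (Loc.kext hN le_rfl (le_nIn le_rfl) le_rfl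
      (kext_of_mem (by rw [sup_idem]; exact autF_mor le_rfl hα') (autF_le_stab _ _ hα')))
  have := commutator_mem_commutator (inv_mem hx) hg
  rwa [commutatorElement_def, inv_inv, mul_assoc, mul_assoc, ← mul_assoc g, ← e x hx] at this

end Cfsg.Agent.S5222
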