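import Cfsg.Statements.S5223
import Cfsg.Agent.H23.Normal
-- import your own Cfsg.Agent.* helpers here

set_option autoImplicit false
open Cfsg

namespace Cfsg.Agent.S5223

/-- Let F be a saturated fusion system over a finite p-group S. Suppose there are subgroups Q₀ = S, Q₁, …, Qₙ = 1 (not required to be nested) such that for each i < n the focal subgroup of Qᵢ (generated by the elements x⁻¹φ(x), x ∈ Qᵢ, φ a map of F defined on the cyclic group generated by x) lies in Qᵢ₊₁. Then F is the inner fusion system of S. -/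
theorem result {Ω : Type*} [Group Ω] {S : Subgroup Ω} [Finite S] (p : ℕ) [Fact p.Prime] (hS : IsPGroup p S) (F : Cfsg.FusionSystem S) (hF : F.IsSaturated p) (n : ℕ) (Q : Fin (n + 1) → Subgroup Ω) (hQ0 : Q 0 = S) (hQn : Q (Fin.last n) = ⊥) (hstep : ∀ i : Fin n, Subgroup.closure {y : Ω | ∃ x ∈ Q i.castSucc, ∃ φ ∈ F.Hom (Subgroup.zpowers x), y = x⁻¹ * φ ⟨x, Subgroup.mem_zpowers x⟩} ≤ Q i.succ) : ∀ P : Subgroup Ω, F.Hom P = (Cfsg.innerFusionSystem S).Hom P := by
  open Cfsg.Agent.H23 Cfsg.FusionSystem Subgroup in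
  have hF' : Sat p F := ⟨hS, hF⟩
  have h1 : ∀ (P : Subgroup Ω) (σ : Equiv.Perm Ω), Mor F P σ → ∀ i < n, ∀ x ∈ P, x ∈ finExt Q i →
      x⁻¹ * σ x ∈ finExt Q (i + 1) := fun P σ hσ i hi x hx hx' => by
    rw [finExt_succ Q hi]
    rw [finExt_castSucc Q hi] at hx'
    obtain ⟨φ, hφ, e⟩ := hσ.mono (zpowers_le.2 hx)
    exact hstep _ (subset_closure ⟨x, hx', φ, hφ, by rw [e]⟩)
  rw [hF'.eq_inner_of_pmod fun P hP _ _ σ hσ => ?_]
  · exact fun _ => rfl
  have := finite_of_le hP.1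
  let C : ℕ → Subgroup Ω := fun i => P ⊓ ⨅ j ≤ i, finExt Q j
  have hC : ∀ i < n, ∀ x ∈ C i, x⁻¹ * σ x ∈ C (i + 1) := fun i hi x hx => by
    refine ⟨P.mul_mem (P.inv_mem hx.1) (autF_mem hσ hx.1), mem_iInf.2 fun j => mem_iInf.2 fun hj => ?_⟩
    rcases j with _ | j
    · rw [finExt_zero, hQ0]
      exact hP.1 (P.mul_mem (P.inv_mem hx.1) (autF_mem hσ hx.1))
    · exact h1 P σ (autF_mor hP.1 hσ) j (by omega) x hx.1 (mem_iInf.1 (mem_iInf.1 hx.2 j) (by omega))
  have hm : ∀ i, C (i + 1) ≤ C i := fun i => inf_le_inf_left _ (le_iInf₂ fun j hj =>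
    iInf₂_le j (by omega))
  have key : ∀ k ≤ n, ∃ m : ℕ, σ ^ p ^ m ∈ H23.Fix (C (n - k)) := fun k => by
    induction k with
    | zero =>
      refine fun _ => ⟨0, mem_fix.2 fun x hx => ?_⟩
      have : x ∈ finExt Q n := mem_iInf.1 (mem_iInf.1 hx.2 n) le_rfl
      rw [finExt_last, hQn, mem_bot] at this
      rw [this, pow_zero, pow_one, (autF_homOn hσ).map_one]
    | succ k ih =>
      intro hk
      have := finite_of_le (inf_le_left : C (n - (k + 1)) ≤ P)
      have h2 := ih (by omega)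
      rw [show n - k = n - (k + 1) + 1 by omega] at h2
      refine exists_pow_fix_step (hS.to_le (inf_le_left.trans hP.1)) (hm _) ⟨mem_stab_of_mem
        ((autF_homOn hσ).mono inf_le_left) fun x hx => ?_, hC _ (by omega)⟩ h2
      simpa using mul_mem hx (hm _ (hC _ (by omega) x hx))
  obtain ⟨m, hm'⟩ := key n le_rfl
  refine ⟨m, fix_anti (le_inf le_rfl (le_iInf₂ fun j hj => ?_)) hm'⟩
  rw [show j = 0 by omega, finExt_zero, hQ0]
  exact hP.1

end Cfsg.Agent.S5223
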