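import Cfsg.Statements.S5226
import Cfsg.Agent.H23.Normal
-- import your own Cfsg.Agent.* helpers here

set_option autoImplicit false
open Cfsg

namespace Cfsg.Agent.S5226

/-- Let F be a saturated fusion system over a finite p-group S and Q a subgroup of S. Then Q is normal in F (F equals the normalizer system of Q) if and only if Q is strongly closed in F and admits a central series 1 = Q₀ ≤ Q₁ ≤ ⋯ ≤ Qₙ = Q ([Qᵢ₊₁, Q] ≤ Qᵢ) all of whose proper terms are weakly closed in F. -/
theorem result {Ω : Type*} [Group Ω] {S : Subgroup Ω} [Finite S] (p : ℕ) [Fact p.Prime] (hS : IsPGroup p S) (F : Cfsg.FusionSystem S) (hF : F.IsSaturated p) (Q : Subgroup Ω) : F.IsNormal Q ↔ F.StronglyClosed Q ∧ ∃ (n : ℕ) (C : Fin (n + 1) → Subgroup Ω), C 0 = ⊥ ∧ C (Fin.last n) = Q ∧ Monotone C ∧ (∀ i : Fin n, ⁅C i.succ, Q⁆ ≤ C i.castSucc) ∧ ∀ i : Fin n, F.WeaklyClosed (C i.castSucc) := by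
  open Cfsg.Agent.H23 Cfsg.FusionSystem Subgroup in
  have hF' : Sat p F := ⟨hS, hF⟩
  constructor
  · intro h
    have := finite_of_le h.1
    obtain ⟨n, hn⟩ := exists_ucs_eq (hS.to_le h.1)
    exact ⟨normal_sc h, n, fun i => ucs Q i, ucs_zero, hn, fun i j hij => ucs_mono hij,
      fun i => commutator_ucs_le _, fun i => sc_weaklyClosed (normal_sc (normal_ucs h _))⟩
  · rintro ⟨hQ, n, C, h0, hn, hm, h, hw⟩
    refine hF'.normal_of_wc_chain hQ n (finExt C) ((finExt_zero C).trans h0)
      ((finExt_last C).trans hn) (fun i _ => finExt_mono hm i.le_succ)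
      (fun i _ => hn ▸ hm (Fin.le_last _)) (fun i hi => ?_) fun i hi => ?_
    · rw [finExt_succ C hi, finExt_castSucc C hi]
      exact h _
    · rw [finExt_castSucc C hi]
      exact hw _

end Cfsg.Agent.S5226
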