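import Cfsg.Statements.S5233
import Cfsg.Agent.L0.FEss2

set_option autoImplicit false
open Cfsg

namespace Cfsg.Agent.S5233

open Subgroup Cfsg.Agent.H23 Cfsg.Agent.H23.LF


/-- Let F be a saturated fusion system over a finite p-group S and P a subgroup of S strongly closed in F that is generalized extraspecial (its Frattini subgroup equals its commutator subgroup and has order p) and not isomorphic to E × A with A elementary abelian and E dihedral of order 8 (p = 2) or extraspecial of order p³ and exponent p (p odd). Then P is normal in F. -/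
theorem result {Ω : Type*} [Group Ω] {S : Subgroup Ω} [Finite S] (p : ℕ) [Fact p.Prime] (hS : IsPGroup p S) (F : Cfsg.FusionSystem S) (hF : F.IsSaturated p) (P : Subgroup Ω) (hP : F.StronglyClosed P) (hge : frattini ↥P = commutator ↥P ∧ Nat.card ↥(commutator ↥P) = p) (h2 : p = 2 → ¬ ∃ (A : Type) (_ : CommGroup A), (∀ a : A, a ^ 2 = 1) ∧ Nonempty (↥P ≃* DihedralGroup 4 × A)) (hodd : p ≠ 2 → ¬ ∃ (E : Type) (_ : Group E) (A : Type) (_ : CommGroup A), Cfsg.IsExtraspecial p E ∧ Nat.card E = p ^ 3 ∧ Monoid.exponent E = p ∧ (∀ a : A, a ^ p = 1) ∧ Nonempty (↥P ≃* E × A)) : F.IsNormal P := by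
  by_contra hn
  haveI := finite_of_le hP.1
  have pP := hS.to_le hP.1
  obtain ⟨Y, a, a1, a2, a3, a4⟩ := Sat.ge ⟨hS, hF⟩ hP hge.1 hge.2 hn
  obtain ⟨M, A, b1, ⟨w, b2, b3, b4, b5⟩, b6, ⟨e⟩⟩ := L0.ge_split pP a1 a2 a3 hge.2 a4
  have b7 : ¬ IsMulCommutative M := fun h => b5 (H3.isMulCommutative_iff_mem.1 h a b3 w b2)
  obtain ⟨B, _, _, ⟨f⟩⟩ := L0.exists_small A
  letI : CommGroup B := { mul_comm := fun x y => f.symm.injective (by
    rw [map_mul, map_mul]; exact b6.1.is_comm.comm _ _) }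
  have b8 : ∀ x : B, x ^ p = 1 := fun x => f.symm.injective (by
    rw [map_pow, map_one]; exact Subtype.ext (b6.2 _ (f.symm x).2))
  by_cases hp : p = 2
  · subst hp
    rcases L0.eight_cases b1 b7 with ⟨⟨q⟩⟩ | ⟨X, Y, h⟩
    · have k : ∀ x y : QuaternionGroup 2, x ^ 2 = 1 → x * y = y * x := by decide
      suffices h : (⟨a, b3⟩ * ⟨w, b2⟩ : M) = ⟨w, b2⟩ * ⟨a, b3⟩ from b5 (congrArg Subtype.val h)
      refine q.injective ?_
      rw [map_mul, map_mul]
      exact k _ _ (by rw [← map_pow, ← map_one q]; exact congrArg q (Subtype.ext a2))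
    · obtain ⟨d⟩ := H26.MC_dihedral_equiv h
      exact h2 rfl ⟨B, inferInstance, b8, ⟨e.trans (d.prodCongr f)⟩⟩
  · obtain ⟨U, -, u1, -⟩ := L0.exists_omega pP (hge.1 ▸ hge.2) (.inl hp)
    have u2 : ∀ x : P, x ^ p = 1 := fun x => (u1 x).1 ((sup_le (fun y hy => (u1 y).2 (a1.2 y hy))
      (zpowers_le.2 ((u1 a).2 a2)) : Y ⊔ zpowers a ≤ U) (a3 ▸ mem_top x))
    obtain ⟨E, _, _, ⟨d⟩⟩ := L0.exists_small M
    have c := H26.isExtraspecial_congr (H26.isExtraspecial_of_card_cube b1 b7) d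
    have c1 : Nat.card E = p ^ 3 := by rw [← Nat.card_congr d.toEquiv, b1]
    haveI : Nontrivial E := Finite.one_lt_card_iff_nontrivial.1
      (c1 ▸ Nat.one_lt_pow (by norm_num) (Fact.out : p.Prime).one_lt)
    refine hodd hp ⟨E, inferInstance, B, inferInstance, c, c1, (Monoid.exponent_eq_prime_iff Fact.out).2 fun g hg =>
      orderOf_eq_prime (d.symm.injective ?_) hg, b8, ⟨e.trans (d.prodCongr f)⟩⟩
    rw [map_pow, map_one]; exact Subtype.ext (u2 _)

end Cfsg.Agent.S5233
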