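import Cfsg.Statements.S5236
import Cfsg.Agent.L0.FMis

set_option autoImplicit false
open Cfsg

namespace Cfsg.Agent.S5236

open Subgroup Cfsg.Agent.H23 Cfsg.Agent.H23.LF


/-- Let p be an odd prime, F a saturated fusion system over a finite p-group S and P a subgroup of S strongly closed in F. Then P is normal in F if and only if Ω₁(P) (the subgroup generated by the elements of order p of P) has a chain of subgroups 1 = Q₀ ≤ Q₁ ≤ ⋯ ≤ Qₙ = Ω₁(P), each strongly closed in F, with [Qᵢ₊₁, P] ≤ Qᵢ for all i. -/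
theorem result {Ω : Type*} [Group Ω] {S : Subgroup Ω} [Finite S] (p : ℕ) [Fact p.Prime] (hS : IsPGroup p S) (F : Cfsg.FusionSystem S) (hF : F.IsSaturated p) (hp : p ≠ 2) (P : Subgroup Ω) (hP : F.StronglyClosed P) : F.IsNormal P ↔ ∃ (n : ℕ) (Q : Fin (n + 1) → Subgroup Ω), Q 0 = ⊥ ∧ Q (Fin.last n) = Cfsg.omegaOne p P ∧ Monotone Q ∧ (∀ i : Fin (n + 1), F.StronglyClosed (Q i)) ∧ ∀ i : Fin n, ⁅Q i.succ, P⁆ ≤ Q i.castSucc := by
  have hF' : Sat p F := ⟨hS, hF⟩
  have := finite_of_le hP.1
  constructor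
  · intro h
    obtain ⟨n, hn⟩ := exists_ucs_eq (isPGroup_of_le hS hP.1)
    have h1 : Stab P ≤ Stab (omegaOne p P) := fun σ hσ =>
      have := finite_of_le (H9.omegaOne_le p P)
      mem_stab_of_mem ((stab_homOn hσ).mono (H9.omegaOne_le p P)) (HomOn.mem_of_closure
        ((stab_homOn hσ).mono (H9.omegaOne_le p P)) fun x hx => subset_closure ⟨stab_mem hσ hx.1, by
          rw [← (stab_homOn hσ).map_pow hx.1, hx.2, (stab_homOn hσ).map_one]⟩)
    refine ⟨n, fun i => omegaOne p P ⊓ ucs P i, by simp [ucs_zero], by simp [hn, H9.omegaOne_le],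
      fun i j hij => inf_le_inf_left _ (ucs_mono hij), fun i => sc_inf (normal_sc (normal_of_stab h (H9.omegaOne_le p P)
        ((autF_le_stab _ _).trans h1))) (normal_sc (normal_ucs h i)), fun i => le_inf ?_ ?_⟩
    · exact (commutator_mono inf_le_left le_rfl).trans (H24.commutator_le_left_of_le_normalizer
        (le_normalizer.trans (H9.normalizer_le_normalizer_omegaOne p P)))
    · exact (commutator_mono inf_le_right le_rfl).trans (commutator_ucs_le i)
  · rintro ⟨n, Q, h0, h1, h2, h3, h4⟩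
    refine Sat.normal_of_small_chain hF' hP (finExt Q) n (by rw [finExt_zero, h0]) (fun x h5 h6 => ?_)
      (fun i _ => finExt_mono h2 i.le_succ) (fun i _ => h3 _) fun i hi => ?_
    · rw [finExt_last, h1]
      exact subset_closure ⟨h5, by simpa [sm, hp] using h6⟩
    · rw [finExt_succ Q hi, finExt_castSucc Q hi]
      exact h4 _

end Cfsg.Agent.S5236
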