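import Cfsg.Statements.S5243
import Cfsg.Agent.H23.Loc3
-- import your own Cfsg.Agent.* helpers here

set_option autoImplicit false
open Cfsg

namespace Cfsg.Agent.S5243

/-- Let F be a saturated fusion system over a finite p-group S, E a normal subsystem of F over T ≤ S, and χ a surjective homomorphism from Aut_F(T) onto a nontrivial finite group Δ of order prime to p whose kernel contains Aut_E(T). Then there is a proper normal subsystem F₀ of F over S containing E such that Aut_{F₀}(S) consists of those α ∈ Aut_F(S) whose restriction to T is an element of Aut_F(T) in the kernel of χ; moreover every p'-residual subsystem O^{p'}(F) of F is contained in F₀. -/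
theorem result {Ω : Type*} [Group Ω] {S : Subgroup Ω} [Finite S] (p : ℕ) [Fact p.Prime] (hS : IsPGroup p S) (F : Cfsg.FusionSystem S) (hF : F.IsSaturated p) {T : Subgroup Ω} (hTS : T ≤ S) (E : Cfsg.FusionSystem T) (hE : E.IsNormalIn F p) {Δ : Type*} [Group Δ] [Finite Δ] [Nontrivial Δ] (hΔ : (Nat.card Δ).Coprime p) (χ : ↥(F.autGroup T) →* Δ) (hχ : Function.Surjective χ) (hker : (E.autGroup T).subgroupOf (F.autGroup T) ≤ χ.ker) : ∃ F₀ : Cfsg.FusionSystem S, F₀.IsNormalIn F p ∧ ¬ (∀ P : Subgroup Ω, F₀.Hom P = F.Hom P) ∧ E.IsSubsystemOf F₀ ∧ (∀ α : MulAut ↥S, α ∈ F₀.autGroup S ↔ α ∈ F.autGroup S ∧ ∃ β : ↥(F.autGroup T), χ β = 1 ∧ ∀ t : ↥T, (((β : MulAut ↥T) t : ↥T) : Ω) = ((α ⟨(t : Ω), hTS t.2⟩ : ↥S) : Ω)) ∧ ∀ R : Cfsg.FusionSystem S, F.IsPPrimeResidual p R → R.IsSubsystemOf F₀ := by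
  open Cfsg.Agent.H23 Cfsg.FusionSystem Subgroup in
  have h := (isNormalIn_iff hS).1 hE
  have := h.finite
  let A := (liftPres (F.autGroup T)).up χ.ker
  have a2 : A ≤ AutF F T := Pres.up_le _ _
  have a4 : AutF F T ≤ normalizer (A : Set (Equiv.Perm Ω)) := (Pres.normal_iff _).1 inferInstance
  have a1 : AutF E T ≤ A := by
    have := ((liftPres (F.autGroup T)).up_le_up_iff).2 hker
    rwa [liftPres_up_subgroupOf (autGroup_le_iff.2 (autF_mono h.sub))] at this
  have a5 : A.relIndex (AutF F T) = Nat.card Δ := by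
    rw [show A.relIndex (AutF F T) = χ.ker.index from Pres.relIndex_up_top _ _, index_ker,
      MonoidHom.range_eq_top.2 hχ, card_top]
  have a3 : Ores' p (Fix T) (AutF F T) ≤ A := Ores'_le_of_not_dvd (nfin_autF F T) (Pres.le_up _ _) a2 a4
    (a5 ▸ (Nat.Prime.coprime_iff_not_dvd Fact.out).1 hΔ.symm)
  obtain ⟨G, g1, g2, g3, g4, g5⟩ := h.exists_pp_A a1 a3 a2
  have a0 : AutF F S ≤ AutF F T := autF_le_autF h.leS le_rfl (autF_le_stab_of_wc h.leS le_rfl (sc_weaklyClosed h.sc))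
  refine ⟨G, (isNormalIn_iff hS).2 (g2.nrm_of_norm h.satF g1 (g3 ▸ le_normalizer_inf' le_normalizer (a0.trans a4))),
    fun e => ?_, g4, fun α => ?_, fun R r => ((ppr_iff hS).1 r).least G g1 g2⟩
  · rw [fs_ext e] at g5
    rw [← g5, relIndex_self] at a5
    exact absurd a5.symm (Finite.one_lt_card (α := Δ)).ne'
  · obtain ⟨σ, e⟩ := exists_perm_of_mulAut α
    rw [← mem_lift_iff_of_eq e, ← mem_lift_iff_of_eq e]
    change σ ∈ AutF G S ↔ σ ∈ AutF F S ∧ _
    rw [g3, mem_inf]
    refine and_congr_right fun c => ?_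
    have c' := a0 c
    rw [show σ ∈ A ↔ _ from Pres.coe_mem_up (liftPres (F.autGroup T)) (k := ⟨σ, c'⟩)]
    constructor
    · exact fun d => ⟨_, d, fun t => (liftPres_apply _ t).trans (e ⟨t, hTS t.2⟩)⟩
    · rintro ⟨β, b1, b2⟩
      have : (liftPres (F.autGroup T)).π ⟨σ, c'⟩ = β := Subtype.ext (MulEquiv.ext fun t => Subtype.ext
        (((liftPres_apply _ t).trans (e ⟨t, hTS t.2⟩)).trans (b2 t).symm))
      rw [this]
      exact b1

end Cfsg.Agent.S5243
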