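import Cfsg.Statements.S5244
import Cfsg.Agent.L0.FOl

set_option autoImplicit false
open Cfsg

namespace Cfsg.Agent.S5244

open Subgroup hiding upperCentralSeries
open Cfsg.FusionSystem Cfsg.Agent.H23 Cfsg.Agent.H23.LF
open scoped commutatorElement


/-- Let p be an odd prime, S a finite nonabelian p-group with a unique abelian subgroup A of index p, and F a saturated fusion system over S with no nontrivial normal subgroup (O_p(F) = 1) in which A is not F-essential. Then some subgroup Z(S)⟨x⟩ with x ∈ S outside A is F-essential, the centre Z(S) is contained in the commutator subgroup of S, and S has maximal nilpotency class (if S has order pⁿ with n ≥ 3, the term of index n − 2 of its lower central series, counting S itself as the term of index 0, is nontrivial). -/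
theorem result {Ω : Type*} [Group Ω] {S : Subgroup Ω} [Finite S] (p : ℕ) [Fact p.Prime] (hS : IsPGroup p S) (F : Cfsg.FusionSystem S) (hF : F.IsSaturated p) (hp : p ≠ 2) (hna : ¬ IsMulCommutative ↥S) (A : Subgroup Ω) (hA : A ≤ S ∧ IsMulCommutative ↥A ∧ (A.subgroupOf S).index = p) (huniq : ∀ B : Subgroup Ω, B ≤ S → IsMulCommutative ↥B → (B.subgroupOf S).index = p → B = A) (hcore : F.core = ⊥) (hAe : ¬ F.IsEssential p A) : (∃ x ∈ S, x ∉ A ∧ F.IsEssential p ((S ⊓ Subgroup.centralizer (S : Set Ω)) ⊔ Subgroup.zpowers x)) ∧ (S ⊓ Subgroup.centralizer (S : Set Ω)) ≤ (commutator ↥S).map S.subtype ∧ ∀ n : ℕ, Nat.card S = p ^ n → 3 ≤ n → Subgroup.lowerCentralSeries S (n - 2) ≠ ⊥ := by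
  have h : AI p S A := ⟨hS, hA.1, le_cent_iff.2 hA.2.1, hA.2.2, fun e => hna (le_cent_iff.1 e)⟩
  have hF' : Sat p F := ⟨hS, hF⟩
  have hp' : p.Prime := Fact.out
  have key : ∀ E, F.IsEssential p E → AutF F E ≤ Stab (centralizerIn S S) ∨ ((E ≤ centralizer (E : Set Ω) ∧
      Nat.card E ≤ p * Nat.card (centralizerIn S S)) ∧ ∃ x ∈ E, x ∉ A ∧ E = centralizerIn S S ⊔ zpowers x) := fun E hE => by
    obtain ⟨x, hx, hx'⟩ := h.ess_out hE fun e => hAe (e ▸ hE)
    by_cases ha : E ≤ centralizer (E : Set Ω)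
    · obtain ⟨h1, -, -, h2, -⟩ := h.ess_ab hF' hE hx hx' ha
      exact .inr ⟨⟨ha, h2.le⟩, x, hx, hx', h1 ▸ (h.split hE.1.1 hx hx').1.symm⟩
    · exact .inl (h.cIn_eq hE.1.1 (Z_le_ess hE) hx hx' ha ▸ (autF_le_stab _ _).trans stab_le_stab_cIn)
  obtain ⟨E, hE, h1⟩ : ∃ E, F.IsEssential p E ∧ ¬ AutF F E ≤ Stab (centralizerIn S S) := by
    by_contra! c
    refine cIn_self_ne_bot hS (fun e => h.na (e.le.trans bot_le)) (le_bot_iff.1 ((le_core
      (hF'.normal_of_essential fun P hP => ?_)).trans hcore.le))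
    rcases hP with rfl | hP
    exacts [⟨cIn_le, (autF_le_stab _ _).trans stab_le_stab_cIn⟩, ⟨Z_le_ess hP, c P hP⟩]
  obtain ⟨-, x, hx, hx', e⟩ := (key E hE).resolve_left h1
  obtain ⟨h2, h3, -⟩ := h.ess_cases (fun B a b c => huniq B a (le_cent_iff.1 b) c) hF' hE fun e => hAe (e ▸ hE)
  have h4 := h.card_Z_D h2
  haveI := finite_of_le (cIn_le : centralizerIn S S ≤ S)
  rw [h3, mul_comm, Nat.mul_right_inj Nat.card_pos.ne'] at h4
  have h5 := Sat.Z_le_of_core hF' hp h4.ge hcore fun E hE => (key E hE).imp_right And.left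
  refine ⟨⟨x, hE.1.1 hx, hx', (e ▸ hE : F.IsEssential p (centralizerIn S S ⊔ zpowers x))⟩, by rwa [map_subtype_commutator],
    fun n hn h6 h7 => ?_⟩
  obtain ⟨k, rfl⟩ := Nat.exists_eq_add_of_le' h6
  have a := h.card_lcs h4.ge k
  rw [inf_eq_left.2 h5] at h4
  rw [h.card, h.card_A, ← h4, pow_succ', pow_succ', Nat.mul_right_inj hp'.ne_zero, Nat.mul_right_inj hp'.ne_zero] at hn
  rw [hn, show S.lowerCentralSeries (k + 1) = ⊥ from h7, card_bot, mul_one, Nat.pow_le_pow_iff_right hp'.one_lt] at a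
  omega

end Cfsg.Agent.S5244
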