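import Cfsg.Statements.S5245
import Cfsg.Agent.H23.Mod
-- import your own Cfsg.Agent.* helpers here

set_option autoImplicit false
open Cfsg

namespace Cfsg.Agent.S5245

/-- Let F be an extremely sparse fusion system over a finite p-group S (saturated, not the inner system, and every saturated fusion system over any subgroup T of S contained in F is F itself or the inner system of T). Then S is normal in F, the focal and hyperfocal subgroups of F are both S, and Aut_F(S) is generated by the inner automorphisms of S together with a single automorphism of prime order q ≠ p (F is the fusion system of the semidirect product of S by a cyclic group of prime order). -/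
theorem result {Ω : Type*} [Group Ω] {S : Subgroup Ω} [Finite S] (p : ℕ) [Fact p.Prime] (hS : IsPGroup p S) (F : Cfsg.FusionSystem S) (hF : F.IsSaturated p) (hxs : ¬ (∀ P : Subgroup Ω, F.Hom P = (Cfsg.innerFusionSystem S).Hom P) ∧ ∀ (T : Subgroup Ω) (E : Cfsg.FusionSystem T), E.IsSaturated p → E.IsSubsystemOf F → (T = S ∧ ∀ P : Subgroup Ω, E.Hom P = F.Hom P) ∨ (∀ P : Subgroup Ω, E.Hom P = (Cfsg.innerFusionSystem T).Hom P)) : F.IsNormal S ∧ F.focalSubgroup = S ∧ F.hyperfocalSubgroup p = S ∧ ∃ (q : ℕ) (β : MulAut ↥S), q.Prime ∧ q ≠ p ∧ β ∈ F.autGroup S ∧ orderOf β = q ∧ (F.autGroup S : Subgroup (MulAut ↥S)) = Cfsg.Inn ↥S ⊔ Subgroup.zpowers β := by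
  open Cfsg.Agent.H23 Cfsg.FusionSystem Subgroup in
  have hF' : Sat p F := ⟨hS, hF⟩
  obtain ⟨P, a, b, hP⟩ : ∃ P, F.IsFullyNormalized P ∧ F.IsCentric P ∧ ¬ IsPGroup p (F.autGroup P) := by
    by_contra h
    push Not at h
    exact hxs.1 fun P => by rw [hF'.eq_inner_of_pmod fun P a b _ => pmod_lift_iff.2 (h P a b)]
  have := finite_of_le a.1
  obtain ⟨q, hq, hqp, hd⟩ : ∃ q, q.Prime ∧ q ≠ p ∧ q ∣ Nat.card (F.autGroup P) := by
    by_contra h
    push Not at h
    refine hP (IsPGroup.iff_card.2 ⟨_, Nat.eq_prime_pow_of_unique_prime_dvd Nat.card_pos.ne' fun {d} h1 h2 => ?_⟩)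
    by_contra h3
    exact h d h1 h3 h2
  haveI := Fact.mk hq
  obtain ⟨⟨β, hβ⟩, ho⟩ := exists_prime_orderOf_dvd_card' q hd
  rw [← Subgroup.orderOf_coe] at ho
  change orderOf β = q at ho
  obtain ⟨σ, e⟩ := exists_perm_of_mulAut β
  have hσ : σ ∈ AutF F P := ⟨β, hβ, e⟩
  have hpow : ∀ (m : ℕ) (x : P), (σ ^ m) x = (β ^ m) x := fun m => by
    induction m with
    | zero => exact fun _ => rfl
    | succ m ih => intro x; rw [pow_succ, pow_succ, Equiv.Perm.mul_apply, e, ih]; rfl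
  have hppr : PPr p (Fix P) σ := ⟨q, (Nat.coprime_primes hq Fact.out).2 hqp, mem_fix.2 fun x hx => by
    rw [hpow q ⟨x, hx⟩, ← ho, pow_orderOf_eq_one]; rfl⟩
  have hσ1 : σ ∉ H23.Fix P := fun h => by
    have : β = 1 := MulEquiv.ext fun x => Subtype.ext ((e x).symm.trans (mem_fix.1 h x x.2))
    rw [this, orderOf_one] at ho
    exact hq.one_lt.ne ho
  set K := lift (Cfsg.Inn P ⊔ zpowers β) with hK
  have hK0 : AutS P P ≤ K := autS_self_eq_lift_inn P ▸ lift_mono le_sup_left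
  have hσK : σ ∈ K := ⟨β, mem_sup_right (mem_zpowers β), e⟩
  have hK1 : K ≤ AutF F P := lift_mono (sup_le (lift_le_lift_iff.1 (autS_self_eq_lift_inn P ▸
    autS_le_autF F a.1 a.1)) ((zpowers_le).2 hβ))
  have hK2 := hK1.trans (autF_le_stab F P)
  have hKq : ∀ τ ∈ K, τ ^ q ∈ AutS P P := by
    haveI : (Cfsg.Inn P).Normal := ⟨by
      rintro _ ⟨x, rfl⟩ g
      exact ⟨g x, by ext y; simp⟩⟩
    rintro τ ⟨γ, h1, h2⟩
    have h3 : ∀ (m : ℕ) (x : P), (τ ^ m) x = (γ ^ m) x := fun m => by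
      induction m with
      | zero => exact fun _ => rfl
      | succ m ih => intro x; rw [pow_succ, pow_succ, Equiv.Perm.mul_apply, h2, ih]; rfl
    rw [autS_self_eq_lift_inn]
    refine ⟨γ ^ q, ?_, h3 q⟩
    obtain ⟨n, hn, _, ⟨i, rfl⟩, rfl⟩ := mem_sup_of_normal_left.1 h1
    rw [← QuotientGroup.eq_one_iff, QuotientGroup.mk_pow, QuotientGroup.mk_mul, (QuotientGroup.eq_one_iff _).2 hn,
      one_mul, ← QuotientGroup.mk_pow, ← zpow_natCast, ← zpow_mul, mul_comm, zpow_mul, zpow_natCast, ← ho,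
      pow_orderOf_eq_one, one_zpow, QuotientGroup.mk_one]
  have hSK : AutS S P ⊓ K = AutS P P := le_antisymm (fun τ h => by
    obtain ⟨k, hk⟩ := pmod_autS hS P τ h.1
    exact mem_of_pow_mem_coprime (hKq τ h.2) (fix_le_autS P P hk)
      (((Nat.coprime_primes hq Fact.out).2 hqp).pow_right k)) (le_inf (autS_mono a.1) hK0)
  have hNK : P = NK S K := le_antisymm
    (fun g hg => mem_NK.2 ⟨a.1 hg, hK0 (cj_mem_autS hg (Subgroup.le_normalizer hg))⟩) fun g hg => by
      obtain ⟨h1, h2⟩ := mem_NK.1 hg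
      exact mem_of_cj_mem_inn (centric_cIn_le b) a.1 h1 (hSK ▸ ⟨cj_mem_autS h1 (cj_mem_stab.1 (hK2 h2)), h2⟩)
  have hfix := (fix_le_autS P P).trans hK0
  obtain ⟨N, hN⟩ := exists_isKN F a.1 hfix hK2 hNK
  have hNs : Sat p N := hN.sat hF' (hF'.fkn_of hfix hK2 (fc_of_centric b) (by
    rw [hSK, inf_eq_right.2 hK1]
    refine rsyl_of_maximal (nfin_fix hfix hK2) (fix_le_autS P P) hK0 (pmod_autS (hS.to_le a.1) P)
      fun R _ h2 h3 τ hτ => ?_
    obtain ⟨k, hk⟩ := h3 τ hτ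
    exact mem_of_pow_mem_coprime (hKq τ (h2 hτ)) (fix_le_autS P P hk)
      (((Nat.coprime_primes hq Fact.out).2 hqp).pow_right k)))
  have hA := hN.autF_of_le le_rfl le_rfl
  rcases hxs.2 P N hNs.sat hN.sub with ⟨rfl, h⟩ | h
  swap
  · rw [fs_ext h, autF_inner le_rfl] at hA
    exact absurd (hppr.mem_of_pmod (pmod_autS (hS.to_le a.1) P) (hA ▸ ⟨hσ, hσK⟩)) hσ1
  obtain rfl := fs_ext h
  have hh : N.hyperfocalSubgroup p = P := by
    obtain ⟨E, h1, h2⟩ := hF'.exists_pi le_rfl hyper_le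
    rcases hxs.2 _ E h1.sat h2.sub with ⟨h3, -⟩ | h3
    · exact h3
    exfalso
    have := finite_of_le (hyper_le : N.hyperfocalSubgroup p ≤ P)
    have h4 := h2.ppr le_rfl (autF_le_autF hyper_le le_rfl autF_top_le_stab_hyper hσ) (hppr.mono (fix_anti hyper_le))
    rw [fs_ext h3, autF_inner le_rfl] at h4
    exact hσ1 (fix_of_fixMod hS ⟨hK2 hσK, fun x hx => hppr.mem_hyper le_rfl hσ hx⟩ hyper_le
      ((hppr.mono (fix_anti hyper_le)).mem_of_pmod (pmod_autS (hS.to_le hyper_le) _) h4) hppr)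
  exact ⟨hN.isNormal le_rfl, le_antisymm focal_le (hh.ge.trans hyper_le_focal), hh, q, β, hq, hqp, hβ, ho,
    lift_inj.1 (le_antisymm (hA.le.trans inf_le_right) hK1)⟩

end Cfsg.Agent.S5245
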