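import Cfsg.Statements.S5248
import Cfsg.Agent.H11.FU5

set_option autoImplicit false
open Cfsg Cfsg.Agent.H11 Cfsg.Agent.H23

namespace Cfsg.Agent.S5248

/-- Let S be a finite 2-group that is dihedral of order at least 8, generalized quaternion of order at least 8, semidihedral, or wreathed, and let F be a saturated fusion system over S. Then F has at most two F-conjugacy classes of F-essential subgroups (among any three essential subgroups two are joined by a map of F), and F is realizable: it is the fusion system of a finite group on a Sylow 2-subgroup. -/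
theorem result {Ω : Type*} [Group Ω] {S : Subgroup Ω} [Finite S] (hS : IsPGroup 2 S) (F : Cfsg.FusionSystem S) (hF : F.IsSaturated 2) (hshape : ((∃ m : ℕ, 4 ≤ m ∧ Nonempty (↥S ≃* DihedralGroup m)) ∨ (∃ m : ℕ, 2 ≤ m ∧ Nonempty (↥S ≃* QuaternionGroup m)) ∨ Cfsg.IsQuasiDihedral ↥S ∨ Cfsg.IsWreathed ↥S)) : (∀ E₁ E₂ E₃ : Subgroup Ω, F.IsEssential 2 E₁ → F.IsEssential 2 E₂ → F.IsEssential 2 E₃ → (∃ φ ∈ F.Hom E₁, φ.range = E₂) ∨ (∃ φ ∈ F.Hom E₁, φ.range = E₃) ∨ (∃ φ ∈ F.Hom E₂, φ.range = E₃)) ∧ F.IsRealizable 2 := by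
  have h : Sat 2 F := ⟨hS, hF⟩
  rcases hshape with ⟨m, hm, ⟨e⟩⟩ | ⟨m, hm, ⟨e⟩⟩ | r | r
  · rcases dihedral_cases hS (by omega) e with r | ⟨n, X, Y, -, r⟩
    · have := r.card_four
      rw [Nat.card_congr e.toEquiv, DihedralGroup.nat_card] at this
      omega
    exact ⟨fun _ _ _ => r.two_classes h, realizable_dih h r⟩
  · obtain ⟨k, hk⟩ := IsPGroup.iff_card.1 hS
    have : NeZero m := ⟨by omega⟩
    rw [Nat.card_congr e.toEquiv, Nat.card_eq_fintype_card, QuaternionGroup.card] at hk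
    obtain ⟨n, -, rfl⟩ := (Nat.dvd_prime_pow Nat.prime_two).1 (Dvd.intro_left _ hk)
    obtain ⟨X, Y, r⟩ := exists_MC_of_quaternion (Nat.pos_of_ne_zero (by rintro rfl; omega)) e
    exact ⟨fun _ _ _ => r.two_classes h, realizable_quat h r⟩
  · obtain ⟨n, X, Y, -, r⟩ := exists_MC_of_qd r
    exact ⟨fun _ _ _ => r.two_classes h, realizable_qd h r⟩
  · obtain ⟨n, E, H, a⟩ := exists_WR r
    exact ⟨fun _ _ _ => a.two_classes h, realizable_wr h r⟩
end Cfsg.Agent.S5248
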