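import Cfsg.Statements.S5249
import Cfsg.Agent.L0.FThm

set_option autoImplicit false
open Cfsg

namespace Cfsg.Agent.S5249

open Subgroup Cfsg.Agent.H23 Cfsg.Agent.H23.LF


/-- Let p be an odd prime, G a finite group in which Qd(p) (the natural semidirect product of an elementary abelian group of order p² by SL₂(p)) is not involved, and P a Sylow p-subgroup of G. Then the fusion system of G on P is a solvable fusion system. -/
theorem result {G : Type*} [Group G] [Finite G] {p : ℕ} [Fact p.Prime] (hp : p ≠ 2) (hqd : ¬ Cfsg.Involves ↥(Cfsg.qd p) G) (P : Sylow p G) : (Cfsg.groupFusionSystem (P : Subgroup G)).IsSolvableSystem := by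
  intro R hR hne _ E hE
  have hF := sat_group P
  have h := (isFactorSystem_iff hR).1 hE
  have := h.finite'
  have h1 : ¬ FInv (groupFusionSystem (P : Subgroup G)) (L0.qdV p) := fun h1 =>
    hqd ((real_group _).involves hF.pg good_qd h1)
  have h2 := le_core (fs_zj_normal hp (h.sat hF) fun h2 => h1 (h2.of_fac h))
  intro h3
  rw [h3, le_bot_iff, ← ind_zjF0] at h2
  refine ind_ne_bot (L0.isCharPFunctor_zjF (dvd_zero p)) (h.isPGroup hF.pg) (fun e => ?_) h2
  rw [← h.surj, h.im_eq_bot_iff le_rfl] at e
  exact hne (le_antisymm hR.1 e)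

end Cfsg.Agent.S5249
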