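import Cfsg.Statements.S5251
import Cfsg.Agent.H23.Loc3
-- import your own Cfsg.Agent.* helpers here

set_option autoImplicit false
open Cfsg

namespace Cfsg.Agent.S5251

/-- Let F be a saturated fusion system over a finite p-group S, E a normal subsystem of F over T, and P an F-centric subgroup of S such that P ∩ T is not E-centric. Then some F-conjugate P* of P satisfies Out_S(P*) ∩ O_p(Out_F(P*)) ≠ 1: there is an element of N_S(P*) outside P* whose conjugation action on P* lies in O_p(Aut_F(P*)). In particular P is not both centric and radical in F. -/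
theorem result {Ω : Type*} [Group Ω] {S : Subgroup Ω} [Finite S] (p : ℕ) [Fact p.Prime] (hS : IsPGroup p S) (F : Cfsg.FusionSystem S) (hF : F.IsSaturated p) {T : Subgroup Ω} (E : Cfsg.FusionSystem T) (hE : E.IsNormalIn F p) (P : Subgroup Ω) (hP : F.IsCentric P) (hPT : ¬ E.IsCentric (P ⊓ T)) : (∃ φ ∈ F.Hom P, ∃ x ∈ S ⊓ Subgroup.normalizer (φ.range : Set Ω), x ∉ φ.range ∧ ∃ α ∈ ((Cfsg.pCore p ↥(F.autGroup φ.range)).map (F.autGroup φ.range).subtype : Subgroup (MulAut ↥φ.range)), ∀ y : ↥φ.range, ((α y : ↥φ.range) : Ω) = x * (y : Ω) * x⁻¹) ∧ ¬ F.IsRadical p P := by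
  open Cfsg.Agent.H23 Cfsg.FusionSystem Subgroup in
  have h := (isNormalIn_iff hS).1 hE
  have a : ¬ TC F T (P ⊓ T) := fun c => hPT ((h.tc_iff inf_le_right).1 c)
  refine ⟨?_, fun r => a (h.satF.tc_of_cr h.sc hP r)⟩
  obtain ⟨σ, ⟨φ, m, e⟩, b⟩ := exists_fn F hP.1
  have m' : Mor F P σ := ⟨φ, m, e⟩
  obtain ⟨t, t1, t2, t3, t4⟩ := h.satF.star_tc h.sc b fun c => a ((m'.tc_inf_iff h.sc).1 c)
  refine ⟨φ, m, ?_⟩
  rw [range_eq_im e]
  refine ⟨t, ⟨h.leS t1, t2⟩, t3, ?_⟩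
  rw [AutF, ← lift_pCore] at t4
  obtain ⟨α, a1, a2⟩ := t4
  exact ⟨α, a1, fun y => (a2 y).symm⟩

end Cfsg.Agent.S5251
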