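import Cfsg.Statements.S5254
import Cfsg.Agent.L0.FOl

set_option autoImplicit false
open Cfsg

namespace Cfsg.Agent.S5254

open Subgroup hiding upperCentralSeries
open Cfsg.FusionSystem Cfsg.Agent.H23 Cfsg.Agent.H23.LF
open scoped commutatorElement


/-- Let p be an odd prime, S a finite nonabelian p-group with a unique abelian subgroup A of index p, and F a saturated fusion system over S. Then every F-essential subgroup P is A, or Z(S)⟨x⟩ for some x ∈ S outside A, or (when the second centre Z₂(S) lies in A) Z₂(S)⟨x⟩ for some x ∈ S outside A; and P has index p in its normalizer in S. -/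
theorem result {Ω : Type*} [Group Ω] {S : Subgroup Ω} [Finite S] (p : ℕ) [Fact p.Prime] (hS : IsPGroup p S) (F : Cfsg.FusionSystem S) (hF : F.IsSaturated p) (hp : p ≠ 2) (hna : ¬ IsMulCommutative ↥S) (A : Subgroup Ω) (hA : A ≤ S ∧ IsMulCommutative ↥A ∧ (A.subgroupOf S).index = p) (huniq : ∀ B : Subgroup Ω, B ≤ S → IsMulCommutative ↥B → (B.subgroupOf S).index = p → B = A) (P : Subgroup Ω) (hP : F.IsEssential p P) : (P = A ∨ (∃ x ∈ S, x ∉ A ∧ P = (S ⊓ Subgroup.centralizer (S : Set Ω)) ⊔ Subgroup.zpowers x) ∨ (((upperCentralSeries ↥S 2).map S.subtype) ≤ A ∧ ∃ x ∈ S, x ∉ A ∧ P = ((upperCentralSeries ↥S 2).map S.subtype) ⊔ Subgroup.zpowers x)) ∧ (P.subgroupOf (S ⊓ Subgroup.normalizer (P : Set Ω))).index = p := by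
  have h : AI p S A := ⟨hS, hA.1, le_cent_iff.2 hA.2.1, hA.2.2, fun e => hna (le_cent_iff.1 e)⟩
  haveI := finite_of_le hP.1.1
  have key : Nat.card (normalizerIn S P) = p * Nat.card P → P.relIndex (normalizerIn S P) = p := fun e =>
    Nat.eq_of_mul_eq_mul_left Nat.card_pos ((H24.card_mul_relIndex (le_nIn hP.1.1)).trans (e.trans (mul_comm _ _)))
  by_cases e : P = A
  · subst e
    exact ⟨.inl rfl, key (by rw [nIn_eq_of_le h.nrm, h.card])⟩
  obtain ⟨h1, -, h2, x, hx, hx', h3⟩ := h.ess_cases (fun B a b c => huniq B a (le_cent_iff.1 b) c) ⟨hS, hF⟩ hP e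
  exact ⟨.inr (h3.imp (fun a => ⟨x, hP.1.1 hx, hx', a⟩) fun a => ⟨h1, x, hP.1.1 hx, hx', a⟩), key h2⟩

end Cfsg.Agent.S5254
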