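import Cfsg.Statements.S5257
import Cfsg.Agent.L0.FOl

set_option autoImplicit false
open Cfsg

namespace Cfsg.Agent.S5257

open Subgroup hiding upperCentralSeries
open Cfsg.FusionSystem Cfsg.Agent.H23 Cfsg.Agent.H23.LF
open scoped commutatorElement


/-- Let p be an odd prime, S a finite nonabelian p-group with a unique abelian subgroup A of index p, and F a saturated fusion system over S having an F-essential subgroup other than A. Then the second centre Z₂(S) lies in A; Z(S) ∩ [S, S] has order p; Z(S)[S, S] has index p in A; Z(S) has index p in Z₂(S); and S/Z(S) has maximal nilpotency class (if S/Z(S) has order pᵐ with m ≥ 3 then the term of index m − 2 of the lower central series of S, counting S as index 0, is not contained in Z(S)). -/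
theorem result {Ω : Type*} [Group Ω] {S : Subgroup Ω} [Finite S] (p : ℕ) [Fact p.Prime] (hS : IsPGroup p S) (F : Cfsg.FusionSystem S) (hF : F.IsSaturated p) (hp : p ≠ 2) (hna : ¬ IsMulCommutative ↥S) (A : Subgroup Ω) (hA : A ≤ S ∧ IsMulCommutative ↥A ∧ (A.subgroupOf S).index = p) (huniq : ∀ B : Subgroup Ω, B ≤ S → IsMulCommutative ↥B → (B.subgroupOf S).index = p → B = A) (P : Subgroup Ω) (hP : F.IsEssential p P) (hPA : P ≠ A) : ((upperCentralSeries ↥S 2).map S.subtype) ≤ A ∧ Nat.card ↥((S ⊓ Subgroup.centralizer (S : Set Ω)) ⊓ ((commutator ↥S).map S.subtype)) = p ∧ (((S ⊓ Subgroup.centralizer (S : Set Ω)) ⊔ ((commutator ↥S).map S.subtype)).subgroupOf A).index = p ∧ (((S ⊓ Subgroup.centralizer (S : Set Ω))).subgroupOf ((upperCentralSeries ↥S 2).map S.subtype)).index = p ∧ ∀ m : ℕ, ((S ⊓ Subgroup.centralizer (S : Set Ω)).subgroupOf S).index = p ^ m → 3 ≤ m → ¬ Subgroup.lowerCentralSeries S (m - 2) ≤ (S ⊓ Subgroup.centralizer (S : Set Ω)) := by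
  have h : AI p S A := ⟨hS, hA.1, le_cent_iff.2 hA.2.1, hA.2.2, fun e => hna (le_cent_iff.1 e)⟩
  obtain ⟨h1, h2, -⟩ := h.ess_cases (fun B a b c => huniq B a (le_cent_iff.1 b) c) ⟨hS, hF⟩ hP hPA
  have hp : p.Prime := Fact.out
  have h3 := h.card_Z_D h1
  haveI := finite_of_le (cIn_le : centralizerIn S S ≤ S)
  rw [h2, mul_comm, Nat.mul_right_inj Nat.card_pos.ne'] at h3
  rw [map_subtype_commutator]
  have h4 := sup_le h.Z_le h.D_le
  haveI := finite_of_le (h4.trans h.le)
  refine ⟨h1, h3.symm, Nat.eq_of_mul_eq_mul_left Nat.card_pos ((H24.card_mul_relIndex h4).trans ?_),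
    Nat.eq_of_mul_eq_mul_left Nat.card_pos ((H24.card_mul_relIndex (ucs_one.ge.trans (ucs_mono one_le_two))).trans
      (h2.trans (mul_comm _ _))), fun m hm h5 h6 => ?_⟩
  · rw [h.card_A, ← H24.card_sup_mul_card_inf (cIn_le.trans (H24.le_normalizer_commutator le_normalizer le_normalizer)), ← h3]
  · obtain ⟨k, rfl⟩ := Nat.exists_eq_add_of_le' h5
    have a := h.card_lcs h3.ge k
    have b := H24.card_mul_relIndex (cIn_le : centralizerIn S S ≤ S)
    rw [show (centralizerIn S S).relIndex S = _ from hm, h.card, h.card_A, mul_left_comm, Nat.mul_right_inj Nat.card_pos.ne',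
      pow_succ', Nat.mul_right_inj hp.ne_zero] at b
    haveI := finite_of_le (inf_le_left : centralizerIn S S ⊓ ⁅S, S⁆ ≤ _)
    have c := (card_le_of_le (le_inf h6 (S.lowerCentralSeries_antitone (Nat.le_add_left 1 k)))).trans h3.ge
    have d := (b.le.trans a).trans (Nat.mul_le_mul_left _ c)
    rw [← pow_succ, Nat.pow_le_pow_iff_right hp.one_lt] at d
    omega

end Cfsg.Agent.S5257
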