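import Cfsg.Statements.S5271
import Cfsg.Agent.L0.FWsc

set_option autoImplicit false
open Cfsg

namespace Cfsg.Agent.S5271

open Subgroup Cfsg.FusionSystem Cfsg.Agent.H23 Cfsg.Agent.H23.LF


/-- A nilpotency criterion for fusion systems. Let F be a saturated fusion system over a finite p-group S of order at least p². Call a subgroup Q of S weakly embedded in F when there is a subgroup P of S strongly closed in F such that both the product QP and the intersection Q ∩ P are strongly closed in F. Then F is the inner fusion system of S if and only if there is a subgroup D of S with 1 < D < S such that every subgroup of S of the same order as D is weakly embedded in F and, for every fully normalized subgroup H of S of that order, the normalizer fusion system of H in F is the inner fusion system of N_S(H). -/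
theorem result {Ω : Type*} [Group Ω] {S : Subgroup Ω} [Finite S] (p : ℕ) [Fact p.Prime] (hS : IsPGroup p ↥S) (F : Cfsg.FusionSystem S) (hF : F.IsSaturated p) (hcard : p ^ 2 ≤ Nat.card S) : (∀ P : Subgroup Ω, F.Hom P = (Cfsg.innerFusionSystem S).Hom P) ↔ ∃ D : Subgroup Ω, ⊥ < D ∧ D < S ∧ (∀ Q : Subgroup Ω, Q ≤ S → Nat.card ↥Q = Nat.card ↥D → ∃ P : Subgroup Ω, F.StronglyClosed P ∧ F.StronglyClosed (Q ⊔ P) ∧ F.StronglyClosed (Q ⊓ P)) ∧ (∀ H : Subgroup Ω, F.IsFullyNormalized H → Nat.card ↥H = Nat.card ↥D → ∀ N : Cfsg.FusionSystem (Cfsg.FusionSystem.normalizerIn S H), F.IsNormalizerSystem H N → ∀ P : Subgroup Ω, N.Hom P = (Cfsg.innerFusionSystem (Cfsg.FusionSystem.normalizerIn S H)).Hom P) := by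
  rw [hom_eq_inner_iff, Sat.inner_iff_wsc ⟨hS, hF⟩ hcard]
  refine exists_congr fun D => and_congr_right fun _ => and_congr_right fun _ => and_congr_right fun _ =>
    forall_congr' fun H => forall_congr' fun hH => forall_congr' fun _ => ⟨fun h N hN => ?_, fun h => ?_⟩
  · exact hom_eq_inner_iff.2 ((loc_iff (isNormalizerSystem_iff.1 hN)).1 h)
  · obtain ⟨N, hN⟩ := exists_normSys F hH.1
    exact (loc_iff hN).2 (hom_eq_inner_iff.1 (h N (isNormalizerSystem_iff.2 hN)))

end Cfsg.Agent.S5271
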