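import Cfsg.Statements.S5272
import Cfsg.Agent.H23.PSt3
-- import your own Cfsg.Agent.* helpers here

set_option autoImplicit false
open Cfsg

namespace Cfsg.Agent.S5272

/-- An axiomatic Glauberman–Thompson nilpotency criterion for fusion systems. Let p be an odd prime, F a saturated fusion system over a finite p-group S, and 𝒜 a nonempty family of abelian subgroups of S. For Q ≤ S write I(Q) for the intersection of the members of 𝒜 contained in Q. Assume (invariance) that for every Q ≤ S containing a member of 𝒜, every F-automorphism of Q maps I(Q) into itself, and (replacement) that for every subgroup B of S of nilpotency class at most 2, if some member of 𝒜 contains [B,B] but not B, then B normalizes some member of 𝒜 that contains [B,B] but not B. Then F is the inner fusion system of S if and only if the normalizer fusion system of I(S) in F is the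 inner fusion system of N_S(I(S)). -/
theorem result {Ω : Type*} [Group Ω] {S : Subgroup Ω} [Finite S] (p : ℕ) [Fact p.Prime] (hS : IsPGroup p ↥S) (F : Cfsg.FusionSystem S) (hF : F.IsSaturated p) (hp : p ≠ 2) (𝒜 : Set (Subgroup Ω)) (h𝒜 : ∀ A ∈ 𝒜, A ≤ S ∧ IsMulCommutative ↥A) (hne : 𝒜.Nonempty) (hinv : ∀ Q : Subgroup Ω, Q ≤ S → (∃ A ∈ 𝒜, A ≤ Q) → ∀ α ∈ F.autGroup Q, ∀ x : ↥Q, (x : Ω) ∈ (⨅ A ∈ {A : Subgroup Ω | A ∈ 𝒜 ∧ A ≤ Q}, A) → (((α : MulAut ↥Q) x : ↥Q) : Ω) ∈ (⨅ A ∈ {A : Subgroup Ω | A ∈ 𝒜 ∧ A ≤ Q}, A)) (hrep : ∀ B : Subgroup Ω, B ≤ S → ⁅⁅B, B⁆, B⁆ = ⊥ → (∃ A ∈ 𝒜, ⁅B, B⁆ ≤ A ∧ ¬ B ≤ A) → ∃ A ∈ 𝒜, ⁅B, B⁆ ≤ A ∧ ¬ B ≤ A ∧ B ≤ Subgroup.normalizer (A : Set Ω)) : (∀ P : Subgroup Ω, F.Hom P = (Cfsg.innerFusionSystem S).Hom P) ↔ ∀ N : Cfsg.FusionSystem (Cfsg.FusionSystem.normalizerIn S (⨅ A ∈ 𝒜, A)), F.IsNormalizerSystem (⨅ A ∈ 𝒜, A) N → ∀ P : Subgroup Ω, N.Hom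 P = (Cfsg.innerFusionSystem (Cfsg.FusionSystem.normalizerIn S (⨅ A ∈ 𝒜, A))).Hom P := by
  open Cfsg.Agent.H23 Cfsg.FusionSystem Subgroup in
  have hA : PS.Ax S 𝒜 := ⟨fun A h => (h𝒜 A h).1, fun A h => (h𝒜 A h).2, hne, hrep⟩
  have e : (⨅ A ∈ 𝒜, A) = PS.II 𝒜 S := by
    ext x
    rw [PS.mem_II]
    simp only [mem_iInf]
    exact ⟨fun h A a _ => h A a, fun h A a => h A a (hA.le A a)⟩
  have hinv' : ∀ Q ≤ S, (∃ A ∈ 𝒜, A ≤ Q) → ∀ σ ∈ AutF F Q, ∀ x ∈ PS.II 𝒜 Q, σ x ∈ PS.II 𝒜 Q := by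
    rintro Q a ⟨A, b, c⟩ σ ⟨α, d, e⟩ x hx
    have h1 := c (PS.mem_II.1 hx A b c)
    rw [e ⟨x, h1⟩]
    exact hinv Q a ⟨A, b, c⟩ α d ⟨x, h1⟩ hx
  have := finite_of_le hA.II_le_top
  rw [e, LF.hom_eq_inner_iff, LF.norm_inner_iff hA.II_le_top (fun g hg => cj_mem_stab.1 (mem_stab_of_mem (homOn_cj _ g)
    (hinv' S le_rfl (let ⟨A, h⟩ := hne; ⟨A, h, hA.le A h⟩) _
      (autS_le_autF F le_rfl le_rfl (cj_mem_autS hg (Subgroup.le_normalizer hg))))))]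
  exact ⟨LF.loc_of_sub, hA.sub_inner hp ⟨hS, hF⟩ hinv'⟩

end Cfsg.Agent.S5272
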