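import Cfsg.Statements.S5276
import Cfsg.Agent.L0.FTate

set_option autoImplicit false
open Cfsg

namespace Cfsg.Agent.S5276

open Subgroup Cfsg.Agent.H23 Cfsg.Agent.H23.LF


/-- Let p be a prime and F a saturated fusion system over a finite p-group S. Then F is the inner fusion system of S if and only if the normalizer fusion system of S itself in F is the inner fusion system (equivalently, Aut_F(S) is induced by S) and the Frattini subgroup Φ(S) is strongly closed in F. -/
theorem result {Ω : Type*} [Group Ω] {S : Subgroup Ω} [Finite S] (p : ℕ) [Fact p.Prime] (hS : IsPGroup p ↥S) (F : Cfsg.FusionSystem S) (hF : F.IsSaturated p) : (∀ P : Subgroup Ω, F.Hom P = (Cfsg.innerFusionSystem S).Hom P) ↔ (∀ N : Cfsg.FusionSystem (Cfsg.FusionSystem.normalizerIn S S), F.IsNormalizerSystem S N → ∀ P : Subgroup Ω, N.Hom P = (Cfsg.innerFusionSystem (Cfsg.FusionSystem.normalizerIn S S)).Hom P) ∧ F.StronglyClosed ((frattini ↥S).map S.subtype) := by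
  have h1 : Sat p F := ⟨hS, hF⟩
  rw [hom_eq_inner_iff, norm_inner_iff le_rfl le_normalizer]
  refine ⟨fun h => ⟨loc_of_sub h, stronglyClosed_iff.mpr ⟨map_subtype_le _, fun P σ hσ x hx hx' => ?_⟩⟩,
    fun ⟨a, b⟩ => Sat.sub_inner_of_focal_le h1 (Sat.focal_le_of_sc h1 b (commutator_le_frattini' hS) le_rfl
      fun α hα x hx => commutator_le_frattini' hS ?_)⟩
  · obtain ⟨-, g, hg, e⟩ := mor_inner_iff.mp (hσ.sub h)
    rw [e x hx]
    obtain ⟨y, hy, rfl⟩ := hx'
    exact ⟨_, (inferInstance : (frattini S).Normal).conj_mem y hy ⟨g, hg⟩, rfl⟩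
  · obtain ⟨-, g, hg, e⟩ := mor_inner_iff.mp (Loc.kext a le_rfl (le_nIn le_rfl) le_rfl
      (kext_of_mem (by rw [sup_idem]; exact autF_mor le_rfl hα) (autF_le_stab _ _ hα)))
    have := commutator_mem_commutator (inv_mem hx) hg
    rwa [commutatorElement_def, inv_inv, mul_assoc, mul_assoc, ← mul_assoc g, ← e x hx] at this

end Cfsg.Agent.S5276
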