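import Cfsg.Statements.S5287
import Cfsg.Agent.L0.FSup2

set_option autoImplicit false
open Cfsg

namespace Cfsg.Agent.S5287

open Subgroup Cfsg.Agent.H23 Cfsg.Agent.H23.LF


/-- Let S be a finite metacyclic p-group (an extension of a cyclic group by a cyclic group). Every saturated fusion system over S is supersoluble (S has a chain of F-strongly closed subgroups from 1 to S with cyclic steps) if and only if S is not homocyclic of rank two (isomorphic to Z/p^n × Z/p^n with n ≥ 1) and, when p = 2, S is not dihedral of order at least 4, not quasi-dihedral (semidihedral) and not generalized quaternion of order at least 8. -/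
theorem result {Ω : Type*} [Group Ω] {S : Subgroup Ω} [Finite S] (p : ℕ) [Fact p.Prime] (hS : IsPGroup p ↥S) (hm : Cfsg.IsMetacyclic ↥S) : (∀ F : Cfsg.FusionSystem S, F.IsSaturated p → (∃ (m : ℕ) (c : Fin (m + 1) → Subgroup Ω), c 0 = ⊥ ∧ c (Fin.last m) = S ∧ (∀ i : Fin (m + 1), F.StronglyClosed (c i)) ∧ ∀ i : Fin m, c i.castSucc ≤ c i.succ ∧ ∃ x ∈ S, c i.succ = c i.castSucc ⊔ Subgroup.zpowers x)) ↔ ¬ ((∃ n : ℕ, 0 < n ∧ Nonempty (↥S ≃* Multiplicative (ZMod (p ^ n)) × Multiplicative (ZMod (p ^ n)))) ∨ (p = 2 ∧ ((∃ n : ℕ, 2 ≤ n ∧ Nonempty (↥S ≃* DihedralGroup n)) ∨ Cfsg.IsQuasiDihedral ↥S ∨ (∃ n : ℕ, 2 ≤ n ∧ Nonempty (↥S ≃* QuaternionGroup n))))) := by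
  simp only [ch_iff]
  refine ⟨fun h => ?_, fun h => (ch_all_iff hS).2 ⟨fun F hF => ?_, ?_⟩⟩
  · rintro (⟨n, hn, ⟨e⟩⟩ | ⟨rfl, ⟨n, hn, ⟨e⟩⟩ | a | ⟨n, hn, ⟨e⟩⟩⟩)
    · exact L0.not_autT_zmod (H := Unit) hn (e.trans MulEquiv.prodUnique.symm) ((ch_all_iff hS).1 h).2
    · exact not_ch_dihedral hS hn e h
    · exact not_ch_qd a h
    · exact not_ch_quaternion hS hn e h
  · by_cases h2 : p = 2
    · subst h2
      refine Sat.normal_meta_two ⟨hS, hF⟩ sc_top hm fun n e f X Y ⟨h1, h2⟩ => h (.inr ⟨rfl, ?_⟩)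
      rcases H26.MC_trichotomy h1 h2 with ⟨k, a⟩ | ⟨k, a, x, y, b⟩ | ⟨k, a⟩
      · exact .inl ⟨_, Nat.le_self_pow (by omega) 2, a⟩
      · exact .inr (.inl ⟨k + 3, by omega, a, x, y, b⟩)
      · exact .inr (.inr ⟨_, Nat.le_self_pow (by omega) 2, a⟩)
    · exact Sat.normal_meta_odd ⟨hS, hF⟩ sc_top h2 hm
  · rcases L0.autT_meta hS hm with a | a | a
    exacts [a, absurd (.inr ⟨a.1, .inr (.inr ⟨2, le_rfl, a.2⟩)⟩) h, absurd (.inl a) h]

end Cfsg.Agent.S5287
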