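import Cfsg.Statements.S5291
import Cfsg.Agent.H23.Sub
-- import your own Cfsg.Agent.* helpers here

set_option autoImplicit false
open Cfsg

namespace Cfsg.Agent.S5291

/-- Let F be a saturated fusion system over a finite p-group S and E a weakly normal subsystem of F over a subgroup T. Suppose a subgroup R of T is normal in E (E = N_E(R)), and let R* be the subgroup of T generated by the images of R under all maps of F with source R. Then R* is normal in F (F = N_F(R*)). -/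
theorem result {Ω : Type*} [Group Ω] {S : Subgroup Ω} [Finite S] (p : ℕ) [Fact p.Prime] (hS : IsPGroup p S)
    (F : Cfsg.FusionSystem S) (hF : F.IsSaturated p)
    {T : Subgroup Ω} (E : Cfsg.FusionSystem T) (hE : E.IsWeaklyNormalIn F p)
    (R : Subgroup Ω) (hR : E.IsNormal R) :
    F.IsNormal (Subgroup.closure {x : Ω | ∃ φ ∈ F.Hom R, ∃ r : R, x = φ r}) := by
  open Cfsg.Agent.H23 Cfsg.FusionSystem Subgroup in
  have h := (isWeaklyNormalIn_iff hS).1 hE
  have := h.finite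
  set Q := Subgroup.closure {x : Ω | ∃ φ ∈ F.Hom R, ∃ r : R, x = φ r} with hQ
  have h1 : ∀ σ : Equiv.Perm Ω, Mor F R σ → im σ R ≤ Q := fun σ ⟨φ, hφ, e⟩ =>
    im_le_iff.2 fun x hx => subset_closure ⟨φ, hφ, ⟨x, hx⟩, (e ⟨x, hx⟩).symm⟩
  have h2 : Q = sSup {U | E.IsNormal U ∧ U ≤ Q} := by
    refine le_antisymm ((closure_le _).2 ?_) (sSup_le fun U hU => hU.2)
    rintro _ ⟨φ, hφ, r, rfl⟩
    obtain ⟨σ, hσ, e⟩ := exists_perm_of_mem_hom hφ
    obtain ⟨α, hα, h3⟩ := h.frat R σ hR.1 hσ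
    have h4 : im σ R = im α R := by
      conv_rhs => rw [← stab_im (autF_le_stab _ _ (h3.mem_autF_of_sc (normal_sc hR) le_rfl)),
        ← h3.homOn.im_mul, mul_inv_cancel_left]
    refine le_sSup (s := {U | E.IsNormal U ∧ U ≤ Q}) (a := im σ R)
      ⟨h4 ▸ h.normal_im hα hR, h1 σ hσ⟩ ?_
    rw [e]
    exact mem_im_of_mem σ r.2
  have h3 : E.IsNormal Q := by
    rw [h2]
    exact (sSup_mem_of_sup_closed (S := T) (𝒜 := {U | E.IsNormal U ∧ U ≤ Q}) ⟨⊥, normal_bot, bot_le⟩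
      (fun U hU => hU.1.1) fun U hU V hV => ⟨normal_sup hU.1 hV.1, sup_le hU.2 hV.2⟩).1
  refine h.normal_of h3 fun α hα => ?_
  have := finite_of_le h3.1
  refine mem_stab_of_mem ((autF_homOn hα).mono h3.1) (((autF_homOn hα).mono h3.1).mem_of_closure ?_)
  rintro _ ⟨φ, hφ, r, rfl⟩
  obtain ⟨σ, hσ, e⟩ := exists_perm_of_mem_hom hφ
  rw [e]
  exact h1 _ (hσ.mul' (autF_mor h.leS hα) (hσ.im_le_of_sc h.sc le_rfl hR.1)) (mem_im_of_mem _ r.2)

end Cfsg.Agent.S5291
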