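import Cfsg.Statements.S5292
import Cfsg.Agent.H23.Mod
-- import your own Cfsg.Agent.* helpers here

set_option autoImplicit false
universe u
open Cfsg

namespace Cfsg.Agent.S5292

/-- Let F be a saturated fusion system over a finite p-group S. Then F is the fusion system of some finite p-solvable group on a Sylow p-subgroup if and only if F is constrained (some subgroup normal in F is centric in F) and the group of automorphisms that F induces on its largest normal subgroup O_p(F) is p-solvable. -/
theorem result {Ω : Type u} [Group Ω] {S : Subgroup Ω} [Finite S] (p : ℕ) [Fact p.Prime] (hS : IsPGroup p S)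
    (F : Cfsg.FusionSystem S) (hF : F.IsSaturated p) :
    (∃ (G : Type u) (_ : Group G) (_ : Finite G) (ι : S →* G), Cfsg.IsPSolvable p G ∧ F.IsRealizedBy ι ∧
        ∃ T : Sylow p G, (T : Subgroup G) = ι.range) ↔
      (F.IsConstrained p ∧ Cfsg.IsPSolvable p ↥(F.autGroup F.core)) := by
  open Cfsg.Agent.H23 Cfsg.FusionSystem Subgroup in
  constructor
  · rintro ⟨G, _, _, ι, a, b, T, c⟩
    have d := isRealizedBy_iff.1 b
    rw [← c] at d
    obtain ⟨T', e⟩ := fac_quot_pPrimeCore (S := T)
    have f := H9.isPSolvable_quotient a (pPrimeCore p G)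
    exact ((d.trans e).psa_iff (H9.centralizer_pCore_le_of_isPSolvable f (H1.pPrimeCore_quotient_pPrimeCore p))).2 f
  · intro h
    obtain ⟨G, _, _, T, θ, a, b⟩ := (⟨hS, hF⟩ : Sat p F).exists_model h.1
    exact ⟨G, _, ‹_›, _, (a.psa_iff b).1 h, (realized_of_fac a).1, T, (realized_of_fac a).2⟩

end Cfsg.Agent.S5292
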