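import Cfsg.Statements.S5301
import Cfsg.Agent.H23.Normal
-- import your own Cfsg.Agent.* helpers here

set_option autoImplicit false
universe u
open Cfsg

namespace Cfsg.Agent.S5301

/-- Let F be a saturated fusion system over a finite p-group S. If for every subgroup P of S that is fully normalized, centric and radical in F the automorphism group that F induces on P has a normal Sylow p-subgroup, then S is normal in F. -/
theorem result {Ω : Type u} [Group Ω] {S : Subgroup Ω} [Finite S] (p : ℕ) [Fact p.Prime] (hS : IsPGroup p S)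
    (F : Cfsg.FusionSystem S) (hF : F.IsSaturated p)
    (hcl : ∀ P : Subgroup Ω, F.IsFullyNormalized P → F.IsCentric P → F.IsRadical p P →
      ∃ R : Sylow p ↥(F.autGroup P), (R : Subgroup ↥(F.autGroup P)).Normal) :
    F.IsNormal S := by
  open Cfsg.Agent.H23 Cfsg.FusionSystem Subgroup in
  have hF' : Sat p F := ⟨hS, hF⟩
  refine hF'.normal_top_of_no_essential fun P hP => ?_
  have hr := hF'.essential_radical hP
  have := finite_of_le hP.1.1
  obtain ⟨R, hR⟩ := hcl P hP.2.1 hP.1 hr
  have h1 : RSyl p (Fix P) ((liftPres (F.autGroup P)).up R) (AutF F P) := (liftPres _).rsyl_up R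
  have h2 : AutF F P ≤ normalizer ((liftPres (F.autGroup P)).up R : Set (Equiv.Perm Ω)) :=
    (liftPres _).normal_iff.1 hR
  have h3 := (hF'.rsyl_of_fn hP.2.1)
  have h4 := h3.le_of_normal (nfin_autF F P) h1.le2 h2 h1.pmod
  have h5 := h1.eq_of_le (nfin_autF F P) h4 h3.le2 h3.pmod
  have h6 := le_Op_of (nfin_autF F P) h1.le2 h2 h1.pmod
  rw [← h5, (radical_iff.1 hr).2] at h6
  exact (lt_nIn hS (hF'.essential_lt hP)).not_ge fun g hg =>
    mem_of_cj_mem_inn (centric_cIn_le hP.1) hP.1.1 hg.1 (h6 (cj_mem_autS hg.1 hg.2))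

end Cfsg.Agent.S5301
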