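import Cfsg.Statements.S5315
import Cfsg.Agent.L0.FFoc

set_option autoImplicit false
open Cfsg

namespace Cfsg.Agent.S5315

open Subgroup Cfsg.Agent.H23 Cfsg.Agent.H23.LF


/-- An analogue of Grün's lemma for fusion systems. Let F be a saturated fusion system over a finite p-group S that is perfect in the sense that its hyperfocal subgroup is all of S (F coincides with its p-residual subsystem). Then the second centre of F equals its centre: every fusion system over S/(Z(F) ∩ S) that is the factor system of F modulo its centre Z(F), read through the quotient map, has trivial centre. -/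
theorem result {Ω : Type*} [Group Ω] {S : Subgroup Ω} [Finite S] (p : ℕ) [Fact p.Prime] (hS : IsPGroup p S) (F : Cfsg.FusionSystem S) (hF : F.IsSaturated p)
    (hperf : F.hyperfocalSubgroup p = S)
    (E : Cfsg.FusionSystem (⊤ : Subgroup (↥S ⧸ (F.center).subgroupOf S)))
    (hE : F.IsFactorSystem F.center (QuotientGroup.mk' ((F.center).subgroupOf S)) E) : E.center = ⊥ := by
  have h1 : Sat p F := ⟨hS, hF⟩
  have hZ := center_central F
  have h := (isFactorSystem_iff (normal_sc (central_normal hZ))).mp hE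
  refine eq_bot_iff.mpr fun y hy => ?_
  obtain ⟨x, hx, rfl⟩ := h.exists_pre (mem_top y)
  have hy' := ((h.sat h1).mem_center_iff.mp hy).2
  have hA : AutF F F.center ≤ H23.Fix F.center := fun α hα => mem_fix.mpr fun z hz =>
    central_fix hZ (autF_mor center_le hα) hz hz
  have hU := Sat.normal_pre h1 (central_normal hZ) ((pmod_self p _).mono hA) h
    (central_normal (Sat.central_zpowers (h.sat h1) hy))
  set U := pre S (ext (QuotientGroup.mk' (F.center.subgroupOf S))) (zpowers (ext (QuotientGroup.mk' _) x))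
  have hxU : x ∈ U := h.mem_pre.mpr ⟨hx, mem_zpowers _⟩
  have key : ∀ (P : Subgroup Ω) (σ : Equiv.Perm Ω), Mor F P σ → F.center ≤ P → ∀ u ∈ P, u ∈ U → u⁻¹ * σ u ∈ F.center :=
    fun P σ hσ hP u hu hu' => by
      obtain ⟨σ', a1, a2⟩ := h.exists_mor hP hσ
      rw [← h.eq_iff (hσ.le hu) (hσ.mem hu), ← a2 u hu]
      exact (((h.sat h1).mem_center_iff.mp (zpowers_le.mpr hy (h.mem_pre.mp hu').2)).2 _ _ a1 (mem_im_of_mem _ hu)).symm
  have hc : ∀ s ∈ S, x⁻¹ * (s * x * s⁻¹) ∈ F.center := fun s hs => key S _ (mor_cj F le_rfl hs) center_le x hx hxU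
  have hcen : ∀ z ∈ F.center, ∀ s ∈ S, s * z = z * s := fun z hz s hs =>
    (central_le_centralizer hZ hs z hz).symm
  have h2 : F.focalSubgroup ≤ centralizer {x} := focal_le_iff.mpr fun P σ hσ s hs => by
    obtain ⟨τ, a1, a2, a3⟩ := normal_kext hU hσ
    have hsS := hσ.le hs
    have hs' := mem_sup_left (T := U) hs
    have hx' := mem_sup_right (S := P) hxU
    have a4 := key _ _ a2 (h.K_le_pre.trans le_sup_right) x hx' hxU
    have a5 := central_fix hZ a2 (le_sup_right (a := P) (h.K_le_pre (hc s hsS))) (hc s hsS)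
    rw [a2.homOn.map_mul (inv_mem hx') (mul_mem (mul_mem hs' hx') (inv_mem hs')), a2.homOn.map_inv hx',
      a2.homOn.map_conj hs' hx', a3 s hs, ← mul_inv_cancel_left x (τ x)] at a5
    generalize x⁻¹ * τ x = z at a4 a5
    have a6 : σ s * x * (σ s)⁻¹ = s * x * s⁻¹ := by
      have b1 := hcen z a4 _ (inv_mem (hσ.mem hs))
      have b2 := hcen z a4 _ (mul_mem (inv_mem hx) (mul_mem (mul_mem (hσ.mem hs) hx) (inv_mem (hσ.mem hs))))
      apply mul_left_cancel (a := x⁻¹)
      rw [← a5]
      calc x⁻¹ * (σ s * x * (σ s)⁻¹) = z⁻¹ * (x⁻¹ * (σ s * x * (σ s)⁻¹) * z) := by rw [b2]; group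
        _ = z⁻¹ * x⁻¹ * (σ s * x * ((σ s)⁻¹ * z)) := by group
        _ = _ := by rw [b1]; group
    rw [mem_centralizer_singleton_iff]
    calc s⁻¹ * σ s * x = s⁻¹ * (σ s * x * (σ s)⁻¹) * σ s := by group
      _ = _ := by rw [a6]; group
  rw [h1.focal_eq, hperf] at h2
  have h3 : U ≤ FusionSystem.centralizerIn S S := by
    rw [show U = zpowers x ⊔ F.center by
      rw [← h.pre_im (zpowers_le.mpr hx), (h.hom.mono (zpowers_le.mpr hx)).im_zpowers]]
    exact sup_le (zpowers_le.mpr ⟨hx, fun s hs => mem_centralizer_singleton_iff.mp (h2 (mem_sup_left hs))⟩)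
      fun z hz => ⟨center_le hz, fun s hs => hcen z hz s hs⟩
  have := finite_of_le hU.1
  have h4 := (h1.rsyl_of_fn (wc_fn (sc_weaklyClosed (normal_sc hU)))).eq_top_of_pmod (nfin_autF F U) fun α hα =>
    pow_mem_fix_of_fixMod (isPGroup_of_le hS hU.1) h.K_le_pre
      (mem_fix.mpr fun z hz => central_fix hZ (autF_mor hU.1 hα) (h.K_le_pre hz) hz)
      (mem_fixMod.mpr ⟨autF_le_stab _ _ hα, fun u hu => key U α (autF_mor hU.1 hα) h.K_le_pre u hu hu⟩)
  have h5 := central_of_fix hU le_rfl (by
    rw [← h4, autS_eq_fix_iff.mpr fun s hs => le_centralizer_iff.mp (h3.trans cIn_le_cent) hs.1])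
  exact (h.ker x hx).mpr (le_center h5 hxU)

end Cfsg.Agent.S5315
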