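import Cfsg.Statements.S5317
import Cfsg.Agent.H23.Simp2
import Cfsg.Agent.H12.PSL2Dih
-- import your own Cfsg.Agent.* helpers here

set_option autoImplicit false
open Cfsg

namespace Cfsg.Agent.S5317

section
open Cfsg Cfsg.FusionSystem Subgroup Cfsg.Agent.H23
open Equiv (Perm)

variable {G : Type*} [Group G]

theorem dihPair_sub' [Finite G] {H T : Subgroup G} {a s : G} (h : H12.IsDihedralPair H a s)
    (hT : T ≤ H) : T ≤ zpowers a ∨ ∃ a s, H12.IsDihedralPair T a s := by
  by_cases h1 : T ≤ zpowers a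
  · exact .inl h1
  · right
    obtain ⟨y, hy, hya⟩ := SetLike.not_le_iff_exists.1 h1
    obtain ⟨k, hk | hk⟩ := h.mem_iff.1 (hT hy)
    · exact absurd ⟨k, hk.symm⟩ hya
    have hc : IsCyclic ↥(T ⊓ zpowers a) := Subgroup.isCyclic_of_le inf_le_right
    obtain ⟨⟨c, hcT, j, hj⟩, hg⟩ := hc.exists_generator
    have hj' : a ^ j = c := hj
    have hyy : y * y = 1 := (h.mem_zpowers_or (hT hy)).resolve_left hya
    refine ⟨c, y, ?_, hyy, ?_, fun hh => hya ?_⟩
    · apply le_antisymm
      · intro z hz
        have key : ∀ w ∈ T, w ∈ zpowers a → w ∈ closure ({c, y} : Set G) := by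
          intro w hw hwa
          obtain ⟨m, hm⟩ := hg ⟨w, hw, hwa⟩
          have : c ^ m = w := congrArg Subtype.val hm
          rw [← this]
          exact zpow_mem (subset_closure (by simp)) m
        obtain ⟨i, hi | hi⟩ := h.mem_iff.1 (hT hz)
        · exact key z hz ⟨i, hi.symm⟩
        · have : y⁻¹ * z ∈ closure ({c, y} : Set G) := by
            refine key _ (T.mul_mem (T.inv_mem hy) hz) ⟨i - k, ?_⟩
            simp only [hk, hi]; group
          simpa using mul_mem (subset_closure (show y ∈ ({c, y} : Set G) by simp)) this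
      · rw [closure_le]
        rintro z (rfl | rfl)
        · exact hcT
        · exact hy
    · rw [← hj', hk]
      have := H11.conj_zpow_of_inv h.2.2.1 j
      rw [← zpow_neg, ← this]; group
    · obtain ⟨m, hm⟩ := hh
      exact ⟨j * m, by simp only at hm ⊢; rw [zpow_mul, hj', hm]⟩

end


/-- Let F be a finite field of odd order q with q² ≡ 1 mod 16 (so that a Sylow 2-subgroup of PSL(2,q), dihedral of order the 2-part of (q²−1)/2, has order at least 8). Then the 2-fusion system of PSL(2,F) on a Sylow 2-subgroup is simple: saturated, over a nontrivial 2-group, with no normal subsystem other than the trivial one and itself. -/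
theorem result {F : Type*} [Field F] [Fintype F] (hodd : Fintype.card F % 2 = 1) (h16 : 16 ∣ Fintype.card F ^ 2 - 1)
    (S : Sylow 2 (Matrix.ProjectiveSpecialLinearGroup (Fin 2) F)) :
    (Cfsg.groupFusionSystem (S : Subgroup (Matrix.ProjectiveSpecialLinearGroup (Fin 2) F))).IsSimple 2 := by
  open Cfsg.Agent.H23 Cfsg.FusionSystem Subgroup in
  have hq : 1 < Fintype.card F := Fintype.one_lt_card
  have h4 : 4 ≤ Fintype.card F := by
    by_contra h
    have : Fintype.card F = 3 := by omega
    rw [this] at h16; omega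
  have hno := H11.no_index_two_of_surjective (QuotientGroup.mk'_surjective (center (Matrix.SpecialLinearGroup (Fin 2) F)))
    (no_index_two_of_perfect (H12.commutator_SL_fin_eq_top 2 le_rfl fun _ => h4))
  have h8 : 2 ^ 3 ∣ Nat.card S := by
    have hG := H12.card_PSL2 (F := F) rfl
    rw [Nat.gcd_eq_left (by omega)] at hG
    have : 2 ^ 3 ∣ Nat.card (Matrix.ProjectiveSpecialLinearGroup (Fin 2) F) := by
      have := h16.mul_left (Fintype.card F)
      rw [← hG] at this; omega
    rw [S.card_eq_multiplicity]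
    exact pow_dvd_pow _ ((Nat.prime_two.pow_dvd_iff_le_factorization Nat.card_pos.ne').1 this)
  have h0 : (S : Subgroup (Matrix.ProjectiveSpecialLinearGroup (Fin 2) F)) ≠ ⊥ := fun h => by
    rw [h, card_bot] at h8; omega
  obtain ⟨x, -, b, c⟩ := SCl.exists_central (S := S.toSubgroup) (fun _ _ _ h => h) S.isPGroup' le_rfl h0
  have ho : Odd (Fintype.card F) := Nat.odd_iff.2 hodd
  obtain ⟨n, -, hn⟩ := H12.exists_four_mul_eq ho
  obtain ⟨a, s, d, -⟩ := H12.centralizer_invol (H12.two_ne_zero_of_odd_card ho) b hn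
  rcases dihPair_sub' d (T := S.toSubgroup) (fun s hs => mem_centralizer_singleton_iff.2 (c s hs)) with e | ⟨a, s, e⟩
  · have := Subgroup.isCyclic_of_le e
    obtain ⟨g, hg⟩ := this.exists_generator
    refine absurd (le_bot_iff.1 (SCl.le_of_cyclic_mod S hno (T := ⊥) (fun g x hx _ => by simp [mem_bot.1 hx]) bot_le g.2
      fun y hy => ?_)) h0
    obtain ⟨k, hk⟩ := hg ⟨y, hy⟩
    exact ⟨k, 1, one_mem _, by rw [mul_one]; exact (congrArg Subtype.val hk).symm⟩
  obtain ⟨m, hm⟩ := S.isPGroup'.exists_card_eq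
  obtain ⟨k, -, hk⟩ := (Nat.dvd_prime_pow Nat.prime_two).1 (show orderOf a ∣ 2 ^ m by rw [← hm, e.card]; exact dvd_mul_left _ _)
  obtain ⟨φ⟩ := e.nonempty_equiv
  rw [e.card, hk, ← pow_succ', Nat.pow_dvd_pow_iff_le_right one_lt_two] at h8
  rw [hk] at φ
  exact simple_of_dihedral S hno (by omega) φ

end Cfsg.Agent.S5317
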