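import Cfsg.Statements.S5319
import Cfsg.Agent.H23.GL2S
-- import your own Cfsg.Agent.* helpers here

set_option autoImplicit false
open Cfsg

namespace Cfsg.Agent.S5319

/-- Let q be an odd prime power and F a field with q² elements. Then the 2-fusion system of PSU(3,q) (realised as the special unitary group of the standard Hermitian form over F modulo its centre) on a Sylow 2-subgroup is simple. -/
theorem result {F : Type*} [Field F] [Fintype F] (q : ℕ) (hq : Fintype.card F = q ^ 2) (hodd : q % 2 = 1) (S : Sylow 2 (Cfsg.PSU 3 F q)) :
    (Cfsg.groupFusionSystem (S : Subgroup (Cfsg.PSU 3 F q))).IsSimple 2 := by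
  open Cfsg.Agent.H23 Cfsg.FusionSystem Subgroup in
  have hno := H11.no_index_two_of_surjective (QuotientGroup.mk'_surjective (center (SU 3 F q)))
    (no_index_two_of_perfect (H12.commutator_SU hq le_rfl (by omega)))
  exact (psu3_sylow hq hodd S).elim (simple_of_qd S hno) (simple_of_wreathed S hno)

end Cfsg.Agent.S5319
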