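import Cfsg.Statements.S5323
import Cfsg.Agent.H16.McL2

set_option autoImplicit false
open Cfsg

namespace Cfsg.Agent.S5323

/-- For a finite group G isomorphic to the McLaughlin group, the 2-fusion system of G on a Sylow 2-subgroup is simple: saturated, over a nontrivial 2-group, with no normal subsystem other than the trivial one and itself. -/
theorem result {G : Type*} [Group G] [Finite G] (hG : Cfsg.Spor.IsoMcL G) (S : Sylow 2 G) : (Cfsg.groupFusionSystem (S : Subgroup G)).IsSimple 2 := by
  obtain ⟨e⟩ := hG
  have : Fact (Nat.Prime 2) := ⟨Nat.prime_two⟩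
  exact H16.McL.fus.simple (e.trans H16.McL.iso).symm S

end Cfsg.Agent.S5323
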