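import Cfsg.Statements.S5328
import Cfsg.Agent.H23.Park
-- import your own Cfsg.Agent.* helpers here

set_option autoImplicit false
universe u
open Cfsg

namespace Cfsg.Agent.S5328

/-- Every fusion system over a finite p-group S, saturated or not, is realized inside some finite group: there is a finite group G and an injective homomorphism ι of S into G such that the maps of the system are exactly the homomorphisms between subgroups of S that become conjugations by elements of G (the image of S need not be a Sylow p-subgroup of G). -/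
theorem result {Ω : Type u} [Group Ω] {S : Subgroup Ω} [Finite S] (p : ℕ) [Fact p.Prime] (hS : IsPGroup p S) (F : Cfsg.FusionSystem S) : ∃ (G : Type u) (_ : Group G) (_ : Finite G) (ι : ↥S →* G), F.IsRealizedBy ι := by
  open Cfsg.Agent.H23 Subgroup in
  open Park MulAction in
  classical
  haveI := Fintype.ofFinite (Subgroup (S × S))
  let 𝓕 : Subgroup (S × S) → Prop := fun R => ∃ P f, Mor F P f ∧ ∀ r ∈ R, (r.2 : Ω) ∈ P ∧ f r.2 = r.1
  have f1 : ∀ g R, 𝓕 R → 𝓕 (cg g R) := by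
    rintro ⟨a, b⟩ R ⟨P, f, h1, h2⟩
    have h3 := mor_cj F h1.le (inv_mem b.2)
    refine ⟨im (cj (b : Ω)⁻¹) P, fun x => cj (a : Ω)⁻¹ (f ((cj (b : Ω)⁻¹)⁻¹ x)),
      (h3.inv.comp h1 fun x hx => h3.homOn.mem_im_perm.1 hx).comp (mor_cj F le_rfl (inv_mem a.2))
        fun x hx => h1.mem (h3.homOn.mem_im_perm.1 hx), ?_⟩
    rintro _ ⟨r, hr, rfl⟩
    exact ⟨mem_im_of_mem (cj (b : Ω)⁻¹) (h2 r hr).1,
      by simp [cj_apply, cj_inv_apply, mul_assoc, (h2 r hr).2]⟩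
  obtain ⟨c, c1, c2⟩ := exists_coeff 𝓕 f1 (Nat.card (S × S))
  let ρ := toPermHom (S × S) (Pt c)
  have f2 : ∀ (x : Pt c) (R : Subgroup (S × S)), (∀ r ∈ R, ρ r x = x) → 𝓕 R := by
    rintro ⟨⟨D, i⟩, y⟩ R h
    obtain ⟨g, rfl⟩ := QuotientGroup.mk_surjective y
    obtain ⟨P, f, h1, h2⟩ := f1 g⁻¹ D ((c1 D).1 i.pos.ne')
    have h3 := fix_iff.1 fun r hr => eq_of_heq (Sigma.mk.inj (h r hr)).2
    exact ⟨P, f, h1, fun r hr => h2 r ⟨_, h3 ⟨r, hr, rfl⟩, by simp [mul_assoc]⟩⟩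
  have f3 : ∀ R R', (𝓕 R ↔ 𝓕 R') → Nat.card R = Nat.card R' →
      (Fx ρ Set.univ R).ncard = (Fx ρ Set.univ R').ncard := fun R R' h e => by
    by_cases h1 : 𝓕 R
    · rw [card_fix, card_fix, c2 R R' h1 (h.1 h1) e (Nat.lt_add_of_pos_left Nat.card_pos)]
    · rw [Set.eq_empty_of_forall_notMem (s := Fx ρ Set.univ R) fun x hx => h1 (f2 x R hx.2),
        Set.eq_empty_of_forall_notMem (s := Fx ρ Set.univ R') fun x hx => h1 (h.2 (f2 x R' hx.2))]
  let Δ := ((MonoidHom.id S).prod (MonoidHom.id S)).range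
  have hΔ : 𝓕 Δ := ⟨S, fun x => x, mor_id F le_rfl, by rintro _ ⟨s, rfl⟩; exact ⟨s.2, rfl⟩⟩
  let x₀ : Pt c := ⟨⟨Δ, 0, Nat.pos_of_ne_zero ((c1 Δ).2 hΔ)⟩, (1 : S × S)⟩
  have x1 : ∀ r, ρ r x₀ = x₀ ↔ r ∈ Δ := fun r => by
    refine Iff.trans (b := r • ((1 : S × S) : (S × S) ⧸ Δ) = (1 : S × S))
      ⟨fun h => eq_of_heq (Sigma.mk.inj h).2, fun h => congrArg (Sigma.mk x₀.1) h⟩ ?_
    rw [eq_comm, MulAction.Quotient.smul_mk, QuotientGroup.eq, inv_one, one_mul, smul_eq_mul, mul_one]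
  let G := centralizer ((ρ.comp (MonoidHom.inr S S)).range : Set (Equiv.Perm (Pt c)))
  have m : ∀ s, ρ.comp (MonoidHom.inl S S) s ∈ G := by
    rintro s _ ⟨t, rfl⟩
    simp only [MonoidHom.comp_apply, ← map_mul, MonoidHom.inl_apply, MonoidHom.inr_apply, Prod.mk_mul_mk, one_mul, mul_one]
  refine ⟨G, inferInstance, inferInstance, (ρ.comp (MonoidHom.inl S S)).codRestrict G m,
    (injective_iff_map_eq_one _).2 fun s hs => ?_, fun P hP φ hφ => ⟨fun h => ?_, fun ⟨g, hg⟩ => ?_⟩⟩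
  · obtain ⟨t, ht⟩ := (x1 (s, 1)).1 (congrArg (fun g : G => g.1 x₀) hs)
    exact (congrArg Prod.fst ht).symm.trans (congrArg Prod.snd ht)
  · haveI := finite_of_le hP
    obtain ⟨τ, h1, h2⟩ := exists_perm_of_mem_hom h
    let i₁ := (inclusion hP).prodMap (MonoidHom.id S)
    let i₂ := (φ.codRestrict S hφ).prodMap (MonoidHom.id S)
    have e : ∀ (i : P × S →* S × S) H, Fx (ρ.comp i) Set.univ H = Fx ρ Set.univ (H.map i) := fun i H =>
      Set.ext fun x => and_congr_right fun _ => ⟨by rintro h _ ⟨r, hr, rfl⟩; exact h r hr, fun h r hr => h _ ⟨r, hr, rfl⟩⟩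
    obtain ⟨σ, hσ⟩ := marks (ρ.comp i₁) (ρ.comp i₂) fun H => by
      rw [e, e]
      refine f3 _ _ ⟨fun ⟨Q, f, h3, h4⟩ => ?_, fun ⟨Q, f, h3, h4⟩ => ?_⟩ ?_
      · let Q' := (H.map (MonoidHom.snd P S)).map S.subtype
        have q : ∀ x ∈ Q', x ∈ Q ∧ f x ∈ P := by
          rintro _ ⟨_, ⟨r, hr, rfl⟩, rfl⟩
          obtain ⟨h5, h6⟩ := h4 _ ⟨r, hr, rfl⟩
          exact ⟨h5, (h6 : f r.2 = r.1) ▸ r.1.2⟩
        refine ⟨Q', fun x => τ (f x), (h3.mono fun x hx => (q x hx).1).comp h1 fun x hx => (q x hx).2, ?_⟩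
        rintro _ ⟨r, hr, rfl⟩
        exact ⟨⟨_, ⟨r, hr, rfl⟩, rfl⟩, (congrArg τ (h4 _ ⟨r, hr, rfl⟩).2).trans (h2 r.1).symm⟩
      · let Q' := (H.map (MonoidHom.snd P S)).map S.subtype
        have q : ∀ x ∈ Q', x ∈ Q ∧ f x ∈ im τ P := by
          rintro _ ⟨_, ⟨r, hr, rfl⟩, rfl⟩
          obtain ⟨h5, h6⟩ := h4 _ ⟨r, hr, rfl⟩
          exact ⟨h5, ((h6 : f r.2 = φ r.1).trans (h2 r.1)) ▸ mem_im_of_mem τ r.1.2⟩
        refine ⟨Q', fun x => τ⁻¹ (f x), (h3.mono fun x hx => (q x hx).1).comp h1.inv fun x hx => (q x hx).2, ?_⟩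
        rintro _ ⟨r, hr, rfl⟩
        exact ⟨⟨_, ⟨r, hr, rfl⟩, rfl⟩, (congrArg (fun x => τ⁻¹ x) ((h4 _ ⟨r, hr, rfl⟩).2.trans (h2 r.1))).trans (pinv_apply τ _)⟩
      · rw [card_map_of_injective (f := i₁) ((inclusion_injective hP).prodMap Function.injective_id),
          card_map_of_injective (f := i₂) (((φ.injective_codRestrict S hφ).2 (F.injective_of_mem h)).prodMap
            Function.injective_id)]
    refine ⟨⟨σ, ?_⟩, fun x => Subtype.ext (eq_mul_inv_of_mul_eq (hσ (x, 1)).symm)⟩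
    rintro _ ⟨t, rfl⟩
    have := hσ (1, t)
    simp only [MonoidHom.comp_apply, i₁, i₂, MonoidHom.coe_prodMap, Prod.map_apply, map_one] at this
    exact this.symm
  · obtain ⟨Q, f, h1, h2⟩ := f2 (g.1 x₀) ((φ.codRestrict S hφ).prod (inclusion hP)).range (by
      rintro _ ⟨u, rfl⟩
      have e1 : ρ (⟨φ u, hφ u⟩, 1) = g * ρ (inclusion hP u, 1) * g.1⁻¹ := congrArg Subtype.val (hg u)
      have e2 : ρ (1, inclusion hP u) * g = g * ρ (1, inclusion hP u) := g.2 _ ⟨_, rfl⟩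
      have e3 : ρ ((φ.codRestrict S hφ).prod (inclusion hP) u) = ρ (⟨φ u, hφ u⟩, 1) * ρ (1, inclusion hP u) := by
        rw [← map_mul, Prod.mk_mul_mk, mul_one, one_mul]; rfl
      rw [e3, e1, ← Equiv.Perm.mul_apply, mul_assoc, e2, mul_assoc, inv_mul_cancel_left, mul_assoc, ← map_mul,
        Equiv.Perm.mul_apply, (x1 _).2 ⟨inclusion hP u, by simp⟩])
    exact (h1.mono fun x hx => (h2 _ ⟨⟨x, hx⟩, rfl⟩).1).mem_hom fun x => (h2 _ ⟨x, rfl⟩).2.symm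

end Cfsg.Agent.S5328
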