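import Cfsg.Statements.S5330
import Cfsg.Agent.L0.FFoc

set_option autoImplicit false
open Cfsg

namespace Cfsg.Agent.S5330

open Subgroup Cfsg.Agent.H23 Cfsg.Agent.H23.LF


/-- Let F be a saturated fusion system over a finite abelian p-group S. Then S is the internal direct product of the centre of the system and the focal subgroup: Z(F) ∩ foc(F) = 1 and Z(F)·foc(F) = S. -/
theorem result {Ω : Type*} [Group Ω] {S : Subgroup Ω} [Finite S] (p : ℕ) [Fact p.Prime] (hS : IsPGroup p S) (F : Cfsg.FusionSystem S) (hF : F.IsSaturated p) (hab : ∀ x ∈ S, ∀ y ∈ S, x * y = y * x) : F.center ⊓ F.focalSubgroup = ⊥ ∧ F.center ⊔ F.focalSubgroup = S := by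
  have h : S ≤ centralizer (S : Set Ω) := fun x hx y hy => hab y hy x hx
  refine ⟨eq_bot_iff.mpr ?_, Sat.center_sup_focal ⟨hS, hF⟩ h⟩
  rw [inf_comm, ← commutator_eq_bot_iff_le_centralizer.mpr h]
  exact Sat.focal_inf_center_le ⟨hS, hF⟩

end Cfsg.Agent.S5330
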