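import Cfsg.Statements.S5600
import Cfsg.Agent.H16.M24h

set_option autoImplicit false
open scoped Pointwise
open Cfsg

namespace Cfsg.Agent.S5600
open H16 MulAction in
theorem six (x y : Fin 6 → GolayPt) (hx : Function.Injective x) (hy : Function.Injective y)
    (h1 : ¬ ∃ o ∈ octads, ∀ i, x i ∈ o) (h2 : ¬ ∃ o ∈ octads, ∀ i, y i ∈ o) : ∃ g ∈ (⊤ : Subgroup M24), ∀ i, g • x i = y i := by
  obtain ⟨g, hg⟩ := M24_five (fun i => x i.succ) (fun i => y i.succ) (hx.comp (Fin.succ_injective _))
    (hy.comp (Fin.succ_injective _))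
  obtain ⟨o, ⟨ho, h3⟩, -⟩ := octads_steiner.2 (Finset.univ.image fun i : Fin 5 => y i.succ)
    (Finset.card_image_of_injective _ (hy.comp (Fin.succ_injective _)))
  have h4 : ∀ i : Fin 5, y i.succ ∈ o := fun i => h3 (Finset.mem_image_of_mem _ (Finset.mem_univ i))
  obtain ⟨a, ha, e⟩ := fix_oct_trans ho (x := g • x 0) (y := y 0)
    (fun h => h1 ⟨g⁻¹ • o, M24_smul_mem_octads _ ho, fun i => by
      rw [← mem_inv_smul, inv_inv]
      exact Fin.cases h (fun j => hg j ▸ h4 j) i⟩) fun h => h2 ⟨o, ho, Fin.cases h h4⟩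
  exact ⟨a * g, trivial, Fin.cases (by rw [mul_smul, e]) fun j => by
    rw [mul_smul, hg j, (mem_fixingSubgroup_iff M24).mp ha _ (h4 j)]⟩

open H16 in
theorem fixc {F : ℕ} {S B : List ℕ} {steps : List (List ℕ)} {m : ℕ} (hB : ∀ b ∈ B, b < 24) (A : List ℕ)
    (hA : ∀ i < 24, F.testBit i = true → bit i ∈ A) (hm : m ≠ 0)
    (h : andB (allL S (fixAll A)) (andB (Nat.beq (ubChain steps F) m) (Nat.beq (lbChain 5 24 B S) m)) = true) :
    Nat.card (fixingSubgroup M24 (toSet F : Set GolayPt)) = m := by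
  rw [andB_iff, andB_iff, Nat.beq_eq, Nat.beq_eq] at h
  refine le_antisymm (h.2.1 ▸ card_le_ubChain steps F _ (fun g hg => (mem_fixingSubgroup_iff M24).mp hg) (h.2.1 ▸ hm))
    (h.2.2 ▸ lbChain_le gpt_inj B hB _ (inK_of_fixAll h.1 fun g hg => (mem_fixingSubgroup_iff M24).mpr
      (forall_toSet fun i hi h => fix_bit hg hi (hA i hi h))))

open H16 in
theorem f16 : Nat.card (fixingSubgroup M24 (toSet 16431 : Set GolayPt)) = 16 :=
  fixc (S := [972512676110088067912772961567868960, 965128854020860192151391391390468128, 970499966350631336865513127433832480,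
    967812279691448225500382947153381408]) (B := [4]) (steps := [[4, 8241104], [6, 2162811, 1065303], [7, 2121909, 1327290],
    [8, 1065303, 11501506], [9, 21116, 15970228], [10, 18147], [11, 10558, 16113570], [12, 21116], [13, 10558], [15, 45159],
    [16, 118953], [17, 201013], [18, 421910], [19, 843820], [20, 1302533], [21, 3715070], [22, 4845570], [23]]) (by decide)
    [bit 0, bit 1, bit 2, bit 3, bit 5, bit 14] (by decide +kernel) (by norm_num) (by decide +kernel)

open H16 in
theorem f3 : Nat.card (fixingSubgroup M24 (toSet 63 : Set GolayPt)) = 3 :=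
  fixc (S := [608167165260361641911015062699608096]) (B := [6]) (steps := [[6, 2162811], [7, 4325622, 262637],
    [8, 262637, 8093601], [9, 525274, 16113570], [10, 5279, 16732056], [11, 10558, 16113570], [12, 5279], [13, 10558],
    [14, 21116], [15, 45159], [16, 118953], [17, 201013], [18, 421910], [19, 843820], [20, 1302533], [21, 3715070],
    [22, 4845570], [23]]) (by decide)
    [bit 0, bit 1, bit 2, bit 3, bit 4, bit 5] (by decide +kernel) (by norm_num) (by decide +kernel)

open H16 in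
theorem sub {s t : Finset GolayPt} (hs : s.card = 6) (ht : t.card = 6) (h1 : ¬ ∃ o ∈ octads, s ⊆ o) (h2 : ¬ ∃ o ∈ octads, t ⊆ o) :
    ∃ g : M24, g • s = t := by
  let a := Finset.equivFinOfCardEq hs
  let b := Finset.equivFinOfCardEq ht
  obtain ⟨g, -, hg⟩ := six (fun i => a.symm i) (fun i => b.symm i) (Subtype.val_injective.comp a.symm.injective)
    (Subtype.val_injective.comp b.symm.injective)
    (fun ⟨o, ho, h⟩ => h1 ⟨o, ho, fun z hz => by simpa using h (a ⟨z, hz⟩)⟩)
    (fun ⟨o, ho, h⟩ => h2 ⟨o, ho, fun z hz => by simpa using h (b ⟨z, hz⟩)⟩)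
  refine ⟨g, Finset.eq_of_subset_of_card_le (fun y hy => ?_) (by rw [Finset.card_smul_finset, hs, ht])⟩
  obtain ⟨z, hz, rfl⟩ := Finset.mem_smul_finset.mp hy
  have := hg (a ⟨z, hz⟩)
  simp only [Equiv.symm_apply_apply] at this
  exact this ▸ Subtype.property _


/-- Although the group of the length-24 code is only 5-transitive on the 24 points, it induces the full symmetric group on every 6-element subset: every permutation of a 6-set E is the restriction of an element of the group mapping E to itself. The pointwise stabiliser of E has order 16 when E lies in an octad and order 3 otherwise; in the latter case the setwise stabiliser of E has order 2160. -/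
theorem result (E : Finset Cfsg.GolayPt) (hE : E.card = 6) : (∀ σ : Equiv.Perm ↥E, ∃ g ∈ Cfsg.M24, ∀ p : ↥E, g p = σ p) ∧ ((∃ o ∈ Cfsg.octads, E ⊆ o) → Nat.card {g : Equiv.Perm Cfsg.GolayPt // g ∈ Cfsg.M24 ∧ ∀ p ∈ E, g p = p} = 16) ∧ ((¬ ∃ o ∈ Cfsg.octads, E ⊆ o) → Nat.card {g : Equiv.Perm Cfsg.GolayPt // g ∈ Cfsg.M24 ∧ ∀ p ∈ E, g p = p} = 3 ∧ Nat.card ↥(MulAction.stabilizer Cfsg.M24 E) = 2160) := by
  have h1 : ∀ σ : Equiv.Perm E, ∃ g : M24, ∀ p : E, g • (p : GolayPt) = σ p := fun σ => by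
    by_cases h : ∃ o ∈ octads, E ⊆ o
    · obtain ⟨o, ho, h⟩ := h
      obtain ⟨k, rfl⟩ := H16.M24_octad H16.oct0_mem ho
      obtain ⟨g, -, hg⟩ := H16.perm_of_tuple hE (fun x y hx hy h1 h2 => H16.tuple_conj (H16.conj_mem_stabilizer k (a := _))
        (H16.KO_tuple le_rfl) x y hx hy (fun i => h (h1 i)) fun i => h (h2 i)) σ
      exact ⟨g, hg⟩
    · have key : ∀ x : Fin 6 → GolayPt, Function.Injective x → (∀ i, x i ∈ E) → ¬ ∃ o ∈ octads, ∀ i, x i ∈ o :=
        fun x hx h1 ⟨o, ho, h2⟩ => h ⟨o, ho, by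
          rw [← Finset.eq_of_subset_of_card_le (s := Finset.univ.image x) (t := E) (Finset.image_subset_iff.mpr fun i _ => h1 i)
            (by rw [Finset.card_image_of_injective _ hx, hE]; rfl)]
          exact Finset.image_subset_iff.mpr fun i _ => h2 i⟩
      obtain ⟨g, -, hg⟩ := H16.perm_of_tuple hE (fun x y hx hy h1 h2 => six x y hx hy (key x hx h1) (key y hy h2)) σ
      exact ⟨g, hg⟩
  have h2 := H16.card_sub_equiv (P := fun g => ∀ p ∈ E, g p = p) (fixingSubgroup M24 (E : Set GolayPt))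
    fun g => mem_fixingSubgroup_iff M24
  refine ⟨fun σ => let ⟨g, hg⟩ := h1 σ; ⟨g, g.2, hg⟩, fun ⟨o, ho, h⟩ => ?_, fun h => ?_⟩
  · obtain ⟨k, -, rfl⟩ := H16.flag_oct_subset (s := H16.toSet 16431) ho (by decide +kernel) h (by rw [hE]; decide +kernel)
      (by decide +kernel)
    rw [h2, H16.card_conj (H16.conj_mem_fixing k _), f16]
  · have h3 : Nat.card (fixingSubgroup M24 (E : Set GolayPt)) = 3 := by
      obtain ⟨k, rfl⟩ := sub (s := H16.toSet 63) (by decide +kernel) hE
        (by rw [H16.inOct_iff (by norm_num)]; decide +kernel) h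
      rw [H16.card_conj (H16.conj_mem_fixing k _), f3]
    have := H16.card_ker_mul _ (H16.stabHom_surj h1)
    rw [H16.card_ker_stabHom, h3, Nat.card_perm, Nat.card_eq_fintype_card (α := E), Fintype.card_coe, hE] at this
    exact ⟨h2.trans h3, this.symm⟩

end Cfsg.Agent.S5600
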