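import Cfsg.Statements.S5521
import Cfsg.Agent.S5600

set_option autoImplicit false
open Cfsg

namespace Cfsg.Agent.S5521

/-- The Mathieu group M₂₄ in its natural action on the 24 coordinate positions of the binary Golay code has minimal base size exactly 7: every set of at most 6 positions is fixed pointwise by some non-identity element of M₂₄, while some set of 7 positions is fixed pointwise only by the identity. -/
theorem result :
    (∀ B : Finset Cfsg.GolayPt, B.card ≤ 6 → ∃ g ∈ Cfsg.M24, g ≠ 1 ∧ ∀ b ∈ B, g b = b) ∧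
    (∃ B : Finset Cfsg.GolayPt, B.card = 7 ∧ ∀ g ∈ Cfsg.M24, (∀ b ∈ B, g b = b) → g = 1) := by
  constructor
  · intro B hB
    obtain ⟨E, h1, h2⟩ := Finset.exists_superset_card_eq hB (by decide)
    obtain ⟨-, h3, h4⟩ := S5600.result E h2
    have : 1 < Nat.card {g : Equiv.Perm GolayPt // g ∈ M24 ∧ ∀ p ∈ E, g p = p} := by
      by_cases h : ∃ o ∈ octads, E ⊆ o
      · rw [h3 h]; norm_num
      · rw [(h4 h).1]; norm_num
    have := Finite.one_lt_card_iff_nontrivial.mp this
    obtain ⟨g, hg⟩ := exists_ne (⟨1, M24.one_mem, fun _ _ => rfl⟩ : {g : Equiv.Perm GolayPt // g ∈ M24 ∧ ∀ p ∈ E, g p = p})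
    exact ⟨g, g.2.1, fun e => hg (Subtype.ext e), fun b hb => g.2.2 b (h1 hb)⟩
  · refine ⟨H16.toSet 8388671, by decide +kernel, fun g hg h => congrArg Subtype.val
      (H16.eq_one_of_base H16.mulOk24 H16.gpt_inj H16.card_top_M24.le H16.m24S_inK [] [23, 0, 1, 2, 3, 4, 5] (by decide)
        (by decide +kernel) (g := ⟨g, hg⟩) trivial fun b hb => h _ (by revert b; decide +kernel))⟩

end Cfsg.Agent.S5521
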