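import Cfsg.Statements.S5549
import Mathlib
import Cfsg.Agent.H2.M24W

set_option autoImplicit false
open Cfsg

namespace Cfsg.Agent.S5549

open H2.St H16 Finset
open scoped symmDiff

/-- Let X be a group of linear automorphisms of the length-24 binary Golay code of the definitions that fix the all-ones word, containing the coordinate-permutation action of every element of the code's automorphism group (the Mathieu group of degree 24), and such that every element of X sends each codeword into its orbit under that Mathieu group up to adding the all-ones word (X has the same orbits as the Mathieu group on the code modulo the all-ones word). Then every element of X agrees, modulo the all-ones word, with the action of a single element of the Mathieu group: X induces exactly the Mathieu group on the code modulo the all-ones word. -/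
theorem result (X : Subgroup (↥Cfsg.golayCode ≃ₗ[ZMod 2] ↥Cfsg.golayCode)) (h1 : ∀ x ∈ X, ∀ e : ↥Cfsg.golayCode, (e : (Cfsg.GolayPt → ZMod 2)) = (fun _ => (1 : ZMod 2)) → x e = e) (hM : ∀ σ ∈ Cfsg.M24, ∃ x ∈ X, ∀ c : ↥Cfsg.golayCode, ((x c : ↥Cfsg.golayCode) : (Cfsg.GolayPt → ZMod 2)) = fun p => (c : (Cfsg.GolayPt → ZMod 2)) (σ.symm p)) (horb : ∀ x ∈ X, ∀ c : ↥Cfsg.golayCode, ∃ σ ∈ Cfsg.M24, ((x c : ↥Cfsg.golayCode) : (Cfsg.GolayPt → ZMod 2)) = (fun p => (c : (Cfsg.GolayPt → ZMod 2)) (σ.symm p)) ∨ ((x c : ↥Cfsg.golayCode) : (Cfsg.GolayPt → ZMod 2)) = (fun p => (c : (Cfsg.GolayPt → ZMod 2)) (σ.symm p)) + fun _ => (1 : ZMod 2)) (x : ↥Cfsg.golayCode ≃ₗ[ZMod 2] ↥Cfsg.golayCode) (hx : x ∈ X) : ∃ σ ∈ Cfsg.M24, ∀ c : ↥Cfsg.golayCode, ((x c : ↥Cfsg.golayCode) : (Cfsg.GolayPt → ZMod 2)) = (fun p => (c : (Cfsg.GolayPt → ZMod 2)) (σ.symm p)) ∨ ((x c : ↥Cfsg.golayCode) : (Cfsg.GolayPt → ZMod 2)) = (fun p => (c : (Cfsg.GolayPt → ZMod 2)) (σ.symm p)) + fun _ => (1 : ZMod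 2) := by
  let R := fun p q (V : Finset GolayPt) => ∀ c : golayCode, (x c).1 p = (x c).1 q ↔ Even #(V ∩ support₂ c.1)
  have a1 : ∀ p q, p ≠ q → ∃ V, #V = 2 ∧ R p q V := fun p q hpq => by
    obtain ⟨f, hf⟩ := LinearMap.exists_extend ((LinearMap.proj (R := ZMod 2) (φ := fun _ => ZMod 2) p -
      LinearMap.proj (R := ZMod 2) (φ := fun _ => ZMod 2) q) ∘ₗ golayCode.subtype ∘ₗ x.toLinearMap)
    obtain ⟨c, c1, c2⟩ := gol_gSets.cover (support₂ fun i => f (Pi.single i 1))
    have b1 : R p q (support₂ (fun i => f (Pi.single i 1)) ∆ c) := fun w => by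
      rw [even_inter_xor, iff_true_intro (even_card_inter c1 (H2.St.sup_mem.2 w.2)), iff_true,
        ← ZMod.natCast_eq_zero_iff_even, ← dot_eq, ← sub_eq_zero,
        show (x w).1 p - (x w).1 q = f w from (LinearMap.congr_fun hf w).symm, LinearMap.pi_apply_eq_sum_univ]
      simp only [mul_comm, smul_eq_mul, Pi.single_apply]
      congr! 4
      ext; simp [Pi.single_apply, eq_comm]
    generalize support₂ _ ∆ c = V at *
    refine ⟨V, ?_, b1⟩
    obtain ⟨r, b2⟩ : Even #V := by
      have := b1 ⟨_, H2.St.sup_mem.1 (H2.St.sup_one ▸ univ_mem_gSets)⟩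
      rw [h1 x hx _ rfl] at this
      simpa only [H2.St.sup_one, inter_univ] using this.1 rfl
    have b3 : ∀ w : golayCode, w.1 p = w.1 q ↔ Even #({p, q} ∩ support₂ w.1) := fun w => by
      have : ∀ a b : ZMod 2, a = b ↔ (a = 1 ↔ b = 1) := by decide
      rw [this, ← H2.St.mem_sup, ← H2.St.mem_sup]
      by_cases e : p ∈ support₂ w.1 <;> by_cases e' : q ∈ support₂ w.1 <;> simp [e, e', card_pair hpq]
    have b4 := ncard_even {p, q} (m := 3) ((card_pair hpq).trans (by decide +kernel)) (card_le_two.trans (by omega))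
    have b5 : {s | s ∈ gSets ∧ (#s = 8 ∨ #s = 16) ∧ Even #(V ∩ s)}.ncard =
        {s | s ∈ gSets ∧ (#s = 8 ∨ #s = 16) ∧ Even #({p, q} ∩ s)}.ncard := by
      have k : ∀ Q : Finset GolayPt → Prop, {s | s ∈ gSets ∧ Q s}.ncard = {c : golayCode | Q (support₂ c.1)}.ncard :=
        fun Q => by
          rw [← Set.ncard_image_of_injective _ (support_injective.comp Subtype.val_injective)]
          congr 1; ext s
          exact ⟨fun ⟨⟨w, hw, e⟩, h⟩ => ⟨⟨w, hw⟩, by subst e; exact h, e⟩,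
            by rintro ⟨w, h, rfl⟩; exact ⟨H2.St.sup_mem.2 w.2, h⟩⟩
      rw [k, k, eq_comm, ← Set.ncard_preimage_of_injective_subset_range x.injective fun w _ => x.surjective w]
      congr 1; ext w
      obtain ⟨σ, -, e⟩ := horb x hx w
      have := card_le_univ (support₂ w.1)
      simp only [Set.mem_setOf_eq, Set.mem_preimage, ← b3, b1 w, and_congr_left_iff]
      rcases e with e | e <;> rw [e]
      · simp [sup_perm]
      · rw [H2.St.sup_add, sup_perm, H2.St.sup_one, show ∀ s : Finset GolayPt, s ∆ univ = sᶜ from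
          fun s => by ext; simp [mem_symmDiff], card_compl, card_smul_finset]
        rw [card_golayPt] at *
        omega
    rw [b4] at b5
    by_contra e
    rcases (by omega : #V = 0 ∨ #V = 4) with e | e
    · exact absurd ((ncard_even V (m := 0) (e.trans (by decide +kernel)) (by omega)).symm.trans b5) (by decide +kernel)
    · exact absurd ((ncard_even V (m := 15) (e.trans (by decide +kernel)) (by omega)).symm.trans b5) (by decide +kernel)
  choose! V v1 v2 using a1
  have a2 : ∀ {p q U W}, R p q U → R p q W → #U ≤ 4 → #W = 2 → U = W := fun {p q U W} a b c d =>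
    symmDiff_eq_bot.1 (gol_gSets.eq (gol_gSets.dual (by
      rintro _ ⟨w, hw, rfl⟩
      exact even_inter_xor.2 ((a ⟨w, hw⟩).symm.trans (b ⟨w, hw⟩)))) empty_mem_gSets
      (by have := card_symmDiff_le U W; rw [symmDiff_bot]; omega))
  have a3 : ∀ p q r, p ≠ q → p ≠ r → q ≠ r → V p q ∆ V p r = V q r := fun p q r a b c =>
    a2 (fun w => by
      rw [even_inter_xor, ← v2 p q a, ← v2 p r b]
      generalize (x w).1 p = i, (x w).1 q = j, (x w).1 r = k
      revert i j k; decide) (v2 q r c) (by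
        have := card_symmDiff_le (V p q) (V p r); rw [v1 p q a, v1 p r b] at this; omega) (v1 q r c)
  have a4 : ∀ p q, p ≠ q → V p q = V q p := fun p q h =>
    a2 (v2 p q h) (fun w => eq_comm.trans (v2 q p h.symm w)) (by rw [v1 p q h]; omega) (v1 q p h.symm)
  have a5 : ∀ p, ∃ z, ∀ q, p ≠ q → z ∈ V p q := fun p => by
    have b1 : ∀ q r, p ≠ q → p ≠ r → q ≠ r → #(V p q ∩ V p r) = 1 := fun q r a b c => by
      have := card_symmDiff_add (V p q) (V p r)
      rw [a3 p q r a b c, v1 p q a, v1 p r b, v1 q r c] at this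
      omega
    obtain ⟨q, b2, -⟩ := exists_ne4 p p p p
    obtain ⟨r, b3, b4, -⟩ := exists_ne4 p q p p
    obtain ⟨z, hz⟩ := card_eq_one.1 (b1 q r b2 b3 b4)
    have b5 := hz.ge (mem_singleton_self z)
    refine ⟨z, fun u hu => ?_⟩
    rcases eq_or_ne q u with rfl | e
    · exact (mem_inter.1 b5).1
    rcases eq_or_ne r u with rfl | e'
    · exact (mem_inter.1 b5).2
    obtain ⟨v, c1, c2, c3, c4⟩ := exists_ne4 p q r u
    exact pair4 (v1 p q b2) (v1 p r b3) (v1 p u hu) (v1 p v c1) (b1 _ _ b2 b3 b4) (b1 _ _ b2 hu e) (b1 _ _ b2 c1 c2)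
      (b1 _ _ b3 hu e') (b1 _ _ b3 c1 c3) (b1 _ _ hu c1 c4) b5
  choose τ a5 using a5
  have a6 : τ.Injective := fun p q e => by_contra fun h => by
    obtain ⟨r, b1, b2, -⟩ := exists_ne4 p q p p
    have := a3 p q r h b1 b2 ▸ e ▸ a5 q r b2
    simp [mem_symmDiff, a5 p q h, a5 p r b1] at this
  have a7 : ∀ p q, ∀ c : golayCode, (x c).1 p = (x c).1 q ↔ c.1 (τ p) = c.1 (τ q) := fun p q c => by
    rcases eq_or_ne p q with rfl | h
    · simp
    rw [v2 p q h, ← eq_of_subset_of_card_le (s := {τ p, τ q}) (insert_subset (a5 p q h)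
      (singleton_subset_iff.2 (a4 p q h ▸ a5 q p h.symm))) (by rw [v1 p q h, card_pair (a6.ne h)])]
    have : ∀ a b : ZMod 2, a = b ↔ (a = 1 ↔ b = 1) := by decide
    rw [this, ← H2.St.mem_sup, ← H2.St.mem_sup]
    by_cases e : τ p ∈ support₂ c.1 <;> by_cases e' : τ q ∈ support₂ c.1 <;> simp [e, e', card_pair (a6.ne h)]
  let σ := (Equiv.ofBijective τ a6.bijective_of_finite).symm
  have a8 : ∀ c : golayCode, (x c).1 = (fun p => c.1 (σ.symm p)) ∨ (x c).1 = (fun p => c.1 (σ.symm p)) + fun _ => 1 :=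
    fun c => by
      have : ∀ a b : ZMod 2, (∀ c d : ZMod 2, (c = a ↔ d = b) → c = d) ∨ ∀ c d : ZMod 2, (c = a ↔ d = b) → c = d + 1 := by
        decide
      exact (this _ _).imp (fun h => funext fun p => h _ _ (a7 p none c)) fun h => funext fun p => h _ _ (a7 p none c)
  refine ⟨σ, mem_M24_of_subset ?_, a8⟩
  rintro _ ⟨w, hw, rfl⟩
  rw [← sup_perm]
  rcases a8 ⟨w, hw⟩ with e | e
  · exact H2.St.sup_mem.2 (e ▸ (x _).2)
  · exact H2.St.sup_mem.2 (eq_sub_of_add_eq e.symm ▸ sub_mem (x _).2 (H2.St.sup_mem.1 (H2.St.sup_one ▸ univ_mem_gSets)))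

end Cfsg.Agent.S5549
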