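import Cfsg.Statements.S5562
import Cfsg.Agent.H29.TT7

set_option autoImplicit false
open Cfsg

namespace Cfsg.Agent.S5562
open Cfsg.Agent.H29


/-- Let G be a finite group, d an involution of G whose conjugates pairwise have products of odd order, and x any involution of G. Then the conjugacy class of d is the disjoint union, over the conjugates a of d commuting with x, of the sets of conjugates of d commuting with ax: every conjugate of d commutes with ax for exactly one conjugate a of d that commutes with x. -/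
theorem result {G : Type*} [Group G] [Finite G] (d : G) (hd : orderOf d = 2)
    (hodd : ∀ a ∈ conjugatesOf d, ∀ b ∈ conjugatesOf d, Odd (orderOf (a * b)))
    (x : G) (hx : orderOf x = 2) :
    ∀ e ∈ conjugatesOf d,
      ∃! a : G, a ∈ conjugatesOf d ∧ Commute a x ∧ Commute e (a * x) := by
  have cj : ∀ g : G, ∀ a ∈ conjugatesOf d, g * a * g⁻¹ ∈ conjugatesOf d := fun g a ha =>
    IsConj.trans ha (isConj_iff.2 ⟨g, rfl⟩)
  have o2 : ∀ a ∈ conjugatesOf d, orderOf a = 2 := fun a ha => by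
    obtain ⟨g, rfl⟩ := isConj_iff.1 ha; rw [orderOf_cj, hd]
  intro e he
  let f : conjugatesOf d → conjugatesOf d := fun a => ⟨a * e * (a : G)⁻¹, cj _ e he⟩
  have hs : Function.Surjective f := fun ⟨b, hb⟩ => by
    obtain ⟨k, hk⟩ := hodd b hb e he
    have ie : ∀ k : ℕ, e * (b * e) ^ k = ((b * e) ^ k)⁻¹ * e := fun k => by
      rw [← inv_pow, ← mul_inv_eq_iff_eq_mul, ← conj_pow]
      congr 1
      rw [← mul_assoc, mul_inv_cancel_right, mul_inv_rev, inv_of_two (o2 b hb), inv_of_two (o2 e he)]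
    have h1 : (b * e) ^ (2 * k + 1) = 1 := by rw [← hk, pow_orderOf_eq_one]
    have h2 : ∀ j : ℕ, (b * e) ^ j * e * ((b * e) ^ j)⁻¹ = (b * e) ^ (2 * j) * e := fun j => by
      rw [mul_inv_eq_iff_eq_mul, mul_assoc, ie, two_mul, pow_add, mul_assoc, mul_inv_cancel_left]
    refine ⟨⟨_, cj ((b * e) ^ ((k + 1) * (k + 1))) e he⟩, Subtype.ext ?_⟩
    simp only [f]
    rw [h2, mul_inv_rev, mul_assoc, mul_inv_cancel_left, h2,
      show 2 * (2 * ((k + 1) * (k + 1))) = (2 * k + 1) * (2 * k + 3) + 1 by ring, pow_succ, pow_mul, h1, one_pow, one_mul,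
      mul_assoc, mul_self_of_two (o2 e he), mul_one]
  have hi := Finite.injective_iff_surjective.2 hs
  have ix := inv_of_two hx
  have key : ∀ a ∈ conjugatesOf d, Commute e (a * x) ↔ a * e * a⁻¹ = x * e * x⁻¹ := fun a ha => by
    rw [Commute.symm_iff, commute_iff_cj, ← cj_cj, ← cj_inj a⁻¹, cj_inv_cj, inv_inv, inv_of_two (o2 a ha), eq_comm]
  obtain ⟨⟨a, ha⟩, h⟩ := hs ⟨_, cj x e he⟩
  have h : a * e * a⁻¹ = x * e * x⁻¹ := congrArg Subtype.val h
  refine ⟨a, ⟨ha, ?_, (key a ha).2 h⟩, fun b hb => congrArg Subtype.val (hi (a₁ := ⟨b, hb.1⟩) (a₂ := ⟨a, ha⟩)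
    (Subtype.ext (((key b hb.1).1 hb.2.2).trans h.symm)))⟩
  refine (commute_iff_cj.2 (congrArg Subtype.val (hi (a₁ := ⟨_, cj x a ha⟩) (a₂ := ⟨a, ha⟩) (Subtype.ext ?_)))).symm
  change x * a * x⁻¹ * e * (x * a * x⁻¹)⁻¹ = a * e * a⁻¹
  rw [show x * a * x⁻¹ * e * (x * a * x⁻¹)⁻¹ = x * (a * (x⁻¹ * e * x⁻¹⁻¹) * a⁻¹) * x⁻¹ by group, inv_inv,
    show x⁻¹ * e * x = x * e * x⁻¹ by rw [ix], ← h, cj_cj a a, mul_self_of_two (o2 a ha), h]
  simp

end Cfsg.Agent.S5562
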