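import Cfsg.Statements.S5579
import Cfsg.Agent.H21.Jk7
import Cfsg.Agent.J4C.Main
import Cfsg.Agent.J4A.Nab
import Cfsg.Agent.S5564

set_option autoImplicit false
set_option linter.style.haveILetI false
open Cfsg

namespace Cfsg.Agent.S5579

open Cfsg.Agent.LL Cfsg.Agent.LL.U6 Cfsg.Agent.H16 Cfsg.Agent.H3 Cfsg.Agent.H10 Mdl Subgroup

variable {G : Type*} [Group G] [Finite G] {z : G} {Q : Subgroup G} {ρ : centralizer ({z} : Set G) →* Γ} {p : G → V6}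
  {m : FT z Q ρ p} {x : centralizer ({z} : Set G)} {b : ℕ → G} {d : ℕ → centralizer ({z} : Set G)} {t : Finset GolayPt → G}
  {Φ : normalizer (m.AG : Set G) →* M24}

theorem ordY (j : JF m x) {y : centralizer ({z} : Set G)} (h : y * x = x * y) (o : ¬ 2 ∣ orderOf y) : orderOf y = orderOf (ρ y) :=
  Nat.dvd_antisymm (orderOf_dvd_of_pow_eq_one (j.eq_odd ((show Commute y x from h).pow_left _) (Commute.one_left x)
    (by rw [map_pow, pow_orderOf_eq_one, map_one]) (n := orderOf y) (by omega)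
    (by rw [← pow_mul, mul_comm, pow_mul, pow_orderOf_eq_one, one_pow]) (one_pow _))) (orderOf_map_dvd _ _)

theorem kc_3 (k : JC m x b d t Φ) (c3 : ∀ x y : G, orderOf x = 3 → orderOf y = 3 → IsConj x y) :
    kc {g : G | ¬ 2 ∣ orderOf g ∧ ¬ 7 ∣ orderOf g ∧ 3 ∣ orderOf g} = 4 := by
  have j := k.j
  have x3 : orderOf (x : G) = 3 := (orderOf_coe x).trans j.ord
  have R := fun l => (zd_R (zd_mem l)).1
  have l : ∀ l : Fin 23, (zd l).n % 2 = 1 → cjM o (zd l).g cW cW = true → ∃ y : centralizer ({z} : Set G), y * x = x * y ∧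
      ρ y = el (zd l).g ∧ y ^ (zd l).n = 1 ∧ orderOf (y : G) = (zd l).n ∧ j.vz y = vc 0 := fun l h1 h2 => by
    have o := CV.ord (R l) (zVL_ok _ (zd_mem l))
    obtain ⟨y, y1, y2, y3⟩ := j.lift_odd (J0_of (zd_R (zd_mem l)).2 (mul_inv_eq_iff_eq_mul.mp (cjM_spec (R l) R_W R_W h2))) h1
      (o ▸ pow_orderOf_eq_one _)
    refine ⟨y, y1, y2, y3, ?_, ?_⟩
    · rw [orderOf_coe, ordY j y1 fun f => by have := f.trans (orderOf_dvd_of_pow_eq_one y3); omega, y2, o]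
    · rw [← one_mul y, j.vz_eq (one_mem _) (j.nx.mpr (Or.inl (mul_inv_eq_iff_eq_mul.mpr y1))), vc_zero]
      exact (m.zero (one_mem _)).mpr (one_mem _)
  obtain ⟨e, e1, e2, e3, e4, -⟩ := l 8 (by decide) (by decide +kernel)
  obtain ⟨u, u1, u2, u3, u4, u5⟩ := l 11 (by decide) (by decide +kernel)
  obtain ⟨v, v1, v2, v3, v4, v5⟩ := l 12 (by decide) (by decide +kernel)
  replace e4 : orderOf (e : G) = 15 := e4
  replace u4 : orderOf (u : G) = 33 := u4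
  replace v4 : orderOf (v : G) = 33 := v4
  have n : ¬ IsConj (u : G) v := fun h => by
    obtain ⟨a, h⟩ := isConj_iff.mp h
    have a1 : u ^ 22 = x := j.eq_odd ((show Commute u x from u1).pow_left _) rfl (by
      rw [map_pow, u2, j.hx]; exact M.eq_of (R_pow (R 11) 22) R_W (by decide +kernel)) (n := 3) rfl
      (by rw [← pow_mul, show 22 * 3 = (zd 11).n * 2 from rfl, pow_mul, u3, one_pow]) j.x3
    have a2 : v ^ 22 = x ^ 2 := j.eq_odd ((show Commute v x from v1).pow_left _) ((Commute.refl x).pow_left _) (by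
      rw [map_pow, map_pow, v2, j.hx]; exact M.eq_of (R_pow (R 12) 22) (R_pow R_W 2) (by decide +kernel)) (n := 3) rfl
      (by rw [← pow_mul, show 22 * 3 = (zd 12).n * 2 from rfl, pow_mul, v3, one_pow]) (by rw [← pow_mul, mul_comm, pow_mul, j.x3, one_pow])
    have a3 := congrArg (· ^ 22) h
    simp only [conj_pow, ← coe_pow, a1, a2] at a3
    exact k.nconj (l := 11) (l' := 12) (by decide) (a := ⟨a, k.norm_P (J4A.mem_norm_zp (a3 ▸ npow_mem_zpowers (x : G) 2))⟩)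
      u5 u2 v5 v2 (Subtype.ext h)
  refine (kc_idx (ι := Fin 4) ![(x : G), e, u, v] (fun i => ?_) ?_ fun i i' h => ?_).trans (Nat.card_fin _)
  · fin_cases i <;> simp [x3, e4, u4, v4]
  · rintro g ⟨h2, h7, h3⟩
    obtain ⟨c, hc⟩ := isConj_iff.mp (c3 _ _ (orderOf_pow_orderOf_div (orderOf_pos g).ne' h3) x3)
    have a1 : c * g * c⁻¹ * x = x * (c * g * c⁻¹) := by rw [← hc, conj_mul, conj_mul, pow_mul_comm']
    let h : centralizer ({z} : Set G) := ⟨_, ((H16.centralizer_zpowers (x : G)).ge.trans ((centralizer_le_normalizer _).trans k.norm_P))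
      (mem_centralizer_singleton_iff.mpr a1)⟩
    have a2 : orderOf h = orderOf g := (orderOf_coe h).symm.trans ((MulAut.conj c).orderOf_eq g)
    obtain ⟨τ, ht, w, hw, f⟩ := xj_cov (fun _ => j.cent_ja) (j.mem h) fun f => h7 (a2 ▸ f.trans (orderOf_map_dvd _ _))
    obtain ⟨D, hD, rfl⟩ := List.mem_map.mp ht
    obtain ⟨w1, w2⟩ := j.nn_spec hw
    generalize j.nn w = a at w1 w2
    have a3 := cx w2 (show h * x = x * h from Subtype.ext a1)
    have a4 : ρ (a * h * a⁻¹) = el D.g := by simpa [w1] using f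
    have a5 : orderOf (a * h * a⁻¹) = orderOf g := ((MulAut.conj a).orderOf_eq h).trans a2
    have a6 := a5.symm.trans (ordY j a3 (a5 ▸ h2))
    rw [a4, CV.ord (zd_R hD).1 (zVL_ok D hD)] at a6
    have a7 : IsConj ((a * h * a⁻¹ :) : G) g := ((isConj_iff.mpr ⟨c, rfl⟩).trans (isConj_iff.mpr ⟨(a : G), rfl⟩)).symm
    have a8 : ∀ {y : centralizer ({z} : Set G)} {n}, y * x = x * y → ρ y = el D.g → n % 2 = 1 → y ^ n = 1 → IsConj (y : G) g :=
      fun {y n} y1 y2 y3 y4 => j.eq_odd a3 y1 (a4.trans y2.symm) (n := orderOf g * n) (by rw [Nat.mul_mod, y3]; omega)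
        (by rw [pow_mul, ← a5, pow_orderOf_eq_one, one_pow]) (by rw [mul_comm, pow_mul, y4, one_pow]) ▸ a7
    rcases (by decide +kernel : ∀ D ∈ zVL, ¬ 2 ∣ D.n → 3 ∣ D.n → D.n = 3 ∨ (zd 8).g = D.g ∨ (zd 11).g = D.g ∨ (zd 12).g = D.g)
      D hD (a6 ▸ h2) (a6 ▸ h3) with f | f | f | f
    exacts [⟨0, c3 _ _ x3 (a6.trans f)⟩, ⟨1, a8 e1 (f ▸ e2) (by decide) e3⟩, ⟨2, a8 u1 (f ▸ u2) (by decide) u3⟩,
      ⟨3, a8 v1 (f ▸ v2) (by decide) v3⟩]
  · have o : orderOf _ = orderOf _ := let ⟨_, e⟩ := h; e.orderOf_eq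
    fin_cases i <;> fin_cases i' <;> first | rfl | exact (n h).elim | exact (n h.symm).elim | simp [x3, e4, u4, v4] at o

theorem kc_7 (k : JC m x b d t Φ) (o : Nat.card G = 86775571046077562880) : kc {g : G | 7 ∣ orderOf g} = 14 := by
  haveI : Fact (Nat.Prime 7) := ⟨by norm_num⟩
  obtain ⟨u, hu⟩ := exists_prime_orderOf_dvd_card' (G := G) 7 (by rw [o]; norm_num)
  have a := kc_prime (e := 3) (by norm_num) hu (by rw [o]; norm_num) (by rw [J4C.n7 k o u hu, J4C.c7 k o u hu])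
  obtain ⟨r, r1, r2, r3⟩ := kc_reps {g : G | orderOf g = 7}
  choose I h1 e using fun i => (J4C.main7 k (by rw [o]; norm_num) _ (r1 i)).2
  replace e := fun i => (e i).some
  have c : ∀ i, ∀ h ∈ I i, ∀ v ∈ zpowers (r i), (v * h) ^ 120 = v := fun i h hh v hv => by
    have a : h ^ 120 = 1 := congrArg Subtype.val (show (⟨h, hh⟩ : I i) ^ 120 = 1 by
      rw [show 120 = Nat.card (I i) by rw [Nat.card_congr (e i).toEquiv, Nat.card_perm]; simp; rfl, pow_card_eq_one'])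
    rw [(show Commute v h from (h1 i).2.2.1 v hv h hh).mul_pow, a, mul_one, show 120 = 7 * 17 + 1 from rfl, pow_succ, pow_mul,
      orderOf_dvd_iff_pow_eq_one.mp ((orderOf_dvd_of_mem_zpowers hv).trans (r1 i).dvd), one_pow, one_mul]
  have s : ∀ i, ∀ g ∈ centralizer {r i}, ∃ v ∈ zpowers (r i), ∃ h ∈ I i, v * h = g := fun i g hg => by
    rw [← (h1 i).2.2.2.2] at hg
    exact (mem_sup_iff_of_right_le_normalizer fun h hh => H3.mem_normalizer_of_conj_mem fun v hv => by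
      rwa [← (h1 i).2.2.1 v hv h hh, mul_inv_cancel_right]).mp hg
  obtain ⟨σ, s1, s2, s3⟩ := kc_reps (Set.univ : Set (Equiv.Perm (Fin 5)))
  have cm : ∀ i, ∀ h ∈ I i, h * r i * h⁻¹ = r i := fun i h hh => by rw [← (h1 i).2.2.1 _ (mem_zpowers _) h hh, mul_inv_cancel_right]
  refine (kc_idx (ι := Fin _ × Fin _) (fun i => r i.1 * (e i.1).symm (σ i.2)) (fun i => ?_) (fun g hg => ?_)
    fun ⟨i, a⟩ ⟨i', a'⟩ h => ?_).trans (by rw [Nat.card_prod, Nat.card_fin, Nat.card_fin, kc_univ, card_S5]; omega)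
  · have := orderOf_pow_dvd (x := r i.1 * (e i.1).symm (σ i.2)) 120
    rwa [c _ _ (Subtype.prop _) _ (mem_zpowers _), r1 i.1] at this
  · have o7 := orderOf_pow_orderOf_div (orderOf_pos g).ne' hg
    have o8 : orderOf g ∣ 840 := J4C.c7 k o _ o7 ▸ orderOf_dvd_natCard _ (J4C.mc.mpr (pow_mul_comm' g _).symm)
    obtain ⟨i, h⟩ := r2 (g ^ 120) (orderOf_eq_prime (by rw [← pow_mul]; exact orderOf_dvd_iff_pow_eq_one.mp o8) fun f =>
      absurd ((show 7 ∣ orderOf g from hg).trans (orderOf_dvd_of_pow_eq_one f)) (by norm_num))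
    obtain ⟨a, h⟩ := isConj_iff.mp h.symm
    obtain ⟨v, hv, w, hw, f⟩ := s i (a * g * a⁻¹) (mem_centralizer_singleton_iff.mpr (by rw [← h, conj_mul, conj_mul, pow_mul_comm']))
    rw [← conj_pow, ← f, c i w hw v hv] at h
    obtain ⟨l, f'⟩ := s2 (e i ⟨w, hw⟩) trivial
    obtain ⟨y, f'⟩ := isConj_iff.mp f'
    have f2 := congrArg (fun y => ((e i).symm y : G)) f'
    simp only [map_mul, map_inv, MulEquiv.symm_apply_apply, coe_mul, coe_inv] at f2
    refine ⟨⟨i, l⟩, IsConj.trans (isConj_iff.mpr ⟨(e i).symm y, ?_⟩) (isConj_iff.mpr ⟨a, rfl⟩).symm⟩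
    rw [← conj_mul, f2, cm i _ (Subtype.prop _), ← f, h]
  · obtain ⟨y, h⟩ := isConj_iff.mp h
    have f := congrArg (· ^ 120) h
    simp only [conj_pow, c _ _ (Subtype.prop _) _ (mem_zpowers _)] at f
    obtain rfl := r3 _ _ (isConj_iff.mpr ⟨y, f⟩)
    obtain ⟨v, hv, w, hw, rfl⟩ := s i y (mem_centralizer_singleton_iff.mpr (mul_inv_eq_iff_eq_mul.mp f))
    rw [← conj_mul, f, mul_right_inj, cjcj, (h1 i).2.2.1 v hv _ (mul_mem (mul_mem hw (Subtype.prop _)) (inv_mem hw)),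
      mul_inv_cancel_right] at h
    have f2 := congrArg (e i) (show (⟨w, hw⟩ : I i) * (e i).symm (σ a) * (⟨w, hw⟩ : I i)⁻¹ = (e i).symm (σ a') from Subtype.ext h)
    simp only [map_mul, map_inv, MulEquiv.apply_symm_apply] at f2
    rw [s3 _ _ (isConj_iff.mpr ⟨_, f2⟩)]

/-- Let G be a finite non-abelian simple group of Janko-four type (an involution z whose centralizer H has an extraspecial largest normal 2-subgroup E of order 2^13 containing its centralizer in H, a normal subgroup N ≥ E of H with N/E of order 3 and H/N the automorphism group of M₂₂, and a subgroup P ≤ N of order 3 with C_E(P) = ⟨z⟩, N_H(P) ≠ C_H(P) and P ≤ C_H(P)′). Then G has exactly 62 conjugacy classes. -/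
theorem result {G : Type*} [Group G] [Finite G] [IsSimpleGroup G] (hG : ¬ IsMulCommutative G) (hJ : Cfsg.IsOfJankoFourType G) :
    Nat.card (ConjClasses G) = 62 := by
  obtain ⟨z, P, h⟩ := id hJ
  obtain ⟨ρ, p, m, x, j, -⟩ := exists_JF h
  obtain ⟨b, d, t, Φ, k⟩ := j.exists_jc hG
  have o := k.ord hG
  obtain ⟨y, s, f, E, J⟩ := k.j4i hG (S5564.result hG hJ) (J4C.c7 k o)
  have ex : ∀ r : ℕ, r.Prime → r ∣ 86775571046077562880 → ∃ u : G, orderOf u = r := fun r hr h =>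
    haveI := Fact.mk hr; exists_prime_orderOf_dvd_card' r (o ▸ h)
  have big : ∀ r e n, (r, e) ∈ [(23, 22), (29, 28), (31, 10), (37, 12), (43, 14)] → n * e = r - 1 → kc {g : G | orderOf g = r} = n :=
    fun r e n h h' => by
    have a : r.Prime ∧ r ∣ 86775571046077562880 ∧ ¬ r ^ 2 ∣ 86775571046077562880 ∧ 0 < e := by
      simp only [List.mem_cons, Prod.mk.injEq, List.not_mem_nil, or_false] at h
      rcases h with ⟨rfl, rfl⟩ | ⟨rfl, rfl⟩ | ⟨rfl, rfl⟩ | ⟨rfl, rfl⟩ | ⟨rfl, rfl⟩ <;> norm_num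
    obtain ⟨u, hu⟩ := ex r a.1 a.2.1
    obtain ⟨c1, c2⟩ := J.bigP r e h u hu
    exact Nat.eq_of_mul_eq_mul_right a.2.2.2 ((kc_prime a.1 hu (o ▸ a.2.2.1) (by
      rw [c2, c1, Nat.card_zpowers, hu, mul_comm])).trans h'.symm)
  have k5 : kc {g : G | orderOf g = 5} = 1 := by
    obtain ⟨u, hu⟩ := ex 5 (by norm_num) (by norm_num)
    obtain ⟨e, n, h1, h2, h3, h4⟩ := J4C.norm_card (by norm_num) hu (by rw [o]; norm_num)
    have a := kc_prime (by norm_num) hu (by rw [o]; norm_num) (h2.trans (mul_comm _ _))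
    rw [J.c5 u hu] at h2
    rw [h2, o] at h3
    have : e ≤ 4 := Nat.le_of_dvd (by norm_num) h1
    interval_cases e <;> omega
  have k11 : kc {g : G | orderOf g = 11} = 2 := by
    obtain ⟨u, v, hu, hv, n, a⟩ := J.s5576
    refine (kc_idx (ι := Fin 2) ![u, v] (fun i => ?_) (fun g hg => ?_) fun i i' h => ?_).trans (Nat.card_fin _)
    · fin_cases i <;> simp [hu, hv]
    · exact (a g hg).elim (fun f => ⟨0, f.symm⟩) fun f => ⟨1, f.symm⟩
    · fin_cases i <;> fin_cases i' <;> first | rfl | exact (n h).elim | exact (n h.symm).elim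
  have k1 : kc {g : G | orderOf g = 1} = 1 := (kc_idx (ι := Fin 1) (fun _ => (1 : G)) (fun _ => orderOf_one)
    (fun g hg => ⟨0, orderOf_eq_one_iff.mp hg ▸ IsConj.refl _⟩) fun _ _ _ => Subsingleton.elim _ _).trans (Nat.card_fin _)
  have k2 : kc {g : G | 2 ∣ orderOf g ∧ ¬ 7 ∣ orderOf g} = 29 := by
    have a : ∀ {u v : G}, orderOf u = 2 → IsConj u v → orderOf v = 2 := fun h ⟨_, e⟩ => e.orderOf_eq ▸ h
    rw [show {g : G | 2 ∣ orderOf g ∧ ¬ 7 ∣ orderOf g} = {g | (∃ u ∈ zpowers g, IsConj z u) ∧ ¬ 7 ∣ orderOf g} ∪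
      {g | (∃ u ∈ zpowers g, IsConj (t Du) u) ∧ ¬ 7 ∣ orderOf g} from Set.Subset.antisymm (fun g hg => (J.inv _ (half hg.1)).imp
      (fun f => ⟨⟨_, npow_mem_zpowers _ _, f⟩, hg.2⟩) fun f => ⟨⟨_, npow_mem_zpowers _ _, f⟩, hg.2⟩) (by
        rintro g (⟨⟨u, h1, h2⟩, h3⟩ | ⟨⟨u, h1, h2⟩, h3⟩)
        exacts [⟨two_dvd (a J.z2 h2) h1, h3⟩, ⟨two_dvd (a J.t2 h2) h1, h3⟩]), kc_union, k.kc_z, k.kc_t]
    rintro g ⟨⟨u, h1, h2⟩, -⟩ g' ⟨⟨v, h3, h4⟩, -⟩ e
    obtain ⟨c, rfl⟩ := isConj_iff.mp e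
    have e := h2.trans (isConj_iff.mpr ⟨c, rfl⟩)
    obtain ⟨i, rfl⟩ := h1
    rw [H11.invol_unique_zpowers (a J.z2 e) (a J.t2 h4) ⟨i, conj_zpow⟩ h3] at e
    exact k.ntz (e.trans h4.symm)
  have cov : ∀ g : G, ¬ 2 ∣ orderOf g → ¬ 7 ∣ orderOf g → ¬ 3 ∣ orderOf g → orderOf g = 1 ∨ orderOf g = 5 ∨ orderOf g = 11 ∨
      orderOf g = 23 ∨ orderOf g = 29 ∨ orderOf g = 31 ∨ orderOf g = 37 ∨ orderOf g = 43 := fun g h2 h7 h3 => by
    have cm : ∀ i, g ∈ centralizer {g ^ i} := fun i => J4C.mc.mpr (pow_mul_comm' g i).symm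
    have l : ∀ r e, (r, e) ∈ [(23, 22), (29, 28), (31, 10), (37, 12), (43, 14)] → r ∣ orderOf g → orderOf g = r := fun r e h h' =>
      have a := orderOf_pow_orderOf_div (orderOf_pos g).ne' h'
      Nat.dvd_antisymm (a ▸ orderOf_dvd_of_mem_zpowers ((J.bigP r e h _ a).1.le (cm _))) h'
    by_contra! c
    obtain ⟨c1, c5, c11, c23, c29, c31, c37, c43⟩ := c
    have h5 : ¬ 5 ∣ orderOf g := fun h => c5 (Nat.dvd_antisymm (dvd_of_cop (l := [2, 2, 2, 2, 2, 2, 3, 7])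
      ((orderOf_dvd_natCard _ (cm _)).trans (J.c5 _ (orderOf_pow_orderOf_div (orderOf_pos g).ne' h)).dvd) (by simp [*]; norm_num)) h)
    have a : orderOf g ∣ 11 ^ 3 := dvd_of_cop
      (l := [2, 2, 2, 2, 2, 2, 2, 2, 2, 2, 2, 2, 2, 2, 2, 2, 2, 2, 2, 2, 2, 3, 3, 3, 5, 7, 23, 29, 31, 37, 43])
      ((orderOf_dvd_natCard g).trans o.dvd) (by
        simp [h2, h3, h5, h7, mt (l 23 22 (by simp)) c23, mt (l 29 28 (by simp)) c29, mt (l 31 10 (by simp)) c31,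
          mt (l 37 12 (by simp)) c37, mt (l 43 14 (by simp)) c43]; norm_num)
    haveI : Fact (Nat.Prime 11) := ⟨by norm_num⟩
    obtain ⟨i, -, e⟩ := (Nat.dvd_prime_pow (by norm_num)).mp a
    obtain ⟨U, hU⟩ := (IsPGroup.of_card ((Nat.card_zpowers g).trans e)).exists_le_sylow
    have := Monoid.order_dvd_exponent (⟨g, hU (mem_zpowers g)⟩ : (U : Subgroup G))
    rw [(J.s5575 U).2.2.1, orderOf_mk, Nat.dvd_prime (by norm_num)] at this
    exact this.elim c1 c11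
  rw [← kc_univ, show (Set.univ : Set G) = {g | 7 ∣ orderOf g ∨ (2 ∣ orderOf g ∧ ¬ 7 ∣ orderOf g) ∨
    (¬ 2 ∣ orderOf g ∧ ¬ 7 ∣ orderOf g ∧ 3 ∣ orderOf g) ∨ orderOf g = 1 ∨ orderOf g = 5 ∨ orderOf g = 11 ∨
      orderOf g = 23 ∨ orderOf g = 29 ∨ orderOf g = 31 ∨ orderOf g = 37 ∨ orderOf g = 43} from
      (Set.eq_univ_of_forall fun g => by have := cov g; simp only [Set.mem_ofPred_eq]; tauto).symm]
  have := kc_7 k o
  have := kc_3 k (S5564.result hG hJ)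
  have := big 23 22 1 (by simp) rfl
  have := big 29 28 1 (by simp) rfl
  have := big 31 10 3 (by simp) rfl
  have := big 37 12 3 (by simp) rfl
  have := big 43 14 3 (by simp) rfl
  rw [kc_ord (P := (7 ∣ ·)) (R := fun n => (2 ∣ n ∧ ¬ 7 ∣ n) ∨ (¬ 2 ∣ n ∧ ¬ 7 ∣ n ∧ 3 ∣ n) ∨ n = 1 ∨ n = 5 ∨ n = 11 ∨ n = 23 ∨ n = 29 ∨
      n = 31 ∨ n = 37 ∨ n = 43) (by omega),
    kc_ord (P := fun n => 2 ∣ n ∧ ¬ 7 ∣ n) (R := fun n => (¬ 2 ∣ n ∧ ¬ 7 ∣ n ∧ 3 ∣ n) ∨ n = 1 ∨ n = 5 ∨ n = 11 ∨ n = 23 ∨ n = 29 ∨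
      n = 31 ∨ n = 37 ∨ n = 43) (by omega),
    kc_ord (P := fun n => ¬ 2 ∣ n ∧ ¬ 7 ∣ n ∧ 3 ∣ n) (R := fun n => n = 1 ∨ n = 5 ∨ n = 11 ∨ n = 23 ∨ n = 29 ∨ n = 31 ∨ n = 37 ∨ n = 43)
      (by omega),
    kc_ord (P := (· = 1)) (R := fun n => n = 5 ∨ n = 11 ∨ n = 23 ∨ n = 29 ∨ n = 31 ∨ n = 37 ∨ n = 43) (by omega),
    kc_ord (P := (· = 5)) (R := fun n => n = 11 ∨ n = 23 ∨ n = 29 ∨ n = 31 ∨ n = 37 ∨ n = 43) (by omega),
    kc_ord (P := (· = 11)) (R := fun n => n = 23 ∨ n = 29 ∨ n = 31 ∨ n = 37 ∨ n = 43) (by omega),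
    kc_ord (P := (· = 23)) (R := fun n => n = 29 ∨ n = 31 ∨ n = 37 ∨ n = 43) (by omega),
    kc_ord (P := (· = 29)) (R := fun n => n = 31 ∨ n = 37 ∨ n = 43) (by omega),
    kc_ord (P := (· = 31)) (R := fun n => n = 37 ∨ n = 43) (by omega), kc_ord (P := (· = 37)) (R := (· = 43)) (by omega)]
  omega

end Cfsg.Agent.S5579
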