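import Cfsg.Statements.S5623
import Mathlib
import Cfsg.Agent.H2.Gol2

set_option autoImplicit false
open Cfsg

namespace Cfsg.Agent.S5623

open H2.St

/-- Let C be a self-dual binary code of length 24 with minimum weight at least 8 (a 12-dimensional subspace of the 24-dimensional space over the field with two elements, any two of whose words have dot product zero, with no non-zero word of weight below 8 — an abstract extended binary Golay code). Then every coset w + C of C in the ambient space contains either exactly one word of weight at most 4, which then has weight at most 3, or exactly six words of weight at most 4, all of weight exactly 4 and with pairwise disjoint supports (a sextet). -/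
theorem result (C : Submodule (ZMod 2) (Fin 24 → ZMod 2)) (hdim : Module.finrank (ZMod 2) C = 12) (horth : ∀ v ∈ C, ∀ w ∈ C, ∑ i, v i * w i = 0) (hmin : ∀ w ∈ C, w ≠ 0 → 8 ≤ hammingNorm w) (w : Fin 24 → ZMod 2) : (∃ u : Fin 24 → ZMod 2, {u : Fin 24 → ZMod 2 | u - w ∈ C ∧ hammingNorm u ≤ 4} = {u} ∧ hammingNorm u ≤ 3) ∨ ({u : Fin 24 → ZMod 2 | u - w ∈ C ∧ hammingNorm u ≤ 4}.ncard = 6 ∧ ∀ u ∈ {u : Fin 24 → ZMod 2 | u - w ∈ C ∧ hammingNorm u ≤ 4}, hammingNorm u = 4 ∧ ∀ u' ∈ {u : Fin 24 → ZMod 2 | u - w ∈ C ∧ hammingNorm u ≤ 4}, u ≠ u' → Disjoint (Finset.univ.filter fun i => u i ≠ 0) (Finset.univ.filter fun i => u' i ≠ 0)) := by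
  have h : ∀ u, u - w ∈ C ↔ symmDiff (support₂ w) (support₂ u) ∈ supports (C : Set (Fin 24 → ZMod 2)) := fun u => by
    rw [symmDiff_comm, ← H2.St.sup_sub, sup_mem]; rfl
  simp only [h]
  rcases (gol_of (Fintype.card_fin 24) hdim horth hmin).coset (support₂ w) with ⟨u, h1, h2⟩ | ⟨h1, h2⟩
  · obtain ⟨u, rfl⟩ := sup_surj u
    exact .inl ⟨u, Set.ext fun v => (Set.ext_iff.1 h1 (support₂ v)).trans H16.support_injective.eq_iff, h2⟩
  exact .inr ⟨(Set.ncard_preimage_of_injective_subset_range H16.support_injective fun s _ => sup_surj s).trans h1,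
    fun u hu => (h2 _ hu.1 hu.2).imp_right fun h3 v hv e => h3 _ hv.1 hv.2 (H16.support_injective.ne e)⟩

end Cfsg.Agent.S5623
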