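import Cfsg.Statements.S5627
import Mathlib
import Cfsg.Agent.H2.Pl4

set_option autoImplicit false
open Cfsg

namespace Cfsg.Agent.S5627

open H2.St Finset H16

/-- In a projective plane of order 4 (a Steiner system S(2, 5, 21)), call a set of points independent when no line meets it in more than two points. There are exactly 2520 independent 4-sets and exactly 168 independent 6-sets (hyperovals), and every independent 4-set lies in exactly one hyperoval. -/
theorem result {α : Type*} [Fintype α] [DecidableEq α] (hα : Fintype.card α = 21) (L : Set (Finset α)) (hL : Cfsg.IsSteinerSystem 2 5 L) : {S : Finset α | (S.card = 4 ∧ ∀ l ∈ L, (l ∩ S).card ≤ 2)}.ncard = 2520 ∧ {H : Finset α | (H.card = 6 ∧ ∀ l ∈ L, (l ∩ H).card ≤ 2)}.ncard = 168 ∧ ∀ S : Finset α, (S.card = 4 ∧ ∀ l ∈ L, (l ∩ S).card ≤ 2) → ∃! H : Finset α, (H.card = 6 ∧ ∀ l ∈ L, (l ∩ H).card ≤ 2) ∧ S ⊆ H := by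
  refine ⟨(ncard_ind hα hL 4).trans (by decide +kernel), (ncard_ind hα hL 6).trans (by decide +kernel),
    fun S hS => ?_⟩
  obtain ⟨e, rfl, he⟩ := lab21b hα hL hS.1 hS.2
  refine ⟨(fs 21 63).map e.toEmbedding, ⟨⟨by rw [card_map]; decide, (indB_iff he (by decide)).1 (by decide +kernel)⟩,
    map_subset_map.2 (by decide)⟩, fun H ⟨⟨h1, h2⟩, h3⟩ => ?_⟩
  obtain ⟨m, hm, h4⟩ := exists_fs (H.map e.symm.toEmbedding)
  obtain rfl : (fs 21 m).map e.toEmbedding = H := by rw [h4, map_symm_map]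
  rw [map_subset_map] at h3
  obtain ⟨c, c1, c2⟩ := sub_spec (f := fun c => ifB (indB c) (Nat.beq c 63) true) 21 2 15 (by decide +kernel)
    ((fs 21 m \ fs 21 15).map Fin.valEmbedding) (fun i hi => by
      obtain ⟨j, hj, rfl⟩ := mem_map.1 hi
      exact ⟨j.2, mt mem_fs.2 (mem_sdiff.1 hj).2⟩)
    (by rw [card_map, card_sdiff_of_subset h3, ← card_map e.toEmbedding, h1]; decide)
  obtain rfl : c = m := Nat.eq_of_testBit_eq fun j => Bool.eq_iff_iff.2 <| (c2 j).trans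
    ⟨fun h => h.elim (fun h => mem_fs.1 (h3 (mem_fs.2 h : (⟨j, lt_of_testBit (by decide) h⟩ : Fin 21) ∈ _)))
      fun h => by obtain ⟨i, hi, rfl⟩ := mem_map.1 h; exact mem_fs.1 (mem_sdiff.1 hi).1,
    fun h => or_iff_not_imp_left.2 fun h' =>
      mem_map.2 ⟨⟨j, lt_of_testBit hm h⟩, mem_sdiff.2 ⟨mem_fs.2 h, mt mem_fs.1 h'⟩, rfl⟩⟩
  rw [ifB_eq, if_pos ((indB_iff he hm).2 h2)] at c1
  rw [Nat.eq_of_beq_eq_true c1]

end Cfsg.Agent.S5627
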