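import Cfsg.Statements.S5628
import Mathlib
import Cfsg.Agent.H2.St2

set_option autoImplicit false
open Cfsg

namespace Cfsg.Agent.S5628

open H2.St Finset

/-- In a projective plane of order 4 (a Steiner system S(2, 5, 21)), every permutation of the six points of a hyperoval (a 6-set met by no line in more than two points) is the restriction of exactly one automorphism of the plane. In particular the stabiliser of a hyperoval in the automorphism group is isomorphic to the symmetric group of degree 6 acting faithfully on the hyperoval. -/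
theorem result {α : Type*} [Fintype α] [DecidableEq α] (hα : Fintype.card α = 21) (L : Set (Finset α)) (hL : Cfsg.IsSteinerSystem 2 5 L) (H : Finset α) (hH : (H.card = 6 ∧ ∀ l ∈ L, (l ∩ H).card ≤ 2)) (σ : Equiv.Perm ↥H) : ∃! g : Equiv.Perm α, g ∈ Cfsg.setSystemAut L ∧ ∀ p : ↥H, g p = σ p := by
  let e := (Finset.equivFinOfCardEq hH.1).symm
  have h1 : ∀ τ : Equiv.Perm H, Lab (fam 21 p21.gens) L fun i => (τ (e i) : α) := fun τ =>
    lab21 hα hL (Subtype.val_injective.comp (τ.injective.comp e.injective)) fun l hl =>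
      (card_le_card (inter_subset_inter_left (image_subset_iff.2 fun i _ => (τ (e i)).2))).trans (hH.2 l hl)
  obtain ⟨g, g1, g2⟩ := (h1 1).iso (by omega) (h1 σ)
  have g3 : ∀ p : H, g p = σ p := fun p => by simpa using g1 (e.symm p)
  refine ⟨g, ⟨mem_aut.2 g2, g3⟩, fun f ⟨f1, f2⟩ => inv_mul_eq_one.1 (Equiv.ext fun x => ?_)⟩
  have a1 := mul_mem (inv_mem f1) (mem_aut.2 g2)
  have a2 : ∀ p ∈ H, (f⁻¹ * g) p = p := fun p hp => by
    rw [Equiv.Perm.mul_apply, g3 ⟨p, hp⟩, ← f2]; simp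
  generalize f⁻¹ * g = k at a1 a2 ⊢
  by_cases hx : x ∈ H
  · exact a2 x hx
  have a3 : ∀ p ∈ H, ∃ l ∈ L, x ∈ l ∧ p ∈ l ∧ k x ∈ l := fun p hp => by
    obtain ⟨l, hl, b1, -⟩ := cov_of hL {x, p} (card_pair (ne_of_mem_of_not_mem hp hx).symm)
    simp only [insert_subset_iff, singleton_subset_iff] at b1
    have := smul_block hL a1 hl (inter_subset_left (s₂ := H)) ((oval_even hα hL hH.1 hH.2 hl).resolve_left
      (card_ne_zero_of_mem (mem_inter.2 ⟨b1.2, hp⟩))).ge fun y hy => by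
        rw [a2 y (mem_inter.1 hy).2]; exact (mem_inter.1 hy).1
    exact ⟨l, hl, b1.1, b1.2, this ▸ smul_mem_smul_finset b1.1⟩
  obtain ⟨p, hp⟩ := card_pos.1 (hH.1 ▸ (by omega) : 0 < #H)
  obtain ⟨l, hl, b1, b2, b3⟩ := a3 p hp
  obtain ⟨q, hq, b4⟩ := exists_mem_notMem_of_card_lt_card (s := l ∩ H) (t := H) (by have := hH.2 l hl; omega)
  obtain ⟨m, hm, c1, c2, c3⟩ := a3 q hq
  exact card_le_one.1 (inter21 hα hL hl hm fun e => b4 (mem_inter.2 ⟨e ▸ c2, hq⟩)).le _
    (mem_inter.2 ⟨b3, c3⟩) _ (mem_inter.2 ⟨b1, c1⟩)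

end Cfsg.Agent.S5628
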