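import Cfsg.Statements.S5712
import Cfsg.Agent.H18.YxE
-- import your own Cfsg.Agent.* helpers here

set_option autoImplicit false
open Cfsg

namespace Cfsg.Agent.S5712

/-- Let F be a finite field of characteristic two, n ≥ 2, V = F^{2n} with the non-degenerate alternating form f(u, v) = Σ (u_i v_{n+i} + u_{n+i} v_i), and G the group of invertible matrices preserving f. Let a ≠ 0 be a vector, H its stabilizer in G, and X a subgroup of O₂(H) of order |F|^{2n−2} no element of which is a transvection (no element g has g − 1 of rank one). If L is a subgroup of G containing X that acts irreducibly on V (no proper non-zero L-invariant subspace), then L = G, or, for some quadratic form Q on V whose polar form is f, L is the isometry group of Q or its subgroup of the isometries g for which g − 1 has even rank, or |F| = 2, n = 2 and L is isomorphic to the alternating group of degree 6 or to the symmetric group of degree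 5. -/
theorem result {F : Type*} [Field F] [Fintype F] [CharP F 2] {n : ℕ} (hn : 2 ≤ n) (a : (Fin n ⊕ Fin n → F)) (ha : a ≠ 0)
    (X : Subgroup (GL (Fin n ⊕ Fin n) F)) (hXG : X ≤ Cfsg.preserving (Units.coeHom (Matrix (Fin n ⊕ Fin n) (Fin n ⊕ Fin n) F)) (fun u v : (Fin n ⊕ Fin n → F) => ∑ i : Fin n, (u (Sum.inl i) * v (Sum.inr i) + u (Sum.inr i) * v (Sum.inl i))))
    (hXO : ∀ H : Subgroup (GL (Fin n ⊕ Fin n) F),
      (∀ g : GL (Fin n ⊕ Fin n) F, g ∈ H ↔ (g ∈ Cfsg.preserving (Units.coeHom (Matrix (Fin n ⊕ Fin n) (Fin n ⊕ Fin n) F)) (fun u v : (Fin n ⊕ Fin n → F) => ∑ i : Fin n, (u (Sum.inl i) * v (Sum.inr i) + u (Sum.inr i) * v (Sum.inl i))) ∧ Matrix.mulVec (g : Matrix (Fin n ⊕ Fin n) (Fin n ⊕ Fin n) F) a = a)) →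
      X ≤ (Cfsg.pCore 2 ↥H).map H.subtype)
    (hcard : Nat.card ↥X = Fintype.card F ^ (2 * n - 2))
    (hntv : ∀ x ∈ X, ((x : Matrix (Fin n ⊕ Fin n) (Fin n ⊕ Fin n) F) - 1).rank ≠ 1)
    (L : Subgroup (GL (Fin n ⊕ Fin n) F)) (hXL : X ≤ L) (hLG : L ≤ Cfsg.preserving (Units.coeHom (Matrix (Fin n ⊕ Fin n) (Fin n ⊕ Fin n) F)) (fun u v : (Fin n ⊕ Fin n → F) => ∑ i : Fin n, (u (Sum.inl i) * v (Sum.inr i) + u (Sum.inr i) * v (Sum.inl i))))
    (hirr : ∀ W : Submodule F (Fin n ⊕ Fin n → F), (∀ g ∈ L, ∀ w ∈ W, Matrix.mulVec (g : Matrix (Fin n ⊕ Fin n) (Fin n ⊕ Fin n) F) w ∈ W) → W = ⊥ ∨ W = ⊤) :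
    L = Cfsg.preserving (Units.coeHom (Matrix (Fin n ⊕ Fin n) (Fin n ⊕ Fin n) F)) (fun u v : (Fin n ⊕ Fin n → F) => ∑ i : Fin n, (u (Sum.inl i) * v (Sum.inr i) + u (Sum.inr i) * v (Sum.inl i))) ∨
    (∃ Q : QuadraticForm F (Fin n ⊕ Fin n → F), (∀ u v, QuadraticMap.polar ⇑Q u v = (fun u v : (Fin n ⊕ Fin n → F) => ∑ i : Fin n, (u (Sum.inl i) * v (Sum.inr i) + u (Sum.inr i) * v (Sum.inl i))) u v) ∧
      (L = Cfsg.isometryGroup F ⇑Q ∨
        ∀ g : GL (Fin n ⊕ Fin n) F, g ∈ L ↔ (g ∈ Cfsg.isometryGroup F ⇑Q ∧ Even ((g : Matrix (Fin n ⊕ Fin n) (Fin n ⊕ Fin n) F) - 1).rank))) ∨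
    (Fintype.card F = 2 ∧ n = 2 ∧ (Nonempty (↥L ≃* ↥(alternatingGroup (Fin 6))) ∨ Nonempty (↥L ≃* Equiv.Perm (Fin 5)))) := by
  classical
  let B := H12.spB (Fin n) F
  have D : H12.SD B := H12.sd_spB
  have hf : ∀ u v : Fin n ⊕ Fin n → F,
      ∑ i : Fin n, (u (Sum.inl i) * v (Sum.inr i) + u (Sum.inr i) * v (Sum.inl i)) = B u v :=
    fun u v => by
      rw [H12.spB_apply']
      exact Finset.sum_congr rfl fun i _ => by rw [CharTwo.sub_eq_add, add_comm]
  simp only [hf] at *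
  set G := Cfsg.preserving (Units.coeHom (Matrix (Fin n ⊕ Fin n) (Fin n ⊕ Fin n) F))
    (fun u v : (Fin n ⊕ Fin n → F) => B u v) with hG
  have hex : ∀ g ∈ G, ∃ k, H18.Yx.toM B k = g := fun g hg => H18.Yx.exists_toM hg
  have hmem : ∀ k, H18.Yx.toM B k ∈ G := fun k u v => by
    simp only [Units.coeHom_apply, H18.Yx.toM_mulVec]; exact k.2 u v
  have hrange : ∀ M ≤ G, (M.comap (H18.Yx.toM B)).map (H18.Yx.toM B) = M := fun M hM =>
    Subgroup.map_comap_eq_self fun g hg => hex g (hM hg)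
  have hiso : ∀ M ≤ G, Nonempty (M.comap (H18.Yx.toM B) ≃* M) := fun M hM =>
    ⟨(Subgroup.equivMapOfInjective _ _ H18.Yx.toM_inj).trans (MulEquiv.subgroupCongr (hrange M hM))⟩
  have hdim : Module.finrank F (Fin n ⊕ Fin n → F) = 2 * n := by simp [two_mul]
  let H := (MulAction.stabilizer (H12.UG B) a).map (H18.Yx.toM B)
  have hXN := hXO H fun g => ⟨by
    rintro ⟨k, hk, rfl⟩
    exact ⟨hmem k, by rw [H18.Yx.toM_mulVec]; exact hk⟩, fun ⟨h1, h2⟩ => by
    obtain ⟨k, rfl⟩ := hex g h1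
    exact ⟨k, by rwa [H18.Yx.toM_mulVec] at h2, rfl⟩⟩
  have hH : ∀ k, H18.Yx.toM B k ∈ H ↔ k.1 a = a := fun k =>
    Subgroup.mem_map_iff_mem H18.Yx.toM_inj
  have hnorm : (Cfsg.pCore 2 ↥H).Normal :=
    Subgroup.sSup_normal _ fun _ h => h.1
  have hp : IsPGroup 2 (Cfsg.pCore 2 ↥H) := Sylow.sSup_of_normal _ (fun _ h => h.2) (fun _ h => h.1)
  have h1 := H18.Yx.eq_rho D (by omega) ha
    (((Cfsg.pCore 2 ↥H).map H.subtype).comap (H18.Yx.toM B))
    ((hp.map _).comap_of_injective _ H18.Yx.toM_inj)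
    (fun x hx => (hH x).mp (Subgroup.map_subtype_le _ hx))
    (fun h hh x hx => by
      obtain ⟨y, hy, e⟩ := hx
      refine ⟨_, hnorm.conj_mem' y hy ⟨_, (hH h).mpr hh⟩, ?_⟩
      simp only [map_mul, map_inv, e]; rfl)
  have h2 := H18.Yx.pa_of_card D ha (X.comap (H18.Yx.toM B)) (fun x hx => h1 x (hXN hx))
    (by rw [Nat.card_congr (hiso X hXG).some.toEquiv, hcard, hdim, Nat.card_eq_fintype_card])
    (fun k hk => by by_contra h0; exact hntv _ hk (H18.Yx.rank_tv D ha h0))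
  have h3 : H18.Yx.PA (L.comap (H18.Yx.toM B)) a :=
    ⟨ha, fun s hs => (h2.2 s hs).imp fun c hc => hXL hc⟩
  have hI : H18.Yx.Irr (L.comap (H18.Yx.toM B)) := fun W hW => hirr W fun g hg w hw => by
    obtain ⟨k, rfl⟩ := hex g (hLG hg)
    rw [H18.Yx.toM_mulVec]; exact hW k hg w hw
  have htop : L.comap (H18.Yx.toM B) = ⊤ → L = G := fun h => le_antisymm hLG fun g hg => by
    obtain ⟨k, rfl⟩ := hex g hg
    have : k ∈ L.comap (H18.Yx.toM B) := by rw [h]; trivial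
    exact this
  rcases H18.Yx.main D (by omega) hI h3 with h | ⟨Q, hQ, h⟩ | ⟨hF, h4, h⟩
  · exact Or.inl (htop h)
  · have hO : ∀ k, H18.Yx.toM B k ∈ Cfsg.isometryGroup F ⇑Q ↔ ∀ v, Q (k.1 v) = Q v := fun k =>
      ⟨fun hk v => by simpa only [Units.coeHom_apply, H18.Yx.toM_mulVec] using hk v v,
        fun hk u _ => by simpa only [Units.coeHom_apply, H18.Yx.toM_mulVec] using hk u⟩
    have hOG : Cfsg.isometryGroup F ⇑Q ≤ G := fun g hg u v => by
      have := fun w => hg w w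
      simp only [← hQ, QuadraticMap.polar, ← Matrix.mulVec_add] at this ⊢
      rw [this, this, this]
    refine Or.inr (Or.inl ⟨Q, hQ, h.imp (fun h => ?_) fun h g => ?_⟩)
    · refine Subgroup.ext fun g => ⟨fun hg => ?_, fun hg => ?_⟩
      · obtain ⟨k, rfl⟩ := hex g (hLG hg)
        exact (hO k).mpr ((h k).mp hg)
      · obtain ⟨k, rfl⟩ := hex g (hOG hg)
        exact (h k).mpr ((hO k).mp hg)
    · refine ⟨fun hg => ?_, fun hg => ?_⟩
      · obtain ⟨k, rfl⟩ := hex g (hLG hg)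
        rw [hO, H18.Yx.rank_toM]; exact (h k).mp hg
      · obtain ⟨k, rfl⟩ := hex g (hOG hg.1)
        rw [hO, H18.Yx.rank_toM] at hg; exact (h k).mpr hg
  · obtain rfl : n = 2 := by omega
    rw [Nat.card_eq_fintype_card] at hF
    obtain ⟨e⟩ := S0247.result hF
    let e' := (H12.spEquiv (Fin 2) F).symm.trans e
    have e2 := ((hiso L hLG).some.symm.trans (e'.subgroupMap (L.comap (H18.Yx.toM B))))
    rcases H18.Yx.six_sub _ (by
      rwa [← Nat.card_congr (e'.subgroupMap (L.comap (H18.Yx.toM B))).toEquiv]) with h | h | h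
    · refine Or.inl (htop ?_)
      refine eq_top_iff.mpr fun g _ => ?_
      obtain ⟨k, hk, hkg⟩ := h.ge (Subgroup.mem_top (e' g))
      rwa [← e'.injective hkg]
    · exact Or.inr (Or.inr ⟨hF, rfl, Or.inl ⟨e2.trans h.some⟩⟩)
    · exact Or.inr (Or.inr ⟨hF, rfl, Or.inr ⟨e2.trans h.some⟩⟩)

end Cfsg.Agent.S5712
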