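import Cfsg.Statements.S5713
import Cfsg.Agent.H12.MinDeg

set_option autoImplicit false
open Cfsg

namespace Cfsg.Agent.S5713

/-- A classification-free minimal-degree bound. Let G be a finite group acting faithfully and primitively on a finite set Ω with n elements, and suppose that the image of G in the symmetric group on Ω does not contain the alternating group on Ω. Then every non-identity element of G moves at least (√n − 1)/2 points of Ω, that is, it fixes at most n − (√n − 1)/2 points. -/
theorem result {G Ω : Type*} [Group G] [Finite G] [MulAction G Ω] [FaithfulSMul G Ω] [Fintype Ω] [DecidableEq Ω]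
    (hprim : MulAction.IsPreprimitive G Ω)
    (hA : ¬ alternatingGroup Ω ≤ (MulAction.toPermHom G Ω).range)
    (g : G) (hg : g ≠ 1) :
    (Real.sqrt (Fintype.card Ω) - 1) / 2 ≤ (Fintype.card Ω : ℝ) - Nat.card (MulAction.fixedBy Ω g) := by
  obtain ⟨a, ha⟩ : ∃ a : Ω, g • a ≠ a := by
    by_contra! e
    exact hg (FaithfulSMul.eq_of_smul_eq_smul (α := Ω) fun a => by rw [e, one_smul])
  have h1 := H12.MinDeg.main hprim hA ha
  have h2 : Nat.card (MulAction.fixedBy Ω g) + {w : Ω | g • w ≠ w}.ncard = Fintype.card Ω := by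
    rw [← Nat.card_eq_fintype_card, ← Set.ncard_add_ncard_compl (MulAction.fixedBy Ω g)]; rfl
  have h3 : (Fintype.card Ω : ℝ) ≤ (2 * {w : Ω | g • w ≠ w}.ncard) ^ 2 := by
    have : (Fintype.card Ω : ℝ) ≤ 4 * ({w : Ω | g • w ≠ w}.ncard * {w : Ω | g • w ≠ w}.ncard) := by exact_mod_cast h1
    linarith
  have h4 := Real.sqrt_le_iff.mpr ⟨by positivity, h3⟩
  have h5 : (Nat.card (MulAction.fixedBy Ω g) : ℝ) + {w : Ω | g • w ≠ w}.ncard = Fintype.card Ω := by exact_mod_cast h2
  linarith

end Cfsg.Agent.S5713
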