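import Cfsg.Statements.S5729
-- import your own Cfsg.Agent.* helpers here

set_option autoImplicit false
open Cfsg

namespace Cfsg.Agent.S5729

/-- Let a finite group G act faithfully and transitively on a set with n ≥ 3 points. Then either G is a Frobenius permutation group (Frobenius as a permutation group: transitive, some non-identity element fixes a point, and no non-identity element fixes two points) of order n(n − 1) and exactly |G|/n of its elements are derangements (fix no point), or the number of derangements is greater than |G|/n. -/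
theorem result {G Ω : Type*} [Group G] [Finite G] [MulAction G Ω] [FaithfulSMul G Ω] [Fintype Ω] (htr : MulAction.IsPretransitive G Ω) (hn : 3 ≤ Fintype.card Ω) :
    ((MulAction.IsPretransitive G Ω ∧ (∃ g : G, g ≠ 1 ∧ ∃ ω : Ω, g • ω = ω) ∧ ∀ g : G, g ≠ 1 → Nat.card (MulAction.fixedBy Ω g) ≤ 1) ∧ Nat.card G = Fintype.card Ω * (Fintype.card Ω - 1) ∧ Fintype.card Ω * Nat.card {g : G // ∀ ω : Ω, g • ω ≠ ω} = Nat.card G) ∨
    Nat.card G < Fintype.card Ω * Nat.card {g : G // ∀ ω : Ω, g • ω ≠ ω} := by
  classical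
  have := Fintype.ofFinite G
  set n := Fintype.card Ω
  set π : G → ℕ := fun g => Nat.card (MulAction.fixedBy Ω g) with hπ
  obtain ⟨x, y, hxy⟩ := Fintype.one_lt_card_iff_nontrivial.mp (show 1 < n by omega)
  have h1 : ∑ g, π g = Nat.card G := by
    have := MulAction.sum_card_fixedBy_eq_card_orbits_mul_card_group G Ω
    have h := (MulAction.pretransitive_iff_subsingleton_quotient G Ω).mp htr
    rw [Fintype.card_eq_one_iff.mpr ⟨Quotient.mk _ x, fun _ => Subsingleton.elim _ _⟩, one_mul] at this
    simpa [π] using this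
  obtain ⟨r, h2, h3⟩ : ∃ r, 2 ≤ r ∧ ∑ g, π g * π g = r * Nat.card G := by
    refine ⟨Fintype.card (MulAction.orbitRel.Quotient G (Ω × Ω)), Fintype.one_lt_card_iff_nontrivial.mpr
      ⟨Quotient.mk _ (x, y), Quotient.mk _ (x, x), fun h => ?_⟩, ?_⟩
    · obtain ⟨g, hg⟩ := Quotient.exact h
      exact hxy ((congrArg Prod.fst hg).symm.trans (congrArg Prod.snd hg))
    rw [Nat.card_eq_fintype_card, ← MulAction.sum_card_fixedBy_eq_card_orbits_mul_card_group]
    refine Finset.sum_congr rfl fun g _ => ?_
    rw [← Nat.card_prod, ← Nat.card_eq_fintype_card]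
    exact Nat.card_congr ((Equiv.Set.prod _ _).symm.trans (Equiv.setCongr (by ext; simp [Prod.ext_iff])))
  have h4 : ∀ g, π g ≤ n := fun g => (Set.ncard_le_card _).trans_eq Nat.card_eq_fintype_card
  have h5 : ∀ g, π g = n ↔ g = 1 := fun g => ⟨fun h => eq_of_smul_eq_smul (α := Ω) fun ω => by
    have := Set.eq_of_subset_of_ncard_le (Set.subset_univ (MulAction.fixedBy Ω g))
      (by rw [Set.ncard_univ, Nat.card_eq_fintype_card]; exact h.ge)
    rw [one_smul]; exact this.ge (Set.mem_univ ω), by rintro rfl; simp [π, n]⟩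
  have h6 : ∀ g, π g = 0 ↔ ∀ ω : Ω, g • ω ≠ ω := fun g => by
    simp [π, Set.eq_empty_iff_forall_notMem]
  have h7 : ∑ g, (if π g = 0 then (n : ℤ) else 0) = n * Nat.card {g : G // ∀ ω : Ω, g • ω ≠ ω} := by
    rw [← Finset.sum_filter, Finset.sum_const, Nat.card_eq_fintype_card, Fintype.card_subtype]
    simp [h6, mul_comm]
  have h8 : ∀ g ∈ Finset.univ, ((π g : ℤ) - 1) * (π g - n) ≤ if π g = 0 then (n : ℤ) else 0 := fun g _ => by
    have := h4 g
    split_ifs with h
    · simp [h]
    · exact mul_nonpos_of_nonneg_of_nonpos (by omega) (by omega)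
  have h9 : ∑ g, ((π g : ℤ) - 1) * (π g - n) = (r - 1) * Nat.card G := by
    zify at h1 h3
    simp only [sub_mul, mul_sub, Finset.sum_sub_distrib, one_mul, ← Finset.sum_mul, h1, h3,
      Finset.sum_const, Finset.card_univ, ← Nat.card_eq_fintype_card]
    ring
  have h10 := Finset.sum_le_sum h8
  have h0 : 0 < Nat.card G := Nat.card_pos
  refine or_iff_not_imp_right.mpr fun h => ?_
  rw [not_lt] at h
  zify at h
  have h11 : (r - 1 : ℤ) * Nat.card G = Nat.card G := by nlinarith
  have h12 : ∀ g, g ≠ 1 → π g ≤ 1 := fun g hg => by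
    have := (Finset.sum_eq_sum_iff_of_le h8).mp (by omega) g (Finset.mem_univ g)
    have := mt (h5 g).mp hg
    split_ifs at * with h
    · omega
    · have := mul_eq_zero.mp ‹_›
      omega
  have h13 : (Nat.card G : ℤ) = n * (n - 1) := by
    have : ∑ g, ((π g : ℤ) * (π g - 1)) = (r - 1) * Nat.card G := by
      zify at h1 h3
      simp only [mul_sub, mul_one, Finset.sum_sub_distrib, h1, h3]; ring
    rw [← h11, ← this, Finset.sum_eq_single 1 (fun g _ hg => by
      obtain h | h := Nat.le_one_iff_eq_zero_or_eq_one.mp (h12 g hg) <;> simp [h]) (by simp),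
      (h5 1).mpr rfl]
  refine ⟨⟨htr, ?_, h12⟩, by zify [show 1 ≤ n by omega]; exact h13, by zify; omega⟩
  by_contra! h14
  rw [Finset.sum_eq_single 1 (fun g _ hg => (h6 g).mpr (h14 g hg)) (by simp), (h5 1).mpr rfl] at h1
  rw [← h1] at h13
  nlinarith

end Cfsg.Agent.S5729
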