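import Cfsg.Statements.S5730
import Cfsg.Agent.H28.Derang3
import Mathlib.GroupTheory.GroupAction.Quotient

set_option autoImplicit false
open Cfsg

namespace Cfsg.Agent.S5730

open Cfsg.Agent.H28.Der Finset

/-- Let a finite group G act faithfully and transitively on a set with n ≥ 7 points. Then either G is a Frobenius permutation group (Frobenius as a permutation group: transitive, some non-identity element fixes a point, and no non-identity element fixes two points) of order n(n − 1)/a with a ∈ {1, 2}, in which case exactly a|G|/n of its elements are derangements, or the number of derangements is at least 2|G|/n. (Equality does occur: PSL₃(2) acting on the 7 points of the Fano plane has exactly 2|G|/7 derangements.) -/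
theorem result {G Ω : Type*} [Group G] [Finite G] [MulAction G Ω] [FaithfulSMul G Ω] [Fintype Ω] (htr : MulAction.IsPretransitive G Ω) (hn : 7 ≤ Fintype.card Ω) :
    (∃ a : ℕ, (a = 1 ∨ a = 2) ∧ (MulAction.IsPretransitive G Ω ∧ (∃ g : G, g ≠ 1 ∧ ∃ ω : Ω, g • ω = ω) ∧ ∀ g : G, g ≠ 1 → Nat.card (MulAction.fixedBy Ω g) ≤ 1) ∧ a * Nat.card G = Fintype.card Ω * (Fintype.card Ω - 1) ∧ Fintype.card Ω * Nat.card {g : G // ∀ ω : Ω, g • ω ≠ ω} = a * Nat.card G) ∨
    2 * Nat.card G ≤ Fintype.card Ω * Nat.card {g : G // ∀ ω : Ω, g • ω ≠ ω} := by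
  classical
  have := Fintype.ofFinite G
  set n := Fintype.card Ω with hndef
  set π : G → ℕ := fun g => Nat.card (MulAction.fixedBy Ω g) with hπ
  have hfx : ∀ g, fx Ω g = π g := fun g => by
    simp only [hπ, fx]
    rw [← Nat.card_eq_finsetCard]
    exact Nat.card_congr (Equiv.subtypeEquivRight fun w => by simp)
  obtain ⟨x, y, hxy⟩ := Fintype.one_lt_card_iff_nontrivial.mp (show 1 < n by omega)
  have h1 : ∑ g, π g = Nat.card G := by
    have := MulAction.sum_card_fixedBy_eq_card_orbits_mul_card_group G Ω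
    have h := (MulAction.pretransitive_iff_subsingleton_quotient G Ω).mp htr
    rw [Fintype.card_eq_one_iff.mpr ⟨Quotient.mk _ x, fun _ => Subsingleton.elim _ _⟩, one_mul] at this
    simpa [π] using this
  obtain ⟨r, h2, h2', h3⟩ : ∃ r, 2 ≤ r ∧ (r ≤ 2 → T2 G Ω) ∧ ∑ g, π g * π g = r * Nat.card G := by
    refine ⟨Fintype.card (MulAction.orbitRel.Quotient G (Ω × Ω)), Fintype.one_lt_card_iff_nontrivial.mpr
      ⟨Quotient.mk _ (x, y), Quotient.mk _ (x, x), fun h => ?_⟩, fun hr a b c d hab hcd => ?_, ?_⟩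
    · obtain ⟨g, hg⟩ := Quotient.exact h
      exact hxy ((congrArg Prod.fst hg).symm.trans (congrArg Prod.snd hg))
    · by_contra hne
      have : 2 < Fintype.card (MulAction.orbitRel.Quotient G (Ω × Ω)) := by
        refine Fintype.two_lt_card_iff.2 ⟨Quotient.mk _ (c, d), Quotient.mk _ (a, b), Quotient.mk _ (x, x),
          fun h => ?_, fun h => ?_, fun h => ?_⟩
        · obtain ⟨g, hg⟩ := Quotient.exact h
          exact hne ⟨g, congrArg Prod.fst hg, congrArg Prod.snd hg⟩
        · obtain ⟨g, hg⟩ := Quotient.exact h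
          exact hcd ((congrArg Prod.fst hg).symm.trans (congrArg Prod.snd hg))
        · obtain ⟨g, hg⟩ := Quotient.exact h
          exact hab ((congrArg Prod.fst hg).symm.trans (congrArg Prod.snd hg))
      omega
    rw [Nat.card_eq_fintype_card, ← MulAction.sum_card_fixedBy_eq_card_orbits_mul_card_group]
    refine Finset.sum_congr rfl fun g _ => ?_
    rw [← Nat.card_prod, ← Nat.card_eq_fintype_card]
    exact Nat.card_congr ((Equiv.Set.prod _ _).symm.trans (Equiv.setCongr (by ext; simp [Prod.ext_iff])))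
  have h4 : ∀ g, π g ≤ n := fun g => (Set.ncard_le_card _).trans_eq Nat.card_eq_fintype_card
  have h6 : ∀ g, π g = 0 ↔ ∀ ω : Ω, g • ω ≠ ω := fun g => by
    simp [π, Set.eq_empty_iff_forall_notMem]
  have h7 : ∑ g, (if π g = 0 then (n : ℚ) else 0) = n * Nat.card {g : G // ∀ ω : Ω, g • ω ≠ ω} := by
    rw [← Finset.sum_filter, Finset.sum_const, Nat.card_eq_fintype_card, Fintype.card_subtype]
    simp [h6, mul_comm]
  have h1' : ∑ g, (π g : ℚ) = Nat.card G := by exact_mod_cast h1
  have h3' : ∑ g, (π g : ℚ) * π g = r * Nat.card G := by exact_mod_cast h3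
  have h9 : ∑ g, ((π g : ℚ) - 1) * (π g - n) = (r - 1) * Nat.card G := by
    simp only [sub_mul, mul_sub, Finset.sum_sub_distrib, one_mul, ← Finset.sum_mul, h1', h3',
      Finset.sum_const, Finset.card_univ, ← Nat.card_eq_fintype_card]
    ring
  have h0 : (0 : ℚ) < Nat.card G := by exact_mod_cast Nat.card_pos
  by_cases hr : 3 ≤ r
  · right
    have h8 : ∀ g ∈ Finset.univ, ((π g : ℚ) - 1) * (π g - n) ≤ if π g = 0 then (n : ℚ) else 0 := fun g _ => by
      have : (π g : ℚ) ≤ n := by exact_mod_cast h4 g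
      split_ifs with h
      · simp [h]
      · have : (1 : ℚ) ≤ π g := by exact_mod_cast Nat.pos_of_ne_zero h
        exact mul_nonpos_of_nonneg_of_nonpos (by linarith) (by linarith)
    have h10 := Finset.sum_le_sum h8
    rw [h7, h9] at h10
    have : (3 : ℚ) ≤ r := by exact_mod_cast hr
    have : (2 : ℚ) * Nat.card G ≤ n * Nat.card {g : G // ∀ ω : Ω, g • ω ≠ ω} := by nlinarith
    exact_mod_cast this
  have hT := h2' (by omega)
  obtain rfl : r = 2 := by omega
  have m1 := master hT hxy (fun _ => 1)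
  have m2 := master hT hxy (fun m => (n : ℚ) / m - 1)
  simp only [hfx, mul_one, sum_const, nsmul_eq_mul, mul_sub, sum_sub_distrib, h1', h3'] at m1
  have e : ∑ g, (if π g = 0 then (n : ℚ) else 0) = ∑ g, ((π g : ℚ) - 1) * (π g - n) +
      ∑ g : G, (fx Ω g : ℚ) * (fx Ω g - 1) * ((n : ℚ) / fx Ω g - 1) := by
    rw [← sum_add_distrib]
    refine sum_congr rfl fun g _ => ?_
    rw [hfx]
    split_ifs with h
    · simp [h]
    · have : (π g : ℚ) ≠ 0 := by exact_mod_cast h
      field_simp
      ring
  rw [h7, h9, m2] at e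
  have hn' : (7 : ℚ) ≤ n := by exact_mod_cast hn
  by_cases hk : 0 < #((St G x y).erase 1)
  · right
    have := sum_inv_ge hT hn hxy hk
    have h11 := mul_le_mul_of_nonneg_left this (show (0 : ℚ) ≤ n * (n - 1) by nlinarith)
    have : (2 : ℚ) * Nat.card G ≤ n * Nat.card {g : G // ∀ ω : Ω, g • ω ≠ ω} := by
      push_cast at m1 e
      rw [e]
      nlinarith
    exact_mod_cast this
  left
  have hS : St G x y = {1} := by
    refine eq_singleton_iff_unique_mem.2 ⟨one_mem_St _ _, fun g hg => ?_⟩
    by_contra h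
    exact hk (card_pos.2 ⟨g, mem_erase.2 ⟨h, hg⟩⟩)
  rw [hS] at m1 e
  have hn0 : (n : ℚ) ≠ 0 := by linarith
  rw [sum_singleton, show fx Ω (1 : G) = n by simp [fx, hndef], div_self hn0] at e
  refine ⟨1, Or.inl rfl, ⟨htr, ?_, fun g hg => ?_⟩, ?_, ?_⟩
  · obtain ⟨z, -, hz⟩ := exists_mem_notMem_of_card_lt_card
      (show #({x, y} : Finset Ω) < #(univ : Finset Ω) by rw [card_pair hxy, card_univ]; omega)
    simp only [mem_insert, mem_singleton, not_or] at hz
    obtain ⟨g, g1, g2⟩ := hT x y x z hxy (Ne.symm hz.1)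
    exact ⟨g, by rintro rfl; exact hz.2 (by simpa using g2.symm), x, g1⟩
  · change π g ≤ 1
    rw [← hfx]
    refine card_le_one.2 fun a ha b hb => ?_
    by_contra hab
    have h12 := card_St hT hxy hab
    rw [hS, card_singleton] at h12
    exact hg (card_le_one.1 h12.le g (mem_St.2 ⟨by simpa using ha, by simpa using hb⟩) 1 (one_mem_St _ _))
  · have : ((1 * Nat.card G : ℕ) : ℚ) = (n * (n - 1) : ℕ) := by
      push_cast [Nat.cast_sub (show 1 ≤ n by omega)] at m1 ⊢
      rw [card_singleton] at m1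
      push_cast at m1
      linarith
    exact_mod_cast this
  · have : ((n * Nat.card {g : G // ∀ ω : Ω, g • ω ≠ ω} : ℕ) : ℚ) = (1 * Nat.card G : ℕ) := by
      push_cast at e ⊢
      linarith
    exact_mod_cast this

end Cfsg.Agent.S5730
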