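import Cfsg.Statements.S5735
import Cfsg.Agent.BS.Bm

set_option autoImplicit false
open Cfsg

namespace Cfsg.Agent.S5735

/-- Let G be a finite simple group with exactly one conjugacy class of involutions, and let H be a proper subgroup of even order. Then the action of G on the cosets of H is binary if and only if one of the following holds: G ≅ SL₂(2^a) with a ≥ 2 and H is a Sylow 2-subgroup; G is a Suzuki group Sz(2^(2a+1)) with a ≥ 1 and H is the centre of a Sylow 2-subgroup; G ≅ PSU₃(2^a) with a ≥ 2 and H is the centre of a Sylow 2-subgroup. Here an action is binary (relational complexity 2) when, for every n ≥ 2 and all n-tuples I, J of points, if for every pair of positions some group element carries the corresponding pair of entries of I to those of J, then a single group element carries I to J. -/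
theorem result {G : Type*} [Group G] [Finite G] [IsSimpleGroup G] (hinv : ∃ s : G, orderOf s = 2)
    (hone : ∀ s t : G, orderOf s = 2 → orderOf t = 2 → IsConj s t)
    (H : Subgroup G) (hH : H ≠ ⊤) (heven : Even (Nat.card H)) :
    (∀ (n : ℕ) (I J : Fin n → G ⧸ H), 2 ≤ n →
        (∀ i j : Fin n, i ≠ j → ∃ g : G, g • I i = J i ∧ g • I j = J j) → ∃ g : G, ∀ i, g • I i = J i) ↔
      (((∃ (F : Type) (_ : Field F) (_ : Fintype F) (a : ℕ), 2 ≤ a ∧ Fintype.card F = 2 ^ a ∧ Nonempty (G ≃* Matrix.SpecialLinearGroup (Fin 2) F)) ∧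
          ∃ P : Sylow 2 G, H = P) ∨
        (Cfsg.Lie.IsoSuzuki G ∧ ∃ P : Sylow 2 G, H = (Subgroup.center (P : Subgroup G)).map (P : Subgroup G).subtype) ∨
        ((∃ (F : Type) (_ : Field F) (_ : Fintype F) (a : ℕ), 2 ≤ a ∧ Fintype.card F = (2 ^ a) ^ 2 ∧ Nonempty (G ≃* Cfsg.PSU 3 F (2 ^ a))) ∧
          ∃ P : Sylow 2 G, H = (Subgroup.center (P : Subgroup G)).map (P : Subgroup G).subtype)) := by
  change H15.Bin G (G ⧸ H) ↔ _
  refine ⟨fun hB => ?_, ?_⟩
  · rcases BS.bin_cases hone hH heven hB with ⟨F, _, _, ⟨n, h1, h2⟩, ⟨e⟩⟩ | h | h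
    · haveI := H11.charP_two_of_card h2
      obtain ⟨f⟩ := H19.nonempty_PSL2_equiv_SL2 (F := F)
      exact Or.inl ⟨⟨F, _, _, n, h1, h2, ⟨e.trans f⟩⟩, (BS.bin_PSL h1 h2 e hH heven).1 hB⟩
    · exact Or.inr (Or.inl ⟨h, (BS.bin_Sz h hH heven).1 hB⟩)
    · exact Or.inr (Or.inr h)
  · rintro (⟨⟨F, _, _, n, h1, h2, ⟨e⟩⟩, h⟩ | ⟨h, h'⟩ | ⟨⟨F, _, _, n, h1, h2, ⟨e⟩⟩, P, rfl⟩)
    · haveI := H11.charP_two_of_card h2
      obtain ⟨f⟩ := H19.nonempty_PSL2_equiv_SL2 (F := F)
      exact (BS.bin_PSL h1 h2 (e.trans f.symm) hH heven).2 h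
    · exact (BS.bin_Sz h hH heven).2 h'
    · exact BS.bin_PSU h2 (Nat.even_pow.2 ⟨even_two, by omega⟩) e P

end Cfsg.Agent.S5735
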