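import Cfsg.Statements.S5739
import Cfsg.Agent.H13.Singer

set_option autoImplicit false
open Cfsg

namespace Cfsg.Agent.S5739

/-- Let F ⊆ K be finite fields with |F| = q and [K : F] = n ≥ 2, and let M ≤ GL_F(K) be the Singer group of multiplications by non-zero elements of K. If g ∈ GL_F(K) does not normalise M, then the order of M ∩ gMg⁻¹ divides q^r − 1 for some proper divisor r of n. In particular, when n is prime, that order divides q − 1. -/
theorem result {F K : Type*} [Field F] [Fintype F] [Field K] [Fintype K] [Algebra F K] (n : ℕ) (hn : 2 ≤ n) (hdim : Module.finrank F K = n)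
    (g : (Module.End F K)ˣ) (hg : ((Units.map ((Algebra.lmul F K : K →ₐ[F] Module.End F K) : K →* Module.End F K)).range).map (MulAut.conj g).toMonoidHom ≠ (Units.map ((Algebra.lmul F K : K →ₐ[F] Module.End F K) : K →* Module.End F K)).range) :
    ∃ r : ℕ, 1 ≤ r ∧ r ∣ n ∧ r < n ∧ Nat.card ↥(((Units.map ((Algebra.lmul F K : K →ₐ[F] Module.End F K) : K →* Module.End F K)).range).map (MulAut.conj g).toMonoidHom ⊓ (Units.map ((Algebra.lmul F K : K →ₐ[F] Module.End F K) : K →* Module.End F K)).range) ∣ Fintype.card F ^ r - 1 := by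
  change ∃ r, _ ∧ _ ∧ _ ∧ Nat.card ↥((H13.sing F K).range.map (MulAut.conj g).toMonoidHom ⊓ (H13.sing F K).range) ∣ _
  change (H13.sing F K).range.map (MulAut.conj g).toMonoidHom ≠ (H13.sing F K).range at hg
  set M := (H13.sing F K).range
  set N := M.map (MulAut.conj g).toMonoidHom
  let D := N.comap (H13.sing F K)
  let E := IntermediateField.adjoin F ((fun a : Kˣ => (a : K)) '' D)
  have h1 : Nat.card ↥(N ⊓ M) = Nat.card D := by
    rw [inf_comm, ← Subgroup.map_comap_eq, Subgroup.card_map_of_injective H13.sing_injective]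
  have : Finite M := Finite.Set.finite_range _
  have h2 : E ≠ ⊤ := fun h => hg (by
    refine Subgroup.eq_of_le_of_card_ge (fun x hx => H13.mem_range_sing_of_commAlg ?_)
      (Subgroup.card_map_of_injective (MulAut.conj g).injective).ge
    rw [eq_top_iff, ← IntermediateField.top_toSubalgebra, ← h,
      IntermediateField.adjoin_toSubalgebra_of_isAlgebraic fun _ _ => Algebra.IsAlgebraic.isAlgebraic _,
      Algebra.adjoin_le_iff]
    rintro _ ⟨a, ⟨_, ⟨b, rfl⟩, hb⟩, rfl⟩
    obtain ⟨_, ⟨c, rfl⟩, rfl⟩ := hx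
    refine H13.mem_commAlg.2 fun y => ?_
    have : (MulAut.conj g).toMonoidHom (H13.sing F K c) * H13.sing F K a =
        H13.sing F K a * (MulAut.conj g).toMonoidHom (H13.sing F K c) := by
      rw [← hb, ← map_mul, ← map_mul, ← map_mul, ← map_mul, mul_comm]
    exact congrArg (fun g : (Module.End F K)ˣ => g.1 y) this)
  have h3 := Module.finrank_mul_finrank F E K
  have h4 : 0 < Module.finrank F E := Module.finrank_pos
  refine ⟨Module.finrank F E, h4, ⟨_, hdim ▸ h3.symm⟩, ?_, ?_⟩
  · refine lt_of_le_of_ne (Nat.le_of_dvd (by omega) ⟨_, hdim ▸ h3.symm⟩) fun h => h2 ?_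
    exact IntermediateField.eq_of_le_of_finrank_eq le_top (by rw [IntermediateField.finrank_top', h, hdim])
  · rw [h1, ← Nat.card_eq_fintype_card, ← Module.natCard_eq_pow_finrank (K := F) (V := E),
      ← Nat.card_units, ← Subgroup.card_top (G := Eˣ),
      ← Subgroup.card_map_of_injective (f := Units.map (E.val : E →* K)) (Units.map_injective Subtype.val_injective)]
    refine Subgroup.card_dvd_of_le fun a ha => ⟨Units.mk0 ⟨a, IntermediateField.subset_adjoin _ _
      ⟨a, ha, rfl⟩⟩ fun h => a.ne_zero (congrArg Subtype.val h), trivial, Units.ext rfl⟩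

end Cfsg.Agent.S5739
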