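import Cfsg.Statements.S5747
-- import your own Cfsg.Agent.* helpers here

set_option autoImplicit false
open Cfsg

namespace Cfsg.Agent.S5747

section
variable {G Ω : Type*} [Group G] [MulAction G Ω]

/-- bases -/
def Bs (G : Type*) [Group G] [MulAction G Ω] (S : Set Ω) : Prop := ∀ g : G, (∀ x ∈ S, g • x = x) → g = 1

/-- independent sets -/
def Ind (G : Type*) [Group G] [MulAction G Ω] (S : Set Ω) : Prop :=
  ∀ x ∈ S, ∃ g : G, (∀ y ∈ S, y ≠ x → g • y = y) ∧ g • x ≠ x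

/-- irredundant sequences -/
def Irr (G : Type*) [Group G] [MulAction G Ω] {t : ℕ} (f : Fin t → Ω) : Prop :=
  ∀ i, ∃ g : G, (∀ j, j < i → g • f j = f j) ∧ g • f i ≠ f i

theorem bs_range {t : ℕ} {f : Fin t → Ω} :
    (∀ g : G, (∀ i, g • f i = f i) → g = 1) ↔ Bs G (Set.range f) := by simp [Bs]

theorem Irr.injective {t : ℕ} {f : Fin t → Ω} (h : Irr G f) : Function.Injective f := fun i j hij => by
  by_contra h1
  wlog h2 : j < i generalizing i j
  · exact this _ _ hij.symm (Ne.symm h1) (lt_of_le_of_ne (not_lt.mp h2) h1)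
  obtain ⟨g, a, b⟩ := h i
  exact b (hij ▸ a j h2)

theorem Irr.snoc {t : ℕ} {f : Fin t → Ω} (h : Irr G f) {y : Ω} {g : G} (h1 : ∀ j, g • f j = f j)
    (h2 : g • y ≠ y) : Irr G (Fin.snoc f y : Fin (t + 1) → Ω) := fun i => by
  induction i using Fin.lastCases with
  | last => exact ⟨g, fun j hj => by
      obtain ⟨j, rfl⟩ := Fin.exists_castSucc_eq.mpr hj.ne
      simpa using h1 j, by simpa⟩
  | cast i =>
    obtain ⟨g, a, b⟩ := h i
    exact ⟨g, fun j hj => by
      obtain ⟨j, rfl⟩ := Fin.exists_castSucc_eq.mpr (hj.trans (Fin.castSucc_lt_last i)).ne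
      simpa using a j (by simpa using hj), by simpa⟩

theorem Ind.exists_irr [Finite Ω] {S : Set Ω} (h : Ind G S) :
    ∃ f : Fin S.ncard → Ω, Set.range f = S ∧ Irr G f := by
  obtain ⟨e⟩ : Nonempty (Fin S.ncard ≃ S) := Finite.card_eq.mp (by simp)
  refine ⟨fun i => e i, by rw [← Function.comp_def, e.surjective.range_comp, Subtype.range_coe],
    fun i => ?_⟩
  obtain ⟨g, a, b⟩ := h _ (e i).2
  exact ⟨g, fun j hj => a _ (e j).2 fun h => hj.ne (e.injective (Subtype.ext h)), b⟩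

theorem Bs.exists_ind [Finite Ω] {S : Set Ω} (h : Bs G S) : ∃ T ⊆ S, Bs G T ∧ Ind G T := by
  obtain ⟨T, h1, h2⟩ := exists_minimal_le_of_wellFoundedLT _ S h
  refine ⟨T, h1, h2.1, fun x hx => ?_⟩
  by_contra! h3
  refine (h2.2 (y := T \ {x}) (fun g hg => h2.1 g fun y hy => ?_) Set.diff_subset hx).2 rfl
  by_cases h4 : y = x
  · exact h4 ▸ h3 g fun y a b => hg y ⟨a, b⟩
  · exact hg y ⟨hy, h4⟩

theorem card_eq [Finite Ω] (H : ∀ t (f : Fin t → Ω), Bs G (Set.range f) → Irr G f → Ind G (Set.range f))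
    {T : Set Ω} (h1 : Bs G T) (h2 : Ind G T) (k : ℕ) :
    ∀ S, (S \ T).ncard = k → Bs G S → Ind G S → S.ncard = T.ncard := by
  induction k with
  | zero =>
    intro S h3 h4 h5
    rw [Set.ncard_eq_zero, Set.diff_eq_empty] at h3
    refine congrArg _ (h3.antisymm fun x hx => by_contra fun h6 => ?_)
    obtain ⟨g, a, b⟩ := h2 x hx
    exact b (by rw [h4 g fun y hy => a y (h3 hy) (by rintro rfl; exact h6 hy), one_smul])
  | succ k ih =>
    intro S h3 h4 h5
    obtain ⟨x, a1, a2⟩ := Set.nonempty_of_ncard_ne_zero (h3.trans_ne k.succ_ne_zero)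
    obtain ⟨f, a3, a4⟩ := Ind.exists_irr (G := G) (S := S \ {x}) fun y hy =>
      (h5 y hy.1).imp fun g hg => ⟨fun z hz => hg.1 z hz.1, hg.2⟩
    obtain ⟨g, a5, a6⟩ := h5 x a1
    obtain ⟨y, a7, a8⟩ : ∃ y ∈ T, g • y ≠ y := by
      by_contra! h
      exact a6 (by rw [h1 g h, one_smul])
    have a9 : y ∉ S := fun h => a8 (a5 y h (by rintro rfl; exact a2 a7))
    have b1 := a4.snoc (fun j => a5 _ (a3.le ⟨j, rfl⟩).1 (a3.le ⟨j, rfl⟩).2) a8
    have b2 : Bs G (Set.range (Fin.snoc f y : Fin _ → Ω)) := fun s hs => by_contra fun h => by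
      have c1 : s • x ≠ x := fun c1 => h (h4 s fun z hz => by
        by_cases c2 : z = x
        · exact c2 ▸ c1
        · exact hs z (by rw [Fin.range_snoc, a3]; exact Or.inr ⟨hz, c2⟩))
      have c2 : S ⊆ Set.range (Fin.snoc (Fin.snoc f y : Fin _ → Ω) x : Fin _ → Ω) \ {y} := fun z hz =>
        ⟨by by_cases c2 : z = x <;> simp [Fin.range_snoc, a3, *], by rintro rfl; exact a9 hz⟩
      obtain ⟨u, c3, c4⟩ := H _ _ (fun u hu => h4 u fun z hz => hu z (c2 hz).1)
        (b1.snoc (fun j => hs _ ⟨j, rfl⟩) c1) y (by simp [Fin.range_snoc])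
      exact c4 (by rw [h4 u fun z hz => c3 z (c2 hz).1 (c2 hz).2, one_smul])
    have b3 := H _ _ b2 b1
    rw [Fin.range_snoc, a3] at b2 b3
    rw [← ih _ (by
      rw [Set.insert_diff_of_mem _ a7, Set.diff_diff_comm, Set.ncard_diff_singleton_of_mem (s := S \ T) ⟨a1, a2⟩, h3]
      rfl) b2 b3, Set.ncard_insert_of_notMem fun h => a9 h.1, Set.ncard_diff_singleton_add_one a1]

end

/-- Let a finite group G act on a finite set Ω. An irredundant base is a sequence of points ω₁, …, ω_t whose pointwise stabiliser is trivial and in which each ω_i is moved by some element fixing ω₁, …, ω_{i−1}. Then all irredundant bases have the same length if and only if every reordering of an irredundant base is again an irredundant base. -/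
theorem result {G Ω : Type*} [Group G] [Finite G] [MulAction G Ω] [Fintype Ω] :
    (∀ (t t' : ℕ) (f : Fin t → Ω) (f' : Fin t' → Ω), ((∀ g : G, (∀ i : Fin t, g • f i = f i) → g = 1) ∧ ∀ i : Fin t, ∃ g : G, (∀ j : Fin t, j < i → g • f j = f j) ∧ g • f i ≠ f i) → ((∀ g : G, (∀ i : Fin t', g • f' i = f' i) → g = 1) ∧ ∀ i : Fin t', ∃ g : G, (∀ j : Fin t', j < i → g • f' j = f' j) ∧ g • f' i ≠ f' i) → t = t') ↔
    (∀ (t : ℕ) (f : Fin t → Ω) (σ : Equiv.Perm (Fin t)), ((∀ g : G, (∀ i : Fin t, g • f i = f i) → g = 1) ∧ ∀ i : Fin t, ∃ g : G, (∀ j : Fin t, j < i → g • f j = f j) ∧ g • f i ≠ f i) → ((∀ g : G, (∀ i : Fin t, g • (f ∘ σ) i = (f ∘ σ) i) → g = 1) ∧ ∀ i : Fin t, ∃ g : G, (∀ j : Fin t, j < i → g • (f ∘ σ) j = (f ∘ σ) j) ∧ g • (f ∘ σ) i ≠ (f ∘ σ) i)) := by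
  refine ⟨fun H t f σ ⟨h1, h2⟩ => ⟨fun g hg => h1 g fun i => by simpa using hg (σ.symm i), fun i => ?_⟩,
    fun H t t' f f' ⟨h1, h2⟩ ⟨h3, h4⟩ => ?_⟩
  · by_contra! h3
    obtain ⟨T, a1, a2, a3⟩ := Bs.exists_ind (G := G) (S := f '' {σ i}ᶜ) fun g hg => h1 g fun j => by
      by_cases h4 : j = σ i
      · exact h4 ▸ h3 g fun k hk => hg _ ⟨_, σ.injective.ne hk.ne, rfl⟩
      · exact hg _ ⟨j, h4, rfl⟩
    obtain ⟨e, a4, a5⟩ := a3.exists_irr
    have a6 := H _ _ e f ⟨bs_range.mpr (by rwa [a4]), a5⟩ ⟨h1, h2⟩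
    have a7 := (Set.ncard_le_ncard a1).trans (Set.ncard_image_le)
    have := Set.ncard_add_ncard_compl ({σ i} : Set (Fin t))
    simp at this
    omega
  have key : ∀ t (f : Fin t → Ω), Bs G (Set.range f) → Irr G f → Ind G (Set.range f) := by
    rintro t f a b _ ⟨i, rfl⟩
    obtain _ | t := t
    · exact i.elim0
    obtain ⟨g, c, d⟩ := (H _ f (Equiv.swap i (Fin.last t)) ⟨bs_range.mpr a, b⟩).2 (Fin.last t)
    refine ⟨g, ?_, by simpa using d⟩
    rintro _ ⟨j, rfl⟩ hj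
    simpa using c (Equiv.swap i (Fin.last t) j) (Fin.lt_last_iff_ne_last.mpr (by
      rw [Ne, Equiv.swap_apply_eq_iff, Equiv.swap_apply_right]; rintro rfl; exact hj rfl))
  have := card_eq key (bs_range.mp h3) (key _ _ (bs_range.mp h3) h4) _ _ rfl (bs_range.mp h1)
    (key _ _ (bs_range.mp h1) h2)
  simpa [Set.ncard_range_of_injective (Irr.injective h2), Set.ncard_range_of_injective (Irr.injective h4)]
    using this

end Cfsg.Agent.S5747
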