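import Cfsg.Statements.S5748
import Cfsg.Agent.H25.AbInv
import Cfsg.Agent.H25.EqConj

set_option autoImplicit false
open Cfsg

namespace Cfsg.Agent.S5748

open Cfsg.Agent.H25 Cfsg.Agent.H21 Cfsg.Agent.H20

/-- A finite non-abelian simple group in which commuting is a transitive relation on the non-identity elements (equivalently, every non-identity element has abelian centraliser) is isomorphic to PSL₂ over a field with 2^f elements for some f ≥ 2; conversely these groups have that property. -/
theorem result {G : Type*} [Group G] [Finite G] [IsSimpleGroup G] (hG : ¬ IsMulCommutative G) :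
    (∀ a b c : G, a ≠ 1 → b ≠ 1 → c ≠ 1 → Commute a b → Commute b c → Commute a c) ↔
    ∃ (F : Type) (_ : Field F) (_ : Fintype F) (f : ℕ), 2 ≤ f ∧ Fintype.card F = 2 ^ f ∧ Nonempty (G ≃* Matrix.ProjectiveSpecialLinearGroup (Fin 2) F) := by
  constructor
  · intro hCT
    have hns : ¬ Group.IsSolvable G := fun hs => hG ⟨⟨IsSimpleGroup.comm_iff_isSolvable.mpr hs⟩⟩
    obtain ⟨T⟩ : Nonempty (Sylow 2 G) := inferInstance
    have hA : AI G := by
      refine AI.of_sylow (fun t ht => ?_) (sylowOf_top T) (fun hc => ?_) (fun hn => ?_)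
      · rw [comm_iff]
        intro a ha b hb
        by_cases h1 : a = 1
        · simp [h1]
        by_cases h2 : b = 1
        · simp [h2]
        exact hCT a t b h1 (inv_ne_one ht) h2 (mem_cent1.mp ha) (mem_cent1.mp hb).symm
      · obtain ⟨K, hK, hKo, hKc⟩ := exists_normal_odd_of_cyclic T hc
        rcases hK.eq_bot_or_eq_top with rfl | rfl
        · rw [Subgroup.card_bot, one_mul] at hKc
          have : (T : Subgroup G) = ⊤ := Subgroup.eq_top_of_card_eq _ hKc
          exact hns (sol_top_iff.mp (this ▸ sol_of_pgroup T.isPGroup'))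
        · exact hns (sol_top_iff.mp (FT.solvable_of_odd hKo))
      · rcases (Subgroup.normalizer_eq_top_iff.mp hn).eq_bot_or_eq_top with h | h
        · apply hns
          apply FT.solvable_of_odd
          rw [← Nat.not_even_iff_odd, even_iff_two_dvd, ← card_top']
          exact (sylowOf_top T).sylow_eq_bot_iff.mp h
        · exact hns (sol_top_iff.mp (h ▸ sol_of_pgroup T.isPGroup'))
    have hZ : Subgroup.center G = ⊥ := by
      rcases (inferInstance : (Subgroup.center G).Normal).eq_bot_or_eq_top with h | h
      · exact h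
      · exact absurd ⟨⟨fun a b => Subgroup.mem_center_iff.mp (h ▸ Subgroup.mem_top b) a⟩⟩ hG
    obtain ⟨F, _, _, hF, e⟩ := hA.psl_of_center hZ (sylowOf_top T)
    obtain ⟨n, hn, hTn⟩ := hA.four_le (sylowOf_top T)
    exact ⟨F, _, _, n, hn, hF.trans hTn, e⟩
  · rintro ⟨F, _, _, f, -, hF, ⟨e⟩⟩ a b c - hb - h1 h2
    haveI : CharP F 2 := charP_of_card_eq_prime_pow hF
    apply e.injective
    rw [map_mul, map_mul]
    refine psl2_comm_of_comm (a := e b) (by simpa using hb) ?_ ?_
    · rw [← map_mul, h1.eq, map_mul]
    · rw [← map_mul, ← h2.eq, map_mul]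

end Cfsg.Agent.S5748
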