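import Cfsg.Statements.S5751
import Cfsg.Agent.H18.IcA
-- import your own Cfsg.Agent.* helpers here

set_option autoImplicit false
open Cfsg

namespace Cfsg.Agent.S5751

/-- An extremal example for iterated cores of conjugate maximal subgroups: there exist a finite group G and two distinct conjugate maximal subgroups M₁, M₂ of G, with M₁ having trivial core in G, such that, if we define two descending sequences of subgroups by A₀ = M₁, B₀ = M₂ and, for every i, A_{i+1} = the core in M₁ of A_i ∩ B_i and B_{i+1} = the core in M₂ of A_i ∩ B_i (the core in M of a subgroup Y ≤ M is the largest normal subgroup of M contained in Y), the subgroup A₆ is trivial while A₅ is not (so the index 6 cannot be lowered to 5). (One example is a maximal parabolic subgroup of the Chevalley group of type E₈ over a finite field and a suitable conjugate of it.) -/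
theorem result :
    ∃ (G : Type) (_ : Group G) (_ : Finite G) (M₁ M₂ : Subgroup G) (g : G) (A B : ℕ → Subgroup G),
      IsCoatom M₁ ∧ M₂ = M₁.map (MulAut.conj g).toMonoidHom ∧ M₁ ≠ M₂ ∧ M₁.normalCore = ⊥ ∧ A 0 = M₁ ∧ B 0 = M₂ ∧
      (∀ i, A (i + 1) = ((A i ⊓ B i).subgroupOf M₁).normalCore.map M₁.subtype) ∧
      (∀ i, B (i + 1) = ((A i ⊓ B i).subgroupOf M₂).normalCore.map M₂.subtype) ∧ A 6 = ⊥ ∧ A 5 ≠ ⊥ := by
  obtain ⟨G⟩ := H14.exists_good (D := Lie.chevE8) (by simp)
  have := (H14.simple_of_mem (K := ZMod 2) (D := Lie.chevE8) (by simp) (by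
    rintro (h | h) <;> exact absurd (congrArg Lie.ChevalleyDatum.rank h) (by decide))).1
  rw [G.grp_eq] at this
  refine ⟨(G.rg (ZMod 2)).grp, inferInstance, inferInstance, H18.exists_iter (G.rg (ZMod 2)).subG (i := (3 : Fin 8))
    (G.rg _).subG_top (by decide) (H14.connE8 G) ?_ ?_ ?_⟩
  · rw [H14.car_eqE8]
    exact (by decide +kernel : ∀ a b : Fin 8, H14.carE8 a b = H14.carE8 b a)
  · exact fun r => (G.cov_eq r _).trans_le
      ((by decide +kernel : ∀ r : Fin 240, (Lie.chevE8.coroot.getD r #[]).getD 3 0 ≤ 6) r)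
  · obtain ⟨r, hr⟩ := (by decide +kernel : ∃ r : Fin 240, (Lie.chevE8.coroot.getD r #[]).getD 3 0 = 6)
    exact ⟨r, (G.cov_eq r _).trans hr⟩

end Cfsg.Agent.S5751
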