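import Cfsg.Statements.S5752
import Cfsg.Agent.H24.Base5
import Cfsg.Agent.H10.Bender
-- import your own Cfsg.Agent.* helpers here

set_option autoImplicit false
open Cfsg

namespace Cfsg.Agent.S5752

section
open Subgroup H10
variable {G : Type*} [Group G] [Finite G] {M M' X Y : Subgroup G} {p : ℕ}

/-- the core in `M` -/
def cr (M Y : Subgroup G) : Subgroup G := (Y.subgroupOf M).normalCore.map M.subtype

theorem mem_cr {x : G} : x ∈ cr M Y ↔ x ∈ M ∧ ∀ m ∈ M, m * x * m⁻¹ ∈ Y :=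
  ⟨by rintro ⟨x, h, rfl⟩; exact ⟨x.2, fun m hm => h ⟨m, hm⟩⟩, fun h => ⟨⟨x, h.1⟩, fun m => h.2 m m.2, rfl⟩⟩

theorem cr_le : cr M Y ≤ Y := fun x hx => by simpa using (mem_cr.mp hx).2 1 M.one_mem

theorem le_normalizer_cr : M ≤ normalizer (cr M Y : Set G) := (normal_iff_map_subtype _).mp inferInstance

variable (hN : ∀ Z : Subgroup G, Z ≠ ⊥ → Z ≤ M → M ≤ normalizer (Z : Set G) → normalizer (Z : Set G) ≤ M)
  (h1 : X ≤ cr M' (M ⊓ M')) (h2 : M ≤ normalizer (X : Set G))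
include h1 h2

theorem sub : SubnormalIn X M' := (SubnormalIn.of_normal h1 ((cr_le.trans inf_le_left).trans h2)).trans
  (.of_normal (cr_le.trans inf_le_right) le_normalizer_cr)

include hN

theorem large (h0 : X ≠ ⊥) : Large M' M := by
  have h3 := h1.trans (cr_le.trans inf_le_left)
  refine ⟨(LayOf_le_normalizer_of_subnormal (sub h1 h2)).trans (hN X h0 h3 h2), fun r hr => ?_⟩
  have := Fact.mk hr
  by_cases h : pResidualOf r X = ⊥
  · exact inf_le_right.trans ((centralizer_le (le_inf h3 ((sub h1 h2).le_OpOf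
      (H24.pResidualOf_eq_bot_iff.mp h)))).trans ((centralizer_le_normalizer _).trans (hN X h0 h3 h2)))
  · exact inf_le_left.trans ((H24.SubnormalIn.pCoreOf_le_normalizer (sub h1 h2)).trans
      (hN _ h ((H24.pResidualOf_le r X).trans h3) (H24.le_normalizer_pResidualOf_of h2)))

theorem isP [Fact p.Prime] (hN' : normalizer (OpOf p M' : Set G) ≤ M') (h5 : OpOf p M ≠ ⊥)
    (h6 : Nat.card (OpOf p M) = Nat.card (OpOf p M')) (h7 : ¬ M' ≤ M) : IsPGroup p X := by
  by_contra h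
  have h3 := h1.trans (cr_le.trans inf_le_left)
  have h8 := hN _ (mt H24.pResidualOf_eq_bot_iff.mp h) ((H24.pResidualOf_le p X).trans h3)
    (H24.le_normalizer_pResidualOf_of h2)
  have h9 : OpOf p M ⊓ M' ≤ cr M' (M ⊓ M') := fun x hx => mem_cr.mpr ⟨hx.2, fun m hm => by
    refine ⟨h8 ?_, M'.mul_mem (M'.mul_mem hm hx.2) (M'.inv_mem hm)⟩
    have a1 : X.map (MulAut.conj m⁻¹).toMonoidHom ≤ cr M' (M ⊓ M') :=
      conj_le_of_mem h1 (le_normalizer_cr (inv_mem hm))
    have a2 := H24.SubnormalIn.le_normalizer_pResidualOf (((sub h1 h2).map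
      (MulAut.conj m⁻¹).toMonoidHom).of_le (a1.trans cr_le) (by
        rw [mem_normalizer_iff_conj_eq.mp (le_normalizer (M'.inv_mem hm))]; exact inf_le_right))
      (OpOf_isPGroup (p := p)) OpOf_le ((a1.trans cr_le).trans (le_normalizer_OpOf le_normalizer))
      (inf_OpOf_le inf_le_left ⟨⟨OpOf_le hx.1, hx.2⟩, hx.1⟩)
    rw [← H24.map_pResidualOf_injective (conj_injective _), ← conj_normalizer, mem_conj_iff] at a2
    simpa using a2⟩
  have h10 : OpOf p M ≤ OpOf p M' := le_of_inf_normalizer_le OpOf_isPGroup OpOf_isPGroup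
    (((H24.SubnormalIn.pCoreOf_le_normalizer (sub h1 h2)).trans h8).trans
      (le_normalizer_OpOf le_normalizer)) ((inf_le_inf_left _ hN').trans
      ((le_inf h9 (le_inf (h9.trans (cr_le.trans inf_le_left)) inf_le_left)).trans (by
        rw [← inf_assoc, inf_eq_left.mpr (cr_le.trans inf_le_left)]
        exact (inf_OpOf_le (cr_le.trans inf_le_left)).trans (SubnormalIn.OpOf_le
          (.of_normal (cr_le.trans inf_le_right) le_normalizer_cr)))))
  exact h7 ((le_normalizer_OpOf le_normalizer).trans (eq_of_le_of_card_ge h10 h6.ge ▸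
    hN _ h5 OpOf_le (le_normalizer_OpOf le_normalizer)))

end

/-- A form of the Thompson–Wielandt Theorem on primitive permutation groups. Let G be a finite group and M₁, M₂ two distinct conjugate maximal subgroups of G with trivial core in G; define two descending sequences of subgroups by A₀ = M₁, B₀ = M₂ and, for every i, A_{i+1} = the core in M₁ of A_i ∩ B_i and B_{i+1} = the core in M₂ of A_i ∩ B_i (the core in M of a subgroup Y ≤ M is the largest normal subgroup of M contained in Y). If A₂ and B₂ are both non-trivial, then for some prime p the subgroup generated by A₂ and B₂ is a p-group, and for each j the generalized Fitting subgroups of M_j and of its first core (A₁, resp. B₁) are their largest normal p-subgroups. -/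
theorem result {G : Type*} [Group G] [Finite G] (M₁ M₂ : Subgroup G) (hmax : IsCoatom M₁) (g : G)
    (hconj : M₂ = M₁.map (MulAut.conj g).toMonoidHom) (hne : M₁ ≠ M₂) (hcore : M₁.normalCore = ⊥)
    (A B : ℕ → Subgroup G) (hA0 : A 0 = M₁) (hB0 : B 0 = M₂)
    (hA : ∀ i, A (i + 1) = ((A i ⊓ B i).subgroupOf M₁).normalCore.map M₁.subtype)
    (hB : ∀ i, B (i + 1) = ((A i ⊓ B i).subgroupOf M₂).normalCore.map M₂.subtype) (hA2 : A 2 ≠ ⊥) (hB2 : B 2 ≠ ⊥) :
    ∃ p : ℕ, p.Prime ∧ IsPGroup p ↥(A 2 ⊔ B 2) ∧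
      Cfsg.generalizedFittingSubgroup ↥M₁ = Cfsg.pCore p ↥M₁ ∧ Cfsg.generalizedFittingSubgroup ↥(A 1) = Cfsg.pCore p ↥(A 1) ∧
      Cfsg.generalizedFittingSubgroup ↥M₂ = Cfsg.pCore p ↥M₂ ∧ Cfsg.generalizedFittingSubgroup ↥(B 1) = Cfsg.pCore p ↥(B 1) := by
  open Subgroup H10 in
  have a1 : A 1 = cr M₁ (M₁ ⊓ M₂) := by rw [hA, hA0, hB0]; rfl
  have b1 : B 1 = cr M₂ (M₂ ⊓ M₁) := by rw [hB, hA0, hB0, inf_comm]; rfl
  have a2 : A 2 = cr M₁ (A 1 ⊓ B 1) := hA 1
  have b2 : B 2 = cr M₂ (A 1 ⊓ B 1) := hB 1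
  have hN : ∀ M : Subgroup G, IsCoatom M → M.normalCore = ⊥ → ∀ Z : Subgroup G, Z ≠ ⊥ → Z ≤ M →
      M ≤ normalizer (Z : Set G) → normalizer (Z : Set G) ≤ M := fun M h1 h2 Z h3 h4 h5 =>
    ((h1.le_iff.mp h5).resolve_left fun h => h3 (le_bot_iff.mp (h2 ▸ (normal_le_normalCore
      (hN := normalizer_eq_top_iff.mp h)).mpr h4))).le
  have hm2 : IsCoatom M₂ := hconj ▸ ((MulAut.conj g).mapSubgroup.isCoatom_iff _).mpr hmax
  have n1 := hN M₁ hmax hcore
  have n2 := hN M₂ hm2 (eq_bot_iff.mpr fun x hx => hcore.le fun m => by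
    have := hx (g * m)
    rw [hconj, mem_conj_iff] at this
    simpa [mul_assoc] using this)
  have c1 : A 2 ≤ cr M₂ (M₁ ⊓ M₂) := by rw [a2, inf_comm M₁, ← b1]; exact cr_le.trans inf_le_right
  have c2 : B 2 ≤ cr M₁ (M₂ ⊓ M₁) := by rw [b2, inf_comm M₂, ← a1]; exact cr_le.trans inf_le_left
  have c3 : M₁ ≤ normalizer (A 2 : Set G) := a2 ▸ le_normalizer_cr
  have c4 : M₂ ≤ normalizer (B 2 : Set G) := b2 ▸ le_normalizer_cr
  have l1 := large n1 c1 c3 hA2
  have l2 := large n2 c2 c4 hB2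
  obtain ⟨p, hp, e1, e2⟩ := (bender l2 l1 (fun Z a b c => inf_le_right.trans (n1 Z a (b.trans inf_le_left) c))
    fun Z a b c => inf_le_right.trans (n2 Z a (b.trans inf_le_left) c)).resolve_left hne
  have := Fact.mk hp
  have d1 : Nat.card (OpOf p M₁) = Nat.card (OpOf p M₂) := by rw [hconj, ← conj_OpOf, card_conj]
  have d2 : ∀ M X : Subgroup G, FstarOf M = OpOf p M → X ≤ M → X ≠ ⊥ → OpOf p M ≠ ⊥ :=
    fun M X a b c h => c (le_bot_iff.mp (b.trans (by
      simpa [h, centralizer_bot_eq] using FstarOf_eq_OpOf_iff_centralizer.mp a)))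
  have d3 := d2 _ _ e1 (c1.trans (cr_le.trans inf_le_left)) hA2
  have d4 := d2 _ _ e2 (c2.trans (cr_le.trans inf_le_left)) hB2
  have d5 : ¬ M₂ ≤ M₁ := fun h => hne (hm2.le_iff.mp h |>.resolve_left hmax.1)
  have d6 : ¬ M₁ ≤ M₂ := fun h => hne (hmax.le_iff.mp h |>.resolve_left hm2.1).symm
  have f1 := isP n1 c1 c3 (n2 _ d4 OpOf_le (le_normalizer_OpOf le_normalizer)) d3 d1 d5
  have f2 := isP n2 c2 c4 (n1 _ d3 OpOf_le (le_normalizer_OpOf le_normalizer)) d4 d1.symm d6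
  have key : ∀ {M Y : Subgroup G}, Y ≤ M → FstarOf M = OpOf p M → FstarOf (cr M Y) = OpOf p (cr M Y) :=
    fun h1 h2 => FstarOf_eq_OpOf_iff.mpr (OpOf_isPGroup.to_le ((SubnormalIn.FstarOf_le
      (.of_normal (cr_le.trans h1) le_normalizer_cr)).trans h2.le))
  exact ⟨p, hp, OpOf_isPGroup.to_le (sup_le (le_OpOf (c1.trans (cr_le.trans inf_le_left)) c3 f1)
    ((sub c2 c4).le_OpOf f2)), FstarOf_eq_OpOf_iff_abs.mp e1,
    FstarOf_eq_OpOf_iff_abs.mp (a1 ▸ key inf_le_left e1), FstarOf_eq_OpOf_iff_abs.mp e2,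
    FstarOf_eq_OpOf_iff_abs.mp (b1 ▸ key inf_le_left e2)⟩

end Cfsg.Agent.S5752
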