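import Cfsg.Statements.S5753
import Cfsg.Agent.H13.Bin9

set_option autoImplicit false
open Cfsg

namespace Cfsg.Agent.S5753

open Cfsg.Agent.H13.Bin

theorem field_part {H V : Type*} [Group H] [AddCommGroup V] [DistribMulAction H V]
    [FaithfulSMul H V] [Finite V] [Finite H] {C : AddSubgroup V} {E : Type} [Field E] (P : PL H C E) :
    ∃ (F : Subfield E) (s : E ≃ₐ[F] E), (∀ x, s x = P.σ x) ∧ Module.finrank F E = 2 ∧
      (∀ φ : E ≃ₐ[F] E, φ = 1 ∨ φ = s) ∧ ∀ a : E, Algebra.norm F a = 1 ↔ a * P.σ a = 1 := by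
  classical
  haveI := P.finite
  let F : Subfield E := RingHom.eqLocusField P.σ (RingHom.id E)
  let s : E ≃ₐ[F] E :=
    { toFun := P.σ
      invFun := P.σ
      left_inv := P.σσ
      right_inv := P.σσ
      map_mul' := map_mul P.σ
      map_add' := map_add P.σ
      commutes' := fun r => r.2 }
  have hs : ∀ x, s x = P.σ x := fun _ => rfl
  have hr : Module.finrank F E = 2 := by
    have h1 := Module.natCard_eq_pow_finrank (K := F) (V := E)
    have h2 : Nat.card F = P.q := rfl
    rw [P.card_E, h2, ← pow_two] at h1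
    exact (Nat.pow_right_injective P.two_le_q h1).symm
  have hne : (1 : E ≃ₐ[F] E) ≠ s := fun e => P.hη2 (by rw [← hs, ← e]; rfl)
  have hall : ∀ φ : E ≃ₐ[F] E, φ = 1 ∨ φ = s := by
    have hc := IsGalois.card_aut_eq_finrank F E
    rw [hr, Nat.card_eq_two_iff' 1] at hc
    obtain ⟨y, -, hy⟩ := hc
    intro φ
    by_cases h : φ = 1
    · exact Or.inl h
    · exact Or.inr ((hy φ h).trans (hy s hne.symm).symm)
  refine ⟨F, s, hs, hr, hall, fun a => ?_⟩
  have h := Algebra.norm_eq_prod_automorphisms F a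
  have hu : (Finset.univ : Finset (E ≃ₐ[F] E)) = {1, s} := by
    ext φ; simpa using hall φ
  rw [hu, Finset.prod_pair hne, hs] at h
  change _ = a * _ at h
  rw [← h, ← map_one (algebraMap F E), (algebraMap F E).injective.eq_iff]

/-- The binary primitive permutation groups of affine type (the known proof uses the classification of the finite simple groups). Let a finite group G act faithfully and primitively on a finite set Ω, with a non-trivial abelian normal subgroup, and suppose the action is binary: for every n ≥ 2 and all n-tuples I, J of points, if for every pair of positions some element of G carries the corresponding pair of entries of I to those of J, then a single element carries I to J. Then either Ω has a prime number of points and every point stabilizer has order at most 2, or Ω can be identified with a field E that is a quadratic extension of a subfield F in such a way that the permutations induced by G are exactly the maps x ↦ a·φ(x) + b with a ∈ E of norm 1 over F, φ an automorphism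 of E over F and b ∈ E (the affine group of the anisotropic plane orthogonal group). -/
theorem result {G Ω : Type*} [Group G] [Finite G] [MulAction G Ω] [FaithfulSMul G Ω] [Fintype Ω]
    (hprim : MulAction.IsPreprimitive G Ω)
    (haff : ∃ N : Subgroup G, N.Normal ∧ N ≠ ⊥ ∧ IsMulCommutative ↥N)
    (hbin : ∀ (n : ℕ) (I J : Fin n → Ω), 2 ≤ n →
      (∀ i j : Fin n, i ≠ j → ∃ g : G, g • I i = J i ∧ g • I j = J j) → ∃ g : G, ∀ i, g • I i = J i) :
    ((Fintype.card Ω).Prime ∧ ∀ ω : Ω, Nat.card ↥(MulAction.stabilizer G ω) ≤ 2) ∨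
    (∃ (F E : Type) (_ : Field F) (_ : Fintype F) (_ : Field E) (_ : Fintype E) (_ : Algebra F E) (e : Ω ≃ E),
        Module.finrank F E = 2 ∧
        ∀ σ : Equiv.Perm Ω, σ ∈ (MulAction.toPermHom G Ω).range ↔
          ∃ (a b : E) (φ : E ≃ₐ[F] E), Algebra.norm F a = 1 ∧ ∀ ω : Ω, e (σ ω) = a * φ (e ω) + b) := by
  classical
  obtain ⟨N, hN, hN0, hNc⟩ := haff
  have hne : ∀ n : N, (∀ ω : Ω, (n : G) • ω = ω) → n = 1 := fun n h =>
    Subtype.ext (FaithfulSMul.eq_of_smul_eq_smul (α := Ω) fun ω => by rw [h]; simp)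
  haveI hNn : Nontrivial N := (Subgroup.nontrivial_iff_ne_bot N).2 hN0
  have htr : MulAction.IsPretransitive N Ω := by
    apply MulAction.IsQuasiPreprimitive.isPretransitive_of_normal
    intro h
    obtain ⟨n, hn⟩ := exists_ne (1 : N)
    exact hn (hne n fun ω => (h ▸ Set.mem_univ ω : ω ∈ MulAction.fixedPoints N Ω) n)
  obtain ⟨ω0⟩ : Nonempty Ω := by
    by_contra h
    obtain ⟨n, hn⟩ := exists_ne (1 : N)
    exact hn (hne n fun ω => absurd ⟨ω⟩ h)
  have hreg : ∀ n : N, (n : G) • ω0 = ω0 → n = 1 := by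
    intro n h
    refine hne n fun ω => ?_
    obtain ⟨m, rfl⟩ := htr.exists_smul_eq ω0 ω
    rw [Subgroup.smul_def, ← mul_smul, ← Subgroup.coe_mul, hNc.is_comm.comm, Subgroup.coe_mul,
      mul_smul, h]
  letI : CommGroup N := { (inferInstance : Group N) with mul_comm := hNc.is_comm.comm }
  let H := MulAction.stabilizer G ω0
  let V := Additive N
  letI : DistribMulAction H V :=
    { smul := fun h v => Additive.ofMul (MulAut.conjNormal (h : G) (Additive.toMul v))
      one_smul := fun v => by
        change Additive.ofMul (MulAut.conjNormal ((1 : H) : G) (Additive.toMul v)) = v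
        simp
      mul_smul := fun a b v => by
        change Additive.ofMul (MulAut.conjNormal ((a * b : H) : G) (Additive.toMul v)) =
          Additive.ofMul (MulAut.conjNormal (a : G) (MulAut.conjNormal (b : G) (Additive.toMul v)))
        simp
      smul_zero := fun a => by
        change Additive.ofMul (MulAut.conjNormal (a : G) 1) = 0
        simp
      smul_add := fun a u v => by
        change Additive.ofMul (MulAut.conjNormal (a : G) (Additive.toMul u * Additive.toMul v)) =
          Additive.ofMul (MulAut.conjNormal (a : G) (Additive.toMul u) *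
            MulAut.conjNormal (a : G) (Additive.toMul v))
        rw [map_mul] }
  let tr : V → G := fun v => ((Additive.toMul v : N) : G)
  let θ : V ≃ Ω := Equiv.ofBijective (fun v => tr v • ω0) ⟨by
      intro u v h
      simp only [tr] at h
      have := hreg ((Additive.toMul v)⁻¹ * Additive.toMul u) (by
        rw [Subgroup.coe_mul, mul_smul, h, Subgroup.coe_inv, inv_smul_smul])
      exact Additive.toMul.injective (inv_mul_eq_one.1 this).symm, by
      intro ω
      obtain ⟨m, rfl⟩ := htr.exists_smul_eq ω0 ω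
      exact ⟨Additive.ofMul m, rfl⟩⟩
  have hθ : ∀ (n : V) (k : H) (v : V), (tr n * k) • θ v = θ (n + k • v) := by
    intro n k v
    have hk : (k : G)⁻¹ • ω0 = ω0 := (inv_mem k.2 : (k : G)⁻¹ ∈ MulAction.stabilizer G ω0)
    change (tr n * k) • tr v • ω0 = (tr n * ((k : G) * tr v * (k : G)⁻¹)) • ω0
    simp only [mul_smul, hk]
  have hdec : ∀ g : G, ∃ n : V, ∃ k : H, g = tr n * k := by
    intro g
    obtain ⟨m, hm⟩ := htr.exists_smul_eq ω0 (g • ω0)
    refine ⟨Additive.ofMul m, ⟨(m : G)⁻¹ * g, ?_⟩, by simp [tr]⟩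
    rw [MulAction.mem_stabilizer_iff, mul_smul, ← hm, Subgroup.smul_def, inv_smul_smul]
  haveI : FaithfulSMul H V := ⟨fun {a b} h => Subtype.ext
    (FaithfulSMul.eq_of_smul_eq_smul (α := Ω) fun ω => by
      obtain ⟨v, rfl⟩ := θ.surjective ω
      have e1 := hθ 0 a v
      have e2 := hθ 0 b v
      have : tr 0 = 1 := rfl
      rw [this, one_mul] at e1 e2
      rw [e1, e2, h])⟩
  have hb : Bin (⊤ : Subgroup H) V := by
    intro S hS
    rcases S.eq_empty_or_nonempty with rfl | ⟨a0, ha0⟩
    · exact ⟨1, trivial, by simp⟩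
    obtain ⟨n, f, hf⟩ := (Set.toFinite S).fin_param
    let I : Fin (n + 2) → V × V := fun i => if h : i.1 < n then f ⟨i.1, h⟩ else a0
    have hI : ∀ i, I i ∈ S := by
      intro i
      simp only [I]
      split_ifs
      · rw [← hf.2]; exact ⟨_, rfl⟩
      · exact ha0
    have hI2 : ∀ a ∈ S, ∃ i, I i = a := by
      intro a ha
      rw [← hf.2] at ha
      obtain ⟨j, rfl⟩ := ha
      exact ⟨⟨j.1, by omega⟩, by simp [I]⟩
    obtain ⟨g, hg⟩ := hbin (n + 2) (fun i => θ (I i).1) (fun i => θ (I i).2) (by omega) (by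
      intro i j _
      obtain ⟨k, -, hk⟩ := hS _ (hI i) _ (hI j)
      refine ⟨tr ((I j).2 - k • (I j).1) * k, ?_, ?_⟩
      · rw [hθ]; congr 1
        rw [smul_sub] at hk
        rw [sub_add, sub_eq_iff_eq_add, ← neg_sub, hk]; abel
      · rw [hθ, sub_add_cancel])
    obtain ⟨m, k, rfl⟩ := hdec g
    refine ⟨k, trivial, fun a ha b hb => ?_⟩
    obtain ⟨i, rfl⟩ := hI2 a ha
    obtain ⟨j, rfl⟩ := hI2 b hb
    have e1 := hg i
    have e2 := hg j
    rw [hθ] at e1 e2
    rw [← θ.injective e1, ← θ.injective e2, smul_sub]; abel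
  have irr : ∀ U : AddSubgroup V, (∀ g : H, ∀ u ∈ U, g • u ∈ U) → U = ⊥ ∨ U = ⊤ := by
    intro U hU
    have hB : MulAction.IsBlock G (θ '' (U : Set V)) := by
      rw [MulAction.isBlock_iff_smul_eq_of_mem]
      rintro g _ ⟨u, hu, rfl⟩ ⟨u', hu', e⟩
      obtain ⟨m, k, rfl⟩ := hdec g
      rw [hθ] at e
      have hm : m ∈ U := by
        rw [← add_mem_cancel_right (hU k u hu), ← θ.injective e]; exact hu'
      ext ω
      constructor
      · rintro ⟨_, ⟨w, hw, rfl⟩, rfl⟩
        exact ⟨_, add_mem hm (hU k w hw), (hθ m k w).symm⟩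
      · rintro ⟨w, hw, rfl⟩
        refine ⟨_, ⟨k⁻¹ • (w - m), hU _ _ (sub_mem hw hm), rfl⟩, ?_⟩
        simp only
        rw [hθ, smul_inv_smul, add_sub_cancel]
    rcases hprim.isTrivialBlock_of_isBlock hB with h | h
    · left
      rw [eq_bot_iff]
      intro u hu
      exact θ.injective (h ⟨u, hu, rfl⟩ ⟨0, zero_mem U, rfl⟩)
    · right
      rw [eq_top_iff]
      intro u _
      obtain ⟨w, hw, e⟩ : θ u ∈ θ '' (U : Set V) := h ▸ Set.mem_univ _
      exact θ.injective e ▸ hw
  rcases main_lin hb irr with ⟨h1, h2⟩ | ⟨E, _, ⟨P⟩, M⟩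
  · left
    refine ⟨by rwa [← Nat.card_eq_fintype_card, ← Nat.card_congr θ], fun ω => ?_⟩
    obtain ⟨g, rfl⟩ := hprim.toIsPretransitive.exists_smul_eq ω0 ω
    rwa [← Nat.card_congr (MulAction.stabilizerEquivStabilizer (rfl : g • ω0 = g • ω0)).toEquiv]
  · right
    haveI := P.finite
    obtain ⟨F, s, hs, hr, hall, hnorm⟩ := field_part P
    let ι : E ≃ V := Equiv.ofBijective P.ι ⟨P.inj, fun v => by
      obtain ⟨x, c, hc, e⟩ := P.dec v
      exact ⟨x, by rw [e, AddSubgroup.mem_bot.1 hc, add_zero]⟩⟩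
    have hK : ∀ k : H, k ∈ fxr H (⊥ : AddSubgroup V) := fun k c hc => by
      rw [AddSubgroup.mem_bot.1 hc, smul_zero]
    have he : ∀ x, (θ.symm.trans ι.symm) (θ (P.ι x)) = x := fun x => by
      simp only [Equiv.trans_apply, Equiv.symm_apply_apply]
      exact ι.symm_apply_apply x
    have hsur : ∀ ω, ∃ x, ω = θ (P.ι x) := fun ω =>
      ⟨ι.symm (θ.symm ω), by rw [← θ.symm_apply_eq]; exact (ι.apply_symm_apply _).symm⟩
    refine ⟨F, E, inferInstance, Fintype.ofFinite _, inferInstance, Fintype.ofFinite _, inferInstance,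
      θ.symm.trans ι.symm, hr, fun σ => ⟨?_, ?_⟩⟩
    · rintro ⟨g, rfl⟩
      obtain ⟨m, k, rfl⟩ := hdec g
      obtain ⟨b, rfl⟩ := ι.surjective m
      have hb : ι b = P.ι b := rfl
      obtain ⟨l, hl, e | e⟩ := P.full M (hK k)
      · refine ⟨l, b, 1, (hnorm l).2 hl, fun ω => ?_⟩
        obtain ⟨x, rfl⟩ := hsur ω
        rw [MulAction.toPermHom_apply, MulAction.toPerm_apply, hθ, e, hb, ← map_add, he, he, add_comm]
        rfl
      · refine ⟨l, b, s, (hnorm l).2 hl, fun ω => ?_⟩
        obtain ⟨x, rfl⟩ := hsur ω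
        rw [MulAction.toPermHom_apply, MulAction.toPerm_apply, hθ, e, hb, ← map_add, he, he, add_comm,
          hs]
    · rintro ⟨a, b, φ, ha, h⟩
      obtain ⟨k, hk⟩ : ∃ k : H, ∀ x, k • P.ι x = P.ι (a * φ x) := by
        rcases hall φ with rfl | rfl
        · obtain ⟨r, -, e⟩ := P.rot ((hnorm a).1 ha)
          exact ⟨r, e⟩
        · obtain ⟨r, -, e⟩ := P.refl' ((hnorm a).1 ha)
          exact ⟨r, fun x => by rw [e, hs]⟩
      refine ⟨tr (P.ι b) * k, Equiv.ext fun ω => ?_⟩
      apply (θ.symm.trans ι.symm).injective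
      rw [h]
      obtain ⟨x, rfl⟩ := hsur ω
      rw [MulAction.toPermHom_apply, MulAction.toPerm_apply, hθ, hk, ← map_add, he, he, add_comm]

end Cfsg.Agent.S5753
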