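import Cfsg.Statements.S5754
import Cfsg.Agent.H13.Quad

set_option autoImplicit false
open Cfsg

namespace Cfsg.Agent.S5754

/-- Let V be a finite-dimensional vector space over a finite field F carrying an anisotropic quadratic form Q (Q(v) = 0 only for v = 0). Then the group of all maps v ↦ φ(v) + c, with φ an isometry of Q and c ∈ V, acts on V as a binary permutation group: given n ≥ 2 and two n-tuples u, u' of vectors such that every pair of corresponding entries of u is carried to that of u' by such a map, one such map carries u to u'. -/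
theorem result {F V : Type*} [Field F] [Finite F] [AddCommGroup V] [Module F V] [Module.Finite F V]
    (Q : QuadraticForm F V) (hQ : Q.Anisotropic) (n : ℕ) (hn : 2 ≤ n) (u u' : Fin n → V)
    (h2 : ∀ i j : Fin n, i ≠ j → ∃ (φ : Q.IsometryEquiv Q) (c : V), φ (u i) + c = u' i ∧ φ (u j) + c = u' j) :
    ∃ (φ : Q.IsometryEquiv Q) (c : V), ∀ i, φ (u i) + c = u' i := by
  classical
  let z : Fin n := ⟨0, by omega⟩
  have h1 : ∀ i j, Q (u' i - u' j) = Q (u i - u j) := fun i j => by
    by_cases h : i = j
    · simp [h]
    · obtain ⟨φ, c, h3, h4⟩ := h2 i j h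
      rw [← h3, ← h4, add_sub_add_right_eq_sub, ← map_sub, φ.map_app]
  have h3 : ∀ i j, QuadraticMap.polar Q (u' i - u' z) (u' j - u' z) =
      QuadraticMap.polar Q (u i - u z) (u j - u z) := fun i j => by
    have h4 := H13.Q_sub Q (u' i - u' z) (u' j - u' z)
    have h5 := H13.Q_sub Q (u i - u z) (u j - u z)
    rw [sub_sub_sub_cancel_right] at h4 h5
    rw [h1, h1, h1] at h4
    linear_combination h4 - h5
  have key : ∀ s : Finset (Fin n), ∃ g : H13.OG Q, ∀ i ∈ s, g.1 (u i - u z) = u' i - u' z := fun s => by
    induction s using Finset.induction_on with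
    | empty => exact ⟨1, by simp⟩
    | insert j s _ ih =>
      obtain ⟨g, hg⟩ := ih
      by_cases h : g.1 (u j - u z) = u' j - u' z
      · exact ⟨g, by simpa [-map_sub, h] using hg⟩
      refine ⟨H13.refl Q (g.1 (u j - u z) - (u' j - u' z)) * g, fun i hi => ?_⟩
      rw [H13.OG_mul_apply]
      rcases Finset.mem_insert.1 hi with rfl | hi
      · exact H13.refl_sub_apply (by rw [H13.OG_map, h1]) fun h0 => h (sub_eq_zero.1 (hQ _ h0))
      · rw [H13.refl_apply_of_perp, hg i hi]
        rw [QuadraticMap.polar_sub_left, H13.OG_polar, hg i hi, h3, sub_self]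
  obtain ⟨g, hg⟩ := key Finset.univ
  refine ⟨⟨g.1, g.2⟩, u' z - g.1 (u z), fun i => ?_⟩
  have := hg i (Finset.mem_univ i)
  rw [map_sub] at this
  change g.1 (u i) + _ = _
  rw [← sub_add_cancel (u' i) (u' z), ← this]; abel

end Cfsg.Agent.S5754
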