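import Cfsg.Statements.S5763
-- import your own Cfsg.Agent.* helpers here

set_option autoImplicit false
open Cfsg

namespace Cfsg.Agent.S5763

/-- permutations translating the pairs -/
def tr : Subgroup (Equiv.Perm (Fin 8)) where
  carrier := {g | ∃ v : ℕ, ∀ i : Fin 8, (g i).1 / 2 = i.1 / 2 ^^^ v}
  one_mem' := ⟨0, by simp⟩
  mul_mem' := fun ⟨v, hv⟩ ⟨w, hw⟩ => ⟨w ^^^ v, fun i => by
    rw [Equiv.Perm.mul_apply, hv, hw, Nat.xor_assoc]⟩
  inv_mem' := fun {g} ⟨v, hv⟩ => ⟨v, fun i => by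
    have := hv (g⁻¹ i)
    rw [show g (g⁻¹ i) = i by simp] at this
    rw [this, Nat.xor_xor_cancel_right]⟩

theorem isPGroup_tr : IsPGroup 2 tr := fun ⟨g, v, hv⟩ => ⟨2, Subtype.ext (Equiv.ext fun i => by
  have h1 : ∀ i, (g (g i)).1 / 2 = i.1 / 2 := fun i => by rw [hv, hv, Nat.xor_xor_cancel_right]
  change g (g (g (g i))) = i
  by_cases h2 : g (g i) = i
  · rw [h2, h2]
  have h3 := mt (fun h => g.injective (g.injective h)) h2
  have := h1 i
  have := h1 (g (g i))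
  omega)⟩

theorem swap_mem {a b : Fin 8} (h : a.1 / 2 = b.1 / 2) : Equiv.swap a b ∈ tr := ⟨0, fun i => by
  rw [Equiv.swap_apply_def]; split_ifs <;> simp [*]⟩

/-- existence of a common translation -/
def Tl (l : List ℕ) : Prop := ∃ v < 4, ∃ w < 4, (v ≠ 0 ∨ w ≠ 0) ∧ ∀ i : Fin 8, ∃ j : Fin 8,
  j.1 / 2 = i.1 / 2 ^^^ v ∧ l.getD j 0 = l.getD i 0 ^^^ w

instance (l : List ℕ) : Decidable (Tl l) := by unfold Tl; infer_instance

/-- the last row -/
def T1 (a a' b b' c c' : ℕ) : Prop := ∀ d < 4, ∀ d' < 4, d = d' ∨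
  16 ^ a + 16 ^ a' + 16 ^ b + 16 ^ b' + 16 ^ c + 16 ^ c' + 16 ^ d + 16 ^ d' ≠ 8738 ∨
    Tl [a, a', b, b', c, c', d, d']

instance (a a' b b' c c' : ℕ) : Decidable (T1 a a' b b' c c') := by unfold T1; infer_instance

/-- the last two rows -/
def T2 (a a' b b' : ℕ) : Prop := ∀ c < 4, ∀ c' < 4, c = c' ∨ T1 a a' b b' c c'

instance (a a' b b' : ℕ) : Decidable (T2 a a' b b') := by unfold T2; infer_instance

/-- the last three rows -/
def T3 (a a' : ℕ) : Prop := ∀ b < 4, ∀ b' < 4, b = b' ∨ T2 a a' b b'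

instance (a a' : ℕ) : Decidable (T3 a a') := by unfold T3; infer_instance

theorem key : ∀ a < 4, ∀ a' < 4, a = a' ∨ T3 a a' := by
  decide +kernel

theorem exists_mem (x : Equiv.Perm (Fin 8)) : ∃ g ∈ tr, g ≠ 1 ∧ x * g * x⁻¹ ∈ tr := by
  by_cases h : ∃ a b : Fin 8, a ≠ b ∧ a.1 / 2 = b.1 / 2 ∧ (x a).1 / 2 = (x b).1 / 2
  · obtain ⟨a, b, h1, h2, h3⟩ := h
    exact ⟨_, swap_mem h2, by simpa, Equiv.swap_apply_apply x a b ▸ swap_mem h3⟩
  push Not at h
  have h1 : ∀ i, (x i).1 / 2 < 4 := fun i => by omega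
  obtain ⟨v, -, w, -, h2, h3⟩ := (((((key _ (h1 0) _ (h1 1)).resolve_left (h _ _ (by simp) rfl) _ (h1 2) _
    (h1 3)).resolve_left (h _ _ (by simp) rfl) _ (h1 4) _ (h1 5)).resolve_left (h _ _ (by simp) rfl) _
    (h1 6) _ (h1 7)).resolve_left (h _ _ (by simp) rfl)).resolve_left (not_not.mpr (by
      have := Equiv.sum_comp x fun i : Fin 8 => 16 ^ (i.1 / 2)
      rw [Fin.sum_univ_eight] at this
      exact this.trans (by decide)))
  have h4 : ∀ i : Fin 8, [(x 0).1 / 2, (x 1).1 / 2, (x 2).1 / 2, (x 3).1 / 2, (x 4).1 / 2, (x 5).1 / 2,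
    (x 6).1 / 2, (x 7).1 / 2].getD i 0 = (x i).1 / 2 := fun i => by fin_cases i <;> rfl
  simp only [h4] at h3
  choose g h5 h6 using h3
  refine ⟨Equiv.ofBijective g (Finite.injective_iff_bijective.mp fun i j hij => by_contra fun h7 =>
    h i j h7 (Nat.xor_left_injective (x := v) (by simp only [← h5, hij])) (Nat.xor_left_injective (x := w)
      (by simp only [← h6, hij]))), ⟨v, h5⟩, fun h7 => ?_, w, fun i => by simpa using h6 (x⁻¹ i)⟩
  have h8 : g 0 = 0 := DFunLike.congr_fun h7 0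
  have h9 := h5 0
  have h10 := h6 0
  rw [h8] at h9 h10
  exact h2.elim (· (Nat.xor_right_injective ((Nat.xor_zero _).trans h9)).symm)
    (· (Nat.xor_right_injective ((Nat.xor_zero _).trans h10)).symm)

/-- In the symmetric group on 8 letters any two Sylow 2-subgroups have non-trivial intersection: for a Sylow 2-subgroup H and every element x, H ∩ xHx⁻¹ ≠ 1. -/
theorem result (H : Sylow 2 (Equiv.Perm (Fin 8))) (x : Equiv.Perm (Fin 8)) :
    (H : Subgroup (Equiv.Perm (Fin 8))) ⊓ (H : Subgroup (Equiv.Perm (Fin 8))).map (MulAut.conj x).toMonoidHom ≠ ⊥ := by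
  obtain ⟨P, hP⟩ := isPGroup_tr.exists_le_sylow
  obtain ⟨y, rfl⟩ := MulAction.exists_smul_eq (Equiv.Perm (Fin 8)) P H
  obtain ⟨g, h1, h2, h3⟩ := exists_mem (y⁻¹ * x⁻¹ * y)
  refine Subgroup.ne_bot_iff_exists_ne_one.mpr ⟨⟨y * g * y⁻¹, ⟨g, hP h1, rfl⟩, _, ⟨_, hP h3, rfl⟩, by
    simp [mul_assoc]⟩, fun h => h2 ?_⟩
  simpa using congrArg Subtype.val h

end Cfsg.Agent.S5763
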