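import Cfsg.Statements.S5877
import Cfsg.Agent.H28.Eig
import Cfsg.Agent.H18.TvF

set_option autoImplicit false
open Cfsg

namespace Cfsg.Agent.S5877

open H28 H18 Module Matrix
open scoped commutatorElement

/-- Eigenspaces of elements normalising an absolutely irreducible extraspecial group. Let F be a finite field, r a prime, and R ≤ GL_n(F) an absolutely irreducible extraspecial r-group (an r-group whose centre equals its derived subgroup and has order r) of exponent r or 4. Let g ∈ GL_n(F) normalise the product of R with the scalar matrices, have prime order ϖ and not be scalar, and let W be the eigenspace of g for any c ∈ F (W may be the zero subspace). Then dim W ≤ 3n/4 if ϖ = 2, dim W ≤ 2n/3 if ϖ = 3, and dim W ≤ n/2 if ϖ > 3; moreover if ϖ = 3 and 3 does not divide n then dim W ≤ n/2. -/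
theorem result {F : Type*} [Field F] [Fintype F] {n r ϖ : ℕ} (R : Subgroup (Matrix.GeneralLinearGroup (Fin n) F)) (hr : r.Prime) (hR : IsPGroup r R) (hZ : Nat.card (Subgroup.center R) = r) (hext : commutator R = Subgroup.center R) (hexp : Monoid.exponent R = r ∨ Monoid.exponent R = 4) (hirr : Cfsg.Geo.ActsAbsolutelyIrreducibly (Cfsg.Geo.matrixSet R)) (g : Matrix.GeneralLinearGroup (Fin n) F) (hg : g ∈ Cfsg.Geo.subgroupNormalizer (R ⊔ Cfsg.Geo.scalars (Fin n) F)) (hϖ : ϖ.Prime) (hord : orderOf g = ϖ) (hns : g ∉ Cfsg.Geo.scalars (Fin n) F) (c : F) :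
    (ϖ = 2 → 4 * Module.finrank F (Module.End.eigenspace (Matrix.toLin' (g : Matrix (Fin n) (Fin n) F)) c) ≤ 3 * n) ∧
    (ϖ = 3 → 3 * Module.finrank F (Module.End.eigenspace (Matrix.toLin' (g : Matrix (Fin n) (Fin n) F)) c) ≤ 2 * n) ∧
    (3 < ϖ → 2 * Module.finrank F (Module.End.eigenspace (Matrix.toLin' (g : Matrix (Fin n) (Fin n) F)) c) ≤ n) ∧
    (ϖ = 3 → ¬ 3 ∣ n → 2 * Module.finrank F (Module.End.eigenspace (Matrix.toLin' (g : Matrix (Fin n) (Fin n) F)) c) ≤ n) := by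
  set U := End.eigenspace (toLin' g.1) c
  set d := finrank F U
  by_cases hd : 2 * d ≤ n
  · omega
  have hV : finrank F (Fin n → F) = n := by simp
  have : Nonempty (Fin n) := Fin.pos_iff_nonempty.1 (by have := U.finrank_le; omega)
  let E : GL (Fin n) F →* End F (Fin n → F) := ⟨⟨fun x => toLin' x.1, toLin'_one⟩, fun x y => toLin'_mul' _ _⟩
  have hE (x) : Function.Injective (E x) := ((Group.isUnit x).map E |> (End.isUnit_iff _).1).1
  have hEs (z x) : E (sc _ z * x) = (z : F) • E x := by simp only [E, MonoidHom.coe_mk, OneHom.coe_mk, sc_mul_coe, map_smul]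
  set S := R ⊔ Geo.scalars (Fin n) F
  have h0 (x y : S) : ∃ z : Fˣ, z ^ r = 1 ∧ x.1 * y.1 = sc _ z * (y.1 * x.1) := by
    obtain ⟨x', hx, a, e1⟩ := mem_sup_scalars.1 x.2
    obtain ⟨y', hy, a', e2⟩ := mem_sup_scalars.1 y.2
    have h1 : ⁅(⟨x', hx⟩ : R), (⟨y', hy⟩ : R)⁆ ∈ Subgroup.center R :=
      hext ▸ Subgroup.commutator_mem_commutator trivial trivial
    obtain ⟨_, h2⟩ := scalar_of_absIrr hirr (y := ⁅x', y'⁆) fun z hz => congrArg Subtype.val (Subgroup.mem_center_iff.1 h1 ⟨z, hz⟩)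
    obtain ⟨z, h3⟩ := mem_scalars_sc.1 (mem_scalars_of_eq_smul h2)
    refine ⟨z, sc_injective (ι := Fin n) ?_, ?_⟩
    · rw [map_pow, h3, map_one, ← hZ]
      exact congrArg (·.1.1) (pow_card_eq_one' (x := (⟨_, h1⟩ : Subgroup.center R)))
    · rw [e1, e2, (sc_commute a' x').symm.mul_mul_mul_comm, (sc_commute a y').symm.mul_mul_mul_comm, sc_comm a, ← mul_assoc (sc _ z),
        sc_comm z, mul_assoc, mul_assoc, mul_assoc, h3, commutatorElement_def]
      group
  choose b0 hb1 hb2 using h0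
  have hu {x y : S} {z} (h : x.1 * y.1 = sc _ z * (y.1 * x.1)) : b0 x y = z :=
    sc_injective (ι := Fin n) (mul_right_cancel ((hb2 x y).symm.trans h))
  let b : S →* S →* Fˣ := MonoidHom.mk' (fun x => MonoidHom.mk' (b0 x) fun y y' => hu (by
      rw [Subgroup.coe_mul, ← mul_assoc, hb2, mul_assoc, mul_assoc, hb2 x, map_mul, ← mul_assoc y.1, ← sc_comm]
      simp only [mul_assoc])) fun x x' => MonoidHom.ext fun y => hu (by
      rw [Subgroup.coe_mul, mul_assoc, hb2, ← mul_assoc x.1, ← sc_comm, mul_assoc, ← mul_assoc x.1, hb2 x, MonoidHom.mul_apply, mul_comm (MonoidHom.mk' _ _ y), map_mul]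
      simp only [mul_assoc, MonoidHom.mk'_apply])
  have hb (x y : S) : x.1 * y.1 = sc _ (b x y) * (y.1 * x.1) := hb2 x y
  let τ : MulAut S := S.normalizerMonoidHom ⟨g, hg⟩
  have hτ (x : S) : (τ x).1 = g * x.1 * g⁻¹ := rfl
  have ht (x : S) : (td τ x).1 = g * x.1 * g⁻¹ * x.1⁻¹ := rfl
  have h1 (x y) : b (τ x) (τ y) = b x y := hu (by
    rw [← Subgroup.coe_mul, ← Subgroup.coe_mul, ← map_mul, ← map_mul, hτ, hτ, Subgroup.coe_mul, hb, ← mul_assoc g, ← sc_comm]
    simp only [mul_assoc, Subgroup.coe_mul])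
  have h2 (x y) : b x y = (b y x)⁻¹ := hu (by rw [hb y, map_inv, inv_mul_cancel_left])
  have h3 (x) : b x ^ r = 1 := MonoidHom.ext (hb1 x)
  have h4 : τ ^ ϖ = 1 := by
    rw [← map_pow, ← S.normalizerMonoidHom.map_one]
    exact congrArg _ (Subtype.ext (hord ▸ pow_orderOf_eq_one g : g ^ ϖ = 1))
  have h5 {x : GL (Fin n) F} (h : ∀ z ∈ R, z * x = x * z) : x ∈ Geo.scalars (Fin n) F :=
    let ⟨_, e⟩ := scalar_of_absIrr hirr h; mem_scalars_of_eq_smul e
  have h6 (x : S) : ∃ W : Submodule F (Fin n → F), 2 * d ≤ n + finrank F W ∧ ∀ w ∈ W, E g w = c • w ∧ E (td τ x).1 w = w := by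
    refine ⟨U ⊓ U.map (E x.1), ?_, ?_⟩
    · have e := U.finrank_sup_add_finrank_inf_eq (U.map (E x.1))
      have := (U ⊔ U.map (E x.1)).finrank_le
      rw [finrank_map_of_inj (hE _)] at e
      omega
    · rintro _ ⟨e1, v, e2, rfl⟩
      have e3 : E g v = c • v := End.mem_eigenspace_iff.1 e2
      have e4 : E g (E x.1 v) = c • E x.1 v := End.mem_eigenspace_iff.1 e1
      refine ⟨e4, ?_⟩
      obtain rfl | h := eq_or_ne c 0
      · rw [hE g (e3.trans (by simp) : _ = E g 0), map_zero, map_zero]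
      refine smul_right_injective _ h (show c • _ = c • _ from ?_)
      rw [← e4, ← map_smul, ← map_smul, ← e3, ← End.mul_apply, ← End.mul_apply, ← End.mul_apply, ← map_mul, ← map_mul, ← map_mul, ht]
      simp
  have h7 (x : S) : ∃ w ≠ 0, E g w = c • w ∧ E (td τ x).1 w = w := by
    obtain ⟨W, e1, e2⟩ := h6 x
    obtain ⟨w, e3, e4⟩ := W.exists_mem_ne_zero_of_ne_bot (by rintro rfl; rw [finrank_bot] at e1; omega)
    exact ⟨w, e4, e2 w e3⟩
  have hc : c ≠ 0 := by
    rintro rfl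
    obtain ⟨w, e1, e2, -⟩ := h7 1
    exact e1 (hE g (e2.trans (by simp)))
  have h8 {z : Fˣ} {x y w} (e1 : w ≠ 0) (e2 : E x w = w) (e3 : E y w = w) (h : x = sc _ z * y) : z = 1 := by
    rw [h, hEs, LinearMap.smul_apply, e3] at e2
    exact Units.ext (smul_left_injective F e1 (e2.trans (one_smul _ _).symm))
  have h9 {x : S} {w} (e1 : w ≠ 0) (e2 : E x.1 w = w) (h : b x = 1) : x = 1 := by
    obtain ⟨z, e⟩ := mem_scalars_sc.1 (h5 (x := x.1) fun z hz => by
      simpa [h] using (hb x ⟨z, Subgroup.mem_sup_left hz⟩).symm)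
    rw [h8 (z := z) (y := 1) e1 e2 (by simp) (by simp [e]), map_one] at e
    exact Subtype.ext e.symm
  have h10 (x) (h : b (td τ x) = 1) : g * x.1 = x.1 * g := by
    obtain ⟨w, e1, -, e2⟩ := h7 x
    have := congrArg Subtype.val (h9 e1 e2 h)
    rwa [ht, Subgroup.coe_one, mul_inv_eq_one, mul_inv_eq_iff_eq_mul] at this
  have h11 (x) : b (td τ x) (τ (td τ x)) = 1 := by
    obtain ⟨w, e1, e2, e3⟩ := h7 x
    have e4 : E (τ (td τ x)).1 w = w := smul_right_injective _ hc (by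
      simp only [← map_smul, ← e2]
      rw [← End.mul_apply, ← map_mul, hτ, inv_mul_cancel_right, map_mul, End.mul_apply, e3])
    exact h8 e1 (by simp [e3, e4]) (by simp [e3, e4]) (hb _ _)
  obtain ⟨x, h12⟩ : ∃ x, b (td τ x) ≠ 1 := not_forall.1 fun h => hns (h5 fun z hz => (h10 ⟨z, Subgroup.mem_sup_left hz⟩ (h _)).symm)
  have := Fact.mk hr
  have h13 (x) (h : b x ≠ 1) : ∃ ζ : F, IsPrimitiveRoot ζ r ∧ r ∣ n ∧ r * finrank F ((E x.1).eigenspace 1) ≤ n := by
    obtain ⟨y, e⟩ := not_forall.1 (mt (fun e : ∀ y, b x y = 1 => MonoidHom.ext e) h)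
    have e1 : IsPrimitiveRoot (b x y) r := orderOf_eq_prime (hb1 x y) e ▸ IsPrimitiveRoot.orderOf _
    refine ⟨_, IsPrimitiveRoot.coe_units_iff.2 e1, e1.dvd_of_pow_eq_one _ ?_,
      (mul_eig_le (hE y.1) (IsPrimitiveRoot.coe_units_iff.2 e1) (by rw [← map_mul, ← map_mul, hb, hEs])).trans_eq hV⟩
    have e2 := congrArg (fun x : GL (Fin n) F => x.1.det) (hb x y)
    simp only [sc_coe, det_smul, det_one, mul_one, Units.val_mul, det_mul, Fintype.card_fin] at e2
    exact Units.ext (mul_right_cancel₀ (mul_ne_zero y.1.det_ne_zero x.1.det_ne_zero) (by simpa [mul_comm] using e2.symm))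
  have h14 (h : Odd ϖ) : ϖ = r := by_contra fun e =>
    h12 ((td_main h1 h2 h11 h3 h4 h).1 ((Nat.coprime_primes hϖ hr).2 e) x)
  have h15 : 2 * d ≤ n + finrank F ((E (td τ x).1).eigenspace 1) := by
    obtain ⟨W, e1, e2⟩ := h6 x
    exact e1.trans (add_le_add_right (Submodule.finrank_mono fun w hw => End.mem_eigenspace_iff.2 (by simp [(e2 w hw).2])) _)
  obtain ⟨-, -, h16, h17⟩ := h13 _ h12
  refine ⟨fun _ => by nlinarith [hr.two_le], fun e => ?_, fun e => ?_, fun e e' => absurd (e ▸ h14 (by simp [e]; decide) ▸ h16) e'⟩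
  · rw [← h14 (by rw [e]; decide), e] at h17
    omega
  have h18 := hϖ.odd_of_ne_two (by omega)
  obtain rfl := h14 h18
  obtain ⟨y, e1, e2⟩ : ∃ y, b (td τ y) ≠ 1 ∧ b (td τ (td τ y)) = 1 := by
    by_cases e1 : b (td τ (td τ x)) = 1
    exacts [⟨x, h12, e1⟩, ⟨_, e1, (td_main h1 h2 h11 h3 h4 h18).2 h18 x⟩]
  obtain ⟨ζ, e3, -, e4⟩ := h13 _ e1
  obtain ⟨w, e5, -, e6⟩ := h7 y
  have e7 := h9 (x := td τ y ^ ϖ) e5 (by
    rw [Subgroup.coe_pow, map_pow, End.HasEigenvector.pow_apply (μ := 1) ⟨End.mem_eigenspace_iff.2 (by simp [e6]), e5⟩]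
    simp) (by rw [map_pow, h3])
  refine (two_mul_eig_le (g := E g) (u := E (td τ y).1) (μ := b y (td τ y)) (hE y.1) hr ?_ e3 ?_ ?_ ?_ ?_ ?_ hc (e4.trans_eq hV.symm)).trans_eq hV
  · have := hϖ.eq_two_or_odd
    omega
  · simp [← map_mul, ht]
  · rw [← map_mul, ← map_mul, h10 _ e2]
  · rw [← map_pow, ← Subgroup.coe_pow, e7, Subgroup.coe_one, map_one]
  · rw [← map_mul, ← map_mul, hb, hEs]
  · exact congrArg Units.val (hb1 _ _)

end Cfsg.Agent.S5877
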