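import Cfsg.Statements.S5885
import Cfsg.Agent.GW.AltAut
-- import your own Cfsg.Agent.* helpers here

set_option autoImplicit false
open Cfsg

namespace Cfsg.Agent.S5885

open scoped Pointwise in
theorem core {G Ω : Type*} [Group G] [MulAction G Ω] [Fintype Ω] [DecidableEq Ω]
    (hodd : Odd (Nat.card Ω)) (hA : alternatingGroup Ω ≤ (MulAction.toPermHom G Ω).range) (a : Ω)
    {K L : Subgroup G} (hmax : IsCoatom (K.subgroupOf (MulAction.stabilizer G a)))
    (h1 : K ⊓ MulAction.stabilizer G a < L) (h2 : L ≤ K) : K ≤ L := fun k hk => by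
  by_contra h3
  obtain ⟨l, a1, a2⟩ := SetLike.exists_of_lt h1
  have a3 : l • a ≠ a := fun h => a2 ⟨h2 a1, h⟩
  have key : ∀ s ∈ K, ∀ x ∈ MulAction.orbit L a, s • x ∈ MulAction.orbit L a → s ∈ L := by
    rintro s hs _ ⟨x, rfl⟩ ⟨y, hy⟩
    have := h1.le (show (y⁻¹ : L) * s * x ∈ _ from ⟨mul_mem (mul_mem (h2 y⁻¹.2) hs) (h2 x.2), by
      change _ • a = a
      rw [mul_smul, mul_smul]
      exact (congrArg _ hy.symm).trans (inv_smul_smul y a)⟩)
    rwa [L.mul_mem_cancel_right x.2, L.mul_mem_cancel_left y⁻¹.2] at this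
  set B := MulAction.orbit L a
  have b1 : a ∈ B := MulAction.mem_orbit_self a
  have b2 : l • a ∈ B := ⟨⟨l, a1⟩, rfl⟩
  have b3 : ∀ x ∈ B, k • x ∉ B := fun x hx h => h3 (key k hk x hx h)
  obtain ⟨d, b4, b5⟩ : ∃ d, d ∉ B ∧ d ∉ k • B := by
    by_contra! h
    have := Set.ncard_union_eq (s := B) (t := k • B) (Set.disjoint_right.mpr (by
      rintro _ ⟨x, hx, rfl⟩; exact b3 x hx))
    rw [show B ∪ k • B = Set.univ from Set.eq_univ_of_forall fun x => or_iff_not_imp_left.mpr (h x),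
      Set.ncard_univ,
      Set.ncard_smul_set] at this
    exact Nat.not_even_iff_odd.mpr hodd ⟨_, this⟩
  have c1 : ∀ x y, x ≠ y → x ≠ d → y ≠ d → ∃ g : G, g • x = y ∧ g • y = d ∧
      ∀ z, z ≠ x → z ≠ y → z ≠ d → g • z = z := fun x y h4 h5 h6 => by
    obtain ⟨g, hg⟩ := hA (GW.c3_isThreeCycle h4 h5 h6).mem_alternatingGroup
    have : ∀ z, g • z = GW.c3 x y d z := fun z => DFunLike.congr_fun hg z
    refine ⟨g, ?_, ?_, fun z _ _ _ => ?_⟩ <;>
      simp only [this, GW.c3, Equiv.Perm.mul_apply, Equiv.swap_apply_def] <;> grind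
  have c2 : (MulAction.stabilizer G B).subgroupOf (MulAction.stabilizer G a) =
      K.subgroupOf (MulAction.stabilizer G a) := (hmax.le_iff.mp fun s hs =>
    MulAction.smul_orbit (⟨s, h1.le ⟨hs, s.2⟩⟩ : L) a).resolve_left fun h => by
    obtain ⟨g, c2, -, c3⟩ := c1 (l • a) (k • a) (fun h => b3 a b1 (h ▸ b2)) (fun h => b4 (h ▸ b2))
      fun h => b5 ⟨a, b1, h⟩
    have c4 : g • B = B := Subgroup.subgroupOf_eq_top.mp h (c3 a a3.symm (fun h => b3 a b1 (h ▸ b1))
      fun h => b4 (h ▸ b1))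
    exact b3 a b1 (c2 ▸ c4 ▸ Set.smul_mem_smul_set b2)
  obtain ⟨g, c3, c4, c5⟩ := c1 (k • a) (k • l • a) (by simpa using a3.symm) (fun h => b5 ⟨a, b1, h⟩)
    fun h => b5 ⟨_, b2, h⟩
  have c6 : ∀ z ∈ B, g • z = z := fun z hz => c5 z (fun h => b3 a b1 (h ▸ hz)) (fun h => b3 _ b2 (h ▸ hz))
    fun h => b4 (h ▸ hz)
  have c7 : g ∈ K := c2.le (show (⟨g, c6 a b1⟩ : MulAction.stabilizer G a) ∈ _ from
    Set.ext fun z => ⟨by rintro ⟨z, hz, rfl⟩; simpa [c6 z hz], fun hz => ⟨z, hz, c6 z hz⟩⟩)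
  have c8 := key (k⁻¹ * g * k) (mul_mem (mul_mem (inv_mem hk) c7) hk) a b1 (by simpa [mul_smul, c3])
  exact b5 ⟨_, ⟨⟨_, mul_mem c8 a1⟩, rfl⟩, by simp [mul_smul, c4]⟩

/-- Let n be an odd positive integer such that every primitive permutation group of degree n contains the alternating group (so the symmetric and alternating groups are the only primitive groups of degree n). Let G be a finite group, M a maximal subgroup of G of index n, and H a maximal subgroup of M. Then H is a second maximal subgroup of G: H is maximal in every maximal subgroup K of G containing H. -/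
theorem result {G : Type*} [Group G]
    [Finite G] (n : ℕ) (hodd : Odd n)
    (hA : ∀ P : Subgroup (Equiv.Perm (Fin n)), MulAction.IsPreprimitive P (Fin n) → alternatingGroup (Fin n) ≤ P)
    (M : Subgroup G) (hM : IsCoatom M) (hn : M.index = n) (H : Subgroup G) (hHM : H ≤ M)
    (hmax : IsCoatom (H.subgroupOf M)) (K : Subgroup G) (hK : IsCoatom K) (hHK : H ≤ K) :
    IsCoatom (H.subgroupOf K) := by
  classical
  by_cases h0 : K ≤ M
  · obtain rfl := (hK.le_iff.mp h0).resolve_left hM.1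
    exact hmax
  have h1 : K.subgroupOf M = H.subgroupOf M := (hmax.le_iff.mp (Subgroup.comap_mono hHK)).resolve_left
    fun h => h0 ((hM.le_iff.mp (Subgroup.subgroupOf_eq_top.mp h)).resolve_left hK.1).le
  have h2 : H = K ⊓ M := by
    rw [← Subgroup.subgroupOf_map_subtype, h1, Subgroup.subgroupOf_map_subtype, inf_eq_left.mpr hHM]
  have := Fintype.ofFinite (G ⧸ M)
  obtain ⟨e⟩ : Nonempty ((G ⧸ M) ≃ Fin n) := Finite.card_eq.mp (hn.trans (Nat.card_fin n).symm)
  have : Nontrivial (G ⧸ M) := QuotientGroup.nontrivial_iff.mpr hM.1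
  have h3 : MulAction.IsPreprimitive G (G ⧸ M) :=
    (MulAction.isCoatom_stabilizer_iff_preprimitive G ((1 : G) : G ⧸ M)).mp (by simpa using hM)
  let φ := e.permCongrHom.toMonoidHom.comp (MulAction.toPermHom G (G ⧸ M))
  have h4 := hA φ.range (MulAction.IsPreprimitive.of_surjective (φ := φ.rangeRestrict)
    (f := ⟨e, fun g x => by change _ = φ g (e x); simp [φ]⟩) e.surjective)
  have h5 : alternatingGroup (G ⧸ M) ≤ (MulAction.toPermHom G (G ⧸ M)).range := fun σ hσ => by
    obtain ⟨g, hg⟩ := h4 (show e.permCongr σ ∈ _ by simpa [Equiv.Perm.mem_alternatingGroup] using hσ)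
    exact ⟨g, e.permCongr.injective hg⟩
  refine ⟨fun h => h0 ((Subgroup.subgroupOf_eq_top.mp h).trans hHM), fun L hL => ?_⟩
  have h6 := core (show Odd M.index by rwa [hn]) h5 ((1 : G) : G ⧸ M) (K := K) (L := L.map K.subtype)
    (by rw [MulAction.stabilizer_quotient, h1]; exact hmax) (by
      rw [MulAction.stabilizer_quotient, ← h2, ← Subgroup.map_subgroupOf_eq_of_le hHK]
      exact (Subgroup.map_subtype_lt_map_subtype).mpr hL) (Subgroup.map_subtype_le L)
  exact top_le_iff.mp fun x _ => by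
    obtain ⟨y, a, b⟩ := h6 x.2
    exact Subtype.ext b ▸ a

end Cfsg.Agent.S5885
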