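import Cfsg.Statements.S5890
import Cfsg.Agent.H12.PMe
import Cfsg.Agent.H18.SpCase

set_option autoImplicit false
open Cfsg

namespace Cfsg.Agent.S5890

/-- Let F be a finite field with q ≥ 4 elements, let L ≤ PGL₂(F) be the image of SL₂(F) (a copy of PSL₂(F), of index gcd(2, q − 1)), and let M be a maximal subgroup of PGL₂(F) that does not contain L. Suppose q ∉ {7, 9, 11} and that q is not a prime congruent to ±11 or ±19 modulo 40. Then M ∩ L is a maximal subgroup of L. (For the excluded q there are maximal subgroups of PGL₂(q) — dihedral groups of order 12 and 16 at q = 7, of order 20 and 16 at q = 9, of order 20 at q = 11, and S₄ at the excluded primes — whose intersection with L is not maximal in L.) -/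
theorem result {F : Type*} [Field F]
    [Fintype F] (h4 : 4 ≤ Fintype.card F) (h7 : Fintype.card F ≠ 7) (h9 : Fintype.card F ≠ 9) (h11 : Fintype.card F ≠ 11)
    (h40 : (Fintype.card F).Prime → Fintype.card F % 40 ∉ ({11, 19, 21, 29} : Finset ℕ))
    (M : Subgroup (Matrix.ProjGenLinGroup (Fin 2) F)) (hM : IsCoatom M)
    (hML : ¬ (Matrix.ProjGenLinGroup.mk.comp Matrix.SpecialLinearGroup.toGL).range ≤ M) :
    IsCoatom ((M ⊓ (Matrix.ProjGenLinGroup.mk.comp Matrix.SpecialLinearGroup.toGL).range).subgroupOf
      (Matrix.ProjGenLinGroup.mk.comp Matrix.SpecialLinearGroup.toGL).range) := by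
      obtain ⟨p, hp, n, hpp, hn⟩ := FiniteField.card' F
      have := Fact.mk hpp
      rw [H12.range_eq_LL] at hML ⊢
      have hi := Matrix.ProjectiveSpecialLinearGroup.toPGL_injective (n := Fin 2) (R := F)
      suffices H : IsCoatom (M.comap Matrix.ProjectiveSpecialLinearGroup.toPGL) by
        rw [← (MonoidHom.ofInjective hi).symm.comapSubgroup.symm.isCoatom_iff]
        convert H using 1
        ext g; simp [Subgroup.mem_subgroupOf, MonoidHom.ofInjective_apply]
      rcases Nat.even_or_odd (Fintype.card F) with h0 | hodd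
      · have := MonoidHom.range_eq_top.mp (H12.LL_eq_top h0)
        exact (MulEquiv.ofBijective _ ⟨hi, this⟩).comapSubgroup.isCoatom_iff M |>.mpr hM
      have h2 : (2 : F) ≠ 0 := H18.two_ne_zero_iff_odd.mpr hodd
      have h0 := H12.odd_card h2
      have h := H12.MP.of_pgl hM hML
      have no : ¬ M ≤ H12.LL F := fun e => by
        rcases hM.le_iff.mp e with c | c
        · have := H12.index_LL h2; rw [c] at this; simp at this
        · exact hML c.le
      obtain ⟨e⟩ := H12.comap_equiv M
      rcases h.cases p (by omega) with ⟨x, a⟩ | ⟨D, b, s, a1, a2, a⟩ | ⟨E, k, r, a1, a2, a3, a⟩ |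
        ⟨a, ⟨⟨f⟩⟩ | ⟨⟨f⟩⟩⟩ | ⟨-, -, -, ⟨f⟩⟩
      · have : Nontrivial (H12.P1 F) := Finite.one_lt_card_iff_nontrivial.mp (by rw [H12.card_P1]; simp [Fintype.card_pos])
        convert MulAction.IsPreprimitive.isCoatom_stabilizer_of_isPreprimitive
          (Matrix.ProjectiveSpecialLinearGroup (Fin 2) F) x using 1
        ext g; simp [a, H12.toPGL_smul_proj]
      · rw [top_inf_eq] at a
        subst a
        obtain ⟨s, b1, -, b2, b3⟩ := H12.exists_dih_LL h2 (by omega) a1 a2
        have b4 : orderOf b ≠ 4 := fun c => by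
          obtain ⟨s, b1, b2, -⟩ := H12.exists_dih_LL h2 (by omega) a1 a2
          exact h.not_dih h2 (by omega) b2 b1 (Or.inr c)
        rw [← Subgroup.map_comap_eq] at b2
        obtain ⟨u, t, c1, -, c2⟩ := b2.of_map hi
        rw [← c1, orderOf_injective _ hi] at b3
        exact H12.coatom_dih c2 (by simp only [Finset.mem_insert, Finset.mem_singleton]; omega)
      · rw [top_inf_eq] at a
        rcases a1.eq_two_or_odd' with rfl | c
        · exact (no (a ▸ H12.subPGL_le_LL h2 a3 k)).elim
        rw [a, H12.LL_inf_subPGL h2 c a3 k, ← a] at e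
        obtain ⟨f⟩ := H12.nonempty_subPSL_equiv E k
        have := Fintype.ofFinite E
        rw [Nat.card_eq_fintype_card] at a2 a3
        exact H12.coatom_sub p a1 a2 a3.symm (Or.inr ⟨⟨e.trans f⟩, Or.inl (by rintro rfl; exact absurd c (by decide))⟩)
      · exact (no (H12.le_LL_of_gen f (k := 1) H12.closure_alt4 H12.alt4_rels.2.1 H12.alt4_rels.2.2.1)).elim
      · have b0 : p % 8 = 3 ∨ p % 8 = 5 := by
          by_contra c
          obtain ⟨x, -, y, -, b1, b2⟩ := H12.KP_perm4 f
          obtain ⟨Y, b3, b5, b4⟩ := h.not_perm4_le h2 (by omega) b1 b2 (by omega)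
          exact no ((Subgroup.eq_of_le_of_card_ge b3 (by rw [b4, Nat.card_congr f.toEquiv, H12.card_perm4])).ge.trans b5)
        have b1 := h40 (a ▸ hpp)
        simp only [Finset.mem_insert, Finset.mem_singleton] at b1
        have b2 : ((H12.LL F).subgroupOf M).index = 2 :=
          ((Nat.dvd_prime Nat.prime_two).mp ((Subgroup.relIndex_dvd_index_of_normal _ M).trans (H12.index_LL h2).dvd)).resolve_left
            fun c => no (Subgroup.relIndex_eq_one.mp c)
        rw [← Subgroup.index_map_of_bijective (f := f.toMonoidHom) f.bijective] at b2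
        refine H12.coatom_alt4 p a (by omega) b0 (by omega) (e.trans ?_)
        rw [← Equiv.Perm.eq_alternatingGroup_of_index_eq_two b2, ← Subgroup.subgroupOf_map_subtype]
        exact (Subgroup.equivMapOfInjective _ _ M.subtype_injective).symm.trans (f.subgroupMap _)
      · exact (no (H12.le_LL_of_gen f (k := 2) H12.closure_alt5 H12.alt5_rels.2.1 H12.alt5_rels.2.2.1)).elim

end Cfsg.Agent.S5890
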