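import Cfsg.Statements.S5894
import Cfsg.Agent.H18.Msc2
-- import your own Cfsg.Agent.* helpers here

set_option autoImplicit false
open Cfsg

namespace Cfsg.Agent.S5894

open scoped Pointwise

/-- For every m ≥ 2 the symmetric group on 2m letters has a maximal subgroup M of index 2m together with a maximal subgroup H of M that is not second maximal: some maximal subgroup K of the symmetric group contains H without H being maximal in K. (One may take M the stabiliser of a letter, H ≅ S_m × S_{m−1} inside it, and K ≅ S_m ≀ S₂ the stabiliser of a partition into two m-sets, with H < S_m × S_m < K.) So the prime-index hypothesis in the second-maximality criterion cannot be relaxed to any even index ≥ 4. -/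
theorem result (m : ℕ) (hm : 2 ≤ m) :
    ∃ M H K : Subgroup (Equiv.Perm (Fin (2 * m))), IsCoatom M ∧ M.index = 2 * m ∧ H ≤ M ∧ IsCoatom (H.subgroupOf M) ∧
      IsCoatom K ∧ H ≤ K ∧ ¬ IsCoatom (H.subgroupOf K) := by
  classical
  let ω : Fin (2 * m) := ⟨m, by omega⟩
  let A : Set (Fin (2 * m)) := {x | x.1 < m}
  let A' : Set {x // x ≠ ω} := Subtype.val ⁻¹' A
  have h1 : A'.ncard = m := by
    rw [Set.ncard_preimage_of_injective_subset_range Subtype.val_injective (fun x hx =>
      ⟨⟨x, fun h => by simp [A, h, ω] at hx⟩, rfl⟩), ← Set.ncard_image_of_injective _ Fin.val_injective,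
      show Fin.val '' A = Finset.range m by
        ext x; simp only [A, Set.mem_image, Set.mem_setOf_eq, Finset.coe_range, Set.mem_Iio]
        exact ⟨by rintro ⟨y, h, rfl⟩; exact h, fun h => ⟨⟨x, by omega⟩, h, rfl⟩⟩]
    simp
  have h2 := Equiv.Perm.isCoatom_stabilizer (s := A') ⟨⟨⟨0, by omega⟩, by simp [ω, Fin.ext_iff]; omega⟩,
    by simp [A, A']; omega⟩ ⟨⟨⟨m + 1, by omega⟩, by simp [ω, Fin.ext_iff]⟩, by simp [A, A']⟩
    (by simp [h1]; omega)
  let e := (MonoidHom.ofInjective (Equiv.Perm.ofSubtype_injective (p := (· ≠ ω)))).trans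
    (MulEquiv.subgroupCongr (H18.range_ofSubtype_ne ω))
  let K₀ : Subgroup (Equiv.Perm (Fin (2 * m))) :=
    { carrier := {g | ∀ x y, (x ∈ A ↔ y ∈ A) ↔ (g x ∈ A ↔ g y ∈ A)}
      one_mem' := fun _ _ => Iff.rfl
      mul_mem' := fun ha hb x y => (hb x y).trans (ha _ _)
      inv_mem' := fun {g} hg x y => by simpa using (hg (g⁻¹ x) (g⁻¹ y)).symm }
  let K₁ : Subgroup (Equiv.Perm (Fin (2 * m))) :=
    { carrier := {g | ∀ x, x ∈ A ↔ g x ∈ A}
      one_mem' := fun _ => Iff.rfl
      mul_mem' := fun ha hb x => (hb x).trans (ha _)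
      inv_mem' := fun {g} hg x => by simpa using (hg (g⁻¹ x)).symm }
  obtain ⟨K, h3, h4⟩ := (eq_top_or_exists_le_coatom K₀).resolve_left fun h => by
    have := h.ge (Subgroup.mem_top (Equiv.swap ⟨0, by omega⟩ ω)) ⟨0, by omega⟩ ⟨1, by omega⟩
    rw [Equiv.swap_apply_left, Equiv.swap_apply_of_ne_of_ne (by simp) (by simp [ω, Fin.ext_iff]; omega)]
      at this
    simp [A, ω] at this
    omega
  have h5 : K₁ ≤ K := fun g hg => h4 fun x y => by rw [hg x, hg y]
  have h6 : ((MulAction.stabilizer _ A').map e.toMonoidHom).map (Subgroup.subtype _) ≤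
      K₁ ⊓ MulAction.stabilizer _ ω := le_inf (by
    rintro _ ⟨_, ⟨g, hg, rfl⟩, rfl⟩ x
    change _ ↔ Equiv.Perm.ofSubtype g x ∈ A
    by_cases hx : x = ω
    · rw [Equiv.Perm.ofSubtype_apply_of_not_mem g (by simpa)]
    rw [Equiv.Perm.ofSubtype_apply_of_mem g hx]
    have := Set.smul_mem_smul_set_iff (a := g) (s := A') (x := ⟨x, hx⟩)
    rw [MulAction.mem_stabilizer_iff.mp hg] at this
    exact this.symm) (Subgroup.map_subtype_le _)
  refine ⟨MulAction.stabilizer _ ω, _, K, ?_, (H18.index_comap_stabilizer 1 ω).trans (Fintype.card_fin _), Subgroup.map_subtype_le _, ?_, h3,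
    (h6.trans inf_le_left).trans h5, fun h => ?_⟩
  · have : Nontrivial (Fin (2 * m)) := Fin.nontrivial_iff_two_le.mpr (by omega)
    exact (MulAction.isCoatom_stabilizer_iff_preprimitive _ ω).mpr inferInstance
  · rw [Subgroup.subgroupOf, Subgroup.comap_map_eq_self_of_injective (Subgroup.subtype_injective _)]
    exact (e.mapSubgroup.isCoatom_iff _).mpr h2
  have h7 : Equiv.swap ω ⟨m + 1, by omega⟩ ∈ K₁ := fun x => by
    simp only [A, ω, Equiv.swap_apply_def, Fin.ext_iff, Set.mem_setOf_eq]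
    split_ifs <;> simp <;> omega
  have h8 := h.2 (K₁.subgroupOf K) (lt_of_le_of_ne (Subgroup.comap_mono (h6.trans inf_le_left))
    fun h8 => by simpa [ω] using (h6 (h8.ge (show (⟨_, h5 h7⟩ : K) ∈ K₁.subgroupOf K from h7))).2)
  have h9 : Fin.revPerm ∈ K₀ := fun x y => by
    simp only [A, Set.mem_setOf_eq, Fin.revPerm_apply, Fin.val_rev]; omega
  have := Subgroup.subgroupOf_eq_top.mp h8 (h4 h9) ω
  simp [A, ω] at this
  omega

end Cfsg.Agent.S5894
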