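import Cfsg.Statements.S5895
import Cfsg.Agent.H18.Msc3
-- import your own Cfsg.Agent.* helpers here

set_option autoImplicit false
open Cfsg

namespace Cfsg.Agent.S5895

/-- For every prime p and every d ≥ 2 there is a finite group G with a maximal subgroup M of index p^d and a maximal subgroup H of M that is not second maximal in G: some maximal subgroup K of G contains H without H being maximal in K. (One may take G the affine group V ⋊ GL(V) of V = 𝔽_p^d, M = GL(V), H the stabiliser in M of a line W of V, and K = V ⋊ H, with H < W ⋊ H < K.) So the prime-index hypothesis in the second-maximality criterion cannot be relaxed to prime-power index. -/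
theorem result (p d : ℕ) (hp : p.Prime)
    (hd : 2 ≤ d) :
    ∃ (G : Type) (_ : Group G) (_ : Finite G) (M H K : Subgroup G), IsCoatom M ∧ M.index = p ^ d ∧ H ≤ M ∧
      IsCoatom (H.subgroupOf M) ∧ IsCoatom K ∧ H ≤ K ∧ ¬ IsCoatom (H.subgroupOf K) := by
  have := Fact.mk hp
  let A := Fin d → Multiplicative (ZMod p)
  have hA : Nat.card A = p ^ d := by simp [A]
  let I : Subgroup (MulAut A) → Prop := fun L =>
    ∀ W : Subgroup A, (∀ φ ∈ L, ∀ w ∈ W, φ w ∈ W) → W = ⊥ ∨ W = ⊤
  have : IsSimpleGroup (Multiplicative (ZMod p)) := isSimpleGroup_of_prime_card (p := p) (by simp)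
  obtain ⟨L, h1, h2⟩ := exists_minimal_of_wellFoundedLT I ⟨⊤, fun W hW =>
    H18.char_simple_pi W (hH := Subgroup.characteristic_iff_le_comap.mpr fun φ => hW φ trivial)⟩
  have h3 : (⊥ : Subgroup L) ≠ ⊤ := fun h => by
    obtain ⟨W, hW⟩ := Sylow.exists_subgroup_card_pow_prime (G := A) p (n := 1)
      (hA ▸ pow_dvd_pow p (by omega))
    rcases h1 W fun φ a w b => by
      rw [show φ = 1 from congrArg Subtype.val (h.ge (Subgroup.mem_top (⟨φ, a⟩ : L)))]; exact b
      with rfl | rfl
    · exact hp.one_lt.ne (by simpa using hW)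
    · rw [Subgroup.card_top, hA] at hW
      exact absurd (Nat.pow_right_injective hp.two_le hW) (by omega)
  obtain ⟨H, h4, -⟩ := (eq_top_or_exists_le_coatom (⊥ : Subgroup L)).resolve_left h3
  obtain ⟨W, h5, h6, h7⟩ : ∃ W : Subgroup A, (∀ φ ∈ H, ∀ w ∈ W, φ.1 w ∈ W) ∧ W ≠ ⊥ ∧ W ≠ ⊤ := by
    by_contra! h
    refine h4.1 (Subgroup.map_injective L.subtype_injective ?_)
    rw [← MonoidHom.range_eq_map, Subgroup.range_subtype]
    exact (Subgroup.map_subtype_le H).antisymm (h2 (fun W hW => or_iff_not_imp_left.mpr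
      (h W fun φ a => hW φ ⟨φ, a, rfl⟩)) (Subgroup.map_subtype_le H))
  let G := A ⋊[L.subtype] L
  have : Finite G := Finite.of_equiv _ SemidirectProduct.equivProd.symm
  let M : Subgroup G := SemidirectProduct.inr.range
  have hM : ∀ g : G, g ∈ M ↔ g.left = 1 := fun g =>
    ⟨by rintro ⟨x, rfl⟩; rfl, fun h => ⟨g.right, SemidirectProduct.ext h.symm rfl⟩⟩
  let X : Subgroup G :=
    { carrier := {g | g.left ∈ W ∧ g.right ∈ H}
      one_mem' := ⟨W.one_mem, H.one_mem⟩
      mul_mem' := fun ha hb => ⟨W.mul_mem ha.1 (h5 _ ha.2 _ hb.1), H.mul_mem ha.2 hb.2⟩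
      inv_mem' := fun ha => ⟨h5 _ (H.inv_mem ha.2) _ (W.inv_mem ha.1), H.inv_mem ha.2⟩ }
  have h8 : M ⊓ H.comap SemidirectProduct.rightHom ≤ X := fun g hg =>
    ⟨((hM g).mp hg.1).symm ▸ W.one_mem, hg.2⟩
  refine ⟨G, _, this, M, M ⊓ H.comap SemidirectProduct.rightHom, H.comap SemidirectProduct.rightHom,
    ⟨fun h => h6 (eq_bot_iff.mpr fun w _ => (hM (SemidirectProduct.inl w)).mp (h.ge trivial)),
      fun Y hY => ?_⟩, ?_, inf_le_left, ?_, Subgroup.isCoatom_comap_of_surjective
      SemidirectProduct.rightHom_surjective h4, inf_le_right, fun h => ?_⟩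
  · obtain ⟨g, a, b⟩ := SetLike.exists_of_lt hY
    have c : ∀ g : G, g ∈ Y ↔ g.left ∈ Y.comap SemidirectProduct.inl := fun g => by
      conv_lhs => rw [← g.inl_left_mul_inr_right, Y.mul_mem_cancel_right (hY.le ⟨_, rfl⟩)]
      rfl
    have := (h1 (Y.comap SemidirectProduct.inl) fun φ a w b => by
      rw [Subgroup.mem_comap, show φ w = L.subtype ⟨φ, a⟩ w from rfl, SemidirectProduct.inl_aut]
      exact mul_mem (mul_mem (hY.le ⟨_, rfl⟩) b) (hY.le ⟨_, rfl⟩)).resolve_left
        fun h => b ((hM g).mpr (h.le ((c g).mp a)))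
    exact top_le_iff.mp fun g _ => (c g).mpr (this.ge trivial)
  · have h9 := M.card_mul_index
    rw [SemidirectProduct.card, hA, ← Nat.card_congr (MonoidHom.ofInjective
      SemidirectProduct.inr_injective).toEquiv, mul_comm] at h9
    exact Nat.eq_of_mul_eq_mul_right Nat.card_pos h9
  · rw [Subgroup.inf_subgroupOf_left]
    exact Subgroup.isCoatom_comap_of_surjective (φ := SemidirectProduct.rightHom.comp M.subtype)
      (fun x => ⟨⟨_, x, rfl⟩, rfl⟩) h4
  obtain ⟨⟨w, a⟩, b⟩ := Subgroup.ne_bot_iff_exists_ne_one.mp h6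
  have := h.2 (X.subgroupOf _) (lt_of_le_of_ne (Subgroup.comap_mono h8) fun h => b (Subtype.ext
    ((hM _).mp (h.ge (show (⟨SemidirectProduct.inl w, H.one_mem⟩ : H.comap SemidirectProduct.rightHom)
      ∈ X.subgroupOf _ from ⟨a, H.one_mem⟩)).1)))
  exact h7 (top_le_iff.mp fun w _ => (Subgroup.subgroupOf_eq_top.mp this
    (show SemidirectProduct.inl w ∈ H.comap SemidirectProduct.rightHom from H.one_mem)).1)

end Cfsg.Agent.S5895
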