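import Cfsg.Statements.S5896
-- import your own Cfsg.Agent.* helpers here

set_option autoImplicit false
open Cfsg

namespace Cfsg.Agent.S5896

/-- the base group of a wreath product -/
def bs (D Q : Type) [Group D] [Group Q] : (Q → D) →* D ≀ᵣ Q where
  toFun f := ⟨f, 1⟩
  map_one' := rfl
  map_mul' f g := by ext <;> simp

variable {D Q : Type} [Group D] [Group Q]

theorem bs_injective : Function.Injective (bs D Q) := fun _ _ h => congrArg RegularWreathProduct.left h

instance [Group.IsSolvable D] : Group.IsSolvable (Q → D) := by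
  obtain ⟨n, hn⟩ := ‹Group.IsSolvable D›
  exact ⟨n, eq_bot_iff.mpr fun x hx => funext fun q =>
    hn.le (map_derivedSeries_le_derivedSeries (Pi.evalMonoidHom (fun _ => D) q) n ⟨x, hx, rfl⟩)⟩

theorem derived_ne_bot {X : Type} [Group X] {Y : Subgroup (D ≀ᵣ Q)} {g : D ≀ᵣ Q} (hg : g.right ≠ 1)
    (h : ∀ f, bs D Q f * g * (bs D Q f)⁻¹ * g⁻¹ ∈ Y) (ι : Y.comap (bs D Q) →* X)
    (hι : Function.Injective ι) {n : ℕ} (hn : derivedSeries D n ≠ ⊥) : derivedSeries X n ≠ ⊥ := by
  classical
  intro h1
  have h2 : Function.Surjective ((Pi.evalMonoidHom (fun _ => D) 1).comp (Y.comap (bs D Q)).subtype) :=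
    fun s => by
      have h3 := h (Pi.mulSingle 1 s)
      generalize hx : bs D Q _ * g * _ * g⁻¹ = x at h3
      refine ⟨⟨x.left, by rwa [Subgroup.mem_comap, show bs D Q x.left = x by
        ext <;> simp [bs, ← hx]]⟩, by change x.left 1 = s; simp [← hx, bs, hg]⟩
  refine hn ?_
  rw [← map_derivedSeries_eq h2, (Subgroup.map_eq_bot_iff_of_injective (derivedSeries _ n) hι).mp
    (le_bot_iff.mp (h1 ▸ map_derivedSeries_le_derivedSeries ι n)), Subgroup.map_bot]

theorem exists_solvable (d : ℕ) : ∃ (D : Type) (_ : Group D) (_ : Finite D), Group.IsSolvable D ∧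
    derivedSeries D d ≠ ⊥ := by
  induction d with
  | zero => exact ⟨Multiplicative (ZMod 2), _, inferInstance, inferInstance, top_ne_bot⟩
  | succ d ih =>
    obtain ⟨D, _, _, _, h⟩ := ih
    refine ⟨D ≀ᵣ Multiplicative (ZMod 2), _, inferInstance, Group.isSolvable_of_ker_le_range (bs _ _)
      RegularWreathProduct.rightHom fun x hx => ⟨x.left, by ext1; rfl; exact hx.symm⟩, fun h1 => ?_⟩
    have h2 : ∀ n, (derivedSeries (commutator (D ≀ᵣ Multiplicative (ZMod 2))) n).map
        (Subgroup.subtype _) ≤ derivedSeries _ (n + 1) := fun n => by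
      induction n with
      | zero => exact Subgroup.map_subtype_le _
      | succ n ih =>
        rw [derivedSeries_succ, Subgroup.map_commutator]
        exact Subgroup.commutator_mono ih ih
    exact derived_ne_bot (Y := commutator _)
      (g := RegularWreathProduct.inl (Multiplicative.ofAdd (1 : ZMod 2))) (by simp)
      (fun f => Subgroup.commutator_mem_commutator (Subgroup.mem_top _) (Subgroup.mem_top _)) ((bs D (Multiplicative (ZMod 2))).subgroupComap _)
      (fun _ _ h => Subtype.ext (bs_injective (by exact congrArg Subtype.val h))) h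
      ((Subgroup.map_eq_bot_iff_of_injective _ (Subgroup.subtype_injective _)).mp
        (le_bot_iff.mp (h1 ▸ h2 d)))

/-- Finite perfect groups have solvable maximal subgroups of unbounded derived length: for every d there is a finite perfect group G (equal to its commutator subgroup) with a solvable maximal subgroup H whose derived length exceeds d, i.e. the d-th term of the derived series of H is non-trivial. (Take the derived subgroup of a wreath product S ≀ A₅ with S solvable of large derived length, and H the preimage of a maximal subgroup of A₅.) -/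
theorem result (d : ℕ) :
    ∃ (G : Type) (_ : Group G) (_ : Finite G) (H : Subgroup G), commutator G = ⊤ ∧ IsCoatom H ∧ Group.IsSolvable H ∧
      derivedSeries H d ≠ ⊥ := by
  obtain ⟨D, _, _, _, hD⟩ := exists_solvable d
  obtain ⟨Q, h1, h2⟩ := exists_minimal_of_wellFoundedLT
    (fun Q : Subgroup (Equiv.Perm (Fin 5)) => ¬ Group.IsSolvable Q) ⟨⊤, fun h =>
      Equiv.Perm.fin_5_not_solvable (Group.isSolvable_of_surjective (f := Subgroup.subtype ⊤)
        fun x => ⟨⟨x, trivial⟩, rfl⟩)⟩
  have h3 : ∀ K : Subgroup Q, K ≠ ⊤ → Group.IsSolvable K := fun K hK => by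
    by_contra h
    refine hK (Subgroup.map_injective Q.subtype_injective ?_)
    rw [← MonoidHom.range_eq_map, Subgroup.range_subtype]
    exact (Subgroup.map_subtype_le K).antisymm (h2 (fun _ => h (Group.isSolvable_of_isSolvable_injective
      (f := (K.equivMapOfInjective _ Q.subtype_injective).toMonoidHom) (MulEquiv.injective _)))
      (Subgroup.map_subtype_le K))
  have h4 : commutator Q = ⊤ := by_contra fun h => h1 ((Group.isSolvable_iff_subgroup_quotient _).mpr
    ⟨h3 _ h, inferInstanceAs (Group.IsSolvable (Abelianization Q))⟩)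
  have : Nontrivial Q := not_subsingleton_iff_nontrivial.mp fun _ => h1 inferInstance
  obtain ⟨M, h5, -⟩ := (eq_top_or_exists_le_coatom (⊥ : Subgroup Q)).resolve_left bot_ne_top
  obtain ⟨G, ⟨h6, h7⟩, h8⟩ := exists_minimal_of_wellFoundedLT
    (fun G : Subgroup (D ≀ᵣ Q) => G.Normal ∧ G.map RegularWreathProduct.rightHom = ⊤)
    ⟨⊤, inferInstance, Subgroup.map_top_of_surjective _ fun q => ⟨_, RegularWreathProduct.fun_id q⟩⟩
  let π := RegularWreathProduct.rightHom.comp G.subtype
  have h9 : Function.Surjective π := fun q => by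
    obtain ⟨g, a, b⟩ := h7.ge (Subgroup.mem_top q)
    exact ⟨⟨g, a⟩, b⟩
  let ι : G.comap (bs D Q) →* M.comap π :=
    ((bs D Q).subgroupComap G).codRestrict _ fun _ => M.one_mem
  obtain ⟨q, hq⟩ := exists_ne (1 : Q)
  obtain ⟨g, rfl⟩ := h9 q
  have := h3 M h5.1
  refine ⟨G, _, inferInstance, M.comap π, Subgroup.map_injective G.subtype_injective ?_,
    Subgroup.isCoatom_comap_of_surjective h9 h5, Group.isSolvable_of_ker_le_range ι
      (π.subgroupComap M) fun x hx => ?_, derived_ne_bot (g := g) hq (fun f => mul_mem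
        (h6.conj_mem _ g.2 _) (inv_mem g.2)) ι (fun _ _ h => Subtype.ext (bs_injective
          (congrArg (·.1.1) h))) hD⟩
  · rw [Subgroup.map_subtype_commutator, ← MonoidHom.range_eq_map, Subgroup.range_subtype]
    exact (Subgroup.commutator_le_left G G).antisymm (h8 ⟨inferInstance, by
      rw [Subgroup.map_commutator, h7]; exact h4⟩ (Subgroup.commutator_le_left G G))
  · have h10 : bs D Q x.1.1.left = x.1.1 := by ext1; rfl; exact (congrArg Subtype.val hx).symm
    exact ⟨⟨x.1.1.left, by rw [Subgroup.mem_comap, h10]; exact x.1.2⟩, Subtype.ext (Subtype.ext h10)⟩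

end Cfsg.Agent.S5896
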