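import Cfsg.Statements.S5902
import Cfsg.Agent.H18.Msc1
-- import your own Cfsg.Agent.* helpers here

set_option autoImplicit false
open Cfsg

namespace Cfsg.Agent.S5902

/-- Let G be a finite group, X a subgroup whose own subgroup lattice is complemented, and suppose X lies in exactly one maximal subgroup M of G. Then every subgroup H of G not contained in the normal core of M has a complement in the subgroup lattice of G (some C with H ⊔ C = G and H ⊓ C = 1); in particular the subgroup lattice of G modulo the normal core of M is complemented. -/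
theorem result {G : Type*} [Group G] [Finite G] (X M : Subgroup G)
    (hK : ComplementedLattice (Subgroup X))
    (hM : IsCoatom M) (hXM : X ≤ M) (huniq : ∀ M' : Subgroup G, IsCoatom M' → X ≤ M' → M' = M) :
    (∀ H : Subgroup G, ¬ H ≤ M.normalCore → ∃ C : Subgroup G, H ⊔ C = ⊤ ∧ H ⊓ C = ⊥) ∧
    ComplementedLattice (Subgroup (G ⧸ M.normalCore)) := by
  have h1 : ∀ H : Subgroup G, ¬ H ≤ M.normalCore → ∃ C : Subgroup G, H ⊔ C = ⊤ ∧ H ⊓ C = ⊥ := by
    intro H hH
    obtain ⟨x, h1, h2⟩ := SetLike.not_le_iff_exists.mp hH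
    obtain ⟨g, h2⟩ := not_forall.mp h2
    refine H18.exists_compl_of_map (MulAut.conj g) (H18.exists_compl_of_interval bot_le
      (fun Y _ hY => ?_) huniq (fun h => h2 (h ⟨x, h1, rfl⟩)) (inf_bot_eq _))
    obtain ⟨C, h3⟩ := exists_isCompl (Y.subgroupOf X)
    have h5 : (Y.subgroupOf X).map X.subtype = Y := by
      rw [Subgroup.subgroupOf_map_subtype, inf_eq_left.mpr hY]
    refine ⟨C.map X.subtype, bot_le, Subgroup.map_subtype_le _, ?_, ?_⟩
    · rw [← h5, ← Subgroup.map_sup, h3.sup_eq_top, ← MonoidHom.range_eq_map, Subgroup.range_subtype]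
    · rw [← h5, ← Subgroup.map_inf _ _ _ X.subtype_injective, h3.inf_eq_bot, Subgroup.map_bot]
  refine ⟨h1, ⟨fun K => ?_⟩⟩
  set f := QuotientGroup.mk' M.normalCore
  have hf := QuotientGroup.mk'_surjective M.normalCore
  by_cases hK : K = ⊥
  · exact ⟨⊤, hK ▸ isCompl_bot_top⟩
  obtain ⟨C, h2, h3⟩ := h1 (K.comap f) fun h => hK (by
    rw [← Subgroup.map_comap_eq_self_of_surjective hf K, Subgroup.map_eq_bot_iff,
      QuotientGroup.ker_mk']; exact h)
  refine ⟨C.map f, IsCompl.of_eq ?_ ?_⟩
  · rw [eq_bot_iff]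
    rintro _ ⟨h4, x, h5, rfl⟩
    rw [show x = 1 from h3.le ⟨h4, h5⟩, map_one]; exact one_mem _
  · rw [← Subgroup.map_comap_eq_self_of_surjective hf K, ← Subgroup.map_sup, h2,
      Subgroup.map_top_of_surjective _ hf]

end Cfsg.Agent.S5902
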