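import Cfsg.Statements.S5903
import Cfsg.Agent.H18.Msc1
-- import your own Cfsg.Agent.* helpers here

set_option autoImplicit false
open Cfsg

namespace Cfsg.Agent.S5903

/-- Let G be a finite simple group, X a subgroup lying in exactly one maximal subgroup M of G, and N a subgroup of prime order with N ≤ X that is central in M. If the subgroup lattice of X/N is complemented, then the subgroup lattice of G is complemented. -/
theorem result {G : Type*} [Group G] [Finite G] [IsSimpleGroup G] (X M N : Subgroup G)
    (hM : IsCoatom M) (hXM : X ≤ M) (huniq : ∀ M' : Subgroup G, IsCoatom M' → X ≤ M' → M' = M)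
    (hNX : N ≤ X) (hN : (Nat.card N).Prime) (hcen : ∀ n ∈ N, ∀ m ∈ M, m * n = n * m)
    [(N.subgroupOf X).Normal] (hK : ComplementedLattice (Subgroup (X ⧸ N.subgroupOf X))) :
    ComplementedLattice (Subgroup G) := by
  refine ⟨fun H => ?_⟩
  by_cases h1 : H.Normal
  · rcases h1.eq_bot_or_eq_top with rfl | rfl
    · exact ⟨⊤, isCompl_bot_top⟩
    · exact ⟨⊥, isCompl_top_bot⟩
  obtain ⟨g, h2⟩ : ∃ g, ¬ N ≤ Subgroup.normalizer (H.map (MulAut.conj g).toMonoidHom : Set G) := by
    by_contra! h2
    have h3 : N ≤ (Subgroup.normalizer (H : Set G)).normalCore := fun n hn g => by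
      have := h2 g⁻¹ hn
      rw [← Subgroup.map_normalizer_eq_of_bijective _ (MulAut.conj g⁻¹).bijective] at this
      obtain ⟨y, h3, rfl⟩ := this
      simpa [mul_assoc] using h3
    rcases (inferInstance : (Subgroup.normalizer (H : Set G)).normalCore.Normal).eq_bot_or_eq_top
      with h4 | h4
    · rw [h4, le_bot_iff] at h3
      exact Nat.not_prime_one (by simpa [h3] using hN)
    · exact h1 (Subgroup.normalizer_eq_top_iff.mp (top_le_iff.mp (h4.ge.trans
        (Subgroup.normalCore_le _))))
  have := Fact.mk hN
  obtain ⟨C, h3, h4⟩ := H18.exists_compl_of_map (MulAut.conj g) (H := H) (H18.exists_compl_of_interval hNX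
    (H18.interval_of_quotient hNX hK) huniq (fun h => h2 fun n hn =>
      Subgroup.centralizer_le_normalizer _ fun m hm => hcen n hn m (h hm)) (by
      rcases (Subgroup.subgroupOf (H.map (MulAut.conj g).toMonoidHom) N).eq_bot_or_eq_top_of_prime_card
        with h | h
      · rwa [Subgroup.subgroupOf_eq_bot, disjoint_iff] at h
      · exact absurd ((Subgroup.subgroupOf_eq_top.mp h).trans Subgroup.le_normalizer) h2))
  exact ⟨C, IsCompl.of_eq h4 h3⟩

end Cfsg.Agent.S5903
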