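import Cfsg.Statements.S5904
-- import your own Cfsg.Agent.* helpers here

set_option autoImplicit false
open scoped Pointwise
open Cfsg

namespace Cfsg.Agent.S5904

/-- Let Ω be a finite set with more than two elements and O ⊆ Ω a subset with exactly as many elements as its complement. Then the setwise stabilizer of O in the symmetric group on Ω is not a maximal subgroup (it is properly contained in the stabilizer of the partition {O, Ω ∖ O}, which is proper). -/
theorem result {Ω : Type*} [Fintype Ω] [DecidableEq Ω] (hΩ : 2 < Fintype.card Ω)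
    (O : Set Ω) (hO : Nat.card O = Nat.card ↥Oᶜ) :
    ¬ IsCoatom (MulAction.stabilizer (Equiv.Perm Ω) O) := by
  intro h
  let K : Subgroup (Equiv.Perm Ω) :=
    { carrier := {g | ∀ x y, (x ∈ O ↔ y ∈ O) ↔ (g x ∈ O ↔ g y ∈ O)}
      one_mem' := fun _ _ => Iff.rfl
      mul_mem' := fun ha hb x y => (hb x y).trans (ha _ _)
      inv_mem' := fun {g} hg x y => by simpa using (hg (g⁻¹ x) (g⁻¹ y)).symm }
  have h1 : 1 < Nat.card O := by
    have := Set.ncard_add_ncard_compl O
    rw [Nat.card_eq_fintype_card] at this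
    simp only [Nat.card_coe_set_eq] at *
    omega
  obtain ⟨⟨a, ha⟩, ⟨b, hb⟩, h2⟩ := Finite.one_lt_card_iff_nontrivial.mp h1
  obtain ⟨c, hc⟩ : Nonempty ↥Oᶜ := (Nat.card_pos_iff.mp (by omega)).1
  obtain ⟨e⟩ := Finite.card_eq.mp hO
  classical
  let g : Equiv.Perm Ω := (Equiv.Set.sumCompl O).symm.trans (((e.sumCongr e.symm).trans
    (Equiv.sumComm _ _)).trans (Equiv.Set.sumCompl O))
  have h3 : ∀ x, g x ∈ O ↔ x ∉ O := fun x => by
    by_cases hx : x ∈ O
    · have := (e ⟨x, hx⟩).2
      simp only [g, Equiv.trans_apply, Equiv.Set.sumCompl_symm_apply_of_mem hx, hx, not_true, iff_false]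
      exact this
    · simp [g, hx, Equiv.Set.sumCompl_symm_apply_of_notMem hx]
  have h4 := h.2 K (lt_of_le_of_ne (fun s hs x y => by
    have := fun x => (Set.smul_mem_smul_set_iff (a := s) (s := O) (x := x)).symm
    rw [MulAction.mem_stabilizer_iff.mp hs] at this
    rw [this x, this y]; rfl) fun h5 => ?_)
  · have h5 : b ≠ a := fun h => h2 (Subtype.ext h.symm)
    have := (h4.ge (Subgroup.mem_top (Equiv.swap a c)) a b).mp (by simp [ha, hb])
    rw [Equiv.swap_apply_left, Equiv.swap_apply_of_ne_of_ne h5 (by rintro rfl; exact hc hb)] at this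
    exact hc (this.mpr hb)
  · have h6 : g ∈ K := fun x y => by rw [h3, h3, not_iff_not]
    have := MulAction.mem_stabilizer_iff.mp (h5.ge h6)
    exact (h3 a).mp (this ▸ Set.smul_mem_smul_set ha) ha

end Cfsg.Agent.S5904
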