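import Cfsg.Statements.S5908
import Cfsg.Agent.S0827
-- import your own Cfsg.Agent.* helpers here

set_option autoImplicit false
open Cfsg

namespace Cfsg.Agent.S5908

/-- The subgroup lattice of PSU₃(2) (the solvable group of order 72, realised over the field with 4 elements) is not complemented: some subgroup H has no subgroup X with H ⊔ X = ⊤ and H ⊓ X = ⊥. -/
theorem result {F : Type*} [Field F] [Fintype F] (hF : Fintype.card F = 4) :
    ¬ ComplementedLattice (Subgroup (Cfsg.PSU 3 F 2)) := by
  intro h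
  obtain ⟨N, _, h1, h2, ⟨e⟩⟩ := S0827.result hF
  let f := e.toMonoidHom.comp (QuotientGroup.mk' N)
  have hf : Function.Surjective f := e.surjective.comp (QuotientGroup.mk'_surjective N)
  let Z : Subgroup (QuaternionGroup 2) := Subgroup.zpowers (QuaternionGroup.a 1)
  obtain ⟨X, h3⟩ := exists_isCompl (Z.comap f)
  have h4 : ∀ y : QuaternionGroup 2, y * y ∈ Z := fun y => (mem_zpowers_iff_mem_range_orderOf.mpr
    (by rw [QuaternionGroup.orderOf_a_one]; revert y; decide))
  have h5 : ∀ y : QuaternionGroup 2, y * y = 1 → y ∈ Z := fun y hy =>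
    (mem_zpowers_iff_mem_range_orderOf.mpr
    (by rw [QuaternionGroup.orderOf_a_one]; revert y; decide))
  have h6 : X ≤ Z.comap f := fun x hx => h5 _ (by
    rw [← map_mul, show x * x = 1 from h3.inf_eq_bot.le ⟨by simpa using h4 _, mul_mem hx hx⟩, map_one])
  have h7 := h3.sup_eq_top
  rw [sup_eq_left.mpr h6] at h7
  obtain ⟨x, hx⟩ := hf (QuaternionGroup.xa 0)
  have h8 : f x ∈ Z := h7.ge (Subgroup.mem_top x)
  rw [hx, mem_zpowers_iff_mem_range_orderOf, QuaternionGroup.orderOf_a_one] at h8
  revert h8; decide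

end Cfsg.Agent.S5908
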