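import Cfsg.Statements.S5910
import Cfsg.Agent.H18.Msc4
-- import your own Cfsg.Agent.* helpers here

set_option autoImplicit false
open Cfsg

namespace Cfsg.Agent.S5910

open Equiv Equiv.Perm

/-- The affine permutations of an elementary abelian 2-group. -/
def aff (V : Type) [Add V] : Subgroup (Perm V) where
  carrier := {g | ∀ x y z, g (x + y + z) = g x + g y + g z}
  one_mem' _ _ _ := rfl
  mul_mem' ha hb x y z := by rw [Perm.mul_apply, hb, ha]; rfl
  inv_mem' {g} hg x y z := g.injective (by rw [hg]; simp)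

theorem aff_four (σ : Perm (ZMod 2 × ZMod 2)) : ∀ x y z, σ (x + y + z) = σ x + σ y + σ z := by
  revert σ; decide +kernel

theorem aff_two (τ : ZMod 2 × ZMod 2 → Perm (ZMod 2)) (h : ∏ i, sign (τ i) = 1) :
    ∀ x y z s t u, τ (x + y + z) (s + t + u) = τ x s + τ y t + τ z u := by
  revert τ; decide +kernel

theorem mem_aff {g : Perm ((ZMod 2 × ZMod 2) × ZMod 2)} (h1 : g ∈ H18.PS Prod.fst) (h2 : sign g = 1) :
    g ∈ aff _ := by
  have h3 : ∀ i s, (g (i, s)).1 = (g (i, 0)).1 := fun i s => (h1 _ _).mp rfl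
  let σ := Equiv.ofBijective (fun i => (g (i, 0)).1) (Finite.injective_iff_bijective.mp
    fun i j h => (h1 (i, 0) (j, 0)).mpr h)
  let τ := fun i => Equiv.ofBijective (fun s => (g (i, s)).2) (Finite.injective_iff_bijective.mp
    fun s t h => congrArg Prod.snd (g.injective (Prod.ext ((h3 i s).trans (h3 i t).symm) h)))
  have h4 : g = prodCongrLeft (fun _ => σ) * prodCongrRight τ := Equiv.ext fun ⟨i, s⟩ =>
    Prod.ext (h3 i s) rfl
  rw [h4, map_mul, sign_prodCongrLeft, sign_prodCongrRight, Finset.prod_const, Finset.card_univ,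
    ZMod.card, Int.units_sq, one_mul] at h2
  rw [h4]
  exact fun x y z => Prod.ext (aff_four σ _ _ _) (aff_two τ h2 _ _ _ _ _ _)

/-- Let Ω be a set with 8 elements and f : Ω → Fin 4 a labelling whose four fibres all have size 2 (a partition of the 8 points into 4 pairs). Then the group of even permutations preserving this partition, (S₂ ≀ S₄) ∩ A₈, is not a maximal subgroup of the alternating group A₈ (it lies in a subgroup isomorphic to the affine group AGL₃(2)). -/
theorem result {Ω : Type*} [Fintype Ω] [DecidableEq Ω] (h8 : Fintype.card Ω = 8)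
    (f : Ω → Fin 4) (hf : ∀ i : Fin 4, Nat.card {x : Ω // f x = i} = 2) :
    ¬ IsCoatom ((Subgroup.closure {g : Equiv.Perm Ω | ∀ x y : Ω, f x = f y ↔ f (g x) = f (g y)} ⊓ alternatingGroup Ω).subgroupOf (alternatingGroup Ω)) := by
  obtain ⟨ι⟩ : Nonempty (Fin 4 ≃ ZMod 2 × ZMod 2) := Fintype.card_eq.mp (by simp)
  obtain ⟨e', he'⟩ := H18.exists_equiv_prod (γ := ZMod 2) (f := f) (by simpa using hf)
  let e := e'.trans (ι.prodCongr (Equiv.refl _))
  have he : ∀ x y, f x = f y ↔ (e x).1 = (e y).1 := fun x y => by simp [e, he']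
  rw [H18.closure_PS]
  intro h
  have h1 : ∀ a b c d, a ≠ b → c ≠ d → e.symm.permCongr (swap a b * swap c d) ∈ alternatingGroup Ω :=
    fun a b c d h1 h2 => by simp [mem_alternatingGroup, h1, h2]
  have h2 := h.2 (((aff _).comap e.permCongrHom.toMonoidHom).subgroupOf _) (lt_of_le_of_ne
    (fun g hg => mem_aff (fun x y => by
      simpa [he] using hg.1 (e.symm x) (e.symm y)) ((sign_permCongr e _).trans g.2))
    fun h2 => by
      have h3 := (h2.ge (show ⟨_, h1 ((0, 1), 0) ((0, 0), 1) ((1, 1), 0) ((1, 0), 1) (by decide)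
        (by decide)⟩ ∈ _ from fun x y z => by
          simp only [MulEquiv.toMonoidHom_eq_coe, MonoidHom.coe_coe, permCongrHom_coe, permCongr_apply,
            symm_symm, apply_symm_apply, Subgroup.coe_subtype]
          revert x y z; decide +kernel)).1 (e.symm ((0, 0), 0)) (e.symm ((0, 0), 1))
      simp only [he, apply_symm_apply, Subgroup.coe_subtype, permCongr_apply, symm_symm] at h3
      revert h3; decide)
  have h3 := Subgroup.subgroupOf_eq_top.mp h2 (h1 ((0, 0), 0) ((0, 0), 1) ((0, 0), 1) ((1, 0), 0)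
    (by decide) (by decide)) ((0, 0), 0) ((0, 1), 0) ((0, 1), 1)
  simp only [MulEquiv.toMonoidHom_eq_coe, MonoidHom.coe_coe, permCongrHom_coe, permCongr_apply,
    symm_symm, apply_symm_apply] at h3
  revert h3; decide

end Cfsg.Agent.S5910
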