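import Cfsg.Statements.S5911
import Cfsg.Agent.H18.Msc2
-- import your own Cfsg.Agent.* helpers here

set_option autoImplicit false
open Cfsg

namespace Cfsg.Agent.S5911

/-- Let Ω be a finite set whose size n is not 6. Then every subgroup of the symmetric group on Ω of index n is the stabilizer of a point. -/
theorem result {Ω : Type*} [Fintype Ω] [DecidableEq Ω] (h6 : Fintype.card Ω ≠ 6)
    (H : Subgroup (Equiv.Perm Ω)) (hH : H.index = Fintype.card Ω) :
    ∃ x : Ω, H = MulAction.stabilizer (Equiv.Perm Ω) x := by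
  rcases le_or_gt 5 (Fintype.card Ω) with h5 | h5
  · obtain ⟨f, x, rfl⟩ := H18.exists_aut_of_index h5 hH
    obtain ⟨g, rfl⟩ := H18.inner_of_ne_six (by omega) h6 f
    exact ⟨_, H18.comap_conj_stabilizer g x⟩
  suffices ∃ x : Ω, H ≤ MulAction.stabilizer (Equiv.Perm Ω) x by
    obtain ⟨x, hx⟩ := this
    refine ⟨x, hx.antisymm (Subgroup.relIndex_eq_one.mp ?_)⟩
    have := Subgroup.relIndex_mul_index hx
    rw [MulAction.index_stabilizer_of_transitive, hH, Nat.card_eq_fintype_card] at this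
    exact (mul_eq_right₀ (Fintype.card_pos_iff.mpr ⟨x⟩).ne').mp this
  have h0 := H.index_ne_zero_of_finite
  have h1 := H.card_mul_index
  rw [Nat.card_perm, Nat.card_eq_fintype_card (α := Ω), hH] at h1
  obtain ⟨x⟩ : Nonempty Ω := Fintype.card_pos_iff.mp (by omega)
  have h2 : Nat.card H = 1 → ∃ x : Ω, H ≤ MulAction.stabilizer (Equiv.Perm Ω) x := fun h =>
    ⟨x, by rw [Subgroup.card_eq_one.mp h]; exact bot_le⟩
  have h3 : ∀ (p : ℕ) (K : Subgroup (Equiv.Perm Ω)), p.Prime → Nat.card K = p →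
      Nat.card (MulAction.fixedPoints K Ω) ≡ Fintype.card Ω [MOD p] := fun p K hp hK => by
    have := Fact.mk hp
    rw [← Nat.card_eq_fintype_card]
    exact ((IsPGroup.of_card (hK.trans (pow_one p).symm)).card_modEq_card_fixedPoints Ω).symm
  generalize hn : Fintype.card Ω = n at *
  interval_cases n
  · omega
  · exact h2 (by simpa using h1)
  · exact h2 (Nat.eq_of_mul_eq_mul_right (m := 2) (by simp) h1)
  · have h4 := h3 2 H Nat.prime_two (Nat.eq_of_mul_eq_mul_right (m := 3) (by simp) h1)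
    obtain ⟨⟨y, hy⟩⟩ := (Nat.card_pos_iff.mp (Nat.pos_of_ne_zero fun h => by simp [h, Nat.ModEq] at h4 :
      0 < Nat.card (MulAction.fixedPoints H Ω))).1
    exact ⟨y, fun g hg => hy ⟨g, hg⟩⟩
  have h4 : Nat.card H = 6 := by simp [Nat.factorial] at h1; omega
  have := Fact.mk Nat.prime_three
  obtain ⟨K, hK⟩ := Sylow.exists_subgroup_card_pow_prime (G := H) 3 (n := 1) (by simp [h4])
  have h5 : K.Normal := Subgroup.normal_of_index_eq_two (by have := K.card_mul_index; rw [hK, h4] at this; omega)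
  have h7 : Nat.card (K.map H.subtype) = 3 := by rw [Subgroup.card_subtype, hK, pow_one]
  have h8 := h3 3 _ Nat.prime_three h7
  have h9 : Nat.card (MulAction.fixedPoints (K.map H.subtype) Ω) ≠ 4 := fun h => by
    have h9 := Set.eq_of_subset_of_ncard_le (Set.subset_univ (MulAction.fixedPoints (K.map H.subtype) Ω))
      (by rw [Set.ncard_univ, Nat.card_eq_fintype_card, hn, ← h, Nat.card_coe_set_eq])
    rw [show K.map H.subtype = ⊥ from eq_bot_iff.mpr fun g hg => Equiv.ext fun y =>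
      h9.ge (Set.mem_univ y) ⟨g, hg⟩] at h7
    simp at h7
  have h10 := Set.ncard_le_card (MulAction.fixedPoints (K.map H.subtype) Ω)
  rw [Nat.card_eq_fintype_card, hn] at h10
  rw [Nat.card_coe_set_eq, Nat.ModEq] at *
  obtain ⟨y, hy⟩ := Set.ncard_eq_one.mp (show (MulAction.fixedPoints (K.map H.subtype) Ω).ncard = 1 by
    omega)
  refine ⟨y, fun g hg => hy.le ?_⟩
  rintro ⟨_, k, hk, rfl⟩
  have : _ • y = y := hy.ge rfl ⟨_, _, h5.conj_mem' k hk ⟨g, hg⟩, rfl⟩
  simpa [Subgroup.smul_def, Equiv.symm_apply_eq] using this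

end Cfsg.Agent.S5911
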