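import Cfsg.Statements.S5912
import Cfsg.Agent.H18.Msc2
-- import your own Cfsg.Agent.* helpers here

set_option autoImplicit false
open Cfsg

namespace Cfsg.Agent.S5912

/-- The symmetric group on a 6-element set Ω has exactly two conjugacy classes of subgroups of index 6: there are two non-conjugate subgroups of index 6 (a point stabilizer and a transitive subgroup isomorphic to S₅), and every subgroup of index 6 is conjugate to one of them. -/
theorem result {Ω : Type*} [Fintype Ω] [DecidableEq Ω] (h6 : Fintype.card Ω = 6) :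
    ∃ H₁ H₂ : Subgroup (Equiv.Perm Ω), H₁.index = 6 ∧ H₂.index = 6 ∧
      (¬ ∃ g : Equiv.Perm Ω, Subgroup.map (MulAut.conj g).toMonoidHom H₁ = H₂) ∧
      ∀ H : Subgroup (Equiv.Perm Ω), H.index = 6 →
        ∃ g : Equiv.Perm Ω, Subgroup.map (MulAut.conj g).toMonoidHom H₁ = H ∨ Subgroup.map (MulAut.conj g).toMonoidHom H₂ = H := by
  obtain ⟨f, h1, h2⟩ := H18.exists_index_six h6
  obtain ⟨x⟩ : Nonempty Ω := Fintype.card_pos_iff.mp (by omega)
  have h3 : ∀ (g : Equiv.Perm Ω) (H : Subgroup (Equiv.Perm Ω)),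
      H.map (MulAut.conj g).toMonoidHom = H.comap (MulAut.conj g⁻¹).toMonoidHom := fun g H => by
    rw [Subgroup.map_equiv_eq_comap_symm', map_inv]; rfl
  refine ⟨MulAction.stabilizer _ x, (MulAction.stabilizer _ x).comap f.toMonoidHom,
    h6 ▸ H18.index_comap_stabilizer 1 x, h6 ▸ H18.index_comap_stabilizer f x, fun ⟨g, h⟩ => h1 x _ (by
      rw [← h, h3, H18.comap_conj_stabilizer]), fun H hH => ?_⟩
  obtain ⟨y, rfl | rfl⟩ := h2 H hH
  · exact ⟨Equiv.swap x y, Or.inl (by rw [h3, H18.comap_conj_stabilizer]; simp)⟩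
  · refine ⟨f.symm (Equiv.swap x y), Or.inr ?_⟩
    rw [h3, show MulAction.stabilizer _ y = _ from by
      simpa using (H18.comap_conj_stabilizer (Equiv.swap x y) x).symm,
      Subgroup.comap_comap, Subgroup.comap_comap]
    congr 1
    ext1 z
    simp

end Cfsg.Agent.S5912
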