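import Cfsg.Statements.S5913
import Cfsg.Agent.H18.Msc1
-- import your own Cfsg.Agent.* helpers here

set_option autoImplicit false
open Cfsg

namespace Cfsg.Agent.S5913

/-- Let S be a non-abelian simple group and n a natural number. Every normal subgroup N of the direct power S^n (functions Fin n → S) is a subproduct: there is a set T of coordinates such that N consists exactly of the elements whose coordinates outside T are trivial. In particular the minimal normal subgroups of S^n are its n factors. -/
theorem result {S : Type*} [Group S] [IsSimpleGroup S] (hS : ¬ IsMulCommutative S) (n : ℕ)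
    (N : Subgroup (Fin n → S)) [N.Normal] :
    ∃ T : Finset (Fin n), ∀ x : Fin n → S, x ∈ N ↔ ∀ i, i ∉ T → x i = 1 := by
  classical
  refine ⟨Finset.univ.filter fun i => ∃ x ∈ N, x i ≠ 1, fun x => ⟨fun hx i hi => ?_, fun h => ?_⟩⟩
  · by_contra h
    exact hi (by simpa using ⟨x, hx, h⟩)
  refine Subgroup.pi_mem_of_mulSingle_mem x fun i => ?_
  by_cases h1 : x i = 1
  · rw [h1, Pi.mulSingle_one]; exact one_mem _
  obtain ⟨y, h2, h3⟩ := (Finset.mem_filter.mp (not_not.mp (mt (h i) h1))).2
  exact H18.normal_pi_simple hS N h2 h3 _

end Cfsg.Agent.S5913
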