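import Cfsg.Statements.S5914
import Cfsg.Agent.H18.Msc3
-- import your own Cfsg.Agent.* helpers here

set_option autoImplicit false
open Cfsg

namespace Cfsg.Agent.S5914

/-- A non-trivial finite group G is characteristically simple (its only characteristic subgroups are 1 and G) if and only if G is isomorphic to a direct power S^n (n ≥ 1) of some simple group S (possibly cyclic of prime order). -/
theorem result {G : Type*} [Group G] [Finite G] [Nontrivial G] :
    (∀ H : Subgroup G, H.Characteristic → H = ⊥ ∨ H = ⊤) ↔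
    ∃ (S : Type) (_ : Group S) (_ : IsSimpleGroup S) (n : ℕ), 1 ≤ n ∧ Nonempty (G ≃* (Fin n → S)) := by
  refine ⟨H18.exists_pi_of_char_simple, fun ⟨S, _, _, n, _, ⟨e⟩⟩ H hH => ?_⟩
  have : (H.map e.toMonoidHom).Characteristic := Subgroup.characteristic_iff_map_le.mpr fun φ => by
    rintro _ ⟨_, ⟨x, hx, rfl⟩, rfl⟩
    exact ⟨_, (hH.fixed (e.trans (φ.trans e.symm))).ge hx, by simp⟩
  exact (H18.char_simple_pi (H.map e.toMonoidHom)).imp (fun h => e.mapSubgroup.injective
    (h.trans e.mapSubgroup.map_bot.symm)) fun h => e.mapSubgroup.injective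
    (h.trans e.mapSubgroup.map_top.symm)

end Cfsg.Agent.S5914
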