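import Cfsg.Statements.S5939
import Cfsg.Agent.H12.PMd

set_option autoImplicit false
open Cfsg

namespace Cfsg.Agent.S5939

/-- Let p be a prime and F a finite field of characteristic p such that either F has p elements and p ≡ ±1 (mod 10), or F has p² elements and p ≡ ±3 (mod 10). Then PSL_2(F) has a maximal subgroup isomorphic to the alternating group A_5. -/
theorem result {F : Type*} [Field F] [Fintype F] (p : ℕ) [Fact p.Prime] [CharP F p] (h : (Fintype.card F = p ∧ (p % 10 = 1 ∨ p % 10 = 9)) ∨ (Fintype.card F = p ^ 2 ∧ (p % 10 = 3 ∨ p % 10 = 7))) : ∃ H : Subgroup (Matrix.ProjectiveSpecialLinearGroup (Fin 2) F), IsCoatom H ∧ Nonempty (H ≃* alternatingGroup (Fin 5)) := by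
    obtain ⟨H, ⟨e⟩⟩ := (S0804.result (F := F) rfl).mpr (Dvd.dvd.mul_left (by
      have := (Fact.out : p.Prime).pos
      rcases h with ⟨h, h'⟩ | ⟨h, h'⟩ <;> rw [h] <;>
        refine (Nat.modEq_iff_dvd' (Nat.one_le_pow _ _ (by positivity))).mp ?_ <;>
        rcases h' with h' | h' <;> simp [Nat.ModEq, Nat.pow_mod, ← Nat.mod_mod_of_dvd p (show 5 ∣ 10 by norm_num), h']) _)
    exact ⟨H, H12.coatom_alt5 p h e, ⟨e⟩⟩

end Cfsg.Agent.S5939
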