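import Cfsg.Statements.S5953
import Cfsg.Agent.H28.Elu13

set_option autoImplicit false
open scoped MatrixGroups
open Cfsg

namespace Cfsg.Agent.S5953

open H28 H12 H13 Module

/-- Elements of prime order of PSU_n(q) with no fixed totally isotropic `m`-space. Here `T = PSU_n(q)` (`n ≥ 3`, `(n, q) ≠ (3, 2)`), realised through the matrices of determinant 1 over the field `F` with `q²` elements preserving the Hermitian form `h(u, v) = Σ u_i v_i^q`; an element of `T` of prime order `r` is such a matrix `x` with `x^r` scalar and `x` not scalar. For `r ≠ p` let `i` be the multiplicative order of `q` modulo `r`, `b = i/2` for `i` even and `b = i` for `i` odd, `c = i, i/2, 2i` according as `i ≡ 0, 2 (mod 4)` or `i` odd, and write `k = n mod c`, `ℓ = m mod b`, `ℓ' = m mod c`, `n' = ⌊n/b⌋`, `m' = ⌊m/b⌋`, `s = (r−1)/b`; `(a)_r` is the `r`-part of `a`. Let `1 ≤ m ≤ n/2` and let `r` be a prime dividing the number of totally isotropic `m`-spaces. Then every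 element of `T` of order `r` fixes a totally isotropic `m`-space if and only if either (i) `r = 2`, `p ≠ 2`, and (`m < n/2` or `(q+1)_2 ≤ (n)_2`); or (ii) `r ≠ p`, `r > 2`, `b ≤ m`, `k ≥ 2ℓ`, and either `i ≢ 2 (mod 4)`, or `i ≡ 2 (mod 4)`, `n' − 2m' ≥ s` and (`i > 2`, or `i = 2` and (`r ∣ m` or `(q+1)_r ≥ (n)_r`)). -/
theorem result {F : Type*} [Field F] [Fintype F] {p : ℕ} [Fact p.Prime] [CharP F p] {q : ℕ} (hq : Fintype.card F = q ^ 2)
    (n m : ℕ) (hn : 3 ≤ n) (hT : (n, q) ≠ (3, 2)) (hm : 1 ≤ m) (hmn : 2 * m ≤ n)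
    (r : ℕ) [Fact r.Prime]
    (hrΩ : r ∣ Nat.card {W : Submodule F (Fin n → F) // Module.finrank F ↥W = m ∧ (∀ u ∈ W, ∀ v ∈ W, Cfsg.hermForm n F q u v = 0)})
    (i b c : ℕ) (hi : i = orderOf (q : ZMod r)) (hb : b = if Even i then i / 2 else i)
    (hc : c = if i % 4 = 0 then i else if i % 4 = 2 then i / 2 else 2 * i) :
    (∀ x : Matrix.SpecialLinearGroup (Fin n) F, x ∈ Cfsg.SU n F q →
      (∃ z : F, ((x ^ r : Matrix.SpecialLinearGroup (Fin n) F) : Matrix (Fin n) (Fin n) F) = z • (1 : Matrix (Fin n) (Fin n) F)) →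
      (∀ z : F, (x : Matrix (Fin n) (Fin n) F) ≠ z • (1 : Matrix (Fin n) (Fin n) F)) →
      ∃ W : Submodule F (Fin n → F), Module.finrank F ↥W = m ∧ (∀ u ∈ W, ∀ v ∈ W, Cfsg.hermForm n F q u v = 0) ∧
        W.map (Matrix.toLin' (x : Matrix (Fin n) (Fin n) F)) ≤ W) ↔
    ((r = 2 ∧ p ≠ 2 ∧ (2 * m < n ∨ padicValNat 2 (q + 1) ≤ padicValNat 2 n)) ∨
     (r ≠ p ∧ 2 < r ∧ b ≤ m ∧ 2 * (m % b) ≤ n % c ∧
       (i % 4 ≠ 2 ∨ (i % 4 = 2 ∧ (r - 1) / b + 2 * (m / b) ≤ n / b ∧
         (2 < i ∨ (i = 2 ∧ (r ∣ m ∨ padicValNat r n ≤ padicValNat r (q + 1)))))))) := by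
  have hr : r.Prime := Fact.out
  have D := sd_uB hq n
  have hV : finrank F (Fin n → F) = n := by simp
  have : Nontrivial (Fin n → F) := nontrivial_of_finrank_pos (R := F) (by omega)
  obtain ⟨ρ, hρ, -⟩ := exists_frob_pow hq
  have e : ∀ u v, hermForm n F q u v = 0 ↔ uB hq n u v = 0 := fun u v => (uB_eq_zero hq).symm.trans D.comm0_iff
  simp only [e, iv_iff] at hrΩ ⊢
  refine (forall_SU_iff (hF := hq) (P := fun a => HasTI (uB hq n) a m)).trans ?_
  have hrp : r ≠ p := by rintro rfl; exact not_dvd_ti_count D (by omega) hrΩ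
  have h0 := hr.two_le
  have h3 : ¬ r ∣ q := fun h' => not_dvd_card_of_ne (F := F) hr hrp (hq ▸ h'.pow two_ne_zero)
  by_cases h2 : r = 2
  · subst h2
    have h1 : 2 ∣ q + 1 := by omega
    simp only [hrp.symm, ne_eq, not_false_eq_true, true_and, lt_self_iff_false, false_and, and_false, or_false]
    constructor
    · intro H
      by_contra! h
      obtain ⟨w, y, v, h4, h5, h6, h7, -, -, h10, h11⟩ := exists_refl_su D h1 (by omega) (hV.symm ▸ h.2)
      obtain ⟨U, h12, h13, h14⟩ := H _ h5 h6 h7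
      have h15 : U = sperp (uB hq n) U := Submodule.eq_of_le_of_finrank_eq (fun x hx w hw => h13 w hw x hx) (by
        have := D.finrank_sperp U; omega)
      have h16 : v ∉ U := fun h => h10 (h13 v h v h)
      exact h16 (h15 ▸ fun u hu => D.comm0 (by_contra fun h => h16 ((U.smul_mem_iff (div_ne_zero (mul_ne_zero (neg_ne_zero.2
        (by simpa using cast_ne_of_dvd hq h1)) h) h10)).1 (h11 u ▸ sub_mem ((iv_smul_iff h4).1 h14 u hu) hu))))
    · intro H a ha h4 h5
      obtain ⟨w, h6, y, rfl, h7, h8, -⟩ | ⟨z, h6, h7⟩ := po_cases_u D ha h5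
      · obtain ⟨s, t, h9, h10, h11, -⟩ := u_inv hρ D h7 h1 h8
        obtain ⟨k, l, rfl, h12, h13⟩ : ∃ k l, m = k + l ∧ 2 * k ≤ s ∧ 2 * l ≤ t := H.elim
          (fun h => ⟨min m (s / 2), m - s / 2, by omega⟩) fun h => by
            obtain ⟨j, rfl⟩ := even_of_det h1 (by omega) (hV.symm ▸ h) h6 h10 h4 hq
            exact ⟨m - j, min m j, by omega⟩
        exact (h11 k l h12 h13).smul
      · exact (h6.two hρ D ha h7).2 m (by omega)
  have h5 : 0 < orderOf (q : ZMod r) := Nat.pos_of_dvd_of_pos (ZMod.orderOf_dvd_card_sub_one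
    (mt (ZMod.natCast_eq_zero_iff _ _).1 h3)) (by omega)
  have h6 := orderOf_neg_eq h2 h5
  rw [← hi, ← hc] at h6
  have h7 : orderOf (Fintype.card F : ZMod r) = b := by
    rw [hq, Nat.cast_pow, orderOf_pow' _ two_ne_zero, ← hi, hb]
    split_ifs with h
    · rw [Nat.gcd_eq_right h.two_dvd]
    · rw [(Nat.coprime_two_right.2 (Nat.not_even_iff_odd.1 h)).gcd_eq_one, Nat.div_one]
  have h8 : r ∣ q + 1 ↔ c = 1 := by
    rw [← ZMod.natCast_eq_zero_iff, Nat.cast_succ, ← neg_eq_iff_add_eq_zero, ← orderOf_eq_one_iff, h6]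
  have P := per_u hrp h2 hq hρ
  have h9 := per_u_odd (r := r) hq
  obtain ⟨U, h10, h11, h12⟩ := ti_count D (m := m) (by omega)
  have h13 := u_mod_lt hrp hq D h11 h12 hrΩ
  rw [h6] at P h9 h13
  rw [← hi] at h5
  simp only [Nat.even_iff] at hb
  simp only [h2, false_and, false_or, ne_eq, hrp, not_false_eq_true, true_and, show 2 < r by omega]
  by_cases h1 : r ∣ q + 1
  · obtain rfl := h8.1 h1
    obtain rfl : i = 2 := by split_ifs at hc <;> omega
    obtain rfl : b = 1 := by simpa using hb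
    have h14 := forall_np_iff hρ D h1 (A := r ∣ m) fun z hz a ha h => hz.hasTI_iff hρ D ha h h2 (by omega)
    simp only [hV, h2, false_imp_iff, and_true] at h14
    simp only [hm, Nat.mod_one, Nat.div_one, true_and, le_refl, not_true, false_or, lt_self_iff_false]
    refine ⟨fun H => ⟨by_contra fun h => ?_, h14.1 fun a ha h2 h3 _ => H a ha h2 h3⟩, fun H a ha h2 h3 =>
      (po_cases_u D ha h3).elim (fun ⟨w, _, y, e, h4, h5, _⟩ => e ▸ (P.ti_self_of D (h9 odd_one).2 (by omega)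
        (by simpa using H.1) h4 h5).smul) (h14.2 H.2 a ha h2 h3)⟩
    obtain ⟨a, g1, g2, g3, g4⟩ := exists_not_ti_one hρ D hrp h2 h1 (by omega) hm (by omega)
    exact g4 (H a g1 g2 g3)
  rw [forall_po_u_two D hr h1 fun w _ a h => h.smul]
  by_cases h14 : i % 4 = 2
  · obtain rfl : b = c := by split_ifs at hb hc <;> omega
    have h15 : Odd b := Nat.odd_iff.2 (by split_ifs at hb <;> omega)
    rw [P.ti_self D h7 (h9 h15).2 (by omega) (by omega), hV]
    simp [h14, show 2 < i by have := mt h8.2 h1; split_ifs at hb <;> omega]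
  · rw [P.ti_split D h7 (by split_ifs at hb hc <;> omega) (fun M _ h => by
      simpa [Function.comp_def, ← pow_mul, hq, sq] using h) (fun M _ => by simp [hρ]) (by omega) (by omega), hV]
    simp [h14]

end Cfsg.Agent.S5953
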