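import Cfsg.Statements.S5954
import Cfsg.Agent.H28.Elu13

set_option autoImplicit false
open scoped MatrixGroups
open Cfsg

namespace Cfsg.Agent.S5954

open H28 H12 H13 Module

/-- Elements of prime order of PSU_n(q) with no fixed nondegenerate `m`-space. Here `T = PSU_n(q)` (`n ≥ 3`, `(n, q) ≠ (3, 2)`), realised through the matrices of determinant 1 over the field `F` with `q²` elements preserving the Hermitian form `h(u, v) = Σ u_i v_i^q`; an element of `T` of prime order `r` is such a matrix `x` with `x^r` scalar and `x` not scalar. For `r ≠ p` let `i` be the multiplicative order of `q` modulo `r`, `b = i/2` for `i` even and `b = i` for `i` odd, `c = i, i/2, 2i` according as `i ≡ 0, 2 (mod 4)` or `i` odd, and write `k = n mod c`, `ℓ = m mod b`, `ℓ' = m mod c`, `n' = ⌊n/b⌋`, `m' = ⌊m/b⌋`, `s = (r−1)/b`; `(a)_r` is the `r`-part of `a`. Let `1 ≤ m < n/2` and let `r` be a prime dividing the number of nondegenerate `m`-spaces.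 Then every element of `T` of order `r` fixes a nondegenerate `m`-space if and only if one of: (i) `r = p > 2` and every partition of `n` into parts of size at most `p` contains (as a sub-multiset) a partition of `m`; (ii) `r = p = 2` and (`n` is odd or `m` is even); (iii) `r = 2 ≠ p` and (`n` is odd, or `m` is even, or `(q+1)_2 ≥ (n)_2` and `q ≡ 3 (mod 4)`); (iv) `r ≠ p`, `r > 2`, and either `i ≠ 2`, `c ≤ m` and `k ≥ ℓ'`, or `i = 2` and (`r ∣ m` or `(q+1)_r ≥ (n)_r`). -/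
theorem result {F : Type*} [Field F] [Fintype F] {p : ℕ} [Fact p.Prime] [CharP F p] {q : ℕ} (hq : Fintype.card F = q ^ 2)
    (n m : ℕ) (hn : 3 ≤ n) (hT : (n, q) ≠ (3, 2)) (hm : 1 ≤ m) (hmn : 2 * m < n)
    (r : ℕ) [Fact r.Prime]
    (hrΩ : r ∣ Nat.card {W : Submodule F (Fin n → F) // Module.finrank F ↥W = m ∧ (∀ u ∈ W, u ≠ 0 → ∃ v ∈ W, Cfsg.hermForm n F q u v ≠ 0)})
    (i b c : ℕ) (hi : i = orderOf (q : ZMod r)) (hb : b = if Even i then i / 2 else i)
    (hc : c = if i % 4 = 0 then i else if i % 4 = 2 then i / 2 else 2 * i) :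
    (∀ x : Matrix.SpecialLinearGroup (Fin n) F, x ∈ Cfsg.SU n F q →
      (∃ z : F, ((x ^ r : Matrix.SpecialLinearGroup (Fin n) F) : Matrix (Fin n) (Fin n) F) = z • (1 : Matrix (Fin n) (Fin n) F)) →
      (∀ z : F, (x : Matrix (Fin n) (Fin n) F) ≠ z • (1 : Matrix (Fin n) (Fin n) F)) →
      ∃ W : Submodule F (Fin n → F), Module.finrank F ↥W = m ∧ (∀ u ∈ W, u ≠ 0 → ∃ v ∈ W, Cfsg.hermForm n F q u v ≠ 0) ∧
        W.map (Matrix.toLin' (x : Matrix (Fin n) (Fin n) F)) ≤ W) ↔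
    ((r = p ∧ 2 < p ∧ (∀ μ : Multiset ℕ, (∀ a ∈ μ, 0 < a ∧ a ≤ p) → μ.sum = n → ∃ ν : Multiset ℕ, ν ≤ μ ∧ ν.sum = m)) ∨
     (r = p ∧ p = 2 ∧ (Odd n ∨ Even m)) ∨
     (r = 2 ∧ p ≠ 2 ∧ (Odd n ∨ Even m ∨ (padicValNat 2 n ≤ padicValNat 2 (q + 1) ∧ q % 4 = 3))) ∨
     (r ≠ p ∧ 2 < r ∧ ((i ≠ 2 ∧ c ≤ m ∧ m % c ≤ n % c) ∨ (i = 2 ∧ (r ∣ m ∨ padicValNat r n ≤ padicValNat r (q + 1)))))) := by
  have hr : r.Prime := Fact.out
  have D := sd_uB hq n
  have hV : finrank F (Fin n → F) = n := by simp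
  have : Nontrivial (Fin n → F) := nontrivial_of_finrank_pos (R := F) (by omega)
  obtain ⟨ρ, hρ, -⟩ := exists_frob_pow hq
  have e : ∀ u v, hermForm n F q u v ≠ 0 ↔ uB hq n u v ≠ 0 := fun u v => ((uB_eq_zero hq).symm.trans D.comm0_iff).not
  simp only [e, iv_iff, ← nds_iff D] at hrΩ ⊢
  refine (forall_SU_iff (hF := hq) (P := fun a => HasND (uB hq n) a m)).trans ?_
  have h0 := hr.two_le
  have h3 : r ≠ p → ¬ r ∣ q := fun h h' => not_dvd_card_of_ne (F := F) hr h (hq ▸ h'.pow two_ne_zero)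
  have h4 : r ≠ p → r ≠ 2 → orderOf (-q : ZMod r) = c ∧ (i = 2 ↔ r ∣ q + 1) := fun h h' => by
    have h5 : 0 < orderOf (q : ZMod r) := Nat.pos_of_dvd_of_pos (ZMod.orderOf_dvd_card_sub_one
      (mt (ZMod.natCast_eq_zero_iff _ _).1 (h3 h))) (by omega)
    have h6 := orderOf_neg_eq h' h5
    rw [← ZMod.natCast_eq_zero_iff, Nat.cast_succ, ← neg_eq_iff_add_eq_zero, ← orderOf_eq_one_iff, h6, ← hi, ← hc]
    refine ⟨rfl, ?_⟩
    split_ifs at hc <;> omega
  by_cases h1 : r ∣ q + 1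
  · have hrp : r ≠ p := by rintro rfl; exact cast_ne_of_dvd hq h1 (CharP.cast_eq_zero F r)
    refine Iff.trans ⟨fun H a ha h2 h3 _ => H a ha h2 h3, fun H a ha h2 h3 => (po_cases_u D ha h3).elim
      (fun ⟨w, _, y, e, h4, h5, _⟩ => e ▸ (hasND_of_dvd hρ D h4 h1 h5 (by omega)).smul) (H a ha h2 h3)⟩
      ((forall_np_iff hρ D h1 (A := r ∣ m) fun z hz a ha h => hz.hasND_iff hρ D ha h (by omega)).trans ?_)
    rw [hV]
    by_cases h2 : r = 2
    · subst h2
      simp only [hrp, hrp.symm, false_and, false_or, true_and, ne_eq, not_false_iff, lt_self_iff_false, or_false,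
        forall_true_left, ← even_iff_two_dvd, show q % 4 = 3 ↔ 4 ∣ q + 1 by omega]
      rcases Nat.even_or_odd n with h | h
      · simp [h]
      · simp [h, padicValNat.eq_zero_of_not_dvd h.not_two_dvd_nat]
    · simp [hrp, h2, (h4 hrp h2).2.2 h1, show 2 < r by omega]
  rw [forall_po_u_two D hr h1 fun w _ a h => h.smul]
  by_cases hrp : r = p
  · subst hrp
    rw [forall_unip_u D (frobq_ne_id hq) (by omega), hV]
    rcases h0.eq_or_lt with rfl | h2
    · simpa using part_two hmn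
    · simp [h2, h2.ne']
  have h2 : r ≠ 2 := by rintro rfl; have := h3 hrp; omega
  obtain ⟨rfl, h5⟩ := h4 hrp h2
  obtain ⟨U, h6, h7, h8⟩ := nd_count D (m := m) (by omega) fun h => absurd h (frobq_ne_id hq)
  rw [(per_u hrp h2 hq hρ).nd_iff D (fun h => absurd h (frobq_ne_id hq)) (by omega) (h6 ▸ u_mod_lt hrp hq D h7 h8 hrΩ), hV]
  simp [hrp, h2, mt h5.1 h1, show 2 < r by omega]

end Cfsg.Agent.S5954
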