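import Cfsg.Statements.S5955
import Cfsg.Agent.H28.Elu10

set_option autoImplicit false
open scoped MatrixGroups
open Cfsg

namespace Cfsg.Agent.S5955

open H28 H12 H13 Module

/-- Elements of prime order of PSp_n(q) with no fixed totally isotropic `m`-space. Here `T = PSp_n(q)` with `n = 2d ≥ 4`, `(n, q) ≠ (4, 2)`, realised through the symplectic matrices over the field `F` with `q` elements (preserving the standard alternating form); an element of `T` of prime order `r` is such a matrix `x` with `x^r` scalar and `x` not scalar. For `r ≠ p` let `i` be the multiplicative order of `q` modulo `r`, `c = i` for `i` even and `c = 2i` for `i` odd, and write `k = n mod c`, `ℓ = m mod i`, `ℓ' = m mod c`, `n' = ⌊n/i⌋`, `m' = ⌊m/i⌋`, `t = (r−1)/i`. Let `1 ≤ m ≤ n/2` and let `r` be a prime dividing the number of totally isotropic `m`-spaces. Then every element of `T` of order `r` fixes a totally isotropic `m`-space if and only if either (i) `r = 2 ≠ p` and (`m` is even or `q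 ≡ 1 (mod 4)`); or (ii) `r ≠ p`, `r > 2`, `i ≤ m`, `k ≥ 2ℓ`, and (`i` is odd or `n' − 2m' ≥ t`). -/
theorem result {F : Type*} [Field F] [Fintype F] {p : ℕ} [Fact p.Prime] [CharP F p] {q : ℕ} (hq : Fintype.card F = q)
    (d m : ℕ) (hd : 2 ≤ d) (hT : (d, q) ≠ (2, 2)) (hm : 1 ≤ m) (hmd : m ≤ d)
    (r : ℕ) [Fact r.Prime]
    (hrΩ : r ∣ Nat.card {W : Submodule F (Fin d ⊕ Fin d → F) // Module.finrank F ↥W = m ∧ (∀ u ∈ W, ∀ v ∈ W, Cfsg.sympForm d F u v = 0)})
    (i c : ℕ) (hi : i = orderOf (q : ZMod r)) (hc : c = if Even i then i else 2 * i) :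
    (∀ x : ↥(Matrix.symplecticGroup (Fin d) F),
      (∃ z : F, ((x ^ r : ↥(Matrix.symplecticGroup (Fin d) F)) : Matrix (Fin d ⊕ Fin d) (Fin d ⊕ Fin d) F) = z • (1 : Matrix (Fin d ⊕ Fin d) (Fin d ⊕ Fin d) F)) →
      (∀ z : F, (x : Matrix (Fin d ⊕ Fin d) (Fin d ⊕ Fin d) F) ≠ z • (1 : Matrix (Fin d ⊕ Fin d) (Fin d ⊕ Fin d) F)) →
      ∃ W : Submodule F (Fin d ⊕ Fin d → F), Module.finrank F ↥W = m ∧ (∀ u ∈ W, ∀ v ∈ W, Cfsg.sympForm d F u v = 0) ∧
        W.map (Matrix.toLin' (x : Matrix (Fin d ⊕ Fin d) (Fin d ⊕ Fin d) F)) ≤ W) ↔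
    ((r = 2 ∧ p ≠ 2 ∧ (Even m ∨ q % 4 = 1)) ∨
     (r ≠ p ∧ 2 < r ∧ i ≤ m ∧ 2 * (m % i) ≤ (2 * d) % c ∧ (Odd i ∨ (r - 1) / i + 2 * (m / i) ≤ (2 * d) / i))) := by
  subst hq
  have hr : r.Prime := Fact.out
  have D : SD (spB (Fin d) F) := sd_spB
  have hV : finrank F (Fin d ⊕ Fin d → F) = 2 * d := by simp [two_mul]
  have : Nontrivial (Fin d ⊕ Fin d → F) := nontrivial_of_finrank_pos (R := F) (by omega)
  simp only [← spB_eq, iv_iff] at hrΩ ⊢
  refine (forall_Sp_iff (P := fun a => HasTI (spB (Fin d) F) a m)).trans ?_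
  have hrp : r ≠ p := by rintro rfl; exact not_dvd_ti_count D (by omega) hrΩ
  by_cases h2 : r = 2
  · subst h2
    have h3 : (2 : F) ≠ 0 := by simpa using cast_ne_zero_of_ne (F := F) hr hrp
    obtain ⟨j, hj⟩ := IsAlgClosed.exists_pow_nat_eq (-1 : AlgebraicClosure F) two_pos
    obtain ⟨h4, h5, h6⟩ := neg_ne_of_sq h3 hj
    have h0 := Nat.odd_iff.2 (FiniteField.odd_card_of_char_ne_two (F := F) fun h => h3 (by
      simpa [h] using ringChar.Nat.cast_ringChar (R := F)))
    simp only [hrp.symm, ne_eq, not_false_eq_true, true_and, lt_self_iff_false, false_and, and_false, or_false]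
    constructor
    · intro H
      obtain ⟨a, h7, h8, h9⟩ := (rs_pm h3 hj d).exists D (by simp [two_mul])
      have h10 : ∀ x ∈ rts a, x = j ∨ x = -j := fun x hx => by
        rw [h9, Multiset.mem_add] at hx; exact hx.imp Multiset.eq_of_mem_replicate Multiset.eq_of_mem_replicate
      obtain ⟨h11, -⟩ | ⟨h11, h12⟩ := pow_card_of_sq h3 hj
      · exact .inr h11
      obtain ⟨U, rfl, h13, h14⟩ := H a h7 ⟨⟨-1, h8.pow_eq fun x hx => by
        rcases h10 x hx with rfl | rfl <;> simp [hj]⟩, fun z e => by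
          have h15 : ∀ x ∈ rts a, x = algebraMap F _ z := fun x hx => by
            simpa using pow_eq_of_mem_rts hx (m := 1) (c := z) (by simp [e])
          have : d ≠ 0 := by omega
          exact h4 ((h15 j (by simp [h9, Multiset.mem_replicate, this])).trans (h15 (-j) (by simp [h9, Multiset.mem_replicate, this])).symm)⟩
      classical
      refine .inl (even_iff_two_dvd.2 (card_rto h14 ▸ (st_rto h14).dvd_card pow_card_inj fun x hx => ?_))
      have := h10 x (Multiset.mem_of_le (le_self_add.trans (rto_add_le D h7 h8 (RingHom.id _) (fun _ => rfl) h14 h13)) hx)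
      refine Function.minimalPeriod_eq_prime ?_ ?_
      · change (x ^ _) ^ _ = x
        rcases this with rfl | rfl <;> simp [h12, h0.neg_pow]
      · rcases this with rfl | rfl <;> simp [Function.IsFixedPt, h12, h0.neg_pow, h4, h4.symm]
    rintro H a ha ⟨⟨z, h7⟩, -⟩
    suffices ∃ M N, SS a ∧ M.card = m ∧ St (· ^ Fintype.card F) M ∧ RS (RingHom.id F) N ∧
        rts a = M + M.map (fun x => (RingHom.id _ x)⁻¹) + N by
      obtain ⟨M, N, h8, rfl, h9, h10, h11⟩ := this
      obtain ⟨U, -, g1, -, g2, -, -, g3, -⟩ := exists_tis D ha h8 _ (fun _ => rfl) h9 h10 h11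
      exact ⟨U, g3, g2, g1⟩
    obtain rfl | rfl := mul_self_eq_one_iff.1 (sp_sq_eq_one D ha h7)
    · rw [one_smul] at h7
      obtain ⟨s, t, h8⟩ := sp_inv_one D ha h3 h7
      have h9 := card_rts a
      simp only [h8, hV, Multiset.card_add, Multiset.card_replicate] at h9
      obtain ⟨k, l, s, t, rfl, rfl, rfl⟩ : ∃ k l s' t', m = k + l ∧ s = k + s' ∧ t = l + t' :=
        ⟨min m s, m - s, s - m, t - (m - s), by omega⟩
      refine ⟨.replicate k 1 + .replicate l (-1), .replicate (2 * s) 1 + .replicate (2 * t) (-1), ⟨2, h3, h7⟩, by simp,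
        by simp [St, h0.neg_pow], ?_, by simp [h8, two_mul, Multiset.replicate_add]; abel⟩
      simpa using (rs_replicate (F := F) (fun _ => rfl) (c := 1) (by simp) fun _ => even_two_mul s).add
        (rs_replicate (fun _ => rfl) (c := -1) (by simp) fun _ => even_two_mul t)
    replace h7 : a ^ 2 = -1 := by rw [h7]; exact LinearMap.ext fun v => neg_one_smul F v
    obtain ⟨l, rfl⟩ := Nat.exists_eq_add_of_le hmd
    have h8 := sp_inv_neg D ha h3 h7 hj hV
    obtain ⟨k, rfl⟩ | H := H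
    · exact ⟨_, _, ss_of_sq_neg h3 h7, by simp, st_pm h3 hj k, rs_pm h3 hj l, by
        simp [h8, Multiset.replicate_add, inv_neg, h5]; abel⟩
    · exact ⟨.replicate m j, _, ss_of_sq_neg h3 h7, by simp, st_replicate
        ((pow_card_of_sq h3 hj).resolve_right (by omega)).2 m, rs_pm h3 hj l, by
        simp [h8, Multiset.replicate_add, h5]; abel⟩
  have h3 := hr.two_le
  rw [forall_po_sp D (hr.odd_of_ne_two h2) fun w _ a h => h.smul]
  obtain ⟨U, h4, h5, h6⟩ := ti_count D (m := m) (by omega)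
  simp only [h2, false_and, false_or, ne_eq, hrp, not_false_eq_true, true_and, show 2 < r by omega]
  subst hi hc
  rw [← hV]
  split_ifs with h7
  · have P := per_sp_even hrp h2 h7
    rw [P.ti_self D rfl (fun M _ h => by simpa using h) (by omega) (h4 ▸ sp_mod_lt hrp D (.inl rfl) P.ord h5 h6 hrΩ)]
    simp [h7]
  · have h8 := Nat.not_even_iff_odd.1 h7
    have P := per_sp_odd hrp h2 h8
    rw [P.ti_split D rfl rfl (fun M hM h => ?_) (fun M h => ?_) (by omega)
      (h4 ▸ sp_mod_lt hrp D (.inr rfl) P.ord h5 h6 hrΩ)]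
    · simp [h8]
    · obtain ⟨j, hj⟩ := exists_eq_sq_pow h8
      simpa using St.zpow hM (z := Fintype.card F ^ 2) (w := Fintype.card F) (j := j)
        (by simpa [Function.comp_def, ← pow_mul, sq, zpow_mul] using h) (by simpa using hj)
    · conv_lhs => rw [← h]
      simp

end Cfsg.Agent.S5955
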