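import Cfsg.Statements.S5956
import Cfsg.Agent.H28.Elu11

set_option autoImplicit false
open scoped MatrixGroups
open Cfsg

namespace Cfsg.Agent.S5956

open H28 H12 H13 Module

/-- Elements of prime order of PSp_n(q) with no fixed nondegenerate `m`-space. Here `T = PSp_n(q)` with `n = 2d ≥ 4`, `(n, q) ≠ (4, 2)`, realised through the symplectic matrices over the field `F` with `q` elements (preserving the standard alternating form); an element of `T` of prime order `r` is such a matrix `x` with `x^r` scalar and `x` not scalar. For `r ≠ p` let `i` be the multiplicative order of `q` modulo `r`, `c = i` for `i` even and `c = 2i` for `i` odd, and write `k = n mod c`, `ℓ = m mod i`, `ℓ' = m mod c`, `n' = ⌊n/i⌋`, `m' = ⌊m/i⌋`, `t = (r−1)/i`. Let `m` be even with `2 ≤ m < n/2` and let `r` be a prime dividing the number of nondegenerate `m`-spaces. Then every element of `T` of order `r` fixes a nondegenerate `m`-space if and only if one of: (i)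 `r = p > 2` and every partition of `n` into parts of size at most `p` in which every odd part has even multiplicity contains (as a sub-multiset) a partition of `m` in which every odd part has even multiplicity; (ii) `r = p = 2` and (`n ≡ 2 (mod 4)` or `m ≡ 0 (mod 4)`); (iii) `r = 2 ≠ p`; (iv) `r ≠ p`, `r > 2`, `c ≤ m` and `k ≥ ℓ'`. -/
theorem result {F : Type*} [Field F] [Fintype F] {p : ℕ} [Fact p.Prime] [CharP F p] {q : ℕ} (hq : Fintype.card F = q)
    (d m : ℕ) (hd : 2 ≤ d) (hT : (d, q) ≠ (2, 2)) (hm : 2 ≤ m) (hme : Even m) (hmd : m < d)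
    (r : ℕ) [Fact r.Prime]
    (hrΩ : r ∣ Nat.card {W : Submodule F (Fin d ⊕ Fin d → F) // Module.finrank F ↥W = m ∧ (∀ u ∈ W, u ≠ 0 → ∃ v ∈ W, Cfsg.sympForm d F u v ≠ 0)})
    (i c : ℕ) (hi : i = orderOf (q : ZMod r)) (hc : c = if Even i then i else 2 * i) :
    (∀ x : ↥(Matrix.symplecticGroup (Fin d) F),
      (∃ z : F, ((x ^ r : ↥(Matrix.symplecticGroup (Fin d) F)) : Matrix (Fin d ⊕ Fin d) (Fin d ⊕ Fin d) F) = z • (1 : Matrix (Fin d ⊕ Fin d) (Fin d ⊕ Fin d) F)) →
      (∀ z : F, (x : Matrix (Fin d ⊕ Fin d) (Fin d ⊕ Fin d) F) ≠ z • (1 : Matrix (Fin d ⊕ Fin d) (Fin d ⊕ Fin d) F)) →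
      ∃ W : Submodule F (Fin d ⊕ Fin d → F), Module.finrank F ↥W = m ∧ (∀ u ∈ W, u ≠ 0 → ∃ v ∈ W, Cfsg.sympForm d F u v ≠ 0) ∧
        W.map (Matrix.toLin' (x : Matrix (Fin d ⊕ Fin d) (Fin d ⊕ Fin d) F)) ≤ W) ↔
    ((r = p ∧ 2 < p ∧ (∀ μ : Multiset ℕ, (∀ a ∈ μ, 0 < a ∧ a ≤ p) → (∀ a : ℕ, Odd a → Even (μ.count a)) → μ.sum = 2 * d →
        ∃ ν : Multiset ℕ, ν ≤ μ ∧ ν.sum = m ∧ ∀ a : ℕ, Odd a → Even (ν.count a))) ∨
     (r = p ∧ p = 2 ∧ ((2 * d) % 4 = 2 ∨ m % 4 = 0)) ∨
     (r = 2 ∧ p ≠ 2) ∨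
     (r ≠ p ∧ 2 < r ∧ c ≤ m ∧ m % c ≤ (2 * d) % c)) := by
  subst hq
  have hr : r.Prime := Fact.out
  have D : SD (spB (Fin d) F) := sd_spB
  have hV : finrank F (Fin d ⊕ Fin d → F) = 2 * d := by simp [two_mul]
  have : Nontrivial (Fin d ⊕ Fin d → F) := nontrivial_of_finrank_pos (R := F) (by omega)
  simp only [← spB_eq, iv_iff, ← nds_iff D] at hrΩ ⊢
  refine (forall_Sp_iff (P := fun a => HasND (spB (Fin d) F) a m)).trans ?_
  have h1 : ∀ z : F, HasND (spB (Fin d) F) (z • 1) m := fun z =>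
    let ⟨U, h1, h2⟩ := exists_nds_dim D (m := m) (by omega) fun _ => hme; HasND.smul ⟨U, h1, h2, fun _ h => h⟩
  by_cases h2 : r = 2
  · subst h2
    obtain ⟨k, rfl⟩ := hme.two_dvd
    by_cases hp : 2 = p
    · subst hp
      have h3 : (2 : F) = 0 := by simpa using CharP.cast_eq_zero F 2
      simp only [lt_self_iff_false, false_and, and_false, true_and, ne_eq, not_true, false_or, or_false]
      refine ⟨fun H => by_contra fun h => ?_, fun H a ha ⟨⟨z, h4⟩, _⟩ => (hasND_inv D ha h4 (by omega)).resolve_right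
        fun ⟨h5, ⟨_, _⟩, _⟩ => by have := (h5.exists_le D ha).1; omega⟩
      obtain ⟨a, h4, h5, h6⟩ := exists_sw D (k := d / 2) (by omega)
      have h7 := h6.not_hasND D h4 h5 h3 (m := k) (Nat.odd_iff.2 (by omega))
      exact h7 (H a h4 ⟨⟨1, by simp [h5]⟩, fun z e => h7 (e ▸ h1 z)⟩)
    · refine iff_of_true (fun a ha ⟨⟨z, h4⟩, _⟩ => (hasND_inv D ha h4 (by omega)).resolve_right fun h =>
        cast_ne_zero_of_ne (F := F) hr hp (by simpa using h.2.2)) (.inr (.inr (.inl ⟨rfl, Ne.symm hp⟩)))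
  have h3 := hr.two_le
  rw [forall_po_sp D (hr.odd_of_ne_two h2) fun w _ a h => h.smul]
  by_cases hp : r = p
  · subst hp
    have h4 : (2 : F) ≠ 0 := by simpa using cast_ne_zero_of_ne (F := F) Nat.prime_two (Ne.symm h2)
    simp only [h2, false_and, or_false, ne_eq, not_true, true_and, show 2 < r by omega]
    constructor
    · intro H μ h5 h6 h7
      obtain ⟨a, h8, h9⟩ := exists_sp_jt D (fun k hk => (h5 k hk).1) h6 (h7.trans hV.symm)
      obtain ⟨h10, rfl⟩ := jt_of_ed (fun k hk => (h5 k hk).1) h9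
      refine (sp_hasND_iff D h4 h8 h10 m).1 ?_
      by_cases h11 : a = 1
      · simpa [h11] using h1 1
      · exact H a h8 ((pow_char_eq_one_iff a).2 ((pow_eq_zero_iff_jt h10 r).2 fun k hk => (h5 k hk).2)) h11
    · intro H a ha h5 _
      rw [pow_char_eq_one_iff] at h5
      have h6 : IsNilpotent (a - 1) := ⟨r, h5⟩
      exact (sp_hasND_iff D h4 ha h6 m).2 (H _ (fun k hk => ⟨jt_pos hk, (pow_eq_zero_iff_jt h6 r).1 h5 k hk⟩)
        (fun k => sp_even_count D ha h6) ((sum_jt h6).trans hV))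
  obtain ⟨U, h4, h5, h6⟩ := nd_count D (m := m) (by omega) fun _ => hme
  simp only [h2, false_and, false_or, ne_eq, hp, not_false_eq_true, true_and, show 2 < r by omega]
  subst hi hc
  rw [← hV]
  split_ifs with h7
  · have P := per_sp_even hp h2 h7
    exact P.nd_iff D (fun _ => hme) (by omega) (h4 ▸ sp_mod_lt hp D (.inl rfl) P.ord h5 h6 hrΩ)
  · have P := per_sp_odd hp h2 (Nat.not_even_iff_odd.1 h7)
    exact P.nd_iff D (fun _ => hme) (by omega) (h4 ▸ sp_mod_lt hp D (.inr rfl) P.ord h5 h6 hrΩ)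

end Cfsg.Agent.S5956
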