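import Cfsg.Statements.S5961
import Cfsg.Agent.H28.Elu10

set_option autoImplicit false
open scoped MatrixGroups
open Cfsg

namespace Cfsg.Agent.S5961

open H28 H12 H13 Module

/-- Elements of odd prime order of PSp_n(q) and imprimitive subgroups. Here `T = PSp_n(q)`, `n = 2d ≥ 4`, `(n, q) ≠ (4, 2)`, realised through the symplectic matrices over the field `F` with `q` elements and the standard alternating form; `n = a·t` with `a` even and `t ≥ 2`, and Ω is the (nonempty) set of orthogonal decompositions of `F^n` into `t` nondegenerate subspaces of dimension `a` (unordered; counted as ordered ones divided by `t!`), whose stabilizers are the imprimitive subgroups of type Sp_a(q) ≀ S_t (maximality is not assumed); an element of `T` of prime order `r` (a symplectic matrix `x` with `x^r` scalar, `x` not scalar) fixes a point of Ω when it permutes the summands of some such decomposition. Let `r ≠ p` be an odd prime dividing the number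 of such decompositions, let `i` be the multiplicative order of `q` modulo `r`, `c = i` if `i` is even and `c = 2i` if `i` is odd, and write `k = n mod c`, `ℓ = a mod c`. Then every element of `T` of order `r` stabilizes such a decomposition if and only if `c ≤ a` and `k = t·ℓ`. -/
theorem result {F : Type*} [Field F] [Fintype F] {p : ℕ} [Fact p.Prime] [CharP F p] {q : ℕ} (hq : Fintype.card F = q)
    (d : ℕ) (hd : 2 ≤ d) (hT : (d, q) ≠ (2, 2))
    (a t : ℕ) (hat : 2 * d = a * t) (ha : 2 ≤ a) (hae : Even a) (ht : 2 ≤ t)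
    (r : ℕ) [Fact r.Prime] (hr2 : r ≠ 2) (hrp : r ≠ p) (hΩ : r ∣ Nat.card {D : Fin t → Submodule F (Fin d ⊕ Fin d → F) // (Cfsg.Geo.IsMDecomposition a D ∧ (∀ j, ∀ u ∈ D j, u ≠ 0 → ∃ v ∈ D j, Cfsg.sympForm d F u v ≠ 0) ∧
          (∀ j j', j ≠ j' → ∀ u ∈ D j, ∀ v ∈ D j', Cfsg.sympForm d F u v = 0))} / Nat.factorial t)
    (i c : ℕ) (hi : i = orderOf (q : ZMod r)) (hc : c = if Even i then i else 2 * i) :
    (∀ x : ↥(Matrix.symplecticGroup (Fin d) F),
      (∃ z : F, ((x ^ r : ↥(Matrix.symplecticGroup (Fin d) F)) : Matrix (Fin d ⊕ Fin d) (Fin d ⊕ Fin d) F) = z • (1 : Matrix (Fin d ⊕ Fin d) (Fin d ⊕ Fin d) F)) →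
      (∀ z : F, (x : Matrix (Fin d ⊕ Fin d) (Fin d ⊕ Fin d) F) ≠ z • (1 : Matrix (Fin d ⊕ Fin d) (Fin d ⊕ Fin d) F)) →
      ∃ D : Fin t → Submodule F (Fin d ⊕ Fin d → F), (Cfsg.Geo.IsMDecomposition a D ∧ (∀ j, ∀ u ∈ D j, u ≠ 0 → ∃ v ∈ D j, Cfsg.sympForm d F u v ≠ 0) ∧
          (∀ j j', j ≠ j' → ∀ u ∈ D j, ∀ v ∈ D j', Cfsg.sympForm d F u v = 0)) ∧
        ∃ σ : Equiv.Perm (Fin t), ∀ j, (D j).map (Matrix.toLin' (x : Matrix (Fin d ⊕ Fin d) (Fin d ⊕ Fin d) F)) = D (σ j)) ↔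
    (c ≤ a ∧ (2 * d) % c = t * (a % c)) := by
  classical
  subst hq
  have hr : r.Prime := Fact.out
  have D : SD (spB (Fin d) F) := sd_spB
  have hV : finrank F (Fin d ⊕ Fin d → F) = a * t := by simp [← hat, two_mul]
  have : Nontrivial (Fin d ⊕ Fin d → F) := nontrivial_of_finrank_pos (R := F) (by omega)
  simp only [← spB_eq, ← nds_iff D] at hΩ ⊢
  have e0 : ∀ E : Fin t → Submodule F (Fin d ⊕ Fin d → F), (Geo.IsMDecomposition a E ∧ (∀ j, NDs (spB (Fin d) F) (E j)) ∧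
      ∀ j j', j ≠ j' → ∀ u ∈ E j, ∀ v ∈ E j', spB (Fin d) F u v = 0) ↔ (∀ i, finrank F (E i) = a) ∧
      (∀ i, NDs (spB (Fin d) F) (E i)) ∧ (∀ i j, i ≠ j → Ort (spB (Fin d) F) (E i) (E j)) ∧ iSup E = ⊤ := fun E =>
    ⟨fun ⟨h1, h2, h3⟩ => ⟨h1.finrank_eq, h2, h3, h1.iSup_eq_top⟩, fun ⟨h1, h2, h3, h4⟩ =>
      ⟨⟨ht, by omega, h1, iSupIndep_of_ort h2 h3, h4⟩, h2, h3⟩⟩
  have h1 := dvd_card_of_dvd_div (fun E h => injective_of_iSupIndep h.1.indep h.1.finrank_eq h.1.pos) (fun E σ h =>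
    ⟨⟨ht, h.1.pos, fun _ => h.1.finrank_eq _, h.1.indep.comp σ.injective, (σ.iSup_comp (g := E)).trans h.1.iSup_eq_top⟩,
      fun _ => h.2.1 _, fun _ _ e => h.2.2 _ _ (σ.injective.ne e)⟩) hΩ
  simp only [e0, and_assoc]
  refine (forall_Sp_iff (P := fun u => OPD (spB (Fin d) F) u a (Fin t))).trans ?_
  rw [forall_po_sp D (hr.odd_of_ne_two hr2) fun w hw a h => h.smul hw]
  obtain ⟨z, P, hz⟩ : ∃ z, Per (RingHom.id F) (RingHom.id _) r z c ∧ (z = Fintype.card F ∨ z = -Fintype.card F) := by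
    subst hi hc
    split_ifs with h
    exacts [⟨_, per_sp_even hrp hr2 h, .inl rfl⟩, ⟨_, per_sp_odd hrp hr2 (Nat.not_even_iff_odd.1 h), .inr rfl⟩]
  have h0 := P.pos
  have h2 : a * t % c < a * t := by
    obtain ⟨k, rfl⟩ := hae.two_dvd
    obtain ⟨E, g1, g2, g3, g4, -⟩ := opd_inv D (a := 1) (fun _ _ => rfl) (z := 1) (by simp) hV
    simpa only [finrank_top, hV] using sp_mod_lt hrp D hz P.ord (nds_top D) (od_count D e0 ((e0 E).2 ⟨g1, g2, g3, g4⟩)) h1
  have h3 := Nat.div_add_mod' (a * t) c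
  have h4 := Nat.mod_lt (a * t) h0
  have h5 := congrArg (t * ·) (Nat.div_add_mod' a c)
  simp only [mul_add, ← mul_assoc, mul_comm t a] at h5
  rw [hat]
  constructor
  · intro H
    obtain ⟨A, g1, g2, g3, g4, -⟩ := P.exists_nodup P.one_le
    have h6 : c ≤ a := by
      by_contra h
      have h7 : c ≤ a * t := by_contra fun h => by rw [Nat.mod_eq_of_lt (not_le.1 h)] at h2; omega
      obtain ⟨y, h8, h9, h10, h11⟩ := P.exists_end D g1 g4 (e := a * t - c) (by omega)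
      obtain ⟨x, hx⟩ := Multiset.card_pos_iff_exists_mem.1 (show 0 < A.card by omega)
      have := P.of_opd D h8 h9 (by omega) g1 h10 (H y h8 h9 (h11 (by omega))) (.inr ⟨x, g1 x hx,
        (Multiset.nodup_iff_count_le_one.1 g2 x).trans_lt ha⟩)
      rw [Nat.mod_eq_of_lt (not_le.1 h), mul_comm] at this
      omega
    have h8 : PRt r ((a * t / c) • A) := fun x hx => g1 x (Multiset.mem_of_mem_nsmul hx)
    obtain ⟨y, h9, h10, h11, h12⟩ := P.exists_end D h8 (g4.nsmul _) (e := a * t % c) (by simpa [g3, hV])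
    have := P.of_opd D h9 h10 (by omega) h8 h11 (H y h9 h10 (h12 (by simp only [Multiset.card_nsmul, g3, one_mul]; omega)))
      (.inl (by omega))
    exact ⟨h6, by rw [← h5, Nat.mul_add_mod', Nat.mod_eq_of_lt (by omega)]⟩
  · rintro ⟨-, H⟩ y h6 h7 -
    obtain ⟨N, e, h8, h9, h10, h11, -⟩ := P.split D h6 h7
    obtain ⟨s, hs⟩ := P.dvd h9 h10
    have : a * t % c ≤ e := by rw [← hV, ← h11, hs, Nat.mul_add_mod]; exact Nat.mod_le _ _
    exact P.opd D h6 h7 (fun _ => hae) h9 h10 h8 hV (by omega)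

end Cfsg.Agent.S5961
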