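import Cfsg.Statements.S5963
import Cfsg.Agent.H28.Elu10

set_option autoImplicit false
open scoped MatrixGroups
open Cfsg

namespace Cfsg.Agent.S5963

open H28 H12 H13 Module

/-- Derangements of odd prime order of PSp_n(q), q odd, on pairs of complementary totally isotropic subspaces. Here `T = PSp_n(q)`, `n = 2d ≥ 4`, `q` odd, realised through the symplectic matrices over the field `F` with `q` elements; Ω is the set of unordered pairs `{U, W}` of complementary totally isotropic `d`-spaces (`F^n = U ⊕ W`), whose stabilizers are the subgroups of type GL_d(q).2 (maximal except in some small cases; maximality is not assumed); an element of `T` of prime order `r` (a symplectic matrix `x` with `x^r` scalar, `x` not scalar) fixes such a pair when it fixes or interchanges `U` and `W`. For every odd prime `r ≠ p` dividing the number of such pairs, some element of `T` of order `r` fixes no such pair (the action is never `r`-elusive for odd `r ≠ p`).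 -/
theorem result {F : Type*} [Field F] [Fintype F] {p : ℕ} [Fact p.Prime] [CharP F p] {q : ℕ} (hq : Fintype.card F = q)
    (d : ℕ) (hd : 2 ≤ d) (hT : (d, q) ≠ (2, 2)) (hodd : Odd q)
    (r : ℕ) [Fact r.Prime] (hr2 : r ≠ 2) (hrp : r ≠ p) (hΩ : r ∣ Nat.card {P : Submodule F (Fin d ⊕ Fin d → F) × Submodule F (Fin d ⊕ Fin d → F) // IsCompl P.1 P.2 ∧ (∀ u ∈ P.1, ∀ v ∈ P.1, Cfsg.sympForm d F u v = 0) ∧ (∀ u ∈ P.2, ∀ v ∈ P.2, Cfsg.sympForm d F u v = 0)} / 2) :
    ∃ x : ↥(Matrix.symplecticGroup (Fin d) F),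
      (∃ z : F, ((x ^ r : ↥(Matrix.symplecticGroup (Fin d) F)) : Matrix (Fin d ⊕ Fin d) (Fin d ⊕ Fin d) F) = z • (1 : Matrix (Fin d ⊕ Fin d) (Fin d ⊕ Fin d) F)) ∧
      (∀ z : F, (x : Matrix (Fin d ⊕ Fin d) (Fin d ⊕ Fin d) F) ≠ z • (1 : Matrix (Fin d ⊕ Fin d) (Fin d ⊕ Fin d) F)) ∧
      ¬ (∃ U W : Submodule F (Fin d ⊕ Fin d → F), IsCompl U W ∧ (∀ u ∈ U, ∀ v ∈ U, Cfsg.sympForm d F u v = 0) ∧ (∀ u ∈ W, ∀ v ∈ W, Cfsg.sympForm d F u v = 0) ∧
        ((U.map (Matrix.toLin' (x : Matrix (Fin d ⊕ Fin d) (Fin d ⊕ Fin d) F)) = U ∧ W.map (Matrix.toLin' (x : Matrix (Fin d ⊕ Fin d) (Fin d ⊕ Fin d) F)) = W) ∨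
         (U.map (Matrix.toLin' (x : Matrix (Fin d ⊕ Fin d) (Fin d ⊕ Fin d) F)) = W ∧ W.map (Matrix.toLin' (x : Matrix (Fin d ⊕ Fin d) (Fin d ⊕ Fin d) F)) = U))) := by
  subst hq
  have hr : r.Prime := Fact.out
  have D : SD (spB (Fin d) F) := sd_spB
  have hV : finrank F (Fin d ⊕ Fin d → F) = 2 * d := by simp [two_mul]
  have : Nontrivial (Fin d ⊕ Fin d → F) := nontrivial_of_finrank_pos (R := F) (by omega)
  simp only [← spB_eq] at hΩ ⊢
  by_contra H
  simp only [not_exists, not_and, not_not] at H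
  replace H := (forall_po_sp D (hr.odd_of_ne_two hr2) fun w hw a h => h.smul hw).1
    ((forall_Sp_iff (P := HasPP (spB (Fin d) F))).1 fun x h1 h2 => by_contra fun h => H x h1 h2 fun U W h3 h4 h5 h6 =>
      h ⟨U, W, h3, h4, h5, h6⟩)
  obtain ⟨U, W, h1⟩ := exists_plp D hV (RingHom.id _) fun _ => rfl
  have h2 := plp_count D h1
  rw [show finrank F U = d by have := h1.finrank D; omega, card_UG_sp d D hV, spOrd, Nat.card_eq_fintype_card (α := F),
    Finset.prod_congr rfl fun j _ => show Fintype.card F ^ (2 * (j + 1)) - 1 = (Fintype.card F ^ (j + 1) - 1) *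
      (Fintype.card F ^ (j + 1) + 1) by rw [mul_comm (_ - 1), ← Nat.sq_sub_sq, ← pow_mul, mul_comm, one_pow]] at h2
  obtain ⟨j, h3, h4⟩ := exists_dvd_of_mul hr (fun j => Nat.sub_pos_of_lt (Nat.one_lt_pow (by omega) Fintype.one_lt_card))
    (not_dvd_card_of_ne hr hrp) h2 (dvd_plp_count hΩ)
  have h5 : (Fintype.card F : ZMod r) ^ (j + 1) = -1 := by
    simpa [add_eq_zero_iff_eq_neg] using (ZMod.natCast_eq_zero_iff _ _).2 h4
  have h6 : Even (orderOf (Fintype.card F : ZMod r)) := by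
    by_contra h
    have h6 := congrArg (· ^ orderOf (Fintype.card F : ZMod r)) h5
    simp only [pow_right_comm _ (j + 1), pow_orderOf_eq_one, one_pow, (Nat.not_even_iff_odd.1 h).neg_one_pow] at h6
    exact hr2 ((Nat.prime_dvd_prime_iff_eq hr Nat.prime_two).1 ((ZMod.natCast_eq_zero_iff _ _).1 (by
      push_cast; linear_combination h6)))
  have h7 : orderOf (Fintype.card F : ZMod r) ≤ 2 * (j + 1) :=
    orderOf_le_of_pow_eq_one (by omega) (by rw [mul_comm, pow_mul, h5, neg_one_sq])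
  have P := per_sp_even hrp hr2 h6
  have h0 := P.pos
  obtain ⟨A, g1, g2, g3, g4, -⟩ := P.exists_nodup P.one_le
  obtain ⟨y, h8, h9, h10, h11⟩ := P.exists_end D g1 g4 (e := 2 * d - A.card) (by omega)
  obtain ⟨U, W, h12, h13, h14, h15⟩ := H y h8 h9 (h11 (by omega))
  obtain ⟨h16, -⟩ := PlP.iv_of_odd ⟨h12, h13, h14⟩ (hr.odd_of_ne_two hr2) one_ne_zero (by rw [h9, one_smul]) h15
  obtain ⟨M, l, h17, h18, h19, h20, h21⟩ := P.of_tis D h8 h9 g1 h10 h16 h13
  rw [((P.iff M h17).1 (by simpa using h18)).2] at h19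
  obtain rfl : M = 0 := Multiset.eq_zero_of_forall_notMem fun x hx =>
    Multiset.disjoint_left.1 (Multiset.nodup_add.1 (Multiset.nodup_of_le h19 g2)).2.2 hx hx
  have := PlP.finrank D ⟨h12, h13, h14⟩
  simp only [Multiset.card_zero] at h21
  omega

end Cfsg.Agent.S5963
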