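import Cfsg.Statements.S5964
import Cfsg.Agent.H28.Elu16

set_option autoImplicit false
open scoped MatrixGroups
open Cfsg

namespace Cfsg.Agent.S5964

open H28 H12 H13 Module

/-- Involutions of PSL_n(q) and subfield subgroups. Here `T = PSL_n(F)` for a field `F` with `q = p^f` elements (`n ≥ 2`, `(n, q) ≠ (2, 2), (2, 3)`), `F₀` is the subfield with `q₀` elements where `q = q₀^k` for a prime `k`, and `H` is the subgroup of matrices of determinant 1 lying in the subfield group of `F₀` (invertible matrices over `F₀` times scalars) — a maximal subgroup of type GL_n(q₀) (the case `n = 2`, `q₀ = 2` is excluded); Ω is the set of `T`-conjugates of `H` (cosets of `H`), so an element of `T` of prime order `r` (a matrix `x` of determinant 1 with `x^r` scalar, `x` not scalar) fixes a point of Ω when some conjugate of `x` by a matrix of determinant 1 lies in `H`. Suppose the index of `H` is even. Then every involution of `T` is conjugate in `T` into `H` if and only if either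 `q` is even, or `k = 2` and `(n)_2 ≤ (q − 1)_2`. (For `q` odd and `k` odd the index of `H` is odd, so that case does not arise.) -/
theorem result {F : Type*} [Field F] [Fintype F] {p : ℕ} [Fact p.Prime] [CharP F p] {q : ℕ} (hq : Fintype.card F = q)
    (n : ℕ) (hn : 2 ≤ n) (hT : (n, q) ≠ (2, 2) ∧ (n, q) ≠ (2, 3))
    (F₀ : Subfield F) (k q₀ : ℕ) (hk : k.Prime) (hF₀ : Nat.card ↥F₀ = q₀) (hqk : q = q₀ ^ k) (hC5 : ¬ (n = 2 ∧ q₀ = 2)) (hΩ : 2 ∣ ((Cfsg.Geo.subfieldSubgroup F₀ 1).comap (Matrix.SpecialLinearGroup.toGL : Matrix.SpecialLinearGroup (Fin n) F →* GL (Fin n) F)).index) :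
    (∀ x : Matrix.SpecialLinearGroup (Fin n) F,
      (∃ z : F, ((x ^ 2 : Matrix.SpecialLinearGroup (Fin n) F) : Matrix (Fin n) (Fin n) F) = z • (1 : Matrix (Fin n) (Fin n) F)) →
      (∀ z : F, (x : Matrix (Fin n) (Fin n) F) ≠ z • (1 : Matrix (Fin n) (Fin n) F)) →
      ∃ P : Matrix.SpecialLinearGroup (Fin n) F, P⁻¹ * x * P ∈ ((Cfsg.Geo.subfieldSubgroup F₀ 1).comap (Matrix.SpecialLinearGroup.toGL : Matrix.SpecialLinearGroup (Fin n) F →* GL (Fin n) F))) ↔
    (Odd q → (k = 2 ∧ padicValNat 2 n ≤ padicValNat 2 (q - 1))) := by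
  subst hq hF₀
  have hV : finrank F (Fin n → F) = n := by simp
  have : Nonempty (Fin n) := ⟨⟨0, by omega⟩⟩
  rw [index_comap_toGL] at hΩ
  rw [el_comap, el_iff (p := p) Nat.prime_two (.inl rfl)]
  by_cases hp : p = 2
  · subst hp
    refine iff_of_true (fun a h1 h2 => ?_) fun h => absurd (CharP.cast_eq_zero F 2) (H13.two_ne_zero_of_odd_card h)
    obtain ⟨w, hw, y, rfl, h4, -⟩ | ⟨z, h4, -⟩ := po_cases two_ne_zero (inj_of_det (h1 ▸ one_ne_zero)) h2
    · exact smul_sub w hw _ (ci_sub_unip h4)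
    · exact absurd (exists_pow_eq_of_not_dvd Nat.prime_two not_dvd_card_sub_one z) (by simpa using h4)
  have h2 : (2 : F) ≠ 0 := cast_ne_zero_of_ne (p := p) Nat.prime_two (Ne.symm hp)
  have h3 := H13.odd_card_of_two_ne_zero h2
  have h5 : Odd (Nat.card F₀) := (Nat.odd_pow_iff hk.ne_zero).1 (hqk ▸ h3)
  obtain rfl : k = 2 := by
    obtain ⟨j, -, -, h⟩ := sub_count Nat.prime_two (Ne.symm hp) (by omega) hqk hΩ
    rw [← even_iff_two_dvd, ← Nat.not_odd_iff_even, Finset.odd_sum_iff_odd_card_odd,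
      Finset.filter_true_of_mem fun _ _ => h5.pow.pow, Finset.card_range] at h
    exact hk.eq_two_or_odd'.resolve_right h
  have h4 : 2 ∣ Fintype.card F - 1 := by rw [Nat.odd_iff] at h3; omega
  rw [forall_po_one Nat.prime_two h4 (by omega) smul_sub (A := False) (fun y hy => ci_sub_of_st h2 hy (st_of_fix fun x hx => by
    rcases sq_eq_one_iff.1 (pow_eq_one_of_mem_rts hy hx) with rfl | rfl
    exacts [one_pow _, h5.neg_one_pow])), hV]
  · obtain ⟨k, hk⟩ := h5
    have : Fintype.card F % 4 = 1 := by rw [hqk, hk, show (2 * k + 1) ^ 2 = 1 + 4 * (k * k + k) by ring]; simp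
    simp [h3, this]
  refine fun z hz a l h5 _ _ => iff_false_intro fun h6 => ?_
  obtain ⟨c, h7, A, h8⟩ := of_ci_sub h6
  obtain ⟨z₀, h9, -⟩ := xm_eq_smul (A := A ^ 2) (z := (c ^ 2)⁻¹ * z) (by
    have := (h8.aeval_eq_zero_iff _).1 (aeval_X_pow_sub_C h5)
    simp only [map_sub, map_pow, Polynomial.aeval_X, Polynomial.aeval_C, sub_eq_zero, Algebra.algebraMap_eq_smul_one,
      smul_pow] at this
    rw [← xm_pow, mul_smul, ← this, inv_smul_smul₀ (pow_ne_zero 2 h7)])
  obtain ⟨b, hb⟩ := isSquare_sub hqk z₀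
  exact hz (c * b) (by rw [mul_pow, hb, h9, mul_inv_cancel_left₀ (pow_ne_zero 2 h7)])

end Cfsg.Agent.S5964
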