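import Cfsg.Statements.S5965
import Cfsg.Agent.H28.Elu16

set_option autoImplicit false
open scoped MatrixGroups
open Cfsg

namespace Cfsg.Agent.S5965

open H28 H12 H13 Module

/-- Elements of odd prime order r ≠ p of PSL_n(q) and subfield subgroups. Here `T = PSL_n(F)` for a field `F` with `q = p^f` elements (`n ≥ 2`, `(n, q) ≠ (2, 2), (2, 3)`), `F₀` is the subfield with `q₀` elements where `q = q₀^k` for a prime `k`, and `H` is the subgroup of matrices of determinant 1 lying in the subfield group of `F₀` (invertible matrices over `F₀` times scalars) — a maximal subgroup of type GL_n(q₀) (the case `n = 2`, `q₀ = 2` is excluded); Ω is the set of `T`-conjugates of `H` (cosets of `H`), so an element of `T` of prime order `r` (a matrix `x` of determinant 1 with `x^r` scalar, `x` not scalar) fixes a point of Ω when some conjugate of `x` by a matrix of determinant 1 lies in `H`. Let `r ≠ p` be an odd prime dividing the index of `H`, with `(n, r)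 ≠ (6, 3)` and, when `r = k` divides `q₀ − 1`, with `(n)_r ≤ (q − 1)_r`. Then every element of `T` of order `r` is conjugate in `T` into `H` if and only if `r = k`, or `k = 2`, `r = n ∈ {3, 5}` and `(q₀ + 1)_r = r`. The two excluded cases, `(n, r) = (6, 3)` and `r = k ∣ q₀ − 1` with `(n)_r > (q − 1)_r`, are ones where this criterion can fail, so they are left out. -/
theorem result {F : Type*} [Field F] [Fintype F] {p : ℕ} [Fact p.Prime] [CharP F p] {q : ℕ} (hq : Fintype.card F = q)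
    (n : ℕ) (hn : 2 ≤ n) (hT : (n, q) ≠ (2, 2) ∧ (n, q) ≠ (2, 3))
    (F₀ : Subfield F) (k q₀ : ℕ) (hk : k.Prime) (hF₀ : Nat.card ↥F₀ = q₀) (hqk : q = q₀ ^ k) (hC5 : ¬ (n = 2 ∧ q₀ = 2)) (r : ℕ) [Fact r.Prime] (hr2 : r ≠ 2) (hrp : r ≠ p) (hgap : ¬ (n = 6 ∧ r = 3)) (hgapk : r = k → r ∣ q₀ - 1 → padicValNat r n ≤ padicValNat r (q - 1)) (hΩ : r ∣ ((Cfsg.Geo.subfieldSubgroup F₀ 1).comap (Matrix.SpecialLinearGroup.toGL : Matrix.SpecialLinearGroup (Fin n) F →* GL (Fin n) F)).index) :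
    (∀ x : Matrix.SpecialLinearGroup (Fin n) F,
      (∃ z : F, ((x ^ r : Matrix.SpecialLinearGroup (Fin n) F) : Matrix (Fin n) (Fin n) F) = z • (1 : Matrix (Fin n) (Fin n) F)) →
      (∀ z : F, (x : Matrix (Fin n) (Fin n) F) ≠ z • (1 : Matrix (Fin n) (Fin n) F)) →
      ∃ P : Matrix.SpecialLinearGroup (Fin n) F, P⁻¹ * x * P ∈ ((Cfsg.Geo.subfieldSubgroup F₀ 1).comap (Matrix.SpecialLinearGroup.toGL : Matrix.SpecialLinearGroup (Fin n) F →* GL (Fin n) F))) ↔
    (r = k ∨ (k = 2 ∧ r = n ∧ (n = 3 ∨ n = 5) ∧ padicValNat r (q₀ + 1) = 1)) := by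
  subst hq hF₀
  have hr : r.Prime := Fact.out
  have hV : finrank F (Fin n → F) = n := by simp
  have : Nonempty (Fin n) := ⟨⟨0, by omega⟩⟩
  have h0 := cast_ne_zero_of_ne (F := F) hr hrp
  have h1 : 1 < Nat.card F₀ := Finite.one_lt_card
  have h2 : ∀ {x : AlgebraicClosure F} {a b : ℕ}, x ^ r = 1 → (a : ZMod r) = b → x ^ a = x ^ b := fun hx h =>
    (pow_eq_pow_mod _ hx).trans ((ZMod.natCast_eq_natCast_iff' _ _ r).1 h ▸ (pow_eq_pow_mod _ hx).symm)
  have h3 : (Fintype.card F : ZMod r) = (Nat.card F₀ : ZMod r) ^ k := by rw [hqk, Nat.cast_pow]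
  have h4 : ∀ {m : ℕ}, 1 ≤ m → (r ∣ m - 1 ↔ (m : ZMod r) = 1) := fun h => by
    rw [← ZMod.natCast_eq_zero_iff, Nat.cast_sub h, Nat.cast_one, sub_eq_zero]
  rw [index_comap_toGL] at hΩ
  rw [el_comap, el_iff hr (.inr hrp)]
  by_cases hrk : r = k
  · subst hrk
    rw [ZMod.pow_card] at h3
    refine iff_of_true (fun a h5 h6 => ?_) (.inl rfl)
    obtain ⟨w, hw, y, rfl, h7, -⟩ | ⟨z, hz, h7⟩ := po_cases hr.ne_zero (inj_of_det (h5 ▸ one_ne_zero)) h6
    · refine smul_sub w hw _ (ci_sub_of_st h0 h7 (.trans (Multiset.map_congr rfl fun x hx => h2 (pow_eq_one_of_mem_rts h7 hx)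
        h3.symm) (map_rts y (FiniteField.frobeniusAlgHom F _).toRingHom (FiniteField.frobeniusAlgHom F _).commutes)))
    · have h8 : r ∣ Fintype.card F - 1 := by_contra fun h => (exists_pow_eq_of_not_dvd hr h z).elim hz
      obtain ⟨l, -, h9, h10⟩ := ed_of_nonpow hr hz h7
      exact absurd ⟨hgapk rfl ((h4 h1.le).2 (h3 ▸ (h4 Fintype.card_pos).1 h8)), fun h => absurd h hr2⟩
        ((exists_nonpow_det_iff hr h8 (by omega)).1 ⟨z, l, hz, hV ▸ h9, h10 ▸ h5⟩)
  simp only [hrk, false_or]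
  obtain ⟨j, h5, h6, h7⟩ := sub_count hr hrp (by omega) hqk hΩ
  rw [← ZMod.natCast_eq_zero_iff] at h7
  push_cast at h7
  generalize hu : (Nat.card F₀ : ZMod r) = u at h3 h7
  have h8 : u ^ j ≠ 1 := fun h => hrk ((Nat.prime_dvd_prime_iff_eq hr hk).1 ((ZMod.natCast_eq_zero_iff _ r).1 (by
    simpa [h] using h7)))
  have h9 : (Fintype.card F : ZMod r) ^ j = 1 := by
    rw [h3, pow_right_comm, ← sub_eq_zero, ← geom_sum_mul, h7, zero_mul]
  have h10 : u ≠ 1 := fun h => h8 (by simp [h])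
  have h11 : ∀ x : AlgebraicClosure F, x ^ Nat.card F₀ = x ^ (Nat.card F₀ : ℤ) := fun x => (zpow_natCast _ _).symm
  by_cases h : r ∣ Fintype.card F - 1
  · rw [(h4 Fintype.card_pos).1 h] at h3
    obtain rfl | hk2 := hk.eq_two_or_odd'
    · obtain rfl := (sq_eq_one_iff.1 h3.symm).resolve_left h10
      have h12 : ∀ x : AlgebraicClosure F, x ^ r = 1 → x ^ Nat.card F₀ = x⁻¹ := fun x hx => eq_inv_of_mul_eq_one_left (by
        rw [← pow_succ, h2 hx (b := 0) (by simp [hu]), pow_zero])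
      have h13 : 3 ≤ n := by
        by_contra h13
        exact h8 (by rw [show j = 2 by omega]; simp)
      rw [inv_case hr2 h (by omega) (by rwa [hV]) smul_sub (fun _ y h14 h15 => ci_sub_of_st h0 h14 (.trans
        (Multiset.map_congr rfl fun x hx => h12 x (pow_eq_one_of_mem_rts h14 hx)) h15)) fun y h14 h15 =>
          let ⟨μ, _, h16⟩ := st_of_ci_sub h14 h15
          ⟨_, .trans (Multiset.map_congr rfl fun x hx => by rw [h12 x (pow_eq_one_of_mem_rts h14 hx), zpow_neg_one]) h16⟩,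
        hV, hqk, ← one_pow 2, Nat.sq_sub_sq, padicValNat.mul (by omega) (by omega),
        padicValNat.eq_zero_of_not_dvd (mt (h4 h1.le).1 (hu ▸ h10))]
      simp only [one_pow, add_zero, true_and]
      constructor <;> rintro ⟨h1, h2, h3⟩ <;> subst_vars <;> simp [*]
    refine iff_of_false (fun H => ?_) fun h => by simp [h.1, Nat.odd_iff] at hk2
    obtain ⟨e, rfl⟩ := Nat.exists_eq_add_of_le hn
    obtain ⟨y, ζ, a1, a2, a3, -, -, -, -, a4⟩ := exists_two hr2 h hV.symm
    obtain ⟨μ, -, a5⟩ := st_of_ci_sub a1 (H y a2 a3)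
    obtain ⟨l, rfl⟩ := hk2
    have := a4 _ (Nat.card F₀) (by rw [Int.cast_natCast, hu]; rintro rfl; simp at h3) (by simpa using a5)
    rw [Int.cast_natCast, hu] at this
    rw [pow_succ, pow_mul, this, one_pow, one_mul] at h3
    exact h10 h3.symm
  refine iff_of_false (fun H => ?_) fun ⟨a1, _, _, a2⟩ => h ?_
  · obtain ⟨e, he⟩ := Nat.exists_eq_add_of_le ((Nat.le_of_dvd (by omega) (orderOf_dvd_of_pow_eq_one h9)).trans h6)
    obtain ⟨y, A, a1, a2, a3, a4, a5, -, a6, -⟩ := exists_orb_end (V := Fin n → F) hrp h one_pos (e := e) (by rw [one_mul, ← he, hV])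
    obtain ⟨μ, a7, a8⟩ := st_of_ci_sub a1 (H y a2 a3)
    have := Fintype.ofFinite F₀
    rw [eq_one_of_pow_of_not_dvd hr h a7, a4, one_nsmul] at a8
    have := dvd_of_st a5 a8 (z := Nat.card F₀) (fun x y e => (FiniteField.frobeniusAlgHom F₀ (AlgebraicClosure F)).injective (by simpa using e))
      fun x _ => by simp
    rw [a6, Int.cast_natCast, hu] at this
    exact h8 (orderOf_dvd_iff_pow_eq_one.1 (this.trans (orderOf_dvd_of_pow_eq_one h9)))
  · rw [hqk, a1, ← one_pow 2, Nat.sq_sub_sq]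
    exact (dvd_of_one_le_padicValNat a2.ge).mul_right _

end Cfsg.Agent.S5965
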