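import Cfsg.Statements.S5966
import Cfsg.Agent.H28.Elu16

set_option autoImplicit false
open scoped MatrixGroups
open Cfsg

namespace Cfsg.Agent.S5966

open H28 H12 H13 Module Matrix

/-- Elements of order 3 of PSL_n(q) in characteristic 3 and subfield subgroups. Here `T = PSL_n(F)` for a field `F` with `q` elements, `q` a power of 3 (`n ≥ 2`, `(n, q) ≠ (2, 2), (2, 3)`), `F₀` is the subfield with `q₀` elements where `q = q₀^k` for a prime `k`, and `H` is the subgroup of matrices of determinant 1 lying in the subfield group of `F₀` (invertible matrices over `F₀` times scalars) — a maximal subgroup of type GL_n(q₀) (the case `n = 2`, `q₀ = 2` is excluded); Ω is the set of `T`-conjugates of `H` (cosets of `H`), so an element of `T` of prime order `r` (a matrix `x` of determinant 1 with `x^r` scalar, `x` not scalar) fixes a point of Ω when some conjugate of `x` by a matrix of determinant 1 lies in `H`. Suppose 3 divides the index of `H`. Then every element of `T` of order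 3 is conjugate in `T` into `H` if and only if `n` is odd, or `n` is even and `k > 2`. -/
theorem result {F : Type*} [Field F] [Fintype F] [CharP F 3] {q : ℕ} (hq : Fintype.card F = q)
    (n : ℕ) (hn : 2 ≤ n) (hT : (n, q) ≠ (2, 3))
    (F₀ : Subfield F) (k q₀ : ℕ) (hk : k.Prime) (hF₀ : Nat.card ↥F₀ = q₀) (hqk : q = q₀ ^ k) (hC5 : ¬ (n = 2 ∧ q₀ = 2)) (hΩ : 3 ∣ ((Cfsg.Geo.subfieldSubgroup F₀ 1).comap (Matrix.SpecialLinearGroup.toGL : Matrix.SpecialLinearGroup (Fin n) F →* GL (Fin n) F)).index) :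
    (∀ x : Matrix.SpecialLinearGroup (Fin n) F,
      (∃ z : F, ((x ^ 3 : Matrix.SpecialLinearGroup (Fin n) F) : Matrix (Fin n) (Fin n) F) = z • (1 : Matrix (Fin n) (Fin n) F)) →
      (∀ z : F, (x : Matrix (Fin n) (Fin n) F) ≠ z • (1 : Matrix (Fin n) (Fin n) F)) →
      ∃ P : Matrix.SpecialLinearGroup (Fin n) F, P⁻¹ * x * P ∈ ((Cfsg.Geo.subfieldSubgroup F₀ 1).comap (Matrix.SpecialLinearGroup.toGL : Matrix.SpecialLinearGroup (Fin n) F →* GL (Fin n) F))) ↔
    (Odd n ∨ (Even n ∧ 2 < k)) := by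
  subst hq hF₀
  have hr := Nat.prime_three
  have := Fact.mk hr
  have hV : finrank F (Fin n → F) = n := by simp
  have : NeZero n := ⟨by omega⟩
  have h2 : (2 : F) ≠ 0 := cast_ne_zero_of_ne (p := 3) Nat.prime_two (by decide)
  have h3 : ¬ 3 ∣ Fintype.card F - 1 := not_dvd_card_sub_one
  rw [el_comap]
  constructor
  · intro H
    by_contra h
    obtain ⟨⟨m, rfl⟩, rfl⟩ : Even n ∧ k = 2 := by have := hk.two_le; grind
    obtain ⟨J, h4, h5⟩ := exists_jordan (κ := Fin (m + m)) (F₀ := F₀) (μ := .replicate m 2)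
      (by simp +contextual [Multiset.mem_replicate]) (by simp; omega)
    obtain ⟨h6, h7⟩ := jt_of_ed (by simp +contextual [Multiset.mem_replicate]) h5
    have h8 : (xm J - 1) ^ 2 = 0 := (pow_eq_zero_iff_jt h6 2).2 (by simp +contextual [h7, Multiset.mem_replicate])
    have h9 : xm J ^ 3 = 1 := (pow_char_eq_one_iff _).2 (by rw [pow_succ, h8, zero_mul])
    have h10 := eq_one_of_pow_of_not_dvd hr h3 (z := LinearMap.det (xm J)) (by rw [← map_pow, h9, map_one])
    obtain ⟨u, hu⟩ := exists_GL (h10 ▸ one_ne_zero)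
    obtain ⟨t, ht⟩ := FiniteField.exists_nonsquare (F := F) (by rw [ringChar.eq F 3]; decide)
    have h11 : t ≠ 0 := by rintro rfl; simp at ht
    let g := dilGL (0 : Fin (m + m)) (.mk0 t h11)
    have h12 : H28.Sim (xm J) (toLin' (g * u * g⁻¹).1) := hu ▸ isConj_iff_sim.1 (isConj_GL_iff.1 (isConj_iff.2 ⟨g, rfl⟩))
    have h13 := (po_toLin' _ _).1 (po_of_pow hr h3 ((h12.pow 3).eq_one_iff.1 h9) (mt h12.eq_one_iff.2 fun h => by
      have := finrank_ker_sub_one h6
      rw [h7, h, sub_self, LinearMap.ker_zero, finrank_top, hV, Multiset.card_replicate] at this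
      omega))
    obtain ⟨P, h14, h15⟩ := H (g * u * g⁻¹) (mem_specialLinear.2 (by rw [← LinearMap.det_toLin', ← h12.det_eq, h10]))
      (by simpa only [Units.val_pow_eq_pow_val] using h13.1) h13.2
    obtain ⟨c, h16, A, h17⟩ := mem_sub.1 h15
    have h18 : H28.Sim (xm J) (c • xm A) := h12.trans (by
      rw [← map_smul, ← h17]; exact isConj_iff_sim.1 (isConj_GL_iff.1 (isConj_iff.2 ⟨P⁻¹, by rw [inv_inv]⟩)))
    obtain ⟨z, h19, -⟩ := xm_eq_smul (A := A ^ 3) (z := c⁻¹ ^ 3) (by
      rw [← xm_pow, ← (h18.pow 3).eq_one_iff.1 h9, smul_pow, smul_smul, ← mul_pow, inv_mul_cancel₀ h16, one_pow, one_smul])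
    have := Fintype.ofFinite F₀
    obtain ⟨e, rfl⟩ := exists_pow_eq_of_not_dvd hr (not_dvd_card_sub_one (F := F₀)) z
    obtain rfl : c = (e⁻¹ : F₀) := inv_injective (by simpa using frobenius_inj F 3 h19.symm)
    have h20 : H28.Sim (xm J) (xm (e⁻¹ • A)) := by
      convert h18; rw [← map_smul]; congr 1
    obtain ⟨z, h21, h22⟩ := xm_eq_smul (A := (e⁻¹ • A) ^ 3) (z := 1) (by rw [← xm_pow, (h20.pow 3).eq_one_iff.1 h9, one_smul])
    obtain ⟨μ, h23, h24, h25⟩ := ed_of_pow_char (p := 3) (u := toLin' (e⁻¹ • A)) (by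
      rw [← toLin'_pow, h22, show z = 1 from Subtype.ext h21, one_smul, toLin'_one]; rfl)
    obtain ⟨J', h26, h27⟩ := exists_jordan (κ := Fin (m + m)) (F₀ := F₀) (fun k hk => (h23 k hk).1) (by simpa using h24)
    obtain rfl := (jt_of_ed (fun k hk => (h23 k hk).1) ((h20.trans (sim_xm (isConj_iff_med.2 (h25.trans h26.symm)))).ed_eq.trans
      h27)).2.symm.trans h7
    obtain ⟨f, hf⟩ := isConj_iff_exists_GL.1 (isConj_iff_med.2 (h25.trans h4.symm))
    let b := GeneralLinearGroup.map F₀.subtype f * P⁻¹ * g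
    have h28 : u * b = b * u := by
      have : GeneralLinearGroup.map F₀.subtype f * (P⁻¹ * (g * u * g⁻¹) * P) = u * GeneralLinearGroup.map F₀.subtype f := by
        refine Units.ext ?_
        rw [Units.val_mul, Units.val_mul u, h17, toLin'.injective hu]
        exact .trans (by rw [map_mul]; congr 1) ((congrArg F₀.subtype.mapMatrix hf).trans (map_mul _ _ _))
      simp only [b]
      rw [← mul_assoc, ← mul_assoc, ← this]
      group
    obtain ⟨s, hs⟩ := det_sq_of_comm (N := xm J - 1) (b := toLin' b.1) (by rw [← pow_two, h8]) (by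
      have := finrank_ker_sub_one h6
      have := (xm J - 1).finrank_range_add_finrank_ker
      simp [h7] at *
      omega) (by rw [sub_mul, mul_sub, ← hu, End.mul_eq_comp, ← toLin'_mul, ← Units.val_mul, h28]; simp [End.mul_eq_comp])
    obtain ⟨d, hd⟩ := isSquare_sub hqk f.1.det
    have h29 : d ^ 2 * t = s * s := by
      rw [← hs, LinearMap.det_toLin', hd, Units.val_mul, Units.val_mul, det_mul, det_mul, mem_specialLinear.1 (inv_mem h14),
        mul_one, show g.1.det = t from congrArg Units.val (det_dilGL _ _)]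
      exact congrArg (· * t) (F₀.subtype.map_det _)
    have h30 : d ≠ 0 := by rintro rfl; exact f.det_ne_zero (by simpa using hd.symm)
    exact ht ⟨s / d, by field_simp; linear_combination h29⟩
  · refine fun H => el_of fun x h4 h5 => ?_
    obtain ⟨w, hw, y, h6, h7, -⟩ | ⟨z, h6, -⟩ := po_cases three_ne_zero (inj_of_det (h4 ▸ one_ne_zero)) h5
    swap
    · exact absurd (exists_pow_eq_of_not_dvd hr h3 z) (by simpa using h6)
    obtain ⟨g, hg⟩ := ci_iff.1 (h6 ▸ smul_sub (F₀ := F₀) w hw _ (ci_sub_unip h7))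
    obtain ⟨μ, h8, h9, h10⟩ := ed_of_pow_char h7
    rw [h6]
    by_cases h : ∃ k ∈ μ, k ≠ 2
    · obtain ⟨k, h11, h12⟩ := h
      obtain ⟨b, h13, h14⟩ := (dc_of_ed (h10 ▸ Multiset.mem_map_of_mem _ h11) fun c => by
        obtain rfl | rfl : k = 1 ∨ k = 3 := by have := h8 k h11; omega
        exacts [⟨c, pow_one c⟩, exists_pow_eq_of_not_dvd hr h3 c]).smul w g.1.det⁻¹
      exact ⟨g, hg, b, h13, h14 ▸ inv_mul_cancel₀ g.det_ne_zero⟩
    push Not at h
    rw [Multiset.eq_replicate_card.2 h] at h9 h10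
    obtain ⟨d, h11, s, h12⟩ := exists_sq_mul h2 (hk.odd_of_ne_two (by simp at h9; grind)) hqk g.det_ne_zero
    obtain ⟨b, h13, h14⟩ := H7.KG.exists_commute_det y (x := upp F 2) (by
      rw [h10]; exact Multiset.mem_map_of_mem _ (Multiset.mem_replicate.2 ⟨by simp at h9; omega, rfl⟩)) s
    have h15 : d ≠ 0 := by rintro rfl; simp at h12
    have h16 : dilGL (0 : Fin n) (.mk0 d h15) ∈ Geo.subfieldSubgroup F₀ 1 :=
      mem_sub.2 ⟨1, one_ne_zero, diagonal (Function.update 1 0 ⟨d, h11⟩), by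
        rw [dilGL_coe, one_smul, diagonal_map (map_zero _)]
        congr 1
        ext i
        rcases eq_or_ne i 0 with rfl | h <;> simp [*]⟩
    refine ⟨g * dilGL 0 (.mk0 d h15), ?_, b, by rw [smul_mul_assoc, h13, mul_smul_comm], ?_⟩
    · convert mul_mem (mul_mem (inv_mem h16) hg) h16 using 1
      group
    · rw [h14, Units.val_mul, det_mul, ← h12]
      congr 2
      exact congrArg Units.val (det_dilGL _ _)

end Cfsg.Agent.S5966
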