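import Cfsg.Statements.S5967
import Cfsg.Agent.H28.Elu15

set_option autoImplicit false
open scoped MatrixGroups
open Cfsg

namespace Cfsg.Agent.S5967

open H28 H12 H13 Module

/-- Involutions of PSL_n(q) and the symplectic-type subgroups. Here `T = PSL_n(F)` for a field `F` with `q` elements, `n ≥ 4` even, `f` is a nondegenerate alternating form on `F^n`, and `H` is the subgroup of matrices of determinant 1 preserving `f` up to a scalar — a maximal subgroup of type Sp_n(q); Ω is the set of `T`-conjugates of `H` (cosets of `H`), so an element of `T` of prime order `r` (a matrix `x` of determinant 1 with `x^r` scalar, `x` not scalar) fixes a point of Ω when some conjugate of `x` by a matrix of determinant 1 preserves `f` up to a scalar. Suppose the index of `H` is even. Then every involution of `T` is conjugate in `T` into `H` if and only if `(q − 1)_2 ≤ (n)_2`. -/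
theorem result {F : Type*} [Field F] [Fintype F] {p : ℕ} [Fact p.Prime] [CharP F p] {q : ℕ} (hq : Fintype.card F = q)
    (n : ℕ) (hn : 4 ≤ n) (he : Even n) (f : (Fin n → F) → (Fin n → F) → F) (hf : Cfsg.Geo.IsSymplecticForm f)
    (hΩ : 2 ∣ ((Cfsg.Geo.similarityGroup f).comap (Matrix.SpecialLinearGroup.toGL : Matrix.SpecialLinearGroup (Fin n) F →* GL (Fin n) F)).index) :
    (∀ x : Matrix.SpecialLinearGroup (Fin n) F,
      (∃ z : F, ((x ^ 2 : Matrix.SpecialLinearGroup (Fin n) F) : Matrix (Fin n) (Fin n) F) = z • (1 : Matrix (Fin n) (Fin n) F)) →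
      (∀ z : F, (x : Matrix (Fin n) (Fin n) F) ≠ z • (1 : Matrix (Fin n) (Fin n) F)) →
      ∃ P : Matrix.SpecialLinearGroup (Fin n) F, P⁻¹ * x * P ∈ ((Cfsg.Geo.similarityGroup f).comap (Matrix.SpecialLinearGroup.toGL : Matrix.SpecialLinearGroup (Fin n) F →* GL (Fin n) F))) ↔
    padicValNat 2 (q - 1) ≤ padicValNat 2 n := by
  subst hq
  obtain ⟨B, D, S⟩ := exists_sg_sp hf
  have hV : finrank F (Fin n → F) = n := by simp
  rw [el_comap, el_iff (p := p) Nat.prime_two (.inl rfl)]
  by_cases hp : p = 2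
  · subst hp
    rw [padicValNat.eq_zero_of_not_dvd not_dvd_card_sub_one]
    refine iff_of_true (fun a h1 h2 => ?_) zero_le
    obtain ⟨w, hw, y, rfl, h4, -⟩ | ⟨z, h4, -⟩ := po_cases two_ne_zero (inj_of_det (h1 ▸ one_ne_zero)) h2
    · obtain ⟨μ, h5, h6, h7⟩ := ed_of_pow_char h4
      obtain ⟨b, h8, h9⟩ := exists_sp_jt D (fun k hk => (h5 k hk).1) (fun k hk => by
        rw [eq_replicate_add h5, Multiset.count_add, Multiset.count_replicate, Multiset.count_replicate,
          if_neg (by rintro rfl; contradiction : ¬ 2 = k), h6, hV]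
        split_ifs <;> grind) h6
      exact S.smul w hw _ (S.ci h8.sml one_ne_zero (sim_iff_ed.2 (h7.trans h9.symm)))
    · exact absurd (exists_pow_eq_of_not_dvd Nat.prime_two not_dvd_card_sub_one z) (by simpa using h4)
  have h2 : (2 : F) ≠ 0 := cast_ne_zero_of_ne (p := p) Nat.prime_two (Ne.symm hp)
  have : Nontrivial (Fin n → F) := nontrivial_of_finrank_pos (R := F) (by omega)
  constructor
  · intro H
    by_contra h
    obtain ⟨e, rfl⟩ := Nat.exists_eq_add_of_le (show 2 ≤ n by omega)
    obtain ⟨w, y, h3, h4, h5, h6, h7, -⟩ := exists_refl h2 hV.symm (by rw [hV]; omega)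
    obtain ⟨b, c, h8, h9, h10⟩ := S.of_ci (inv_smul_smul₀ h3 y ▸ S.smul _ (inv_ne_zero h3) _ (H _ h5 h6))
    have h11 := (h10.pow 2).eq_one_iff.1 h4
    have h12 : (1 : AlgebraicClosure F) ≠ -1 := fun h => (map_ne_zero (algebraMap F (AlgebraicClosure F))).2 h2 (by
      rw [map_ofNat]; linear_combination h)
    classical
    obtain rfl | rfl := sq_eq_one_iff.1 ((h9.pow_eq S.nds (z := 1) (by simp [h11])).trans (by simp))
    · obtain ⟨s, t, h13⟩ := sp_inv_one D h9.pres h2 h11
      have := congrArg (Multiset.count (-1)) ((h10.rts_eq.trans h13).symm.trans h7)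
      simp [Multiset.count_replicate, h12, h12.symm] at this
    · have := congrArg (Multiset.count (-1)) (h9.st S.nds h8 (ρ := .id _) fun _ => rfl)
      rw [← h10.rts_eq, h7] at this
      simp [Multiset.count_replicate, h12, h12.symm] at this
      omega
  · intro H a h1 h3
    obtain ⟨w, hw, y, rfl, h4, -⟩ | ⟨z, h4, h5⟩ := po_cases two_ne_zero (inj_of_det (h1 ▸ one_ne_zero)) h3
    · obtain ⟨s, t, h5, h6, h7⟩ := rts_inv h4
      have h8 := even_of_det' h2 (by omega) (hV.symm ▸ H) h7 h1
      refine S.smul w hw _ (S.ci_of_rs D h2 h4 (h5 ▸ ?_))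
      simpa using (rs_replicate D.invol (c := 1) (by simp) fun _ => (Nat.even_add.1 (h6.trans hV ▸ he)).2 h8).add
        (rs_replicate D.invol (c := -1) (by simp) fun _ => h8)
    · obtain ⟨b, h6, h7⟩ := exists_sml_sp D z
      exact S.ci h6 (neg_ne_zero.2 fun h => h4 0 (by simp [h])) (sim_of_nonpow Nat.prime_two h4 h5 h7 rfl)

end Cfsg.Agent.S5967
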