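import Cfsg.Statements.S5968
import Cfsg.Agent.H28.Elu15

set_option autoImplicit false
open scoped MatrixGroups
open Cfsg

namespace Cfsg.Agent.S5968

open H28 H12 H13 Module

/-- Derangements of odd prime order of PSL_n(q) on the cosets of a symplectic-type subgroup. Here `T = PSL_n(F)` for a field `F` with `q` elements, `n ≥ 4` even, `f` is a nondegenerate alternating form on `F^n`, and `H` is the subgroup of matrices of determinant 1 preserving `f` up to a scalar — a maximal subgroup of type Sp_n(q); Ω is the set of `T`-conjugates of `H` (cosets of `H`), so an element of `T` of prime order `r` (a matrix `x` of determinant 1 with `x^r` scalar, `x` not scalar) fixes a point of Ω when some conjugate of `x` by a matrix of determinant 1 preserves `f` up to a scalar. For every odd prime `r` dividing the index of `H`, with `(n, r) ≠ (6, 3)`, there is an element of `T` of order `r` with no conjugate in `H`. (For `n = 6`, `r = 3` this can fail: when `(q − 1)_3 = 3` every element of order 3 is conjugate into `H`.) -/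
theorem result {F : Type*} [Field F] [Fintype F] {p : ℕ} [Fact p.Prime] [CharP F p] {q : ℕ} (hq : Fintype.card F = q)
    (n : ℕ) (hn : 4 ≤ n) (he : Even n) (f : (Fin n → F) → (Fin n → F) → F) (hf : Cfsg.Geo.IsSymplecticForm f)
    (r : ℕ) [Fact r.Prime] (hr2 : r ≠ 2) (hgap : ¬ (n = 6 ∧ r = 3)) (hΩ : r ∣ ((Cfsg.Geo.similarityGroup f).comap (Matrix.SpecialLinearGroup.toGL : Matrix.SpecialLinearGroup (Fin n) F →* GL (Fin n) F)).index) :
    ∃ x : Matrix.SpecialLinearGroup (Fin n) F,
      (∃ z : F, ((x ^ r : Matrix.SpecialLinearGroup (Fin n) F) : Matrix (Fin n) (Fin n) F) = z • (1 : Matrix (Fin n) (Fin n) F)) ∧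
      (∀ z : F, (x : Matrix (Fin n) (Fin n) F) ≠ z • (1 : Matrix (Fin n) (Fin n) F)) ∧
      ∀ P : Matrix.SpecialLinearGroup (Fin n) F, P⁻¹ * x * P ∉ ((Cfsg.Geo.similarityGroup f).comap (Matrix.SpecialLinearGroup.toGL : Matrix.SpecialLinearGroup (Fin n) F →* GL (Fin n) F)) := by
  subst hq
  obtain ⟨B, D, S⟩ := exists_sg_sp hf
  have hr : r.Prime := Fact.out
  suffices ¬ EL (Geo.similarityGroup f) r by
    rw [← el_comap] at this
    push Not at this
    exact this
  have : Nonempty (Fin n) := ⟨⟨0, by omega⟩⟩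
  by_cases hrp : r = p
  · subst hrp
    obtain ⟨e, rfl⟩ := Nat.exists_eq_add_of_le (show 3 ≤ n by omega)
    have := hr.two_le
    refine S.not_el_unip (μ := 3 ::ₘ .replicate e 1) (by simp +contextual [Multiset.mem_replicate]; omega) (by simp)
      ⟨3, by simp, by simp⟩ fun b h1 h2 h3 => ?_
    simpa [h3, Multiset.count_replicate] using sp_even_count D h1 h2 (k := 3) (by decide)
  by_cases h : r ∣ Fintype.card F - 1
  · rw [S.el_inv hr2 hrp h (by simp; omega) (by simpa using hgap) (ρ := .id _) (fun _ => rfl) (fun _ _ => rfl)]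
    all_goals grind [Fintype.card_fin, hr.even_iff]
  obtain ⟨m, rfl⟩ := he.two_dvd
  have h1 := S.dvd
  rw [index_comap_toGL] at hΩ
  obtain ⟨b, hb⟩ := card_GL_eq (F := F) (2 * m)
  rw [hb, card_UG_sp m D (by simp), spOrd, prod_range_two_mul, Nat.card_eq_fintype_card, mul_left_comm] at h1
  obtain ⟨j, h2, h3⟩ := exists_dvd_of_mul hr (fun j => Nat.sub_pos_of_lt (Nat.one_lt_pow (by omega) Fintype.one_lt_card))
    (not_dvd_card_of_ne hr hrp) ((dvd_mul_left _ _).trans h1) hΩ
  exact S.not_el_odd hr2 hrp h (odd_two_mul_add_one j) (by simp; omega) h3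

end Cfsg.Agent.S5968
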