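import Cfsg.Statements.S5969
import Cfsg.Agent.H28.Elu17

set_option autoImplicit false
open scoped MatrixGroups
open Cfsg

namespace Cfsg.Agent.S5969

open H28 H12 H13 Module

/-- Involutions of PSL_n(q) and extension-field subgroups of degree 2. Here `T = PSL_n(F)` for a field `F` with `q = p^f` elements (`n ≥ 2`, `(n, q) ≠ (2, 2), (2, 3)`), `k` is a prime dividing `n`, `K` is a subalgebra of the `n × n` matrices that is a field of degree `k` over `F` (an extension-field structure F_{q^k} on `F^n`), and `H` is the subgroup of matrices of determinant 1 normalizing `K` — a subgroup of type GL_{n/k}(q^k) (maximal except in some small cases; maximality is not assumed); Ω is the set of cosets of `H` in `T`, so an element of `T` of prime order `r` (a matrix `x` of determinant 1 with `x^r` scalar, `x` not scalar) fixes a point of Ω when some conjugate of `x` by a matrix of determinant 1 normalizes `K`. Take `k = 2` and suppose the index of `H` is even. Then every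 involution of `T` is conjugate in `T` into `H` if and only if `n = 2`, or `q` is odd and `(q − 1)_2 ≤ (n)_2`. -/
theorem result {F : Type*} [Field F] [Fintype F] {p : ℕ} [Fact p.Prime] [CharP F p] {q : ℕ} (hq : Fintype.card F = q)
    (n : ℕ) (hn : 2 ≤ n) (hT : (n, q) ≠ (2, 2) ∧ (n, q) ≠ (2, 3))
    (k : ℕ) (hk : k.Prime) (hkn : k ∣ n) (K : Subalgebra F (Matrix (Fin n) (Fin n) F)) (hK : Cfsg.Geo.IsFieldSubalgebra k K) (hk2 : k = 2) (hΩ : 2 ∣ ((Cfsg.Geo.subalgebraNormalizer K).comap (Matrix.SpecialLinearGroup.toGL : Matrix.SpecialLinearGroup (Fin n) F →* GL (Fin n) F)).index) :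
    (∀ x : Matrix.SpecialLinearGroup (Fin n) F,
      (∃ z : F, ((x ^ 2 : Matrix.SpecialLinearGroup (Fin n) F) : Matrix (Fin n) (Fin n) F) = z • (1 : Matrix (Fin n) (Fin n) F)) →
      (∀ z : F, (x : Matrix (Fin n) (Fin n) F) ≠ z • (1 : Matrix (Fin n) (Fin n) F)) →
      ∃ P : Matrix.SpecialLinearGroup (Fin n) F, P⁻¹ * x * P ∈ ((Cfsg.Geo.subalgebraNormalizer K).comap (Matrix.SpecialLinearGroup.toGL : Matrix.SpecialLinearGroup (Fin n) F →* GL (Fin n) F))) ↔
    (n = 2 ∨ (Odd q ∧ padicValNat 2 (q - 1) ≤ padicValNat 2 n)) := by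
  subst hq hk2
  have hV : finrank F (Fin n → F) = n := by simp
  have : Nonempty (Fin n) := ⟨⟨0, by omega⟩⟩
  rw [el_comap, el_iff (p := p) hk (.inl rfl)]
  have h0 : (∀ w : F, ∀ y : End F (Fin n → F), LinearMap.det (w • y) = 1 → y ^ 2 = 1 → H28.PO 2 (w • y) →
      CI (Geo.subalgebraNormalizer K) y) → ∀ a : End F (Fin n → F), LinearMap.det a = 1 → H28.PO 2 a →
      CI (Geo.subalgebraNormalizer K) a := fun H a h1 h2 => by
    obtain ⟨w, hw, y, rfl, h4, -⟩ | ⟨z, h4, h5⟩ := po_cases two_ne_zero (inj_of_det (h1 ▸ one_ne_zero)) h2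
    exacts [smul_fld w hw _ (H w y h1 h4 h2), ci_fld_sq hK h4 h5 (h1 ▸ one_ne_zero)]
  obtain rfl | hn2 := eq_or_ne n 2
  · refine iff_of_true (h0 fun w y _ h1 h2 => ?_) (.inl rfl)
    obtain ⟨b, h3, h4, h5, h6⟩ := exists_frob_fld (κ := Fin 2) hK
    have h7 : ∀ c : F, y ≠ c • 1 := fun c h => h2.2 (w * c) (by rw [h, smul_smul])
    refine h3.of_sim ?_
    by_cases hp : p = 2
    · subst hp
      have h8 : ∀ u : End F (Fin 2 → F), u ^ 2 = 1 → u ≠ 1 → IsNilpotent (u - 1) ∧ jt u = {2} := fun u h h' => by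
        have h8 := (pow_char_eq_one_iff u).1 h
        have h9 := sum_jt ⟨_, h8⟩
        have h10 : finrank F (LinearMap.range (u - 1)) ≠ 0 := by simpa [LinearMap.range_eq_bot, sub_eq_zero]
        rw [jt_of_sq h8] at h9
        exact ⟨⟨_, h8⟩, (jt_of_regular ⟨_, h8⟩ (by omega) (by simp at h9 ⊢; omega)).trans (by rw [hV])⟩
      have h9 := h8 y h1 (by simpa using h7 1)
      have h10 := h8 b h4 (h6 (by simp))
      exact (sim_iff_jt h9.1 h10.1).2 (h9.2.trans h10.2.symm)
    have h8 : (2 : F) ≠ 0 := cast_ne_zero_of_ne (p := p) hk (Ne.symm hp)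
    refine sim_of_rts h8 h1 h4 (h5 ▸ eq_nthRoots (by simp) ?_ (fun x => pow_eq_one_of_mem_rts h1) (by simp [card_rts]))
    obtain ⟨s, t, h9, h10, -⟩ := rts_inv h1
    have h11 : ∀ c : F, ¬ ∀ x ∈ rts y, x = algebraMap F _ c := fun c h =>
      h7 c (by simpa using SS.pow_eq ⟨2, h8, h1⟩ (r := 1) (z := c) (by simpa))
    have h12 : (1 : AlgebraicClosure F) ≠ -1 := fun h => (map_ne_zero (algebraMap F (AlgebraicClosure F))).2 h8 (by
      rw [map_ofNat]; linear_combination h)
    obtain ⟨rfl, rfl⟩ : s = 1 ∧ t = 1 := by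
      have : s ≠ 0 := by rintro rfl; exact h11 (-1) (by simp +contextual [h9, Multiset.mem_replicate])
      have : t ≠ 0 := by rintro rfl; exact h11 1 (by simp +contextual [h9, Multiset.mem_replicate])
      omega
    simp [h9, h12]
  obtain ⟨e, rfl⟩ := Nat.exists_eq_add_of_le hn
  have h1 : 3 ≤ Fintype.card (Fin (2 + e)) := by simp; omega
  simp only [hn2, false_or]
  by_cases hp : p = 2
  · subst hp
    obtain ⟨u, -, h2, h3, -, -, h4⟩ := exists_tv (p := 2) hV.symm
    exact iff_of_false (fun H => not_ci_fld hK le_rfl h1 (by simpa using h3.2 1) (by simp; omega) (H u h2 h3))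
      fun h => absurd (CharP.cast_eq_zero F 2) (H13.two_ne_zero_of_odd_card h.1)
  have h2 : (2 : F) ≠ 0 := cast_ne_zero_of_ne (p := p) hk (Ne.symm hp)
  simp only [H13.odd_card_of_two_ne_zero h2, true_and]
  refine ⟨fun H => by_contra fun h => ?_, fun h => h0 fun w y h3 h4 _ => ?_⟩
  · obtain ⟨w, y, h3, -, h5, h6, -, h7⟩ := exists_refl h2 hV.symm (by rw [hV]; omega)
    exact not_ci_fld hK le_rfl h1 (fun h => h6.2 w (by rw [h])) (by simp; omega)
      (inv_smul_smul₀ h3 y ▸ smul_fld _ (inv_ne_zero h3) _ (H _ h5 h6))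
  obtain ⟨s, t, h5, h6, h7⟩ := rts_inv h4
  obtain ⟨t, rfl⟩ := even_of_det' h2 (by omega) (hV.symm ▸ h) h7 h3
  obtain ⟨s, rfl⟩ : 2 ∣ s := by omega
  exact ci_fld_inv hK h2 h4 (s := s) (t := t) (by rw [h5, mul_comm, mul_two t])

end Cfsg.Agent.S5969
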