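import Cfsg.Statements.S5970
import Cfsg.Agent.H28.Elu17

set_option autoImplicit false
open scoped MatrixGroups
open Cfsg

namespace Cfsg.Agent.S5970

open H28 H12 H13 Module

/-- Elements of order `n` of PSL_n(q), `n` prime, and the normalizer of a Singer cycle. Here `T = PSL_n(F)` for a field `F` with `q = p^f` elements (`n ≥ 2`, `(n, q) ≠ (2, 2), (2, 3)`), `k` is a prime dividing `n`, `K` is a subalgebra of the `n × n` matrices that is a field of degree `k` over `F` (an extension-field structure F_{q^k} on `F^n`), and `H` is the subgroup of matrices of determinant 1 normalizing `K` — a subgroup of type GL_{n/k}(q^k) (maximal except in some small cases; maximality is not assumed); Ω is the set of cosets of `H` in `T`, so an element of `T` of prime order `r` (a matrix `x` of determinant 1 with `x^r` scalar, `x` not scalar) fixes a point of Ω when some conjugate of `x` by a matrix of determinant 1 normalizes `K`. Take `k = n > 3` prime with `n ≠ p` (so `H` is the normalizer of a Singer cycle), and suppose `n`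 divides the index of `H`. Then every element of `T` of order `n` is conjugate in `T` into `H` if and only if the multiplicative order of `q` modulo `n` is `n − 1`. -/
theorem result {F : Type*} [Field F] [Fintype F] {p : ℕ} [Fact p.Prime] [CharP F p] {q : ℕ} (hq : Fintype.card F = q)
    (n : ℕ) (hn : 2 ≤ n) (hT : (n, q) ≠ (2, 2) ∧ (n, q) ≠ (2, 3))
    (k : ℕ) (hk : k.Prime) (hkn : k ∣ n) (K : Subalgebra F (Matrix (Fin n) (Fin n) F)) (hK : Cfsg.Geo.IsFieldSubalgebra k K) (hkn' : k = n) (hn3 : 3 < n) (hnp : n ≠ p) (hΩ : n ∣ ((Cfsg.Geo.subalgebraNormalizer K).comap (Matrix.SpecialLinearGroup.toGL : Matrix.SpecialLinearGroup (Fin n) F →* GL (Fin n) F)).index) :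
    (∀ x : Matrix.SpecialLinearGroup (Fin n) F,
      (∃ z : F, ((x ^ n : Matrix.SpecialLinearGroup (Fin n) F) : Matrix (Fin n) (Fin n) F) = z • (1 : Matrix (Fin n) (Fin n) F)) →
      (∀ z : F, (x : Matrix (Fin n) (Fin n) F) ≠ z • (1 : Matrix (Fin n) (Fin n) F)) →
      ∃ P : Matrix.SpecialLinearGroup (Fin n) F, P⁻¹ * x * P ∈ ((Cfsg.Geo.subalgebraNormalizer K).comap (Matrix.SpecialLinearGroup.toGL : Matrix.SpecialLinearGroup (Fin n) F →* GL (Fin n) F))) ↔
    orderOf (q : ZMod n) = n - 1 := by
  subst hq hkn'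
  have := Fact.mk hk
  have hV : finrank F (Fin k → F) = k := by simp
  have : Nonempty (Fin k) := ⟨⟨0, by omega⟩⟩
  have hK' : Geo.IsFieldSubalgebra (Fintype.card (Fin k)) K := by simpa
  have hk' : (Fintype.card (Fin k)).Prime := by simpa
  rw [el_comap, el_iff (p := p) hk (.inr hnp)]
  by_cases h : k ∣ Fintype.card F - 1
  · obtain ⟨y, ζ, -, h1, h2, -, -, -, h3, -⟩ := exists_two (V := Fin k → F) (e := k - 2) (by omega) h (by omega)
    refine iff_of_false (fun H => h2.2 1 (by simpa using eq_one_fld hK' hk' (H y h1 h2) (by omega))) fun h1 => ?_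
    rw [(orderOf_eq_one_iff_dvd (F := F)).2 h] at h1
    omega
  refine ⟨fun H => by_contra fun h1 => ?_, fun h1 => (forall_po_two hk h smul_fld).2 fun y h2 h3 => ?_⟩
  · obtain ⟨c, hc⟩ := ZMod.orderOf_dvd_card_sub_one (a := (Fintype.card F : ZMod k))
      (mt (ZMod.natCast_eq_zero_iff _ _).1 (not_dvd_card_of_ne hk hnp))
    have := orderOf_card_pos (F := F) hnp
    have : orderOf (Fintype.card F : ZMod k) + 2 ≤ k := by
      obtain ⟨m, hm⟩ := hk.odd_of_ne_two (by omega)
      rcases c with _ | _ | c
      · omega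
      · omega
      · rw [mul_add, mul_add] at hc; omega
    obtain ⟨y, A, -, h2, h3, -, -, -, -, h4⟩ := exists_orb_end (V := Fin k → F) hnp h (l := 1)
      (e := k - orderOf (Fintype.card F : ZMod k)) one_pos (by omega)
    exact h3.2 1 (by simpa using eq_one_fld hK' hk' (H y h2 h3) (by omega))
  obtain ⟨b, h4, h5, h6, -⟩ := exists_frob_fld hK'
  rw [Fintype.card_fin] at h5 h6
  exact h4.of_sim (sim_of_rts (cast_ne_zero_of_ne hk hnp) h2 h5 ((rts_eq_nthRoots hnp (by omega) h2 h3 hV h1).trans h6.symm))

end Cfsg.Agent.S5970
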