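import Cfsg.Statements.S5971
import Cfsg.Agent.H28.Elu17

set_option autoImplicit false
open scoped MatrixGroups
open Cfsg

namespace Cfsg.Agent.S5971

open H28 H12 H13 Module Matrix

theorem t1 : ∀ a b c : ZMod 3, ({a, b, c} : Multiset (ZMod 3)).map (-·) = {a, b, c} →
    ({a, b, c} : Multiset (ZMod 3)) = .replicate 3 0 ∨ ({a, b, c} : Multiset (ZMod 3)).Nodup := by decide +kernel

theorem t2 : ∀ a b c : ZMod 3, (∃ m, ({a, b, c} : Multiset (ZMod 3)).map (m - ·) = {a, b, c}) ∨
    ∃ s d, d ≠ 0 ∧ ({a, b, c} : Multiset (ZMod 3)).map (s + ·) = {d} + .replicate 2 0 := by decide +kernel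

theorem t3 : orderOf (2 : ZMod 3) = 2 := orderOf_eq_prime (by decide) (by decide)

/-- Elements of order 3 of PSL_3(q) and the normalizer of a Singer cycle. Here `T = PSL_n(F)` for a field `F` with `q = p^f` elements (`n ≥ 2`, `(n, q) ≠ (2, 2), (2, 3)`), `k` is a prime dividing `n`, `K` is a subalgebra of the `n × n` matrices that is a field of degree `k` over `F` (an extension-field structure F_{q^k} on `F^n`), and `H` is the subgroup of matrices of determinant 1 normalizing `K` — a subgroup of type GL_{n/k}(q^k) (maximal except in some small cases; maximality is not assumed); Ω is the set of cosets of `H` in `T`, so an element of `T` of prime order `r` (a matrix `x` of determinant 1 with `x^r` scalar, `x` not scalar) fixes a point of Ω when some conjugate of `x` by a matrix of determinant 1 normalizes `K`. Take `n = k = 3` and suppose 3 divides the index of `H`. Then every element of `T` of order 3 is conjugate in `T` into `H` if and only if `q ≡ 4, 7` or `8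 (mod 9)`. -/
theorem result {F : Type*} [Field F] [Fintype F] {p : ℕ} [Fact p.Prime] [CharP F p] {q : ℕ} (hq : Fintype.card F = q)
    (n : ℕ) (hn : n = 3) (k : ℕ) (hk : k.Prime) (hkn : k ∣ n) (K : Subalgebra F (Matrix (Fin n) (Fin n) F)) (hK : Cfsg.Geo.IsFieldSubalgebra k K) (hk3 : k = 3) (hΩ : 3 ∣ ((Cfsg.Geo.subalgebraNormalizer K).comap (Matrix.SpecialLinearGroup.toGL : Matrix.SpecialLinearGroup (Fin n) F →* GL (Fin n) F)).index) :
    (∀ x : Matrix.SpecialLinearGroup (Fin n) F,
      (∃ z : F, ((x ^ 3 : Matrix.SpecialLinearGroup (Fin n) F) : Matrix (Fin n) (Fin n) F) = z • (1 : Matrix (Fin n) (Fin n) F)) →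
      (∀ z : F, (x : Matrix (Fin n) (Fin n) F) ≠ z • (1 : Matrix (Fin n) (Fin n) F)) →
      ∃ P : Matrix.SpecialLinearGroup (Fin n) F, P⁻¹ * x * P ∈ ((Cfsg.Geo.subalgebraNormalizer K).comap (Matrix.SpecialLinearGroup.toGL : Matrix.SpecialLinearGroup (Fin n) F →* GL (Fin n) F))) ↔
    (q % 9 = 4 ∨ q % 9 = 7 ∨ q % 9 = 8) := by
  subst hq hn hk3
  have := Fact.mk hk
  have hV : finrank F (Fin 3 → F) = 3 := by simp
  have hK' : Geo.IsFieldSubalgebra (Fintype.card (Fin 3)) K := hK
  have h0 := fun y => eq_one_fld (y := y) hK' hk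
  obtain ⟨b, b1, b2, b3, b4⟩ := exists_frob_fld hK'
  rw [Fintype.card_fin] at b2 b3 b4
  rw [index_comap_toGL] at hΩ
  rw [el_comap]
  by_cases hp : 3 = p
  · subst hp
    obtain ⟨u, -, h2, h3, -, -, h4⟩ := exists_tv (p := 3) (e := 1) hV.symm
    refine iff_of_false (fun H => h3.2 1 (by simpa using h0 u (H.ci u h2 h3) h4)) ?_
    have := (CharP.cast_eq_zero_iff F 3 _).1 (FiniteField.cast_card_eq_zero F)
    omega
  rw [el_iff (p := p) hk (.inr hp)]
  have h3 := cast_ne_zero_of_ne (F := F) hk hp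
  have h4 := not_dvd_card_of_ne (F := F) hk hp
  have hq := Fintype.one_lt_card (α := F)
  by_cases h : 3 ∣ Fintype.card F - 1
  · obtain ⟨χ, C⟩ := exists_chi h
    rw [inv_case (by decide) h hV.ge (by omega) smul_fld (fun _ y h5 h6 => ?_) fun y h5 h6 => ?_]
    · have h1 := padicValNat_dvd_iff_le (p := 3) (n := 1) (Nat.sub_pos_of_lt hq).ne'
      have h2 := padicValNat_dvd_iff_le (p := 3) (n := 2) (Nat.sub_pos_of_lt hq).ne'
      omega
    all_goals
      obtain ⟨E, h7, h8⟩ := C.exists_map h5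
      obtain ⟨a, b, c, rfl⟩ := Multiset.card_eq_three.1 (h8.trans hV)
    · obtain h9 | h9 := t1 a b c (Multiset.map_injective C.inj (by
        rw [← h7, ← h6, h7, Multiset.map_map, Multiset.map_map]
        exact Multiset.map_congr rfl fun x _ => AddChar.map_neg_eq_inv _ _))
      · exact ⟨1, one_mem _, by
          simpa [End.one_eq_id] using sim_of_rts h3 h5 (one_pow _) (b := 1) (by rw [h7, h9, rts_one, hV]; simp)⟩
      · exact b1.of_sim (sim_of_rts h3 h5 b2 (b3 ▸ eq_nthRoots (by simp) (h7 ▸ h9.map C.inj)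
          (fun x => pow_eq_one_of_mem_rts h5) ((card_rts y).trans hV)))
    obtain ⟨m, h9⟩ | ⟨s, d, h9, h10⟩ := t2 a b c
    · refine ⟨χ m, ?_⟩
      rw [St, h7]
      conv_rhs => rw [← h9]
      rw [Multiset.map_map, Multiset.map_map]
      exact Multiset.map_congr rfl fun x _ => by simp [AddChar.map_sub_eq_div, div_eq_mul_inv]
    obtain ⟨w, hw⟩ := C.mem s
    have h11 : w ≠ 0 := fun h => (χ.val_isUnit _).ne_zero (by rw [← hw, h, map_zero])
    obtain ⟨y', h12, h13, -, h14, h15⟩ := C.exists_fix (V := Fin 3 → F) {d} (e := 2) (by simp)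
    refine ((h15 d (by simp) 0 (by simp) h9).2 1
      ((h0 y' ((smul_fld w h11 y h6).of_sim (sim_of_rts h3 h12 ?_ ?_)) h14).trans (one_smul _ _).symm)).elim
    · rw [_root_.smul_pow, h5, (algebraMap F (AlgebraicClosure F)).injective (by rw [map_pow, hw, chi_pow, map_one] :
        algebraMap F _ (w ^ 3) = algebraMap F _ 1), one_smul]
    · rw [rts_smul h11, h13, ← h10, h7, hw, Multiset.map_map, Multiset.map_map]
      exact Multiset.map_congr rfl fun x _ => AddChar.map_add_eq_mul _ _ _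
  have h5 : Fintype.card F % 3 = 2 := by omega
  refine iff_of_true ((forall_po_two hk h smul_fld).2 fun y h1 h2 => b1.of_sim (sim_of_rts h3 h1 b2
    ((rts_eq_nthRoots hp (by omega) h1 h2 hV ?_).trans b3.symm))) ?_
  · rw [← ZMod.natCast_mod, h5]
    exact t3
  obtain ⟨g, h6, h7⟩ := b1
  have h8 : orderOf g = 3 := orderOf_eq_prime (Units.ext (toLin'.injective (by
    rw [Units.val_pow_eq_pow_val, toLin'_pow, (h7.pow 3).eq_one_iff.1 b2]; simp [End.one_eq_id])))
    fun h => b4 (by simp) (h7.eq_one_iff.2 (by simp [h, End.one_eq_id]))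
  have h9 := relIndex_mul_dvd (Subgroup.zpowers g).subtype Subtype.val_injective fun s => Subgroup.zpowers_le_of_mem
    (Subgroup.mem_inf.2 ⟨h6, mem_specialLinear.2 (eq_one_of_pow_of_not_dvd hk h (by
      rw [← det_pow, ← Units.val_pow_eq_pow_val, orderOf_dvd_iff_pow_eq_one.1 h8.dvd]; simp))⟩) s.2
  obtain ⟨j, hj⟩ := card_specialLinear (F := F) 2
  rw [Nat.card_zpowers, h8, hj, Finset.prod_range_succ, Finset.prod_range_one] at h9
  obtain ⟨t, ht⟩ : ∃ t, Fintype.card F = 3 * t + 2 := ⟨Fintype.card F / 3, by omega⟩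
  have h10 := (Nat.Coprime.pow_left 2 ((hk.coprime_iff_not_dvd).2 (show ¬ 3 ∣ Fintype.card F ^ (1 + 2) - 1 by
    rw [ht, show (3 * t + 2) ^ (1 + 2) = 3 * (9 * t ^ 3 + 18 * t ^ 2 + 12 * t + 2) + 1 + 1 by ring]
    omega))).dvd_of_dvd_mul_right ((Nat.Coprime.pow 2 j ((hk.coprime_iff_not_dvd).2 h4)).dvd_of_dvd_mul_left
      ((pow_two 3 ▸ mul_dvd_mul_right hΩ 3).trans h9))
  rw [ht, show (3 * t + 2) ^ (0 + 2) = 9 * t ^ 2 + 12 * t + 3 + 1 by ring] at h10
  omega

end Cfsg.Agent.S5971
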