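import Cfsg.Statements.S5974
import Cfsg.Agent.H13.EO8

set_option autoImplicit false
open scoped MatrixGroups
open Cfsg

namespace Cfsg.Agent.S5974

open H13 Module

/-- Elements of prime order of PΩ⁺_n(q), n = 2d ≥ 8, with no fixed nondegenerate hyperbolic `m`-space. Here `T = PΩ⁺_n(q)` is realised through `Ω⁺_n(q)`, the commutator subgroup of the isometry group of `Q = Σ xᵢyᵢ` over the field `F` with `q` elements; an element of `T` of prime order `r` is an element `x` of `Ω⁺_n(q)` with `x^r` scalar and `x` not scalar. A hyperbolic `m`-space is a subspace `W` of even dimension `m` on which the polar form of `Q` is nondegenerate and which contains a totally singular subspace of dimension `m/2`. Let `m` be even with `2 ≤ m < n/2`, and let `r` be a prime dividing the number of hyperbolic `m`-spaces, with `r = 2` or `r ≠ p`. For `r ≠ p` let `i` be the multiplicative order of `q` modulo `r`, `c = i` for `i` even and `c = 2i` for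 `i` odd, and write `k = n mod c`, `ℓ' = m mod c`. Then every element of `T` of order `r` fixes some hyperbolic `m`-space if and only if one of: (i) `r = 2` and (`n ≡ 2 (mod 4)`, or `m ≡ 0 (mod 4)`, or `q ≡ 1 (mod 4)`); (ii) `r ≠ p` odd, `i` odd, `c ≤ m` and `k ≥ ℓ'`; (iii) `r ≠ p` odd, `i` even, and either `k = 0` and (`n/i` odd, or `ℓ' = 0` and `m/i` even), or `i ≤ m` and (`k > ℓ' > 0`, or `k = ℓ' > 0` and `(n + m − 2k)/i` even, or `k > ℓ' = 0` and `m/i` even). -/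
theorem result {F : Type*} [Field F] [Fintype F] {p : ℕ} [Fact p.Prime] [CharP F p] {q : ℕ} (hq : Fintype.card F = q)
    (d m : ℕ) (hd : 4 ≤ d) (hm : 2 ≤ m) (hme : Even m) (hmd : m < d)
    (r : ℕ) [Fact r.Prime] (hr : r = 2 ∨ r ≠ p)
    (hrΩ : r ∣ Nat.card {W : Submodule F (Fin d ⊕ Fin d → F) // (Module.finrank F ↥W = m ∧ (∀ u ∈ W, u ≠ 0 → ∃ v ∈ W, QuadraticMap.polar (Cfsg.quadFormPlus d F) u v ≠ 0) ∧
          ∃ U : Submodule F (Fin d ⊕ Fin d → F), U ≤ W ∧ 2 * Module.finrank F ↥U = m ∧ ∀ u ∈ U, Cfsg.quadFormPlus d F u = 0)})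
    (i c : ℕ) (hi : i = orderOf (q : ZMod r)) (hc : c = if Even i then i else 2 * i) :
    (∀ x : GL (Fin d ⊕ Fin d) F, x ∈ Cfsg.Geo.omegaGL (Cfsg.quadFormPlus d F) →
      (∃ z : F, ((x ^ r : GL (Fin d ⊕ Fin d) F) : Matrix (Fin d ⊕ Fin d) (Fin d ⊕ Fin d) F) = z • (1 : Matrix (Fin d ⊕ Fin d) (Fin d ⊕ Fin d) F)) →
      (∀ z : F, (x : Matrix (Fin d ⊕ Fin d) (Fin d ⊕ Fin d) F) ≠ z • (1 : Matrix (Fin d ⊕ Fin d) (Fin d ⊕ Fin d) F)) →
      ∃ W : Submodule F (Fin d ⊕ Fin d → F), (Module.finrank F ↥W = m ∧ (∀ u ∈ W, u ≠ 0 → ∃ v ∈ W, QuadraticMap.polar (Cfsg.quadFormPlus d F) u v ≠ 0) ∧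
          ∃ U : Submodule F (Fin d ⊕ Fin d → F), U ≤ W ∧ 2 * Module.finrank F ↥U = m ∧ ∀ u ∈ U, Cfsg.quadFormPlus d F u = 0) ∧
        W.map (Matrix.toLin' (x : Matrix (Fin d ⊕ Fin d) (Fin d ⊕ Fin d) F)) ≤ W) ↔
    ((r = 2 ∧ ((2 * d) % 4 = 2 ∨ m % 4 = 0 ∨ q % 4 = 1)) ∨
     (r ≠ p ∧ 2 < r ∧ Odd i ∧ c ≤ m ∧ m % c ≤ (2 * d) % c) ∨
     (r ≠ p ∧ 2 < r ∧ Even i ∧
       (((2 * d) % c = 0 ∧ (Odd ((2 * d) / i) ∨ (m % c = 0 ∧ Even (m / i)))) ∨
        (i ≤ m ∧ ((m % c < (2 * d) % c ∧ 0 < m % c) ∨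
                  ((2 * d) % c = m % c ∧ 0 < m % c ∧ Even ((2 * d + m - 2 * ((2 * d) % c)) / i)) ∨
                  (0 < (2 * d) % c ∧ m % c = 0 ∧ Even (m / i))))))) := by
  subst hq
  have hQ := nd_QPlus (m := d) (F := F)
  have hn : finrank F (Fin d ⊕ Fin d → F) = 2 * d := by simp; omega
  have hG : Good (QPlus d F) := good_of_card (by omega)
  have : Nonempty (Fin d) := ⟨⟨0, by omega⟩⟩
  have h0 : ∀ W : Submodule F (Fin d ⊕ Fin d → F), (finrank F W = m ∧ (∀ u ∈ W, u ≠ 0 → ∃ v ∈ W,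
      QuadraticMap.polar (quadFormPlus d F) u v ≠ 0) ∧ ∃ U : Submodule F (Fin d ⊕ Fin d → F), U ≤ W ∧
        2 * finrank F U = m ∧ ∀ u ∈ U, quadFormPlus d F u = 0) ↔ NS (QPlus d F) W m 1 := fun W => by
    rw [← ns_plus_iff (coe_QPlus d F) hme]
    refine and_congr_right fun h => and_congr (forall₃_congr fun u _ _ => ?_)
      (exists_congr fun U => and_congr_right' (h ▸ and_comm))
    simp [QuadraticMap.polar_comm _ u]
  simp only [h0] at hrΩ ⊢
  rw [hQ.omega_iff (coe_QPlus d F)]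
  have hm2 := Nat.even_iff.1 hme
  by_cases hrp : r = p
  · subst hrp
    obtain rfl := hr.resolve_right (not_not.2 rfl)
    rw [hQ.qe_char_two hG hn (y := 0) (x := 0) (δ := 1) (ty_QPlus d) rfl hme (by omega) (by omega)]
    have := Nat.even_iff.1 (even_card_of_two_eq_zero (F := F) CharTwo.two_eq_zero)
    simp
    omega
  by_cases hr2 : r = 2
  · subst hr2
    have h2 : (2 : F) ≠ 0 := Ring.two_ne_zero (ringChar.eq F p ▸ Ne.symm hrp)
    rw [hQ.allO_two_nd h2 (by omega) (by omega), II, hn, ty_QPlus, Nat.mul_div_cancel_left _ two_pos]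
    rcases Nat.even_or_odd d with h1 | h1 <;> rcases Nat.even_or_odd (m / 2) with h3 | h3 <;>
      rcases sgn_cases (odd_card_of_two_ne_zero h2) with h | h | h | h <;>
      simp [h, h1.neg_one_pow, h3.neg_one_pow, hme] <;>
      simp only [Nat.even_iff, Nat.odd_iff] at h1 h3 <;> omega
  have h3 := (Fact.out : r.Prime).two_le.lt_of_ne' hr2
  have hq := card_ne_zero_zmod (F := F) Fact.out hrp
  rw [hQ.qe_nd hr2 hq hi hc hG hn (y := 0) (ty_QPlus d) (δ := 1) (x := 0) rfl (.inl hme) (by omega)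
    (by omega) hrΩ]
  obtain ⟨-, -, h7, -, h6, -, -, h8⟩ := lin_facts (hc ▸ cc_pos hq hi : 0 < c) (2 * d) m
  rcases Nat.mod_two_eq_zero_or_one i with h | h
  · obtain rfl : c = i := by simp [hc, Nat.even_iff, h]
    simp only [show (c + 1) % 2 = 1 by omega, Nat.even_iff, Nat.odd_iff, hr2, Ne, hrp, h3, h, h7,
      not_false_eq_true, true_and, false_and, false_or, zero_ne_one]
    generalize (2 * d + m - 2 * (2 * d % c)) / c = e at *
    generalize 2 * d / c = n', 2 * d % c = k, m / c = m', m % c = l at *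
    omega
  · obtain rfl : c = 2 * i := by simp [hc, Nat.even_iff, h]
    simp only [show (i + 1) % 2 = 0 by omega, Nat.even_iff, Nat.odd_iff, hr2, Ne, hrp, h3, h,
      not_false_eq_true, true_and, false_and, false_or, one_ne_zero, or_false]
    generalize 2 * d % (2 * i) = k, m % (2 * i) = l
    omega

end Cfsg.Agent.S5974
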