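import Cfsg.Statements.S5975
import Cfsg.Agent.H28.Elu18

set_option autoImplicit false
open scoped MatrixGroups
open scoped Matrix
open Cfsg

namespace Cfsg.Agent.S5975

open H28 H12 H13 Module Matrix
set_option maxHeartbeats 1600000

theorem prod_split (f : ℕ → ℕ) {k : ℕ} (hk : 0 < k) (e : ℕ) : ∏ j ∈ Finset.range (k * e), f (j + 1) =
    (∏ j ∈ Finset.range e, f (k * (j + 1))) * ∏ j ∈ Finset.range (k * e) with ¬ k ∣ j + 1, f (j + 1) := by
  rw [← Finset.prod_filter_mul_prod_filter_not _ fun j => k ∣ j + 1]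
  congr 1
  have h : ∀ j, k * (j + 1) - 1 + 1 = k * (j + 1) := fun j => Nat.sub_add_cancel (Nat.mul_pos hk j.succ_pos)
  refine (Finset.prod_bij (fun j _ => k * (j + 1) - 1) (fun j hj => ?_) (fun i _ j _ e => ?_) (fun j hj => ?_)
    fun j _ => by rw [h]).symm
  · have := Nat.mul_le_mul_left k (Finset.mem_range.1 hj)
    have := h j
    simp only [Finset.mem_filter, Finset.mem_range, h, dvd_mul_right, and_true]
    grind
  · exact Nat.succ_injective (Nat.eq_of_mul_eq_mul_left hk ((h i).symm.trans (e ▸ h j)))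
  · obtain ⟨h1, _ | i, h2⟩ := Finset.mem_filter.1 hj
    · omega
    · exact ⟨i, Finset.mem_range.2 (Nat.le_of_mul_le_mul_left (h2 ▸ Finset.mem_range.1 h1) hk), by rw [← h2]; rfl⟩

/-- Elements of prime order of PSp_n(q) and the field-extension subgroups of type Sp_{n/k}(q^k). Here `T = PSp_{2d}(F)` for a field `F` with `q` elements (`d ≥ 2`, `(d, q) ≠ (2, 2)`), realised through the matrices preserving the standard alternating form `f`; `k` is a prime and `K` is a subalgebra of the `2d × 2d` matrices that is a field of degree `k` over `F` whose elements are self-adjoint for `f` and satisfy `f(a v, v) = 0` (so `F^{2d}` becomes a vector space over `K ≅ F_{q^k}` on which `f` is the trace of a `K`-bilinear alternating form); `H` is the subgroup of `T` normalizing `K` — the symplectic maps that are `K`-linear or `K`-semilinear, a subgroup of type Sp_{2d/k}(q^k) (maximality is not assumed). Ω is the set of cosets of `H` in `T`, so an element of `T` of prime order `r`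 (`x ∈ T` with `x^r` scalar, `x` not scalar) fixes a point of Ω exactly when some `T`-conjugate of `x` normalizes `K`. Let `r` be a prime dividing the index of `H`. Then every element of `T` of order `r` fixes a point of Ω if and only if `r = 2`, `d = 2`, `k = 2` and `q` is odd. -/
theorem result {F : Type*} [Field F] [Fintype F] {p : ℕ} [Fact p.Prime] [CharP F p] {q : ℕ} (hq : Fintype.card F = q)
    (d : ℕ) (hd : 2 ≤ d) (hT : (d, q) ≠ (2, 2)) (k : ℕ) (hk : k.Prime)
    (K : Subalgebra F (Matrix (Fin d ⊕ Fin d) (Fin d ⊕ Fin d) F)) (hK : Cfsg.Geo.IsFieldSubalgebra k K)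
    (hKf : Cfsg.Geo.IsSelfAdjointFor (Cfsg.sympForm d F) K) (hKalt : ∀ a ∈ K, ∀ v : Fin d ⊕ Fin d → F, Cfsg.sympForm d F (a *ᵥ v) v = 0)
    (r : ℕ) [Fact r.Prime]
    (hΩ : r ∣ (Cfsg.Geo.subalgebraNormalizer K).relIndex (Cfsg.spGL d F)) :
    (∀ x ∈ Cfsg.spGL d F, (∃ z : F, ((x ^ r : GL (Fin d ⊕ Fin d) F) : Matrix (Fin d ⊕ Fin d) (Fin d ⊕ Fin d) F) = z • (1 : Matrix (Fin d ⊕ Fin d) (Fin d ⊕ Fin d) F)) →
      (∀ z : F, (x : Matrix (Fin d ⊕ Fin d) (Fin d ⊕ Fin d) F) ≠ z • (1 : Matrix (Fin d ⊕ Fin d) (Fin d ⊕ Fin d) F)) →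
      ∃ g ∈ Cfsg.spGL d F, g⁻¹ * x * g ∈ Cfsg.Geo.subalgebraNormalizer K) ↔
    (r = 2 ∧ d = 2 ∧ k = 2 ∧ Odd q) := by
  subst hq
  have hr : r.Prime := Fact.out
  have I := ig_sp (F := F) d
  have hV : finrank F (Fin d ⊕ Fin d → F) = 2 * d := by simp [two_mul]
  have : Nonempty (Fin d ⊕ Fin d) := ⟨.inl ⟨0, by omega⟩⟩
  let := (H18.isField_of_inv K hK.comm hK.inv).toField
  obtain ⟨β, C⟩ := exists_CF (τ := RingHom.id K) I.sd (fun _ => rfl) (fun _ => rfl)
    (fun k x y => by rw [spB_eq, spB_eq]; exact hKf k k.2 x y) (.inr fun k x => by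
      rw [spB_eq]; exact (hKf k k.2 x x).symm.trans (hKalt k k.2 x))
  obtain ⟨e, he⟩ := C.sdK.even_finrank
  have h1 := finrank_mul_finrank F K (Fin d ⊕ Fin d → F)
  rw [hK.finrank_eq, he, hV, ← two_mul, mul_left_comm] at h1
  obtain rfl : k * e = d := by omega
  have h2 := hk.two_le
  have h3 : k ≤ k * e := Nat.le_mul_of_pos_right _ (Nat.pos_of_ne_zero (by rintro rfl; omega))
  have hc : ∀ c : End K _, Pres β c → ∃ g ∈ Geo.subalgebraNormalizer K, toLin' g.1 = c.restrictScalars F := fun c h =>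
    let ⟨g, hg⟩ := (cf_pres C h).exists_GL I.sd
    ⟨g, mem_normalizer_iff.2 fun k => ⟨k, fun v => (LinearMap.congr_fun hg _).trans ((c.map_smul k v).trans
      (congrArg _ (LinearMap.congr_fun hg v).symm))⟩, hg⟩
  change ELG _ _ r ↔ _
  by_cases hrp : r = p
  · subst hrp
    obtain ⟨u, h4, h5, h6, h7⟩ := exists_sp_tv (p := r) I.sd (by omega)
    refine iff_of_false (fun H => ?_) fun h => ?_
    · obtain ⟨g, h8, -, h9⟩ := I.ci H h4 h5
      exact not_ci_fld hK h2 (by simp; omega) h6 (by simpa using h7) ⟨g, h8, h9⟩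
    · obtain ⟨rfl, -, -, h⟩ := h
      exact absurd (CharP.cast_eq_zero F 2) (H13.two_ne_zero_of_odd_card h)
  have hr0 := cast_ne_zero_of_ne (F := F) hr hrp
  have key : ∀ y, ELG (spGL (k * e) F) (Geo.subalgebraNormalizer K) r → Pres (spB _ F) y → y ^ r = 1 → H28.PO r y →
      (r ≠ k ∨ finrank F (LinearMap.range (y - 1)) < k * e) → 2 * k ∣ finrank F (LinearMap.range (y - 1)) :=
    fun y H h4 h5 h6 h7 => by
      obtain ⟨g, h8, h9, h10⟩ := I.ci H h4 h6
      have h11 := (h10.pow r).eq_one_iff.1 h5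
      have h12 : SmL K (toLin' g.1) := mem_normalizer_iff.1 h8
      rw [h10.finrank_range_sub] at h7 ⊢
      obtain ⟨c, h13, h14⟩ := cf_lift C h9 (h7.elim (fun h => h12.lin_of_coprime (hK.finrank_eq.symm ▸
        (Nat.coprime_primes hr hk).2 h) hr.ne_zero h11) fun h => h12.lin_of_small (h9.inj I.sd) (by omega))
      have := Module.Finite.of_restrictScalars_finite F K (Fin (k * e) ⊕ Fin (k * e) → F)
      rw [← h13, finrank_range_res, hK.finrank_eq, mul_comm]
      exact mul_dvd_mul_left k (even_range C.sdK h14 ⟨r, by simpa using (map_ne_zero (algebraMap F K)).2 hr0,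
        LinearMap.ext fun v => (End.pow_apply c r v).trans ((End.pow_apply (c.restrictScalars F) r v).symm.trans (by
          rw [h13, h11]; rfl))⟩).two_dvd
  obtain rfl | hr2 := eq_or_ne r 2
  · simp only [H13.odd_card_of_two_ne_zero hr0, and_true, true_and]
    refine ⟨fun H => ?_, fun ⟨h4, h5⟩ => I.el_two hr0 (fun t h6 h7 => ?_) ?_⟩
    · obtain ⟨y, h4, h5, h6, h7⟩ := exists_sp_inv I.sd hr0 one_pos (by omega)
      have := fun h => Nat.le_of_dvd two_pos (h7 ▸ key y H h4 h5 h6 (.inr h))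
      omega
    · subst h5
      obtain ⟨ε, hε⟩ := C.sdK.exists_equiv_sp (m := e) (by omega)
      let θ := FiniteField.frobeniusAlgEquivOfAlgebraic F K
      have h8 : orderOf θ = 2 := (FiniteField.orderOf_frobeniusAlgEquivOfAlgebraic F K).trans hK.finrank_eq
      obtain ⟨φ, h9, h10, h11⟩ := exists_semi ε θ.toAlgHom
      replace h11 := h11 (DFunLike.congr_fun (orderOf_dvd_iff_pow_eq_one.1 h8.dvd))
      have h12 : Pres (spB _ F) φ := fun x y => by
        rw [C.map, C.map, ← hε, ← hε, ← Algebra.trace_eq_of_algEquiv θ (spB _ _ (ε x) _)]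
        simp [spB_apply', h9]
      obtain ⟨g, rfl⟩ := h12.exists_GL I.sd
      have h13 : SmL K (toLin' g.1) := fun k => ⟨_, h10 k⟩
      refine ⟨g, mem_normalizer_iff.2 h13, h12, h11, ?_⟩
      obtain ⟨s, hs⟩ := even_range I.sd h12 ⟨2, hr0, h11⟩
      have h14 : ε.symm 1 ≠ 0 := by simpa using fun h => one_ne_zero (congrFun h (.inl ⟨0, by omega⟩))
      have h15 : toLin' g.1 (ε.symm 1) = ε.symm 1 := ε.injective (funext fun i => by rw [h9]; simp)
      have := (toLin' g.1 - 1 : End F _).finrank_range_add_finrank_ker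
      have : finrank F (LinearMap.ker (toLin' g.1 - 1 : End F _)) ≠ 0 :=
        mt Submodule.finrank_eq_zero.1 ((Submodule.ne_bot_iff _).2 ⟨_, sub_eq_zero.2 h15, h14⟩)
      have := mt (h13.lin_of_small (h12.inj I.sd)) fun h => by
        rw [show θ = 1 from AlgEquiv.ext fun k => smul_left_injective K h14 (by simpa [h, h15] using (h10 k (ε.symm 1)).symm),
          orderOf_one] at h8
        omega
      simp at h7
      omega
    · obtain ⟨b, h6, h7⟩ := exists_sml_sp C.sdK (-1)
      rw [neg_neg] at h6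
      obtain ⟨g, h8, h9⟩ := hc b h6.pres
      exact ⟨g, h8, h9 ▸ cf_pres C h6.pres, h9 ▸ LinearMap.ext fun v => by simpa [pow_two] using LinearMap.congr_fun h7 v⟩
  refine iff_of_false (fun H => ?_) fun h => hr2 h.1
  have h4 := I.dvd C.res (fun a b h => UG_ext fun x => by rw [← C.res_apply, h, C.res_apply]) fun s =>
    mem_normalizer_iff.2 fun k => ⟨k, fun v => by rw [glEq_toGL, C.res_apply, C.res_apply, map_smul]⟩
  have h5 : Nat.card K = Fintype.card F ^ k := by
    have := Fintype.ofFinite K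
    rw [Nat.card_eq_fintype_card, @card_eq_pow_finrank F K, hK.finrank_eq]
  have hq := Fintype.one_lt_card (α := F)
  rw [card_UG_sp e C.sdK (by omega), card_UG_sp _ I.sd hV, spOrd, spOrd, h5, Nat.card_eq_fintype_card,
    prod_split (fun j => Fintype.card F ^ (2 * j) - 1) hk.pos, mul_left_comm (_ ^ (k * e) ^ 2), mul_left_comm, mul_comm (Subgroup.relIndex _ _)] at h4
  simp only [← pow_mul, mul_left_comm k] at h4
  have h6 := hΩ.trans (Nat.dvd_of_mul_dvd_mul_left (Finset.prod_pos fun j _ => Nat.sub_pos_of_lt (Nat.one_lt_pow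
    (by positivity) hq)) ((dvd_mul_left _ _).trans h4))
  obtain ⟨j, h7, h8⟩ := (hr.prime.dvd_finsetProd_iff _).1 ((hr.dvd_mul.1 h6).resolve_left
    fun h => not_dvd_card_of_ne hr hrp (hr.dvd_of_dvd_pow h))
  obtain ⟨c, h9, h10, -, -, h11⟩ := exists_sp_ord I.sd hrp hr2
  rw [Finset.mem_filter, Finset.mem_range] at h7
  obtain ⟨y, h12, h13, h14, h15, -⟩ := h11 ((Nat.le_of_dvd (by omega) (h10 _ h8)).trans (by omega))
  exact h7.2 (Nat.dvd_of_mul_dvd_mul_left two_pos ((h15 ▸ key y H h12 h13 h14 (by omega)).trans (h10 _ h8)))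

end Cfsg.Agent.S5975
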