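import Cfsg.Statements.S5976
import Cfsg.Agent.H28.Elu18

set_option autoImplicit false
open scoped MatrixGroups
open Cfsg

namespace Cfsg.Agent.S5976

open H28 H12 H13 Module Matrix

/-- Elements of prime order of PSp_n(q), q odd, and the subgroups of type GU_{n/2}(q). Here `T = PSp_{2d}(F)` for a field `F` with `q` elements, `q` odd, `d ≥ 2`, realised through the matrices preserving the standard alternating form `f`; `K` is a subalgebra of the `2d × 2d` matrices that is a field of degree 2 over `F`, closed under taking adjoints for `f` but not consisting of self-adjoint elements (so `F^{2d}` becomes a `d`-dimensional space over `K ≅ F_{q²}` on which `f` is the trace of a multiple of a non-degenerate hermitian form); `H` is the subgroup of `T` normalizing `K` — the symplectic maps that are `K`-linear or `K`-semilinear, a subgroup of type GU_d(q) (maximality is not assumed). Ω is the set of cosets of `H` in `T`, so an element of `T` of prime order `r` (`x ∈ T` with `x^r`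 scalar, `x` not scalar) fixes a point of Ω exactly when some `T`-conjugate of `x` normalizes `K`. Let `r` be a prime dividing the index of `H`. Then every element of `T` of order `r` fixes a point of Ω if and only if `r = 2`. -/
theorem result {F : Type*} [Field F] [Fintype F] {p : ℕ} [Fact p.Prime] [CharP F p] {q : ℕ} (hq : Fintype.card F = q)
    (hodd : Odd q) (d : ℕ) (hd : 2 ≤ d)
    (K : Subalgebra F (Matrix (Fin d ⊕ Fin d) (Fin d ⊕ Fin d) F)) (hK : Cfsg.Geo.IsFieldSubalgebra 2 K)
    (hKf : Cfsg.Geo.IsAdjointClosedFor (Cfsg.sympForm d F) K) (hKns : ¬ Cfsg.Geo.IsSelfAdjointFor (Cfsg.sympForm d F) K)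
    (r : ℕ) [Fact r.Prime]
    (hΩ : r ∣ (Cfsg.Geo.subalgebraNormalizer K).relIndex (Cfsg.spGL d F)) :
    (∀ x ∈ Cfsg.spGL d F, (∃ z : F, ((x ^ r : GL (Fin d ⊕ Fin d) F) : Matrix (Fin d ⊕ Fin d) (Fin d ⊕ Fin d) F) = z • (1 : Matrix (Fin d ⊕ Fin d) (Fin d ⊕ Fin d) F)) →
      (∀ z : F, (x : Matrix (Fin d ⊕ Fin d) (Fin d ⊕ Fin d) F) ≠ z • (1 : Matrix (Fin d ⊕ Fin d) (Fin d ⊕ Fin d) F)) →
      ∃ g ∈ Cfsg.spGL d F, g⁻¹ * x * g ∈ Cfsg.Geo.subalgebraNormalizer K) ↔ r = 2 := by
  subst hq
  have hr : r.Prime := Fact.out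
  have I := ig_sp (F := F) d
  have hV : finrank F (Fin d ⊕ Fin d → F) = 2 * d := by simp [two_mul]
  have : Nonempty (Fin d ⊕ Fin d) := ⟨.inl ⟨0, by omega⟩⟩
  let := (H18.isField_of_inv K hK.comm hK.inv).toField
  have := Fintype.ofFinite K
  have := Module.Finite.of_restrictScalars_finite F K (Fin d ⊕ Fin d → F)
  have hF : Fintype.card K = Fintype.card F ^ 2 := by rw [@card_eq_pow_finrank F K, hK.finrank_eq]
  have hτ := frobq_ne_id hF
  obtain ⟨β, C⟩ := exists_CF (τ := frobq hF) I.sd (frobq_frobq hF) (fun c => by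
      rw [frobq_apply, ← map_pow, FiniteField.pow_card]; rfl) (exists_adj_frob I.sd hK.finrank_eq (fun k =>
        let ⟨k', h1, h2⟩ := hKf k k.2; ⟨⟨k', h1⟩, fun u v => by rw [spB_eq, spB_eq]; exact h2 u v⟩)
          fun h => hKns fun k hk u v => by rw [← spB_eq, ← spB_eq]; exact h ⟨k, hk⟩ u v) (.inl hτ)
  have h1 := finrank_mul_finrank F K (Fin d ⊕ Fin d → F)
  rw [hK.finrank_eq, hV] at h1
  replace h1 : finrank K (Fin d ⊕ Fin d → F) = d := by omega
  have h2 := H13.two_ne_zero_of_odd_card hodd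
  have hc : ∀ c : End K _, Pres β c → ∃ g ∈ Geo.subalgebraNormalizer K, toLin' g.1 = c.restrictScalars F := fun c h =>
    let ⟨g, hg⟩ := (cf_pres C h).exists_GL I.sd
    ⟨g, mem_normalizer_iff.2 fun k => ⟨k, fun v => (LinearMap.congr_fun hg _).trans ((c.map_smul k v).trans
      (congrArg _ (LinearMap.congr_fun hg v).symm))⟩, hg⟩
  change ELG _ _ r ↔ _
  obtain rfl | hr2 := eq_or_ne r 2
  · have h3 : (2 : K) ≠ 0 := by rw [← map_ofNat (algebraMap F K) 2]; exact (map_ne_zero _).2 h2
    refine iff_of_true (I.el_two h2 (fun t h4 h5 => ?_) ?_) rfl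
    · obtain ⟨c, h6, h7, h8⟩ := RS.exists C.sdK ((rs_replicate C.sdK.invol (c := -1) (e := t) (by simp) fun h => (hτ h).elim).add
        (rs_replicate C.sdK.invol (c := 1) (e := d - t) (by simp) fun h => (hτ h).elim)) (by simp at h5 ⊢; omega)
      rw [map_neg, map_one] at h8
      have h9 : c ^ 2 = (1 : K) • 1 := h7.pow_eq (by simp +contextual [h8, Multiset.mem_replicate, or_imp])
      obtain ⟨g, h10, h11⟩ := hc c h6
      refine ⟨g, h10, h11 ▸ cf_pres C h6, h11 ▸ LinearMap.ext fun v => by simpa [pow_two] using LinearMap.congr_fun h9 v, ?_⟩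
      rw [h11, finrank_range_res, hK.finrank_eq, finrank_range_eq h3 (by simpa using h9) (fun x hx => by
        simp [Multiset.eq_of_mem_replicate hx, neg_one_ne_one_cl h3]) h8, Multiset.card_replicate]
    obtain ⟨c, h4, h5⟩ := exists_skew hτ C.sdK.invol
    obtain ⟨ε, hε⟩ := C.sdK.exists_equiv_std hτ h4 h5 rfl
    obtain ⟨φ, h6, h7, h8⟩ := exists_semi ε (FiniteField.frobeniusAlgHom F K)
    obtain ⟨k, hk⟩ := (C.sdK.ns.resolve_left hτ) (-1) (by simp)
    have h9 : ∀ x, FiniteField.frobeniusAlgHom F K x = frobq hF x := fun _ => rfl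
    simp only [h9] at h6 h7 h8
    let b : End F _ := (LinearMap.lsmul K _ k).restrictScalars F ∘ₗ φ
    have h10 : Pres (spB _ F) b := fun x y => by
      have : β (φ x) (φ y) = -frobq hF (β x y) := by simp [← hε, stdB_apply, h6, h5]
      rw [← cf_tau C x y, C.map]
      simp [b, LinearMap.map_smulₛₗ₂, this, ← mul_assoc, (mul_comm k (frobq hF k)).trans hk]
    obtain ⟨g, hg⟩ := h10.exists_GL I.sd
    refine ⟨g, mem_normalizer_iff.2 fun l => ⟨frobq hF l, fun v => ?_⟩, hg ▸ h10, hg ▸ LinearMap.ext fun v => ?_⟩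
    · exact (LinearMap.congr_fun hg _).trans (.trans (by simp [b, h7, smul_comm k]) (congrArg _ (LinearMap.congr_fun hg v).symm))
    · simpa [b, pow_two, h7, smul_smul, mul_comm k, hk] using LinearMap.congr_fun (h8 (frobq_frobq hF)) v
  refine iff_of_false (fun H => ?_) hr2
  by_cases hrp : r = p
  · subst hrp
    obtain ⟨u, h4, h5, h6, h7⟩ := exists_sp_tv (p := r) I.sd (by omega)
    obtain ⟨g, h8, -, h9⟩ := I.ci H h4 h5
    exact not_ci_fld hK le_rfl (by simp; omega) h6 (by simpa using h7) ⟨g, h8, h9⟩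
  have h4 := I.dvd C.res (fun a b h => UG_ext fun x => by rw [← C.res_apply, h, C.res_apply]) fun s =>
    mem_normalizer_iff.2 fun k => ⟨k, fun v => by rw [glEq_toGL, C.res_apply, C.res_apply, map_smul]⟩
  have hq := Fintype.one_lt_card (α := F)
  have h5 : ∀ j, 1 < Fintype.card F ^ (j + 1) := fun j => Nat.one_lt_pow (by omega) hq
  rw [C.sdK.card_UG_unitary hτ, card_UG_sp _ I.sd hV, q0_frobq, h1, spOrd, guOrd, Nat.card_eq_fintype_card,
    mul_left_comm] at h4
  obtain ⟨j, h6, h7⟩ := exists_dvd_of_mul (f := fun j => if Even j then Fintype.card F ^ (j + 1) + 1 else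
    Fintype.card F ^ (j + 1) - 1) (g := fun j => if Even j then Fintype.card F ^ (j + 1) - 1 else
    Fintype.card F ^ (j + 1) + 1) hr (fun j => by have := h5 j; split_ifs <;> omega) (not_dvd_card_of_ne hr hrp) (((dvd_mul_left _ _).trans h4).trans
      (congrArg _ (Finset.prod_congr rfl fun j _ => by
        rw [mul_comm 2, pow_mul, ← one_pow 2, Nat.sq_sub_sq]
        split_ifs <;> simp [mul_comm])).dvd) hΩ
  have h8 : (-Fintype.card F : ZMod r) ^ (j + 1) = -1 := by
    rw [← ZMod.natCast_eq_zero_iff] at h7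
    split_ifs at h7 with h
    · rw [Nat.cast_sub (h5 j).le, sub_eq_zero] at h7
      rw [h.add_one.neg_pow]; exact_mod_cast congrArg Neg.neg h7
    · rw [(Nat.not_even_iff_odd.1 h).add_one.neg_pow]; push_cast at h7; linear_combination h7
  have h9 : orderOf (-Fintype.card F : ZMod r) ∣ 2 * (j + 1) := orderOf_dvd_of_pow_eq_one (by rw [pow_mul', h8]; simp)
  obtain ⟨c, -, -, h10, -, h11⟩ := exists_sp_ord I.sd hrp hr2
  obtain rfl := h10 (by_contra fun h => Ring.neg_one_ne_one_of_char_ne_two (R := ZMod r) (by rwa [ZMod.ringChar_zmod_n])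
    (h8.symm.trans (orderOf_dvd_iff_pow_eq_one.1 ((Nat.not_even_iff_odd.1 h).coprime_two_right.dvd_of_dvd_mul_left h9))))
  obtain ⟨y, h12, h13, h14, h15, -⟩ := h11 ((Nat.le_of_dvd (by omega) h9).trans (by omega))
  obtain ⟨g, h16, h17, h18⟩ := I.ci H h12 h14
  have h19 := (h18.pow r).eq_one_iff.1 h13
  obtain ⟨c, h20, h21⟩ := cf_lift C h17 (SmL.lin_of_coprime (mem_normalizer_iff.1 h16) (hK.finrank_eq.symm ▸
    (Nat.coprime_primes hr Nat.prime_two).2 hr2) hr.ne_zero h19)
  have h22 : c ^ r = 1 := LinearMap.ext fun v => (End.pow_apply c r v).trans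
    ((End.pow_apply (c.restrictScalars F) r v).symm.trans (by rw [h20, h19]; rfl))
  have : CharP K p := charP_of_injective_algebraMap (algebraMap F K).injective p
  obtain ⟨ρ, hρ, -⟩ := exists_frob_pow hF
  have P := per_u hrp hr2 hF hρ
  obtain ⟨N, e, h23, h24, h25, -, h26⟩ := P.split C.sdK h21 h22
  rw [h18.finrank_range_sub, ← h20, finrank_range_res, hK.finrank_eq, finrank_range_eq P.ne h22 h24 h23] at h15
  have := P.pos
  have := Nat.le_of_dvd (by omega) (P.dvd h24 h25)
  omega

end Cfsg.Agent.S5976
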