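import Cfsg.Statements.S5979
import Cfsg.Agent.H28.Elu17

set_option autoImplicit false
open scoped MatrixGroups
open Cfsg

namespace Cfsg.Agent.S5979

open H28 H12 H13 Module Matrix
open scoped Kronecker

/-- Elements of prime order of PSL_n(q) and the stabilizers of tensor decompositions with factors of different dimensions. Here `T = PSL_n(F)` for a field `F` with `q` elements and `n = a·b` with `2 ≤ a < b`; a tensor decomposition `F^n ≅ F^a ⊗ F^b` is given by a bijection `e` of index sets and a change of basis `P`, and `H` is the subgroup of matrices of determinant 1 in its stabilizer (the conjugate by `P` of the group of Kronecker products `g₁ ⊗ g₂`) — a subgroup of type GL_a(q) ⊗ GL_b(q) (maximality is not assumed); Ω is the set of cosets of `H` in `T`, so an element of `T` of prime order `r` (a matrix `x` of determinant 1 with `x^r` scalar, `x` not scalar) fixes a point of Ω exactly when some conjugate of `x` by a matrix of determinant 1 lies in `H`. Let `r` be a prime dividing the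 index of `H`. Then every element of `T` of order `r` fixes a point of Ω if and only if `r = 2`, `a = 2`, `q` is odd and `(q − 1)_2 ≤ (n)_2` (2-parts). -/
theorem result {F : Type*} [Field F] [Fintype F] {p : ℕ} [Fact p.Prime] [CharP F p] {q : ℕ} (hq : Fintype.card F = q)
    (n a b : ℕ) (hab : n = a * b) (ha : 2 ≤ a) (hlt : a < b) (e : Fin n ≃ Fin a × Fin b) (P : GL (Fin n) F)
    (r : ℕ) [Fact r.Prime]
    (hΩ : r ∣ (Cfsg.Geo.tensorProductSubgroup a b e P).relIndex (Cfsg.Geo.specialLinear (Fin n) F)) :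
    (∀ x ∈ Cfsg.Geo.specialLinear (Fin n) F, (∃ z : F, ((x ^ r : GL (Fin n) F) : Matrix (Fin n) (Fin n) F) = z • (1 : Matrix (Fin n) (Fin n) F)) →
      (∀ z : F, (x : Matrix (Fin n) (Fin n) F) ≠ z • (1 : Matrix (Fin n) (Fin n) F)) →
      ∃ g ∈ Cfsg.Geo.specialLinear (Fin n) F, g⁻¹ * x * g ∈ Cfsg.Geo.tensorProductSubgroup a b e P) ↔
    (r = 2 ∧ a = 2 ∧ Odd q ∧ padicValNat 2 (q - 1) ≤ padicValNat 2 n) := by
  classical
  subst hq
  have hr : r.Prime := Fact.out
  have hV : finrank F (Fin n → F) = n := by simp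
  have hn : 2 * b ≤ n := hab ▸ Nat.mul_le_mul_right b ha
  obtain ⟨m, hm⟩ : ∃ m, 2 + m = n := Nat.exists_eq_add_of_le (show 2 ≤ n by omega) |>.imp fun _ => Eq.symm
  have h0 : ∀ {y : End F (Fin n → F)} {x k}, (∃ M, rts y = a • M) → (rts y).count x = k → 0 < k → a ≤ k := by
    rintro y x k ⟨M, h⟩ rfl h1
    exact Nat.le_of_dvd h1 ⟨M.count x, by simp [h]⟩
  change EL _ r ↔ _
  by_cases hrp : r = p
  · subst hrp
    obtain ⟨u, -, h2, h3, -, -, h4⟩ := exists_tv (p := r) (hm.trans hV.symm)
    refine iff_of_false (fun H => ?_) fun h => ?_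
    · obtain ⟨g, h5, h6, U, h7, h8⟩ := (H.ci u h2 h3).small
      exact H18.not_mem_tensor_of_small (by simp; omega) (by simp at h8; omega) h7 (not_forall.1 fun e =>
        h3.2 1 (by simpa using h6.eq_one_iff.2 (LinearMap.ext e))) ha (by omega) e P h5
    · obtain ⟨rfl, -, h, -⟩ := h
      exact absurd (CharP.cast_eq_zero F 2) (H13.two_ne_zero_of_odd_card h)
  rw [el_iff (p := p) hr (.inr hrp)]
  by_cases h : r ∣ Fintype.card F - 1
  swap
  · refine iff_of_false (fun H => ?_) fun h1 => h (by rw [h1.1]; have := Nat.odd_iff.1 h1.2.2.1; omega)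
    have h1 := ord_le_of_dvd (by omega) (not_dvd_card_of_ne hr hrp) hΩ
    obtain ⟨y, A, h2, h3, h4, h5, h6, h7, h8, h9⟩ := exists_orb_end (V := Fin n → F) hrp h (l := 1)
      (e := n - orderOf (Fintype.card F : ZMod r)) one_pos (by omega)
    obtain ⟨x, hx⟩ := Multiset.card_pos_iff_exists_mem.1 (h8 ▸ orderOf_card_pos hrp)
    have := h0 (x := x) (k := 1) ((lt_or_ge a (orderOf (Fintype.card F : ZMod r))).elim (ten_big hrp (by omega) h (H y h3 h4) h2)
      fun h => ten_small (H y h3 h4) (by simp; omega)) (by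
        simp [h5, Multiset.count_eq_one_of_mem h7 hx, Multiset.count_replicate, (h6 x hx).2.symm]) one_pos
    omega
  obtain rfl | hr2 := eq_or_ne r 2
  swap
  · obtain ⟨y, ζ, -, h1, h2, h3, h4, h5, h6, -⟩ := exists_two hr2 h (hm.trans hV.symm)
    refine iff_of_false (fun H => ?_) fun h => hr2 h.1
    have := h0 (x := ζ) (k := 1) (ten_small (H y h1 h2) (by simp; omega)) (by
      simp [h3, Multiset.count_replicate, h4.symm, h5]) one_pos
    omega
  have h2 : (2 : F) ≠ 0 := cast_ne_zero_of_ne (p := p) hr hrp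
  have h12 : (1 : AlgebraicClosure F) ≠ -1 := fun h => (map_ne_zero (algebraMap F (AlgebraicClosure F))).2 h2 (by
    rw [map_ofNat]; linear_combination h)
  simp only [H13.odd_card_of_two_ne_zero h2, true_and]
  constructor
  · refine fun H => ⟨?_, by_contra fun h1 => ?_⟩
    · obtain ⟨y, h3, h4, h5⟩ := exists_fix (F := F) (V := Fin n → F) (M := {-1, -1}) (k := 2) (e := m) (st_of_fix (by
        simp [(H13.odd_card_of_two_ne_zero h2).neg_one_pow])) (by simp) (by simpa)
      have := h0 (x := -1) (k := 2) (ten_small (H y ((algebraMap F (AlgebraicClosure F)).injective (by simp [← prod_rts, h4]))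
        (po_of_rts (z := 1) (by simpa) (x := 1) (x' := -1) (by simp [h4, Multiset.mem_replicate]; omega) (by simp [h4]) h12))
        (by simp; omega)) (by simp [h4, Multiset.count_replicate, h12]) two_pos
      omega
    · obtain ⟨w, y, h3, -, h5, h6, h7, h8⟩ := exists_refl h2 (hm.trans hV.symm) (by rw [hV]; omega)
      have := h0 (x := -1) (k := 1) (ten_small (inv_smul_smul₀ h3 y ▸ smul_ten _ (inv_ne_zero h3) _ (H _ h5 h6))
        (by simp; omega)) (by simp [h7, Multiset.count_replicate, h12, h12.symm]) one_pos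
      omega
  rintro ⟨rfl, h1⟩ y h3 h4
  obtain ⟨w, hw, y, rfl, h4, -⟩ | ⟨z, h4, h5⟩ := po_cases two_ne_zero (inj_of_det (h3 ▸ one_ne_zero)) h4
  · obtain ⟨s, t, h5, h6, h7⟩ := rts_inv h4
    obtain ⟨t, rfl⟩ := even_of_det' h2 (by omega) (hV.symm ▸ h1) h7 h3
    obtain ⟨s, rfl⟩ : 2 ∣ s := by omega
    obtain ⟨B, -, h8, h9⟩ := exists_inv_sml (F := F) (L := F) (V := Fin b → F) (s := s) (t := t) (by simp; omega)
    obtain ⟨B, rfl⟩ := toLin'.surjective B
    have h10 : B ^ 2 = 1 := by simpa using (toLin'_pow_eq_smul B 2 (1 : F)).1 (by simpa using h8)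
    refine smul_ten w hw _ (ci_ten (A := 1) (B := B) (by simp) (ne_zero_pow two_ne_zero (by simp [← det_pow, h10]))
      (sim_of_rts h2 h4 (((toLin'_pow_eq_smul _ 2 (1 : F)).2 (by simp [kron_pow, h10])).trans (one_smul _ _)) ?_))
    simp [rts_one_kron, h5, h9, Multiset.nsmul_replicate, two_mul]
  · obtain ⟨A, h6, -⟩ := exists_nonpow_end (V := Fin 2 → F) (k := 1) hr h4 (by simp) one_ne_zero
    obtain ⟨A, rfl⟩ := toLin'.surjective A
    have h7 := (toLin'_pow_eq_smul _ _ _).1 h6
    exact ci_ten (A := A) (B := 1) (ne_zero_pow two_ne_zero (by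
      simpa [← det_pow, h7] using fun h => h4 0 (by simp [h]))) (by simp) (sim_of_nonpow hr h4 h5
        ((toLin'_pow_eq_smul _ _ _).2 (by simp [kron_pow, h7, smul_kronecker])) (by simp [hab]))

end Cfsg.Agent.S5979
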