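import Cfsg.Statements.S5980
import Cfsg.Agent.H28.Elu18

set_option autoImplicit false
open scoped MatrixGroups
open Cfsg

namespace Cfsg.Agent.S5980

open H28 H12 H13 Module Matrix
open scoped Kronecker

/-- Elements of prime order of PSp_n(q), q odd, and the stabilizers of tensor decompositions Sp_a(q) ⊗ O_b(q). Here `T = PSp_{2d}(F)` for a field `F` with `q` elements, `q` odd, `d ≥ 2`, realised through the matrices preserving the standard alternating form `f`; `2d = a·b` with `a` even, `b ≥ 3`, and the bijection `e` and change of basis `P` exhibit `f` as a non-zero scalar multiple of the tensor product of a non-degenerate alternating form `f₁` on `F^a` and a non-degenerate symmetric bilinear form `f₂` on `F^b`; `H` is the subgroup of `T` stabilizing this tensor decomposition (the elements of `T` in the conjugate by `P` of the group of Kronecker products) — a subgroup of type Sp_a(q) ⊗ O^ε_b(q) (maximality is not assumed). Ω is the set of cosets of `H` in `T`,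 so an element of `T` of prime order `r` (`x ∈ T` with `x^r` scalar, `x` not scalar) fixes a point of Ω exactly when some `T`-conjugate of `x` lies in `H`. Let `r` be a prime dividing the index of `H`. Then every element of `T` of order `r` fixes a point of Ω if and only if `r = 2` and `a = 2`. -/
theorem result {F : Type*} [Field F] [Fintype F] {p : ℕ} [Fact p.Prime] [CharP F p] {q : ℕ} (hq : Fintype.card F = q)
    (hodd : Odd q) (d : ℕ) (hd : 2 ≤ d) (a b : ℕ) (hab : 2 * d = a * b) (ha : Even a) (ha2 : 2 ≤ a) (hb : 3 ≤ b)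
    (e : (Fin d ⊕ Fin d) ≃ Fin a × Fin b) (P : GL (Fin d ⊕ Fin d) F)
    (f₁ : (Fin a → F) → (Fin a → F) → F) (f₂ : (Fin b → F) → (Fin b → F) → F)
    (hf₁ : Cfsg.Geo.IsSymplecticForm f₁) (hf₂ : Cfsg.Geo.IsSymmetricForm f₂)
    (hS : Cfsg.Geo.IsTensorFormStructure id (Cfsg.sympForm d F) f₁ f₂ e P)
    (r : ℕ) [Fact r.Prime]
    (hΩ : r ∣ (Cfsg.Geo.tensorProductSubgroup a b e P).relIndex (Cfsg.spGL d F)) :
    (∀ x ∈ Cfsg.spGL d F, (∃ z : F, ((x ^ r : GL (Fin d ⊕ Fin d) F) : Matrix (Fin d ⊕ Fin d) (Fin d ⊕ Fin d) F) = z • (1 : Matrix (Fin d ⊕ Fin d) (Fin d ⊕ Fin d) F)) →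
      (∀ z : F, (x : Matrix (Fin d ⊕ Fin d) (Fin d ⊕ Fin d) F) ≠ z • (1 : Matrix (Fin d ⊕ Fin d) (Fin d ⊕ Fin d) F)) →
      ∃ g ∈ Cfsg.spGL d F, g⁻¹ * x * g ∈ Cfsg.Geo.tensorProductSubgroup a b e P) ↔ (r = 2 ∧ a = 2) := by
  subst hq
  have hr : r.Prime := Fact.out
  have I := ig_sp (F := F) d
  have hV : finrank F (Fin d ⊕ Fin d → F) = 2 * d := by simp [two_mul]
  have hn : Fintype.card (Fin d ⊕ Fin d) = 2 * d := by simp [two_mul]
  have h2 := H13.two_ne_zero_of_odd_card hodd
  have hI : ∀ {y}, ELG (spGL d F) (Geo.tensorProductSubgroup a b e P) r → Pres (spB _ F) y → H28.PO r y →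
      CI (Geo.tensorProductSubgroup a b e P) y := fun H h1 h2 => let ⟨g, h3, _, h4⟩ := I.ci H h1 h2; ⟨g, h3, h4⟩
  change ELG _ _ r ↔ _
  obtain rfl | hr2 := eq_or_ne r 2
  · refine ⟨fun H => ⟨rfl, by_contra fun h => ?_⟩, ?_⟩
    · obtain ⟨y, h3, -, h4, h5⟩ := exists_sp_inv I.sd h2 one_pos (by omega)
      obtain ⟨g, h6, h7, U, h8, h9⟩ := (hI H h3 h4).small
      have := (y - 1).finrank_range_add_finrank_ker
      obtain ⟨c, hc⟩ := H18.scalar_of_mem_tensor h6 h8 (by grind) (by omega)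
      exact h4.2 c (h7.eq_smul_iff.2 (by rw [hc]; ext; simp))
    rintro ⟨-, rfl⟩
    obtain ⟨c, -, h3⟩ := tensor_form_apply (σ := RingHom.id F) (tvF_of_symplectic hf₁).toSesq (H18.hform_of_symmetric hf₂).toSesq hS
    have key : ∀ A B : Matrix _ _ F, (∀ u v, f₁ (A *ᵥ u) (A *ᵥ v) = f₁ u v) → (∀ u v, f₂ (B *ᵥ u) (B *ᵥ v) = f₂ u v) →
        A.det ≠ 0 → B.det ≠ 0 → ∃ g ∈ Geo.tensorProductSubgroup 2 b e P, Pres (spB _ F) (toLin' g.1) ∧
          H28.Sim (toLin' (A ⊗ₖ B)) (toLin' g.1) := fun A B h4 h5 h6 h7 => by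
      have h8 : Pres (spB _ F) (toLin' (H18.trans e P (A ⊗ₖ B))) := fun x y =>
        (isTen_tP e P).inductionOn x (by simp) (fun u w => (isTen_tP e P).inductionOn y (by simp) (fun u' w' => by
          simp only [toLin'_apply, trans_kron_tP, spB_eq, h3, h4, h5]) fun _ _ h h' => by simp only [map_add, h, h'])
          fun _ _ h h' => by simp only [map_add, LinearMap.add_apply, h, h']
      obtain ⟨g, hg⟩ := h8.exists_GL I.sd
      exact ⟨g, H18.mem_tensorProductSubgroup.2 ⟨.mkOfDetNeZero A h6, .mkOfDetNeZero B h7, toLin'.injective hg⟩, hg ▸ h8,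
        hg ▸ sim_trans e _⟩
    refine I.el_two h2 (fun t h4 h5 => ?_) ?_
    · let Q := LinearMap.BilinMap.toQuadraticMap (LinearMap.mk₂ F f₂ hf₂.bilinear.add_left hf₂.bilinear.smul_left
        hf₂.bilinear.add_right hf₂.bilinear.smul_right)
      have h6 : ∀ u v, QuadraticMap.polar Q u v = 2 * f₂ u v := fun u v => by
        simp [Q, LinearMap.BilinMap.polar_toQuadraticMap, hf₂.symm v u, two_mul]
      obtain ⟨B, h7, h8, h9⟩ := exists_inv_o h2 (Q := Q) (fun x hx => by_contra fun h => (hf₂.nondegenerate x h).2.elim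
        fun y hy => hy (by simpa [h6, h2] using hx y)) (s := b - t) (t := t) (by simp; omega)
      obtain ⟨B, rfl⟩ := toLin'.surjective B
      have h10 : B ^ 2 = 1 := by simpa using (toLin'_pow_eq_smul B 2 (1 : F)).1 (by simpa using h8)
      obtain ⟨g, h11, h12, h13⟩ := key 1 B (by simp) (fun u v => by simpa [h6, h2] using h7 u v) (by simp)
        (ne_zero_pow two_ne_zero (by simp [← det_pow, h10]))
      have h14 := ((toLin'_pow_eq_smul (1 ⊗ₖ B : Matrix (Fin 2 × Fin b) _ F) 2 (1 : F)).2 (by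
        simp [kron_pow, h10])).trans (one_smul _ _)
      refine ⟨g, h11, h12, (h13.pow 2).eq_one_iff.1 h14, ?_⟩
      rw [← h13.finrank_range_sub, finrank_range_eq h2 h14 (N := .replicate (2 * t) (-1)) (e := 2 * (b - t)) (fun x hx => by
        simp [Multiset.eq_of_mem_replicate hx, neg_one_ne_one_cl h2]) (by
          simp [rts_one_kron, h9, Multiset.nsmul_replicate, add_comm]), Multiset.card_replicate]
    obtain ⟨A, h8, h4⟩ := exists_sml_sp (B := LinearMap.mk₂ F f₁ hf₁.bilinear.add_left hf₁.bilinear.smul_left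
      hf₁.bilinear.add_right hf₁.bilinear.smul_right) ⟨fun _ => rfl, fun x y => hf₁.skew y x, fun x hx => by_contra fun h =>
        (hf₁.nondegenerate x h).2.elim fun y hy => hy (hx y), fun x => ⟨0, by simp [hf₁.alternating]⟩⟩ (-1)
    obtain ⟨A, rfl⟩ := toLin'.surjective A
    rw [toLin'_pow_eq_smul] at h4
    obtain ⟨g, h5, h6, h7⟩ := key A 1 (fun u v => by simpa using h8 u v) (by simp)
      (ne_zero_pow two_ne_zero (by simp [← det_pow, h4, det_neg])) (by simp)
    exact ⟨g, h5, h6, ((h7.pow 2).eq_smul_iff.1 ((toLin'_pow_eq_smul _ 2 (-1 : F)).2 (by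
      rw [kron_pow, h4, smul_kronecker]; simp))).trans (by ext; simp)⟩
  refine iff_of_false (fun H => ?_) fun h => hr2 h.1
  have h3 : 2 * b ≤ 2 * d := hab ▸ Nat.mul_le_mul_right b ha2
  by_cases hrp : r = p
  · subst hrp
    obtain ⟨u, h4, h5, h6, h7⟩ := exists_sp_tv (p := r) I.sd (by omega)
    obtain ⟨g, h8, h9, U, h10, h11⟩ := (hI H h4 h5).small
    exact H18.not_mem_tensor_of_small (by omega) (by omega) h10 (not_forall.1 fun e =>
      h6 (h9.eq_one_iff.2 (LinearMap.ext e))) ha2 (by omega) e P h8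
  obtain ⟨j, h4, h5, h6⟩ := le_of_dvd_sp I.sd hr hrp (I.card ▸ hΩ.trans (Subgroup.relIndex_dvd_card _ _))
  obtain ⟨c, -, h7, -, h8, h9⟩ := exists_sp_ord I.sd hrp hr2
  obtain ⟨y, h10, h11, h12, h13, h14⟩ := h9 ((Nat.le_of_dvd (by omega) (h7 j h6)).trans h5)
  have h15 := hI H h10 h12
  have := (y - 1).finrank_range_add_finrank_ker
  by_cases h : c < b
  · obtain ⟨M, hM⟩ := ten_small h15 (by omega)
    have := h14 M a hM
    omega
  have h16 : 2 < orderOf (Fintype.card F : ZMod r) := by grind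
  obtain ⟨g, h17, h18⟩ := h15
  obtain ⟨A, B, h19⟩ := H18.mem_tensorProductSubgroup.1 h17
  replace h18 := (h19 ▸ h18).trans (sim_trans e _).symm
  obtain ⟨A, B, h20, h21, h22⟩ := kron_norm (by omega) (by omega) (fun h => by
    rw [(orderOf_eq_one_iff_dvd (F := F)).2 h] at h16; omega) ((h18.pow r).eq_one_iff.1 h11)
  rw [h20] at h18
  by_cases h23 : toLin' A = 1
  · have := h14 _ a (by rw [h18.rts_eq, toLin'.injective (h23.trans toLin'_one.symm), rts_one_kron])
    omega
  by_cases h24 : toLin' B = 1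
  · have := h14 _ b (by rw [h18.rts_eq, toLin'.injective (h24.trans toLin'_one.symm), rts_kron_one])
    omega
  have := kron_rank (A := A) hrp h22 h24 h16
  have := mt (eq_one_of_lt hrp h21) h23
  rw [← h18.finrank_range_sub] at *
  simp at this
  grind

end Cfsg.Agent.S5980
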