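import Cfsg.Statements.S5981
import Cfsg.Agent.H28.Elu15

set_option autoImplicit false
open scoped MatrixGroups
open Cfsg

namespace Cfsg.Agent.S5981

open H28 H12 H13 Module QuadraticMap

/-- Elements of prime order of PSL_n(q), q odd, and the subgroups of orthogonal type. Here `T = PSL_n(F)` for a field `F` with `q` elements, `q` odd, `n ≥ 3`; `Q` is a non-degenerate quadratic form on `F^n` (of either type when `n` is even) and `H` is the subgroup of matrices of determinant 1 that preserve `Q` up to a scalar — a subgroup of type O^ε_n(q) (maximality is not assumed); Ω is the set of cosets of `H` in `T`, so an element of `T` of prime order `r` (a matrix `x` of determinant 1 with `x^r` scalar, `x` not scalar) fixes a point of Ω exactly when some conjugate of `x` by a matrix of determinant 1 preserves `Q` up to a scalar. Let `r` be a prime dividing the index of `H`, with `(n, r) ≠ (6, 3)`. Then every element of `T` of order `r` fixes a point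 of Ω if and only if `r = 2`, or `r ∈ {3, 5}`, `n = r` and `(q − 1)_r = r` (the `r`-part of `q − 1` is exactly `r`). The case `(n, r) = (6, 3)` is not covered by this statement. -/
theorem result {F : Type*} [Field F] [Fintype F] {p : ℕ} [Fact p.Prime] [CharP F p] {q : ℕ} (hq : Fintype.card F = q)
    (hodd : Odd q) (n : ℕ) (hn : 3 ≤ n) (Q : (Fin n → F) → F) (hQ : Cfsg.Geo.IsNondegenerateQuadraticForm Q)
    (r : ℕ) [Fact r.Prime] (hgap : ¬ (n = 6 ∧ r = 3))
    (hΩ : r ∣ (Cfsg.Geo.quadSimilarityGroup Q).relIndex (Cfsg.Geo.specialLinear (Fin n) F)) :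
    (∀ x ∈ Cfsg.Geo.specialLinear (Fin n) F, (∃ z : F, ((x ^ r : GL (Fin n) F) : Matrix (Fin n) (Fin n) F) = z • (1 : Matrix (Fin n) (Fin n) F)) →
      (∀ z : F, (x : Matrix (Fin n) (Fin n) F) ≠ z • (1 : Matrix (Fin n) (Fin n) F)) →
      ∃ g ∈ Cfsg.Geo.specialLinear (Fin n) F, g⁻¹ * x * g ∈ Cfsg.Geo.quadSimilarityGroup Q) ↔
    (r = 2 ∨ ((r = 3 ∨ r = 5) ∧ n = r ∧ padicValNat r (q - 1) = 1)) := by
  subst hq
  obtain ⟨Q, rfl⟩ : ∃ R : QuadraticForm F _, ⇑R = Q := ⟨.ofPolar Q (fun c v => by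
    rw [hQ.smul, pow_two, smul_eq_mul]) hQ.polar_bilinear.add_left hQ.polar_bilinear.smul_left, rfl⟩
  have h0 : ND Q := fun x hx => by_contra fun h => (hQ.nondegenerate x h).2.elim fun y hy => hy (hx y)
  have h2 := H13.two_ne_zero_of_odd_card hodd
  have S := sg_o h2 h0
  have hr : r.Prime := Fact.out
  have hV : finrank F (Fin n → F) = n := by simp
  have : Nonempty (Fin n) := ⟨⟨0, by omega⟩⟩
  change EL _ r ↔ _
  obtain rfl | hr2 := eq_or_ne r 2
  · rw [el_iff (p := p) hr (.inl rfl)]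
    refine iff_of_true (fun a h1 h3 => ?_) (.inl rfl)
    obtain ⟨w, hw, y, rfl, h4, -⟩ | ⟨z, h4, h5⟩ := po_cases two_ne_zero (inj_of_det (h1 ▸ one_ne_zero)) h3
    · obtain ⟨s, t, h5, h6, -⟩ := rts_inv h4
      obtain ⟨b, h7, h8, h9⟩ := exists_inv_o h2 h0 h6
      exact S.smul w hw _ (S.ci h7.sml one_ne_zero (sim_of_rts h2 h4 h8 (h5.trans h9.symm)))
    · obtain ⟨m, -, h6, -⟩ := ed_of_nonpow hr h4 h5
      obtain ⟨b, h6, h7⟩ := exists_sml_o h2 h0 (h6.trans (mul_two m)) z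
      exact S.ci h6 (fun h => h4 0 (by simp [h])) (sim_of_nonpow hr h4 h5 h7 rfl)
  simp only [hr2, false_or]
  by_cases hrp : r = p
  · subst hrp
    obtain ⟨e, rfl⟩ := Nat.exists_eq_add_of_le (show 2 ≤ n by omega)
    have := hr.two_le
    refine iff_of_false (S.not_el_unip (μ := 2 ::ₘ .replicate e 1) (by simp +contextual [Multiset.mem_replicate]; omega)
      (by simp) ⟨2, by simp, by simp⟩ fun b h1 h3 h4 => ?_) fun h => by
        simp [padicValNat.eq_zero_of_not_dvd (not_dvd_card_sub_one (F := F) (p := r))] at h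
    obtain ⟨M₁, M₂, h5, h6, -⟩ := (eb_polar (nd_iff.1 h0)).decomp h1 h3
    have h7 := congrArg (Multiset.count 2) (h4.symm.trans h5)
    rw [Multiset.count_add, Multiset.count_add, Multiset.count_eq_zero.2 fun h : 2 ∈ M₁ => h2 (by
      linear_combination (h6 2 h).1)] at h7
    simp [Multiset.count_replicate] at h7
    omega
  have hr0 := cast_ne_zero_of_ne (F := F) hr hrp
  by_cases h : r ∣ Fintype.card F - 1
  · rw [S.el_inv hr2 hrp h (by simpa) (by simpa using hgap) (ρ := .id _) (fun _ => rfl) (fun _ _ => rfl) fun h1 y h3 h4 =>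
      let ⟨b, h5, h6⟩ := exists_o_rts h2 h0 hr hr2 hr0 (by simpa [← h1] using hr.odd_of_ne_two hr2) h3 h4
      S.ci h5.sml one_ne_zero h6, Fintype.card_fin]
  refine iff_of_false ?_ fun h12 => by simp [padicValNat.eq_zero_of_not_dvd h] at h12
  have h1 := S.dvd
  have h3 : UG (σ := .id F) (polarBilin Q) = OG Q := Subgroup.ext fun g => ⟨fun h v => mul_left_cancel₀ h2 (by
    simpa [polar_self] using h v v), fun h => OG_polar ⟨g, h⟩⟩
  obtain ⟨b, hb⟩ := card_GL_eq (F := F) n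
  have hq := Fintype.one_lt_card (α := F)
  have h4 := not_dvd_card_of_ne (F := F) hr hrp
  have h5 : ∀ m, 0 < ∏ j ∈ Finset.range m, (Fintype.card F ^ (2 * (j + 1)) - 1) := fun m =>
    Finset.prod_pos fun j _ => Nat.sub_pos_of_lt (Nat.one_lt_pow (by omega) hq)
  have h6 : ∀ m, 2 * m ≤ n + 1 → r ∣ ∏ j ∈ Finset.range m, (Fintype.card F ^ (2 * j + 1) - 1) →
      ¬ EL (Geo.quadSimilarityGroup Q) r := fun m hm h6 => by
    obtain ⟨j, h7, h8⟩ := (hr.prime.dvd_finsetProd_iff _).1 h6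
    exact S.not_el_odd hr2 hrp h (odd_two_mul_add_one j) (by simp at h7 ⊢; omega) h8
  rw [hb, h3] at h1
  obtain ⟨m, rfl | rfl⟩ := Nat.even_or_odd' n
  swap
  · rw [h0.card_OG_odd hV, Nat.card_eq_fintype_card, Finset.prod_range_succ, prod_range_two_mul, Finset.prod_mul_distrib,
      ← mul_assoc, mul_assoc (∏ _ ∈ _, _), ← Finset.prod_range_succ fun j => _ ^ (2 * j + 1) - 1, mul_comm (∏ _ ∈ _, _),
      ← mul_assoc, ← mul_assoc (_ ^ b)] at h1
    exact h6 (m + 1) (by omega) ((hr.dvd_mul.1 (((hΩ.mul_right _).mul_right _).trans (Nat.dvd_of_mul_dvd_mul_right (h5 m) h1))).resolve_left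
      fun h => h4 (hr.dvd_of_dvd_pow h))
  obtain ⟨m, rfl⟩ := Nat.exists_eq_add_one_of_ne_zero (show m ≠ 0 by omega)
  obtain ⟨ε, h7, h8⟩ : ∃ ε : ℤ, (IsPlus Q ∧ ε = 1 ∨ ¬ IsPlus Q ∧ ε = -1) ∧ ε * ε = 1 := by
    by_cases h : IsPlus Q
    exacts [⟨1, .inl ⟨h, rfl⟩, rfl⟩, ⟨-1, .inr ⟨h, rfl⟩, rfl⟩]
  obtain ⟨h9, h10⟩ := count_even ε m h0 hV h7
  rw [Nat.card_eq_fintype_card (α := F)] at h9 h10
  by_cases h11 : r ∣ ∏ j ∈ Finset.range (m + 1), (Fintype.card F ^ (2 * j + 1) - 1)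
  · exact h6 _ (by omega) h11
  have h12 : (Fintype.card F : ZMod r) ^ (m + 1) + ε = 0 := by
    rw [← cast_prod_pow_sub_one hq.le] at h10
    rw [prod_range_two_mul, Finset.prod_mul_distrib, Finset.prod_range_succ, ← Int.natCast_dvd_natCast, Nat.cast_mul,
      h10] at h1
    obtain ⟨c, hc⟩ := h1
    obtain ⟨N, hN⟩ := hΩ
    have h12 : ((Fintype.card F : ℤ) ^ (m + 1) - ε) * (∏ j ∈ Finset.range m, (Fintype.card F ^ (2 * (j + 1)) - 1) : ℕ) ≠ 0 := by
      intro h
      rw [mul_assoc, h, mul_zero, Nat.cast_eq_zero] at h10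
      exact Nat.card_pos.ne' h10
    have h13 : ((Fintype.card F ^ (2 * m + 1 + 1) - 1 : ℕ) : ℤ) = (Fintype.card F ^ (m + 1) - ε) * (Fintype.card F ^ (m + 1) + ε) := by
      rw [Nat.cast_sub (Nat.one_le_pow _ _ (by omega))]; push_cast; linear_combination h8
    rw [hN, Nat.cast_mul (_ ^ b), Nat.cast_mul (_ * _), Nat.cast_mul (∏ _ ∈ _, _), h13] at hc
    generalize ∏ j ∈ Finset.range (m + 1), (Fintype.card F ^ (2 * j + 1) - 1) = O at *
    have h14 := congrArg (Int.cast (R := ZMod r)) (mul_left_cancel₀ h12 (b := Fintype.card F ^ b * ((Fintype.card F ^ (m + 1) + ε) *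
      O)) (c := r * N * 2 * Fintype.card F ^ ((m + 1) * m) * c) (by push_cast at hc ⊢; linear_combination hc))
    simpa [ZMod.natCast_eq_zero_iff, h4, h11] using h14
  have h13 : ((ε : ZMod r)) * ε = 1 := by exact_mod_cast congrArg (Int.cast (R := ZMod r)) h8
  obtain ⟨l, hl⟩ : orderOf (Fintype.card F : ZMod r) ∣ 2 * (m + 1) := by
    rw [orderOf_dvd_iff_pow_eq_one, pow_mul', eq_neg_of_add_eq_zero_left h12, neg_sq, pow_two, h13]
  intro H
  obtain ⟨y, A, a1, a2, a3, a4, a5, -⟩ := exists_orb_end (V := Fin (2 * (m + 1)) → F) hrp h (l := l) (e := 0)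
    (Nat.pos_of_ne_zero (by rintro rfl; omega)) (by rw [hV, hl, mul_comm, add_zero])
  obtain ⟨c, a6, a7⟩ := S.pres hr h a1 (H.ci y a2 a3)
  have a8 := card_modEq_one ((a7.pow r).eq_one_iff.1 a1) (fun v hv => by_contra fun h => (a5 _ (Multiset.mem_of_mem_nsmul (by
    simpa [← a7.rts_eq, a4] using mem_rts_of_apply (a := c) h (c := 1) (by simpa)))).2 rfl) (p := (Q · = 0)) (map_zero Q) fun v hv =>
      mul_left_cancel₀ h2 (by simpa [polar_self, hv] using a6 v v)
  have a9 := congrArg (Int.cast (R := ZMod r)) h9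
  push_cast at a9
  refine h ((orderOf_eq_one_iff_dvd (F := F)).1 (orderOf_eq_one_iff.2 (mul_left_cancel₀
    (Ring.two_ne_zero (R := ZMod r) (by rwa [ZMod.ringChar_zmod_n])) ?_)))
  rw [nz, a8] at a9
  generalize (Fintype.card F : ZMod r) = t at *
  linear_combination t * a9 + (t ^ (m + 1) + (t - 2) * ε) * h12 - (t - 2) * h13

end Cfsg.Agent.S5981
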