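import Cfsg.Statements.S5982
import Cfsg.Agent.H28.Elu15

set_option autoImplicit false
open scoped MatrixGroups
open Cfsg

namespace Cfsg.Agent.S5982

open H28 H12 H13 Module

/-- Elements of prime order of PSL_n(q), q = q₀², and the subgroups of unitary type. Here `T = PSL_n(F)` for a field `F` with `q = q₀²` elements (`n ≥ 3`), `f` is a non-degenerate unitary form on `F^n` for the involutory automorphism `x ↦ x^{q₀}`, and `H` is the subgroup of matrices of determinant 1 that preserve `f` up to a scalar — a subgroup of type GU_n(q₀) (maximality is not assumed); Ω is the set of cosets of `H` in `T`, so an element of `T` of prime order `r` (a matrix `x` of determinant 1 with `x^r` scalar, `x` not scalar) fixes a point of Ω exactly when some conjugate of `x` by a matrix of determinant 1 preserves `f` up to a scalar. Let `r` be a prime dividing the index of `H`, with `r = 2` or `r` different from the characteristic `p`, and with `(n, r) ≠ (6, 3)`. Then every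 element of `T` of order `r` fixes a point of Ω if and only if either `r = 2` and (`p = 2` or `(n)_2 ≤ (q − 1)_2`), or `r ∈ {3, 5}`, `n = r` and `(q₀ − 1)_r = r`. (Odd `r = p` and the case `(n, r) = (6, 3)` are not covered by this statement.) -/
theorem result {F : Type*} [Field F] [Fintype F] {p : ℕ} [Fact p.Prime] [CharP F p] {q : ℕ} (hq : Fintype.card F = q)
    (q₀ : ℕ) (hq₀ : q = q₀ ^ 2) (n : ℕ) (hn : 3 ≤ n) (f : (Fin n → F) → (Fin n → F) → F) (hf : Cfsg.Geo.IsUnitaryFormPow q₀ f)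
    (r : ℕ) [Fact r.Prime] (hr : r = 2 ∨ r ≠ p) (hgap : ¬ (n = 6 ∧ r = 3))
    (hΩ : r ∣ (Cfsg.Geo.similarityGroup f).relIndex (Cfsg.Geo.specialLinear (Fin n) F)) :
    (∀ x ∈ Cfsg.Geo.specialLinear (Fin n) F, (∃ z : F, ((x ^ r : GL (Fin n) F) : Matrix (Fin n) (Fin n) F) = z • (1 : Matrix (Fin n) (Fin n) F)) →
      (∀ z : F, (x : Matrix (Fin n) (Fin n) F) ≠ z • (1 : Matrix (Fin n) (Fin n) F)) →
      ∃ g ∈ Cfsg.Geo.specialLinear (Fin n) F, g⁻¹ * x * g ∈ Cfsg.Geo.similarityGroup f) ↔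
    ((r = 2 ∧ (p = 2 ∨ padicValNat 2 n ≤ padicValNat 2 (q - 1))) ∨ ((r = 3 ∨ r = 5) ∧ n = r ∧ padicValNat r (q₀ - 1) = 1)) := by
  subst hq
  obtain ⟨B, D, S⟩ := exists_sg_u hq₀ hf (by simp; omega)
  obtain ⟨ρ, hρ, hρ'⟩ := exists_frob_pow hq₀
  have hr' : r.Prime := Fact.out
  have hV : finrank F (Fin n → F) = n := by simp
  have : Nontrivial (Fin n → F) := nontrivial_of_finrank_pos (R := F) (by omega)
  have h0 := two_le_of_card_eq_sq hq₀
  have h00 : Fintype.card F - 1 = (q₀ + 1) * (q₀ - 1) := by rw [hq₀, ← Nat.sq_sub_sq, one_pow]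
  change EL _ r ↔ _
  obtain rfl | h2 := eq_or_ne r 2
  · rw [el_iff (p := p) hr' (.inl rfl)]
    simp only [true_and, OfNat.ofNat_eq_ofNat, Nat.reduceEqDiff, or_self, false_and, or_false]
    by_cases hp : p = 2
    · subst hp
      refine iff_of_true (fun a h1 h2 => ?_) (.inl rfl)
      obtain ⟨w, hw, y, rfl, h4, -⟩ | ⟨z, h4, -⟩ := po_cases two_ne_zero (inj_of_det (h1 ▸ one_ne_zero)) h2
      · obtain ⟨μ, h5, h6, h7⟩ := ed_of_pow_char h4
        obtain ⟨b, h8, h9⟩ := exists_u_jt D (frobq_ne_id hq₀) (fun k hk => (h5 k hk).1) h6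
        exact S.smul w hw _ (S.ci h8.sml one_ne_zero (sim_iff_ed.2 (h7.trans h9.symm)))
      · exact absurd (exists_pow_eq_of_not_dvd Nat.prime_two not_dvd_card_sub_one z) (by simpa using h4)
    have h2 : (2 : F) ≠ 0 := cast_ne_zero_of_ne (p := p) Nat.prime_two (Ne.symm hp)
    have h3 := H13.odd_card_of_two_ne_zero h2
    obtain ⟨k, hk⟩ : Odd q₀ := (Nat.odd_pow_iff two_ne_zero).1 (hq₀ ▸ h3)
    have h4 : 2 ∣ Fintype.card F - 1 := by rw [Nat.odd_iff] at h3; omega
    rw [forall_po_one hr' h4 (by omega) S.smul (A := False) (fun y hy => S.ci_of_rs D h2 hy (rs_of_del hρ (st_of_dvd hρ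
      ⟨k + 1, by omega⟩ fun x hx => pow_eq_one_of_mem_rts hy hx) h2 fun x hx => pow_eq_one_of_mem_rts hy hx)), hV]
    · have : Fintype.card F % 4 = 1 := by rw [hq₀, hk, show (2 * k + 1) ^ 2 = 1 + 4 * (k * k + k) by ring]; simp
      simp [hp, this]
    refine fun z hz a l h5 _ _ => iff_false_intro fun h6 => ?_
    obtain ⟨b, c, h7, h8, h9⟩ := S.of_ci h6
    have h10 := h8.pow_eq S.nds ((h9.aeval_eq_zero_iff _).1 (aeval_X_pow_sub_C h5) |> fun h => by
      simpa [sub_eq_zero, Algebra.algebraMap_eq_smul_one] using h)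
    have h11 : c ^ q₀ = c := by
      obtain ⟨x, hx⟩ := exists_ne (0 : Fin n → F)
      obtain ⟨y, hy⟩ := D.exists_ne hx
      have := D.skew (b x) (b y)
      rw [h8, h8, map_mul, D.skew x y, mul_neg, neg_inj] at this
      exact (mul_right_cancel₀ (D.σ_ne_zero hy) this).symm
    obtain ⟨w, hw⟩ := (exists_pow_eq_iff h4 fun h => hz 0 (by simp [h])).2 (show z ^ _ = 1 by
      rw [h00, hk, add_tsub_cancel_right, mul_left_comm, Nat.mul_div_cancel_left _ two_pos, pow_mul, ← hk, pow_succ,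
        ← frobq_apply hq₀, ← h10, ← pow_mul]
      exact mul_right_cancel₀ h7 (by rw [← pow_succ, ← hk, h11, one_mul]))
    exact hz w hw
  have hrp := hr.resolve_left h2
  simp only [h2, false_and, false_or]
  have h3 := S.dvd
  obtain ⟨b, hb⟩ := card_GL_eq (F := F) n
  rw [hb, D.card_UG_unitary (frobq_ne_id hq₀), q0_frobq, guOrd, hV, mul_left_comm] at h3
  obtain ⟨j, h4, h5⟩ := exists_dvd_of_mul (g := fun j => if Even j then q₀ ^ (j + 1) - 1 else q₀ ^ (j + 1) + 1) hr'
    (fun j => by have := Nat.one_lt_pow (n := j + 1) (by omega) h0; split_ifs <;> omega)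
    (not_dvd_card_of_ne hr' hrp) (((dvd_mul_left _ _).trans h3).trans (dvd_of_eq (congrArg _ (Finset.prod_congr rfl fun j _ => by
      rw [hq₀, ← pow_mul, pow_mul', ← one_pow 2, Nat.sq_sub_sq, one_pow]
      split_ifs
      exacts [rfl, mul_comm _ _])))) hΩ
  have h6 : (-q₀ : ZMod r) ^ (j + 1) = -1 := by
    rw [← ZMod.natCast_eq_zero_iff] at h5
    split_ifs at h5 with h
    · rw [Nat.cast_sub (Nat.one_le_pow _ _ (by omega)), sub_eq_zero] at h5
      simpa [h.add_one.neg_pow] using h5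
    · simpa [(Nat.not_even_iff_odd.1 h).add_one.neg_pow, add_eq_zero_iff_eq_neg] using h5
  have h7 : (-1 : ZMod r) ≠ 1 := Ring.neg_one_ne_one_of_char_ne_two (by rwa [ZMod.ringChar_zmod_n])
  have h8 : (Fintype.card F : ZMod r) = (-q₀) ^ 2 := by simp [hq₀]
  have h9 : ¬ r ∣ q₀ + 1 := fun h => by
    rw [← ZMod.natCast_eq_zero_iff, Nat.cast_add, Nat.cast_one, add_eq_zero_iff_eq_neg] at h
    simp [h, h7.symm] at h6
  have h10 : r ∣ Fintype.card F - 1 ↔ r ∣ q₀ - 1 := by simp [h00, hr'.dvd_mul, h9]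
  by_cases h : r ∣ q₀ - 1
  · have h11 : ∀ x : AlgebraicClosure F, x ^ r = 1 → ρ x = x := fun x hx => by
      obtain ⟨c, hc⟩ := h
      rw [hρ, show q₀ = r * c + 1 by omega, pow_succ, pow_mul, hx, one_pow, one_mul]
    have h12 := cast_ne_zero_of_ne (F := F) hr' hrp
    rw [S.el_inv h2 hrp (h10.2 h) (by simpa) (by simpa using hgap) hρ' h11 fun _ y h13 h14 => S.ci_of_rs D h12 h13
      (rs_of_del hρ (.trans (Multiset.map_congr rfl fun x hx => by rw [h11 x (pow_eq_one_of_mem_rts h13 hx)]) h14) h12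
        fun x hx => pow_eq_one_of_mem_rts h13 hx), h00, padicValNat.mul (by omega) (by omega),
      padicValNat.eq_zero_of_not_dvd h9, zero_add, Fintype.card_fin]
  have h11 : orderOf (Fintype.card F : ZMod r) ∣ j + 1 := by
    rw [orderOf_dvd_iff_pow_eq_one, h8, ← pow_mul, pow_mul', h6]; simp
  refine iff_of_false (S.not_el hrp (mt h10.1 h) ((Nat.le_of_dvd j.succ_pos h11).trans (by simpa)) hρ' (z := -q₀)
    (fun x _ => by simp [hρ]) fun h12 => h7 ?_) fun h12 => by simp [padicValNat.eq_zero_of_not_dvd h] at h12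
  rw [← h6, ← orderOf_dvd_iff_pow_eq_one]
  simpa using h12.trans h11

end Cfsg.Agent.S5982
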