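import Cfsg.Statements.S5983
import Cfsg.Agent.H13.EO8

set_option autoImplicit false
open scoped MatrixGroups
open Cfsg

namespace Cfsg.Agent.S5983

open H13 H28 Module QuadraticMap Matrix

section
variable {F V : Type*} [Field F] [Fintype F] [CharP F 2] [AddCommGroup V] [Module F V]
  [FiniteDimensional F V] {Q : QuadraticForm F V} {d : ℕ}

local notation "G" => H12.UG (σ := RingHom.id F) (polarBilin Q)

omit [Fintype F] [FiniteDimensional F V] in
theorem sd (hQ : ND Q) : H12.SD (σ := RingHom.id F) (polarBilin Q) :=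
  ⟨fun _ => rfl, fun x y => by simp [polar_comm, CharTwo.neg_eq], hQ, fun x => ⟨0, by
    simp [polar_self', CharTwo.two_eq_zero]⟩⟩

omit [Fintype F] [FiniteDimensional F V] [CharP F 2] in
theorem le : OG Q ≤ G := fun g hg => OG_polar ⟨g, hg⟩

theorem two (hQ : ND Q) (hn : finrank F V = 2 * d) (hd : 0 < d) :
    (∀ x : G, x ^ 2 = 1 → x ≠ 1 → ∃ g : G, (g⁻¹ * x * g).1 ∈ OG Q) ↔ IsPlus Q ∨ Odd d := by
  have D := sd hQ
  have hI := isIsom_UG (σ := RingHom.id F) (polarBilin Q)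
  refine ⟨fun H => by_contra fun h => ?_, fun H x h1 h3 => ?_⟩
  · rw [not_or, Nat.not_odd_iff_even] at h
    obtain ⟨U, h1, h3⟩ := D.exists_ti H12.ns_id (k := d) (by omega)
    obtain ⟨x, h4, h5, h6⟩ := hI.exists_alt D.wittData h3 (fun _ _ => rfl) (h1 ▸ h.2)
    have h7 : rk1 x = d := by rw [rk1, h5, h1]
    obtain ⟨g, hg⟩ := H x h4 fun h => by rw [rk1_eq_zero_iff.2 h] at h7; omega
    have h8 : IsConj x (g⁻¹ * x * g) := isConj_iff.2 ⟨g⁻¹, by simp⟩
    have h9 := (hI.isConj_iff_two D.wittData h4 (by simpa [h4] using (h8.pow 2).symm)).1 h8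
    exact not_max_of_not_isPlus h.1 ⟨_, hg⟩ ⟨h9.2.1 h6, by rw [hn, ← h7, h9.1]; rfl⟩
  have h4 := sd_two_mul_rk1_le D h1
  have h5 := Nat.pos_of_ne_zero (mt rk1_eq_zero_iff.1 h3)
  obtain ⟨y, h6, h7, h8⟩ : ∃ y : OG Q, orderOf y = 2 ∧ rk1 y = rk1 x ∧
      (AltO y ↔ Alt (σ := RingHom.id F) (polarBilin Q) x) := by
    by_cases h : Alt (σ := RingHom.id F) (polarBilin Q) x
    · have h6 := hI.even_of_alt D.wittData h1 h
      simp only [h, iff_true]
      by_cases h7 : IsPlus Q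
      · exact (hQ.exists_alt_iff_plus h7 hn _).1 ⟨h6, h5, by omega⟩
      · refine (hQ.exists_alt_iff_minus h7 hn _).1 ⟨h6, h5, ?_⟩
        have := Nat.odd_iff.1 (H.resolve_left h7)
        rw [Nat.even_iff] at h6; omega
    · simp only [h, iff_false]
      exact (hQ.exists_nonalt_iff hn _).1 ⟨h5, by omega⟩
  obtain ⟨c, hc⟩ := isConj_iff.1 ((hI.isConj_iff_two D.wittData h1 (y := ⟨y.1, le y.2⟩) (Subtype.ext
    (congrArg Subtype.val (h6 ▸ pow_orderOf_eq_one y : y ^ 2 = 1) :))).2 ⟨h7.symm, h8.symm⟩)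
  exact ⟨c⁻¹, by rw [inv_inv, hc]; exact y.2⟩

theorem odd (hQ : ND Q) (hn : finrank F V = 2 * d) (hd : 0 < d) {r : ℕ} [hr : Fact r.Prime] (hr2 : r ≠ 2)
    (h : r ∣ (OG Q).relIndex G) : ∃ x : G, x ^ r = 1 ∧ x ≠ 1 ∧ ∀ g : G, (g⁻¹ * x * g).1 ∉ OG Q := by
  have D := sd hQ
  have hq := card_ne_zero_zmod (F := F) (p := 2) hr.out hr2
  obtain ⟨i, hi⟩ : ∃ i, i = orderOf (Fintype.card F : ZMod r) := ⟨_, rfl⟩
  have h0 : 0 < i := hi ▸ orderOf_pos_zmod hq
  have h1 : (Fintype.card F : ZMod r) ^ d = -(ty Q : ℤ) := by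
    obtain ⟨d, rfl⟩ := Nat.exists_eq_add_one_of_ne_zero hd.ne'
    have h2 := (Subgroup.subgroupOf (OG Q) G).index_mul_card
    rw [Nat.card_congr (Subgroup.subgroupOfEquivOfLe le).toEquiv, H12.card_UG_sp _ D hn, H12.spOrd,
      Finset.prod_range_succ, Nat.card_eq_fintype_card (α := F)] at h2
    have h3 := Fintype.one_lt_card (α := F)
    have h4 : 0 < ∏ i ∈ Finset.range d, (Fintype.card F ^ (2 * (i + 1)) - 1) :=
      Finset.prod_pos fun i _ => Nat.sub_pos_of_lt (Nat.one_lt_pow (by omega) h3)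
    have h5 : Fintype.card F ^ (2 * (d + 1)) - 1 =
        (Fintype.card F ^ (d + 1) + 1) * (Fintype.card F ^ (d + 1) - 1) := by
      rw [← Nat.sq_sub_sq, one_pow, ← pow_mul, mul_comm]
    have h6 := Nat.sub_pos_of_lt (Nat.one_lt_pow (by omega : d + 1 ≠ 0) h3)
    have key : ∀ a b, 0 < a → Nat.card (OG Q) = 2 * Fintype.card F ^ ((d + 1) * d) * a *
        ∏ i ∈ Finset.range d, (Fintype.card F ^ (2 * (i + 1)) - 1) →
        Fintype.card F ^ (2 * (d + 1)) - 1 = b * a → (b : ZMod r) = 0 := fun a b h7 h8 h9 => by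
      have h10 : (OG Q).relIndex G * 2 = Fintype.card F ^ (d + 1) * b := by
        refine Nat.eq_of_mul_eq_mul_right (Nat.mul_pos (Nat.mul_pos (pow_pos (zero_lt_one.trans h3)
          ((d + 1) * d)) h7) h4) ?_
        rw [h8, h9, ← Subgroup.relIndex] at h2
        linear_combination h2
      have h11 := (ZMod.natCast_eq_zero_iff _ r).2 (h10 ▸ h.mul_right 2)
      simpa [hq] using h11
    by_cases h7 : IsPlus Q
    · have := key _ _ h6 (by simpa using hQ.card_OG_plus h7 hd hn) h5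
      rw [(isPlus_iff_ty (hn ▸ even_two_mul _)).1 h7]
      simpa [add_eq_zero_iff_eq_neg] using this
    · have := key _ _ (Nat.succ_pos _) (by simpa using hQ.card_OG_minus h7 hd hn) (h5.trans (mul_comm _ _))
      rw [Int.units_ne_iff_eq_neg.1 (mt (isPlus_iff_ty (hn ▸ even_two_mul _)).2 h7)]
      rw [Nat.cast_sub (by omega)] at this
      simpa [sub_eq_zero] using this
  obtain ⟨β, o, h2, h3, h4⟩ : ∃ β o, (o ≤ if Odd i then 0 else (r - 1) / i) ∧ i * (2 * β + o) = 2 * d ∧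
      (-1) ^ o = -ty Q := by
    rcases Int.units_eq_one_or (ty Q) with h2 | h2 <;> rw [h2] at h1 ⊢
    · have h3 : ¬ i ∣ d := fun h => by
        rw [hi, orderOf_dvd_iff_pow_eq_one, h1] at h
        exact Ring.neg_one_ne_one_of_char_ne_two (by rwa [ZMod.ringChar_zmod_n]) (by simpa using h)
      obtain ⟨k, hk⟩ : i ∣ 2 * d := by rw [hi, orderOf_dvd_iff_pow_eq_one, pow_mul', h1]; simp
      have h4 : k % 2 = 1 := by
        by_contra h4
        exact h3 ⟨k / 2, by rw [← Nat.mul_div_assoc _ (by omega)]; omega⟩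
      refine ⟨k / 2, 1, ?_, by rw [hk]; congr 1; omega, rfl⟩
      rw [if_neg fun h => Nat.not_odd_iff_even.2 (even_two_mul d) (hk ▸ h.mul (Nat.odd_iff.2 h4))]
      exact Nat.div_pos (Nat.le_of_dvd (Nat.sub_pos_of_lt hr.out.one_lt)
        (hi ▸ ZMod.orderOf_dvd_card_sub_one hq)) h0
    · obtain ⟨k, hk⟩ : i ∣ d := by rw [hi, orderOf_dvd_iff_pow_eq_one, h1]; simp
      exact ⟨k, 0, zero_le, by rw [hk]; ring, rfl⟩
  obtain ⟨R, h5, h6⟩ := exists_ty (F := F) (V := V) (δ := -ty Q) (.inl (hn ▸ even_two_mul _)) (by omega)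
  obtain ⟨x, h7, h8, h9, -⟩ := h5.exists_prof hr2 hq hi (β := β) h2 (Nat.pos_of_ne_zero fun h => by
    rw [show 2 * β + o = 0 by omega] at h3; omega) ⟨by omega, by omega, fun _ => h4.trans h6.symm⟩
  obtain ⟨e, he⟩ := sd_exists_equiv (sd h5) D rfl
  have h10 := h5.finrank_perp (fixS x)
  have h11 : fixS x = ⊥ := Submodule.finrank_eq_zero.1 (by omega)
  have h12 : ∀ {S : QuadraticForm F V} (e : V ≃ₗ[F] V), ND S → (∀ v, S (e (x.1 (e.symm v))) = S v) →
      ty S = ty R := fun {S} e h12 h13 => by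
    let y : OG S := ⟨e * x.1 * e⁻¹, h13⟩
    have h14 : y ^ r = 1 := Subtype.ext (by
      simp [y, conj_pow, show x.1 ^ r = 1 from congrArg Subtype.val h7])
    obtain ⟨b, h15, h16⟩ := h12.ty_of_fpf hr2 hq hi (ρ := (Subgroup.zpowers y).subtype) (isPGroup_zpowers h14)
      fun v hv => e.symm.map_eq_zero_iff.1 ((h11 ▸ mem_fixS.2 (e.eq_symm_apply.2
        (hv ⟨y, Subgroup.mem_zpowers y⟩)) : e.symm v ∈ ⊥))
    obtain ⟨α, h17, h18⟩ := cc_tau hi (β := β) h2
    rw [h16, h6, ← h4, ← h18, Nat.eq_of_mul_eq_mul_left (cc_pos hq hi) (show cc i * b = cc i * α by omega)]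
  refine ⟨⟨e * x.1 * e⁻¹, fun u v => ?_⟩, Subtype.ext (by
    simp [conj_pow, show x.1 ^ r = 1 from congrArg Subtype.val h7]), fun h => h8 (Subtype.ext (by
      simpa using congrArg Subtype.val h)), fun g hg => Int.units_ne_iff_eq_neg.2
        ((h12 (g.1⁻¹ * e) hQ hg).trans h6) rfl⟩
  exact (he _ _).trans ((OG_polar x _ _).trans ((he _ _).symm.trans (by simp)))

end

/-- Elements of prime order of PSp_n(q), q even, and the subgroups of orthogonal type. Here `T = Sp_{2d}(F)` for a field `F` of characteristic 2 with `q` elements (`d ≥ 2`, `(d, q) ≠ (2, 2)`), realised as the invertible matrices preserving the standard alternating form; `Q` is a non-degenerate quadratic form on `F^{2d}` whose polar form is that alternating form, and `H` is the subgroup of `T` preserving `Q` up to a scalar (equivalently preserving `Q`) — a subgroup of type O^±_{2d}(q) (maximality is not assumed); `Q` is of plus type when `F^{2d}` contains a `d`-dimensional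 subspace on which `Q` vanishes, of minus type otherwise. Ω is the set of cosets of `H` in `T`, so an element of `T` of prime order `r` (`x ∈ T` with `x^r` scalar, `x` not scalar) fixes a point of Ω exactly when some `T`-conjugate of `x` preserves `Q`. Let `r` be a prime dividing the index of `H`. Then every element of `T` of order `r` fixes a point of Ω if and only if `r = 2` and either `Q` is of plus type or `d` is odd. -/
theorem result {F : Type*} [Field F] [Fintype F] {p : ℕ} [Fact p.Prime] [CharP F p] {q : ℕ} (hq : Fintype.card F = q)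
    (hp : p = 2) (d : ℕ) (hd : 2 ≤ d) (hT : (d, q) ≠ (2, 2)) (Q : (Fin d ⊕ Fin d → F) → F) (hQ : Cfsg.Geo.IsNondegenerateQuadraticForm Q)
    (hQf : ∀ u v, QuadraticMap.polar Q u v = Cfsg.sympForm d F u v)
    (r : ℕ) [Fact r.Prime]
    (hΩ : r ∣ (Cfsg.Geo.quadSimilarityGroup Q).relIndex (Cfsg.spGL d F)) :
    (∀ x ∈ Cfsg.spGL d F, (∃ z : F, ((x ^ r : GL (Fin d ⊕ Fin d) F) : Matrix (Fin d ⊕ Fin d) (Fin d ⊕ Fin d) F) = z • (1 : Matrix (Fin d ⊕ Fin d) (Fin d ⊕ Fin d) F)) →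
      (∀ z : F, (x : Matrix (Fin d ⊕ Fin d) (Fin d ⊕ Fin d) F) ≠ z • (1 : Matrix (Fin d ⊕ Fin d) (Fin d ⊕ Fin d) F)) →
      ∃ g ∈ Cfsg.spGL d F, g⁻¹ * x * g ∈ Cfsg.Geo.quadSimilarityGroup Q) ↔
    (r = 2 ∧ (Cfsg.Geo.IsPlusTypeOn Q ⊤ ∨ Odd d)) := by
  subst hq hp
  obtain ⟨Q, rfl⟩ : ∃ R : QuadraticForm F _, ⇑R = Q := ⟨.ofPolar Q (fun c v => by
    rw [hQ.smul, pow_two, smul_eq_mul]) hQ.polar_bilinear.add_left hQ.polar_bilinear.smul_left, rfl⟩
  have h0 : ND Q := fun x hx => by_contra fun h => (hQ.nondegenerate x h).2.elim fun y hy => hy (hx y)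
  have hn : finrank F (Fin d ⊕ Fin d → F) = 2 * d := by simp; omega
  have : Nonempty (Fin d) := ⟨⟨0, by omega⟩⟩
  set e := glEquiv (Fin d ⊕ Fin d) F
  have h1 : ∀ x, x ∈ spGL d F ↔ e x ∈ H12.UG (σ := RingHom.id F) (polarBilin Q) := fun x =>
    forall₂_congr fun u v => by simp [← hQf, e, glEquiv_apply, glToMat]
  obtain ⟨u, hu⟩ := exists_ne (0 : Fin d ⊕ Fin d → F)
  obtain ⟨v, hv⟩ := h0.exists_ne hu
  have h2 : ∀ x ∈ spGL d F, x ∈ Geo.quadSimilarityGroup Q ↔ e x ∈ OG Q := fun x hx =>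
    ⟨fun ⟨c, hc⟩ w => by
      have := (h1 x).1 hx u v
      simp only [polarBilin_apply_apply, polar, ← mulVec_add, e, glEquiv_apply, hc] at this hv
      rw [← mul_sub, ← mul_sub, mul_left_eq_self₀, or_iff_left hv] at this
      exact (hc w).trans (by rw [this, one_mul]), fun h => ⟨1, fun w => (h w).trans (one_mul _).symm⟩⟩
  have h3 : ∀ x ∈ spGL d F, (∃ z : F, x.1 = z • 1) ↔ e x = 1 := fun x hx =>
    ⟨fun ⟨z, hz⟩ => by
      have := (h1 x).1 hx u v
      simp only [polarBilin_apply_apply, e, glEquiv_apply, hz, smul_mulVec, one_mulVec, polar_smul_left,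
        polar_smul_right, smul_eq_mul, ← mul_assoc, mul_left_eq_self₀, or_iff_left hv, mul_self_eq_one_iff,
        CharTwo.neg_eq, or_self] at this
      rw [map_eq_one_iff _ e.injective, Units.ext_iff, hz, this, one_smul, Units.val_one],
    fun h => ⟨1, by simp [e.map_eq_one_iff.1 h]⟩⟩
  have h4 : (∀ x ∈ spGL d F, (∃ z : F, (x ^ r).1 = z • 1) →
      (∀ z : F, x.1 ≠ z • 1) → ∃ g ∈ spGL d F, g⁻¹ * x * g ∈ Geo.quadSimilarityGroup Q) ↔
      ∀ x : H12.UG (σ := RingHom.id F) (polarBilin Q), x ^ r = 1 → x ≠ 1 →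
        ∃ g : H12.UG (σ := RingHom.id F) (polarBilin Q), (g⁻¹ * x * g).1 ∈ OG Q := by
    rw [Subtype.forall, e.surjective.forall]
    refine forall_congr' fun x => ⟨fun h hx h5 h6 => ?_, fun h hx h5 h6 => ?_⟩
    · have hx' := (h1 x).2 hx
      obtain ⟨g, h7, h8⟩ := h hx' ((h3 _ (pow_mem hx' r)).2 (by simpa using congrArg Subtype.val h5))
        fun z hz => h6 (Subtype.ext ((h3 x hx').1 ⟨z, hz⟩))
      exact ⟨⟨_, (h1 g).1 h7⟩, by simpa using (h2 _ (mul_mem (mul_mem (inv_mem h7) hx') h7)).1 h8⟩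
    · obtain ⟨⟨g, h7⟩, h8⟩ := h ((h1 x).1 hx) (Subtype.ext (by simpa using (h3 _ (pow_mem hx r)).1 h5))
        fun h => ((h3 x hx).2 (congrArg Subtype.val h)).elim h6
      obtain ⟨g, rfl⟩ := e.surjective g
      have h9 := (h1 g).2 h7
      exact ⟨g, h9, (h2 _ (mul_mem (mul_mem (inv_mem h9) hx) h9)).2 (by simpa using h8)⟩
  rw [h4]
  by_cases hr : r = 2
  · subst hr
    rw [two h0 hn (by omega), and_iff_right rfl]
    exact or_congr_left ⟨fun ⟨W, h, h'⟩ => ⟨W, le_top, h', by simpa using h⟩,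
      fun ⟨W, _, h, h'⟩ => ⟨W, by simpa using h', h⟩⟩
  obtain ⟨x, h5, h6, h7⟩ := odd h0 hn (by omega) hr (by
    rw [← Subgroup.inf_relIndex_right, ← Subgroup.relIndex_map_map_of_injective (f := e.toMonoidHom) _ _
      e.injective] at hΩ
    convert hΩ <;> ext x <;> obtain ⟨x, rfl⟩ := e.surjective x <;>
      erw [Subgroup.mem_map_iff_mem e.injective]
    · exact ⟨fun h => ⟨(h2 x ((h1 x).2 (le h))).2 h, (h1 x).2 (le h)⟩, fun h => (h2 x h.2).1 h.1⟩
    · exact (h1 x).symm)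
  exact iff_of_false (fun h => (h x h5 h6).elim h7) (by simp [hr])

end Cfsg.Agent.S5983
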