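import Cfsg.Statements.S5984
import Cfsg.Agent.H28.Elu13

set_option autoImplicit false
open scoped MatrixGroups
open Cfsg

namespace Cfsg.Agent.S5984

open H28 H12 H13 Module
open scoped Pointwise

theorem guOrd_two_mul (q d : ℕ) : guOrd q (2 * d) = q ^ (2 * d * (2 * d - 1) / 2) *
    ∏ j ∈ Finset.range d, (((q ^ 2) ^ (j + 1) - 1) * (q ^ (2 * j + 1) + 1)) := by
  rw [guOrd]
  congr 1
  induction d with
  | zero => rfl
  | succ d ih =>
    rw [mul_add, mul_one, Finset.prod_range_succ, Finset.prod_range_succ, Finset.prod_range_succ, ih, if_pos (even_two_mul d),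
      if_neg (by simp), ← pow_mul, mul_add 2 d, mul_assoc, mul_comm (_ + 1)]

/-- Elements of prime order of PSU_n(q) and the stabilizers of pairs of complementary totally singular subspaces. Here `T = PSU_n(q)` is realised through `SU_n(q)`, the matrices of determinant 1 over the field `F` with `q²` elements preserving the hermitian form `Σ uᵢ vᵢ^q`, with `n ≥ 4` even; `D` is a pair of complementary subspaces of dimension `n/2` on each of which the form vanishes identically, and `H` is the subgroup of `SU_n(q)` fixing or interchanging the two members — a subgroup of type GL_{n/2}(q²).2 (maximality is not assumed). Ω is the set of cosets of `H`, so an element of `T` of prime order `r` (`x ∈ SU_n(q)` with `x^r` scalar, `x` not scalar) fixes a point of Ω exactly when some `SU_n(q)`-conjugate of `x` lies in `H`. Let `r` be a prime dividing the index of `H`. Then every element of `T` of order `r` fixes a point of Ω if and only if `r =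 2`, `q` is odd and `(q + 1)_2 ≤ (n)_2` (2-parts). -/
theorem result {F : Type*} [Field F] [Fintype F] {p : ℕ} [Fact p.Prime] [CharP F p] {q : ℕ} (hq : Fintype.card F = q ^ 2)
    (n : ℕ) (hn : 4 ≤ n) (he : Even n) (D : Fin 2 → Submodule F (Fin n → F)) (hD : Cfsg.Geo.IsMDecomposition (n / 2) D)
    (hDs : ∀ i, Cfsg.Geo.IsTotallySingularFor (Cfsg.hermForm n F q) (D i))
    (r : ℕ) [Fact r.Prime]
    (hΩ : r ∣ (Cfsg.Geo.decompositionStabilizer D).relIndex (Cfsg.GU n F q ⊓ Cfsg.Geo.specialLinear (Fin n) F)) :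
    (∀ x ∈ Cfsg.GU n F q ⊓ Cfsg.Geo.specialLinear (Fin n) F, (∃ z : F, ((x ^ r : GL (Fin n) F) : Matrix (Fin n) (Fin n) F) = z • (1 : Matrix (Fin n) (Fin n) F)) →
      (∀ z : F, (x : Matrix (Fin n) (Fin n) F) ≠ z • (1 : Matrix (Fin n) (Fin n) F)) →
      ∃ g ∈ Cfsg.GU n F q ⊓ Cfsg.Geo.specialLinear (Fin n) F, g⁻¹ * x * g ∈ Cfsg.Geo.decompositionStabilizer D) ↔
    (r = 2 ∧ Odd q ∧ padicValNat 2 (q + 1) ≤ padicValNat 2 n) := by
  have hr : r.Prime := Fact.out
  have E := sd_uB hq n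
  obtain ⟨d, hd⟩ := he.two_dvd
  have hV : finrank F (Fin n → F) = n := by simp
  have : Nontrivial (Fin n → F) := nontrivial_of_finrank_pos (R := F) (by omega)
  obtain ⟨ρ, hρ, -⟩ := exists_frob_pow hq
  have e : ∀ u v, hermForm n F q u v = 0 ↔ uB hq n u v = 0 := fun u v => (uB_eq_zero hq).symm.trans E.comm0_iff
  have h1 : PlP (uB hq n) (D 0) (D 1) := ⟨⟨hD.indep.pairwiseDisjoint zero_ne_one, codisjoint_iff.2 (top_unique
    (hD.iSup_eq_top ▸ iSup_le (Fin.forall_fin_two.2 ⟨le_sup_left, le_sup_right⟩)))⟩, fun u hu v hv => (e u v).1 (hDs 0 u hu v hv),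
    fun u hu v hv => (e u v).1 (hDs 1 u hu v hv)⟩
  set G := GU n F q ⊓ Geo.specialLinear (Fin n) F
  let φ : G →* UG (uB hq n) := (guEquiv hq n).toMonoidHom.comp (Subgroup.inclusion inf_le_left)
  have h2 : ∀ x : G, Matrix.toLin' (x : GL (Fin n) F).1 = (φ x).1 := fun x => LinearMap.ext fun _ => rfl
  have h3 : ∀ g : UG (uB hq n), LinearMap.det (g.1 : End F (Fin n → F)) = 1 → ∃ x, φ x = g := fun g hg => by
    obtain ⟨x, rfl⟩ := (guEquiv hq n).surjective g
    exact ⟨⟨x, x.2, (udet_guEquiv hq x).symm.trans (Units.ext ((coe_udet _).trans hg))⟩, rfl⟩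
  have h4 : ∀ x : G, x.1 ∈ Geo.decompositionStabilizer D ↔
      (φ x • D 0 = D 0 ∧ φ x • D 1 = D 1) ∨ (φ x • D 0 = D 1 ∧ φ x • D 1 = D 0) := fun x => by
    constructor
    · rintro ⟨σ, h⟩
      simp only [h2] at h
      obtain rfl | rfl : σ = 1 ∨ σ = .swap 0 1 := by clear h; revert σ; decide
      exacts [.inl ⟨h 0, h 1⟩, .inr ⟨h 0, h 1⟩]
    · rintro (h | h)
      exacts [⟨1, Fin.forall_fin_two.2 (h2 x ▸ h)⟩, ⟨.swap 0 1, Fin.forall_fin_two.2 (h2 x ▸ h)⟩]
  have h5 : ∀ x : G, (∃ g ∈ G, g⁻¹ * x * g ∈ Geo.decompositionStabilizer D) ↔ HasPP (uB hq n) (φ x).1 := fun x => by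
    have h5 : ∀ g : G, g.1⁻¹ * x * g ∈ Geo.decompositionStabilizer D ↔ _ := fun g => h4 (g⁻¹ * x * g)
    simp only [map_mul, map_inv, mul_smul, inv_smul_eq_iff] at h5
    constructor
    · rintro ⟨g, hg, h⟩
      have := h1.smul (φ ⟨g, hg⟩)
      exact ⟨_, _, this.1, this.2.1, this.2.2, (h5 ⟨g, hg⟩).1 h⟩
    · rintro ⟨U, W, h6, h7, h8, h9⟩
      obtain ⟨g, h10, rfl, rfl⟩ := exists_su_plp E (frobq_ne_id hq) h1 ⟨h6, h7, h8⟩
      obtain ⟨g, rfl⟩ := h3 g h10
      exact ⟨g, g.2, (h5 g).2 h9⟩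
  refine Iff.trans (b := ∀ a : End F (Fin n → F), Pres (uB hq n) a → LinearMap.det a = 1 → H28.PO r a → HasPP (uB hq n) a)
    ⟨fun H a ha h6 h7 => ?_, fun H x hx h6 h7 => (h5 ⟨x, hx⟩).2 (H _ (φ _).2 (by
      rw [← coe_udet]; exact congrArg Units.val ((udet_guEquiv hq ⟨x, hx.1⟩).trans (MonoidHom.mem_ker.1 hx.2))) (h2 _ ▸ (po_toLin' _ _).2 ⟨h6, h7⟩))⟩ ?_
  · obtain ⟨x, hx⟩ := h3 ⟨.ofBijective a ((End.isUnit_iff a).1 (E.wittData.nds.isUnit ha)), ha⟩ h6
    obtain rfl : (φ x).1 = a := by rw [hx]; rfl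
    rw [← h2, po_toLin'] at h7
    exact (h5 x).1 (H x x.2 h7.1 h7.2)
  have h6 := h1.finrank E
  constructor
  swap
  · rintro ⟨rfl, h7, h8⟩ a ha h9 h10
    obtain ⟨w, h11, y, rfl, h12, h13, -⟩ | ⟨z, h11, h12⟩ := po_cases_u E ha h10
    · obtain ⟨s, t, h14, h15, -, h16⟩ := u_inv hρ E h12 h7.add_one.two_dvd h13
      have h17 := even_of_det h7.add_one.two_dvd (by omega) (hV.symm ▸ h8) h11 h15 h9 hq
      exact (h16 ((Nat.even_add.1 (h14 ▸ hV.symm ▸ he)).2 h17) h17).smul (by rintro rfl; simp at h11)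
    · exact (h11.two hρ E ha h12).1
  intro H
  have hrp : r ≠ p := by
    rintro rfl
    rw [forall_po_u_two E hr (fun h => cast_ne_of_dvd hq h (CharP.cast_eq_zero F r)) fun w hw a h => h.smul hw] at H
    obtain ⟨v, hv, h7⟩ := (D 0).exists_mem_ne_zero_of_ne_bot fun h => by rw [h, finrank_bot] at h6; omega
    obtain ⟨w, hw⟩ := E.exists_ne h7
    have h8 := h1.2.1 v hv v hv
    have h9 := tv_apply E h8 (map_one _)
    have h10 : ((tv (uB hq n) v 1).1 : End F (Fin n → F)) ≠ 1 := fun h => by simpa [h9, hw, h7] using LinearMap.congr_fun h w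
    exact not_hasPP E (tv _ v 1).2 h10 (v := v) (fun x => by simp [h9, Submodule.smul_mem]) (by omega) (H _ (tv _ v 1).2
      ((pow_char_eq_one_iff _).2 (pow_eq_zero_of_le hr.two_le (LinearMap.ext fun x => by simp [sq, h9, h8]))) h10)
  have h7 : ¬ r ∣ q := fun h' => not_dvd_card_of_ne (F := F) hr hrp (hq ▸ h'.pow two_ne_zero)
  by_cases h8 : r = 2
  · subst h8
    refine ⟨rfl, Nat.odd_iff.2 (by omega), by_contra fun h => ?_⟩
    obtain ⟨w, y, v, g1, g2, g3, g4, g5, g6, -, g7⟩ := exists_refl_su E (by omega) (by omega) (hV.symm ▸ not_le.1 h)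
    exact not_hasPP E g5 g6 (v := v) (fun x => g7 x ▸ Submodule.smul_mem _ _ (Submodule.mem_span_singleton_self v)) (by omega)
      (by simpa [smul_smul, g1] using (H _ g2 g3 g4).smul (inv_ne_zero g1))
  exfalso
  replace H : ∀ a : End F (Fin n → F), Pres (uB hq n) a → LinearMap.det a = 1 → H28.PO r a → HasTI (uB hq n) a d := fun a ha h9 h10 => by
    obtain ⟨U, W, g1, g2, g3, g4⟩ := H a ha h9 h10
    obtain ⟨z, hz⟩ := h10.1
    have := PlP.finrank E ⟨g1, g2, g3⟩
    exact ⟨U, by omega, g2, (PlP.iv_of_odd ⟨g1, g2, g3⟩ (hr.odd_of_ne_two h8)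
      (right_ne_zero_of_mul_eq_one (mul_eq_one_of_pres E (hz ▸ ha.pow r))) hz g4).1⟩
  have h9 := hr.two_le
  by_cases h10 : r ∣ q + 1
  · obtain ⟨a, g1, g2, g3, g4⟩ := exists_not_ti_one hρ E hrp h8 h10 (by omega) (m := d) (by omega) (by omega)
    exact g4 (H a g1 g2 g3)
  rw [forall_po_u_two E hr h10 fun w _ a h => h.smul] at H
  have h11 := plp_count E h1
  let _ := MulAction.compHom (Submodule F (Fin n → F) × Submodule F (Fin n → F)) φ
  rw [card_eq_index_of_trans (G := G) (P := fun P : Submodule F (Fin n → F) × Submodule F (Fin n → F) =>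
    PlP (uB hq n) P.1 P.2) (x := (D 0, D 1)) h1 (fun g => h1.smul (φ g)) fun P hP => by
      obtain ⟨g, h10, h11, h12⟩ := exists_su_plp E (frobq_ne_id hq) h1 hP
      obtain ⟨g, rfl⟩ := h3 g h10
      exact ⟨g, Prod.ext h11 h12⟩, E.card_UG_unitary (frobq_ne_id hq), q0_frobq, hV, show finrank F (D 0) = d by omega, hq] at h11
  conv_rhs at h11 => rw [hd, guOrd_two_mul]
  have h12 := two_le_of_card_eq_sq hq
  obtain ⟨j, h13, h14⟩ := exists_dvd_of_mul hr (fun j => Nat.sub_pos_of_lt (Nat.one_lt_pow (by omega) (by nlinarith))) h7 h11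
    (hΩ.trans (Subgroup.index_dvd_of_le fun g hg => (h4 g).2 (.inl ⟨congrArg Prod.fst hg, congrArg Prod.snd hg⟩)))
  have h15 : orderOf (-q : ZMod r) ∣ 2 * j + 1 := orderOf_dvd_of_pow_eq_one (by
    have := (ZMod.natCast_eq_zero_iff _ _).2 h14
    rw [(odd_two_mul_add_one j).neg_pow]; push_cast at this; linear_combination -this)
  have h16 := Nat.le_of_dvd (Nat.succ_pos _) h15
  have P := per_u hrp h8 hq hρ
  obtain ⟨h17, h18⟩ := per_u_odd hq ((odd_two_mul_add_one j).of_dvd_nat h15)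
  have := P.pos
  obtain ⟨a, -, -, g1, g2, -, -, -, -, g3, g4⟩ := P.exists_not_ti E h17 h18 (m := d) (t := 1) (j := 0)
    (e := n - orderOf (-q : ZMod r)) P.one_le (by omega) fun k hk l hl => by
      obtain rfl : k = 0 := by omega
      omega
  exact g4 (H a g1 g2 (g3 one_pos))

end Cfsg.Agent.S5984
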