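import Cfsg.Statements.S5989
import Cfsg.Agent.H13.EO7

set_option autoImplicit false
open scoped MatrixGroups
open Cfsg

namespace Cfsg.Agent.S5989

open H13 Module

/-- Elements of prime order of PΩ⁺_n(q), q odd, with no fixed nondegenerate `m`-space of odd dimension. Here `T = PΩ⁺_n(F)`, `n = 2d ≥ 8`, realised through `Ω⁺_n(q)`, the commutator subgroup of the isometry group of `Q = Σ xᵢyᵢ` over the field `F` with `q` elements; an element of `T` of prime order `r` is an element `x` of `Ω⁺_n(q)` with `x^r` scalar and `x` not scalar; `q` and `m` are odd, `1 ≤ m < n/2`. The nondegenerate `m`-spaces (subspaces on which the polar form is nondegenerate) fall into two isometry classes, each an orbit of `T`, and the two actions are equivalent; fix one such space `W₀` and let Ω be the set of nondegenerate `m`-spaces isometric to `W₀` (some linear isomorphism preserves `Q`). Let `r` be a prime dividing the size of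 Ω; for `r ≠ p` let `i` be the multiplicative order of `q` modulo `r`, `c = i` for `i` even and `c = 2i` for `i` odd, and write `k = n mod c`, `ℓ = m mod i`, `ℓ' = m mod c`, `n' = ⌊n/i⌋`, `m' = ⌊m/i⌋`, `t = (r−1)/i`. Then every element of `T` of order `r` fixes a member of Ω if and only if one of: (i) `r = 2`, `n ≡ 2 (mod 4)` and `q ≢ 1 (mod 8)`; (ii) `r ≠ p` odd, `i` odd, `c ≤ m` and `k > ℓ' > 0`; (iii) `r ≠ p` odd, `i` even, and either `k = 0` and `n/i` odd, or `i ≤ m` and `k > ℓ' > 0`. (For `r = p` there is always an element of order `p` fixing no member of Ω.) -/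
theorem result {F : Type*} [Field F] [Fintype F] {p : ℕ} [Fact p.Prime] [CharP F p] {q : ℕ} (hq : Fintype.card F = q)
    (hodd : Odd q) (d m : ℕ) (hd : 4 ≤ d) (hm : Odd m) (hmd : m < d)
    (W₀ : Submodule F (Fin d ⊕ Fin d → F)) (hW₀ : Module.finrank F ↥W₀ = m ∧ Cfsg.Geo.IsNondegenerateOn (QuadraticMap.polar (Cfsg.quadFormPlus d F)) W₀)
    (r : ℕ) [Fact r.Prime]
    (hrΩ : r ∣ Nat.card {W : Submodule F (Fin d ⊕ Fin d → F) // Module.finrank F ↥W = m ∧ Cfsg.Geo.IsNondegenerateOn (QuadraticMap.polar (Cfsg.quadFormPlus d F)) W ∧ Cfsg.Geo.AreIsometricFor (Cfsg.quadFormPlus d F) W W₀})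
    (i c : ℕ) (hi : i = orderOf (q : ZMod r)) (hc : c = if Even i then i else 2 * i) :
    (∀ x : GL (Fin d ⊕ Fin d) F, x ∈ Cfsg.Geo.omegaGL (Cfsg.quadFormPlus d F) →
      (∃ z : F, ((x ^ r : GL (Fin d ⊕ Fin d) F) : Matrix (Fin d ⊕ Fin d) (Fin d ⊕ Fin d) F) = z • (1 : Matrix (Fin d ⊕ Fin d) (Fin d ⊕ Fin d) F)) →
      (∀ z : F, (x : Matrix (Fin d ⊕ Fin d) (Fin d ⊕ Fin d) F) ≠ z • (1 : Matrix (Fin d ⊕ Fin d) (Fin d ⊕ Fin d) F)) →
      ∃ W : Submodule F (Fin d ⊕ Fin d → F), (Module.finrank F ↥W = m ∧ Cfsg.Geo.IsNondegenerateOn (QuadraticMap.polar (Cfsg.quadFormPlus d F)) W ∧ Cfsg.Geo.AreIsometricFor (Cfsg.quadFormPlus d F) W W₀) ∧ W.map (Matrix.toLin' (x : Matrix (Fin d ⊕ Fin d) (Fin d ⊕ Fin d) F)) ≤ W) ↔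
    ((r = 2 ∧ Odd d ∧ q % 8 ≠ 1) ∨
     (r ≠ p ∧ 2 < r ∧ Odd i ∧ c ≤ m ∧ 0 < m % c ∧ m % c < (2 * d) % c) ∨
     (r ≠ p ∧ 2 < r ∧ Even i ∧ (((2 * d) % c = 0 ∧ Odd ((2 * d) / i)) ∨ (i ≤ m ∧ 0 < m % c ∧ m % c < (2 * d) % c)))) := by
  subst hq
  have h2 := two_ne_zero_of_odd_card hodd
  have hQ := nd_QPlus (m := d) (F := F)
  have hG := good_of_two_ne_zero (Q := QPlus d F) h2
  have hn : finrank F (Fin d ⊕ Fin d → F) = 2 * d := by simp; omega
  have : Nonempty (Fin d) := ⟨⟨0, by omega⟩⟩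
  have h0 := ((nondeg_iff (coe_QPlus d F)).1 hW₀.2).ns
  rw [hW₀.1] at h0
  generalize ty ((QPlus d F).restrict W₀) = δ at h0
  simp only [ns_iso_iff (coe_QPlus d F) h0] at hrΩ ⊢
  rw [hQ.omega_iff (coe_QPlus d F)]
  rw [Nat.odd_iff] at hm
  by_cases hr2 : r = 2
  · subst hr2
    rw [hQ.allO_two_nd h2 (by omega) (by omega), II, hn, ty_QPlus, Nat.mul_div_cancel_left _ two_pos]
    rcases Nat.even_or_odd d with h1 | h1 <;> rcases sgn_cases hodd with h | h | h | h <;>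
      simp [h, h1.neg_one_pow, h1, Nat.not_odd_iff_even.2, Nat.even_iff, hm]
  by_cases hrp : r = p
  · subst hrp
    rw [hQ.allO_odd hG ((Fact.out : r.Prime).odd_of_ne_two hr2)]
    refine iff_of_false (fun H => ?_) (by simp [hr2])
    obtain ⟨a, b, c, h3, h4⟩ : ∃ a b c, (b % 2 = 0 ∧ a + 2 * b + 3 * c = 2 * d ∧ 0 < b + c) ∧
        (a = 0 ∧ c = 0 ∨ a = 2 ∧ c = 0 ∧ m % 4 = 3 ∨ a = 0 ∧ c = 2 ∧ m % 4 = 1) := by
      rcases (by omega : d % 2 = 0 ∨ d % 2 = 1 ∧ m % 4 = 3 ∨ d % 2 = 1 ∧ m % 4 = 1) with h | h | h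
      exacts [⟨0, d, 0, by omega⟩, ⟨2, d - 1, 0, by omega⟩, ⟨0, d - 3, 2, by omega⟩]
    obtain ⟨g, h5, h6, h7⟩ := hQ.exists_t3 h2 (p := r) h3.1 (h3.2.1.trans hn.symm) (.inr (ty_QPlus d)) h3.2.2
    obtain ⟨U, h8, h9⟩ := H g h5 h6
    obtain ⟨a', h8, b', h9, c', h10, h11, h12, -⟩ := h7 U _ _ h8 h9
    rcases (by omega : c' = 0 ∨ c' = 1 ∨ c' = 2) with rfl | rfl | rfl <;> omega
  have h3 := (Fact.out : r.Prime).two_le
  have hq := card_ne_zero_zmod (F := F) Fact.out hrp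
  obtain ⟨x, hx⟩ := exists_neg_one_pow δ
  rw [hQ.qe_nd hr2 hq hi hc hG hn (y := 0) (ty_QPlus d) hx (.inr h2) (by omega) (by omega) hrΩ]
  obtain ⟨-, -, -, -, -, -, h8, -⟩ := lin_facts (hc ▸ cc_pos hq hi : 0 < c) (2 * d) m
  simp only [Nat.even_iff, Nat.odd_iff] at *
  rcases Nat.mod_two_eq_zero_or_one i with h | h
  · obtain rfl : c = i := by simp [hc, h]
    rw [show (c + 1) % 2 = 1 by omega]
    generalize 2 * d / c = n', 2 * d % c = k, m / c = m', m % c = l at *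
    omega
  · obtain rfl : c = 2 * i := by simp [hc, h]
    rw [show (i + 1) % 2 = 0 by omega]
    generalize 2 * d / (2 * i) = n', 2 * d % (2 * i) = k, m / (2 * i) = m', m % (2 * i) = l at *
    omega

end Cfsg.Agent.S5989
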