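import Cfsg.Statements.S5990
import Cfsg.Agent.H13.EO8

set_option autoImplicit false
open scoped MatrixGroups
open Cfsg

namespace Cfsg.Agent.S5990

open H13 Module

/-- Elements of prime order of PΩ⁻_n(q) with no fixed elliptic `m`-space. Here `T = PΩ⁻_n(F)`, `n = 2d ≥ 8`, realised through `Ω⁻_n(q)`, the commutator subgroup of the isometry group of `Q = Σ_{i<d−1} xᵢyᵢ + z₁² + a z₁z₂ + b z₂²` with `z₁² + a z₁z₂ + b z₂²` anisotropic, over the field `F` with `q` elements; an element of `T` of prime order `r` is an element `x` of `Ω⁻_n(q)` with `x^r` scalar and `x` not scalar; a nondegenerate `m`-space (even `m`) is a subspace on which the polar form of `Q` is nondegenerate; it is hyperbolic if it contains an `m/2`-dimensional subspace on which `Q` vanishes, elliptic otherwise. Let `m` be even with `2 ≤ m ≤ n − 2` (no restriction `m < n/2`: fixing an elliptic `m`-space is the same as fixing its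 hyperbolic orthogonal complement) and let `r` be a prime dividing the number of elliptic `m`-spaces, with `r = 2` or `r ≠ p`; for `r ≠ p` let `i` be the multiplicative order of `q` modulo `r`, `c = i` for `i` even and `c = 2i` for `i` odd, and write `k = n mod c`, `ℓ = m mod i`, `ℓ' = m mod c`, `n' = ⌊n/i⌋`, `m' = ⌊m/i⌋`, `t = (r−1)/i`. Then every element of `T` of order `r` fixes some elliptic `m`-space if and only if one of: (i) `r = p = 2` and (`n ≡ 0 (mod 4)` or `m ≡ 2 (mod 4)`); (ii) `r = 2 ≠ p` and (`n ≡ 0 (mod 4)`, or `q ≢ 7 (mod 8)`, or `m ≡ 2 (mod 4)`); (iii) `r ≠ p` odd, `i` odd, and `k = 0` or (`c ≤ m` and `k ≥ ℓ' > 0`); (iv) `r ≠ p` odd, `i` even, and either `k = 0` and (`n/i` even, or `ℓ' = 0` and `m/i` odd), or `k > 0`, `i ≤ m` and (`k > ℓ' > 0`, or `ℓ' = 0` and `m/i` odd, or `k = ℓ'` and `(n + m − 2k)/i` even). (Odd `r = p` is not covered by this statement.) -/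
theorem result {F : Type*} [Field F] [Fintype F] {p : ℕ} [Fact p.Prime] [CharP F p] {q : ℕ} (hq : Fintype.card F = q)
    (d m : ℕ) (hd : 4 ≤ d) (hm : 2 ≤ m) (hme : Even m) (hmn : m + 2 ≤ 2 * d) (a b : F) (hab : ∀ x y : F, x ^ 2 + a * x * y + b * y ^ 2 = 0 → x = 0 ∧ y = 0)
    (r : ℕ) [Fact r.Prime] (hr : r = 2 ∨ r ≠ p)
    (hrΩ : r ∣ Nat.card {W : Submodule F ((Fin (d - 1) ⊕ Fin (d - 1)) ⊕ Fin 2 → F) // Module.finrank F ↥W = m ∧ Cfsg.Geo.IsNondegenerateOn (QuadraticMap.polar (Cfsg.quadFormMinus (d - 1) F a b)) W ∧ ¬ Cfsg.Geo.IsPlusTypeOn (Cfsg.quadFormMinus (d - 1) F a b) W})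
    (i c : ℕ) (hi : i = orderOf (q : ZMod r)) (hc : c = if Even i then i else 2 * i) :
    (∀ x : GL ((Fin (d - 1) ⊕ Fin (d - 1)) ⊕ Fin 2) F, x ∈ Cfsg.Geo.omegaGL (Cfsg.quadFormMinus (d - 1) F a b) →
      (∃ z : F, ((x ^ r : GL ((Fin (d - 1) ⊕ Fin (d - 1)) ⊕ Fin 2) F) : Matrix ((Fin (d - 1) ⊕ Fin (d - 1)) ⊕ Fin 2) ((Fin (d - 1) ⊕ Fin (d - 1)) ⊕ Fin 2) F) = z • (1 : Matrix ((Fin (d - 1) ⊕ Fin (d - 1)) ⊕ Fin 2) ((Fin (d - 1) ⊕ Fin (d - 1)) ⊕ Fin 2) F)) →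
      (∀ z : F, (x : Matrix ((Fin (d - 1) ⊕ Fin (d - 1)) ⊕ Fin 2) ((Fin (d - 1) ⊕ Fin (d - 1)) ⊕ Fin 2) F) ≠ z • (1 : Matrix ((Fin (d - 1) ⊕ Fin (d - 1)) ⊕ Fin 2) ((Fin (d - 1) ⊕ Fin (d - 1)) ⊕ Fin 2) F)) →
      ∃ W : Submodule F ((Fin (d - 1) ⊕ Fin (d - 1)) ⊕ Fin 2 → F), (Module.finrank F ↥W = m ∧ Cfsg.Geo.IsNondegenerateOn (QuadraticMap.polar (Cfsg.quadFormMinus (d - 1) F a b)) W ∧ ¬ Cfsg.Geo.IsPlusTypeOn (Cfsg.quadFormMinus (d - 1) F a b) W) ∧ W.map (Matrix.toLin' (x : Matrix ((Fin (d - 1) ⊕ Fin (d - 1)) ⊕ Fin 2) ((Fin (d - 1) ⊕ Fin (d - 1)) ⊕ Fin 2) F)) ≤ W) ↔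
    ((r = 2 ∧ p = 2 ∧ (Even d ∨ m % 4 = 2)) ∨
     (r = 2 ∧ p ≠ 2 ∧ (Even d ∨ q % 8 ≠ 7 ∨ m % 4 = 2)) ∨
     (r ≠ p ∧ 2 < r ∧ Odd i ∧ ((2 * d) % c = 0 ∨ (c ≤ m ∧ 0 < m % c ∧ m % c ≤ (2 * d) % c))) ∨
     (r ≠ p ∧ 2 < r ∧ Even i ∧
       (((2 * d) % c = 0 ∧ (Even ((2 * d) / i) ∨ (m % c = 0 ∧ Odd (m / i)))) ∨
        (0 < (2 * d) % c ∧ i ≤ m ∧ ((0 < m % c ∧ m % c < (2 * d) % c) ∨ (m % c = 0 ∧ Odd (m / i)) ∨
                                    (m % c = (2 * d) % c ∧ Even ((2 * d + m - 2 * ((2 * d) % c)) / i))))))) := by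
  subst hq
  have hQ := nd_QMinus (m := d - 1) hab
  have hn : finrank F ((Fin (d - 1) ⊕ Fin (d - 1)) ⊕ Fin 2 → F) = 2 * d := by simp; omega
  have hG := good_QMinus (m := d - 1) hab
  simp only [ns_minus_iff (coe_QMinus (d - 1) F a b) hme] at hrΩ ⊢
  rw [hQ.omega_iff (coe_QMinus (d - 1) F a b)]
  have hm2 := Nat.even_iff.1 hme
  by_cases hrp : r = p
  · subst hrp
    obtain rfl := hr.resolve_right (not_not.2 rfl)
    rw [hQ.qe_char_two hG hn (y := 1) (x := 1) (δ := -1) (ty_QMinus _ hab) rfl hme (by omega) (by omega)]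
    simp [Nat.even_iff]
    omega
  by_cases hr2 : r = 2
  · subst hr2
    have h2 : (2 : F) ≠ 0 := Ring.two_ne_zero (ringChar.eq F p ▸ Ne.symm hrp)
    rw [hQ.allO_two_nd h2 (by omega) (by omega), II, hn, ty_QMinus _ hab, Nat.mul_div_cancel_left _ two_pos]
    rcases Nat.even_or_odd d with h1 | h1 <;> rcases Nat.even_or_odd (m / 2) with h3 | h3 <;>
      rcases sgn_cases (odd_card_of_two_ne_zero h2) with h | h | h | h <;>
      simp [h, h1.neg_one_pow, h3.neg_one_pow, h1, Nat.not_even_iff_odd.2, hme,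
        Ne.symm hrp] <;> simp only [Nat.even_iff, Nat.odd_iff] at h3 <;> omega
  have h3 := (Fact.out : r.Prime).two_le.lt_of_ne' hr2
  have hq := card_ne_zero_zmod (F := F) Fact.out hrp
  rw [hQ.qe_nd hr2 hq hi hc hG hn (y := 1) (ty_QMinus _ hab) (δ := -1) (x := 1) rfl (.inl hme) (by omega)
    (by omega) hrΩ]
  obtain ⟨-, -, h7, -, -, -, -, h8⟩ := lin_facts (hc ▸ cc_pos hq hi : 0 < c) (2 * d) m
  rcases Nat.mod_two_eq_zero_or_one i with h | h
  · obtain rfl : c = i := by simp [hc, Nat.even_iff, h]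
    simp only [show (c + 1) % 2 = 1 by omega, Nat.even_iff, Nat.odd_iff, hr2, Ne, hrp, h3, h, h7,
      not_false_eq_true, true_and, false_and, false_or, zero_ne_one]
    generalize (2 * d + m - 2 * (2 * d % c)) / c = e at *
    generalize 2 * d / c = n', 2 * d % c = k, m / c = m', m % c = l at *
    omega
  · obtain rfl : c = 2 * i := by simp [hc, Nat.even_iff, h]
    simp only [show (i + 1) % 2 = 0 by omega, Nat.even_iff, Nat.odd_iff, hr2, Ne, hrp, h3, h,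
      not_false_eq_true, true_and, false_and, false_or, one_ne_zero, or_false]
    generalize 2 * d % (2 * i) = k, m % (2 * i) = l
    omega

end Cfsg.Agent.S5990
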