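import Cfsg.Statements.S5991
import Cfsg.Agent.H13.EO7

set_option autoImplicit false
open scoped MatrixGroups
open Cfsg

namespace Cfsg.Agent.S5991

open H13 Module

/-- Elements of prime order of PΩ⁻_n(q), q odd, with no fixed nondegenerate `m`-space of odd dimension. Here `T = PΩ⁻_n(F)`, `n = 2d ≥ 8`, realised through `Ω⁻_n(q)`, the commutator subgroup of the isometry group of `Q = Σ_{i<d−1} xᵢyᵢ + z₁² + a z₁z₂ + b z₂²` with `z₁² + a z₁z₂ + b z₂²` anisotropic, over the field `F` with `q` elements; an element of `T` of prime order `r` is an element `x` of `Ω⁻_n(q)` with `x^r` scalar and `x` not scalar; `q` and `m` are odd, `1 ≤ m < n/2`. The nondegenerate `m`-spaces fall into two isometry classes, each an orbit of `T`, with equivalent actions; fix one such space `W₀` and let Ω be the set of nondegenerate `m`-spaces isometric to `W₀`. Let `r` be a prime dividing the size of Ω; for `r ≠ p` let `i`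 be the multiplicative order of `q` modulo `r`, `c = i` for `i` even and `c = 2i` for `i` odd, and write `k = n mod c`, `ℓ = m mod i`, `ℓ' = m mod c`, `n' = ⌊n/i⌋`, `m' = ⌊m/i⌋`, `t = (r−1)/i`. Then every element of `T` of order `r` fixes a member of Ω if and only if one of: (i) `r = 2` and (`n ≡ 0 (mod 4)` or `q ≢ 7 (mod 8)`); (ii) `r ≠ p` odd, `i` odd, and `k = 0` or (`c ≤ m` and `k > ℓ' > 0`); (iii) `r ≠ p` odd, `i` even, and either `k = 0` and `n/i` even, or `k > 0`, `i ≤ m` and `k > ℓ' > 0`. (For `r = p` there is always an element of order `p` fixing no member of Ω.) -/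
theorem result {F : Type*} [Field F] [Fintype F] {p : ℕ} [Fact p.Prime] [CharP F p] {q : ℕ} (hq : Fintype.card F = q)
    (hodd : Odd q) (d m : ℕ) (hd : 4 ≤ d) (hm : Odd m) (hmd : m < d) (a b : F) (hab : ∀ x y : F, x ^ 2 + a * x * y + b * y ^ 2 = 0 → x = 0 ∧ y = 0)
    (W₀ : Submodule F ((Fin (d - 1) ⊕ Fin (d - 1)) ⊕ Fin 2 → F)) (hW₀ : Module.finrank F ↥W₀ = m ∧ Cfsg.Geo.IsNondegenerateOn (QuadraticMap.polar (Cfsg.quadFormMinus (d - 1) F a b)) W₀)
    (r : ℕ) [Fact r.Prime]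
    (hrΩ : r ∣ Nat.card {W : Submodule F ((Fin (d - 1) ⊕ Fin (d - 1)) ⊕ Fin 2 → F) // Module.finrank F ↥W = m ∧ Cfsg.Geo.IsNondegenerateOn (QuadraticMap.polar (Cfsg.quadFormMinus (d - 1) F a b)) W ∧ Cfsg.Geo.AreIsometricFor (Cfsg.quadFormMinus (d - 1) F a b) W W₀})
    (i c : ℕ) (hi : i = orderOf (q : ZMod r)) (hc : c = if Even i then i else 2 * i) :
    (∀ x : GL ((Fin (d - 1) ⊕ Fin (d - 1)) ⊕ Fin 2) F, x ∈ Cfsg.Geo.omegaGL (Cfsg.quadFormMinus (d - 1) F a b) →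
      (∃ z : F, ((x ^ r : GL ((Fin (d - 1) ⊕ Fin (d - 1)) ⊕ Fin 2) F) : Matrix ((Fin (d - 1) ⊕ Fin (d - 1)) ⊕ Fin 2) ((Fin (d - 1) ⊕ Fin (d - 1)) ⊕ Fin 2) F) = z • (1 : Matrix ((Fin (d - 1) ⊕ Fin (d - 1)) ⊕ Fin 2) ((Fin (d - 1) ⊕ Fin (d - 1)) ⊕ Fin 2) F)) →
      (∀ z : F, (x : Matrix ((Fin (d - 1) ⊕ Fin (d - 1)) ⊕ Fin 2) ((Fin (d - 1) ⊕ Fin (d - 1)) ⊕ Fin 2) F) ≠ z • (1 : Matrix ((Fin (d - 1) ⊕ Fin (d - 1)) ⊕ Fin 2) ((Fin (d - 1) ⊕ Fin (d - 1)) ⊕ Fin 2) F)) →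
      ∃ W : Submodule F ((Fin (d - 1) ⊕ Fin (d - 1)) ⊕ Fin 2 → F), (Module.finrank F ↥W = m ∧ Cfsg.Geo.IsNondegenerateOn (QuadraticMap.polar (Cfsg.quadFormMinus (d - 1) F a b)) W ∧ Cfsg.Geo.AreIsometricFor (Cfsg.quadFormMinus (d - 1) F a b) W W₀) ∧ W.map (Matrix.toLin' (x : Matrix ((Fin (d - 1) ⊕ Fin (d - 1)) ⊕ Fin 2) ((Fin (d - 1) ⊕ Fin (d - 1)) ⊕ Fin 2) F)) ≤ W) ↔
    ((r = 2 ∧ (Even d ∨ q % 8 ≠ 7)) ∨
     (r ≠ p ∧ 2 < r ∧ Odd i ∧ ((2 * d) % c = 0 ∨ (c ≤ m ∧ 0 < m % c ∧ m % c < (2 * d) % c))) ∨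
     (r ≠ p ∧ 2 < r ∧ Even i ∧ (((2 * d) % c = 0 ∧ Even ((2 * d) / i)) ∨ (0 < (2 * d) % c ∧ i ≤ m ∧ 0 < m % c ∧ m % c < (2 * d) % c)))) := by
  subst hq
  have h2 := two_ne_zero_of_odd_card hodd
  have hQ := nd_QMinus (m := d - 1) hab
  have hG := good_QMinus (m := d - 1) hab
  have hn : finrank F ((Fin (d - 1) ⊕ Fin (d - 1)) ⊕ Fin 2 → F) = 2 * d := by simp; omega
  have h0 := ((nondeg_iff (coe_QMinus (d - 1) F a b)).1 hW₀.2).ns
  rw [hW₀.1] at h0
  generalize ty ((QMinus (d - 1) F a b).restrict W₀) = δ at h0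
  simp only [ns_iso_iff (coe_QMinus (d - 1) F a b) h0] at hrΩ ⊢
  rw [hQ.omega_iff (coe_QMinus (d - 1) F a b)]
  rw [Nat.odd_iff] at hm
  by_cases hr2 : r = 2
  · subst hr2
    rw [hQ.allO_two_nd h2 (by omega) (by omega), II, hn, ty_QMinus _ hab, Nat.mul_div_cancel_left _ two_pos]
    rcases Nat.even_or_odd d with h1 | h1 <;> rcases sgn_cases hodd with h | h | h | h <;>
      simp [h, h1.neg_one_pow, h1, Nat.not_even_iff_odd.2, Nat.even_iff (n := m), hm]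
  by_cases hrp : r = p
  · subst hrp
    rw [hQ.allO_odd hG ((Fact.out : r.Prime).odd_of_ne_two hr2)]
    refine iff_of_false (fun H => ?_) (by simp [hr2])
    rcases Nat.mod_two_eq_zero_or_one d with h | h
    · obtain ⟨g, h3, h4, h5⟩ := hQ.exists_t3' h2 (p := r) (b := d - 2) (by omega) (by omega)
        (if m % 4 = 1 then -δ else -(kap F m (2 * d - m) * δ * ty (QMinus (d - 1) F a b)))
      obtain ⟨U, h6, h7⟩ := H g h3 h4
      obtain ⟨a, h8, b, h9, c, h10, h11, h12, -, -, h13, h14⟩ := h5 U _ _ h6 h7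
      rw [hn] at h14
      split_ifs at h13 h14
      · exact Int.units_ne_iff_eq_neg.2 (h13 (by omega) (by omega)) rfl
      · rcases (by omega : c = 0 ∨ c = 1) with rfl | rfl
        · omega
        · exact Int.units_ne_iff_eq_neg.2 (h14 (by omega) rfl) rfl
    · obtain ⟨g, h3, h4, h5⟩ := hQ.exists_t3 h2 (p := r) (a := m % 4 - 1) (b := d - (4 - m % 4))
        (c := 3 - m % 4) (by omega) (by omega) (.inl (by omega)) (by omega)
      obtain ⟨U, h6, h7⟩ := H g h3 h4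
      obtain ⟨a, h8, b, h9, c, h10, h11, h12, -⟩ := h5 U _ _ h6 h7
      rcases (by omega : c = 0 ∨ c = 1 ∨ c = 2) with rfl | rfl | rfl <;> omega
  have h3 := (Fact.out : r.Prime).two_le
  have hq := card_ne_zero_zmod (F := F) Fact.out hrp
  obtain ⟨x, hx⟩ := exists_neg_one_pow δ
  rw [hQ.qe_nd hr2 hq hi hc hG hn (y := 1) (ty_QMinus _ hab) hx (.inr h2) (by omega) (by omega) hrΩ]
  obtain ⟨-, -, -, -, -, -, h8, -⟩ := lin_facts (hc ▸ cc_pos hq hi : 0 < c) (2 * d) m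
  simp only [Nat.even_iff, Nat.odd_iff] at *
  rcases Nat.mod_two_eq_zero_or_one i with h | h
  · obtain rfl : c = i := by simp [hc, h]
    rw [show (c + 1) % 2 = 1 by omega]
    generalize 2 * d / c = n', 2 * d % c = k, m / c = m', m % c = l at *
    omega
  · obtain rfl : c = 2 * i := by simp [hc, h]
    rw [show (i + 1) % 2 = 0 by omega]
    generalize 2 * d / (2 * i) = n', 2 * d % (2 * i) = k, m / (2 * i) = m', m % (2 * i) = l at *
    omega

end Cfsg.Agent.S5991
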