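import Cfsg.Statements.S5993
import Cfsg.Agent.H13.EO7

set_option autoImplicit false
open scoped MatrixGroups
open Cfsg

namespace Cfsg.Agent.S5993

open H13 Module

/-- Elements of prime order of Ω_n(q), nq odd, with no fixed elliptic `m`-space. Here `T = Ω_n(F)`, `n = 2d+1 ≥ 7`, `q` odd, realised as the commutator subgroup of the isometry group of `Q = x₀² + Σ xᵢyᵢ` over the field `F` with `q` elements (trivial centre, so its elements of prime order `r` are used directly); a nondegenerate `m`-space (even `m`) is a subspace on which the polar form of `Q` is nondegenerate; it is hyperbolic if it contains an `m/2`-dimensional subspace on which `Q` vanishes, elliptic otherwise. Let `m` be even with `2 ≤ m ≤ n − 1` (no restriction `m < n/2`) and let `r` be a prime dividing the number of elliptic `m`-spaces; for `r ≠ p` let `i` be the multiplicative order of `q` modulo `r`, `c = i` for `i` even and `c = 2i` for `i` odd, and write `k = n mod c`, `ℓ' = m mod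 c`. Then every element of `T` of order `r` fixes some elliptic `m`-space if and only if `r = 2`, or `r ≠ p` is odd and one of: (i) `i` odd, `c ≤ m` and `k > ℓ' > 0`; (ii) `i` even, `i ≤ m`, `k > ℓ'`, and `m/i` odd whenever `ℓ' = 0`. (For `r = p` there is always an element of order `p` fixing no elliptic `m`-space.) -/
theorem result {F : Type*} [Field F] [Fintype F] {p : ℕ} [Fact p.Prime] [CharP F p] {q : ℕ} (hq : Fintype.card F = q) (hqodd : Odd q)
    (d m : ℕ) (hd : 3 ≤ d) (hm : 2 ≤ m) (hme : Even m) (hmn : m ≤ 2 * d)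
    (r : ℕ) [Fact r.Prime]
    (hrΩ : r ∣ Nat.card {W : Submodule F (Unit ⊕ (Fin d ⊕ Fin d) → F) // Module.finrank F ↥W = m ∧ Cfsg.Geo.IsNondegenerateOn (QuadraticMap.polar (Cfsg.quadFormOdd d F)) W ∧ ¬ Cfsg.Geo.IsPlusTypeOn (Cfsg.quadFormOdd d F) W})
    (i c : ℕ) (hi : i = orderOf (q : ZMod r)) (hc : c = if Even i then i else 2 * i) :
    (∀ x : GL (Unit ⊕ (Fin d ⊕ Fin d)) F, x ∈ Cfsg.Geo.omegaGL (Cfsg.quadFormOdd d F) → orderOf x = r →
      ∃ W : Submodule F (Unit ⊕ (Fin d ⊕ Fin d) → F), (Module.finrank F ↥W = m ∧ Cfsg.Geo.IsNondegenerateOn (QuadraticMap.polar (Cfsg.quadFormOdd d F)) W ∧ ¬ Cfsg.Geo.IsPlusTypeOn (Cfsg.quadFormOdd d F) W) ∧ W.map (Matrix.toLin' (x : Matrix (Unit ⊕ (Fin d ⊕ Fin d)) (Unit ⊕ (Fin d ⊕ Fin d)) F)) ≤ W) ↔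
    (r = 2 ∨
     (r ≠ p ∧ 2 < r ∧ Odd i ∧ c ≤ m ∧ 0 < m % c ∧ m % c < (2 * d + 1) % c) ∨
     (r ≠ p ∧ 2 < r ∧ Even i ∧ i ≤ m ∧ m % c < (2 * d + 1) % c ∧ (0 < m % c ∨ Odd (m / i)))) := by
  subst hq
  have h2 := two_ne_zero_of_odd_card hqodd
  have hQ := nd_QOdd (m := d) h2
  have hG := good_of_two_ne_zero (Q := QOdd d F) h2
  have hn : finrank F (Unit ⊕ (Fin d ⊕ Fin d) → F) = 2 * d + 1 := by simp; omega
  simp only [ns_minus_iff (coe_QOdd d F) hme] at hrΩ ⊢
  rw [hQ.omega_iff' h2 (by simp [parity_simps]) (coe_QOdd d F)]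
  by_cases hr2 : r = 2
  · subst hr2
    rw [hQ.allO_two_nd h2 (by omega) (by omega), II, hn]
    simp
  by_cases hrp : r = p
  · subst hrp
    rw [hQ.allO_odd hG ((Fact.out : r.Prime).odd_of_ne_two hr2)]
    refine iff_of_false (fun H => ?_) (by simp [hr2])
    obtain ⟨g, h3, h4, h5⟩ := hQ.exists_t3 h2 (p := r) (a := 1 - d % 2) (b := d - d % 2) (c := d % 2)
      (by omega) (by omega) (.inl (by omega)) (by omega)
    obtain ⟨U, h6, h7⟩ := H g h3 h4
    obtain ⟨a, h8, b, h9, c, h10, h11, -, h12, -⟩ := h5 U _ _ h6 h7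
    rw [Nat.even_iff] at hme
    exact absurd (h12 (by omega) (by omega)) (by decide)
  have h3 := (Fact.out : r.Prime).two_le
  have hq := card_ne_zero_zmod (F := F) Fact.out hrp
  obtain ⟨y, hy⟩ := exists_neg_one_pow (ty (QOdd d F))
  rw [hQ.qe_nd hr2 hq hi hc hG hn hy (δ := -1) (x := 1) rfl (.inr h2) (by omega) (by omega) hrΩ]
  obtain ⟨-, -, -, -, -, -, h8, -⟩ := lin_facts (hc ▸ cc_pos hq hi : 0 < c) (2 * d + 1) m
  simp only [Nat.even_iff, Nat.odd_iff] at *
  rcases Nat.mod_two_eq_zero_or_one i with h | h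
  · obtain rfl : c = i := by simp [hc, h]
    rw [show (c + 1) % 2 = 1 by omega]
    generalize (2 * d + 1) / c = n', (2 * d + 1) % c = k, m / c = m', m % c = l at *
    omega
  · obtain rfl : c = 2 * i := by simp [hc, h]
    rw [show (i + 1) % 2 = 0 by omega]
    generalize (2 * d + 1) / (2 * i) = n', (2 * d + 1) % (2 * i) = k, m / (2 * i) = m', m % (2 * i) = l at *
    omega

end Cfsg.Agent.S5993
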