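import Cfsg.Statements.S5994
import Cfsg.Agent.H13.EO7

set_option autoImplicit false
open scoped MatrixGroups
open Cfsg

namespace Cfsg.Agent.S5994

open H13 Module

/-- A necessary condition for every element of order p of PΩ⁻_n(q), q odd, to fix an elliptic `m`-space. Here `T = PΩ⁻_n(F)`, `n = 2d ≥ 8`, realised through `Ω⁻_n(q)`, the commutator subgroup of the isometry group of `Q = Σ_{i<d−1} xᵢyᵢ + z₁² + a z₁z₂ + b z₂²` with `z₁² + a z₁z₂ + b z₂²` anisotropic, over the field `F` with `q` elements; an element of `T` of prime order `r` is an element `x` of `Ω⁻_n(q)` with `x^r` scalar and `x` not scalar; `q` is odd; a nondegenerate `m`-space (even `m`) is a subspace on which the polar form of `Q` is nondegenerate; it is hyperbolic if it contains an `m/2`-dimensional subspace on which `Q` vanishes, elliptic otherwise. Let `m` be even with `2 ≤ m ≤ n − 2` and suppose `p` divides the number of elliptic `m`-spaces.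 If every element of `T` of order `p` fixes some elliptic `m`-space, then `n ≡ m (mod 4)` and every partition of `n` into parts of size at most `p` in which every even part has even multiplicity contains (as a sub-multiset) a partition of `m` in which every even part has even multiplicity. -/
theorem result {F : Type*} [Field F] [Fintype F] {p : ℕ} [Fact p.Prime] [CharP F p] {q : ℕ} (hq : Fintype.card F = q) (hqodd : Odd q)
    (d m : ℕ) (hd : 4 ≤ d) (hm : 2 ≤ m) (hme : Even m) (hmn : m + 2 ≤ 2 * d) (a b : F) (hab : ∀ x y : F, x ^ 2 + a * x * y + b * y ^ 2 = 0 → x = 0 ∧ y = 0)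
    (hpΩ : p ∣ Nat.card {W : Submodule F ((Fin (d - 1) ⊕ Fin (d - 1)) ⊕ Fin 2 → F) // Module.finrank F ↥W = m ∧ Cfsg.Geo.IsNondegenerateOn (QuadraticMap.polar (Cfsg.quadFormMinus (d - 1) F a b)) W ∧ ¬ Cfsg.Geo.IsPlusTypeOn (Cfsg.quadFormMinus (d - 1) F a b) W}) :
    (∀ x : GL ((Fin (d - 1) ⊕ Fin (d - 1)) ⊕ Fin 2) F, x ∈ Cfsg.Geo.omegaGL (Cfsg.quadFormMinus (d - 1) F a b) →
      (∃ z : F, ((x ^ p : GL ((Fin (d - 1) ⊕ Fin (d - 1)) ⊕ Fin 2) F) : Matrix ((Fin (d - 1) ⊕ Fin (d - 1)) ⊕ Fin 2) ((Fin (d - 1) ⊕ Fin (d - 1)) ⊕ Fin 2) F) = z • (1 : Matrix ((Fin (d - 1) ⊕ Fin (d - 1)) ⊕ Fin 2) ((Fin (d - 1) ⊕ Fin (d - 1)) ⊕ Fin 2) F)) →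
      (∀ z : F, (x : Matrix ((Fin (d - 1) ⊕ Fin (d - 1)) ⊕ Fin 2) ((Fin (d - 1) ⊕ Fin (d - 1)) ⊕ Fin 2) F) ≠ z • (1 : Matrix ((Fin (d - 1) ⊕ Fin (d - 1)) ⊕ Fin 2) ((Fin (d - 1) ⊕ Fin (d - 1)) ⊕ Fin 2) F)) →
      ∃ W : Submodule F ((Fin (d - 1) ⊕ Fin (d - 1)) ⊕ Fin 2 → F), (Module.finrank F ↥W = m ∧ Cfsg.Geo.IsNondegenerateOn (QuadraticMap.polar (Cfsg.quadFormMinus (d - 1) F a b)) W ∧ ¬ Cfsg.Geo.IsPlusTypeOn (Cfsg.quadFormMinus (d - 1) F a b) W) ∧ W.map (Matrix.toLin' (x : Matrix ((Fin (d - 1) ⊕ Fin (d - 1)) ⊕ Fin 2) ((Fin (d - 1) ⊕ Fin (d - 1)) ⊕ Fin 2) F)) ≤ W) →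
    ((2 * d) % 4 = m % 4 ∧ (∀ μ : Multiset ℕ, (∀ e ∈ μ, 0 < e ∧ e ≤ p) → (∀ e : ℕ, Even e → Even (μ.count e)) → μ.sum = 2 * d →
        ∃ ν : Multiset ℕ, ν ≤ μ ∧ ν.sum = m ∧ ∀ e : ℕ, Even e → Even (ν.count e))) := by
  subst hq
  have h2 := two_ne_zero_of_odd_card hqodd
  have hQ := nd_QMinus (m := d - 1) hab
  have hn : finrank F ((Fin (d - 1) ⊕ Fin (d - 1)) ⊕ Fin 2 → F) = 2 * d := by simp; omega
  have hp := three_le_char (p := p) h2
  have hp' := (Fact.out : p.Prime).odd_of_ne_two (by omega)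
  simp only [ns_minus_iff (coe_QMinus (d - 1) F a b) hme]
  rw [hQ.omega_iff (coe_QMinus (d - 1) F a b), hQ.allO_odd (good_of_two_ne_zero h2) hp']
  rw [Nat.even_iff] at hme
  refine fun H => ⟨?_, fun μ h3 h4 h5 => ?_⟩
  · obtain ⟨g, h3, h4, h5⟩ := hQ.exists_t3 h2 (p := p) (a := 1 + d % 2) (b := d - 2 + d % 2)
      (c := 1 - d % 2) (by omega) (by omega) (.inl (by omega)) (by omega)
    obtain ⟨U, h6, h7⟩ := H g h3 h4
    obtain ⟨a, h8, b, h9, c, h10, h11, h12, h13, -⟩ := h5 U _ _ h6 h7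
    simp only [show (-1 : ℤˣ) ≠ 1 by decide, imp_false] at h13
    rcases Nat.mod_two_eq_zero_or_one d with h | h <;> rw [h] at h8 h10 <;>
      rcases (by omega : c = 0 ∨ c = 1) with rfl | rfl <;> omega
  by_cases h : ∃ k ∈ μ, Odd k
  · exact hQ.exists_le_of_all h2 H h3 h4 (h5.trans hn.symm) (.inl h)
  simp only [not_exists, not_and, Nat.not_odd_iff_even] at h
  obtain ⟨k, hk⟩ := Multiset.exists_mem_of_ne_zero (s := μ) (by rintro rfl; simp at h5; omega)
  obtain ⟨μ, rfl⟩ := Multiset.exists_cons_of_mem hk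
  obtain ⟨μ, rfl⟩ := Multiset.exists_cons_of_mem (s := μ) (a := k) (by
    have := Nat.even_iff.1 (h4 k (h k hk))
    rw [Multiset.count_cons_self] at this
    exact Multiset.count_pos.1 (by omega))
  have h6 := h3 k hk
  have h7 := Nat.even_iff.1 (h k hk)
  have h8 : ∀ e ∈ μ, e % 2 = 0 := fun e he => Nat.even_iff.1 (h e (by simp [he]))
  rw [Nat.odd_iff] at hp'
  obtain ⟨ν, h9, h10, h11⟩ := hQ.exists_le_of_all h2 H (μ := (k + 1) ::ₘ (k - 1) ::ₘ μ)
    (by simp only [Multiset.forall_mem_cons] at h3 ⊢; exact ⟨by omega, by omega, h3.2.2⟩)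
    (fun e he => by
      have := h4 e he
      simp only [Multiset.count_cons, Nat.even_iff] at *
      split_ifs at * <;> omega) (by simp at h5 ⊢; omega) (.inl ⟨k + 1, by simp, Nat.odd_iff.2 (by omega)⟩)
  have h12 : ∀ ν ≤ μ, ν.sum % 2 = 0 := fun ν hν => Nat.mod_eq_zero_of_dvd
    (Multiset.dvd_sum fun e he => Nat.dvd_of_mod_eq_zero (h8 e (Multiset.mem_of_le hν he)))
  by_cases h13 : k + 1 ∈ ν
  · obtain ⟨ν, rfl⟩ := Multiset.exists_cons_of_mem h13
    rw [Multiset.cons_le_cons_iff] at h9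
    by_cases h14 : k - 1 ∈ ν
    · obtain ⟨ν, rfl⟩ := Multiset.exists_cons_of_mem h14
      rw [Multiset.cons_le_cons_iff] at h9
      refine ⟨k ::ₘ k ::ₘ ν, by simpa, by simp at h10 ⊢; omega, fun e he => ?_⟩
      have := h11 e he
      simp only [Multiset.count_cons, Nat.even_iff] at *
      split_ifs at * <;> omega
    · have := h12 ν ((Multiset.le_cons_of_notMem h14).1 h9)
      simp at h10; omega
  rw [Multiset.le_cons_of_notMem h13] at h9
  by_cases h14 : k - 1 ∈ ν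
  · obtain ⟨ν, rfl⟩ := Multiset.exists_cons_of_mem h14
    have := h12 ν ((Multiset.cons_le_cons_iff _).1 h9)
    simp at h10; omega
  · exact ⟨ν, ((Multiset.le_cons_of_notMem h14).1 h9).trans
      ((Multiset.le_cons_self _ _).trans (Multiset.le_cons_self _ _)), h10, h11⟩

end Cfsg.Agent.S5994
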