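import Cfsg.Statements.S5995
import Cfsg.Agent.H13.EO7

set_option autoImplicit false
open scoped MatrixGroups
open Cfsg

namespace Cfsg.Agent.S5995

open H13 Module

/-- A necessary condition for every element of order p of Ω_n(q), nq odd, to fix a hyperbolic `m`-space. Here `T = Ω_n(F)`, `n = 2d+1 ≥ 7`, `q` odd, realised as the commutator subgroup of the isometry group of `Q = x₀² + Σ xᵢyᵢ` over the field `F` with `q` elements (trivial centre, so its elements of prime order `r` are used directly); a nondegenerate `m`-space (even `m`) is a subspace on which the polar form of `Q` is nondegenerate; it is hyperbolic if it contains an `m/2`-dimensional subspace on which `Q` vanishes, elliptic otherwise. Let `m` be even with `2 ≤ m ≤ n − 1` and suppose `p` divides the number of hyperbolic `m`-spaces. If every element of `T` of order `p` fixes some hyperbolic `m`-space, then `m ≡ 0 (mod 4)` and every partition of `n` into parts of size at most `p` in which every even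 part has even multiplicity contains (as a sub-multiset) a partition of `m` in which every even part has even multiplicity. -/
theorem result {F : Type*} [Field F] [Fintype F] {p : ℕ} [Fact p.Prime] [CharP F p] {q : ℕ} (hq : Fintype.card F = q) (hqodd : Odd q)
    (d m : ℕ) (hd : 3 ≤ d) (hm : 2 ≤ m) (hme : Even m) (hmn : m ≤ 2 * d)
    (hpΩ : p ∣ Nat.card {W : Submodule F (Unit ⊕ (Fin d ⊕ Fin d) → F) // Module.finrank F ↥W = m ∧ Cfsg.Geo.IsNondegenerateOn (QuadraticMap.polar (Cfsg.quadFormOdd d F)) W ∧ Cfsg.Geo.IsPlusTypeOn (Cfsg.quadFormOdd d F) W}) :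
    (∀ x : GL (Unit ⊕ (Fin d ⊕ Fin d)) F, x ∈ Cfsg.Geo.omegaGL (Cfsg.quadFormOdd d F) → orderOf x = p →
      ∃ W : Submodule F (Unit ⊕ (Fin d ⊕ Fin d) → F), (Module.finrank F ↥W = m ∧ Cfsg.Geo.IsNondegenerateOn (QuadraticMap.polar (Cfsg.quadFormOdd d F)) W ∧ Cfsg.Geo.IsPlusTypeOn (Cfsg.quadFormOdd d F) W) ∧ W.map (Matrix.toLin' (x : Matrix (Unit ⊕ (Fin d ⊕ Fin d)) (Unit ⊕ (Fin d ⊕ Fin d)) F)) ≤ W) →
    (m % 4 = 0 ∧ (∀ μ : Multiset ℕ, (∀ e ∈ μ, 0 < e ∧ e ≤ p) → (∀ e : ℕ, Even e → Even (μ.count e)) → μ.sum = 2 * d + 1 →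
        ∃ ν : Multiset ℕ, ν ≤ μ ∧ ν.sum = m ∧ ∀ e : ℕ, Even e → Even (ν.count e))) := by
  subst hq
  have h2 := two_ne_zero_of_odd_card hqodd
  have hQ := nd_QOdd (m := d) h2
  have hn : finrank F (Unit ⊕ (Fin d ⊕ Fin d) → F) = 2 * d + 1 := by simp; omega
  simp only [ns_plus_iff (coe_QOdd d F) hme]
  rw [hQ.omega_iff' h2 (by simp [parity_simps]) (coe_QOdd d F), hQ.allO_odd (good_of_two_ne_zero h2)
    ((Fact.out : p.Prime).odd_of_ne_two (ne_of_gt (three_le_char h2)))]
  refine fun H => ⟨?_, fun μ h3 h4 h5 => hQ.exists_le_of_all h2 H h3 h4 (h5.trans hn.symm) (.inl ?_)⟩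
  · obtain ⟨g, h3, h4, h5⟩ := hQ.exists_t3 h2 (p := p) (a := 1 - d % 2) (b := d - d % 2) (c := d % 2)
      (by omega) (by omega) (.inl (by omega)) (by omega)
    obtain ⟨U, h6, h7⟩ := H g h3 h4
    obtain ⟨a, h8, b, h9, c, h10, h11, h12, -⟩ := h5 U _ _ h6 h7
    rw [Nat.even_iff] at hme
    rcases (by omega : c = 0 ∨ c = 1) with rfl | rfl <;> omega
  · by_contra! h
    simpa [h5] using (Multiset.dvd_sum fun k hk => (Nat.not_odd_iff_even.1 (h k hk)).two_dvd : 2 ∣ μ.sum)

end Cfsg.Agent.S5995
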