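import Cfsg.Statements.S5997
import Cfsg.Agent.H28.Elu19

set_option autoImplicit false
open scoped MatrixGroups
open Cfsg

namespace Cfsg.Agent.S5997

open H28 H12 H13 Module Matrix

/-- Elements of prime order of PSL_2(p) and the normalizer of a quaternion subgroup. Here `T = PSL_2(F)` for the field `F` with `p` elements, `p ≥ 5` prime; `R` is a subgroup of GL_2(F) isomorphic to the quaternion group of order 8 (an absolutely irreducible 2-group of symplectic type), and `H` is the subgroup of matrices of determinant 1 normalizing `R` — a subgroup of type 2^{1+2}.O₂⁻(2), isomorphic modulo scalars to A₄ or S₄ (maximality is not assumed). Ω is the set of cosets of `H` in `T`, so an element of `T` of prime order `r` (a matrix `x` of determinant 1 with `x^r` scalar, `x` not scalar) fixes a point of Ω exactly when some conjugate of `x` by a matrix of determinant 1 normalizes `R`. Let `r` be a prime dividing the index of `H`. Then every element of `T` of order `r` fixes a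 point of Ω if and only if `r = 2` or `r = 3`. -/
theorem result {F : Type*} [Field F] [Fintype F] {p : ℕ} [Fact p.Prime] [CharP F p] (hF : Fintype.card F = p) (hp : 5 ≤ p)
    (R : Subgroup (GL (Fin 2) F)) (hR : Nonempty (↥R ≃* QuaternionGroup 2))
    (r : ℕ) [Fact r.Prime]
    (hΩ : r ∣ (Cfsg.Geo.subgroupNormalizer R).relIndex (Cfsg.Geo.specialLinear (Fin 2) F)) :
    (∀ x ∈ Cfsg.Geo.specialLinear (Fin 2) F, (∃ z : F, ((x ^ r : GL (Fin 2) F) : Matrix (Fin 2) (Fin 2) F) = z • (1 : Matrix (Fin 2) (Fin 2) F)) →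
      (∀ z : F, (x : Matrix (Fin 2) (Fin 2) F) ≠ z • (1 : Matrix (Fin 2) (Fin 2) F)) →
      ∃ g ∈ Cfsg.Geo.specialLinear (Fin 2) F, g⁻¹ * x * g ∈ Cfsg.Geo.subgroupNormalizer R) ↔ (r = 2 ∨ r = 3) := by
  obtain ⟨φ⟩ := hR
  have hc : ∀ k : ℕ, 0 < k → k < 5 → (k : F) ≠ 0 := fun k h1 h2 e =>
    absurd (Nat.le_of_dvd h1 ((CharP.cast_eq_zero_iff F p k).1 e)) (by omega)
  have h2 : (2 : F) ≠ 0 := hc 2 (by decide) (by decide)
  obtain ⟨i, j, z, e1, e2, e3, e4, e5, e6⟩ : ∃ i j z : R, i * i = z ∧ j * j = z ∧ i * j = z * (j * i) ∧ z ≠ 1 ∧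
      (∀ g h : R, g * h = h * g ∨ g * h = z * (h * g)) ∧ ∀ g : R, g ^ 4 = 1 := by
    refine ⟨φ.symm (.a 1), φ.symm (.xa 0), φ.symm (.a 2), ?_, ?_, ?_, ?_, φ.symm.surjective.forall₂.2 ?_,
      φ.symm.surjective.forall.2 ?_⟩ <;>
    simp only [← map_mul, ← map_pow, EmbeddingLike.apply_eq_iff_eq, ne_eq, EmbeddingLike.map_eq_one_iff] <;> decide
  have hz : z.1.1 = -1 := by
    have h1 : z.1.1 * z.1.1 = 1 := by
      have := congrArg (·.1.1) (e6 i)
      rwa [show 4 = 2 + 2 from rfl, pow_add, sq, e1] at this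
    have h3 := congrArg (fun g : R => g.1.1.det) e3
    simp only [Subgroup.coe_mul, Units.val_mul, det_mul] at h3
    have h4 : z.1.1.det = 1 := by
      rwa [mul_comm, right_eq_mul₀ (mul_ne_zero j.1.det_ne_zero i.1.det_ne_zero)] at h3
    have h5 := ch_two z.1.1
    rw [h1, h4, one_smul, eq_sub_iff_add_eq, ← two_smul F] at h5
    have h6 : z.1.1.trace ≠ 0 := fun e => by simp [e, h2] at h5
    obtain ⟨c, h7⟩ : ∃ c : F, z.1.1 = c • 1 := ⟨_, by rw [← inv_smul_smul₀ h6 z.1.1, ← h5, smul_smul]⟩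
    rw [h7, smul_mul_assoc, one_mul, smul_smul, ← one_smul F (1 : Matrix _ _ F), smul_smul, mul_one] at h1
    obtain rfl | rfl := mul_self_eq_one_iff.1 (smul_left_injective F one_ne_zero h1)
    · exact absurd (Subtype.ext (Units.ext (by simpa using h7))) e4
    · simpa using h7
  have f1 : i.1.1 * i.1.1 = -1 := hz ▸ congrArg (·.1.1) e1
  have f2 : j.1.1 * j.1.1 = -1 := hz ▸ congrArg (·.1.1) e2
  have f3 : i.1.1 * j.1.1 = -(j.1.1 * i.1.1) := by simpa [hz] using congrArg (·.1.1) e3
  have f4 := tr_zero h2 f3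
  have E : X2 R := ⟨h2, fun g hg h hh => (e5 ⟨g, hg⟩ ⟨h, hh⟩).imp (congrArg fun g : R => g.1.1) fun e => by
    simpa [hz] using congrArg (·.1.1) e, fun M hM => by
      have h1 := congrArg (· * i.1.1) (ch_two' M i.1.1)
      simp only [← hM i i.2, f4, zero_smul, add_zero, add_mul, mul_assoc, f1, smul_mul_assoc, one_mul, mul_neg,
        mul_one] at h1
      generalize (M * i.1.1).trace - M.trace * 0 = c at h1
      have h3 : (2 * c) • (i.1.1 * j.1.1) = 0 := by
        have h4 := congrArg (j.1.1 * ·) h1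
        have h5 := congrArg (· * j.1.1) h1
        simp only [mul_add, add_mul, mul_neg, neg_mul, smul_mul_assoc, mul_smul_comm, one_mul, mul_one, hM j j.2] at h4 h5
        linear_combination (norm := module) h4 - h5 + c • f3
      have h4 : c = 0 := (mul_eq_zero.1 ((smul_eq_zero.1 h3).resolve_right (i.1 * j.1).ne_zero)).resolve_left h2
      exact ⟨2⁻¹ * M.trace, by
        rw [← smul_smul, eq_inv_smul_iff₀ h2]; rw [h4] at h1; linear_combination (norm := module) -h1⟩,
    fun g hg => congrArg (·.1) (e6 ⟨g, hg⟩)⟩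
  change ELG _ _ r ↔ _
  refine ⟨two_or_three (.inl rfl) ((Nat.card_congr φ.toEquiv).trans (by simp [QuaternionGroup.card])) (by simp) E.cen z.2
    (by simpa using e4) (H18.mem_scalars_of_eq_smul (c := -1) (by simp [hz])) le_rfl hΩ, fun h => ?_⟩
  refine (el_iff Fact.out (by omega : r = 2 ∨ r ≠ p)).2 fun a h1 h3 => ?_
  obtain ⟨A, rfl⟩ := toLin'.surjective a
  rw [LinearMap.det_toLin'] at h1
  obtain ⟨⟨c, h4⟩, h5⟩ := (po_toLin' _ _).1 h3
  have h6 := ch_two A
  have h7 : ∀ s t : F, s • A = t • 1 → s = 0 := fun s t e => by_contra fun e' =>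
    h5 (s⁻¹ * t) (by rw [← smul_smul, ← e, inv_smul_smul₀ e'])
  rw [h1] at h6
  have hB : ∀ g ∈ R, Pres (0 : _ →ₛₗ[RingHom.id F] _) (toLin' g.1) := fun _ _ _ _ => rfl
  obtain rfl | rfl := h
  · have h8 := h7 A.trace (c + 1) (by rw [sq] at h4; linear_combination (norm := module) h4 - h6)
    have h9 := ch_two i.1.1
    rw [f1, f4, zero_smul, zero_sub, neg_inj, ← one_smul F (1 : Matrix _ _ F), smul_smul, mul_one] at h9
    rw [h8, zero_smul, zero_sub, one_smul] at h6
    exact ((NS.of_mem hB i.2).ci four_ne_zero (congrArg (·.1.1) (e6 i))).of_sim (sim_two (hc 4 (by decide) (by decide))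
      (by rw [show 4 = 2 * 2 from rfl, pow_mul, sq A, h6]; simp) (congrArg (·.1.1) (e6 i)) (h8.trans f4.symm)
      (h1.trans (smul_left_injective F one_ne_zero h9)))
  have h8 : A ^ 3 = (A.trace * A.trace - 1) • A - A.trace • 1 := by
    rw [pow_three, h6, mul_sub, mul_smul_comm, h6, mul_smul_comm, mul_one]; module
  have h9 := h7 (A.trace * A.trace - 1) (c + A.trace) (by linear_combination (norm := module) h4 - h8)
  have s1 := qs_trace h2 f3 (M := 1) (by simp) (by simp)
  have s2 := ch_two (qs i.1.1 j.1.1)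
  have s3 := qs_cube h2 f1 f2 f3
  rw [mul_one, trace_one, Fintype.card_fin, Nat.cast_ofNat, neg_mul, inv_mul_cancel₀ h2] at s1
  have s4 : (1 : F) • (1 : Matrix (Fin 2) (Fin 2) F) = (qs i.1.1 j.1.1).det • 1 := by
    rw [s1] at s2; linear_combination (norm := module) qs_sq h2 f1 f2 f3 - s2
  have key : ∀ A : Matrix _ _ F, A ^ 3 = 1 → A.trace = -1 → A.det = 1 → CI (Geo.subgroupNormalizer R) (toLin' A) :=
    fun A h h' h'' => ((E.ns_qs hB i.2 j.2 f1 f2).ci three_ne_zero s3).of_sim (sim_two (hc 3 (by decide) (by decide)) h s3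
      (h'.trans s1.symm) (h''.trans (smul_left_injective F one_ne_zero s4)))
  rw [h9, zero_smul, zero_sub] at h8
  obtain e | e := mul_self_eq_one_iff.1 (sub_eq_zero.1 h9)
  · simpa using (key (-A) (by simp [Odd.neg_pow (by decide : Odd 3), h8, e]) (by simp [e]) (by simp [det_neg, h1])).smul scalars_le_norm (-1) (by simp)
  · exact key A (by simp [h8, e]) e h1

end Cfsg.Agent.S5997
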