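import Cfsg.Statements.S5999
import Cfsg.Agent.H28.Elu20

set_option autoImplicit false
open scoped MatrixGroups
open Cfsg

namespace Cfsg.Agent.S5999

open H28 H12 H13 Module Matrix

theorem t1 : ∀ x : ZMod 81, (x ^ 2 - 1) * (x ^ 3 + 1) = 0 → x.val % 3 = 2 → x.val % 9 = 8 := by decide +kernel

/-- Elements of prime order of PSU_3(p), p ≡ 2 (mod 3), and the normalizer of an extraspecial subgroup of order 27. Here `T = PSU_3(p)` for a prime `p ≥ 5` with `p ≡ 2 (mod 3)`, realised through `SU_3(p)`, the matrices of determinant 1 over the field `F` with `p²` elements preserving the hermitian form `Σ uᵢvᵢ^p`; `R` is a non-abelian subgroup of order 27 and exponent 3 of the full unitary group of that form (an extraspecial group 3^{1+2}, acting absolutely irreducibly), and `H` is the subgroup of `SU_3(p)` normalizing `R` — a subgroup of type 3^{1+2}.Sp₂(3) (maximality is not assumed). Ω is the set of cosets of `H`, so an element of `T` of prime order `r` (`x ∈ SU_3(p)`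 with `x^r` scalar, `x` not scalar) fixes a point of Ω exactly when some `SU_3(p)`-conjugate of `x` normalizes `R`. Let `r` be a prime dividing the index of `H`. Then every element of `T` of order `r` fixes a point of Ω if and only if `r = 2`, or `r = 3` and `p ≡ 8 (mod 9)`. -/
theorem result {F : Type*} [Field F] [Fintype F] {p : ℕ} [Fact p.Prime] [CharP F p] (hF : Fintype.card F = p ^ 2) (hp : 5 ≤ p) (hp3 : p % 3 = 2)
    (R : Subgroup (GL (Fin 3) F)) (hRU : R ≤ Cfsg.GU 3 F p) (hR : Nat.card R = 27) (hRe : Monoid.exponent R = 3) (hRna : ¬ IsMulCommutative R)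
    (r : ℕ) [Fact r.Prime]
    (hΩ : r ∣ (Cfsg.Geo.subgroupNormalizer R).relIndex (Cfsg.GU 3 F p ⊓ Cfsg.Geo.specialLinear (Fin 3) F)) :
    (∀ x ∈ Cfsg.GU 3 F p ⊓ Cfsg.Geo.specialLinear (Fin 3) F, (∃ z : F, ((x ^ r : GL (Fin 3) F) : Matrix (Fin 3) (Fin 3) F) = z • (1 : Matrix (Fin 3) (Fin 3) F)) →
      (∀ z : F, (x : Matrix (Fin 3) (Fin 3) F) ≠ z • (1 : Matrix (Fin 3) (Fin 3) F)) →
      ∃ g ∈ Cfsg.GU 3 F p ⊓ Cfsg.Geo.specialLinear (Fin 3) F, g⁻¹ * x * g ∈ Cfsg.Geo.subgroupNormalizer R) ↔ (r = 2 ∨ (r = 3 ∧ p % 9 = 8)) := by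
  obtain ⟨ω, hω⟩ := exists_prim (F := F) (r := 3) (by
    rw [hF]; exact (Nat.modEq_iff_dvd' (Nat.one_le_pow _ _ (by omega))).1 (by simp [Nat.ModEq, Nat.pow_mod, hp3]))
  obtain ⟨a, b, ω, E⟩ := exists_x3 (by simp) hω hR hRe hRna
  have hB : ∀ g ∈ R, Pres (uB hF 3) (toLin' g.1) := fun g hg => ((ig_u hF 3).iff g).1 (hRU hg)
  change ELG _ _ r ↔ _
  refine ⟨fun h => (E.two_or_three hR inf_le_right hΩ h).imp_right fun e => ⟨e, ?_⟩, ?_⟩
  · subst e
    have hc := card_su hF (n := 3) (by decide)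
    have h1 := E.dvd (le_inf hRU E.le_sl) hR hΩ
    generalize Nat.card ↥(GU 3 F p ⊓ Geo.specialLinear (Fin 3) F) = N at hc h1
    simp only [guOrd, Finset.prod_range_succ, Finset.prod_range_zero] at hc
    norm_num at hc
    rw [Nat.eq_of_mul_eq_mul_left (by omega) (hc.trans (by ring : _ = (p + 1) * (p ^ 3 * ((p ^ 2 - 1) * (p ^ 3 + 1)))))] at h1
    have h2 := (ZMod.natCast_eq_zero_iff _ _).2 ((Nat.Coprime.pow 4 3 ((Nat.coprime_primes Nat.prime_three Fact.out).2
      (by omega))).dvd_of_dvd_mul_left h1)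
    have h3 := t1 p (by simpa [Nat.one_le_pow _ p (by omega)] using h2)
    rw [ZMod.val_natCast] at h3
    omega
  rintro (rfl | ⟨rfl, -⟩)
  · exact el_su (p := p) (by omega) (fun y _ => E.rt_two hB (cast_ne_zero_of_ne Nat.prime_two (by omega : 2 ≠ p)))
      fun z k _ h => by omega
  · refine el_su (p := p) (by omega) (fun y _ h _ => E.rt_three hB h) fun z k h1 h2 h3 => h1.2 1 (one_pow _) ?_
    obtain rfl : k = 1 := by omega
    simpa [Even.neg_pow (by decide : Even 4)] using h3.symm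

end Cfsg.Agent.S5999
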