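import Cfsg.Statements.S6000
import Cfsg.Agent.H28.Elu21

set_option autoImplicit false
open scoped MatrixGroups
open Cfsg

namespace Cfsg.Agent.S6000

open H28 H12 H13 Module Matrix

/-- Elements of prime order of PSL_4(p), p ≡ 1 (mod 4), and the normalizer of a 2-group of symplectic type of order 2⁶. Here `T = PSL_4(F)` for the field `F` with `p` elements, `p` a prime with `p ≡ 1 (mod 4)`; `R` is an absolutely irreducible subgroup of GL_4(F) of order 2⁶ that is a 2-group of symplectic type of exponent 4 with centre of order 4 (the central product of the scalars of order 4 with an extraspecial group 2^{1+4}), and `H` is the subgroup of matrices of determinant 1 normalizing `R` — a subgroup of type 2⁴.Sp₄(2) (maximality is not assumed). Ω is the set of cosets of `H` in `T`, so an element of `T` of prime order `r` (a matrix `x` of determinant 1 with `x^r` scalar, `x` not scalar) fixes a point of Ω exactly when some conjugate of `x` by a matrix of determinant 1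 normalizes `R`. Let `r` be a prime dividing the index of `H`. Then every element of `T` of order `r` fixes a point of Ω if and only if `r = 2`, or `r = 3` and `p ≡ 2 (mod 3)`, or `r = 5` and `p ≡ ±2 (mod 5)` (`p` has multiplicative order 4 modulo 5). -/
theorem result {F : Type*} [Field F] [Fintype F] {p : ℕ} [Fact p.Prime] [CharP F p] (hF : Fintype.card F = p) (hp4 : p % 4 = 1)
    (R : Subgroup (GL (Fin 4) F)) (hR : Cfsg.Geo.IsLinearSymplecticTypeData 2 R) (hR6 : Nat.card R = 2 ^ 6)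
    (r : ℕ) [Fact r.Prime]
    (hΩ : r ∣ (Cfsg.Geo.subgroupNormalizer R).relIndex (Cfsg.Geo.specialLinear (Fin 4) F)) :
    (∀ x ∈ Cfsg.Geo.specialLinear (Fin 4) F, (∃ z : F, ((x ^ r : GL (Fin 4) F) : Matrix (Fin 4) (Fin 4) F) = z • (1 : Matrix (Fin 4) (Fin 4) F)) →
      (∀ z : F, (x : Matrix (Fin 4) (Fin 4) F) ≠ z • (1 : Matrix (Fin 4) (Fin 4) F)) →
      ∃ g ∈ Cfsg.Geo.specialLinear (Fin 4) F, g⁻¹ * x * g ∈ Cfsg.Geo.subgroupNormalizer R) ↔ (r = 2 ∨ (r = 3 ∧ p % 3 = 2) ∨ (r = 5 ∧ orderOf (p : ZMod 5) = 4)) := by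
  have hp : p.Prime := Fact.out
  have hc : ∀ l : ℕ, l.Prime → l ≠ p → (l : F) ≠ 0 := fun l h h' => cast_ne_zero_of_ne h h'
  have hV : finrank F (Fin 4 → F) = 4 := by simp
  have E : X4 R 2 := x4_of (hc 2 Nat.prime_two (by omega)) hR.symplecticType hR.absIrred (by simp) (by
    obtain ⟨-, -, -, -, ⟨h, -⟩ | ⟨-, -, h, -⟩ | ⟨-, -, h, -⟩⟩ := hR.field
    · contradiction
    · exact h
    · simp at h) hR6
  obtain ⟨x, hx, i, e, hi, a, b, c, d, h⟩ := E.exists_m4 E
  have hB : ∀ g ∈ R, Pres (0 : _ →ₛₗ[RingHom.id F] _) (toLin' g.1) := fun _ _ _ _ => rfl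
  change ELG _ _ r ↔ _
  refine ⟨fun H => or_iff_not_imp_left.2 fun h2 => ?_, ?_⟩
  · obtain rfl | rfl := E.three_five h2 hΩ H fun x hx z hz => by simpa [hz] using mem_specialLinear.1 hx
    · refine .inl ⟨rfl, by_contra fun h3 => ?_⟩
      have h4 : 3 ≠ p := by omega
      have h5 : ¬ 3 ∣ p := fun h => h4 ((Nat.prime_dvd_prime_iff_eq Nat.prime_three hp).1 h)
      obtain ⟨ω, hω⟩ := exists_root_cl (hc 3 Nat.prime_three h4)
      obtain ⟨y, h6, h7, -⟩ := exists_fix (V := Fin 4 → F) (M := {ω, ω, ω}) (k := 3) (e := 1) (st_of_fix (by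
        simp [hF, pow_eq_pow_mod p hω.1, show p % 3 = 1 by omega])) (by simp [hω.1]) (by simp)
      obtain ⟨h8, h9, h10⟩ := E.not_three (hc 3 Nat.prime_three h4) hω h6 h7
      exact h10 (EL.ci H y h8 h9)
    refine .inr ⟨rfl, by_contra fun h3 => ?_⟩
    obtain rfl | h4 := eq_or_ne 5 p
    · obtain ⟨u, -, h5, h6, -, -, h7⟩ := exists_tv (p := 5) (e := 2) hV.symm
      exact E.not_tv h6 (by omega) (EL.ci H u h5 h6)
    obtain ⟨ω, hω⟩ := exists_root_cl (hc 5 Nat.prime_five h4)
    obtain ⟨y, h6, h7, -⟩ := exists_fix (V := Fin 4 → F) (M := {ω, ω⁻¹}) (k := 5) (e := 2) (by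
      simpa [hF] using st_pair hω (z := p) (by_contra fun h => h3 (ord_five.2 ⟨fun e => h4 ((Nat.prime_dvd_prime_iff_eq
        Nat.prime_five hp).1 ((ZMod.natCast_eq_zero_iff _ _).1 e)), by simpa using h⟩))) (by simp [hω.1]) (by simp)
    obtain ⟨h8, h9, h10⟩ := E.not_five (hc 5 Nat.prime_five h4) hω h6 h7
    exact h10 (EL.ci H y h8 h9)
  rintro (rfl | ⟨rfl, h1⟩ | ⟨rfl, h1⟩)
  · refine el_lin (p := p) (by omega) (fun y => E.rt_two hB h hx e hi) fun z k h1 h2 h3 => ?_
    obtain rfl : k = 2 := by simp at h2; omega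
    obtain rfl | rfl := sq_eq_one_iff.1 (show z ^ 2 = 1 by linear_combination h3)
    · exact h1 1 (one_pow _)
    · exact h1 i (by rwa [sq])
  · exact el_lin (p := p) (by omega) (fun y h2 h3 => E.rt_three hB h hx e hi (fl_card (hc 3 Nat.prime_three (by omega))
      (ord_three (by rw [hF, ← ZMod.natCast_mod, h1]; rfl))) (fun _ _ => rfl) h2 (by simpa using h3.2 1))
      fun z k _ h => by simp at h; omega
  · have h4 : 5 ≠ p := by rintro rfl; exact (ord_five.1 h1).1 rfl
    exact el_lin h4 (fun y h2 h3 => E.rt_five hB h (fl_card (hc 5 Nat.prime_five h4) (hF ▸ h1)) (fun _ _ => rfl) h2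
      (by simpa using h3.2 1)) fun z k _ h => by simp at h; omega

end Cfsg.Agent.S6000
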