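import Cfsg.Statements.S6001
import Cfsg.Agent.H28.Elu21

set_option autoImplicit false
open scoped MatrixGroups
open Cfsg

namespace Cfsg.Agent.S6001

open H28 H12 H13 Module Matrix

/-- Elements of prime order of PSU_4(p), p ≡ 3 (mod 4), and the normalizer of a 2-group of symplectic type of order 2⁶. Here `T = PSU_4(p)` for a prime `p ≡ 3 (mod 4)`, realised through `SU_4(p)`, the matrices of determinant 1 over the field `F` with `p²` elements preserving the hermitian form `f = Σ uᵢvᵢ^p`; `R` is an absolutely irreducible subgroup of the full unitary group of `f` of order 2⁶ that is a 2-group of symplectic type of exponent 4 with centre of order 4, and `H` is the subgroup of `SU_4(p)` normalizing `R` — a subgroup of type 2⁴.Sp₄(2) (maximality is not assumed). Ω is the set of cosets of `H`, so an element of `T` of prime order `r` (`x ∈ SU_4(p)` with `x^r` scalar, `x` not scalar) fixes a point of Ω exactly when some `SU_4(p)`-conjugate of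 `x` normalizes `R`. Let `r` be a prime dividing the index of `H`. Then every element of `T` of order `r` fixes a point of Ω if and only if `r = 2`, or `r = 3` and `p ≡ 1 (mod 3)`, or `r = 5` and `p ≡ ±2 (mod 5)` (`p` has multiplicative order 4 modulo 5). -/
theorem result {F : Type*} [Field F] [Fintype F] {p : ℕ} [Fact p.Prime] [CharP F p] (hF : Fintype.card F = p ^ 2) (hp4 : p % 4 = 3)
    (R : Subgroup (GL (Fin 4) F)) (hRs : Cfsg.Geo.IsSymplecticTypeGroup 2 R) (hRi : Cfsg.Geo.ActsAbsolutelyIrreducibly (Cfsg.Geo.matrixSet R))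
    (hRU : R ≤ Cfsg.GU 4 F p) (hR6 : Nat.card R = 2 ^ 6) (hRZ : Nat.card (Subgroup.center R) = 4)
    (r : ℕ) [Fact r.Prime]
    (hΩ : r ∣ (Cfsg.Geo.subgroupNormalizer R).relIndex (Cfsg.GU 4 F p ⊓ Cfsg.Geo.specialLinear (Fin 4) F)) :
    (∀ x ∈ Cfsg.GU 4 F p ⊓ Cfsg.Geo.specialLinear (Fin 4) F, (∃ z : F, ((x ^ r : GL (Fin 4) F) : Matrix (Fin 4) (Fin 4) F) = z • (1 : Matrix (Fin 4) (Fin 4) F)) →
      (∀ z : F, (x : Matrix (Fin 4) (Fin 4) F) ≠ z • (1 : Matrix (Fin 4) (Fin 4) F)) →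
      ∃ g ∈ Cfsg.GU 4 F p ⊓ Cfsg.Geo.specialLinear (Fin 4) F, g⁻¹ * x * g ∈ Cfsg.Geo.subgroupNormalizer R) ↔ (r = 2 ∨ (r = 3 ∧ p % 3 = 1) ∨ (r = 5 ∧ orderOf (p : ZMod 5) = 4)) := by
  have hp : p.Prime := Fact.out
  have hc : ∀ l : ℕ, l.Prime → l ≠ p → (l : F) ≠ 0 := fun l h h' => cast_ne_zero_of_ne h h'
  have hV : finrank F (Fin 4 → F) = 4 := by simp
  have E : X4 R 2 := x4_of (hc 2 Nat.prime_two (by omega)) hRs hRi (by simp) hRZ hR6
  obtain ⟨x, hx, i, e, hi, a, b, c, d, h⟩ := E.exists_m4 E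
  have D := sd_uB hF 4
  have hB : ∀ g ∈ R, Pres (uB hF 4) (toLin' g.1) := fun g hg => ((ig_u hF 4).iff g).1 (hRU hg)
  obtain ⟨ρ, hρ, -⟩ := exists_frob_pow hF
  change ELG _ _ r ↔ _
  refine ⟨fun H => or_iff_not_imp_left.2 fun h2 => ?_, ?_⟩
  · obtain rfl | rfl := E.three_five h2 hΩ H fun x hx z hz => by simpa [hz] using mem_specialLinear.1 hx.2
    · refine .inl ⟨rfl, by_contra fun h3 => ?_⟩
      obtain rfl | h4 := eq_or_ne 3 p
      · obtain ⟨u, -, h5, h6, h7, h8, h9⟩ := exists_tv (p := 3) (e := 2) hV.symm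
        obtain ⟨y, e1, e2⟩ := exists_u_jt D (frobq_ne_id hF) (M := jt u) (fun k => jt_pos) (sum_jt h7)
        have e3 : H28.Sim u y := sim_iff_ed.2 ((ed_eq_map h7).trans e2.symm)
        exact E.not_tv h6 (by omega) ((H.ci_su e1 (e3.det_eq ▸ h5) (e3.po h6)).of_sim e3)
      have h5 : ¬ 3 ∣ p := fun h => h4 ((Nat.prime_dvd_prime_iff_eq Nat.prime_three hp).1 h)
      obtain ⟨ω, hω⟩ := exists_root_cl (hc 3 Nat.prime_three h4)
      obtain ⟨y, h6, h7, h8, -⟩ := (per_u h4 h2 hF hρ).exists_end D (N := {ω, ω, ω}) (e := 1) (by simp [PRt, hω])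
        (st_of_fix (by
          simp [pow_eq_pow_mod p hω.1, show p % 3 = 2 by omega, inv_eq_of_mul_eq_one_left ((pow_succ' ω 2).symm.trans hω.1)]))
        (by simp)
      obtain ⟨h8, h9, h10⟩ := E.not_three (hc 3 Nat.prime_three h4) hω h7 h8
      exact h10 (H.ci_su h6 h8 h9)
    refine .inr ⟨rfl, by_contra fun h3 => ?_⟩
    have h4 : 5 ≠ p := by omega
    obtain ⟨ω, hω⟩ := exists_root_cl (hc 5 Nat.prime_five h4)
    obtain ⟨y, h6, h7, h8, -⟩ := (per_u h4 h2 hF hρ).exists_end D (N := {ω, ω⁻¹}) (e := 2) (by simp [PRt, hω]) (st_pair hω (by_contra fun h => h3 (ord_five.2 ⟨fun e => h4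
        ((Nat.prime_dvd_prime_iff_eq Nat.prime_five hp).1 ((ZMod.natCast_eq_zero_iff _ _).1 e)), by simpa using h⟩))) (by simp)
    obtain ⟨h8, h9, h10⟩ := E.not_five (hc 5 Nat.prime_five h4) hω h7 h8
    exact h10 (H.ci_su h6 h8 h9)
  rintro (rfl | ⟨rfl, h1⟩ | ⟨rfl, h1⟩)
  · refine el_su (p := p) (by omega) (fun y _ => E.rt_two hB h hx e hi) fun z k h1 h2 h3 => ?_
    obtain rfl : k = 2 := by omega
    obtain rfl | rfl := sq_eq_one_iff.1 (show z ^ 2 = 1 by linear_combination h3)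
    · exact h1.2 1 (one_pow _) (one_pow _)
    · exact h1.2 i (by rw [pow_eq_pow_mod (n := 4) _ (by grind), show (p + 1) % 4 = 0 by omega, pow_zero]) (by rwa [sq])
  · exact el_su (p := p) (by omega) (fun y h0 h2 h3 => E.rt_three hB h hx e hi (fl_u hF (hc 3 Nat.prime_three (by omega))
      (ord_three (by rw [← ZMod.natCast_mod, h1]; rfl))) h0 h2 (by simpa using h3.2 1)) fun z k _ h => by omega
  · exact el_su (p := p) (by omega) (fun y h0 h2 h3 => E.rt_five hB h (fl_u hF (hc 5 Nat.prime_five (by omega))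
      (ord_five.2 (by simpa using ord_five.1 h1))) h0 h2 (by simpa using h3.2 1)) fun z k _ h => by omega

end Cfsg.Agent.S6001
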