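import Cfsg.Statements.S6002
import Cfsg.Agent.H28.Elu21

set_option autoImplicit false
open scoped MatrixGroups
open Cfsg

namespace Cfsg.Agent.S6002

open H28 H12 H13 Module Matrix

/-- Elements of prime order of PSp_4(p), p odd, and the normalizer of an extraspecial 2-group of order 2⁵ of minus type. Here `T = PSp_4(F)` for the field `F` with `p` elements, `p` an odd prime, realised through the matrices preserving the standard alternating form `f`; `R` is an absolutely irreducible subgroup of `T` (it preserves `f`) that is a 2-group of symplectic type of exponent 4, order 2⁵ and centre of order 2, of minus type (no elementary abelian subgroup of order 2³), and `H` is the subgroup of `T` normalizing `R` — a subgroup of type 2^{1+4}.O₄⁻(2) (maximality is not assumed). Ω is the set of cosets of `H` in `T`, so an element of `T` of prime order `r` (`x ∈ T` with `x^r` scalar, `x` not scalar) fixes a point of Ω exactly when some `T`-conjugate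 of `x` normalizes `R`. Let `r` be a prime dividing the index of `H`. Then every element of `T` of order `r` fixes a point of Ω if and only if `r = 2`, or `r = 5` and `p` has multiplicative order 4 modulo 5. -/
theorem result {F : Type*} [Field F] [Fintype F] {p : ℕ} [Fact p.Prime] [CharP F p] (hF : Fintype.card F = p) (hodd : Odd p)
    (R : Subgroup (GL (Fin 2 ⊕ Fin 2) F)) (hRs : Cfsg.Geo.IsSymplecticTypeGroup 2 R) (hRi : Cfsg.Geo.ActsAbsolutelyIrreducibly (Cfsg.Geo.matrixSet R))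
    (hRf : R ≤ Cfsg.spGL 2 F) (hR5 : Nat.card R = 2 ^ 5) (hRZ : Nat.card (Subgroup.center R) = 2) (hRm : Cfsg.Geo.IsOfMinusType 2 R)
    (r : ℕ) [Fact r.Prime]
    (hΩ : r ∣ (Cfsg.Geo.subgroupNormalizer R).relIndex (Cfsg.spGL 2 F)) :
    (∀ x ∈ Cfsg.spGL 2 F, (∃ z : F, ((x ^ r : GL (Fin 2 ⊕ Fin 2) F) : Matrix (Fin 2 ⊕ Fin 2) (Fin 2 ⊕ Fin 2) F) = z • (1 : Matrix (Fin 2 ⊕ Fin 2) (Fin 2 ⊕ Fin 2) F)) →
      (∀ z : F, (x : Matrix (Fin 2 ⊕ Fin 2) (Fin 2 ⊕ Fin 2) F) ≠ z • (1 : Matrix (Fin 2 ⊕ Fin 2) (Fin 2 ⊕ Fin 2) F)) →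
      ∃ g ∈ Cfsg.spGL 2 F, g⁻¹ * x * g ∈ Cfsg.Geo.subgroupNormalizer R) ↔ (r = 2 ∨ (r = 5 ∧ orderOf (p : ZMod 5) = 4)) := by
  have hp : p.Prime := Fact.out
  have hc : ∀ l : ℕ, l.Prime → l ≠ p → (l : F) ≠ 0 := fun l h h' => cast_ne_zero_of_ne h h'
  have hV : finrank F (Fin 2 ⊕ Fin 2 → F) = 4 := by simp
  have h0 : (2 : F) ≠ 0 := hc 2 Nat.prime_two (by rintro rfl; contradiction)
  have E : X4 R 1 := x4_of h0 hRs hRi (by simp) hRZ hR5
  obtain ⟨a, b, c, d, h⟩ := E.exists_m4' hRm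
  have I := ig_sp (F := F) 2
  have hB : ∀ g ∈ R, Pres (spB _ F) (toLin' g.1) := fun g hg => (I.iff g).1 (hRf hg)
  change ELG _ _ r ↔ _
  refine ⟨fun H => or_iff_not_imp_left.2 fun h2 => ?_, ?_⟩
  · have hI : ∀ {y}, Pres (spB _ F) y → H28.PO r y → CI (Geo.subgroupNormalizer R) y :=
      fun h1 h2 => let ⟨g, h3, _, h4⟩ := I.ci H h1 h2; ⟨g, h3, h4⟩
    have h3 := E.three_five h2 hΩ H fun x hx z hz => by
      have : z * z = 1 := mul_eq_one_of_pres I.sd (by simpa [hz, End.one_eq_id] using (I.iff x).1 hx)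
      linear_combination (z * z + 1) * this
    obtain rfl | h4 := eq_or_ne r p
    · obtain ⟨u, h5, h6, -, h7⟩ := exists_sp_tv I.sd (p := r) (by omega)
      exact absurd (hI h5 h6) (E.not_tv h6 (hV ▸ h7))
    obtain ⟨ω, hω⟩ := exists_root_cl (hc r Fact.out h4)
    have h5 : (p : ZMod r) ≠ 0 := fun e => h4 ((Nat.prime_dvd_prime_iff_eq Fact.out hp).1 ((ZMod.natCast_eq_zero_iff _ _).1 e))
    have key (h6 : (p : ZMod r) ^ 2 = 1) : ∃ y, Pres (spB (Fin 2) F) y ∧ y ^ r = 1 ∧ rts y = {ω, ω⁻¹} + .replicate 2 1 := by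
      have h7 : ω ^ 2 ≠ 1 := fun e => h2 ((Nat.prime_dvd_prime_iff_eq Fact.out Nat.prime_two).1
        ((isPrimitiveRoot_of hω).dvd_of_pow_eq_one _ e))
      obtain ⟨y, e1, e2, e3⟩ := RS.exists I.sd ((rs_of_st (fun _ => rfl) (RingHom.id _) (fun _ => rfl) (M := {ω, ω⁻¹})
        (by simpa [hF] using st_pair hω (z := p) (by simpa using h6)) (by simpa using st_pair hω (z := -1) (by simp))
        (hc r Fact.out h4) (by simp [hω.1]) (.inr (by simp [h7, -sq_eq_one_iff]))).add (rs_replicate (fun _ => rfl) (c := 1) (e := 2) (by simp)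
          fun _ => even_two)) (by simp)
      rw [map_one] at e3
      exact ⟨y, e1, by simpa using e2.pow_eq (r := r) (z := 1) (by simp [e3, hω.1]), e3⟩
    obtain rfl | rfl := h3
    · obtain ⟨y, e1, e2, e3⟩ := key (ZMod.pow_card_sub_one_eq_one h5)
      have e4 : H28.PO 3 y := po_of_rts (z := 1) (by simpa) (by simp [e3]) (by simp [e3]) hω.2
      obtain ⟨-, -, e⟩ | ⟨-, e⟩ := E.tau_eq h2 (hI e1 e4) e2 e4
      · exact absurd rfl (e hRm rfl)
      · rw [e3, (tau_three hω).2] at e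
        exact absurd (by rw [map_natCast]; linear_combination -e)
          ((map_ne_zero (algebraMap F (AlgebraicClosure F))).2 (hc 3 Nat.prime_three h4))
    refine ⟨rfl, by_contra fun h3 => ?_⟩
    obtain ⟨y, e1, e2, e3⟩ := key (by_contra fun h => h3 (ord_five.2 ⟨h5, h⟩))
    obtain ⟨-, h9, h10⟩ := E.not_five (hc 5 Nat.prime_five h4) hω e2 e3
    exact h10 (hI e1 h9)
  rintro (rfl | ⟨rfl, h1⟩)
  · refine I.el_two h0 (fun t h1 h2 => ?_) ⟨a, R.le_normalizer h.ha, hB a h.ha, by rw [sq, ← toLin'_mul', h.aa]; ext; simp⟩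
    obtain rfl : t = 1 := by simp at h2; omega
    obtain ⟨g, e1, e2, e3, e4⟩ := E.inv_c hB h
    exact ⟨g, e1, e2, e3, finrank_range_eq h0 e3 (N := .replicate 2 (-1)) (fun x hx => by
      simp [Multiset.eq_of_mem_replicate hx, neg_one_ne_one_cl h0]) (e4.trans (add_comm _ _))⟩
  · have h4 : 5 ≠ p := by rintro rfl; exact (ord_five.1 h1).1 rfl
    exact I.el_odd h4 (by decide) h0 fun y h5 h2 h3 => E.rt_five hB h (fl_card (hc 5 Nat.prime_five h4) (hF ▸ h1)) h5 h2
      (by simpa using h3.2 1)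

end Cfsg.Agent.S6002
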